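import Cfsg.Statements.S0560
import Cfsg.Agent.H1.Syl
import Cfsg.Agent.H1.SetMul

set_option autoImplicit false
open Pointwise
open Cfsg

namespace Cfsg.Agent.S0560

open scoped commutatorElement Pointwise

/-- Let the finite group G be the product HK of two subgroups and p a prime. Then there are Sylow p-subgroups P of H and Q of K and a Sylow p-subgroup R of G whose underlying set is the product set of P and Q. -/
theorem result {G : Type*} [Group G] [Finite G] (H K : Subgroup G) (hHK : ∀ g : G, ∃ h ∈ H, ∃ k ∈ K, g = h * k) (p : ℕ) [Fact p.Prime] : ∃ (P : Sylow p H) (Q : Sylow p K) (R : Sylow p G), ((R : Subgroup G) : Set G) = (((P : Subgroup H).map H.subtype : Subgroup G) : Set G) * (((Q : Subgroup K).map K.subtype : Subgroup G) : Set G) := by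
  -- Sylow subgroup meeting H and K in Sylow subgroups
  have hmeet : ∀ L : Subgroup G, ∃ R : Sylow p G, CfsgH1.IsSylowOf p ((R : Subgroup G) ⊓ L) L := by
    intro L
    obtain ⟨P⟩ : Nonempty (Sylow p L) := inferInstance
    obtain ⟨R, hR⟩ := (P.2.map L.subtype).exists_le_sylow
    refine ⟨R, P, ?_⟩
    apply le_antisymm
    · exact le_inf hR (Subgroup.map_subtype_le _)
    · have h1 : (P : Subgroup L) = ((R : Subgroup G) ⊓ L).subgroupOf L := by
        symm
        apply P.3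
        · exact (R.2.to_le inf_le_left).comap_of_injective L.subtype Subtype.val_injective
        · intro x hx
          exact ⟨hR ⟨x, hx, rfl⟩, x.2⟩
      rw [h1, Subgroup.map_subgroupOf_eq_of_le inf_le_right]
  obtain ⟨R₁, hR₁⟩ := hmeet H
  obtain ⟨R₂, hR₂⟩ := hmeet K
  obtain ⟨z, hz⟩ := MulAction.exists_smul_eq G R₁ R₂
  -- z = k⁻¹ h
  obtain ⟨h, hh, k, hk, hhk⟩ := hHK z⁻¹
  -- z⁻¹ = h k, z = k⁻¹ h⁻¹;  R' = h⁻¹ • R₁ = k • R₂
  have e1 : (h⁻¹ • R₁ : Sylow p G) = k • R₂ := by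
    rw [← hz, ← mul_smul]
    congr 1
    have : z = (h * k)⁻¹ := by rw [← hhk, inv_inv]
    rw [this]; group
  set R := (h⁻¹ • R₁ : Sylow p G) with hR
  have hRH : CfsgH1.IsSylowOf p ((R : Subgroup G) ⊓ H) H := by
    have h1 := CfsgH1.isSylowOf_conj hR₁ (Subgroup.le_normalizer (H.inv_mem hh))
    have h2 : MulAut.conj h⁻¹ • ((R₁ : Subgroup G) ⊓ H) = (R : Subgroup G) ⊓ H := by
      ext x
      have hx1 : x ∈ (R : Subgroup G) ↔ h⁻¹⁻¹ * x * h⁻¹ ∈ (R₁ : Subgroup G) := by
        rw [← CfsgH1.mem_conj_smul]; rfl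
      have hx2 : x ∈ H ↔ h⁻¹⁻¹ * x * h⁻¹ ∈ H := by
        rw [← CfsgH1.mem_conj_smul, CfsgH1.conj_smul_of_mem (H.inv_mem hh)]
      rw [CfsgH1.mem_conj_smul, Subgroup.mem_inf, Subgroup.mem_inf, hx1, ← hx2]
    rwa [h2] at h1
  have hRK : CfsgH1.IsSylowOf p ((R : Subgroup G) ⊓ K) K := by
    rw [e1]
    have h1 := CfsgH1.isSylowOf_conj hR₂ (Subgroup.le_normalizer hk)
    have h2 : MulAut.conj k • ((R₂ : Subgroup G) ⊓ K) = ((k • R₂ : Sylow p G) : Subgroup G) ⊓ K := by
      ext x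
      have hx1 : x ∈ ((k • R₂ : Sylow p G) : Subgroup G) ↔ k⁻¹ * x * k ∈ (R₂ : Subgroup G) := by
        rw [← CfsgH1.mem_conj_smul]; rfl
      have hx2 : x ∈ K ↔ k⁻¹ * x * k ∈ K := by
        rw [← CfsgH1.mem_conj_smul, CfsgH1.conj_smul_of_mem hk]
      rw [CfsgH1.mem_conj_smul, Subgroup.mem_inf, Subgroup.mem_inf, hx1, ← hx2]
    rwa [h2] at h1
  have hRH' := hRH
  have hRK' := hRK
  obtain ⟨P, hP⟩ := hRH
  obtain ⟨Q, hQ⟩ := hRK
  refine ⟨P, Q, R, ?_⟩
  rw [hP, hQ]
  symm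
  apply Set.eq_of_subset_of_ncard_le _ _ (Set.toFinite _)
  · rintro _ ⟨x, hx, y, hy, rfl⟩
    exact (R : Subgroup G).mul_mem hx.1 hy.1
  · rw [← Nat.card_coe_set_eq, ← Nat.card_coe_set_eq]
    -- compare orders
    have h1 := CfsgH1.isFact_iff_card.1 (show CfsgH1.IsFact H K from hHK)
    have h2 := CfsgH1.card_setMul_mul_card_inf ((R : Subgroup G) ⊓ H) ((R : Subgroup G) ⊓ K)
    have hf : ∀ L : Subgroup G, CfsgH1.IsSylowOf p ((R : Subgroup G) ⊓ L) L → 
        Nat.card ((R : Subgroup G) ⊓ L : Subgroup G) = p ^ (Nat.card L).factorization p := by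
      intro L hL
      obtain ⟨T, hT⟩ := hL
      rw [← hT, ← T.card_eq_multiplicity]
      exact Nat.card_congr ((T : Subgroup L).equivMapOfInjective _ L.subtype_injective).symm.toEquiv
    rw [hf H hRH', hf K hRK', ← pow_add] at h2
    have h3 : (Nat.card G).factorization p + (Nat.card (H ⊓ K : Subgroup G)).factorization p = 
        (Nat.card H).factorization p + (Nat.card K).factorization p := by
      rw [← Finsupp.add_apply, ← Finsupp.add_apply, ← Nat.factorization_mul Nat.card_pos.ne' Nat.card_pos.ne', 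
        ← Nat.factorization_mul Nat.card_pos.ne' Nat.card_pos.ne', h1]
    rw [← h3, pow_add] at h2
    have h4 : Nat.card (((R : Subgroup G) ⊓ H ⊓ ((R : Subgroup G) ⊓ K) : Subgroup G)) ≤ p ^ (Nat.card (H ⊓ K : Subgroup G)).factorization p := by
      have h5 : (((R : Subgroup G) ⊓ H ⊓ ((R : Subgroup G) ⊓ K) : Subgroup G)) ≤ H ⊓ K := 
        le_inf (inf_le_left.trans inf_le_right) (inf_le_right.trans inf_le_right)
      have h6 : IsPGroup p (((R : Subgroup G) ⊓ H ⊓ ((R : Subgroup G) ⊓ K) : Subgroup G)) := R.2.to_le (inf_le_left.trans inf_le_left)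
      obtain ⟨m, hm⟩ := IsPGroup.iff_card.1 h6
      have h7 : p ^ m ∣ Nat.card (H ⊓ K : Subgroup G) := by rw [← hm]; exact Subgroup.card_dvd_of_le h5
      rw [hm]
      apply Nat.pow_le_pow_right (Nat.Prime.pos Fact.out)
      exact (Nat.Prime.pow_dvd_iff_le_factorization Fact.out Nat.card_pos.ne').1 h7
    have h5 : Nat.card (R : Subgroup G) = p ^ (Nat.card G).factorization p := R.card_eq_multiplicity
    have h6 : 0 < p ^ (Nat.card (H ⊓ K : Subgroup G)).factorization p := pow_pos (Nat.Prime.pos Fact.out) _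
    have h7 : 0 < Nat.card (((R : Subgroup G) ⊓ H ⊓ ((R : Subgroup G) ⊓ K) : Subgroup G)) := Nat.card_pos
    change Nat.card (R : Subgroup G) ≤ _
    rw [h5]
    by_contra hlt
    push Not at hlt
    have h8 : Nat.card ((((R : Subgroup G) ⊓ H : Subgroup G) : Set G) * (((R : Subgroup G) ⊓ K : Subgroup G) : Set G) : Set G) * 
        Nat.card (((R : Subgroup G) ⊓ H ⊓ ((R : Subgroup G) ⊓ K) : Subgroup G)) < 
        p ^ (Nat.card G).factorization p * p ^ (Nat.card (H ⊓ K : Subgroup G)).factorization p := 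
      lt_of_lt_of_le (Nat.mul_lt_mul_of_pos_right hlt h7) (Nat.mul_le_mul_left _ h4)
    exact absurd h2 h8.ne

end Cfsg.Agent.S0560
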