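import Cfsg.Statements.S0058
import Cfsg.Agent.H1.CopExtra

set_option autoImplicit false
open Cfsg

namespace Cfsg.Agent.S0058

open scoped commutatorElement Pointwise

/-- Generation by centralisers: when a noncyclic abelian group A normalises K with coprime orders, K is generated by the fixed-point subgroups of the nonidentity elements of A. -/
theorem result {G : Type*} [Group G] [Finite G] (A K : Subgroup G)
    [IsMulCommutative A] (hA : ¬ IsCyclic A) (hAK : A ≤ Subgroup.normalizer (K : Set G)) (hcop : (Nat.card A).Coprime (Nat.card K)) :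
    (⨆ a ∈ {a : G | a ∈ A ∧ a ≠ 1}, K ⊓ Subgroup.centralizer {a}) = K := by
  have hAab : ∀ x ∈ A, ∀ y ∈ A, x * y = y * x := fun x hx y hy => 
    congrArg Subtype.val ((inferInstance : IsMulCommutative A).is_comm.comm (⟨x, hx⟩ : A) ⟨y, hy⟩)
  apply le_antisymm (iSup₂_le fun a ha => inf_le_left)
  -- each invariant Sylow is contained in the join
  have hsol : Group.IsSolvable A := CfsgH1.isSolvable_of_abelian hAab
  set W : Subgroup G := ⨆ a ∈ {a : G | a ∈ A ∧ a ≠ 1}, K ⊓ Subgroup.centralizer {a} with hW
  have hWK : W ≤ K := iSup₂_le fun a ha => inf_le_left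
  have hcard : Nat.card K ∣ Nat.card W := by
    rw [← Nat.factorization_le_iff_dvd Nat.card_pos.ne' Nat.card_pos.ne']
    intro p
    by_cases hp : p.Prime
    · haveI : Fact p.Prime := ⟨hp⟩
      obtain ⟨⟨P, hP, hAP⟩, -⟩ := CfsgH1.coprime_sylow hAK hcop (Or.inl hsol) p
      have hPK := CfsgH1.isSylowOf_le hP
      have hPW : P ≤ W := by
        refine CfsgH1.generated_by_centralizers_pgroup hAab hA hAP (Nat.Coprime.coprime_dvd_right (CfsgH1.card_dvd_card_of_le hPK) hcop)
          (CfsgH1.isSylowOf_isPGroup hP) W ?_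
        intro a ha ha1
        refine le_trans (inf_le_inf_right _ hPK) ?_
        exact le_iSup₂_of_le a ⟨ha, ha1⟩ le_rfl
      have h1 : (Nat.card K).factorization p ≤ (Nat.card P).factorization p := by
        rw [CfsgH1.isSylowOf_iff] at hP
        have h2 : Nat.card P * P.relIndex K = Nat.card K := by
          have := (P.subgroupOf K).card_mul_index
          rwa [CfsgH1.card_subgroupOf hP.1] at this
        rw [← h2, Nat.factorization_mul Nat.card_pos.ne' (fun h => hP.2.2 (by rw [h]; exact dvd_zero p)), Finsupp.add_apply,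
          Nat.factorization_eq_zero_of_not_dvd hP.2.2, add_zero]
      exact h1.trans ((Nat.factorization_le_iff_dvd Nat.card_pos.ne' Nat.card_pos.ne').2 (CfsgH1.card_dvd_card_of_le hPW) p)
    · rw [Nat.factorization_eq_zero_of_not_prime _ hp]
      exact Nat.zero_le _
  exact (CfsgH1.eq_of_le_of_card_le hWK (Nat.le_of_dvd Nat.card_pos hcard)).ge

end Cfsg.Agent.S0058
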