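import Mathlib
import Cfsg.Agent.H7.Syl
import Cfsg.Statements.S1009

set_option autoImplicit false
open Cfsg

namespace Cfsg.Agent.S1009

/-- Brodkey's Theorem: if a finite group has abelian Sylow p-subgroups, then there are two Sylow p-subgroups whose intersection equals the intersection of all Sylow p-subgroups. -/
theorem result {G : Type*} [Group G] [Finite G] (p : ℕ) [Fact p.Prime] (hab : ∀ P : Sylow p G, IsMulCommutative ↥(P : Subgroup G)) : ∃ P Q : Sylow p G, (P : Subgroup G) ⊓ (Q : Subgroup G) = ⨅ R : Sylow p G, (R : Subgroup G) := by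
  classical
  obtain ⟨⟨P, Q⟩, -, hmin⟩ := Set.exists_min_image (Set.univ : Set (Sylow p G × Sylow p G))
    (fun x => Nat.card ↥((x.1 : Subgroup G) ⊓ (x.2 : Subgroup G))) (Set.toFinite _) ⟨Classical.arbitrary _, trivial⟩
  have hmin' : ∀ A B : Sylow p G, Nat.card ↥((P : Subgroup G) ⊓ Q) ≤ Nat.card ↥((A : Subgroup G) ⊓ B) :=
    fun A B => hmin (A, B) trivial
  refine ⟨P, Q, le_antisymm (le_iInf ?_) (le_inf (iInf_le _ P) (iInf_le _ Q))⟩
  intro S
  set D : Subgroup G := (P : Subgroup G) ⊓ (Q : Subgroup G) with hD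
  set N := Subgroup.normalizer (D : Set G) with hN
  have hnorm : ∀ R : Sylow p G, D ≤ R → (R : Subgroup G) ≤ N := by
    intro R hDR r hr
    rw [hN, Subgroup.mem_normalizer_iff]
    intro x
    have hc : ∀ y ∈ (R : Subgroup G), r * y * r⁻¹ = y := by
      intro y hy
      have := (hab R).is_comm.comm (⟨r, hr⟩ : (R : Subgroup G)) ⟨y, hy⟩
      have h2 : r * y = y * r := congrArg Subtype.val this
      rw [h2]; group
    constructor
    · intro hx; rw [hc x (hDR hx)]; exact hx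
    · intro hx
      have h1 := hc _ (R.mul_mem (R.mul_mem (R.inv_mem hr) (hDR hx)) hr)
      have h2 : r * (r⁻¹ * (r * x * r⁻¹) * r) * r⁻¹ = r * x * r⁻¹ := by group
      rw [h2] at h1
      have h3 : x = r * x * r⁻¹ := by
        calc x = r⁻¹ * (r * x * r⁻¹) * r := by group
          _ = r * x * r⁻¹ := h1.symm
      rw [h3]; exact hx
  have hPN := hnorm P inf_le_left
  have hQN := hnorm Q inf_le_right
  have hPs : CfsgH7.IsSyl p (P : Subgroup G) N := (CfsgH7.isSyl_of_sylow P).mono hPN le_top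
  obtain ⟨c, hcN, hc⟩ := hPs.exists_conj_le (S.isPGroup'.to_le inf_le_left : IsPGroup p ↥((S : Subgroup G) ⊓ N)) inf_le_right
  -- S^c ∩ Q ≤ D
  have h1 : CfsgH7.cj c (S : Subgroup G) ⊓ Q ≤ D := by
    refine le_inf ?_ inf_le_right
    refine le_trans ?_ hc
    rw [CfsgH7.cj_inf, CfsgH7.cj_of_mem hcN]
    exact inf_le_inf_left _ hQN
  have h2 : Nat.card D ≤ Nat.card ↥(CfsgH7.cj c (S : Subgroup G) ⊓ Q) := hmin' (c • S) Q
  have h3 := Subgroup.eq_of_le_of_card_ge h1 h2
  have h4 : D ≤ CfsgH7.cj c (S : Subgroup G) := by rw [← h3]; exact inf_le_left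
  have h5 : CfsgH7.cj c D ≤ CfsgH7.cj c (S : Subgroup G) := by
    rw [CfsgH7.cj_of_mem_normalizer hcN]; exact h4
  exact CfsgH7.cj_le_cj.1 h5

end Cfsg.Agent.S1009
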