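import Mathlib
import Cfsg.Agent.H3.Simp
import Cfsg.Statements.S0989

set_option autoImplicit false
open Cfsg

namespace Cfsg.Agent.S0989

theorem order_iff {α : Type*} [Fintype α] [DecidableEq α] {p : ℕ} [hp : Fact p.Prime] (hα : Fintype.card α = p ∨ Fintype.card α = p + 1)
    (g : Equiv.Perm α) : orderOf g = p ↔ g.cycleType = {p} := by
  have h2 := hp.out.two_le
  constructor
  · intro h
    obtain ⟨n, hn⟩ := Equiv.Perm.cycleType_prime_order (σ := g) (by rw [h]; exact hp.out)
    have h1 := g.sum_cycleType
    have h3 := Finset.card_le_univ g.support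
    rw [hn, Multiset.sum_replicate, h, smul_eq_mul] at h1
    have h4 : (n + 1) * p ≤ p + 1 := by
      rw [h1]; rcases hα with h | h <;> omega
    have h5 : n = 0 := by
      by_contra hne
      have : 2 * p ≤ (n + 1) * p := Nat.mul_le_mul_right p (by omega)
      omega
    rw [hn, h5, h]; rfl
  · intro h
    rw [← Equiv.Perm.lcm_cycleType, h]; simp

theorem main {α : Type*} [Fintype α] [DecidableEq α] {p : ℕ} [hp : Fact p.Prime] (hα : Fintype.card α = p ∨ Fintype.card α = p + 1)
    (P : Sylow p (Equiv.Perm α)) : Nat.card P = p ∧ Nat.card ↥(Subgroup.normalizer ((P : Subgroup (Equiv.Perm α)) : Set (Equiv.Perm α))) = p * (p - 1) := by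
  have h2 := hp.out.two_le
  have hfac : ¬ p ∣ (p - 1).factorial := by
    rw [hp.out.dvd_factorial]; omega
  have hcount : Nat.card {g : Equiv.Perm α // orderOf g = p} * p = Nat.card (Equiv.Perm α) := by
    have h1 := Equiv.Perm.card_of_cycleType_mul_eq (α := α) {p}
    rw [if_pos (by
      refine ⟨?_, ?_⟩
      · rw [Multiset.sum_singleton]; rcases hα with h | h <;> omega
      · intro a ha; rw [Multiset.mem_singleton.1 ha]; exact h2)] at h1
    have h3 : (Fintype.card α - ({p} : Multiset ℕ).sum).factorial = 1 := by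
      rw [Multiset.sum_singleton]
      rcases hα with h | h
      · rw [h]; simp
      · rw [h]; simp
    rw [h3] at h1
    simp only [Multiset.prod_singleton, one_mul, Multiset.toFinset_singleton, Finset.prod_singleton, Multiset.count_singleton_self, Nat.factorial_one, mul_one] at h1
    rw [Nat.card_perm, Nat.card_eq_fintype_card (α := α), ← h1]
    congr 1
    rw [Nat.card_eq_fintype_card, Fintype.card_subtype]
    congr 1
    ext g
    simp only [Finset.mem_filter, Finset.mem_univ, true_and]
    exact order_iff hα g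
  have hG : ∃ m, Nat.card (Equiv.Perm α) = p ^ 1 * m ∧ ¬ p ∣ m := by
    rw [Nat.card_perm, Nat.card_eq_fintype_card]
    obtain ⟨q, rfl⟩ : ∃ q, p = q + 1 := ⟨p - 1, by omega⟩
    rcases hα with h | h
    · rw [h]
      exact ⟨q.factorial, by rw [Nat.factorial_succ, pow_one], by simpa using hfac⟩
    · rw [h]
      refine ⟨(q + 1 + 1) * q.factorial, by rw [Nat.factorial_succ, Nat.factorial_succ]; ring, ?_⟩
      intro hd
      rcases hp.out.dvd_mul.1 hd with h1 | h1
      · have h3 : (q + 1) ∣ 1 := (Nat.dvd_add_right (dvd_refl (q + 1))).1 h1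
        have := Nat.le_of_dvd one_pos h3
        omega
      · exact hfac (by simpa using h1)
  obtain ⟨m, hm, hpm⟩ := hG
  have hPc : Nat.card P = p := by rw [CfsgH3.Simp.card_syl hm hpm P, pow_one]
  refine ⟨hPc, ?_⟩
  have h4 := CfsgH3.Simp.card_orderOf P hPc
  have h5 := CfsgH3.Simp.card_norm P
  rw [h4] at hcount
  have hpos : 0 < Nat.card (Sylow p (Equiv.Perm α)) := Nat.card_pos
  apply Nat.eq_of_mul_eq_mul_left hpos
  rw [h5, ← hcount]; ring

/-- In the symmetric group on p or p + 1 letters, p a prime, the normalizer of a Sylow p-subgroup has order p * (p - 1). -/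
theorem result {α : Type*} [Fintype α] [DecidableEq α] (p : ℕ) [Fact p.Prime] (hα : Fintype.card α = p ∨ Fintype.card α = p + 1) (P : Sylow p (Equiv.Perm α)) : Nat.card ↥(Subgroup.normalizer ((P : Subgroup (Equiv.Perm α)) : Set (Equiv.Perm α))) = p * (p - 1) := by
  exact (main hα P).2

end Cfsg.Agent.S0989
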