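import Cfsg.Statements.S0800
import Cfsg.Agent.H9.SLt2

set_option autoImplicit false
open Cfsg

namespace Cfsg.Agent.S0800

open CfsgH7 in
theorem aux {F : Type*} [Field F] [Fintype F] {p : ℕ} [hp : Fact p.Prime] [CharP F p] (g : SL2 F) (hg : Nat.Coprime (orderOf g) p) :
    g = 1 ∨ ((2 : F) ≠ 0 ∧ g = CfsgH9.SLt.m1) ∨ tr2 g ^ 2 ≠ 4 := by
  by_cases h4 : tr2 g ^ 2 = 4
  · by_cases hpm : IsPM g
    · rcases CfsgH9.SLt.isPM_cases hpm with h | h
      · left; exact h
      · by_cases h2 : (2 : F) = 0
        · left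
          rw [h]
          have h3 : (-1 : F) = 1 := by linear_combination -h2
          apply sl2_ext
          · rw [CfsgH9.SLt.m1_00, h3]; rfl
          · rfl
          · rfl
          · rw [CfsgH9.SLt.m1_11, h3]; rfl
        · right; left; exact ⟨h2, h⟩
    · exfalso
      -- `g ^ (2 p) = 1`
      have h5 : (tr2 g - 2) * (tr2 g + 2) = 0 := by linear_combination h4
      have hfin : ∀ x : SL2 F, tr2 x = 2 → x = g ∨ x = CfsgH9.SLt.m1 * g → False := by
        intro x hx hxg
        have h6 := sl2_pow_char (p := p) hx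
        rcases hxg with h | h
        · rw [h] at h6
          have h7 := orderOf_dvd_of_pow_eq_one h6
          have h8 : orderOf g = 1 := Nat.eq_one_of_dvd_coprimes hg dvd_rfl h7
          exact hpm (by rw [orderOf_eq_one_iff.mp h8]; exact isPM_one)
        · have hcomm : Commute (CfsgH9.SLt.m1 : SL2 F) g := CfsgH9.SLt.m1_comm g
          rw [h, hcomm.mul_pow] at h6
          have h7 : (g ^ 2) ^ p = 1 := by
            have h8 : g ^ p = (CfsgH9.SLt.m1 ^ p)⁻¹ := by rw [eq_inv_iff_mul_eq_one, ← (hcomm.pow_pow p p).eq]; exact h6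
            rw [← pow_mul, mul_comm, pow_mul, h8, inv_pow, ← pow_mul, mul_comm, pow_mul, pow_two, CfsgH9.SLt.m1_mul_m1, one_pow, inv_one]
          have h8 := orderOf_dvd_of_pow_eq_one h7
          have h9 : orderOf (g ^ 2) = 1 := by
            refine Nat.eq_one_of_dvd_coprimes hg ?_ h8
            exact orderOf_pow_dvd 2
          have h10 : g * g = 1 := by rw [← pow_two]; exact orderOf_eq_one_iff.mp h9
          by_cases h2 : (2 : F) = 0
          · -- char 2
            have hp2 : p = 2 := by
              have := (CharP.cast_eq_zero_iff F p 2).mp (by exact_mod_cast h2)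
              exact (Nat.prime_dvd_prime_iff_eq hp.out Nat.prime_two).mp this
            rw [hp2] at hg
            have h11 : orderOf g ∣ 2 := orderOf_dvd_of_pow_eq_one (by rw [pow_two]; exact h10)
            have h12 : orderOf g = 1 := Nat.eq_one_of_dvd_coprimes hg dvd_rfl h11
            exact hpm (by rw [orderOf_eq_one_iff.mp h12]; exact isPM_one)
          · exact hpm (isPM_of_sq h2 h10)
      rcases mul_eq_zero.mp h5 with h | h
      · exact hfin g (sub_eq_zero.mp h) (Or.inl rfl)
      · refine hfin (CfsgH9.SLt.m1 * g) ?_ (Or.inr rfl)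
        rw [tr2, CfsgH9.SLt.m1_mul_apply, CfsgH9.SLt.m1_mul_apply]
        rw [tr2] at h
        linear_combination -h
  · right; right; exact h4

/-- Tori of SL_2(q): if g ∈ SL_2(q) has order coprime to the characteristic p, then the order of g divides q − 1 or q + 1. -/
theorem result {F : Type*} [Field F] [Fintype F] {q : ℕ} (hF : Fintype.card F = q) (p : ℕ) [Fact p.Prime] [CharP F p] (g : Matrix.SpecialLinearGroup (Fin 2) F) (hg : Nat.Coprime (orderOf g) p) : orderOf g ∣ q - 1 ∨ orderOf g ∣ q + 1 := by
  rcases aux (p := p) g hg with h | ⟨h2, h⟩ | h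
  · left; rw [h, orderOf_one]; exact one_dvd _
  · left
    have h3 : orderOf g ∣ 2 := orderOf_dvd_of_pow_eq_one (by rw [h, pow_two]; exact CfsgH9.SLt.m1_mul_m1)
    refine h3.trans ?_
    have h4 : Fintype.card F % 2 = 1 := by
      apply FiniteField.odd_card_of_char_ne_two
      intro h5
      apply h2
      have := ringChar.Nat.cast_ringChar (R := F)
      rw [h5] at this
      exact_mod_cast this
    rw [hF] at h4
    omega
  · obtain ⟨n, hn, hcard, -, -, -⟩ := CfsgH9.SLt.exists_torus g h
    have h3 : orderOf g ∣ n := by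
      rw [← hcard]
      have h4 := orderOf_dvd_natCard (⟨g, CfsgH7.mem_cen_self g⟩ : ↥(CfsgH7.cen g))
      rwa [← Subgroup.orderOf_coe] at h4
    rw [hF] at hn
    rcases hn with hn | hn
    · left; rw [← hn]; exact h3
    · right; rw [← hn]; exact h3

end Cfsg.Agent.S0800
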