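import Cfsg.Statements.S0276
import Cfsg.Agent.H9.SLt4

set_option autoImplicit false
open Cfsg

namespace Cfsg.Agent.S0276

open CfsgH7 CfsgH9.SLt in
theorem part (q : ℕ) (hq : q % 8 = 3 ∨ q % 8 = 5) (N : ℕ) (hN : 2 * N = q * (q - 1) * (q + 1)) : 4 ∣ N ∧ ¬ 8 ∣ N := by
  obtain ⟨k, hk⟩ : ∃ k, q = 8 * k + 3 ∨ q = 8 * k + 5 := ⟨q / 8, by omega⟩
  rcases hk with rfl | rfl
  · have e1 : 8 * k + 3 - 1 = 8 * k + 2 := by omega
    rw [e1] at hN
    have e2 : N = 4 * ((8 * k + 3) * (4 * k + 1) * (2 * k + 1)) := by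
      apply Nat.eq_of_mul_eq_mul_left (show 0 < 2 by norm_num)
      rw [hN]; ring
    refine ⟨⟨_, e2⟩, ?_⟩
    rintro ⟨m, hm⟩
    have h3 : (8 * k + 3) * (4 * k + 1) * (2 * k + 1) = 2 * m := by omega
    have h4 : ((8 * k + 3) * (4 * k + 1) * (2 * k + 1)) % 2 = 1 := by
      rw [Nat.mul_mod, Nat.mul_mod (8 * k + 3)]
      have a1 : (8 * k + 3) % 2 = 1 := by omega
      have a2 : (4 * k + 1) % 2 = 1 := by omega
      have a3 : (2 * k + 1) % 2 = 1 := by omega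
      rw [a1, a2, a3]
    omega
  · have e1 : 8 * k + 5 - 1 = 8 * k + 4 := by omega
    rw [e1] at hN
    have e2 : N = 4 * ((8 * k + 5) * (2 * k + 1) * (4 * k + 3)) := by
      apply Nat.eq_of_mul_eq_mul_left (show 0 < 2 by norm_num)
      rw [hN]; ring
    refine ⟨⟨_, e2⟩, ?_⟩
    rintro ⟨m, hm⟩
    have h3 : (8 * k + 5) * (2 * k + 1) * (4 * k + 3) = 2 * m := by omega
    have h4 : ((8 * k + 5) * (2 * k + 1) * (4 * k + 3)) % 2 = 1 := by
      rw [Nat.mul_mod, Nat.mul_mod (8 * k + 5)]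
      have a1 : (8 * k + 5) % 2 = 1 := by omega
      have a2 : (2 * k + 1) % 2 = 1 := by omega
      have a3 : (4 * k + 3) % 2 = 1 := by omega
      rw [a1, a2, a3]
    omega

open CfsgH7 CfsgH9.SLt in
theorem card_syl {F : Type*} [Field F] [Fintype F] {q : ℕ} (hF : Fintype.card F = q) (hq : q % 8 = 3 ∨ q % 8 = 5)
    (P : Sylow 2 (Matrix.ProjectiveSpecialLinearGroup (Fin 2) F)) : Nat.card (P : Subgroup (Matrix.ProjectiveSpecialLinearGroup (Fin 2) F)) = 4 := by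
  have hF' : Fact (Nat.Prime 2) := ⟨Nat.prime_two⟩
  have h2 : (2 : F) ≠ 0 := two_ne_zero_of_card (by rw [hF, Nat.odd_iff]; omega)
  have h3 := card_PSL2 (F := F) h2
  rw [card_SL2, hF] at h3
  obtain ⟨h4, h8⟩ := part q hq _ h3
  rw [Sylow.card_eq_multiplicity]
  have hpos : Nat.card (Matrix.ProjectiveSpecialLinearGroup (Fin 2) F) ≠ 0 := Nat.card_pos.ne'
  have h5 : (Nat.card (Matrix.ProjectiveSpecialLinearGroup (Fin 2) F)).factorization 2 = 2 := by
    apply le_antisymm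
    · by_contra hcon
      apply h8
      rw [show (8 : ℕ) = 2 ^ 3 from rfl, Nat.prime_two.pow_dvd_iff_le_factorization hpos]
      omega
    · rw [← Nat.prime_two.pow_dvd_iff_le_factorization hpos]
      exact h4
  rw [h5]; norm_num

open CfsgH7 CfsgH9.SLt in
/-- for `q ≡ ±3 mod 8` a Klein four-group is a Sylow subgroup -/
theorem conj_syl {F : Type*} [Field F] [Fintype F] {q : ℕ} (hF : Fintype.card F = q) (hq : q % 8 = 3 ∨ q % 8 = 5)
    (P : Sylow 2 (Matrix.ProjectiveSpecialLinearGroup (Fin 2) F)) {V : Subgroup (Matrix.ProjectiveSpecialLinearGroup (Fin 2) F)}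
    (hV : IsKleinFour V) : ∃ g : Matrix.ProjectiveSpecialLinearGroup (Fin 2) F, (P : Subgroup _) = V.map (MulAut.conj g).toMonoidHom := by
  have hF' : Fact (Nat.Prime 2) := ⟨Nat.prime_two⟩
  have hp : IsPGroup 2 V := IsPGroup.of_card (n := 2) (by rw [hV.card_four]; norm_num)
  obtain ⟨Q, hQ⟩ := hp.exists_le_sylow
  have h1 : V = (Q : Subgroup _) := Subgroup.eq_of_le_of_card_ge hQ (by rw [card_syl hF hq Q, hV.card_four])
  obtain ⟨g, hg⟩ := MulAction.exists_smul_eq (Matrix.ProjectiveSpecialLinearGroup (Fin 2) F) Q P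
  refine ⟨g, ?_⟩
  rw [h1, ← hg]
  rfl

/-- For q = 3 or 5 mod 8 the Sylow 2-subgroups of PSL_2(q) are elementary abelian of order 4. -/
theorem result {F : Type*} [Field F] [Fintype F] {q : ℕ} (hF : Fintype.card F = q) (hq : q % 8 = 3 ∨ q % 8 = 5) (P : Sylow 2 (Matrix.ProjectiveSpecialLinearGroup (Fin 2) F)) : IsKleinFour (P : Subgroup (Matrix.ProjectiveSpecialLinearGroup (Fin 2) F)) := by
  have h2 : (2 : F) ≠ 0 := CfsgH9.SLt.two_ne_zero_of_card (by rw [hF, Nat.odd_iff]; omega)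
  obtain ⟨i, j, hij⟩ := CfsgH9.SLt.exists_q8 (F := F)
  have hK := CfsgH9.SLt.isKleinFour_KV h2 (x := i) (y := j) hij
  obtain ⟨g, hg⟩ := conj_syl hF hq P hK
  have e := Subgroup.equivMapOfInjective (CfsgH9.SLt.KV (x := i) (y := j) hij) (MulAut.conj g).toMonoidHom (MulAut.conj g).injective
  rw [hg]
  exact ⟨by rw [Nat.card_congr e.symm.toEquiv]; exact hK.card_four, by rw [Monoid.exponent_eq_of_mulEquiv e.symm]; exact hK.exponent_two⟩

end Cfsg.Agent.S0276
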