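import Cfsg.Statements.S0807
import Cfsg.Agent.H9.SLt4

set_option autoImplicit false
open Cfsg

namespace Cfsg.Agent.S0807

open CfsgH7 CfsgH9.SLt in
theorem card_fib {F : Type*} [Field F] [Fintype F] (h2 : (2 : F) ≠ 0) (S : Set (Matrix.ProjectiveSpecialLinearGroup (Fin 2) F)) :
    Nat.card {x : SL2 F // pr x ∈ S} = 2 * Nat.card S := by
  have h := Nat.card_congr (QuotientGroup.preimageMkEquivSubgroupProdSet (Subgroup.center (SL2 F)) S)
  rw [Nat.card_prod, card_center h2] at h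
  exact h

open CfsgH7 CfsgH9.SLt in
theorem card_fib2 {F : Type*} [Field F] [Fintype F] (h2 : (2 : F) ≠ 0)
    (S : Set (Matrix.ProjectiveSpecialLinearGroup (Fin 2) F × Matrix.ProjectiveSpecialLinearGroup (Fin 2) F)) :
    Nat.card {x : SL2 F × SL2 F // (pr x.1, pr x.2) ∈ S} = 4 * Nat.card S := by
  classical
  apply card_of_fib (fun x : {x : SL2 F × SL2 F // (pr x.1, pr x.2) ∈ S} => (⟨(pr x.1.1, pr x.1.2), x.2⟩ : S))
  rintro ⟨⟨a, b⟩, hs⟩
  have e2 : {x : {x : SL2 F × SL2 F // (pr x.1, pr x.2) ∈ S} // (⟨(pr x.1.1, pr x.1.2), x.2⟩ : S) = ⟨(a, b), hs⟩} ≃ {x : SL2 F // pr x ∈ ({a} : Set (Matrix.ProjectiveSpecialLinearGroup (Fin 2) F))} × {x : SL2 F // pr x ∈ ({b} : Set (Matrix.ProjectiveSpecialLinearGroup (Fin 2) F))} :=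
    { toFun := fun x => (⟨x.1.1.1, congrArg (fun s : S => s.1.1) x.2⟩, ⟨x.1.1.2, congrArg (fun s : S => s.1.2) x.2⟩)
      invFun := fun y => ⟨⟨(y.1.1, y.2.1), by
        have e1 : pr y.1.1 = a := y.1.2
        have e2 : pr y.2.1 = b := y.2.2
        rw [e1, e2]; exact hs⟩, Subtype.ext (Prod.ext y.1.2 y.2.2)⟩
      left_inv := fun x => rfl
      right_inv := fun y => rfl }
  rw [Nat.card_congr e2, Nat.card_prod, card_fib h2, card_fib h2]
  simp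

/-- For q odd, twelve times the number of Klein four-subgroups of PSL_2(q) equals the order of PSL_2(q). -/
theorem result {F : Type*} [Field F] [Fintype F] {q : ℕ} (hF : Fintype.card F = q) (hodd : Odd q) : 12 * Nat.card {V : Subgroup (Matrix.ProjectiveSpecialLinearGroup (Fin 2) F) // IsKleinFour V} = Nat.card (Matrix.ProjectiveSpecialLinearGroup (Fin 2) F) := by
  classical
  have h2 := CfsgH9.SLt.two_ne_zero_of_card (F := F) (by rw [hF]; exact hodd)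
  have h3 := CfsgH9.SLt.card_QP (F := F) h2
  have h4 := CfsgH9.SLt.card_PSL2 (F := F) h2
  have h5 : Nat.card {p : CfsgH7.SL2 F × CfsgH7.SL2 F // CfsgH9.SLt.QP p.1 p.2} =
      24 * Nat.card {V : Subgroup (Matrix.ProjectiveSpecialLinearGroup (Fin 2) F) // IsKleinFour V} := by
    apply CfsgH9.SLt.card_of_fib (fun p => ⟨CfsgH9.SLt.KV p.2, CfsgH9.SLt.isKleinFour_KV h2 p.2⟩)
    rintro ⟨V, hV⟩
    have h6 := card_fib2 h2 {p | p.1 ∈ V ∧ p.2 ∈ V ∧ p.1 ≠ 1 ∧ p.2 ≠ 1 ∧ p.1 ≠ p.2}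
    have h6' := CfsgH9.SLt.card_klein_pairs hV
    have h6'' : Nat.card ↥{p : Matrix.ProjectiveSpecialLinearGroup (Fin 2) F × Matrix.ProjectiveSpecialLinearGroup (Fin 2) F | p.1 ∈ V ∧ p.2 ∈ V ∧ p.1 ≠ 1 ∧ p.2 ≠ 1 ∧ p.1 ≠ p.2} = 6 := h6'
    rw [show 24 = 4 * 6 from rfl, ← h6'', ← h6]
    refine Nat.card_congr
      { toFun := fun p => ⟨p.1.1, ?_⟩
        invFun := fun x => ⟨⟨x.1, CfsgH9.SLt.qp_of_klein h2 hV x.2.1 x.2.2.1 x.2.2.2.1 x.2.2.2.2.1 x.2.2.2.2.2⟩, ?_⟩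
        left_inv := fun p => rfl
        right_inv := fun x => rfl }
    · have h7 : CfsgH9.SLt.KV p.1.2 = V := congrArg Subtype.val p.2
      have e1 := CfsgH9.SLt.left_mem_KV p.1.2
      have e2 := CfsgH9.SLt.right_mem_KV p.1.2
      rw [h7] at e1 e2
      exact ⟨e1, e2, p.1.2.pr_ne_one h2, p.1.2.symm.pr_ne_one h2, p.1.2.pr_ne h2⟩
    · apply Subtype.ext
      exact CfsgH9.SLt.KV_eq h2 hV (CfsgH9.SLt.qp_of_klein h2 hV x.2.1 x.2.2.1 x.2.2.2.1 x.2.2.2.2.1 x.2.2.2.2.2) x.2.1 x.2.2.1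
  rw [h3, ← h4] at h5
  omega

end Cfsg.Agent.S0807
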