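import Cfsg.Statements.S0253
import Cfsg.Agent.S0807
import Cfsg.Agent.H9.Recog

set_option autoImplicit false
open Cfsg

namespace Cfsg.Agent.S0253

/-- PSL_2(5) is isomorphic to A_5. -/
theorem result {F : Type*} [Field F] [Fintype F] (hF : Fintype.card F = 5) : Nonempty (Matrix.ProjectiveSpecialLinearGroup (Fin 2) F ≃* alternatingGroup (Fin 5)) := by
  classical
  have h1 := Cfsg.Agent.S0807.result hF (by decide)
  have h2 : (2 : F) ≠ 0 := CfsgH9.SLt.two_ne_zero_of_card (by rw [hF]; decide)
  have h3 := CfsgH9.SLt.card_PSL2 (F := F) h2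
  rw [CfsgH9.SLt.card_SL2, hF] at h3
  have h4 : Nat.card (Matrix.ProjectiveSpecialLinearGroup (Fin 2) F) = 60 := by omega
  have : IsSimpleGroup (Matrix.ProjectiveSpecialLinearGroup (Fin 2) F) :=
    Matrix.ProjectiveSpecialLinearGroup.rank_two_simple (by rw [Nat.card_eq_fintype_card, hF]; norm_num)
  let α := {V : Subgroup (Matrix.ProjectiveSpecialLinearGroup (Fin 2) F) // IsKleinFour V}
  have hα : Nat.card α = 5 := by
    change 12 * Nat.card α = _ at h1
    omega
  have hconj : ∀ (g : Matrix.ProjectiveSpecialLinearGroup (Fin 2) F) (V : Subgroup (Matrix.ProjectiveSpecialLinearGroup (Fin 2) F)),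
      IsKleinFour V → IsKleinFour (V.map (MulAut.conj g).toMonoidHom : Subgroup _) := by
    intro g V hV
    have e := Subgroup.equivMapOfInjective V (MulAut.conj g).toMonoidHom (MulAut.conj g).injective
    exact ⟨by rw [Nat.card_congr e.symm.toEquiv]; exact hV.card_four, by rw [Monoid.exponent_eq_of_mulEquiv e.symm]; exact hV.exponent_two⟩
  let act : MulAction (Matrix.ProjectiveSpecialLinearGroup (Fin 2) F) α :=
    { smul := fun g V => ⟨V.1.map (MulAut.conj g).toMonoidHom, hconj g V.1 V.2⟩
      one_smul := fun V => Subtype.ext (by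
        change V.1.map (MulAut.conj 1).toMonoidHom = V.1
        rw [map_one]; exact Subgroup.map_id _)
      mul_smul := fun g h V => Subtype.ext (by
        change V.1.map (MulAut.conj (g * h)).toMonoidHom = (V.1.map (MulAut.conj h).toMonoidHom).map (MulAut.conj g).toMonoidHom
        rw [Subgroup.map_map, map_mul]; rfl) }
  -- the kernel
  have hker : (MulAction.toPermHom (Matrix.ProjectiveSpecialLinearGroup (Fin 2) F) α).ker = ⊥ := by
    rcases (MulAction.toPermHom (Matrix.ProjectiveSpecialLinearGroup (Fin 2) F) α).normal_ker.eq_bot_or_eq_top with h | h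
    · exact h
    · exfalso
      -- then a Klein four-group is normal
      have hne : Nonempty α := by
        rw [← not_isEmpty_iff]
        intro hemp
        rw [Nat.card_of_isEmpty] at hα
        omega
      obtain ⟨V, hV⟩ := hne
      have hN : V.Normal := by
        constructor
        intro n hn g
        have hg : g ∈ (MulAction.toPermHom (Matrix.ProjectiveSpecialLinearGroup (Fin 2) F) α).ker := by rw [h]; trivial
        have h5 : MulAction.toPermHom (Matrix.ProjectiveSpecialLinearGroup (Fin 2) F) α g ⟨V, hV⟩ = ⟨V, hV⟩ := by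
          rw [MonoidHom.mem_ker.mp hg]; rfl
        have h6 : V.map (MulAut.conj g).toMonoidHom = V := congrArg Subtype.val h5
        rw [← h6]
        exact ⟨n, hn, rfl⟩
      rcases hN.eq_bot_or_eq_top with h5 | h5
      · have := hV.card_four
        rw [h5] at this
        simp at this
      · have := hV.card_four
        rw [h5, Subgroup.card_top] at this
        omega
  apply CfsgH9.Recog.alt_of_faithful (α := α) hα
  · intro g hg
    have h5 : g ∈ (MulAction.toPermHom (Matrix.ProjectiveSpecialLinearGroup (Fin 2) F) α).ker := by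
      rw [MonoidHom.mem_ker]
      ext a : 1
      exact hg a
    rw [hker] at h5
    exact h5
  · rw [h4]; rfl

end Cfsg.Agent.S0253
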