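import Cfsg.Statements.S0265
import Cfsg.Agent.S0242

set_option autoImplicit false
open Cfsg

namespace Cfsg.Agent.S0265

/-- |PGL_n(q)| = |SL_n(q)|: GL_n modulo its centre (the q-1 non-zero scalars) has the same order as the kernel of det. -/
theorem result {F : Type*} [Field F] [Fintype F] (n : ℕ) : Nat.card (Matrix.ProjGenLinGroup (Fin n) F) = Nat.card (Matrix.SpecialLinearGroup (Fin n) F) := by
  have h3 := Subgroup.card_mul_index (Subgroup.center (Matrix.GeneralLinearGroup (Fin n) F))
  have h4 : Nat.card (Matrix.ProjGenLinGroup (Fin n) F) =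
      (Subgroup.center (Matrix.GeneralLinearGroup (Fin n) F)).index := rfl
  rw [h4]
  rcases Nat.eq_zero_or_pos n with rfl | hn
  · haveI : Subsingleton (Matrix.GeneralLinearGroup (Fin 0) F) := by
      refine ⟨fun a b => Units.ext (Subsingleton.elim _ _)⟩
    haveI : Subsingleton (Matrix.SpecialLinearGroup (Fin 0) F) := by
      refine ⟨fun a b => Subtype.ext (Subsingleton.elim _ _)⟩
    rw [Nat.card_of_subsingleton (1 : Matrix.SpecialLinearGroup (Fin 0) F)]
    have h5 : Nat.card (Matrix.GeneralLinearGroup (Fin 0) F) = 1 := Nat.card_of_subsingleton 1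
    rw [h5] at h3
    exact Nat.eq_one_of_mul_eq_one_left h3
  · haveI : Nonempty (Fin n) := ⟨⟨0, hn⟩⟩
    have h1 := Cfsg.Agent.S0242.result rfl (F := F) n hn
    rw [← Matrix.card_GL_field, ← h3] at h1
    have h5 : Nat.card (Subgroup.center (Matrix.GeneralLinearGroup (Fin n) F)) = Fintype.card F - 1 := by
      rw [Matrix.GeneralLinearGroup.center_eq_range_scalar]
      have h6 : Function.Injective (Matrix.GeneralLinearGroup.scalar (Fin n) : Fˣ →* Matrix.GeneralLinearGroup (Fin n) F) := by
        intro a b hab
        have h7 := congrArg (fun g : Matrix.GeneralLinearGroup (Fin n) F => (g : Matrix (Fin n) (Fin n) F) ⟨0, hn⟩ ⟨0, hn⟩) hab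
        apply Units.ext
        simpa using h7
      rw [← Nat.card_congr (MonoidHom.ofInjective h6).toEquiv, Nat.card_units, Nat.card_eq_fintype_card]
    rw [h5] at h1
    have h7 : 0 < Fintype.card F - 1 := by
      have := Fintype.one_lt_card (α := F)
      omega
    exact (Nat.eq_of_mul_eq_mul_left h7 h1).symm

end Cfsg.Agent.S0265
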