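import Cfsg.Statements.S0060
import Cfsg.Agent.H1.FrobKer
import Cfsg.Agent.H2.Cores

set_option autoImplicit false
open Pointwise
open Cfsg

namespace Cfsg.Agent.S0060

open scoped commutatorElement Pointwise

/-- Brodkey's Theorem: in a finite group with abelian Sylow p-subgroups and no nontrivial normal p-subgroup, some conjugate of a Sylow p-subgroup meets it trivially. -/
theorem result {G : Type*} [Group G] [Finite G] (p : ℕ) [Fact p.Prime]
    (S : Sylow p G) (hS : IsMulCommutative S) (hOp : Cfsg.pCore p G = ⊥) :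
    ∃ g : G, (S : Subgroup G) ⊓ MulAut.conj g • (S : Subgroup G) = ⊥ := by
  classical
  -- choose g minimizing
  obtain ⟨g, hg⟩ := Finite.exists_min (fun g : G => Nat.card ((S : Subgroup G) ⊓ MulAut.conj g • (S : Subgroup G) : Subgroup G))
  refine ⟨g, ?_⟩
  set D := (S : Subgroup G) ⊓ MulAut.conj g • (S : Subgroup G) with hD
  have hSab : ∀ x ∈ (S : Subgroup G), ∀ y ∈ (S : Subgroup G), x * y = y * x := 
    fun x hx y hy => congrArg Subtype.val (hS.is_comm.comm ⟨x, hx⟩ ⟨y, hy⟩)
  have hSL : (S : Subgroup G) ≤ Subgroup.centralizer (D : Set G) := by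
    intro x hx
    rw [Subgroup.mem_centralizer_iff]
    intro y hy
    exact hSab y hy.1 x hx
  have hTL : MulAut.conj g • (S : Subgroup G) ≤ Subgroup.centralizer (D : Set G) := by
    intro x hx
    rw [Subgroup.mem_centralizer_iff]
    intro y hy
    have h1 : y ∈ MulAut.conj g • (S : Subgroup G) := hy.2
    rw [CfsgH1.mem_conj_smul] at hx h1
    have h2 := hSab _ h1 _ hx
    calc y * x = g * ((g⁻¹ * y * g) * (g⁻¹ * x * g)) * g⁻¹ := by group
      _ = g * ((g⁻¹ * x * g) * (g⁻¹ * y * g)) * g⁻¹ := by rw [h2]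
      _ = x * y := by group
  -- S is a Sylow subgroup of L
  have hSyl : CfsgH1.IsSylowOf p (S : Subgroup G) (Subgroup.centralizer (D : Set G)) := 
    CfsgH1.isSylowOf_of_le (CfsgH1.sylow_isSylowOf S) hSL le_top
  have key : ∀ r : G, D ≤ MulAut.conj r • (S : Subgroup G) := by
    intro r
    have hR : IsPGroup p ((MulAut.conj r • (S : Subgroup G)) ⊓ Subgroup.centralizer (D : Set G) : Subgroup G) := by
      apply IsPGroup.to_le (K := MulAut.conj r • (S : Subgroup G)) _ inf_le_left
      exact (r • S).2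
    -- embed in a Sylow of L
    have h1 : IsPGroup p (((MulAut.conj r • (S : Subgroup G)) ⊓ Subgroup.centralizer (D : Set G) : Subgroup G).subgroupOf 
        (Subgroup.centralizer (D : Set G))) := hR.comap_of_injective _ Subtype.val_injective
    obtain ⟨Q, hQ⟩ := h1.exists_le_sylow
    have hQ2 : CfsgH1.IsSylowOf p ((Q : Subgroup (Subgroup.centralizer (D : Set G))).map (Subgroup.centralizer (D : Set G)).subtype) 
        (Subgroup.centralizer (D : Set G)) := ⟨Q, rfl⟩
    obtain ⟨y, hy, hyQ⟩ := CfsgH1.isSylowOf_conj_trans hSyl hQ2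
    have h2 : (MulAut.conj r • (S : Subgroup G)) ⊓ Subgroup.centralizer (D : Set G) ≤ MulAut.conj y • (S : Subgroup G) := by
      rw [hyQ]
      intro x hx
      exact ⟨⟨x, hx.2⟩, hQ (by rw [Subgroup.mem_subgroupOf]; exact hx), rfl⟩
    have h3 : (MulAut.conj r • (S : Subgroup G)) ⊓ (MulAut.conj (y * g) • (S : Subgroup G)) ≤ D := by
      intro x hx
      have hx1 : x ∈ MulAut.conj r • (S : Subgroup G) := hx.1
      have hx2 : x ∈ MulAut.conj (y * g) • (S : Subgroup G) := hx.2
      rw [CfsgH1.mem_conj_smul] at hx2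
      have hx3 : y⁻¹ * x * y ∈ MulAut.conj g • (S : Subgroup G) := by
        rw [CfsgH1.mem_conj_smul]
        have : g⁻¹ * (y⁻¹ * x * y) * g = (y * g)⁻¹ * x * (y * g) := by group
        rw [this]; exact hx2
      have hx4 : x ∈ Subgroup.centralizer (D : Set G) := by
        have h4 := hTL hx3
        have : x = y * (y⁻¹ * x * y) * y⁻¹ := by group
        rw [this]
        exact Subgroup.mul_mem _ (Subgroup.mul_mem _ hy h4) (Subgroup.inv_mem _ hy)
      have hx5 := h2 ⟨hx1, hx4⟩
      rw [CfsgH1.mem_conj_smul] at hx5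
      have hx6 : y⁻¹ * x * y ∈ D := ⟨hx5, hx3⟩
      have hx7 := Subgroup.mem_centralizer_iff.1 hy _ hx6
      have : x = y⁻¹ * x * y := by
        calc x = y * (y⁻¹ * x * y) * y⁻¹ := by group
          _ = (y⁻¹ * x * y) * y * y⁻¹ := by rw [← hx7]
          _ = _ := by group
      rw [this]; exact hx6
    have h4 : Nat.card D ≤ Nat.card ((MulAut.conj r • (S : Subgroup G)) ⊓ (MulAut.conj (y * g) • (S : Subgroup G)) : Subgroup G) := by
      refine le_trans (hg (r⁻¹ * (y * g))) (le_of_eq ?_)
      have : (MulAut.conj r • (S : Subgroup G)) ⊓ (MulAut.conj (y * g) • (S : Subgroup G)) = 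
          MulAut.conj r • ((S : Subgroup G) ⊓ MulAut.conj (r⁻¹ * (y * g)) • (S : Subgroup G)) := by
        ext x
        rw [CfsgH1.mem_conj_smul]
        constructor
        · intro hx
          have hx1 : x ∈ MulAut.conj r • (S : Subgroup G) := hx.1
          have hx2 : x ∈ MulAut.conj (y * g) • (S : Subgroup G) := hx.2
          rw [CfsgH1.mem_conj_smul] at hx1 hx2
          refine ⟨hx1, ?_⟩
          change r⁻¹ * x * r ∈ MulAut.conj (r⁻¹ * (y * g)) • (S : Subgroup G)
          rw [CfsgH1.mem_conj_smul]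
          have : (r⁻¹ * (y * g))⁻¹ * (r⁻¹ * x * r) * (r⁻¹ * (y * g)) = (y * g)⁻¹ * x * (y * g) := by group
          rw [this]; exact hx2
        · intro hx
          have hx1 : r⁻¹ * x * r ∈ (S : Subgroup G) := hx.1
          have hx2 : r⁻¹ * x * r ∈ MulAut.conj (r⁻¹ * (y * g)) • (S : Subgroup G) := hx.2
          rw [CfsgH1.mem_conj_smul] at hx2
          have : (r⁻¹ * (y * g))⁻¹ * (r⁻¹ * x * r) * (r⁻¹ * (y * g)) = (y * g)⁻¹ * x * (y * g) := by group
          rw [this] at hx2
          exact ⟨by change x ∈ MulAut.conj r • (S : Subgroup G); rw [CfsgH1.mem_conj_smul]; exact hx1, 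
            by change x ∈ MulAut.conj (y * g) • (S : Subgroup G); rw [CfsgH1.mem_conj_smul]; exact hx2⟩
      rw [this, CfsgH1.card_conj_smul]
    have h5 := CfsgH1.eq_of_le_of_card_le h3 h4
    rw [← h5]; exact inf_le_left
  have h1 : D ≤ (S : Subgroup G).normalCore := by
    intro x hx b
    have h2 := key b⁻¹ hx
    rw [CfsgH1.mem_conj_smul, inv_inv] at h2
    exact h2
  have h2 : (S : Subgroup G).normalCore ≤ Cfsg.pCore p G := 
    CfsgH2.le_pCore (Subgroup.normalCore_normal _) (S.2.to_le (Subgroup.normalCore_le _))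
  rw [hOp] at h2
  exact le_bot_iff.1 (h1.trans h2)

end Cfsg.Agent.S0060
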