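import Mathlib
import Cfsg.Agent.H3.Inv
import Cfsg.Statements.S0206

set_option autoImplicit false
open Cfsg

namespace Cfsg.Agent.S0206

/-- Two distinct involutions x, y of a finite group generate a subgroup isomorphic to the dihedral group of order 2·|xy|. -/
theorem result {G : Type*} [Group G] [Finite G] (x y : G) (hx : orderOf x = 2) (hy : orderOf y = 2) (hxy : x ≠ y) : Nonempty (↥(Subgroup.closure ({x, y} : Set G)) ≃* DihedralGroup (orderOf (x * y))) := by
  have hx2 := CfsgH3.mul_self_of_orderOf_two hx
  have hy2 := CfsgH3.mul_self_of_orderOf_two hy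
  have hinv := CfsgH3.conj_mul_eq_inv hx2 hy2
  have hxc : x ∉ Subgroup.zpowers (x * y) := by
    intro hmem
    have hcomm : x * (x * y) = (x * y) * x := by
      obtain ⟨k, hk⟩ := Subgroup.mem_zpowers_iff.mp hmem
      have : Commute ((x * y) ^ k) (x * y) := (Commute.refl _).zpow_left k
      rw [hk] at this
      exact this
    have h1 : (x * y) * (x * y) = 1 := by
      have : x * (x * y) * x⁻¹ = x * y := by rw [hcomm, mul_inv_cancel_right]
      rw [hinv] at this
      rw [← this]; nth_rw 2 [this]; rw [inv_mul_cancel]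
    obtain ⟨k, hk⟩ := Subgroup.mem_zpowers_iff.mp hmem
    rcases Int.even_or_odd' k with ⟨m, rfl | rfl⟩
    · rw [zpow_mul, zpow_ofNat, sq, h1, one_zpow] at hk
      exact CfsgH3.ne_one_of_orderOf_two hx hk.symm
    · rw [zpow_add, zpow_mul, zpow_ofNat, sq, h1, one_zpow, one_mul, zpow_one] at hk
      have : y = 1 := by
        have h3 : x * y = x * 1 := by rw [hk, mul_one]
        exact mul_left_cancel h3
      exact CfsgH3.ne_one_of_orderOf_two hy this
  have := CfsgH3.nonempty_dihedral_equiv (orderOf (x * y)) (x * y) x rfl hx2 hinv hxc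
  rwa [CfsgH3.closure_pair_eq hx2] at this

end Cfsg.Agent.S0206
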