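import Mathlib
import Cfsg.Agent.H3.Invol2
import Cfsg.Agent.S0206
import Cfsg.Statements.S0200

set_option autoImplicit false
open Cfsg

namespace Cfsg.Agent.S0200

/-- An involution lying in no normal 2-subgroup of a finite group inverts a nontrivial element of odd order (a consequence of the Baer–Suzuki Theorem). -/
theorem result {G : Type*} [Group G] [Finite G] (t : G) (ht : orderOf t = 2) (hO : ∀ N : Subgroup G, N.Normal → IsPGroup 2 N → t ∉ N) : ∃ h : G, h ≠ 1 ∧ Odd (orderOf h) ∧ t * h * t⁻¹ = h⁻¹ := by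
  by_contra hcon
  push Not at hcon
  obtain ⟨N, hN, hNp, htN⟩ := CfsgH3.baer_suzuki_elt (p := 2) t (by
    intro g
    set y := g * t * g⁻¹ with hy
    have hy2 : orderOf y = 2 := by rw [hy, CfsgH3.orderOf_conj, ht]
    have ht2 := CfsgH3.mul_self_of_orderOf_two ht
    have hyy := CfsgH3.mul_self_of_orderOf_two hy2
    by_cases hty : t = y
    · rw [← hty]
      have : Subgroup.closure ({t, t} : Set G) = Subgroup.zpowers t := by
        rw [Set.pair_eq_singleton, Subgroup.zpowers_eq_closure]
      rw [this]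
      exact CfsgH3.isPGroup_zpowers_of_orderOf_two ht
    obtain ⟨e⟩ := Cfsg.Agent.S0206.result t y ht hy2 hty
    obtain ⟨k, m, hm, hk⟩ := Nat.exists_eq_pow_mul_and_not_dvd (orderOf_pos (t * y)).ne' 2 (by norm_num)
    have hm1 : m = 1 := by
      by_contra hm1
      have horder : orderOf ((t * y) ^ (2 ^ k)) = m := by
        rw [orderOf_pow' _ (by positivity), hk, Nat.gcd_eq_right (dvd_mul_right _ _), Nat.mul_div_cancel_left _ (by positivity)]
      refine hcon ((t * y) ^ (2 ^ k)) ?_ ?_ ?_
      · intro h; rw [h, orderOf_one] at horder; exact hm1 horder.symm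
      · rw [horder]; rw [← Nat.not_even_iff_odd, even_iff_two_dvd]; exact hm
      · exact CfsgH3.conj_of_mem_zpowers (CfsgH3.conj_mul_eq_inv ht2 hyy) (pow_mem (Subgroup.mem_zpowers _) _)
    rw [hm1, mul_one] at hk
    haveI : NeZero (orderOf (t * y)) := ⟨(orderOf_pos _).ne'⟩
    apply IsPGroup.of_card (n := k + 1)
    rw [Nat.card_congr e.toEquiv, DihedralGroup.nat_card, hk, pow_succ, mul_comm])
  exact hO N hN hNp htN

end Cfsg.Agent.S0200
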