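import Cfsg.Statements.S0283
import Cfsg.Agent.H9.UnK
import Cfsg.Agent.H9.UnSimple

set_option autoImplicit false
open Cfsg

namespace Cfsg.Agent.S0283

/-- PSU_n(q) is simple for n at least 3 and (n, q) other than (3, 2). -/
theorem result {F : Type*} [Field F] [Fintype F] {q : ℕ} (hF : Fintype.card F = q ^ 2) (n : ℕ) (hn : 3 ≤ n) (h : ¬ (n = 3 ∧ q = 2)) : IsSimpleGroup (Cfsg.PSU n F q) := by
  obtain ⟨σ, hσ, hσ1, hσ2⟩ := CfsgH9.HermF.exists_sigma hF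
  have hf := CfsgH9.Un.hm_std (n := n) hF hσ hσ1 hσ2
  exact CfsgH9.Un.IsSU.simple (φ := CfsgH9.Un.suGL n F q) hf (by rw [Fintype.card_fin]; exact hn)
    (CfsgH9.Un.cond hF hn h hσ)
    ⟨CfsgH9.Un.suGL_inj, CfsgH9.Un.suGL_iso, CfsgH9.Un.suGL_det, fun g h1 h2 => CfsgH9.Un.exists_su h1 h2⟩

end Cfsg.Agent.S0283
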