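import Cfsg.Statements.S0436


set_option autoImplicit false
open Cfsg

namespace Cfsg.Agent.S0436

/-- For distinct commuting members a, b of a set of 3-transpositions E, a member e of E centralises the product a * b if and only if it centralises both a and b. -/
theorem result {G : Type*} [Group G] {E : Set G} (hE : Cfsg.IsThreeTranspositionSet E) {a b e : G} (ha : a ∈ E) (hb : b ∈ E) (he : e ∈ E) (hab : a ≠ b) (hcomm : Commute a b) : Commute e (a * b) ↔ (Commute e a ∧ Commute e b) := by
  constructor
  · intro h
    have ha2 : a * a = 1 := by have := hE.1 a ha; rw [← pow_two, ← this, pow_orderOf_eq_one]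
    have hb2 : b * b = 1 := by have := hE.1 b hb; rw [← pow_two, ← this, pow_orderOf_eq_one]
    have he2 : e * e = 1 := by have := hE.1 e he; rw [← pow_two, ← this, pow_orderOf_eq_one]
    have hai : a⁻¹ = a := inv_eq_of_mul_eq_one_right ha2
    have hbi : b⁻¹ = b := inv_eq_of_mul_eq_one_right hb2
    have hei : e⁻¹ = e := inv_eq_of_mul_eq_one_right he2
    have key : ∀ x ∈ E, x * x = 1 → x⁻¹ = x → ¬ Commute e x → e * x * e = x * e * x := by
      intro x hx hx2 hxi hn
      rcases hE.2 e he x hx with h1 | h1
      · exfalso; apply hn
        have : e * x * (e * x) = 1 := by rw [← pow_two]; exact h1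
        have h3 : e * x = (e * x)⁻¹ := eq_inv_of_mul_eq_one_left this
        rw [mul_inv_rev, hxi, hei] at h3
        exact h3
      · have h3 : (e * x * e) * (x * e * x) = 1 := by
          rw [← h1]; simp only [pow_succ, pow_zero, one_mul, mul_assoc]
        have h4 := eq_inv_of_mul_eq_one_left h3
        rw [h4, mul_inv_rev, mul_inv_rev, hxi, hei, mul_assoc]
    by_cases h1 : Commute e a
    · refine ⟨h1, ?_⟩
      have h2 : b = a⁻¹ * (a * b) := by group
      rw [h2]
      exact (h1.inv_right).mul_right h
    by_cases h2 : Commute e b
    · refine ⟨?_, h2⟩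
      have h3 : a = (a * b) * b⁻¹ := by group
      rw [h3]
      exact h.mul_right h2.inv_right
    exfalso
    have k1 := key a ha ha2 hai h1
    have k2 := key b hb hb2 hbi h2
    have h5 : e * (a * b) * e = a * b := by
      have : e * (a * b) = a * b * e := h
      rw [this, mul_assoc, he2, mul_one]
    have h6 : e * (a * b) * e = (e * a * e) * (e * b * e) := by
      calc e * (a * b) * e = e * a * (1 : G) * b * e := by group
        _ = e * a * (e * e) * b * e := by rw [he2]
        _ = _ := by group
    rw [k1, k2] at h6
    have h7 : a * e * a * (b * e * b) = a * (e * (a * b) * e) * b := by group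
    rw [h7, h5] at h6
    have h8 : a * (a * b) * b = 1 := by
      calc a * (a * b) * b = (a * a) * (b * b) := by group
        _ = 1 := by rw [ha2, hb2, one_mul]
    rw [h8] at h6
    apply hab
    rw [eq_inv_of_mul_eq_one_left h6, hbi]
  · rintro ⟨h1, h2⟩
    exact h1.mul_right h2

end Cfsg.Agent.S0436
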