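import Cfsg.Statements.S0437
import Cfsg.Agent.L.Misc.Sym3
import Cfsg.Agent.S0436

set_option autoImplicit false
open Cfsg

namespace Cfsg.Agent.S0437

/-- For three distinct, pairwise commuting members a, b, c of a set of 3-transpositions E, a member e of E centralises a * b * c if and only if it centralises each of a, b and c. -/
theorem result {G : Type*} [Group G] {E : Set G} (hE : Cfsg.IsThreeTranspositionSet E) {a b c e : G} (ha : a ∈ E) (hb : b ∈ E) (hc : c ∈ E) (he : e ∈ E) (hab : a ≠ b) (hac : a ≠ c) (hbc : b ≠ c) (h₁ : Commute a b) (h₂ : Commute a c) (h₃ : Commute b c) : Commute e (a * b * c) ↔ (Commute e a ∧ Commute e b ∧ Commute e c) := by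
  constructor
  · intro h
    have ha2 : a * a = 1 := by have := hE.1 a ha; rw [← pow_two, ← this, pow_orderOf_eq_one]
    have hb2 : b * b = 1 := by have := hE.1 b hb; rw [← pow_two, ← this, pow_orderOf_eq_one]
    have hc2 : c * c = 1 := by have := hE.1 c hc; rw [← pow_two, ← this, pow_orderOf_eq_one]
    have he2 : e * e = 1 := by have := hE.1 e he; rw [← pow_two, ← this, pow_orderOf_eq_one]
    have hai : a⁻¹ = a := inv_eq_of_mul_eq_one_right ha2
    have hbi : b⁻¹ = b := inv_eq_of_mul_eq_one_right hb2
    have hci : c⁻¹ = c := inv_eq_of_mul_eq_one_right hc2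
    have hei : e⁻¹ = e := inv_eq_of_mul_eq_one_right he2
    have h1' : a * b = b * a := h₁
    have h2' : a * c = c * a := h₂
    have h3' : b * c = c * b := h₃
    by_cases k1 : Commute e c
    · have h4 : a * b = (a * b * c) * c⁻¹ := by group
      have h5 : Commute e (a * b) := by rw [h4]; exact h.mul_right k1.inv_right
      have h6 := (Cfsg.Agent.S0436.result hE ha hb he hab h₁).1 h5
      exact ⟨h6.1, h6.2, k1⟩
    by_cases k2 : Commute e b
    · have h4 : a * c = (a * b * c) * b⁻¹ := by rw [mul_assoc a b c, h3']; group
      have h5 : Commute e (a * c) := by rw [h4]; exact h.mul_right k2.inv_right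
      have h6 := (Cfsg.Agent.S0436.result hE ha hc he hac h₂).1 h5
      exact ⟨h6.1, k2, h6.2⟩
    by_cases k3 : Commute e a
    · have h4 : b * c = a⁻¹ * (a * b * c) := by group
      have h5 : Commute e (b * c) := by rw [h4]; exact (k3.inv_right).mul_right h
      have h6 := (Cfsg.Agent.S0436.result hE hb hc he hbc h₃).1 h5
      exact ⟨k3, h6⟩
    exfalso
    have key : ∀ x ∈ E, x * x = 1 → x⁻¹ = x → ¬ Commute e x → (e * x) ^ 3 = 1 := by
      intro x hx hx2 hxi hn
      rcases hE.2 e he x hx with h1 | h1
      · exfalso; apply hn
        have : e * x * (e * x) = 1 := by rw [← pow_two]; exact h1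
        have h3 : e * x = (e * x)⁻¹ := eq_inv_of_mul_eq_one_left this
        rw [mul_inv_rev, hxi, hei] at h3
        exact h3
      · exact h1
    have ba := CfsgL.Misc.braid_of_cube he2 ha2 (key a ha ha2 hai k3)
    have bb := CfsgL.Misc.braid_of_cube he2 hb2 (key b hb hb2 hbi k2)
    obtain ⟨v, hv⟩ : ∃ v, v = a * b * c := ⟨_, rfl⟩
    have hev : Commute e v := hv ▸ h
    have hv2 : v * v = 1 := by
      rw [hv]
      calc a * b * c * (a * b * c) = a * b * c * (a * (b * c)) := by group
        _ = a * b * (c * a) * (c * b) := by rw [h3']; group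
        _ = a * b * (a * c) * (c * b) := by rw [h2']
        _ = a * (b * a) * (c * c) * b := by group
        _ = a * (a * b) * (c * c) * b := by rw [h1']
        _ = (a * a) * (b * (c * c) * b) := by group
        _ = 1 := by rw [hc2, mul_one, hb2, ha2, mul_one]
    have hc' : c = a * b * v := by
      rw [hv]
      calc c = 1 * 1 * c := by group
        _ = (a * a) * (b * b) * c := by rw [ha2, hb2]
        _ = a * (a * b) * b * c := by group
        _ = a * (b * a) * b * c := by rw [h1']
        _ = _ := by group
    have hav : Commute a v := by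
      rw [hv]; exact ((Commute.refl a).mul_right h₁).mul_right h₂
    have hbv : Commute b v := by
      rw [hv]; exact (h₁.symm.mul_right (Commute.refl b)).mul_right h₃
    have h7 : (e * (a * b)) ^ 3 = v := by
      have h8 : (e * c) ^ 3 = 1 := key c hc hc2 hci k1
      rw [hc', ← mul_assoc] at h8
      have hcm : Commute (e * (a * b)) v := hev.mul_left (hav.mul_left hbv)
      rw [hcm.mul_pow] at h8
      have hv3 : v ^ 3 = v := by rw [pow_succ, pow_two, hv2, one_mul]
      rw [hv3] at h8
      rw [eq_inv_of_mul_eq_one_left h8, inv_eq_of_mul_eq_one_right hv2]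
    have h9 : (e * (a * b)) ^ 3 = a * b * e := by
      have hbab : b * a * b = a := by rw [← h1', mul_assoc, hb2, mul_one]
      have haba : a * b * a = b := by rw [mul_assoc, ← h1', ← mul_assoc, ha2, one_mul]
      calc (e * (a * b)) ^ 3 = e * a * b * e * a * b * e * a * b := by
            rw [pow_succ, pow_two]; group
        _ = e * a * (1 : G) * b * e * a * b * e * a * b := by group
        _ = e * a * (e * e) * b * e * a * b * e * a * b := by rw [he2]
        _ = (e * a * e) * (e * b * e) * a * b * e * a * b := by group
        _ = (a * e * a) * (b * e * b) * a * b * e * a * b := by rw [ba, bb]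
        _ = a * e * a * b * e * (b * a * b) * e * a * b := by group
        _ = a * e * a * b * (e * a * e) * a * b := by rw [hbab]; group
        _ = a * e * a * b * (a * e * a) * a * b := by rw [ba]
        _ = a * e * (a * b * a) * e * (a * a) * b := by group
        _ = a * (e * b * e) * b := by rw [haba, ha2]; group
        _ = a * (b * e * b) * b := by rw [bb]
        _ = a * b * e * (b * b) := by group
        _ = a * b * e := by rw [hb2, mul_one]
    rw [h7, hv] at h9
    have h10 : c = e := mul_left_cancel h9
    apply k1
    rw [h10]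
  · rintro ⟨k1, k2, k3⟩
    exact (k1.mul_right k2).mul_right k3

end Cfsg.Agent.S0437
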