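import Cfsg.Statements.S0438


set_option autoImplicit false
open Cfsg

namespace Cfsg.Agent.S0438

/-- Let E be a set of 3-transpositions closed under conjugation, and x an involutory automorphism of the group mapping E to itself. If some a in E fails to commute with its image x a, then x fixes an element of E. -/
theorem result {G : Type*} [Group G] {E : Set G} (hE : Cfsg.IsThreeTranspositionSet E) (hconj : ∀ g : G, ∀ d ∈ E, g * d * g⁻¹ ∈ E) (x : G ≃* G) (hx : ∀ g : G, x (x g) = g) (hxE : ∀ d ∈ E, x d ∈ E) {a : G} (ha : a ∈ E) (h : ¬ Commute a (x a)) : ∃ d ∈ E, x d = d := by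
  have ha2 : a * a = 1 := by have := hE.1 a ha; rw [← pow_two, ← this, pow_orderOf_eq_one]
  have hai : a⁻¹ = a := inv_eq_of_mul_eq_one_right ha2
  have hb2 : x a * x a = 1 := by rw [← map_mul, ha2, map_one]
  have hbi : (x a)⁻¹ = x a := inv_eq_of_mul_eq_one_right hb2
  have k : x a * a * x a = a * x a * a := by
    rcases hE.2 (x a) (hxE a ha) a ha with h1 | h1
    · exfalso; apply h
      have : x a * a * (x a * a) = 1 := by rw [← pow_two]; exact h1
      have h3 : x a * a = (x a * a)⁻¹ := eq_inv_of_mul_eq_one_left this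
      rw [mul_inv_rev, hai, hbi] at h3
      exact h3.symm
    · have h3 : (x a * a * x a) * (a * x a * a) = 1 := by
        rw [← h1]; simp only [pow_succ, pow_zero, one_mul, mul_assoc]
      have h4 := eq_inv_of_mul_eq_one_left h3
      rw [h4, mul_inv_rev, mul_inv_rev, hai, hbi, mul_assoc]
  refine ⟨a * x a * a⁻¹, hconj a _ (hxE a ha), ?_⟩
  rw [map_mul, map_mul, map_inv, hx, hbi, hai, k]

end Cfsg.Agent.S0438
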