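import Cfsg.Statements.S0664
import Cfsg.Agent.H7.ZJ3

set_option autoImplicit false
open Cfsg

namespace Cfsg.Agent.S0664

/-- Glauberman's ZJ-Theorem in its section-free form: for odd p, a finite group with no section isomorphic to Qd(p) whose largest normal p-subgroup contains its centralizer has Z(J(S)) normal, J(S) the abelian-version Thompson subgroup of a Sylow p-subgroup S. -/
theorem result {G : Type*} [Group G] [Finite G] {p : ℕ} [Fact p.Prime] (hp : p ≠ 2) (hfree : ¬ ∃ (K R : Subgroup G) (hR : (R.subgroupOf K).Normal), Nonempty ((K ⧸ R.subgroupOf K) ≃* ↥(Cfsg.qd p))) (hc : Subgroup.centralizer (Cfsg.pCore p G : Set G) ≤ Cfsg.pCore p G) (S : Sylow p G) : (Cfsg.centerThompsonAOf ((S : Subgroup G))).Normal := by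
  rw [CfsgH7.centerThompsonAOf_eq]
  have hst := CfsgH7.pstable_of_qd_free hp hfree
  exact CfsgH7.zj_normal hp ((CfsgH7.goodPred_A p).rclass G) S (CfsgH7.stronglyClosed_self _)
    (fun P _ hP => CfsgH7.pStableOn_of_normalizer hst P hP) hc

end Cfsg.Agent.S0664
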