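import Cfsg.Statements.S0802
import Cfsg.Agent.H9.Dk18

set_option autoImplicit false
open Cfsg

namespace Cfsg.Agent.S0802

/-- PSL_2(p^n) has a subgroup isomorphic to A_4 if and only if it is not the case that p = 2 and n is odd. -/
theorem result {F : Type*} [Field F] [Fintype F] (p n : ℕ) [Fact p.Prime] [CharP F p] (hF : Fintype.card F = p ^ n) : (∃ H : Subgroup (Matrix.ProjectiveSpecialLinearGroup (Fin 2) F), Nonempty (H ≃* alternatingGroup (Fin 4))) ↔ ¬ (p = 2 ∧ Odd n) := by
  classical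
  have hF' := hF
  have hcard : Nat.gcd 2 (Fintype.card F - 1) * Nat.card (Matrix.ProjectiveSpecialLinearGroup (Fin 2) F) = Fintype.card F * (Fintype.card F - 1) * (Fintype.card F + 1) := CfsgH9.Dk.card_psl
  have hq1 : 1 < Fintype.card F := Fintype.one_lt_card
  constructor
  · rintro ⟨H, ⟨e⟩⟩ ⟨hp2, hn⟩
    subst hp2
    have he : Even (Fintype.card F) := by
      rw [hF]
      exact Nat.even_pow.2 ⟨by decide, by obtain ⟨t, ht⟩ := hn; omega⟩
    rw [CfsgH9.Dk.d_even he, one_mul] at hcard
    have h12 : Nat.card H = 12 := by rw [Nat.card_congr e.toEquiv, CfsgH9.Dk.cA4]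
    have hmod : 2 ^ n % 3 = 2 := by
      obtain ⟨t, ht⟩ := hn
      rw [ht, pow_succ, pow_mul]
      have : (2 ^ 2) ^ t % 3 = 1 := by
        rw [Nat.pow_mod]; norm_num
      omega
    rcases CfsgH9.Dk.dickson_psl 2 H with ⟨h1, h2⟩ | ⟨S, h1, -⟩ | ⟨C, h1, h2, h3, ⟨h4⟩⟩ | ⟨h', -⟩ | ⟨h', -⟩ | ⟨h', -⟩ | ⟨k, i1, i2, m, hm, h⟩
    · apply h1; rw [h12]; norm_num
    · have h2 := CfsgH9.Dk.norm_sylow_index 2 S
      have h3 := Subgroup.card_mul_index (Subgroup.normalizer ((S : Subgroup (CfsgH9.Dk.PS F)) : Set (CfsgH9.Dk.PS F)))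
      rw [h2] at h3
      have h4 : Nat.card (Subgroup.normalizer ((S : Subgroup (CfsgH9.Dk.PS F)) : Set (CfsgH9.Dk.PS F))) = Fintype.card F * (Fintype.card F - 1) := by
        apply Nat.eq_of_mul_eq_mul_right (show 0 < Fintype.card F + 1 by omega)
        rw [h3]; exact hcard
      have h5 := Subgroup.card_dvd_of_le h1
      rw [h4] at h5
      have h6 : 3 ∣ Fintype.card F * (Fintype.card F - 1) := by
        have h12' : (3 : ℕ) ∣ Nat.card H := by rw [h12]; norm_num
        exact h12'.trans h5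
      rw [Nat.prime_three.dvd_mul, hF] at h6
      rcases h6 with h6 | h6 <;> omega
    · have h5 : Nat.card H = 2 * Nat.card C := by rw [Nat.card_congr h4.toEquiv, DihedralGroup.nat_card]
      apply h3
      exact ⟨3, by omega⟩
    · apply h'; exact ⟨6, by rw [h12]⟩
    · apply h'; exact ⟨6, by rw [h12]⟩
    · rcases h' with h' | h'
      · apply h'; exact ⟨6, by rw [h12]⟩
      · omega
    · have h1 : Nat.card H = Fintype.card k * (Fintype.card k - 1) * (Fintype.card k + 1) ∨
          (Odd (Fintype.card k) ∧ 2 * Nat.card H = Fintype.card k * (Fintype.card k - 1) * (Fintype.card k + 1)) := CfsgH9.Dk.card_sub h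
      rw [h12] at h1
      have hk1 : 1 < Fintype.card k := Fintype.one_lt_card
      obtain ⟨r, hr⟩ : ∃ r, Fintype.card k = r + 2 := ⟨Fintype.card k - 2, by omega⟩
      have h6 : (r + 2) * (r + 1) * (r + 3) = r * r * r + 6 * (r * r) + 11 * r + 6 := by ring
      have hr' : Fintype.card k - 1 = r + 1 := by omega
      rw [hr', hr] at h1
      rcases h1 with h1 | ⟨ho, h1⟩
      · have hr1 : r < 2 := by
          by_contra hcon
          have : 2 * 2 ≤ r * r := Nat.mul_le_mul (by omega) (by omega)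
          have h7 : (r + 2) * (r + 1) * (r + 2 + 1) = (r + 2) * (r + 1) * (r + 3) := rfl
          rw [h7, h6] at h1
          omega
        interval_cases r <;> omega
      · have hke : Even (Fintype.card k ^ m) := by rw [hm]; exact he
        rw [Nat.even_pow] at hke
        rw [hr] at hke
        exact (Nat.not_even_iff_odd.2 ho) hke.1
  · intro hnot
    by_cases hp2 : p = 2
    · subst hp2
      have hne : Even n := by
        rw [← Nat.not_odd_iff_even]
        exact fun h => hnot ⟨rfl, h⟩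
      obtain ⟨m, hm⟩ := hne
      haveI : Fintype (GaloisField 2 2) := Fintype.ofFinite _
      have hc4 : Fintype.card (GaloisField 2 2) = 4 := by
        rw [← Nat.card_eq_fintype_card, GaloisField.card 2 2 (by norm_num)]
        norm_num
      obtain ⟨f⟩ := CfsgH9.Dk.exists_hom (F := F) (k := GaloisField 2 2) (m := m) (by rw [hc4, hF, hm, ← two_mul, pow_mul]; norm_num)
      obtain ⟨H, ⟨e⟩⟩ := CfsgH9.Dk.exists_PS f
      obtain ⟨e'⟩ := Cfsg.Agent.S0252.result (F := GaloisField 2 2) hc4
      obtain ⟨L, -, hL⟩ := CfsgH9.Dk.sub_trans (e.trans e') CfsgH9.Dk.A4_in_A5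
      exact ⟨L, hL⟩
    · have h2 : (2 : F) ≠ 0 := by
        intro h
        apply hp2
        have := (CharP.cast_eq_zero_iff F p 2).mp (by exact_mod_cast h)
        exact (Nat.prime_dvd_prime_iff_eq (Fact.out : p.Prime) Nat.prime_two).mp this
      obtain ⟨V, hV⟩ := CfsgH9.Dk.exists_klein h2
      obtain ⟨⟨H, -, -, hH⟩, -⟩ := CfsgH9.Dk.psl_klein h2 hV
      exact ⟨H, hH⟩

end Cfsg.Agent.S0802
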