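import Cfsg.Statements.S0803
import Cfsg.Agent.H9.Dk18

set_option autoImplicit false
open Cfsg

namespace Cfsg.Agent.S0803

theorem ex4 : ∃ σ : Equiv.Perm (Fin 4), σ ^ 4 = 1 ∧ σ ^ 2 ≠ 1 := ⟨finRotate 4, by decide, by decide⟩

/-- PSL_2(q) has a subgroup isomorphic to S_4 iff q² ≡ 1 (mod 16). -/
theorem result {F : Type*} [Field F] [Fintype F] {q : ℕ} (hF : Fintype.card F = q) : (∃ H : Subgroup (Matrix.ProjectiveSpecialLinearGroup (Fin 2) F), Nonempty (H ≃* Equiv.Perm (Fin 4))) ↔ q ^ 2 % 16 = 1 := by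
  classical
  subst hF
  have hcard : Nat.gcd 2 (Fintype.card F - 1) * Nat.card (Matrix.ProjectiveSpecialLinearGroup (Fin 2) F) = Fintype.card F * (Fintype.card F - 1) * (Fintype.card F + 1) := CfsgH9.Dk.card_psl
  constructor
  · rintro ⟨H, ⟨e⟩⟩
    rcases Nat.even_or_odd (Fintype.card F) with he | ho
    · exfalso
      obtain ⟨p, hp⟩ := CharP.exists F
      haveI : Fact p.Prime := ⟨(CharP.char_is_prime_or_zero F p).resolve_right (CharP.char_ne_zero_of_finite F p)⟩
      obtain ⟨f, hpf, hff⟩ := FiniteField.card F p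
      have hp2 : p = 2 := by
        have : 2 ∣ p ^ (f : ℕ) := by rw [← hff]; exact he.two_dvd
        exact ((Nat.prime_dvd_prime_iff_eq Nat.prime_two hpf).1 (Nat.prime_two.dvd_of_dvd_pow this)).symm
      subst hp2
      obtain ⟨σ, h1, h2⟩ := ex4
      apply h2
      have h3 : ((e.symm σ : H) : Matrix.ProjectiveSpecialLinearGroup (Fin 2) F) ^ 2 ^ 2 = 1 := by
        have : (e.symm σ) ^ 4 = 1 := by rw [← map_pow, h1, map_one]
        exact congrArg Subtype.val this
      have h4 := CfsgH9.Dk.char2_pow h3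
      have h5 : (e.symm σ) ^ 2 = 1 := Subtype.ext h4
      rw [← map_pow] at h5
      exact e.symm.injective (h5.trans (map_one _).symm)
    · rw [CfsgH9.Dk.d_odd ho] at hcard
      have h1 : Nat.card H = 24 := by rw [Nat.card_congr e.toEquiv, CfsgH9.Dk.cS4]
      obtain ⟨t, ht⟩ : Nat.card H ∣ Nat.card (Matrix.ProjectiveSpecialLinearGroup (Fin 2) F) := Subgroup.card_subgroup_dvd_card _
      rw [h1] at ht
      rw [ht] at hcard
      obtain ⟨s, hs⟩ := ho
      rw [hs] at hcard ⊢
      have h2 : 16 ∣ (2 * s + 1) * ((2 * s + 1) ^ 2 - 1) := by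
        refine ⟨3 * t, ?_⟩
        have e1 : (2 * s + 1) ^ 2 - 1 = 2 * s * (2 * s + 1 + 1) := by
          have : (2 * s + 1) ^ 2 = 2 * s * (2 * s + 1 + 1) + 1 := by ring
          omega
        rw [e1]
        have e2 : 2 * s + 1 - 1 = 2 * s := by omega
        rw [e2] at hcard
        linarith
      have h3 : 16 ∣ (2 * s + 1) ^ 2 - 1 := by
        apply Nat.Coprime.dvd_of_dvd_mul_left _ h2
        rw [show (16 : ℕ) = 2 ^ 4 by norm_num]
        apply Nat.Coprime.pow_left
        rw [Nat.coprime_two_left]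
        exact ⟨s, rfl⟩
      have h4 : 1 ≤ (2 * s + 1) ^ 2 := Nat.one_le_pow _ _ (by omega)
      omega
  · intro hq
    have ho : Odd (Fintype.card F) := by
      rw [← Nat.not_even_iff_odd]
      intro he
      obtain ⟨t, ht⟩ := he
      rw [ht] at hq
      have : (t + t) ^ 2 = 2 * (2 * t * t) := by ring
      omega
    have h2 := CfsgH9.SLt.two_ne_zero_of_card ho
    have hsq : IsSquare (2 : F) := by
      rw [FiniteField.isSquare_two_iff]
      have h8 : Fintype.card F % 16 < 16 := Nat.mod_lt _ (by norm_num)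
      have h9 : (Fintype.card F % 16) ^ 2 % 16 = 1 := by rw [← Nat.pow_mod]; exact hq
      interval_cases h : Fintype.card F % 16 <;> first | (exfalso; revert h9; decide) | omega
    obtain ⟨V, hV⟩ := CfsgH9.Dk.exists_klein h2
    obtain ⟨-, -, k3, k4, -⟩ := CfsgH9.Dk.psl_klein h2 hV
    exact ⟨_, k4 (k3 hsq)⟩

end Cfsg.Agent.S0803
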