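import Cfsg.Statements.S0804
import Cfsg.Agent.H9.Dk19

set_option autoImplicit false
open Cfsg

namespace Cfsg.Agent.S0804

theorem prime5 : Fact (Nat.Prime 5) := ⟨by norm_num⟩

attribute [local instance] prime5 in
theorem qc : ∀ u : Fin 4, ∀ v : Fin 5, (v = 0 ∨ v = 1 ∨ v = 4) →
    quadraticChar (ZMod 5) (((ZMod.χ₄ (((u : ℕ) : ZMod 4)) : ℤ) : ZMod 5) * ((v : ℕ) : ZMod 5)) ≠ -1 := by decide

attribute [local instance] prime5 in
theorem sq5 {F : Type*} [Field F] [Fintype F] (ho : Odd (Fintype.card F)) (h : Fintype.card F % 5 = 0 ∨ Fintype.card F % 5 = 1 ∨ Fintype.card F % 5 = 4) :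
    IsSquare (5 : F) := by
  have hch : ringChar F ≠ 2 := by
    intro h
    have := (FiniteField.even_card_iff_char_two).1 h
    rw [Nat.odd_iff] at ho
    omega
  have h1 := (FiniteField.isSquare_odd_prime_iff (F := F) hch (p := 5) (by norm_num)).2
  have e : ((5 : ℕ) : F) = 5 := by norm_num
  rw [e] at h1
  apply h1
  have e2 : ((Fintype.card F : ℕ) : ZMod 5) = ((Fintype.card F % 5 : ℕ) : ZMod 5) := by rw [ZMod.natCast_mod]
  have e3 : ((Fintype.card F : ℕ) : ZMod 4) = ((Fintype.card F % 4 : ℕ) : ZMod 4) := by rw [ZMod.natCast_mod]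
  rw [e2, e3]
  have h4 : Fintype.card F % 4 < 4 := Nat.mod_lt _ (by norm_num)
  have h5 : Fintype.card F % 5 < 5 := Nat.mod_lt _ (by norm_num)
  exact qc ⟨_, h4⟩ ⟨_, h5⟩ (by rcases h with h | h | h <;> simp [Fin.ext_iff, h])

/-- PSL_2(q) has a subgroup isomorphic to A_5 iff 5 ∣ q(q² − 1). -/
theorem result {F : Type*} [Field F] [Fintype F] {q : ℕ} (hF : Fintype.card F = q) : (∃ H : Subgroup (Matrix.ProjectiveSpecialLinearGroup (Fin 2) F), Nonempty (H ≃* alternatingGroup (Fin 5))) ↔ 5 ∣ q * (q ^ 2 - 1) := by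
  classical
  subst hF
  have hcard : Nat.gcd 2 (Fintype.card F - 1) * Nat.card (Matrix.ProjectiveSpecialLinearGroup (Fin 2) F) = Fintype.card F * (Fintype.card F - 1) * (Fintype.card F + 1) := CfsgH9.Dk.card_psl
  have hq1 : 1 < Fintype.card F := Fintype.one_lt_card
  have e1 : Fintype.card F * (Fintype.card F ^ 2 - 1) = Fintype.card F * (Fintype.card F - 1) * (Fintype.card F + 1) := by
    obtain ⟨r, hr⟩ : ∃ r, Fintype.card F = r + 1 := ⟨Fintype.card F - 1, by omega⟩
    rw [hr, Nat.add_sub_cancel]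
    have : (r + 1) ^ 2 = r * (r + 1 + 1) + 1 := by ring
    rw [this, Nat.add_sub_cancel]; ring
  constructor
  · rintro ⟨H, ⟨e⟩⟩
    have h1 : Nat.card H = 60 := by rw [Nat.card_congr e.toEquiv, CfsgH9.Dk.cA5]
    have h2 : Nat.card H ∣ Nat.card (Matrix.ProjectiveSpecialLinearGroup (Fin 2) F) := Subgroup.card_subgroup_dvd_card _
    rw [e1, ← hcard]
    have h3 : 5 ∣ Nat.card H := by rw [h1]; norm_num
    exact (h3.trans h2).trans (Dvd.intro_left _ rfl)
  · intro h5
    rcases Nat.even_or_odd (Fintype.card F) with he | ho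
    · obtain ⟨p, hp⟩ := CharP.exists F
      haveI : Fact p.Prime := ⟨(CharP.char_is_prime_or_zero F p).resolve_right (CharP.char_ne_zero_of_finite F p)⟩
      obtain ⟨f, hpf, hff⟩ := FiniteField.card F p
      have hp2 : p = 2 := by
        have : 2 ∣ p ^ (f : ℕ) := by rw [← hff]; exact he.two_dvd
        exact ((Nat.prime_dvd_prime_iff_eq Nat.prime_two hpf).1 (Nat.prime_two.dvd_of_dvd_pow this)).symm
      subst hp2
      have hfe : Even (f : ℕ) := by
        rw [← Nat.not_odd_iff_even]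
        rintro ⟨t, ht⟩
        have h6 : 2 ^ (f : ℕ) % 5 = 2 ∨ 2 ^ (f : ℕ) % 5 = 3 := by
          rw [ht, pow_succ, pow_mul, Nat.mul_mod, Nat.pow_mod]
          norm_num
          rcases Nat.even_or_odd' t with ⟨u, hu | hu⟩
          · left
            rw [hu, pow_mul, Nat.mul_mod, Nat.pow_mod]; norm_num
          · right
            rw [hu, pow_succ, pow_mul, Nat.mul_mod, Nat.mul_mod ((4 ^ 2) ^ u), Nat.pow_mod]; norm_num
        rw [← hff] at h6
        rw [(show Nat.Prime 5 by norm_num).dvd_mul] at h5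
        rcases h5 with h5 | h5
        · omega
        · have h7 : 5 ∣ (Fintype.card F - 1) * (Fintype.card F + 1) := by
            obtain ⟨r, hr⟩ : ∃ r, Fintype.card F = r + 1 := ⟨Fintype.card F - 1, by omega⟩
            rw [hr] at h5 ⊢
            rw [Nat.add_sub_cancel]
            have : (r + 1) ^ 2 = r * (r + 1 + 1) + 1 := by ring
            rwa [this, Nat.add_sub_cancel] at h5
          rw [(show Nat.Prime 5 by norm_num).dvd_mul] at h7
          omega
      obtain ⟨m, hm⟩ := hfe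
      haveI : Fintype (GaloisField 2 2) := Fintype.ofFinite _
      have hc4 : Fintype.card (GaloisField 2 2) = 4 := by
        rw [← Nat.card_eq_fintype_card, GaloisField.card 2 2 (by norm_num)]
        norm_num
      obtain ⟨f'⟩ := CfsgH9.Dk.exists_hom (F := F) (k := GaloisField 2 2) (m := m) (by rw [hc4, hff, hm, ← two_mul, pow_mul]; norm_num)
      obtain ⟨H, ⟨e⟩⟩ := CfsgH9.Dk.exists_PS f'
      obtain ⟨e'⟩ := Cfsg.Agent.S0252.result (F := GaloisField 2 2) hc4
      exact ⟨H, ⟨e.trans e'⟩⟩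
    · refine CfsgH9.Dk.exists_A5 (CfsgH9.SLt.two_ne_zero_of_card ho) (sq5 ho ?_)
      rw [(show Nat.Prime 5 by norm_num).dvd_mul] at h5
      rcases h5 with h5 | h5
      · left; omega
      · right
        have h7 : 5 ∣ (Fintype.card F - 1) * (Fintype.card F + 1) := by
          obtain ⟨r, hr⟩ : ∃ r, Fintype.card F = r + 1 := ⟨Fintype.card F - 1, by omega⟩
          rw [hr] at h5 ⊢
          rw [Nat.add_sub_cancel]
          have : (r + 1) ^ 2 = r * (r + 1 + 1) + 1 := by ring
          rwa [this, Nat.add_sub_cancel] at h5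
        rw [(show Nat.Prime 5 by norm_num).dvd_mul] at h7
        omega

end Cfsg.Agent.S0804
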