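import Cfsg.Statements.S0827
import Cfsg.Agent.H9.U32b

set_option autoImplicit false
open Cfsg

namespace Cfsg.Agent.S0827

open CfsgH9.U32 in
set_option maxHeartbeats 4000000 in
theorem rels {F : Type*} [Field F] (w : F) (hw : w ^ 2 + w + 1 = 0) (h2 : (2 : F) = 0) :
    mA w * mC = mD w * mA w ∧ mC * mA w * mD w = mA w ∧ mB w * mC = mD w * mC * mD w * mB w ∧
    mB w * mD w = mD w * mD w * mC * mC * mB w ∧ mA w * mA w * (mA w * mA w) = 1 ∧ mB w * mB w = mD w * mD w * (mA w * mA w) ∧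
    mA w * mB w * mA w = mZ w * mZ w * (mD w * mD w) * mB w ∧ mD w * mC = mZ w * (mC * mD w) ∧
    mD w * mD w * mD w = 1 ∧ (mC * mC * mC : Matrix (Fin 3) (Fin 3) F) = 1 := by
  refine ⟨?_, ?_, ?_, ?_, ?_, ?_, ?_, ?_, ?_, ?_⟩ <;> ext i j <;> fin_cases i <;> fin_cases j <;>
    simp [mA, mB, mC, mD, mZ, Matrix.mul_apply, Fin.sum_univ_three, Matrix.one_apply] <;> grind

/-- U_3(2) ≅ 3².Q_8: PSU_3(2) (form over the field with 4 elements) has a normal subgroup N which is elementary abelian of order 9 such that the quotient by N is isomorphic to the quaternion group of order 8. -/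
theorem result {F : Type*} [Field F] [Fintype F] (hF : Fintype.card F = 4) : ∃ (N : Subgroup (Cfsg.PSU 3 F 2)) (_ : N.Normal), Nat.card N = 9 ∧ (∀ x ∈ N, x ^ 3 = 1) ∧ Nonempty (Cfsg.PSU 3 F 2 ⧸ N ≃* QuaternionGroup 2) := by
  classical
  open CfsgH9.U32 in
  obtain ⟨w, hw, h2⟩ := exists_w hF
  have hcard := (Cfsg.Agent.S0282.result hF).1
  haveI : Finite (Cfsg.PSU 3 F 2) := Nat.finite_of_card_ne_zero (by rw [hcard]; norm_num)
  obtain ⟨r1, r2, r3, r4, r5, r6, r7, r8, r9, r10⟩ := rels w hw h2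
  let A : Cfsg.SU 3 F 2 := mkU (mA w) (dA w hw h2) (uA w hw h2)
  let B : Cfsg.SU 3 F 2 := mkU (mB w) (dB w hw h2) (uB w hw h2)
  let C : Cfsg.SU 3 F 2 := mkU mC dC uC
  let D : Cfsg.SU 3 F 2 := mkU (mD w) (dD w hw h2) (uD w hw h2)
  let Z : Cfsg.SU 3 F 2 := mkU (mZ w) (dZ w hw h2) (uZ w hw h2)
  have lift : ∀ X Y : Cfsg.SU 3 F 2, (X : Matrix.SpecialLinearGroup (Fin 3) F).1 = (Y : Matrix.SpecialLinearGroup (Fin 3) F).1 → X = Y :=
    fun X Y h => Subtype.ext (Subtype.ext h)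
  have s1 : A * C = D * A := lift _ _ r1
  have s2 : C * A * D = A := lift _ _ r2
  have s3 : B * C = D * C * D * B := lift _ _ r3
  have s4 : B * D = D * D * C * C * B := lift _ _ r4
  have s5 : A * A * (A * A) = 1 := lift _ _ r5
  have s6 : B * B = D * D * (A * A) := lift _ _ r6
  have s7 : A * B * A = Z * Z * (D * D) * B := lift _ _ r7
  have s8 : D * C = Z * (C * D) := lift _ _ r8
  have s9 : D * D * D = 1 := lift _ _ r9
  have s10 : C * C * C = 1 := lift _ _ r10
  have hZ : Z ∈ Subgroup.center (Cfsg.SU 3 F 2) := by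
    rw [Subgroup.mem_center_iff]
    intro X
    apply lift
    change (X : Matrix.SpecialLinearGroup (Fin 3) F).1 * mZ w = mZ w * (X : Matrix.SpecialLinearGroup (Fin 3) F).1
    have hz : mZ w = w • (1 : Matrix (Fin 3) (Fin 3) F) := by
      ext i j
      fin_cases i <;> fin_cases j <;> simp [mZ]
    rw [hz, mul_smul_comm, smul_mul_assoc, mul_one, one_mul]
  have hZ1 : Z ≠ 1 := by
    intro h
    have h3 := congrArg (fun X : Cfsg.SU 3 F 2 => (X : Matrix.SpecialLinearGroup (Fin 3) F).1 0 0) h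
    have h4 : w = 1 := h3
    rw [h4] at hw
    have h5 : (1 : F) = 0 := by linear_combination hw - h2
    exact one_ne_zero h5
  have hDC : D * C ≠ C * D := by
    intro h
    rw [s8] at h
    exact hZ1 (mul_eq_right.1 h)
  let π := QuotientGroup.mk' (Subgroup.center (Cfsg.SU 3 F 2))
  have hπZ : π Z = 1 := (QuotientGroup.eq_one_iff Z).2 hZ
  refine q8_struct hcard (π A) (π B) (π C) (π D) ?_ ?_ ?_ ?_ ?_ ?_ ?_ ?_ ?_ ?_ ?_ ?_
  · rw [pow_succ, pow_two, ← map_mul, ← map_mul, s10, map_one]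
  · rw [pow_succ, pow_two, ← map_mul, ← map_mul, s9, map_one]
  · have := congrArg π s8
    rw [map_mul, map_mul, map_mul, hπZ, one_mul] at this
    exact this.symm
  · rintro ⟨k, hk⟩
    apply hDC
    have h3 : π (D * (C ^ k)⁻¹) = 1 := by
      rw [map_mul, map_inv, map_zpow, ← hk]
      exact mul_inv_cancel _
    rw [← MonoidHom.mem_ker, QuotientGroup.ker_mk', Subgroup.mem_center_iff] at h3
    have h4 := h3 C
    have h5 : C * D * (C ^ k)⁻¹ = D * C * (C ^ k)⁻¹ := by
      calc C * D * (C ^ k)⁻¹ = C * (D * (C ^ k)⁻¹) := by group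
        _ = D * (C ^ k)⁻¹ * C := h4
        _ = D * C * (C ^ k)⁻¹ := by group
    exact (mul_right_cancel h5).symm
  · intro h
    apply hDC
    rw [← MonoidHom.mem_ker, QuotientGroup.ker_mk', Subgroup.mem_center_iff] at h
    exact h D
  · rw [← map_mul, ← map_mul, s1]
  · rw [← map_mul, ← map_mul, s2]
  · rw [← map_mul, ← map_mul, ← map_mul, ← map_mul, s3]
  · rw [← map_mul, ← map_mul, ← map_mul, ← map_mul, ← map_mul, s4]
  · have : (π A) ^ 4 = π (A * A * (A * A)) := by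
      rw [map_mul, map_mul, pow_succ, pow_succ, pow_two, mul_assoc]
    rw [this, s5, map_one]
  · rw [← map_mul, ← map_mul, ← map_mul, ← map_mul, s6]
  · rw [← map_mul, ← map_mul, s7, map_mul, map_mul, map_mul, hπZ, one_mul, one_mul, map_mul]

end Cfsg.Agent.S0827
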