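import Cfsg.Statements.S0976
import Cfsg.Agent.H5.SmS7

set_option autoImplicit false
open Cfsg

namespace Cfsg.Agent.S0976

open CfsgH5

/-- No finite simple group has order 4032 = 2^6 * 3^2 * 7. -/
theorem result {G : Type*} [Group G] [Finite G] [IsSimpleGroup G] : Nat.card G ≠ 4032 := by
  exact CfsgH5.order4032

end Cfsg.Agent.S0976
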