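import Cfsg.Statements.S1313
import Cfsg.Agent.H2.GenFitting2

set_option autoImplicit false
open Cfsg
open scoped commutatorElement

namespace Cfsg.Agent.S1313

/-- For a finite group H, |H| ≤ |F*(H)|!. -/
theorem result {H : Type*} [Group H] [Finite H] : Nat.card H ≤ Nat.factorial (Nat.card ↥(Cfsg.generalizedFittingSubgroup H)) := by
  -- `H / C_H(F*)` embeds in the permutations of `F*` fixing `1`, and `|C_H(F*)| ≤ |F*|`
  set F := Cfsg.generalizedFittingSubgroup H with hF
  let f : H →* MulAut F := MulAut.conjNormal
  have hker : f.ker ≤ F := by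
    refine le_trans ?_ CfsgH2.centralizer_generalizedFittingSubgroup_le
    intro x hx
    rw [Subgroup.mem_centralizer_iff]
    intro y hy
    have h1 : f x ⟨y, hy⟩ = ⟨y, hy⟩ := by rw [MonoidHom.mem_ker.mp hx]; rfl
    have h2 : x * y * x⁻¹ = y := by
      have := congrArg Subtype.val h1
      simpa [f] using this
    rw [mul_inv_eq_iff_eq_mul] at h2
    exact h2.symm
  have hcard : Nat.card H = Nat.card f.ker * Nat.card f.range := by
    rw [mul_comm, ← Subgroup.index_ker, Subgroup.index_mul_card]
  have h1 : Nat.card f.ker ≤ Nat.card F := Subgroup.card_le_of_le hker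
  have h2 : Nat.card f.range ≤ (Nat.card F - 1).factorial := by
    have h3 : Nat.card f.range ≤ Nat.card (MulAut F) := Nat.card_le_card_of_injective _ f.range.subtype_injective
    refine h3.trans ?_
    -- automorphisms permute the nonidentity elements
    let g : MulAut F → Equiv.Perm {x : F // x ≠ 1} := fun φ =>
      φ.toEquiv.subtypeEquiv (fun a => by simp)
    have hg : Function.Injective g := by
      intro φ ψ h
      ext x
      by_cases hx : x = 1
      · rw [hx, map_one, map_one]
      · have := congrArg (fun e => ((e ⟨x, hx⟩ : {x : F // x ≠ 1}) : F)) h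
        exact congrArg Subtype.val this
    have h4 := Nat.card_le_card_of_injective g hg
    classical
    haveI : Fintype F := Fintype.ofFinite _
    rw [Nat.card_eq_fintype_card (α := Equiv.Perm {x : F // x ≠ 1}), Fintype.card_perm] at h4
    rw [Fintype.card_subtype_compl, Fintype.card_subtype_eq] at h4
    rwa [Nat.card_eq_fintype_card (α := F)]
  rw [hcard]
  have h5 : 0 < Nat.card F := Nat.card_pos
  calc Nat.card f.ker * Nat.card f.range ≤ Nat.card F * (Nat.card F - 1).factorial := Nat.mul_le_mul h1 h2
    _ = (Nat.card F).factorial := Nat.mul_factorial_pred h5.ne'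

end Cfsg.Agent.S1313
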