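import Cfsg.Statements.S1901
import Cfsg.Agent.H7.Quick2

set_option autoImplicit false
open Cfsg

namespace Cfsg.Agent.S1901

/-- Let G be a finite p-solvable group and Q a subgroup of order prime to p such that p divides the index of C_G(Q) in N_G(Q). Then Q normalizes no Sylow p-subgroup of G. -/
theorem result {G : Type*} [Group G] [Finite G] {p : ℕ} [Fact p.Prime]
    (hG : Cfsg.IsPSolvable p G) (Q : Subgroup G) (hQ : ¬ p ∣ Nat.card Q)
    (hA : p ∣ (Subgroup.centralizer (Q : Set G)).relIndex (Subgroup.normalizer (Q : Set G)))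
    (P : Sylow p G) : ¬ Q ≤ Subgroup.normalizer ((P : Subgroup G) : Set G) := by
  intro hQP
  have hp : p.Prime := Fact.out
  have hQc : (Nat.card ↥Q).Coprime p := ((Nat.Prime.coprime_iff_not_dvd hp).mpr hQ).symm
  obtain ⟨T, hT⟩ := CfsgH7.exists_isSyl p (Subgroup.normalizer (Q : Set G))
  have h1 := CfsgH7.psolvable_centralize (Nat.card G) G rfl hG Q (P : Subgroup G) T hQc (CfsgH7.isSyl_of_sylow P) hQP hT.isPGroup hT.le
  have h2 : T ≤ Subgroup.centralizer (Q : Set G) := by
    rw [Subgroup.commutator_comm, Subgroup.commutator_eq_bot_iff_le_centralizer] at h1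
    exact h1
  apply hT.not_dvd
  refine hA.trans ?_
  have h3 := Subgroup.relIndex_mul_relIndex T (Subgroup.centralizer (Q : Set G)) (Subgroup.normalizer (Q : Set G)) h2 (Subgroup.centralizer_le_normalizer _)
  exact Dvd.intro_left _ h3

end Cfsg.Agent.S1901
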