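import Cfsg.Statements.S1905
import Cfsg.Agent.H7.Quick9

set_option autoImplicit false
open Cfsg

namespace Cfsg.Agent.S1905

/-- Let M be a subgroup of even order of a finite group S such that M contains the centralizer in S of each of its involutions and the normal core of M in S has odd order. Then all involutions of S are conjugate. If moreover N_S(X) ≤ M for a Sylow 2-subgroup X of M and I is an involution in the centre of X, then all involutions of M are conjugate in M and M = M₀ C_M(I) for some subgroup M₀ of M of odd order. -/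
theorem result {S : Type*} [Group S] [Finite S] (M : Subgroup S) (hM : Even (Nat.card M))
    (hC : ∀ i ∈ M, orderOf i = 2 → Subgroup.centralizer ({i} : Set S) ≤ M) (hcore : Odd (Nat.card M.normalCore)) :
    (∀ x y : S, orderOf x = 2 → orderOf y = 2 → IsConj x y) ∧
      ∀ (X : Sylow 2 M) (I : M), I ∈ (Subgroup.center ↥(X : Subgroup ↥M)).map (X : Subgroup ↥M).subtype → orderOf I = 2 →
        Subgroup.normalizer (((X : Subgroup M).map M.subtype : Subgroup S) : Set S) ≤ M →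
        (∀ x y : M, orderOf x = 2 → orderOf y = 2 → IsConj x y) ∧
          ∃ M₀ : Subgroup M, Odd (Nat.card M₀) ∧
            ∀ m : M, ∃ a ∈ M₀, ∃ c ∈ Subgroup.centralizer ({I} : Set M), m = a * c := by
  refine ⟨CfsgH7.conj_all_of_centralizers hM hC hcore, fun X I hI hIo hN => ?_⟩
  have hse := CfsgH7.stronglyEmbedded_of_centralizers hM hC hcore (CfsgH7.isSyl_map_subtype X) hN
  obtain ⟨v, hv, hvo⟩ := CfsgH3.SE.exists_notMem hse
  have hodd := hse.2.2 v hv
  have hIo' : orderOf (I : S) = 2 := by rw [Subgroup.orderOf_coe]; exact hIo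
  set D := M ⊓ M.map (MulAut.conj v).toMonoidHom with hD
  have htr : ∀ x y : M, orderOf x = 2 → orderOf y = 2 → ∃ d ∈ D, d * (x : S) * d⁻¹ = y := fun x y hx hy =>
    CfsgH3.SE.trans hse hvo hv (by rw [Subgroup.orderOf_coe]; exact hx) x.2 (by rw [Subgroup.orderOf_coe]; exact hy) y.2
  refine ⟨fun x y hx hy => ?_, D.subgroupOf M, ?_, fun m => ?_⟩
  · obtain ⟨d, hd, hdx⟩ := htr x y hx hy
    exact isConj_iff.mpr ⟨⟨d, hd.1⟩, Subtype.ext hdx⟩
  · rw [Nat.card_congr (Subgroup.subgroupOfEquivOfLe (inf_le_left : D ≤ M)).toEquiv]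
    exact hodd
  · obtain ⟨d, hd, hdx⟩ := htr I (m * I * m⁻¹) hIo ((CfsgH3.orderOf_conj m I).trans hIo)
    refine ⟨⟨d, hd.1⟩, hd, ⟨d, hd.1⟩⁻¹ * m, ?_, by group⟩
    rw [Subgroup.mem_centralizer_singleton_iff]
    have h1 : (⟨d, hd.1⟩ : M) * I * (⟨d, hd.1⟩ : M)⁻¹ = m * I * m⁻¹ := Subtype.ext hdx
    calc (⟨d, hd.1⟩ : M)⁻¹ * m * I = (⟨d, hd.1⟩ : M)⁻¹ * (m * I * m⁻¹) * m := by group
      _ = (⟨d, hd.1⟩ : M)⁻¹ * ((⟨d, hd.1⟩ : M) * I * (⟨d, hd.1⟩ : M)⁻¹) * m := by rw [h1]
      _ = _ := by group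

end Cfsg.Agent.S1905
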