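import Cfsg.Statements.S1956
import Cfsg.Agent.H7.Quick3

set_option autoImplicit false
open Cfsg

namespace Cfsg.Agent.S1956

/-- Let P be a Sylow p-subgroup of the finite group G such that every element of P of order dividing p (dividing 4 when p = 2) is central in P. Then the fusion of these elements is controlled by N_G(P): if such an element a of P has g a g⁻¹ in P, then g = n c with n normalizing P and c commuting with a. -/
theorem result {G : Type*} [Group G] [Finite G] {p : ℕ} [Fact p.Prime] (P : Sylow p G)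
    (hcen : ∀ a ∈ (P : Subgroup G), (a ^ p = 1 ∨ (p = 2 ∧ a ^ 4 = 1)) → ∀ y ∈ (P : Subgroup G), a * y = y * a) :
    ∀ a ∈ (P : Subgroup G), (a ^ p = 1 ∨ (p = 2 ∧ a ^ 4 = 1)) → ∀ g : G, g * a * g⁻¹ ∈ (P : Subgroup G) →
      ∃ n ∈ Subgroup.normalizer ((P : Subgroup G) : Set G), ∃ c : G, c * a = a * c ∧ g = n * c := by
  intro a ha hap g hg
  refine CfsgH7.central_fusion (CfsgH7.isSyl_of_sylow P) (hcen a ha hap) (hcen _ hg ?_)
  rcases hap with h | ⟨h2, h⟩
  · left; rw [conj_pow, h, mul_one, mul_inv_cancel]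
  · right; refine ⟨h2, ?_⟩; rw [conj_pow, h, mul_one, mul_inv_cancel]

end Cfsg.Agent.S1956
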