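import Cfsg.Statements.S2015
import Cfsg.Agent.H7.KControl

set_option autoImplicit false
universe u
open Cfsg

namespace Cfsg.Agent.S2015

/-- For p ≥ 5, every finite p-group P has a characteristic subgroup K containing Z(P), depending only on P, whose normalizer controls transfer wherever P is a Sylow subgroup: for every finite group G and every embedding ι of P onto a Sylow p-subgroup of G, the intersection of ι(P) with the derived subgroup of G equals its intersection with the derived subgroup of N_G(ι(K)). -/
theorem result (p : ℕ) [Fact p.Prime] (hp : 5 ≤ p) (P : Type u) [Group P] [Finite P] (hP : IsPGroup p P) : ∃ K : Subgroup P, K.Characteristic ∧ Subgroup.center P ≤ K ∧ ∀ (G : Type u) [Group G] [Finite G] (ι : P →* G), Function.Injective ι → (∃ T : Sylow p G, (T : Subgroup G) = ι.range) → ι.range ⊓ commutator G = ι.range ⊓ (commutator ↥(Subgroup.normalizer ((K.map ι : Subgroup G) : Set G))).map (Subgroup.normalizer ((K.map ι : Subgroup G) : Set G)).subtype := by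
  have hnil := hP.isNilpotent
  refine ⟨Cfsg.kInfLower P, Subgroup.characteristic_iff_map_eq.mpr fun φ => CfsgH7.kInfLower_equiv φ,
    (CfsgH7.center_le_kInf P).1, ?_⟩
  intro G _ _ ι hι hT
  obtain ⟨T, hT⟩ := hT
  have h1 : (Cfsg.kInfLower P).map ι = Cfsg.inducedFunctor Cfsg.kInfLower (T : Subgroup G) := by
    have h2 := CfsgH7.inducedFunctor_map (CfsgH7.isCharPFunctor_kInfLower p) ι (⊤ : Subgroup P)
      (hP.of_injective _ (Subgroup.subtype_injective ⊤)) hι.injOn
    rw [hT, MonoidHom.range_eq_map]
    rw [h2]
    congr 1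
    unfold Cfsg.inducedFunctor
    have := CfsgH7.kInfLower_equiv (Subgroup.topEquiv (G := P))
    exact this.symm
  have h2 := CfsgH7.transfer_of_trc (CfsgH7.isCharPFunctor_kInfLower p) (CfsgH7.kInf_transfer hp (Or.inl rfl)) T
  rw [h1, ← hT, h2, CfsgH7.map_subtype_commutator_top]

end Cfsg.Agent.S2015
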