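import Mathlib
import Cfsg.Statements.S2163

set_option autoImplicit false
open Cfsg

namespace Cfsg.Agent.S2163

/-- Over a finite field of characteristic two and for n ≥ 3: for every ℓ with 1 ≤ ℓ and 2ℓ ≤ n, the matrix j_ℓ that is the identity plus the entries 1 in positions (n − ℓ + i, i) for i < ℓ (an identity block of size ℓ in the lower left corner) lies in SL_n(F), has order 2, and j_ℓ − 1 has rank ℓ. Together with the conjugacy criterion by rank, these matrices represent the conjugacy classes of involutions of SL_n(F). -/
theorem result {F : Type*} [Field F] [Fintype F] [CharP F 2] {n : ℕ} (hn : 3 ≤ n) (ℓ : ℕ) (h1 : 1 ≤ ℓ) (h2 : 2 * ℓ ≤ n) :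
    ∃ a : Matrix.SpecialLinearGroup (Fin n) F, (a : Matrix (Fin n) (Fin n) F) = 1 + Matrix.of (fun i j : Fin n => if j.val < ℓ ∧ i.val = j.val + (n - ℓ) then (1 : F) else 0) ∧ orderOf a = 2 ∧ ((a : Matrix (Fin n) (Fin n) F) - 1).rank = ℓ := by
  classical
  let A : Matrix (Fin n) (Fin ℓ) F := Matrix.of (fun i l => if i.val = l.val + (n - ℓ) then (1 : F) else 0)
  let B : Matrix (Fin ℓ) (Fin n) F := Matrix.of (fun l j => if j.val = l.val then (1 : F) else 0)
  set N : Matrix (Fin n) (Fin n) F := Matrix.of (fun i j : Fin n => if j.val < ℓ ∧ i.val = j.val + (n - ℓ) then (1 : F) else 0) with hN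
  have hAB : N = A * B := by
    ext i j
    rw [Matrix.mul_apply, hN, Matrix.of_apply]
    by_cases hj : j.val < ℓ
    · rw [Finset.sum_eq_single (⟨j.val, hj⟩ : Fin ℓ)]
      · simp only [A, B, Matrix.of_apply]
        by_cases hi : i.val = j.val + (n - ℓ)
        · rw [if_pos ⟨hj, hi⟩, if_pos hi]; simp
        · rw [if_neg (fun h => hi h.2), if_neg hi, zero_mul]
      · intro l _ hl
        simp only [A, B, Matrix.of_apply]
        rw [if_neg (fun h : j.val = l.val => hl (Fin.ext h.symm)), mul_zero]
      · intro h; exact absurd (Finset.mem_univ _) h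
    · rw [if_neg (fun h => hj h.1), Finset.sum_eq_zero]
      intro l _
      simp only [A, B, Matrix.of_apply]
      rw [if_neg (fun h : j.val = l.val => hj (by rw [h]; exact l.2)), mul_zero]
  have hA : A.transpose * A = 1 := by
    ext l l'
    rw [Matrix.mul_apply, Finset.sum_eq_single (⟨l.val + (n - ℓ), by have := l.2; omega⟩ : Fin n)]
    · simp only [A, Matrix.transpose_apply, Matrix.of_apply]
      rw [if_true, one_mul, Matrix.one_apply]
      by_cases h : l = l'
      · rw [if_pos h, if_pos (by rw [h])]
      · rw [if_neg h, if_neg (fun h' => h (Fin.ext (by omega)))]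
    · intro i _ hi
      simp only [A, Matrix.transpose_apply, Matrix.of_apply]
      rw [if_neg (fun h : i.val = l.val + (n - ℓ) => hi (Fin.ext h)), zero_mul]
    · intro h; exact absurd (Finset.mem_univ _) h
  have hB : B * B.transpose = 1 := by
    ext l l'
    rw [Matrix.mul_apply, Finset.sum_eq_single (⟨l.val, by have := l.2; omega⟩ : Fin n)]
    · simp only [B, Matrix.transpose_apply, Matrix.of_apply]
      rw [if_true, one_mul, Matrix.one_apply]
      by_cases h : l = l'
      · rw [if_pos h, if_pos (by rw [h])]
      · rw [if_neg h, if_neg (fun h' => h (Fin.ext h'))]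
    · intro i _ hi
      simp only [B, Matrix.transpose_apply, Matrix.of_apply]
      rw [if_neg (fun h : i.val = l.val => hi (Fin.ext h)), zero_mul]
    · intro h; exact absurd (Finset.mem_univ _) h
  have hrank : N.rank = ℓ := by
    apply le_antisymm
    · rw [hAB]
      exact (Matrix.rank_mul_le_left A B).trans (by simpa using Matrix.rank_le_width A)
    · have h3 : A.transpose * N * B.transpose = 1 := by
        rw [hAB]
        calc A.transpose * (A * B) * B.transpose = (A.transpose * A) * (B * B.transpose) := by
              simp only [Matrix.mul_assoc]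
          _ = 1 := by rw [hA, hB, Matrix.one_mul]
      have h4 : (1 : Matrix (Fin ℓ) (Fin ℓ) F).rank = ℓ := by rw [Matrix.rank_one, Fintype.card_fin]
      calc ℓ = (A.transpose * N * B.transpose).rank := by rw [h3, h4]
        _ ≤ (A.transpose * N).rank := Matrix.rank_mul_le_left _ _
        _ ≤ N.rank := Matrix.rank_mul_le_right _ _
  have hNN : N * N = 0 := by
    ext i j
    rw [Matrix.mul_apply, Matrix.zero_apply]
    apply Finset.sum_eq_zero
    intro k _
    rw [hN, Matrix.of_apply, Matrix.of_apply]
    by_cases hk : k.val < ℓ ∧ i.val = k.val + (n - ℓ)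
    · rw [if_neg (fun h : j.val < ℓ ∧ k.val = j.val + (n - ℓ) => by omega), mul_zero]
    · rw [if_neg hk, zero_mul]
  have hdet : (1 + N).det = 1 := by
    rw [Matrix.det_of_lowerTriangular]
    · apply Finset.prod_eq_one
      intro i _
      rw [Matrix.add_apply, Matrix.one_apply_eq, hN, Matrix.of_apply, if_neg (fun h => by omega), add_zero]
    · intro i j hij
      have hij' : i < j := hij
      rw [Matrix.add_apply, Matrix.one_apply_ne hij'.ne, hN, Matrix.of_apply, if_neg (fun h => by
        have := Fin.lt_def.1 hij'
        omega), add_zero]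
  have hsq : (1 + N) * (1 + N) = 1 := by
    have h0 : N + N = 0 := by
      ext i j
      exact CharTwo.add_self_eq_zero _
    calc (1 + N) * (1 + N) = 1 + (N + N) + N * N := by noncomm_ring
      _ = 1 := by rw [h0, hNN, add_zero, add_zero]
  let a : Matrix.SpecialLinearGroup (Fin n) F := ⟨1 + N, hdet⟩
  have haa : a * a = 1 := Subtype.ext hsq
  refine ⟨a, rfl, ?_, ?_⟩
  · apply orderOf_eq_prime
    · rw [pow_two]; exact haa
    · intro h
      have h3 : 1 + N = 1 := congrArg Subtype.val h
      have h4 : N = 0 := by
        have := congrArg (fun M => M - 1) h3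
        simpa using this
      rw [h4, Matrix.rank_zero] at hrank
      omega
  · change (1 + N - 1).rank = ℓ
    rw [add_sub_cancel_left]; exact hrank

end Cfsg.Agent.S2163
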