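import Cfsg.Statements.S2179
import Cfsg.Agent.H6.ChZ9

set_option autoImplicit false
open Cfsg

namespace Cfsg.Agent.S2179

/-- Centralizers of the two remaining classes of involutions in the Chevalley group G of type F₄ over a finite field F of characteristic two (this problem's root numbering for type F₄, from the Chevalley data module: p₁, p₂ short, p₃, p₄ long with indices 33, 27, 25, 24 and negatives 14, 20, 22, 23; U generated by the positive root subgroups). For an element of G with matrix x_47(1)x_44(1) (highest root times highest short root): its centralizer in G is generated by U, X_{−p₂} and X_{−p₃}. For an element of G with matrix x_39(1)x_45(1) (roots (1,2,2,1) and (2,4,2,1), an orthogonal short/long pair): its centralizer in G is generated by X_{p₁}, X_{−p₁}, X_{p₄}, X_{−p₄} and the root subgroups of all positive roots other than p₂ (27), p₃ (25), p₁ + p₂ (34) and p₃ + p₄ (26). -/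
theorem result {F : Type*} [Field F] [Fintype F] [CharP F 2] (w v : GL Cfsg.Lie.chevF4.Idx F) (hw : (w : Matrix Cfsg.Lie.chevF4.Idx Cfsg.Lie.chevF4.Idx F) = Cfsg.Lie.chevF4.x F 47 1 * Cfsg.Lie.chevF4.x F 44 1) (hv : (v : Matrix Cfsg.Lie.chevF4.Idx Cfsg.Lie.chevF4.Idx F) = Cfsg.Lie.chevF4.x F 39 1 * Cfsg.Lie.chevF4.x F 45 1) :
    Cfsg.Lie.chevF4.group F ⊓ Subgroup.centralizer {w} = Cfsg.Lie.chevF4.posUnipotent F ⊔ Cfsg.Lie.chevF4.rootSubgroup F 20 ⊔ Cfsg.Lie.chevF4.rootSubgroup F 22 ∧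
    Cfsg.Lie.chevF4.group F ⊓ Subgroup.centralizer {v} = Cfsg.Lie.chevF4.rootSubgroup F 33 ⊔ Cfsg.Lie.chevF4.rootSubgroup F 14 ⊔ Cfsg.Lie.chevF4.rootSubgroup F 24 ⊔ Cfsg.Lie.chevF4.rootSubgroup F 23 ⊔
      Subgroup.closure {g : GL Cfsg.Lie.chevF4.Idx F | ∃ (r : ℕ) (c : F), Cfsg.Lie.chevF4.IsPosRoot r ∧ r ∉ [27, 25, 34, 26] ∧ (g : Matrix Cfsg.Lie.chevF4.Idx Cfsg.Lie.chevF4.Idx F) = Cfsg.Lie.chevF4.x F r c} := by
  have hn : Cfsg.Lie.chevF4.nroots = 48 := rfl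
  constructor
  · rw [CfsgH6.Chv.F4_main' hw, ← CfsgH6.Chv.goodF4.XS_root (by decide +kernel), ← CfsgH6.Chv.goodF4.XS_root (by decide +kernel), CfsgH6.Chv.goodF4.posU_eq]
    unfold CfsgH6.Chv.Good.UU
    rw [← CfsgH6.Chv.goodF4.XS_sup, ← CfsgH6.Chv.goodF4.XS_sup]
    apply CfsgH6.Chv.goodF4.XS_congr
    intro r _
    unfold CfsgH6.Chv.SF4'
    rw [Bool.or_eq_true, decide_eq_true_eq, List.contains_iff_mem]
    simp only [List.mem_cons, List.not_mem_nil, or_false, or_assoc]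
    exact Iff.rfl
  · rw [CfsgH6.Chv.F4_main hv, ← CfsgH6.Chv.goodF4.XS_root (by decide +kernel), ← CfsgH6.Chv.goodF4.XS_root (by decide +kernel),
      ← CfsgH6.Chv.goodF4.XS_root (by decide +kernel), ← CfsgH6.Chv.goodF4.XS_root (by decide +kernel)]
    rw [← CfsgH6.Chv.goodF4.XS_sup, ← CfsgH6.Chv.goodF4.XS_sup, ← CfsgH6.Chv.goodF4.XS_sup]
    have h1 : Subgroup.closure {g : GL Cfsg.Lie.chevF4.Idx F | ∃ (r : ℕ) (c : F), Cfsg.Lie.chevF4.IsPosRoot r ∧ r ∉ [27, 25, 34, 26] ∧ (g : Matrix Cfsg.Lie.chevF4.Idx Cfsg.Lie.chevF4.Idx F) = Cfsg.Lie.chevF4.x F r c} =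
        CfsgH6.Chv.goodF4.XS F (fun r => 24 ≤ r ∧ r ∉ [27, 25, 34, 26]) := by
      apply le_antisymm
      · rw [Subgroup.closure_le]
        rintro x ⟨r, c, hr, hr', hx⟩
        rw [(CfsgH6.Chv.goodF4.eq_xg_iff r c x).1 hx]
        exact CfsgH6.Chv.goodF4.xg_mem (S := fun r => 24 ≤ r ∧ r ∉ [27, 25, 34, 26]) ⟨((CfsgH6.Chv.goodF4.isPosRoot_iff r).1 hr).2, hr'⟩ c
      · unfold CfsgH6.Chv.Good.XS
        rw [Subgroup.closure_le]
        rintro _ ⟨r, c, hr, hr', rfl⟩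
        exact Subgroup.subset_closure ⟨r, c, (CfsgH6.Chv.goodF4.isPosRoot_iff r).2 ⟨hr', hr.1⟩, hr.2, (CfsgH6.Chv.goodF4.x_eq_xg r c).symm⟩
    rw [h1, ← CfsgH6.Chv.goodF4.XS_sup]
    apply CfsgH6.Chv.goodF4.XS_congr
    intro r _
    unfold CfsgH6.Chv.SF4
    rw [Bool.or_eq_true, Bool.and_eq_true, decide_eq_true_eq, List.contains_iff_mem, Bool.not_eq_true', ← Bool.not_eq_true, List.contains_iff_mem]
    simp only [List.mem_cons, List.not_mem_nil, or_false, or_assoc]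

end Cfsg.Agent.S2179
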