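import Cfsg.Statements.S2186
import Cfsg.Agent.H6.ChZ3

set_option autoImplicit false
open Cfsg

namespace Cfsg.Agent.S2186

theorem aux {F : Type*} [Field F] [Fintype F] [CharP F 2] {D : Cfsg.Lie.ChevalleyDatum} (g : CfsgH6.Chv.Good D) {lg : ℕ → Bool}
    {r r' : ℕ} (hr : r = D.nroots - 1) (hr' : D.neg r = r') (h : CfsgH6.Chv.pairChk D g.w g.N r lg = true) {x : GL D.Idx F} (hx : x ∈ D.group F) :
    IsPGroup 2 ↥(D.rootSubgroup F (D.nroots - 1) ⊔ (D.rootSubgroup F (D.nroots - 1)).map (MulAut.conj x).toMonoidHom) ∨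
    ∃ h ∈ D.group F, (D.rootSubgroup F (D.nroots - 1) ⊔ (D.rootSubgroup F (D.nroots - 1)).map (MulAut.conj x).toMonoidHom).map (MulAut.conj h).toMonoidHom =
      D.rootSubgroup F (D.nroots - 1) ⊔ D.rootSubgroup F r' := by
  rw [← hr, ← hr', g.group_eq]
  rw [g.group_eq] at hx
  exact g.stmt_2186 (p := 2) h hx

/-- Let G be the Chevalley group of type G₂ (over a field with at least four elements), D₄, E₆, E₇ or E₈ over a finite field F of characteristic two, and let X be the root subgroup of the highest root (the last root index) — a long root subgroup, of order |F|. For every g in G, the subgroup generated by X and its conjugate g X g⁻¹ is either a 2-group or is conjugate by an element of G to the subgroup generated by X and the root subgroup of the lowest root (index 0, the negative of the highest root), which is a copy of SL₂(F). -/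
theorem result {F : Type*} [Field F] [Fintype F] [CharP F 2] (D : Cfsg.Lie.ChevalleyDatum) (hD : D ∈ [Cfsg.Lie.chevG2, Cfsg.Lie.chevD4, Cfsg.Lie.chevE6, Cfsg.Lie.chevE7, Cfsg.Lie.chevE8]) (hF : D = Cfsg.Lie.chevG2 → 4 ≤ Fintype.card F) (g : GL D.Idx F) (hg : g ∈ D.group F) :
    IsPGroup 2 ↥(D.rootSubgroup F (D.nroots - 1) ⊔ (D.rootSubgroup F (D.nroots - 1)).map (MulAut.conj g).toMonoidHom) ∨
    ∃ h ∈ D.group F, (D.rootSubgroup F (D.nroots - 1) ⊔ (D.rootSubgroup F (D.nroots - 1)).map (MulAut.conj g).toMonoidHom).map (MulAut.conj h).toMonoidHom = D.rootSubgroup F (D.nroots - 1) ⊔ D.rootSubgroup F 0 := by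
  simp only [List.mem_cons, List.not_mem_nil, or_false] at hD
  rcases hD with rfl | rfl | rfl | rfl | rfl
  · exact aux CfsgH6.Chv.goodG2 rfl (by decide +kernel) CfsgH6.Chv.pcG2 hg
  · exact aux CfsgH6.Chv.goodD4 rfl (by decide +kernel) CfsgH6.Chv.pcD4' hg
  · exact aux CfsgH6.Chv.goodE6 rfl (by decide +kernel) CfsgH6.Chv.pcE6' hg
  · exact aux CfsgH6.Chv.goodE7 rfl (by decide +kernel) CfsgH6.Chv.pcE7' hg
  · exact aux CfsgH6.Chv.goodE8 rfl (by decide +kernel) CfsgH6.Chv.pcE8' hg

end Cfsg.Agent.S2186
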