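import Cfsg.Statements.S2231
import Cfsg.Agent.H6.Sl33

set_option autoImplicit false
open Cfsg

namespace Cfsg.Agent.S2231

open CfsgH6 CfsgH4

/-- Let p be an odd prime and K a finite field of characteristic p. Then Qd(p) (the natural semidirect product of an elementary abelian group of order p² by SL₂(p)) is not involved in the projective special linear group PSL₂(K). -/
theorem result {p : ℕ} [Fact p.Prime] (hp : p ≠ 2) {K : Type*} [Field K] [Fintype K] [CharP K p] : ¬ Cfsg.Involves ↥(Cfsg.qd p) (Matrix.ProjectiveSpecialLinearGroup (Fin 2) K) := by
  classical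
  exact not_involves_qd hp (fun P hP => (mSL (F := K)).pgroup_comm isSL_mSL hp P hP)

end Cfsg.Agent.S2231
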