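import Cfsg.Statements.S2238
import Cfsg.Agent.L.Sz.Part

set_option autoImplicit false
open Cfsg

namespace Cfsg.Agent.S2238
open Subgroup
open CfsgL.Sz

/-- The partition of the Suzuki group: with q = 2^(2m+1), m ≥ 1, r = 2^m and the Suzuki group realised as the stabiliser in SL₄ of the Suzuki–Tits ovoid, every non-identity element lies in exactly one subgroup that is either a Sylow 2-subgroup or a cyclic subgroup of order q − 1, q + 2r + 1 or q − 2r + 1. -/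
theorem result {F : Type*} [Field F] [Fintype F] {m : ℕ} (hm : 1 ≤ m) (hF : Fintype.card F = 2 ^ (2 * m + 1)) (g : ↥(Cfsg.Sz F m)) (hg : g ≠ 1) :
    ∃! U : Subgroup ↥(Cfsg.Sz F m), ((∃ P : Sylow 2 ↥(Cfsg.Sz F m), U = (P : Subgroup ↥(Cfsg.Sz F m))) ∨
      (IsCyclic ↥U ∧ Nat.card ↥U ∈ ({2 ^ (2 * m + 1) - 1, 2 ^ (2 * m + 1) + 2 ^ (m + 1) + 1, 2 ^ (2 * m + 1) - 2 ^ (m + 1) + 1} : Set ℕ))) ∧ g ∈ U := by
  haveI := CfsgL.Sz.char_two hF
  haveI : Fact (Fintype.card F = 2 ^ (2 * m + 1)) := ⟨hF⟩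
  haveI : Fact (1 ≤ m) := ⟨hm⟩
  obtain ⟨f1, f2, f3, f4, f5⟩ := two_t_facts (F := F) (m := m)
  have hq := card_F (F := F) (m := m)
  have h8 := card_F_ge (F := F) (m := m)
  rw [← hq]
  have hr : 2 ^ (m + 1) ≤ Nat.card F := by
    rw [hq]; exact Nat.pow_le_pow_right (by norm_num) (by omega)
  have hrpos : 0 < 2 ^ (m + 1) := by positivity
  have e1 : Nat.card F + 1 - 2 ^ (m + 1) = Nat.card F - 2 ^ (m + 1) + 1 := by omega
  rw [e1] at f2 f3 f4
  -- pairwise coprimality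
  have hcopA : Nat.Coprime (Nat.card F - 1) (Nat.card F + 2 ^ (m + 1) + 1) :=
    f1.coprime_dvd_right ⟨_, f2.symm⟩
  have hcopB : Nat.Coprime (Nat.card F - 1) (Nat.card F - 2 ^ (m + 1) + 1) :=
    f1.coprime_dvd_right ⟨Nat.card F + 2 ^ (m + 1) + 1, by rw [← f2, mul_comm]⟩
  have hcop : ∀ a ∈ ({Nat.card F - 1, Nat.card F + 2 ^ (m + 1) + 1, Nat.card F - 2 ^ (m + 1) + 1} : Set ℕ),
      ∀ b ∈ ({Nat.card F - 1, Nat.card F + 2 ^ (m + 1) + 1, Nat.card F - 2 ^ (m + 1) + 1} : Set ℕ),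
      a ∣ b → a = b := by
    have hne : ∀ {a b : ℕ}, Nat.Coprime a b → 1 < a → ¬ a ∣ b := by
      intro a b h1 h2 h3
      have := Nat.eq_one_of_dvd_coprimes h1 dvd_rfl h3
      omega
    rintro a (rfl | rfl | rfl) b (rfl | rfl | rfl) hab
    · rfl
    · exact absurd hab (hne hcopA f5)
    · exact absurd hab (hne hcopB f5)
    · exact absurd hab (hne hcopA.symm (by omega))
    · rfl
    · exact absurd hab (hne f3 (by omega))
    · exact absurd hab (hne hcopB.symm f4)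
    · exact absurd hab (hne f3.symm f4)
    · rfl
  have hodd : ∀ a ∈ ({Nat.card F - 1, Nat.card F + 2 ^ (m + 1) + 1, Nat.card F - 2 ^ (m + 1) + 1} : Set ℕ),
      Nat.Coprime a 4 := by
    have h1 : Even (2 ^ (m + 1)) := by rw [pow_succ]; exact even_two.mul_left _
    obtain ⟨r, hr'⟩ := h1
    obtain ⟨s, hs⟩ := card_F_even (F := F) (m := m)
    intro a ha
    have h2 : Odd a := by
      rcases ha with rfl | rfl | rfl
      · exact ⟨s - 1, by omega⟩
      · exact ⟨s + r, by omega⟩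
      · exact ⟨s - r, by omega⟩
    exact Nat.Coprime.pow_right 2 (Nat.coprime_two_right.2 h2)
  rcases cent_tri hg with ⟨x, hx⟩ | ⟨hcyc, hcard⟩
  · obtain ⟨P, hP⟩ := conj_sylow x
    refine ⟨P, ⟨Or.inl ⟨P, rfl⟩, (hP g).2 hx⟩, ?_⟩
    rintro U ⟨⟨P', rfl⟩ | ⟨hcU, hkU⟩, hgU⟩
    · rw [sylow_eq hg ((hP g).2 hx) hgU]
    · exfalso
      have h1 := order_QQ hx
      have h2 : orderOf g ∣ Nat.card U := Subgroup.orderOf_dvd_natCard _ hgU
      exact hg (orderOf_eq_one_iff.1 (Nat.eq_one_of_dvd_coprimes (hodd _ hkU) h2 h1))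
  · have hmem : Nat.card (centralizer {g}) ∈ ({Nat.card F - 1, Nat.card F + 2 ^ (m + 1) + 1,
        Nat.card F - 2 ^ (m + 1) + 1} : Set ℕ) := by
      rcases hcard with h | ⟨-, h | h⟩
      · exact Or.inl h
      · exact Or.inr (Or.inl h)
      · refine Or.inr (Or.inr ?_)
        change Nat.card (centralizer {g}) = Nat.card F - 2 ^ (m + 1) + 1
        rw [← e1, ← h, Nat.add_sub_cancel]
    refine ⟨centralizer {g}, ⟨Or.inr ⟨hcyc, hmem⟩, mem_centralizer_singleton_iff.2 rfl⟩, ?_⟩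
    rintro U ⟨⟨P', rfl⟩ | ⟨hcU, hkU⟩, hgU⟩
    · exfalso
      obtain ⟨x, hx⟩ := sylow_conj P'
      have h1 := order_QQ ((hx g).1 hgU)
      have h2 : orderOf g ∣ Nat.card (centralizer {g}) :=
        Subgroup.orderOf_dvd_natCard _ (mem_centralizer_singleton_iff.2 rfl)
      exact hg (orderOf_eq_one_iff.1 (Nat.eq_one_of_dvd_coprimes (hodd _ hmem) h2 h1))
    · have h1 := le_cent_of_cyclic hcU hgU
      have h2 := hcop _ hkU _ hmem (card_dvd_of_le h1)
      exact eq_of_le_of_card_ge h1 h2.ge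

end Cfsg.Agent.S2238
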