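import Cfsg.Statements.S2239
import Cfsg.Agent.L.Sz.Sub6

set_option autoImplicit false
open Cfsg

namespace Cfsg.Agent.S2239
open Subgroup
open CfsgL.Sz
open CfsgL.Odd

/-- Subfield subgroups of the Suzuki group: let q = 2^(2m+1) and s = 2^(2k+1) with m, k ≥ 1 and 2k+1 dividing 2m+1 (so q is a power of s), both groups realised as stabilisers in SL₄ of the Suzuki–Tits ovoid. Then Sz(q) has a subgroup isomorphic to Sz(s), and any two subgroups of Sz(q) isomorphic to Sz(s) are conjugate. -/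
theorem result {F : Type*} [Field F] [Fintype F] {m : ℕ} (hm : 1 ≤ m) (hF : Fintype.card F = 2 ^ (2 * m + 1)) {K : Type*} [Field K] [Fintype K] {k : ℕ} (hk : 1 ≤ k) (hK : Fintype.card K = 2 ^ (2 * k + 1)) (hdiv : 2 * k + 1 ∣ 2 * m + 1) :
    (∃ S : Subgroup ↥(Cfsg.Sz F m), Nonempty (↥S ≃* ↥(Cfsg.Sz K k))) ∧
    ∀ S₁ S₂ : Subgroup ↥(Cfsg.Sz F m), Nonempty (↥S₁ ≃* ↥(Cfsg.Sz K k)) → Nonempty (↥S₂ ≃* ↥(Cfsg.Sz K k)) →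
      ∃ g : ↥(Cfsg.Sz F m), S₂ = S₁.map (MulAut.conj g).toMonoidHom := by
  haveI := CfsgL.Sz.char_two hF
  haveI : Fact (Fintype.card F = 2 ^ (2 * m + 1)) := ⟨hF⟩
  haveI : Fact (1 ≤ m) := ⟨hm⟩
  haveI := CfsgL.Sz.char_two hK
  haveI : Fact (Fintype.card K = 2 ^ (2 * k + 1)) := ⟨hK⟩
  haveI : Fact (1 ≤ k) := ⟨hk⟩
  obtain ⟨φ⟩ := exists_phi (F := F) (K := K) hdiv
  refine ⟨⟨(emb hdiv φ).range, ⟨(MonoidHom.ofInjective (emb_inj hdiv φ)).symm⟩⟩, ?_⟩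
  rintro S₁ S₂ ⟨e₁⟩ ⟨e₂⟩
  obtain ⟨x, hx⟩ := conj_std hdiv φ e₁
  obtain ⟨y, hy⟩ := conj_std hdiv φ e₂
  refine ⟨y⁻¹ * x, ?_⟩
  change S₂ = cj (y⁻¹ * x) S₁
  rw [← cj_cj, hx, ← hy, cj_cj, inv_mul_cancel]
  ext g
  rw [mem_cj, inv_one, one_mul, mul_one]

end Cfsg.Agent.S2239
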