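import Cfsg.Statements.S2240
import Cfsg.Agent.L.Sz.Part

set_option autoImplicit false
open Cfsg

namespace Cfsg.Agent.S2240
open Subgroup
open CfsgL.Sz

/-- Elementary abelian TI-subgroups of the Suzuki group: let q = 2^(2m+1) with m ≥ 1, the group realised as the stabiliser in SL₄ of the Suzuki–Tits ovoid, and n ≥ 2. There is an elementary abelian 2-subgroup E of order 2^n that is a TI-subgroup (every conjugate of E meeting E nontrivially is E itself) if and only if n divides 2m + 1. -/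
theorem result {F : Type*} [Field F] [Fintype F] {m : ℕ} (hm : 1 ≤ m) (hF : Fintype.card F = 2 ^ (2 * m + 1)) (n : ℕ) (hn : 2 ≤ n) :
    (∃ E : Subgroup ↥(Cfsg.Sz F m), Cfsg.IsElementaryAbelian 2 E ∧ Nat.card ↥E = 2 ^ n ∧
      ∀ x : ↥(Cfsg.Sz F m), E ⊓ E.map (MulAut.conj x).toMonoidHom ≠ ⊥ → x ∈ Subgroup.normalizer (E : Set ↥(Cfsg.Sz F m))) ↔ n ∣ 2 * m + 1 := by
  haveI := CfsgL.Sz.char_two hF
  haveI : Fact (Fintype.card F = 2 ^ (2 * m + 1)) := ⟨hF⟩
  haveI : Fact (1 ≤ m) := ⟨hm⟩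
  have hq := card_F (F := F) (m := m)
  -- the multiplier
  have hmulj : ∀ (j : Fˣ) (b : F), hh m j * u m 0 b * (hh m j)⁻¹ = u m 0 (sg F m j * j ^ 2 * b) := by
    intro j b
    rw [hh_u, mul_zero, mul_inv_cancel_right]
  have hmulB : ∀ (x y : F) (j : Fˣ) (b : F), (u m x y * hh m j) * u m 0 b * (u m x y * hh m j)⁻¹ =
      u m 0 (sg F m j * j ^ 2 * b) := by
    intro x y j b
    have h1 : (u m x y * hh m j) * u m 0 b * (u m x y * hh m j)⁻¹ =
      u m x y * (hh m j * u m 0 b * (hh m j)⁻¹) * (u m x y)⁻¹ := by group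
    rw [h1, hmulj, mul_inv_eq_iff_eq_mul, u_mul, u_mul, map_zero, mul_zero, zero_mul, add_comm x 0, add_comm y]
  constructor
  · rintro ⟨E, ⟨hEc, hEp⟩, hEcard, hTI⟩
    have hEp' : ∀ g ∈ E, g * g = 1 := fun g hg => by
      have := hEp g hg
      rwa [pow_two] at this
    -- put `E` in standard position
    have hE2 : IsPGroup 2 E := IsPGroup.of_card hEcard
    obtain ⟨P, hP⟩ := hE2.exists_le_sylow
    obtain ⟨x, hx⟩ := sylow_conj P
    have hEZ : ∀ g ∈ E, ∃ b, x * g * x⁻¹ = u m 0 b := by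
      intro g hg
      obtain ⟨a, b, hab⟩ := (hx g).1 (hP hg)
      have h1 : u m a b * u m a b = 1 := by
        rw [← hab]
        calc x * g * x⁻¹ * (x * g * x⁻¹) = x * (g * g) * x⁻¹ := by group
          _ = 1 := by rw [hEp' g hg]; group
      rw [u_sq] at h1
      have h2 := (u_ne_one h1).2
      have ha : a = 0 := by
        rcases mul_eq_zero.1 h2 with h | h
        · exact sg_eq_zero.1 h
        · exact h
      exact ⟨b, by rw [hab, ha]⟩
    let A : Set F := {b | x⁻¹ * u m 0 b * x ∈ E}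
    have hA0 : (0 : F) ∈ A := by
      change x⁻¹ * u m 0 0 * x ∈ E
      rw [u_zero, mul_one, inv_mul_cancel]; exact one_mem _
    have hAcard : Nat.card A = 2 ^ n := by
      rw [← hEcard]
      apply Nat.card_congr
      refine Equiv.ofBijective (fun b : A => (⟨x⁻¹ * u m (0 : F) (b : F) * x, b.2⟩ : E)) ⟨?_, ?_⟩
      · intro b c h
        have h1 : x⁻¹ * u m 0 (b : F) * x = x⁻¹ * u m 0 (c : F) * x := congrArg Subtype.val h
        have h2 : u m 0 (b : F) = u m 0 (c : F) := by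
          exact mul_left_cancel (mul_right_cancel h1)
        exact Subtype.ext (u_inj h2).2
      · rintro ⟨g, hg⟩
        obtain ⟨b, hb⟩ := hEZ g hg
        have h1 : x⁻¹ * u m 0 b * x = g := by rw [← hb]; group
        exact ⟨⟨b, by change _ ∈ E; rw [h1]; exact hg⟩, Subtype.ext h1⟩
    obtain ⟨a₀, ha₀A, ha₀⟩ : ∃ a₀ ∈ A, a₀ ≠ 0 := by
      by_contra h
      push Not at h
      have : Nat.card A = 1 := by
        rw [Nat.card_eq_one_iff_unique]
        exact ⟨⟨fun a b => Subtype.ext ((h a a.2).trans (h b b.2).symm)⟩, ⟨⟨0, hA0⟩⟩⟩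
      rw [hAcard] at this
      have h4 : 2 ^ 1 ≤ 2 ^ n := Nat.pow_le_pow_right (by norm_num) (by omega)
      omega
    -- multiplier property
    have hkey : ∀ κ : F, κ ≠ 0 → ∀ a ∈ A, a ≠ 0 → κ * a ∈ A → ∀ b, b ∈ A ↔ κ * b ∈ A := by
      intro κ hκ a ha ha0 hκa
      obtain ⟨j, hj⟩ := orbit_Z (m := m) (b := (1 : F)) one_ne_zero hκ
      rw [mul_one] at hj
      have hconj : ∀ b, (x⁻¹ * hh m j * x) * (x⁻¹ * u m 0 b * x) * (x⁻¹ * hh m j * x)⁻¹ =
          x⁻¹ * u m 0 (κ * b) * x := by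
        intro b
        rw [← hj, ← hmulj]; group
      have hN := hTI (x⁻¹ * hh m j * x) (by
        intro h
        have h1 : x⁻¹ * u m 0 (κ * a) * x ∈ E ⊓ E.map (MulAut.conj (x⁻¹ * hh m j * x)).toMonoidHom := by
          refine ⟨hκa, x⁻¹ * u m 0 a * x, ha, ?_⟩
          exact hconj a
        rw [h, mem_bot] at h1
        have h2 : u m 0 (κ * a) = 1 := by
          calc u m 0 (κ * a) = x * (x⁻¹ * u m 0 (κ * a) * x) * x⁻¹ := by group
            _ = 1 := by rw [h1]; group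
        exact mul_ne_zero hκ ha0 (u_ne_one h2).2)
      intro b
      have h1 := (mem_nrm.1 hN) (x⁻¹ * u m 0 b * x)
      rw [hconj] at h1
      exact h1
    let S : Subgroup Fˣ := {
      carrier := {κ | ∀ b, b ∈ A ↔ (κ : F) * b ∈ A}
      one_mem' := fun b => by rw [Units.val_one, one_mul]
      mul_mem' := by
        intro κ μ hκ hμ b
        rw [Units.val_mul, mul_assoc, hμ b, hκ (μ * b)]
      inv_mem' := by
        intro κ hκ b
        rw [hκ ((κ⁻¹ : Fˣ) * b), ← mul_assoc, Units.mul_inv, one_mul] }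
    have hScard : Nat.card S = 2 ^ n - 1 := by
      rw [← hAcard]
      have h1 : Nat.card {a : A // a ≠ ⟨0, hA0⟩} = Nat.card A - 1 := by
        classical
        haveI : Fintype A := Fintype.ofFinite _
        rw [Nat.card_eq_fintype_card, Nat.card_eq_fintype_card, Fintype.card_subtype_compl,
          Fintype.card_subtype_eq]
      rw [← h1]
      apply Nat.card_congr
      refine Equiv.ofBijective (fun κ : S => (⟨⟨(κ.1 : F) * a₀, (κ.2 a₀).1 ha₀A⟩, fun h =>
        mul_ne_zero κ.1.ne_zero ha₀ (congrArg Subtype.val h)⟩ : {a : A // a ≠ ⟨0, hA0⟩})) ⟨?_, ?_⟩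
      · intro κ μ h
        have h1 : (κ.1 : F) * a₀ = (μ.1 : F) * a₀ := congrArg (fun z => z.1.1) h
        exact Subtype.ext (Units.ext (mul_right_cancel₀ ha₀ h1))
      · rintro ⟨⟨a, haA⟩, ha⟩
        have ha0 : a ≠ 0 := fun h => ha (Subtype.ext h)
        refine ⟨⟨Units.mk0 (a / a₀) (div_ne_zero ha0 ha₀), ?_⟩, ?_⟩
        · apply hkey (a / a₀) (div_ne_zero ha0 ha₀) a₀ ha₀A ha₀
          rw [div_mul_cancel₀ _ ha₀]; exact haA
        · apply Subtype.ext
          apply Subtype.ext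
          change a / a₀ * a₀ = a
          rw [div_mul_cancel₀ _ ha₀]
    have hdvd : 2 ^ n - 1 ∣ 2 ^ (2 * m + 1) - 1 := by
      rw [← hScard, ← hq, ← Nat.card_units]
      exact card_subgroup_dvd_card S
    have hg := Nat.pow_sub_one_gcd_pow_sub_one 2 n (2 * m + 1)
    rw [Nat.gcd_eq_left hdvd] at hg
    have h5 : 2 ^ n = 2 ^ Nat.gcd n (2 * m + 1) := by
      have h6 : 0 < 2 ^ n := by positivity
      have h7 : 0 < 2 ^ Nat.gcd n (2 * m + 1) := by positivity
      omega
    have h6 := Nat.pow_right_injective (le_refl 2) h5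
    rw [h6]; exact Nat.gcd_dvd_right _ _
  · intro hn'
    -- the subfield
    have hadd : ∀ x y : F, (x + y) ^ 2 ^ n = x ^ 2 ^ n + y ^ 2 ^ n := fun x y => add_pow_char_pow x y 2 n
    let E : Subgroup (Cfsg.Sz F m) := {
      carrier := {g | ∃ b : F, b ^ 2 ^ n = b ∧ g = u m 0 b}
      one_mem' := ⟨0, by rw [zero_pow (by positivity)], u_zero.symm⟩
      mul_mem' := by
        rintro _ _ ⟨b, hb, rfl⟩ ⟨c, hc, rfl⟩
        refine ⟨b + c, by rw [hadd, hb, hc], ?_⟩
        rw [u_mul, map_zero, zero_mul, add_zero, add_zero]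
      inv_mem' := by
        rintro _ ⟨b, hb, rfl⟩
        refine ⟨b, hb, ?_⟩
        rw [u_inv, map_zero, zero_mul, add_zero] }
    have hmemE : ∀ g, g ∈ E ↔ ∃ b : F, b ^ 2 ^ n = b ∧ g = u m 0 b := fun g => Iff.rfl
    refine ⟨E, ⟨⟨⟨?_⟩⟩, ?_⟩, ?_, ?_⟩
    · rintro ⟨_, b, hb, rfl⟩ ⟨_, c, hc, rfl⟩
      apply Subtype.ext
      change u m 0 b * u m 0 c = u m 0 c * u m 0 b
      rw [u_mul, u_mul, map_zero, zero_mul, add_comm b c]
    · rintro _ ⟨b, hb, rfl⟩
      rw [pow_two, u_sq, map_zero, zero_mul, u_zero]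
    · -- the order
      have h1 : Nat.card E = Nat.card {b : F // b ^ 2 ^ n = b} := by
        apply Nat.card_congr
        refine (Equiv.ofBijective (fun b : {b : F // b ^ 2 ^ n = b} => (⟨u m 0 b.1, b.1, b.2, rfl⟩ : E)) ⟨?_, ?_⟩).symm
        · intro b c h
          exact Subtype.ext (u_inj (congrArg Subtype.val h)).2
        · rintro ⟨g, b, hb, rfl⟩
          exact ⟨⟨b, hb⟩, rfl⟩
      have hdv : 2 ^ n - 1 ∣ Nat.card Fˣ := by
        rw [Nat.card_units, hq]
        have := Nat.pow_sub_one_gcd_pow_sub_one 2 n (2 * m + 1)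
        rw [Nat.gcd_eq_left hn'] at this
        exact Nat.gcd_eq_left_iff_dvd.1 this
      have h2 := IsCyclic.card_powMonoidHom_ker (G := Fˣ) (2 ^ n - 1)
      rw [Nat.gcd_eq_right hdv] at h2
      have hpos : 1 ≤ 2 ^ n := Nat.one_le_two_pow
      have h3 : Nat.card {b : F // b ^ 2 ^ n = b} = Nat.card (powMonoidHom (2 ^ n - 1) : Fˣ →* Fˣ).ker + 1 := by
        have h4 : Nat.card (Option (powMonoidHom (2 ^ n - 1) : Fˣ →* Fˣ).ker) =
            Nat.card (powMonoidHom (2 ^ n - 1) : Fˣ →* Fˣ).ker + 1 := Finite.card_option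
        rw [← h4]
        apply Nat.card_congr
        refine (Equiv.ofBijective (fun o : Option (powMonoidHom (2 ^ n - 1) : Fˣ →* Fˣ).ker => (match o with
          | none => ⟨0, by rw [zero_pow (by positivity)]⟩
          | some k => ⟨((k.1 : Fˣ) : F), by
            have h5 : (k.1 : Fˣ) ^ (2 ^ n - 1) = 1 := k.2
            have h6 : ((k.1 : Fˣ) : F) ^ (2 ^ n - 1) = 1 := by rw [← Units.val_pow_eq_pow_val, h5, Units.val_one]
            calc ((k.1 : Fˣ) : F) ^ 2 ^ n = ((k.1 : Fˣ) : F) ^ (2 ^ n - 1 + 1) := by congr 1; omega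
              _ = _ := by rw [pow_succ, h6, one_mul]⟩ : {b : F // b ^ 2 ^ n = b})) ⟨?_, ?_⟩).symm
        · rintro (_ | k) (_ | l) h
          · rfl
          · exact absurd (congrArg Subtype.val h).symm l.1.ne_zero
          · exact absurd (congrArg Subtype.val h) k.1.ne_zero
          · have h5 : ((k.1 : Fˣ) : F) = ((l.1 : Fˣ) : F) := congrArg Subtype.val h
            rw [Subtype.ext (Units.ext h5)]
        · rintro ⟨b, hb⟩
          by_cases hb0 : b = 0
          · exact ⟨none, Subtype.ext hb0.symm⟩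
          · refine ⟨some ⟨Units.mk0 b hb0, ?_⟩, rfl⟩
            change (Units.mk0 b hb0) ^ (2 ^ n - 1) = 1
            apply Units.ext
            rw [Units.val_pow_eq_pow_val, Units.val_mk0, Units.val_one]
            apply mul_right_cancel₀ hb0
            rw [← pow_succ, one_mul]
            calc b ^ (2 ^ n - 1 + 1) = b ^ 2 ^ n := by congr 1; omega
              _ = b := hb
      rw [h1, h3, h2]; omega
    · intro x hx
      rw [Ne, eq_bot_iff, SetLike.not_le_iff_exists] at hx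
      obtain ⟨t, ⟨⟨b, hb, rfl⟩, ⟨s, ⟨c, hc, rfl⟩, hs⟩⟩, ht1⟩ := hx
      have hs : x * u m 0 c * x⁻¹ = u m 0 b := hs
      have hb0 : b ≠ 0 := by
        rintro rfl
        rw [u_zero, mem_bot] at ht1
        exact ht1 rfl
      have hc1 : u m 0 c ≠ 1 := by
        intro h
        rw [h, mul_one, mul_inv_cancel] at hs
        exact hb0 (u_ne_one hs.symm).2
      have hxB : x ∈ BB F m := QQ_ti x _ (u_mem_QQ 0 c) hc1 (by rw [hs]; exact u_mem_QQ 0 b)
      obtain ⟨x1, y1, j, rfl⟩ := mem_BB'.1 hxB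
      rw [hmulB] at hs
      have h1 := (u_inj hs).2
      obtain ⟨κ, hκ⟩ : ∃ κ, κ = sg F m (j : F) * (j : F) ^ 2 := ⟨_, rfl⟩
      rw [← hκ] at h1
      have hc0 : c ≠ 0 := by
        rintro rfl
        rw [mul_zero] at h1
        exact hb0 h1.symm
      have hκ0 : κ ≠ 0 := by
        rintro rfl
        rw [zero_mul] at h1
        exact hb0 h1.symm
      have hκp : κ ^ 2 ^ n = κ := by
        have : κ = b / c := by rw [← h1]; field_simp
        rw [this, div_pow, hb, hc]
      rw [mem_nrm]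
      intro t
      rw [hmemE, hmemE]
      constructor
      · rintro ⟨d, hd, rfl⟩
        refine ⟨κ * d, by rw [mul_pow, hκp, hd], ?_⟩
        rw [hmulB, hκ]
      · rintro ⟨d, hd, hd'⟩
        refine ⟨κ⁻¹ * d, by rw [mul_pow, inv_pow, hκp, hd], ?_⟩
        have h5 : (u m x1 y1 * hh m j) * u m 0 (κ⁻¹ * d) * (u m x1 y1 * hh m j)⁻¹ = u m 0 d := by
          rw [hmulB, ← hκ, ← mul_assoc, mul_inv_cancel₀ hκ0, one_mul]
        rw [← hd'] at h5
        exact (mul_left_cancel (mul_right_cancel h5)).symm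

end Cfsg.Agent.S2240
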