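import Cfsg.Statements.S2241
import Cfsg.Agent.L.Sz.Syl

set_option autoImplicit false
open Cfsg

namespace Cfsg.Agent.S2241
open Subgroup
open CfsgL.Sz

/-- Real 2-elements of the Suzuki group: with q = 2^(2m+1), m ≥ 1, and the group realised as the stabiliser in SL₄ of the Suzuki–Tits ovoid, a non-identity element of a Sylow 2-subgroup is conjugate to its inverse if and only if it is an involution; in particular no element of order 4 is conjugate to its inverse. -/
theorem result {F : Type*} [Field F] [Fintype F] {m : ℕ} (hm : 1 ≤ m) (hF : Fintype.card F = 2 ^ (2 * m + 1)) (P : Sylow 2 ↥(Cfsg.Sz F m)) (g : ↥(Cfsg.Sz F m)) (hg : g ∈ (P : Subgroup ↥(Cfsg.Sz F m))) (h1 : g ≠ 1) :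
    IsConj g g⁻¹ ↔ orderOf g = 2 := by
  haveI := CfsgL.Sz.char_two hF
  haveI : Fact (Fintype.card F = 2 ^ (2 * m + 1)) := ⟨hF⟩
  haveI : Fact (1 ≤ m) := ⟨hm⟩
  obtain ⟨x, hx⟩ := sylow_conj (F := F) (m := m) P
  obtain ⟨a, b, hab⟩ := (hx g).1 hg
  have ho : orderOf g = orderOf (u m a b) := by
    rw [← hab]
    exact (orderOf_injective (MulAut.conj x).toMonoidHom (MulAut.conj x).injective g).symm
  have hu1 : u m a b ≠ 1 := by
    rw [← hab]
    intro h
    apply h1
    calc g = x⁻¹ * (x * g * x⁻¹) * x := by group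
      _ = 1 := by rw [h]; group
  constructor
  · intro hconj
    obtain ⟨c, hc⟩ := isConj_iff.1 hconj
    -- transport to the standard position
    obtain ⟨d, hd⟩ : ∃ d, d = x * c * x⁻¹ := ⟨_, rfl⟩
    have h2 : d * u m a b * d⁻¹ = (u m a b)⁻¹ := by
      rw [← hab, hd]
      calc x * c * x⁻¹ * (x * g * x⁻¹) * (x * c * x⁻¹)⁻¹ = x * (c * g * c⁻¹) * x⁻¹ := by group
        _ = _ := by rw [hc]; group
    have h3 : d ∈ BB F m := QQ_ti d _ (u_mem_QQ a b) hu1 (by rw [h2]; exact inv_mem (u_mem_QQ a b))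
    obtain ⟨c1, c2, j, rfl⟩ := mem_BB'.1 h3
    have h4 : u m c1 c2 * hh m j * u m a b = (u m a b)⁻¹ * (u m c1 c2 * hh m j) := by
      rw [← h2]; group
    have h4l : u m c1 c2 * hh m j * u m a b = u m (c1 + sg F m j * a) (c2 + sg F m j * j ^ 2 * b +
        sg F m c1 * (sg F m j * a)) * hh m j := by rw [mul_assoc, hh_u, ← mul_assoc, u_mul]
    have h4r : (u m a b)⁻¹ * (u m c1 c2 * hh m j) = u m (a + c1) (b + sg F m a * a + c2 + sg F m a * c1) *
        hh m j := by rw [u_inv, ← mul_assoc, u_mul]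
    rw [h4l, h4r] at h4
    obtain ⟨e1, e2, -⟩ := uh_inj h4
    have ha : a = 0 := by
      by_contra ha
      have hj : j = 1 := by
        apply j_eq_one_of_sg (m := m)
        apply mul_right_cancel₀ ha
        linear_combination e1
      rw [hj] at e2
      simp only [Units.val_one, map_one, one_mul, one_pow] at e2
      -- σ c1 * a = σ a * a + σ a * c1
      have h5 : sg F m c1 * a + sg F m a * c1 = sg F m a * a := by
        have := two0 (sg F m a * c1)
        linear_combination e2 + this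
      obtain ⟨s, hs⟩ : ∃ s, s = c1 / a := ⟨_, rfl⟩
      have hs' : c1 = a * s := by rw [hs]; field_simp
      have hsa : sg F m a ≠ 0 := by rwa [Ne, sg_eq_zero]
      apply sg_add_one (m := m) s
      apply mul_left_cancel₀ (mul_ne_zero hsa ha)
      rw [hs', map_mul] at h5
      have := two0 (sg F m a * a * s)
      linear_combination h5 - this
    rw [ho, ha]
    apply orderOf_eq_prime
    · rw [pow_two, u_sq, map_zero, zero_mul, u_zero]
    · rw [← ha]; exact hu1
  · intro h
    have : g⁻¹ = g := by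
      rw [inv_eq_iff_mul_eq_one, ← pow_two, ← h, pow_orderOf_eq_one]
    rw [this]

end Cfsg.Agent.S2241
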