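import Cfsg.Statements.S2251
import Cfsg.Agent.L.Sz.Sub5

set_option autoImplicit false
open Cfsg

namespace Cfsg.Agent.S2251
open Subgroup
open CfsgL.Sz
open CfsgL.Odd

/-- The subgroups of the Suzuki group: with q = 2^(2m+1), m ≥ 1, r = 2^m and the group realised as the stabiliser in SL₄ of the Suzuki–Tits ovoid, every proper subgroup is contained in the normalizer of a Sylow 2-subgroup, or in the normalizer of a cyclic subgroup of order q − 1, q + 2r + 1 or q − 2r + 1, or in a subgroup isomorphic to a smaller Suzuki group Sz(s) with s = 2^(2k+1) ≥ 8 and 2k+1 a proper divisor of 2m+1. -/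
theorem result {F : Type*} [Field F] [Fintype F] {m : ℕ} (hm : 1 ≤ m) (hF : Fintype.card F = 2 ^ (2 * m + 1)) (M : Subgroup ↥(Cfsg.Sz F m)) (hM : M ≠ ⊤) :
    (∃ P : Sylow 2 ↥(Cfsg.Sz F m), M ≤ Subgroup.normalizer ((P : Subgroup ↥(Cfsg.Sz F m)) : Set ↥(Cfsg.Sz F m))) ∨
    (∃ U : Subgroup ↥(Cfsg.Sz F m), IsCyclic ↥U ∧ Nat.card ↥U ∈ ({2 ^ (2 * m + 1) - 1, 2 ^ (2 * m + 1) + 2 ^ (m + 1) + 1, 2 ^ (2 * m + 1) - 2 ^ (m + 1) + 1} : Set ℕ) ∧
      M ≤ Subgroup.normalizer (U : Set ↥(Cfsg.Sz F m))) ∨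
    (∃ (K : Type) (_ : Field K) (_ : Fintype K) (k : ℕ), 1 ≤ k ∧ k < m ∧ Fintype.card K = 2 ^ (2 * k + 1) ∧ 2 * k + 1 ∣ 2 * m + 1 ∧
      ∃ S : Subgroup ↥(Cfsg.Sz F m), Nonempty (↥S ≃* ↥(Cfsg.Sz K k)) ∧ M ≤ S) := by
  haveI := CfsgL.Sz.char_two hF
  haveI : Fact (Fintype.card F = 2 ^ (2 * m + 1)) := ⟨hF⟩
  haveI : Fact (1 ≤ m) := ⟨hm⟩
  rcases sub_main M with ⟨x, hx⟩ | ⟨g, hg, hgo, hM2⟩ | ⟨k, x, hk1, hd, j, hj, ho, S⟩
  · left
    obtain ⟨P, hP⟩ := conj_sylow x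
    refine ⟨P, fun y hy => ?_⟩
    rw [sylow_norm hP]
    exact hx (conj_mem_cj hy)
  · right; left
    refine ⟨centralizer {g}, (cent_odd hg hgo).1, ?_, hM2⟩
    rcases cent_tri hg with ⟨x, hx⟩ | ⟨-, hcard⟩
    · exact absurd hx (odd_not_QQ hg hgo)
    · rw [card_F (F := F) (m := m)] at hcard
      have e1 : 2 ^ (m + 1) ≤ 2 ^ (2 * m + 1) := Nat.pow_le_pow_right (by norm_num) (by omega)
      rcases hcard with h | ⟨-, h | h⟩
      · left; exact h
      · right; left; rw [h]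
      · right; right
        have h7 : Nat.card (centralizer {g}) = 2 ^ (2 * m + 1) - 2 ^ (m + 1) + 1 := by omega
        exact h7
  · right; right
    haveI : Fact (Nat.Prime 2) := ⟨Nat.prime_two⟩
    letI : Fintype (GaloisField 2 (2 * k + 1)) := Fintype.ofFinite _
    have hK : Fintype.card (GaloisField 2 (2 * k + 1)) = 2 ^ (2 * k + 1) := by
      rw [← Nat.card_eq_fintype_card]; exact GaloisField.card 2 (2 * k + 1) (by omega)
    haveI : Fact (Fintype.card (GaloisField 2 (2 * k + 1)) = 2 ^ (2 * k + 1)) := ⟨hK⟩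
    haveI : Fact (1 ≤ k) := ⟨hk1⟩
    obtain ⟨φ⟩ := exists_phi (F := F) (K := GaloisField 2 (2 * k + 1)) hd
    have h1 := std_range S hj ho hd φ
    have e1 : Gz (GaloisField 2 (2 * k + 1)) k ≃* (emb hd φ).range := MonoidHom.ofInjective (emb_inj hd φ)
    have e2 : M ≃* cj x M := M.equivMapOfInjective _ (MulAut.conj x).injective
    have e3 : M ≃* Gz (GaloisField 2 (2 * k + 1)) k := by
      rw [h1] at e2
      exact e2.trans e1.symm
    refine ⟨GaloisField 2 (2 * k + 1), inferInstance, inferInstance, k, hk1, ?_, hK, hd, M, ⟨e3⟩, le_rfl⟩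
    have hkm : k ≤ m := by
      have := Nat.le_of_dvd (by omega) hd
      omega
    rcases hkm.lt_or_eq with h | h
    · exact h
    · exfalso
      apply hM
      apply eq_top_of_card_eq
      rw [Nat.card_congr e3.toEquiv, card_Gz, card_Gz, card_F (F := F) (m := m),
        card_F (F := GaloisField 2 (2 * k + 1)) (m := k), h]

end Cfsg.Agent.S2251
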