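import Mathlib
import Cfsg.Agent.H7.Syl
import Cfsg.Agent.H1.Basic
import Cfsg.Statements.S2268

set_option autoImplicit false
open Cfsg

namespace Cfsg.Agent.S2268

/-- Let G be a finite group with an abelian Sylow p-subgroup P and let Q ≤ P. Then N_G(Q) = (N_G(Q) ∩ N_G(P))·C_G(Q), so that N_G(Q)/C_G(Q) is a homomorphic image of the subgroup (N_G(Q) ∩ N_G(P))/C_G(P) of N_G(P)/C_G(P); in particular the order of N_G(Q)/C_G(Q) divides the order of N_G(P)/C_G(P). -/
theorem result {G : Type*} [Group G] [Finite G] {p : ℕ} [Fact p.Prime]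
    (P : Sylow p G) (hP : IsMulCommutative (P : Subgroup G)) (Q : Subgroup G) (hQ : Q ≤ (P : Subgroup G)) :
    Subgroup.normalizer (Q : Set G) =
      (Subgroup.normalizer (Q : Set G) ⊓ Subgroup.normalizer ((P : Subgroup G) : Set G)) ⊔ Subgroup.centralizer (Q : Set G) ∧
    ((Subgroup.centralizer (Q : Set G)).subgroupOf (Subgroup.normalizer (Q : Set G))).index ∣ ((Subgroup.centralizer ((P : Subgroup G) : Set G)).subgroupOf (Subgroup.normalizer ((P : Subgroup G) : Set G))).index := by
  classical
  have hPC : (P : Subgroup G) ≤ Subgroup.centralizer (Q : Set G) := by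
    intro a ha
    rw [Subgroup.mem_centralizer_iff]
    intro b hb
    exact congrArg Subtype.val (hP.is_comm.comm (⟨b, hQ hb⟩ : (P : Subgroup G)) ⟨a, ha⟩)
  have hCN : ∀ R : Subgroup G, Subgroup.centralizer (R : Set G) ≤ Subgroup.normalizer (R : Set G) := by
    intro R x hx
    rw [CfsgH7.mem_normalizer_iff_cj]
    ext y
    rw [CfsgH7.mem_cj]
    have hc := Subgroup.mem_centralizer_iff.1 hx
    constructor
    · intro hy
      have h1 := hc _ hy
      have h2 : y = x⁻¹ * y * x := by
        have h3 : (x⁻¹ * y * x) * x = y * x := by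
          rw [h1]; group
        exact (mul_right_cancel h3).symm
      rw [h2]; exact hy
    · intro hy
      have h1 := hc y hy
      rw [mul_assoc, h1, inv_mul_cancel_left]; exact hy
  have hNC : Subgroup.normalizer (Q : Set G) ≤ Subgroup.normalizer ((Subgroup.centralizer (Q : Set G) : Subgroup G) : Set G) := by
    intro g hg
    rw [CfsgH7.mem_normalizer_iff_cj, ← CfsgH7.centralizer_cj, CfsgH7.cj_of_mem_normalizer hg]
  have hPs : CfsgH7.IsSyl p (P : Subgroup G) (Subgroup.centralizer (Q : Set G)) := (CfsgH7.isSyl_of_sylow P).mono hPC le_top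
  set M := Subgroup.normalizer (Q : Set G) ⊓ Subgroup.normalizer ((P : Subgroup G) : Set G) with hM
  have heq : Subgroup.normalizer (Q : Set G) = M ⊔ Subgroup.centralizer (Q : Set G) := by
    apply le_antisymm
    · intro g hg
      obtain ⟨n, hn, y, hy, rfl⟩ := hPs.frattini (hCN Q) hNC hg
      exact (M ⊔ Subgroup.centralizer (Q : Set G)).mul_mem ((le_sup_right : _ ≤ M ⊔ Subgroup.centralizer (Q : Set G)) hn)
        ((le_sup_left : M ≤ M ⊔ Subgroup.centralizer (Q : Set G)) hy)
    · exact sup_le inf_le_left (hCN Q)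
  refine ⟨heq, ?_⟩
  change (Subgroup.centralizer (Q : Set G)).relIndex (Subgroup.normalizer (Q : Set G)) ∣ (Subgroup.centralizer ((P : Subgroup G) : Set G)).relIndex (Subgroup.normalizer ((P : Subgroup G) : Set G))
  have hCPQ : Subgroup.centralizer ((P : Subgroup G) : Set G) ≤ Subgroup.centralizer (Q : Set G) := Subgroup.centralizer_le hQ
  have hCPM : Subgroup.centralizer ((P : Subgroup G) : Set G) ≤ M := le_inf (hCPQ.trans (hCN Q)) (hCN _)
  have h1 := CfsgH1.card_sup_mul_card_inf (H := M) (K := Subgroup.centralizer (Q : Set G)) (inf_le_left.trans hNC)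
  rw [← heq] at h1
  have h2 : Nat.card (Subgroup.centralizer (Q : Set G)) * (Subgroup.centralizer (Q : Set G)).relIndex (Subgroup.normalizer (Q : Set G)) = Nat.card (Subgroup.normalizer (Q : Set G)) := by
    have h0 := Subgroup.relIndex_mul_relIndex ⊥ (Subgroup.centralizer (Q : Set G)) (Subgroup.normalizer (Q : Set G)) bot_le (hCN Q)
    rwa [Subgroup.relIndex_bot_left, Subgroup.relIndex_bot_left] at h0
  have h3 : Nat.card ↥(M ⊓ Subgroup.centralizer (Q : Set G)) * (M ⊓ Subgroup.centralizer (Q : Set G)).relIndex M = Nat.card M := by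
    have h0 := Subgroup.relIndex_mul_relIndex ⊥ (M ⊓ Subgroup.centralizer (Q : Set G)) M bot_le inf_le_left
    rwa [Subgroup.relIndex_bot_left, Subgroup.relIndex_bot_left] at h0
  have h4 : (Subgroup.centralizer (Q : Set G)).relIndex (Subgroup.normalizer (Q : Set G)) = (Subgroup.centralizer (Q : Set G)).relIndex M := by
    have h5 : (M ⊓ Subgroup.centralizer (Q : Set G)).relIndex M = (Subgroup.centralizer (Q : Set G)).relIndex M := by
      rw [inf_comm, Subgroup.inf_relIndex_right]
    rw [h5] at h3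
    have hp1 : 0 < Nat.card ↥(M ⊓ Subgroup.centralizer (Q : Set G)) := Nat.card_pos
    have hp2 : 0 < Nat.card (Subgroup.centralizer (Q : Set G)) := Nat.card_pos
    rw [← h2, ← h3] at h1
    have h6 : (Nat.card (Subgroup.centralizer (Q : Set G)) * Nat.card ↥(M ⊓ Subgroup.centralizer (Q : Set G))) * (Subgroup.centralizer (Q : Set G)).relIndex (Subgroup.normalizer (Q : Set G)) =
      (Nat.card (Subgroup.centralizer (Q : Set G)) * Nat.card ↥(M ⊓ Subgroup.centralizer (Q : Set G))) * (Subgroup.centralizer (Q : Set G)).relIndex M := by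
      linarith [h1]
    exact Nat.eq_of_mul_eq_mul_left (Nat.mul_pos hp2 hp1) h6
  rw [h4]
  refine (Subgroup.relIndex_dvd_of_le_left _ hCPQ).trans ?_
  rw [← Subgroup.relIndex_mul_relIndex _ M _ hCPM inf_le_right]
  exact Dvd.intro _ rfl

end Cfsg.Agent.S2268
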