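import Mathlib
import Cfsg.Agent.H7.Syl
import Cfsg.Statements.S2270

set_option autoImplicit false
open Cfsg

namespace Cfsg.Agent.S2270

/-- Let n ≥ 3, p an odd prime, and P an abelian Sylow p-subgroup of the symmetric group S_n (with p dividing n!, so that P ≠ 1). Then N(P)/C(P) has even order. -/
theorem result (n : ℕ) (hn : 3 ≤ n) {p : ℕ} [Fact p.Prime] (hp : p ≠ 2) (hpn : p ≤ n)
    (P : Sylow p (Equiv.Perm (Fin n))) (hP : IsMulCommutative (P : Subgroup (Equiv.Perm (Fin n)))) :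
    2 ∣ ((Subgroup.centralizer ((P : Subgroup (Equiv.Perm (Fin n))) : Set (Equiv.Perm (Fin n)))).subgroupOf (Subgroup.normalizer ((P : Subgroup (Equiv.Perm (Fin n))) : Set (Equiv.Perm (Fin n))))).index := by
  classical
  set S : Subgroup (Equiv.Perm (Fin n)) := (P : Subgroup (Equiv.Perm (Fin n))) with hS
  have hp2 : 2 < p := lt_of_le_of_ne (Fact.out : p.Prime).two_le (Ne.symm hp)
  have hcomm : ∀ a ∈ S, ∀ b ∈ S, a * b = b * a := fun a ha b hb =>
    congrArg Subtype.val (hP.is_comm.comm (⟨a, ha⟩ : S) ⟨b, hb⟩)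
  -- a nontrivial element of P
  have hdvd : p ∣ Nat.card S := by
    apply P.dvd_card_of_dvd_card
    rw [Nat.card_perm, Nat.card_fin]
    exact (Fact.out : p.Prime).dvd_factorial.2 hpn
  obtain ⟨x, hx⟩ := exists_prime_orderOf_dvd_card' p hdvd
  have hxS : (x : Equiv.Perm (Fin n)) ∈ S := x.2
  have hox : orderOf (x : Equiv.Perm (Fin n)) = p := by rw [Subgroup.orderOf_coe, hx]
  -- x and its inverse are conjugate
  have hconj : IsConj (x : Equiv.Perm (Fin n)) (x : Equiv.Perm (Fin n))⁻¹ := by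
    rw [Equiv.Perm.isConj_iff_cycleType_eq, Equiv.Perm.cycleType_inv]
  obtain ⟨g, hg⟩ := isConj_iff.1 hconj
  -- P and its conjugate are Sylow in the centralizer
  set y := (x : Equiv.Perm (Fin n)) with hy
  have hPC : S ≤ Subgroup.centralizer ({y⁻¹} : Set (Equiv.Perm (Fin n))) := by
    intro a ha
    rw [Subgroup.mem_centralizer_singleton_iff]
    exact hcomm a ha _ (S.inv_mem hxS)
  have hPC' : CfsgH7.cj g S ≤ Subgroup.centralizer ({y⁻¹} : Set (Equiv.Perm (Fin n))) := by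
    intro a ha
    rw [CfsgH7.mem_cj] at ha
    rw [Subgroup.mem_centralizer_singleton_iff]
    have h1 := hcomm _ ha _ hxS
    rw [← hg]
    calc a * (g * y * g⁻¹) = g * ((g⁻¹ * a * g) * y) * g⁻¹ := by group
      _ = g * (y * (g⁻¹ * a * g)) * g⁻¹ := by rw [h1]
      _ = g * y * g⁻¹ * a := by group
  have h1 : CfsgH7.IsSyl p S (Subgroup.centralizer ({y⁻¹} : Set (Equiv.Perm (Fin n)))) := (CfsgH7.isSyl_of_sylow P).mono hPC le_top
  have h2 : CfsgH7.IsSyl p (CfsgH7.cj g S) (Subgroup.centralizer ({y⁻¹} : Set (Equiv.Perm (Fin n)))) := by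
    have h3 := (CfsgH7.isSyl_of_sylow P).cj g
    have h4 : CfsgH7.cj g (⊤ : Subgroup (Equiv.Perm (Fin n))) = ⊤ := by
      ext z; rw [CfsgH7.mem_cj]; simp
    rw [h4] at h3
    exact h3.mono hPC' le_top
  obtain ⟨c, hc, hcS⟩ := h2.conj h1
  rw [← CfsgH7.cj_mul] at hcS
  have hn : c * g ∈ Subgroup.normalizer (S : Set (Equiv.Perm (Fin n))) := by
    rw [CfsgH7.mem_normalizer_iff_cj]; exact hcS
  have hny : (c * g) * y * (c * g)⁻¹ = y⁻¹ := by
    rw [Subgroup.mem_centralizer_singleton_iff] at hc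
    calc (c * g) * y * (c * g)⁻¹ = c * (g * y * g⁻¹) * c⁻¹ := by group
      _ = c * y⁻¹ * c⁻¹ := by rw [hg]
      _ = y⁻¹ := by rw [hc]; group
  by_contra hodd
  set m := c * g with hm
  set N := Subgroup.normalizer (S : Set (Equiv.Perm (Fin n))) with hN
  set C := (Subgroup.centralizer (S : Set (Equiv.Perm (Fin n)))).subgroupOf N with hC
  haveI hCn : C.Normal := by
    refine ⟨fun a ha b => ?_⟩
    rw [hC, Subgroup.mem_subgroupOf, Subgroup.mem_centralizer_iff] at ha ⊢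
    intro s hs
    have h5 : ((b : Equiv.Perm (Fin n)))⁻¹ * s * b ∈ S := by
      have h6 := (Subgroup.mem_normalizer_iff.1 (N.inv_mem b.2) s).1 hs
      simpa using h6
    have h7 := ha _ h5
    change s * ((b : Equiv.Perm (Fin n)) * a * (b : Equiv.Perm (Fin n))⁻¹) = ((b : Equiv.Perm (Fin n)) * a * (b : Equiv.Perm (Fin n))⁻¹) * s
    calc s * ((b : Equiv.Perm (Fin n)) * a * (b : Equiv.Perm (Fin n))⁻¹) = (b : Equiv.Perm (Fin n)) * (((b : Equiv.Perm (Fin n))⁻¹ * s * b) * a) * (b : Equiv.Perm (Fin n))⁻¹ := by group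
      _ = (b : Equiv.Perm (Fin n)) * (a * ((b : Equiv.Perm (Fin n))⁻¹ * s * b)) * (b : Equiv.Perm (Fin n))⁻¹ := by rw [h7]
      _ = _ := by group
  have h8 : (⟨m, hn⟩ : N) ^ C.index ∈ C := by
    rw [← QuotientGroup.eq_one_iff, QuotientGroup.mk_pow, Subgroup.index, pow_card_eq_one']
  have h9 : m ^ C.index ∈ Subgroup.centralizer (S : Set (Equiv.Perm (Fin n))) := by
    rw [hC, Subgroup.mem_subgroupOf] at h8
    exact h8
  -- odd powers of m invert y
  have h10 : ∀ k : ℕ, m ^ (2 * k + 1) * y * (m ^ (2 * k + 1))⁻¹ = y⁻¹ := by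
    intro k
    induction k with
    | zero => simpa using hny
    | succ k ih =>
      have h11 : m * y⁻¹ * m⁻¹ = y := by
        have : m * y⁻¹ * m⁻¹ = (m * y * m⁻¹)⁻¹ := by group
        rw [this, hny, inv_inv]
      have h12 : m ^ (2 * (k + 1) + 1) = m * (m * m ^ (2 * k + 1)) := by
        rw [← pow_succ', ← pow_succ']; congr 1
      calc m ^ (2 * (k + 1) + 1) * y * (m ^ (2 * (k + 1) + 1))⁻¹ = m * (m * (m ^ (2 * k + 1) * y * (m ^ (2 * k + 1))⁻¹) * m⁻¹) * m⁻¹ := by
            rw [h12]; group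
        _ = m * (m * y⁻¹ * m⁻¹) * m⁻¹ := by rw [ih]
        _ = m * y * m⁻¹ := by rw [h11]
        _ = y⁻¹ := hny
  obtain ⟨k, hk⟩ : ∃ k, C.index = 2 * k + 1 := by
    have : C.index % 2 = 1 := by
      rcases Nat.mod_two_eq_zero_or_one C.index with h | h
      · exact absurd (Nat.dvd_of_mod_eq_zero h) hodd
      · exact h
    exact ⟨C.index / 2, by omega⟩
  have h13 := h10 k
  rw [← hk] at h13
  rw [Subgroup.mem_centralizer_iff] at h9
  have h14 := h9 y hxS
  rw [← h14, mul_inv_cancel_right] at h13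
  have h15 : y ^ 2 = 1 := by
    rw [pow_two]
    nth_rewrite 2 [h13]
    exact mul_inv_cancel y
  have h16 := orderOf_dvd_of_pow_eq_one h15
  rw [hox] at h16
  have := Nat.le_of_dvd (by norm_num) h16
  omega

end Cfsg.Agent.S2270
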