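import Cfsg.Statements.S2300
import Cfsg.Agent.H6.Sl10

set_option autoImplicit false
open Cfsg

namespace Cfsg.Agent.S2300

open CfsgH6 CfsgH4

/-- Over a finite field F with q elements, q even, every irreducible complex character of SL₂ has degree 1, q − 1, q or q + 1; and when q ≥ 4 (so that these four numbers are distinct) there are exactly one irreducible character of degree 1, one of degree q, (q − 2)/2 of degree q + 1 and q/2 of degree q − 1. -/
theorem result {F : Type*} [Field F] [Fintype F] [CharP F 2] :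
    (∀ χ : Matrix.SpecialLinearGroup (Fin 2) F → ℂ, Cfsg.IsIrrCharacter (Matrix.SpecialLinearGroup (Fin 2) F) χ →
      χ 1 = 1 ∨ χ 1 = (Fintype.card F : ℂ) - 1 ∨ χ 1 = (Fintype.card F : ℂ) ∨ χ 1 = (Fintype.card F : ℂ) + 1) ∧
    (4 ≤ Fintype.card F →
      Nat.card {χ : Cfsg.IrrCharacter (Matrix.SpecialLinearGroup (Fin 2) F) // (χ : Matrix.SpecialLinearGroup (Fin 2) F → ℂ) 1 = 1} = 1 ∧
      Nat.card {χ : Cfsg.IrrCharacter (Matrix.SpecialLinearGroup (Fin 2) F) // (χ : Matrix.SpecialLinearGroup (Fin 2) F → ℂ) 1 = (Fintype.card F : ℂ)} = 1 ∧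
      Nat.card {χ : Cfsg.IrrCharacter (Matrix.SpecialLinearGroup (Fin 2) F) // (χ : Matrix.SpecialLinearGroup (Fin 2) F → ℂ) 1 = (Fintype.card F : ℂ) + 1} = (Fintype.card F - 2) / 2 ∧
      Nat.card {χ : Cfsg.IrrCharacter (Matrix.SpecialLinearGroup (Fin 2) F) // (χ : Matrix.SpecialLinearGroup (Fin 2) F → ℂ) 1 = (Fintype.card F : ℂ) - 1} = Fintype.card F / 2) := by
  classical
  have hM := isSL_mSL (F := F)
  have hc := MG.count_SL_even (mSL (F := F)) hM
  refine ⟨fun χ hχ => ?_, fun hq => ?_⟩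
  · rcases (mSL (F := F)).irr_SL_even hM hχ with rfl | rfl | ⟨γ, _, rfl⟩ | ⟨_, h2, _⟩
    · exact Or.inl (MG.lin_one _ 1)
    · exact Or.inr (Or.inr (Or.inl (MG.sta_one _ 1)))
    · exact Or.inr (Or.inr (Or.inr (MG.ps_one _ γ 1)))
    · exact Or.inr (Or.inl h2)
  have key : ∀ χ : Cfsg.IrrCharacter (Matrix.SpecialLinearGroup (Fin 2) F),
      ((χ : Matrix.SpecialLinearGroup (Fin 2) F → ℂ) = (mSL (F := F)).lin 1 ∧ (χ : Matrix.SpecialLinearGroup (Fin 2) F → ℂ) 1 = ((1 : ℕ) : ℂ)) ∨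
      ((χ : Matrix.SpecialLinearGroup (Fin 2) F → ℂ) = (mSL (F := F)).sta 1 ∧ (χ : Matrix.SpecialLinearGroup (Fin 2) F → ℂ) 1 = ((Fintype.card F : ℕ) : ℂ)) ∨
      ((∃ γ : MulChar F ℂ, γ ^ 2 ≠ 1 ∧ (χ : Matrix.SpecialLinearGroup (Fin 2) F → ℂ) = (mSL (F := F)).ps γ 1) ∧ (χ : Matrix.SpecialLinearGroup (Fin 2) F → ℂ) 1 = ((Fintype.card F + 1 : ℕ) : ℂ)) ∨
      ((mSL (F := F)).Cusp (χ : Matrix.SpecialLinearGroup (Fin 2) F → ℂ) ∧ (χ : Matrix.SpecialLinearGroup (Fin 2) F → ℂ) 1 = ((Fintype.card F - 1 : ℕ) : ℂ)) := by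
    intro χ
    rcases (mSL (F := F)).irr_SL_even hM χ.2 with h | h | ⟨γ, h0, h⟩ | ⟨h0, h2, _⟩
    · exact Or.inl ⟨h, by rw [h, MG.lin_one]; simp⟩
    · exact Or.inr (Or.inl ⟨h, by rw [h, MG.sta_one]⟩)
    · exact Or.inr (Or.inr (Or.inl ⟨⟨γ, h0, h⟩, by rw [h, MG.ps_one]; push_cast; ring⟩))
    · exact Or.inr (Or.inr (Or.inr ⟨h0, by rw [h2, MG.sub_cast]⟩))
  have e1 : ((Fintype.card F : ℂ) + 1) = ((Fintype.card F + 1 : ℕ) : ℂ) := by push_cast; ring
  have e2 : ((Fintype.card F : ℂ) - 1) = ((Fintype.card F - 1 : ℕ) : ℂ) := by rw [MG.sub_cast]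
  have e0 : (1 : ℂ) = ((1 : ℕ) : ℂ) := by simp
  refine ⟨?_, ?_, ?_, ?_⟩
  · rw [Nat.card_eq_one_iff_unique]
    refine ⟨⟨fun a b => ?_⟩, ⟨⟨⟨(mSL (F := F)).lin 1, MG.isIrr_lin _ 1⟩, MG.lin_one _ 1⟩⟩⟩
    have hh : ∀ a : {χ : Cfsg.IrrCharacter (Matrix.SpecialLinearGroup (Fin 2) F) // (χ : Matrix.SpecialLinearGroup (Fin 2) F → ℂ) 1 = 1},
        (a.1 : Matrix.SpecialLinearGroup (Fin 2) F → ℂ) = (mSL (F := F)).lin 1 := by
      intro a
      have ha := a.2.trans e0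
      rcases key a.1 with h | h | h | h
      · exact h.1
      · exact absurd (Nat.cast_injective (ha.symm.trans h.2)) (by omega)
      · exact absurd (Nat.cast_injective (ha.symm.trans h.2)) (by omega)
      · exact absurd (Nat.cast_injective (ha.symm.trans h.2)) (by omega)
    exact Subtype.ext (Subtype.ext ((hh a).trans (hh b).symm))
  · rw [Nat.card_eq_one_iff_unique]
    refine ⟨⟨fun a b => ?_⟩, ⟨⟨⟨(mSL (F := F)).sta 1, MG.isIrr_sta_SL _ hM⟩, MG.sta_one _ 1⟩⟩⟩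
    have hh : ∀ a : {χ : Cfsg.IrrCharacter (Matrix.SpecialLinearGroup (Fin 2) F) // (χ : Matrix.SpecialLinearGroup (Fin 2) F → ℂ) 1 = (Fintype.card F : ℂ)},
        (a.1 : Matrix.SpecialLinearGroup (Fin 2) F → ℂ) = (mSL (F := F)).sta 1 := by
      intro a
      have ha := a.2
      rcases key a.1 with h | h | h | h
      · exact absurd (Nat.cast_injective (ha.symm.trans h.2)) (by omega)
      · exact h.1
      · exact absurd (Nat.cast_injective (ha.symm.trans h.2)) (by omega)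
      · exact absurd (Nat.cast_injective (ha.symm.trans h.2)) (by omega)
    exact Subtype.ext (Subtype.ext ((hh a).trans (hh b).symm))
  · have h3 := MG.card_A3_SL (mSL (F := F)) hM
    rw [MG.card_SL_even_ne] at h3
    have h4 : Nat.card {χ : Cfsg.IrrCharacter (Matrix.SpecialLinearGroup (Fin 2) F) // (χ : Matrix.SpecialLinearGroup (Fin 2) F → ℂ) 1 = (Fintype.card F : ℂ) + 1} =
        Nat.card {χ : Cfsg.IrrCharacter (Matrix.SpecialLinearGroup (Fin 2) F) // ∃ γ : MulChar F ℂ, γ ^ 2 ≠ 1 ∧ (χ : Matrix.SpecialLinearGroup (Fin 2) F → ℂ) = (mSL (F := F)).ps γ 1} := by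
      refine Nat.card_congr (Equiv.subtypeEquivRight fun χ => ⟨fun ha => ?_, ?_⟩)
      · rw [e1] at ha
        rcases key χ with h | h | h | h
        · exact absurd (Nat.cast_injective (ha.symm.trans h.2)) (by omega)
        · exact absurd (Nat.cast_injective (ha.symm.trans h.2)) (by omega)
        · exact h.1
        · exact absurd (Nat.cast_injective (ha.symm.trans h.2)) (by omega)
      · rintro ⟨γ, _, h⟩; rw [h]; exact MG.ps_one _ γ 1
    rw [h4]; omega
  · have h4 : Nat.card {χ : Cfsg.IrrCharacter (Matrix.SpecialLinearGroup (Fin 2) F) // (χ : Matrix.SpecialLinearGroup (Fin 2) F → ℂ) 1 = (Fintype.card F : ℂ) - 1} =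
        Nat.card {χ : Cfsg.IrrCharacter (Matrix.SpecialLinearGroup (Fin 2) F) // (mSL (F := F)).Cusp (χ : Matrix.SpecialLinearGroup (Fin 2) F → ℂ)} := by
      refine Nat.card_congr (Equiv.subtypeEquivRight fun χ => ⟨fun ha => ?_, fun h => (hc.1 χ.1 χ.2 h).1⟩)
      rw [e2] at ha
      rcases key χ with h | h | h | h
      · exact absurd (Nat.cast_injective (ha.symm.trans h.2)) (by omega)
      · exact absurd (Nat.cast_injective (ha.symm.trans h.2)) (by omega)
      · exact absurd (Nat.cast_injective (ha.symm.trans h.2)) (by omega)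
      · exact h.1
    rw [h4]; omega

end Cfsg.Agent.S2300
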