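import Cfsg.Statements.S2337
import Cfsg.Agent.L.Sz.MinDeg2

set_option autoImplicit false
open Cfsg

namespace Cfsg.Agent.S2337

/-- For the Suzuki group Sz(q), q = 2^(2m+1) with m ≥ 1 (realised inside Sp₄ over the field with q elements), every irreducible complex representation of degree at least 2 has degree at least 2^m·(q − 1). -/
theorem result {F : Type*} [Field F] [Fintype F] (m : ℕ) (hm : 1 ≤ m) (hF : Fintype.card F = 2 ^ (2 * m + 1)) :
    (∀ (k : ℕ) (ρ : Representation ℂ (Cfsg.Lie.Sz F (2 ^ (m + 1))) (Fin k → ℂ)), ρ.IsIrreducible → 2 ≤ k → 2 ^ m * (2 ^ (2 * m + 1) - 1) ≤ k) := by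
  intro k ρ hρ hk
  haveI := CfsgL.Sz.char_two hF
  haveI : Fact (Fintype.card F = 2^(2*m+1)) := ⟨hF⟩
  haveI : Fact (1 ≤ m) := ⟨hm⟩
  let e := CfsgL.Sz.bridge (F := F) (m := m)
  let ρ' : Representation ℂ (CfsgL.Sz.Gz F m) (Fin k → ℂ) := ρ.comp e.toMonoidHom
  obtain ⟨g, hg⟩ := CfsgL.Sz.nontriv_of_irred ρ hρ hk
  have h := CfsgL.Sz.main_bound (m := m) ρ' ⟨e.symm g, by
    intro h1
    apply hg
    have h2 : ρ (e (e.symm g)) = 1 := h1
    rwa [e.apply_symm_apply] at h2⟩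
  rwa [Module.finrank_fin_fun] at h

end Cfsg.Agent.S2337
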