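import Mathlib
import Cfsg.Statements.S2466

set_option autoImplicit false
open Cfsg

namespace Cfsg.Agent.S2466

/-- Adjacency of odd primes in the prime graph of the alternating groups: let r ≠ s be odd primes at most n. The alternating group of degree n has an element of order r·s if and only if r + s ≤ n. -/
theorem result (n r s : ℕ) (hr : r.Prime) (hs : s.Prime) (hr2 : r ≠ 2) (hs2 : s ≠ 2) (hrs : r ≠ s) (hrn : r ≤ n) (hsn : s ≤ n) :
    (r * s ∈ Set.range (orderOf : alternatingGroup (Fin n) → ℕ)) ↔ r + s ≤ n := by
  classical
  constructor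
  · rintro ⟨x, hx⟩
    have hx' : orderOf (x : Equiv.Perm (Fin n)) = r * s := by rw [Subgroup.orderOf_coe]; exact hx
    set y := (x : Equiv.Perm (Fin n)) with hy
    have hlcm := Equiv.Perm.lcm_cycleType y
    rw [hx'] at hlcm
    have hsum := Equiv.Perm.sum_cycleType y
    have hle : y.cycleType.sum ≤ n := by
      rw [hsum]
      have := y.support.card_le_univ
      simpa using this
    -- a cycle length divisible by r
    have hex : ∀ q : ℕ, q.Prime → q ∣ r * s → ∃ c ∈ y.cycleType, q ∣ c := by
      intro q hq hqd
      by_contra hcon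
      push Not at hcon
      have h1 : ∀ c ∈ y.cycleType, Nat.Coprime q c := fun c hc => (Nat.Prime.coprime_iff_not_dvd hq).2 (hcon c hc)
      have h2 : Nat.Coprime q y.cycleType.lcm := by
        have h3 : ∀ m : Multiset ℕ, (∀ c ∈ m, Nat.Coprime q c) → Nat.Coprime q m.lcm := by
          intro m
          induction m using Multiset.induction_on with
          | empty => intro _; simp
          | cons a m ih =>
            intro h
            rw [Multiset.lcm_cons]
            have h4 := h a (Multiset.mem_cons_self a m)
            have h5 := ih (fun c hc => h c (Multiset.mem_cons_of_mem hc))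
            exact Nat.Coprime.coprime_dvd_right (lcm_dvd_mul a m.lcm) (Nat.Coprime.mul_right h4 h5)
        exact h3 _ h1
      rw [hlcm] at h2
      exact (Nat.Prime.coprime_iff_not_dvd hq).1 h2 hqd
    obtain ⟨c, hc, hrc⟩ := hex r hr (Dvd.intro _ rfl)
    obtain ⟨d, hd, hsd⟩ := hex s hs (Dvd.intro_left _ rfl)
    have hc2 := Equiv.Perm.two_le_of_mem_cycleType hc
    have hd2 := Equiv.Perm.two_le_of_mem_cycleType hd
    have hrle := Nat.le_of_dvd (by omega) hrc
    have hsle := Nat.le_of_dvd (by omega) hsd
    by_cases hcd : c = d
    · have h1 : r * s ∣ c := by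
        apply Nat.Coprime.mul_dvd_of_dvd_of_dvd ((Nat.coprime_primes hr hs).2 hrs) hrc
        rw [hcd]; exact hsd
      have h2 := Nat.le_of_dvd (by omega) h1
      have h3 : c ≤ y.cycleType.sum := Multiset.single_le_sum (fun _ _ => Nat.zero_le _) _ hc
      have h4 := hr.two_le
      have h5 := hs.two_le
      have h6 : r + s ≤ r * s := by nlinarith
      omega
    · have h1 : d ∈ y.cycleType.erase c := by
        rw [Multiset.mem_erase_of_ne (Ne.symm hcd)]; exact hd
      have h2 : d ≤ (y.cycleType.erase c).sum := Multiset.single_le_sum (fun _ _ => Nat.zero_le _) _ h1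
      have h3 : y.cycleType.sum = c + (y.cycleType.erase c).sum := by
        rw [← Multiset.sum_cons, Multiset.cons_erase hc]
      omega
  · intro h
    obtain ⟨y, hy⟩ := (Equiv.Perm.exists_with_cycleType_iff (α := Fin n) (m := {r, s})).2 (by
      refine ⟨by simpa using h, ?_⟩
      intro a ha
      simp only [Multiset.insert_eq_cons, Multiset.mem_cons, Multiset.mem_singleton] at ha
      rcases ha with rfl | rfl
      · exact hr.two_le
      · exact hs.two_le)
    have hsign : Equiv.Perm.sign y = 1 := by
      rw [Equiv.Perm.sign_of_cycleType, hy]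
      simp only [Multiset.insert_eq_cons, Multiset.sum_cons, Multiset.sum_singleton, Multiset.card_cons, Multiset.card_singleton]
      apply Even.neg_one_pow
      have h1 := hr.odd_of_ne_two hr2
      have h2 := hs.odd_of_ne_two hs2
      have h3 : Even (r + s) := h1.add_odd h2
      rw [Nat.even_add]
      exact ⟨fun _ => by decide, fun _ => h3⟩
    refine ⟨⟨y, Equiv.Perm.mem_alternatingGroup.2 hsign⟩, ?_⟩
    rw [← Subgroup.orderOf_coe]
    change orderOf y = r * s
    rw [← Equiv.Perm.lcm_cycleType, hy]
    simp only [Multiset.insert_eq_cons, Multiset.lcm_cons, Multiset.lcm_singleton, normalize_eq]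
    exact ((Nat.coprime_primes hr hs).2 hrs).lcm_eq_mul

end Cfsg.Agent.S2466
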