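import Mathlib
import Cfsg.Statements.S2467

set_option autoImplicit false
open Cfsg

namespace Cfsg.Agent.S2467

/-- Adjacency of 2 and an odd prime in the prime graph of the alternating groups: let r be an odd prime at most n, with n ≥ 4. The alternating group of degree n has an element of order 2r if and only if r + 4 ≤ n. -/
theorem result (n r : ℕ) (hn : 4 ≤ n) (hr : r.Prime) (hr2 : r ≠ 2) (hrn : r ≤ n) :
    (2 * r ∈ Set.range (orderOf : alternatingGroup (Fin n) → ℕ)) ↔ r + 4 ≤ n := by
  classical
  have hr3 : 3 ≤ r := by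
    have := hr.two_le
    omega
  have hrodd : r % 2 = 1 := (hr.eq_two_or_odd).resolve_left hr2
  constructor
  · rintro ⟨x, hx⟩
    have hx' : orderOf (x : Equiv.Perm (Fin n)) = 2 * r := by rw [Subgroup.orderOf_coe]; exact hx
    have hsg : Equiv.Perm.sign (x : Equiv.Perm (Fin n)) = 1 := Equiv.Perm.mem_alternatingGroup.1 x.2
    set y := (x : Equiv.Perm (Fin n)) with hy
    have hlcm := Equiv.Perm.lcm_cycleType y
    rw [hx'] at hlcm
    have hsum := Equiv.Perm.sum_cycleType y
    have hle : y.cycleType.sum ≤ n := by
      rw [hsum]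
      have := y.support.card_le_univ
      simpa using this
    have hex : ∀ q : ℕ, q.Prime → q ∣ 2 * r → ∃ c ∈ y.cycleType, q ∣ c := by
      intro q hq hqd
      by_contra hcon
      push Not at hcon
      have h1 : ∀ c ∈ y.cycleType, Nat.Coprime q c := fun c hc => (Nat.Prime.coprime_iff_not_dvd hq).2 (hcon c hc)
      have h2 : Nat.Coprime q y.cycleType.lcm := by
        have h3 : ∀ m : Multiset ℕ, (∀ c ∈ m, Nat.Coprime q c) → Nat.Coprime q m.lcm := by
          intro m
          induction m using Multiset.induction_on with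
          | empty => intro _; simp
          | cons a m ih =>
            intro h
            rw [Multiset.lcm_cons]
            have h4 := h a (Multiset.mem_cons_self a m)
            have h5 := ih (fun c hc => h c (Multiset.mem_cons_of_mem hc))
            exact Nat.Coprime.coprime_dvd_right (lcm_dvd_mul a m.lcm) (Nat.Coprime.mul_right h4 h5)
        exact h3 _ h1
      rw [hlcm] at h2
      exact (Nat.Prime.coprime_iff_not_dvd hq).1 h2 hqd
    obtain ⟨c, hc, hrc⟩ := hex r hr (Dvd.intro_left _ rfl)
    -- the even cycles are even in number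
    have heven : ∀ m : Multiset ℕ, (m.sum + Multiset.card m) % 2 = (Multiset.card (m.filter (fun c => c % 2 = 0))) % 2 := by
      intro m
      induction m using Multiset.induction_on with
      | empty => simp
      | cons a m ih =>
        rw [Multiset.sum_cons, Multiset.card_cons]
        by_cases ha : a % 2 = 0
        · rw [Multiset.filter_cons_of_pos (p := fun c => c % 2 = 0) m ha, Multiset.card_cons]; omega
        · rw [Multiset.filter_cons_of_neg (p := fun c => c % 2 = 0) m ha]; omega
    have h1 : (Multiset.card (y.cycleType.filter (fun c => c % 2 = 0))) % 2 = 0 := by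
      rw [← heven]
      rw [Equiv.Perm.sign_of_cycleType] at hsg
      by_contra hne
      have hodd : Odd (y.cycleType.sum + Multiset.card y.cycleType) := Nat.odd_iff.2 (by omega)
      rw [hodd.neg_one_pow] at hsg
      exact absurd hsg (by decide)
    obtain ⟨d, hd, h2d⟩ := hex 2 Nat.prime_two (Dvd.intro _ rfl)
    have hdf : d ∈ y.cycleType.filter (fun c => c % 2 = 0) := Multiset.mem_filter.2 ⟨hd, by omega⟩
    -- two even cycles
    have hc2 : 2 ≤ Multiset.card (y.cycleType.filter (fun c => c % 2 = 0)) := by
      have : 0 < Multiset.card (y.cycleType.filter (fun c => c % 2 = 0)) := Multiset.card_pos_iff_exists_mem.2 ⟨d, hdf⟩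
      omega
    -- two even members a, b: cycleType = a ::ₘ b ::ₘ rest
    obtain ⟨t, ht⟩ := Multiset.exists_cons_of_mem hdf
    rw [ht, Multiset.card_cons] at hc2
    obtain ⟨b, hb⟩ := Multiset.card_pos_iff_exists_mem.1 (show 0 < Multiset.card t by omega)
    obtain ⟨u, hu⟩ := Multiset.exists_cons_of_mem hb
    have hbf : b ∈ y.cycleType.filter (fun c => c % 2 = 0) := by rw [ht]; exact Multiset.mem_cons_of_mem hb
    have hdle : ∃ v, y.cycleType = d ::ₘ b ::ₘ v := by
      have h2 : d ::ₘ b ::ₘ u ≤ y.cycleType := by
        rw [← hu, ← ht]; exact Multiset.filter_le _ _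
      obtain ⟨w, hw⟩ := Multiset.le_iff_exists_add.1 h2
      exact ⟨u + w, by rw [hw]; simp⟩
    obtain ⟨v, hv⟩ := hdle
    have hd0 : 2 ≤ d := Equiv.Perm.two_le_of_mem_cycleType hd
    have hb0 : 2 ≤ b := Equiv.Perm.two_le_of_mem_cycleType (Multiset.mem_filter.1 hbf).1
    have hbe : b % 2 = 0 := (Multiset.mem_filter.1 hbf).2
    have hde : d % 2 = 0 := (Multiset.mem_filter.1 hdf).2
    have hc0 : 2 ≤ c := Equiv.Perm.two_le_of_mem_cycleType hc
    rw [hv, Multiset.sum_cons, Multiset.sum_cons] at hle
    rw [hv] at hc
    have key : ∀ e : ℕ, e % 2 = 0 → 0 < e → r ∣ e → 2 * r ≤ e := by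
      intro e h1 h2 h3
      obtain ⟨k, rfl⟩ := h3
      have hk : k % 2 = 0 := by
        rcases Nat.mod_two_eq_zero_or_one k with h | h
        · exact h
        · exfalso
          rw [Nat.mul_mod, hrodd, h] at h1
          norm_num at h1
      have hk2 : 2 ≤ k := by
        rcases Nat.eq_zero_or_pos k with h | h
        · subst h; omega
        · omega
      nlinarith
    rcases Multiset.mem_cons.1 hc with h | h
    · have := key c (by omega) (by omega) hrc
      omega
    · rcases Multiset.mem_cons.1 h with h | h
      · have := key c (by omega) (by omega) hrc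
        omega
      · have h3 : c ≤ v.sum := Multiset.single_le_sum (fun _ _ => Nat.zero_le _) _ h
        have h4 := Nat.le_of_dvd (by omega) hrc
        omega
  · intro h
    obtain ⟨y, hy⟩ := (Equiv.Perm.exists_with_cycleType_iff (α := Fin n) (m := {r, 2, 2})).2 (by
      refine ⟨by simpa [add_assoc] using h, ?_⟩
      intro a ha
      simp only [Multiset.insert_eq_cons, Multiset.mem_cons, Multiset.mem_singleton] at ha
      omega)
    have hsign : Equiv.Perm.sign y = 1 := by
      rw [Equiv.Perm.sign_of_cycleType, hy]
      simp only [Multiset.insert_eq_cons, Multiset.sum_cons, Multiset.sum_singleton, Multiset.card_cons, Multiset.card_singleton]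
      apply Even.neg_one_pow
      rw [Nat.even_iff]; omega
    refine ⟨⟨y, Equiv.Perm.mem_alternatingGroup.2 hsign⟩, ?_⟩
    rw [← Subgroup.orderOf_coe]
    change orderOf y = 2 * r
    rw [← Equiv.Perm.lcm_cycleType, hy]
    simp only [Multiset.insert_eq_cons, Multiset.lcm_cons, Multiset.lcm_singleton, normalize_eq]
    have h1 : Nat.lcm 2 2 = 2 := by decide
    have h2 : Nat.Coprime r 2 := (Nat.coprime_primes hr Nat.prime_two).2 hr2
    have h3 : Nat.lcm r (Nat.lcm 2 2) = 2 * r := by
      rw [h1, h2.lcm_eq_mul, mul_comm]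
    exact h3

end Cfsg.Agent.S2467
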