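import Mathlib
import Cfsg.Statements.S2471

set_option autoImplicit false
open Cfsg

namespace Cfsg.Agent.S2471

/-- In PSL(2,q) with q odd, the characteristic p is isolated from 2 in the prime graph: for F a finite field of odd characteristic p with at least 5 elements, PSL(2,F) has no element of order 2p. -/
theorem result {F : Type*} [Field F] [Fintype F] (p : ℕ) [Fact p.Prime] [CharP F p] (hp : p ≠ 2) (h5 : 5 ≤ Fintype.card F) (g : Matrix.ProjectiveSpecialLinearGroup (Fin 2) F) :
    orderOf g ≠ 2 * p := by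
  classical
  intro hg
  obtain ⟨A, rfl⟩ := QuotientGroup.mk_surjective g
  have hp3 : 3 ≤ p := by
    have := (Fact.out : p.Prime).two_le
    omega
  have hF2 : (2 : F) ≠ 0 := by
    intro h
    have h1 : ((2 : ℕ) : F) = 0 := by exact_mod_cast h
    rw [CharP.cast_eq_zero_iff F p] at h1
    have := Nat.le_of_dvd (by norm_num) h1
    omega
  -- powers in the centre
  have hmem : ∀ k : ℕ, A ^ k ∈ Subgroup.center (Matrix.SpecialLinearGroup (Fin 2) F) ↔ 2 * p ∣ k := by
    intro k
    rw [← QuotientGroup.eq_one_iff, QuotientGroup.mk_pow, ← orderOf_dvd_iff_pow_eq_one]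
    exact Iff.of_eq (congrArg (· ∣ k) hg)
  have hcen : ∀ (M : Matrix.SpecialLinearGroup (Fin 2) F) (a : F), (M : Matrix (Fin 2) (Fin 2) F) = Matrix.scalar (Fin 2) a → M ∈ Subgroup.center (Matrix.SpecialLinearGroup (Fin 2) F) := by
    intro M a hM
    rw [Matrix.SpecialLinearGroup.mem_center_iff]
    refine ⟨a, ?_, hM.symm⟩
    have h1 := M.2
    rw [hM, Matrix.scalar_apply, Matrix.det_diagonal] at h1
    simpa using h1
  -- Cayley-Hamilton
  have hCH : ∀ M : Matrix.SpecialLinearGroup (Fin 2) F, (M : Matrix (Fin 2) (Fin 2) F) * M + 1 = (M : Matrix (Fin 2) (Fin 2) F).trace • (M : Matrix (Fin 2) (Fin 2) F) := by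
    intro M
    have hd := M.2
    rw [Matrix.det_fin_two] at hd
    ext i j
    fin_cases i <;> fin_cases j <;> simp [Matrix.mul_apply, Fin.sum_univ_two, Matrix.trace] <;> first | ring1 | linear_combination (-1 : F) * hd
  set N : Matrix (Fin 2) (Fin 2) F := (A : Matrix (Fin 2) (Fin 2) F) with hN
  -- the square of A ^ p is -1
  have hB2 : N ^ (2 * p) = -1 := by
    have h1 : A ^ (2 * p) ∈ Subgroup.center (Matrix.SpecialLinearGroup (Fin 2) F) := (hmem _).2 dvd_rfl
    rw [Matrix.SpecialLinearGroup.mem_center_iff] at h1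
    obtain ⟨a, ha1, ha2⟩ := h1
    rw [Fintype.card_fin] at ha1
    have h2 : (a - 1) * (a + 1) = 0 := by linear_combination ha1
    have h3 : N ^ (2 * p) = Matrix.scalar (Fin 2) a := by
      rw [ha2]; simp [hN]
    rcases mul_eq_zero.1 h2 with h4 | h4
    · exfalso
      have ha : a = 1 := by linear_combination h4
      have h5 := hCH (A ^ p)
      have h6 : ((A ^ p : Matrix.SpecialLinearGroup (Fin 2) F) : Matrix (Fin 2) (Fin 2) F) * (A ^ p : Matrix.SpecialLinearGroup (Fin 2) F) = 1 := by
        have : ((A ^ p : Matrix.SpecialLinearGroup (Fin 2) F) : Matrix (Fin 2) (Fin 2) F) = N ^ p := by simp [hN]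
        rw [this, ← pow_add, ← two_mul, h3, ha, map_one]
      rw [h6] at h5
      by_cases ht : ((A ^ p : Matrix.SpecialLinearGroup (Fin 2) F) : Matrix (Fin 2) (Fin 2) F).trace = 0
      · rw [ht, zero_smul] at h5
        have := congrFun (congrFun h5 0) 0
        simp at this
        apply hF2
        linear_combination this
      · have h7 : A ^ p ∈ Subgroup.center (Matrix.SpecialLinearGroup (Fin 2) F) := by
          apply hcen _ (2 * (((A ^ p : Matrix.SpecialLinearGroup (Fin 2) F) : Matrix (Fin 2) (Fin 2) F).trace)⁻¹)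
          set t := ((A ^ p : Matrix.SpecialLinearGroup (Fin 2) F) : Matrix (Fin 2) (Fin 2) F).trace with htt
          have h8 : t⁻¹ • (t • ((A ^ p : Matrix.SpecialLinearGroup (Fin 2) F) : Matrix (Fin 2) (Fin 2) F)) = ((A ^ p : Matrix.SpecialLinearGroup (Fin 2) F) : Matrix (Fin 2) (Fin 2) F) := by
            rw [smul_smul, inv_mul_cancel₀ ht, one_smul]
          rw [← h8, ← h5]
          ext i j
          fin_cases i <;> fin_cases j <;> simp <;> ring
        have h8 := (hmem p).1 h7
        have h9 := Nat.le_of_dvd (by omega) h8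
        omega
    · have ha : a = -1 := by linear_combination h4
      rw [h3, ha, map_neg, map_one]
  -- so A^2+1 is nilpotent
  have hnil : (N * N + 1) ^ p = 0 := by
    haveI : CharP (Matrix (Fin 2) (Fin 2) F) p := inferInstance
    rw [add_pow_char_of_commute _ (Commute.one_right _), one_pow, ← pow_two, ← pow_mul, hB2]
    simp
  have hCA := hCH A
  rw [← hN] at hCA
  rw [hCA, smul_pow] at hnil
  have ht : N.trace = 0 := by
    by_contra ht
    have h1 : N ^ p = 0 := by
      rcases smul_eq_zero.1 hnil with h | h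
      · exact absurd (pow_eq_zero_iff (by omega) |>.1 h) ht
      · exact h
    have h2 : (N ^ p).det = 1 := by rw [Matrix.det_pow, hN, A.2, one_pow]
    rw [h1, Matrix.det_zero] at h2
    exact zero_ne_one h2
  rw [ht, zero_smul] at hCA
  have h1 : A ^ 2 ∈ Subgroup.center (Matrix.SpecialLinearGroup (Fin 2) F) := by
    apply hcen _ (-1)
    have h2 : ((A ^ 2 : Matrix.SpecialLinearGroup (Fin 2) F) : Matrix (Fin 2) (Fin 2) F) = N * N := by
      simp [hN, pow_two]
    rw [h2, map_neg, map_one]
    exact eq_neg_of_add_eq_zero_left hCA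
  have h2 := Nat.le_of_dvd (by omega) ((hmem 2).1 h1)
  omega

end Cfsg.Agent.S2471
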