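import Cfsg.Statements.S2503
import Cfsg.Agent.H6.Sl32

set_option autoImplicit false
open Cfsg

namespace Cfsg.Agent.S2503

open CfsgH6 CfsgH4

/-- Let F be a finite field with q = 2^t ≥ 4 elements and L = PSL(2,F). Then L has a cyclic subgroup A of order q + 1 and an elementary abelian 2-subgroup B of order q such that L = ABA: every element of L is a product a·b·a' with a, a' ∈ A and b ∈ B. -/
theorem result {F : Type*} [Field F] [Fintype F]
    (h2 : 2 ∣ Fintype.card F) (h4 : 4 ≤ Fintype.card F) :
    ∃ A B : Subgroup (Matrix.ProjectiveSpecialLinearGroup (Fin 2) F),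
      IsCyclic A ∧ Nat.card A = Fintype.card F + 1 ∧ IsMulCommutative B ∧ (∀ b ∈ B, b * b = 1) ∧
        Nat.card B = Fintype.card F ∧
        ∀ g : Matrix.ProjectiveSpecialLinearGroup (Fin 2) F, ∃ a ∈ A, ∃ b ∈ B, ∃ c ∈ A, g = a * b * c := by
  classical
  haveI := charP_two_of_even (F := F) (even_iff_two_dvd.2 h2)
  have h20 : (2 : F) = 0 := by exact_mod_cast CharP.cast_eq_zero F 2
  exact (mSL (F := F)).aba' isSL_mSL h20

end Cfsg.Agent.S2503
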