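import Cfsg.Statements.S2508
import Cfsg.Agent.H6.Sl27

set_option autoImplicit false
open Cfsg

namespace Cfsg.Agent.S2508

open CfsgH6 CfsgH4

/-- Let F be a finite field with q elements, q odd and q ≥ 7. If q ≡ 1 (mod 4) the conjugacy class sizes of PSL(2,F) are exactly 1, (q² − 1)/2, q(q + 1)/2, q(q − 1) and q(q + 1); if q ≡ 3 (mod 4) they are exactly 1, (q² − 1)/2, q(q − 1)/2, q(q + 1) and q(q − 1). -/
theorem result {F : Type*} [Field F] [Fintype F]
    (hodd : ¬ 2 ∣ Fintype.card F) (h7 : 7 ≤ Fintype.card F) :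
    (Fintype.card F % 4 = 1 →
      Set.range (fun g : (Matrix.ProjectiveSpecialLinearGroup (Fin 2) F) => (Subgroup.centralizer ({g} : Set (Matrix.ProjectiveSpecialLinearGroup (Fin 2) F))).index) =
        {1, (Fintype.card F ^ 2 - 1) / 2, Fintype.card F * (Fintype.card F + 1) / 2,
          Fintype.card F * (Fintype.card F - 1), Fintype.card F * (Fintype.card F + 1)}) ∧
    (Fintype.card F % 4 = 3 →
      Set.range (fun g : (Matrix.ProjectiveSpecialLinearGroup (Fin 2) F) => (Subgroup.centralizer ({g} : Set (Matrix.ProjectiveSpecialLinearGroup (Fin 2) F))).index) =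
        {1, (Fintype.card F ^ 2 - 1) / 2, Fintype.card F * (Fintype.card F - 1) / 2,
          Fintype.card F * (Fintype.card F + 1), Fintype.card F * (Fintype.card F - 1)}) := by
  classical
  have hM := isSL_mSL (F := F)
  have hodd' : Odd (Fintype.card F) := by
    rw [← Nat.not_even_iff_odd, even_iff_two_dvd]; exact hodd
  have key : Set.range (fun g : (Matrix.ProjectiveSpecialLinearGroup (Fin 2) F) => (Subgroup.centralizer ({g} : Set (Matrix.ProjectiveSpecialLinearGroup (Fin 2) F))).index) =
      Set.range (MG.ix (G := Matrix.SpecialLinearGroup (Fin 2) F)) := by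
    ext n
    constructor
    · rintro ⟨g, rfl⟩
      obtain ⟨h, rfl⟩ := QuotientGroup.mk'_surjective _ g
      exact ⟨h, rfl⟩
    · rintro ⟨g, rfl⟩
      exact ⟨QuotientGroup.mk' _ g, rfl⟩
  rw [key]
  exact (mSL (F := F)).range_ix hM hodd' h7

end Cfsg.Agent.S2508
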