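import Cfsg.Statements.S2513
import Cfsg.Agent.L.Misc.Spec2

set_option autoImplicit false
open Cfsg

namespace Cfsg.Agent.S2513

/-- Let F be the field with two elements, n ≥ 2, L = PSL(n, F) and k₀ = ⌊(n + 3)/2⌋. Then for every k ≥ k₀ the direct product of k copies of L has the same set of element orders as the direct product of k₀ copies of L. -/
theorem result {F : Type*} [Field F] [Fintype F] (hF : Fintype.card F = 2) (n k : ℕ) (hn : 2 ≤ n) (hk : (n + 3) / 2 ≤ k) :
    Set.range (orderOf : (Fin k → Matrix.ProjectiveSpecialLinearGroup (Fin n) F) → ℕ) = Set.range (orderOf : (Fin ((n + 3) / 2) → Matrix.ProjectiveSpecialLinearGroup (Fin n) F) → ℕ) := by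
  haveI : Finite (Matrix.ProjectiveSpecialLinearGroup (Fin n) F) := inferInstance
  refine CfsgL.Spec2.main n k (by omega) hk ?_ ?_
  · intro p e hp hp2 he h
    obtain ⟨g, hg⟩ := (CfsgL.Spec2.psl_iff hF n _).1 h
    exact CfsgL.Spec2.exists_dim hF n p e hp hp2 he g hg
  · intro d hd hdn
    exact (CfsgL.Spec2.psl_iff hF n _).2 (CfsgL.Spec2.exists_singer hF n d hd hdn)

end Cfsg.Agent.S2513
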