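import Mathlib
import Cfsg.Statements.S2514

set_option autoImplicit false
open Cfsg

namespace Cfsg.Agent.S2514

/-- For a finite group X write μ(X) for the set of element orders of X that are maximal under divisibility. Let G and H be finite groups and k ≥ 1 such that μ(H) ⊆ μ(G) and μ(G) has fewer than k elements outside μ(H). Then the direct product of k copies of G has the same set of element orders as the direct product of k − 1 copies of G with H. -/
theorem result {G H : Type*} [Group G] [Finite G] [Group H] [Finite H] (k : ℕ) (hk : 1 ≤ k)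
    (hsub : {n : ℕ | n ∈ Set.range (orderOf : H → ℕ) ∧ ∀ m ∈ Set.range (orderOf : H → ℕ), n ∣ m → m = n} ⊆ {n : ℕ | n ∈ Set.range (orderOf : G → ℕ) ∧ ∀ m ∈ Set.range (orderOf : G → ℕ), n ∣ m → m = n})
    (hfew : ({n : ℕ | n ∈ Set.range (orderOf : G → ℕ) ∧ ∀ m ∈ Set.range (orderOf : G → ℕ), n ∣ m → m = n} \ {n : ℕ | n ∈ Set.range (orderOf : H → ℕ) ∧ ∀ m ∈ Set.range (orderOf : H → ℕ), n ∣ m → m = n}).ncard < k) :
    Set.range (orderOf : (Fin k → G) → ℕ) = Set.range (orderOf : (Fin (k - 1) → G) × H → ℕ) := by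
  classical
  obtain ⟨k, rfl⟩ : ∃ k', k = k' + 1 := ⟨k - 1, by omega⟩
  set μG := {n : ℕ | n ∈ Set.range (orderOf : G → ℕ) ∧ ∀ m ∈ Set.range (orderOf : G → ℕ), n ∣ m → m = n} with hμG
  set μH := {n : ℕ | n ∈ Set.range (orderOf : H → ℕ) ∧ ∀ m ∈ Set.range (orderOf : H → ℕ), n ∣ m → m = n} with hμH
  rw [show k + 1 - 1 = k by omega]
  -- general facts
  have hdownH : ∀ (m d : ℕ), m ∈ Set.range (orderOf : H → ℕ) → d ∣ m → ∃ x : H, orderOf x = d := by
    intro m d hm hd
    obtain ⟨x, rfl⟩ := hm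
    exact ⟨_, orderOf_pow_orderOf_div (orderOf_pos x).ne' hd⟩
  have hupG : ∀ g : G, ∃ m ∈ μG, orderOf g ∣ m := by
    intro g
    obtain ⟨x, hx, hmax⟩ := Set.exists_max_image {x : G | orderOf g ∣ orderOf x} orderOf (Set.toFinite _) ⟨g, dvd_rfl⟩
    refine ⟨orderOf x, ⟨⟨x, rfl⟩, ?_⟩, hx⟩
    rintro _ ⟨y, rfl⟩ hy
    have h1 := hmax y (dvd_trans hx hy)
    exact Nat.le_antisymm h1 (Nat.le_of_dvd (orderOf_pos y) hy)
  have hupH : ∀ g : H, ∃ m ∈ μH, orderOf g ∣ m := by
    intro g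
    obtain ⟨x, hx, hmax⟩ := Set.exists_max_image {x : H | orderOf g ∣ orderOf x} orderOf (Set.toFinite _) ⟨g, dvd_rfl⟩
    refine ⟨orderOf x, ⟨⟨x, rfl⟩, ?_⟩, hx⟩
    rintro _ ⟨y, rfl⟩ hy
    have h1 := hmax y (dvd_trans hx hy)
    exact Nat.le_antisymm h1 (Nat.le_of_dvd (orderOf_pos y) hy)
  have hpi : ∀ (l : ℕ) (x : Fin l → G) (m : ℕ), orderOf x ∣ m ↔ ∀ i, orderOf (x i) ∣ m := by
    intro l x m
    rw [orderOf_dvd_iff_pow_eq_one, funext_iff]
    simp only [Pi.pow_apply, Pi.one_apply, orderOf_dvd_iff_pow_eq_one]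
  have hprod : ∀ (x : (Fin k → G) × H) (m : ℕ), orderOf x ∣ m ↔ (∀ i, orderOf (x.1 i) ∣ m) ∧ orderOf x.2 ∣ m := by
    intro x m
    rw [Prod.orderOf, Nat.lcm_dvd_iff, hpi]
  ext n
  constructor
  · rintro ⟨x, rfl⟩
    choose M hM hMd using fun i => hupG (x i)
    by_cases hex : ∃ i, M i ∈ μH
    · obtain ⟨i, hi⟩ := hex
      obtain ⟨h, hh⟩ := hdownH (M i) (orderOf (x i)) hi.1 (hMd i)
      refine ⟨(fun j => x (i.succAbove j), h), ?_⟩
      apply Nat.dvd_right_iff_eq.1
      intro m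
      rw [hprod, hpi, Fin.forall_iff_succAbove i, hh]
      exact and_comm
    · push Not at hex
      obtain ⟨i, -, j, -, hij, hMij⟩ := Set.exists_ne_map_eq_of_ncard_lt_of_maps_to (s := (Set.univ : Set (Fin (k + 1)))) (t := μG \ μH) (f := M)
        (by rw [Set.ncard_univ, Nat.card_fin]; exact hfew) (fun i _ => ⟨hM i, hex i⟩)
        ((Set.toFinite (Set.range (orderOf : G → ℕ))).subset (fun n hn => hn.1.1))
      obtain ⟨g', hg'⟩ : ∃ y : G, orderOf y = Nat.lcm (orderOf (x i)) (orderOf (x j)) := by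
        have h1 : Nat.lcm (orderOf (x i)) (orderOf (x j)) ∣ M i := Nat.lcm_dvd (hMd i) (by rw [hMij]; exact hMd j)
        obtain ⟨y, hy⟩ := (hM i).1
        rw [← hy] at h1
        exact ⟨_, orderOf_pow_orderOf_div (orderOf_pos y).ne' h1⟩
      refine ⟨(fun l => if i.succAbove l = j then g' else x (i.succAbove l), 1), ?_⟩
      apply Nat.dvd_right_iff_eq.1
      intro m
      rw [hprod, hpi, orderOf_one]
      constructor
      · rintro ⟨h1, -⟩
        obtain ⟨l, hl⟩ := Fin.exists_succAbove_eq hij.symm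
        have h2 := h1 l
        simp only [hl, if_true] at h2
        rw [hg'] at h2
        have h3 : orderOf (x i) ∣ m := (Nat.dvd_lcm_left _ _).trans h2
        have h4 : orderOf (x j) ∣ m := (Nat.dvd_lcm_right _ _).trans h2
        intro q
        by_cases hqi : q = i
        · rw [hqi]; exact h3
        by_cases hqj : q = j
        · rw [hqj]; exact h4
        obtain ⟨l', hl'⟩ := Fin.exists_succAbove_eq hqi
        have h5 := h1 l'
        simp only [hl', if_neg hqj] at h5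
        exact h5
      · intro h1
        refine ⟨?_, one_dvd _⟩
        intro l
        by_cases hl : i.succAbove l = j
        · simp only [hl, if_true]
          rw [hg']; exact Nat.lcm_dvd (h1 i) (h1 j)
        · simp only [if_neg hl]
          exact h1 _
  · rintro ⟨⟨x, h⟩, rfl⟩
    obtain ⟨m, hm, hhm⟩ := hupH h
    obtain ⟨y, hy⟩ := (hsub hm).1
    rw [← hy] at hhm
    have hg : ∃ g : G, orderOf g = orderOf h := ⟨_, orderOf_pow_orderOf_div (orderOf_pos y).ne' hhm⟩
    obtain ⟨g, hg⟩ := hg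
    refine ⟨Fin.cons g x, ?_⟩
    apply Nat.dvd_right_iff_eq.1
    intro m
    rw [hprod, hpi, Fin.forall_fin_succ]
    simp only [Fin.cons_zero, Fin.cons_succ, hg]
    exact and_comm

end Cfsg.Agent.S2514
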