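import Cfsg.Statements.S2516
import Mathlib

set_option autoImplicit false
open Cfsg

namespace Cfsg.Agent.S2516

/-- Let F be a field of characteristic p > 0, V a non-zero finite-dimensional F-vector space, G a finite group and ρ a representation of G on V; form the semidirect product V ⋊ G. For g ∈ G of order k, the coset Vg contains an element of order pk if and only if the minimal polynomial of ρ(g) does not divide 1 + X + ⋯ + X^(k−1). -/
theorem result {F : Type*} [Field F] (p : ℕ) [Fact p.Prime] [CharP F p] {V : Type*} [AddCommGroup V] [Module F V] [FiniteDimensional F V] [Nontrivial V]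
    {G : Type*} [Group G] [Finite G] (ρ : Representation F G V) (g : G) :
    (∃ x : Multiplicative V ⋊[(MulAutMultiplicative V).symm.toMonoidHom.comp
        ((DistribMulAction.toAddAut ((V →ₗ[F] V)ˣ) V).comp ρ.asGroupHom)] G,
        x.right = g ∧ orderOf x = p * orderOf g) ↔
      ¬ (minpoly F (ρ g) ∣ ∑ i ∈ Finset.range (orderOf g), (Polynomial.X : Polynomial F) ^ i) := by
  classical
  set φ : G →* MulAut (Multiplicative V) := (MulAutMultiplicative V).symm.toMonoidHom.comp
        ((DistribMulAction.toAddAut ((V →ₗ[F] V)ˣ) V).comp ρ.asGroupHom) with hφ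
  have hact : ∀ (h : G) (w : V), φ h (Multiplicative.ofAdd w) = Multiplicative.ofAdd (ρ h w) := fun h w => rfl
  have hpow : ∀ (x : Multiplicative V ⋊[φ] G), x.right = g → ∀ k : ℕ,
      (x ^ k).left = Multiplicative.ofAdd (∑ i ∈ Finset.range k, ((ρ g) ^ i) (Multiplicative.toAdd x.left)) ∧ (x ^ k).right = g ^ k := by
    intro x hx k
    induction k with
    | zero => exact ⟨by simp, by simp⟩
    | succ k ih =>
      rw [pow_succ]
      constructor
      · rw [SemidirectProduct.mul_left, ih.1, ih.2, Finset.sum_range_succ, ofAdd_add]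
        congr 1
        have h1 := hact (g ^ k) (Multiplicative.toAdd x.left)
        rw [map_pow] at h1
        rw [← map_pow ρ] 
        exact hact (g ^ k) (Multiplicative.toAdd x.left)
      · rw [SemidirectProduct.mul_right, ih.2, hx, pow_succ]
  have hN : (minpoly F (ρ g) ∣ ∑ i ∈ Finset.range (orderOf g), (Polynomial.X : Polynomial F) ^ i) ↔
      ∀ v : V, ∑ i ∈ Finset.range (orderOf g), ((ρ g) ^ i) v = 0 := by
    rw [minpoly.dvd_iff]
    have h1 : Polynomial.aeval (ρ g) (∑ i ∈ Finset.range (orderOf g), (Polynomial.X : Polynomial F) ^ i) =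
        ∑ i ∈ Finset.range (orderOf g), (ρ g) ^ i := by
      rw [map_sum]; simp
    rw [h1]
    constructor
    · intro h v
      have h2 := congrArg (fun f : V →ₗ[F] V => f v) h
      simpa [LinearMap.sum_apply] using h2
    · intro h
      ext v
      simpa [LinearMap.sum_apply] using h v
  have hd : 0 < orderOf g := orderOf_pos g
  have hp := (Fact.out : p.Prime)
  rw [hN]
  constructor
  · rintro ⟨x, hx, hox⟩ hall
    have h1 := hpow x hx (orderOf g)
    rw [hall, pow_orderOf_eq_one] at h1
    have h2 : x ^ orderOf g = 1 := SemidirectProduct.ext h1.1 h1.2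
    have h3 := Nat.le_of_dvd hd (orderOf_dvd_of_pow_eq_one h2)
    rw [hox] at h3
    have := hp.two_le
    nlinarith
  · intro h
    push Not at h
    obtain ⟨v, hv⟩ := h
    let x : Multiplicative V ⋊[φ] G := ⟨Multiplicative.ofAdd v, g⟩
    refine ⟨x, rfl, ?_⟩
    have h1 := hpow x rfl (orderOf g)
    rw [pow_orderOf_eq_one] at h1
    have hne : x ^ orderOf g ≠ 1 := by
      intro h2
      rw [h2] at h1
      exact hv (Multiplicative.ofAdd.injective h1.1.symm)
    have hpw : (x ^ orderOf g) ^ p = 1 := by
      have h2 : x ^ orderOf g = SemidirectProduct.inl (Multiplicative.ofAdd (∑ i ∈ Finset.range (orderOf g), ((ρ g) ^ i) v)) :=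
        SemidirectProduct.ext h1.1 h1.2
      rw [h2, ← map_pow, ← ofAdd_nsmul]
      have h3 : p • (∑ i ∈ Finset.range (orderOf g), ((ρ g) ^ i) v) = 0 := by
        rw [← Nat.cast_smul_eq_nsmul F, CharP.cast_eq_zero, zero_smul]
      rw [h3, ofAdd_zero, map_one]
    have h4 : orderOf (x ^ orderOf g) = p := orderOf_eq_prime hpw hne
    have h5 : orderOf g ∣ orderOf x := orderOf_map_dvd (SemidirectProduct.rightHom : Multiplicative V ⋊[φ] G →* G) x
    rw [orderOf_pow_of_dvd hd.ne' h5] at h4
    rw [← h4, Nat.div_mul_cancel h5]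

end Cfsg.Agent.S2516
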