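import Cfsg.Statements.S2910
import Cfsg.Agent.H7.Quick3

set_option autoImplicit false
open Cfsg

namespace Cfsg.Agent.S2910

/-- Let p be an odd prime dividing the order of the finite group G and P a Sylow p-subgroup of G. If Ω₁(P) (generated by the elements of order dividing p) is contained in the centre of G, then G has a normal p-complement. In particular, if G is quasisimple then Ω₁(P) is not central in G. -/
theorem result {G : Type*} [Group G] [Finite G] {p : ℕ} [Fact p.Prime] (hp : p ≠ 2) (hdiv : p ∣ Nat.card G) (P : Sylow p G) (hZ : Cfsg.omegaOne p (P : Subgroup G) ≤ Subgroup.center G) : Cfsg.HasNormalPComplement p G ∧ ¬ Cfsg.IsQuasisimple G := by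
  have hnpc : CfsgH3.HasNPC p G := by
    refine CfsgH7.npc_of_upper 1 fun a hap => ?_
    rw [Subgroup.upperCentralSeries_one]
    unfold CfsgH2.expo at hap
    rw [if_neg hp] at hap
    have hap' : IsPGroup p ↥(Subgroup.zpowers a) := by
      rintro ⟨x, hx⟩
      obtain ⟨k, rfl⟩ := Subgroup.mem_zpowers_iff.mp hx
      refine ⟨1, Subtype.ext ?_⟩
      rw [pow_one]
      change (a ^ k) ^ p = 1
      rw [← zpow_natCast, ← zpow_mul, mul_comm, zpow_mul, zpow_natCast, hap, one_zpow]
    obtain ⟨g, -, hg⟩ := (CfsgH7.isSyl_of_sylow P).exists_conj_le hap' le_top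
    have h1 : g * a * g⁻¹ ∈ (P : Subgroup G) := hg (CfsgH7.conj_mem_cj (Subgroup.mem_zpowers a))
    have h2 : g * a * g⁻¹ ∈ Subgroup.center G := hZ (Subgroup.subset_closure ⟨h1, by rw [conj_pow, hap, mul_one, mul_inv_cancel]⟩)
    have h3 : g⁻¹ * (g * a * g⁻¹) * g⁻¹⁻¹ ∈ Subgroup.center G := (inferInstance : (Subgroup.center G).Normal).conj_mem _ h2 _
    have e : g⁻¹ * (g * a * g⁻¹) * g⁻¹⁻¹ = a := by group
    rwa [e] at h3
  refine ⟨CfsgH3.hasNPC_iff.mpr hnpc, ?_⟩
  rintro ⟨hperf, -⟩
  obtain ⟨N, hN, hcard, k, hk⟩ := hnpc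
  have h1 : IsPGroup p (G ⧸ N) := IsPGroup.of_card (n := k) hk
  have h2 : Group.IsNilpotent (G ⧸ N) := h1.isNilpotent
  have h3 : commutator (G ⧸ N) = ⊤ := by
    have h4 : commutator G = ⊤ := hperf.commutator_eq_top
    have h5 := congrArg (Subgroup.map (QuotientGroup.mk' N)) h4
    rw [commutator_def, Subgroup.map_commutator, Subgroup.map_top_of_surjective _ (QuotientGroup.mk'_surjective N)] at h5
    exact h5
  have h4 : (⊤ : Subgroup (G ⧸ N)) = ⊥ := by
    by_contra hne
    exact CfsgH2.commutator_top_ne_of_isNilpotent hne (by rw [← commutator_def]; exact h3)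
  have h5 : Nat.card (G ⧸ N) = 1 := by
    rw [← Subgroup.card_top, h4, Subgroup.card_bot]
  have h6 : Nat.card G = Nat.card ↥N := by
    have := Subgroup.card_eq_card_quotient_mul_card_subgroup N
    rw [h5, one_mul] at this
    exact this
  rw [h6] at hdiv
  have h7 := Nat.dvd_gcd hdiv (dvd_refl p)
  rw [Nat.Coprime.gcd_eq_one hcard] at h7
  exact (Fact.out : p.Prime).one_lt.ne' (Nat.dvd_one.mp h7)

end Cfsg.Agent.S2910
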