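import Mathlib
import Cfsg.Statements.S2963

set_option autoImplicit false
open Cfsg

namespace Cfsg.Agent.S2963

/-- Let n be odd. If the symmetric group of degree n is a minimal parabolic group for the prime 2, that is, a Sylow 2-subgroup is not normal and lies in exactly one maximal subgroup, then n = 2^m + 1 for some natural number m. -/
theorem result (n : ℕ) (hn : Odd n) (h : Cfsg.IsPMinimal 2 (Equiv.Perm (Fin n))) : ∃ m : ℕ, n = 2 ^ m + 1 := by
  classical
  obtain ⟨S⟩ : Nonempty (Sylow 2 (Equiv.Perm (Fin n))) := inferInstance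
  obtain ⟨hnn, M, ⟨hM, hSM⟩, huniq⟩ := h S
  obtain ⟨i, hi⟩ := S.isPGroup'.nonempty_fixed_point_of_prime_not_dvd_card (Fin n) (by simpa using hn.not_two_dvd_nat)
  have hi' : ∀ s ∈ S, s i = i := fun s hs => hi ⟨s, hs⟩
  have key : ∀ K : Subgroup (Equiv.Perm (Fin n)), K ≠ ⊤ → (S : Subgroup _) ≤ K → K ≤ M := by
    intro K hK hSK
    obtain ⟨L, hL, hKL⟩ := (eq_top_or_exists_le_coatom K).resolve_left hK
    rw [← huniq L ⟨hL, hSK.trans hKL⟩]; exact hKL
  obtain ⟨j, hji⟩ : ∃ j : Fin n, j ≠ i := by
    by_contra hcon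
    push Not at hcon
    haveI : Subsingleton (Fin n) := ⟨fun a b => (hcon a).trans (hcon b).symm⟩
    apply hnn
    refine ⟨fun a ha g => ?_⟩
    rw [Subsingleton.elim (g * a * g⁻¹) a]; exact ha
  set O := MulAction.orbit S j with hO
  -- invariance
  have hOinv : ∀ s ∈ S, ∀ x, s x ∈ O ↔ x ∈ O := by
    intro s hs x
    constructor
    · rintro ⟨t, ht⟩
      refine ⟨(⟨s, hs⟩ : S)⁻¹ * t, ?_⟩
      change (((⟨s, hs⟩ : S)⁻¹ * t : S) : Equiv.Perm (Fin n)) j = x
      have ht' : (t : Equiv.Perm (Fin n)) j = s x := ht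
      rw [Subgroup.coe_mul, Equiv.Perm.mul_apply, ht', Subgroup.coe_inv]
      simp
    · rintro ⟨t, ht⟩
      refine ⟨(⟨s, hs⟩ : S) * t, ?_⟩
      change (((⟨s, hs⟩ : S) * t : S) : Equiv.Perm (Fin n)) j = s x
      have ht' : (t : Equiv.Perm (Fin n)) j = x := ht
      rw [Subgroup.coe_mul, Equiv.Perm.mul_apply, ht']
  have hjO : j ∈ O := MulAction.mem_orbit_self j
  have hiO : i ∉ O := by
    rintro ⟨t, ht⟩
    have ht' : (t : Equiv.Perm (Fin n)) j = i := ht
    exact hji ((t : Equiv.Perm (Fin n)).injective (ht'.trans (hi' t t.2).symm))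
  have hall : ∀ x : Fin n, x = i ∨ x ∈ O := by
    by_contra hcon
    push Not at hcon
    obtain ⟨k, hki, hkO⟩ := hcon
    let K : Subgroup (Equiv.Perm (Fin n)) :=
      { carrier := {g | ∀ x, (g x = i ∨ g x ∈ O) ↔ (x = i ∨ x ∈ O)}
        one_mem' := fun x => Iff.rfl
        mul_mem' := fun {a b} ha hb x => by
          rw [Equiv.Perm.mul_apply]; exact (ha (b x)).trans (hb x)
        inv_mem' := fun {a} ha x => by
          have h0 := ha (a⁻¹ x)
          have e0 : a (a⁻¹ x) = x := by rw [← Equiv.Perm.mul_apply, mul_inv_cancel, Equiv.Perm.one_apply]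
          rw [e0] at h0
          exact h0.symm }
    have hSK : (S : Subgroup _) ≤ K := by
      intro s hs x
      have h1 : s x = i ↔ x = i := by
        constructor
        · intro h; exact s.injective (h.trans (hi' s hs).symm)
        · rintro rfl; exact hi' s hs
      rw [h1, hOinv s hs]
    have hKt : K ≠ ⊤ := by
      intro h
      have h1 : Equiv.swap i k ∈ K := by rw [h]; trivial
      have h2 := (h1 i).2 (Or.inl rfl)
      rw [Equiv.swap_apply_left] at h2
      rcases h2 with h2 | h2
      · exact hki h2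
      · exact hkO h2
    have hKM := key K hKt hSK
    have hswap : Equiv.swap i j ∈ M := by
      apply hKM
      intro x
      by_cases hxi : x = i
      · subst hxi
        rw [Equiv.swap_apply_left]
        exact ⟨fun _ => Or.inl rfl, fun _ => Or.inr hjO⟩
      · by_cases hxj : x = j
        · subst hxj
          rw [Equiv.swap_apply_right]
          exact ⟨fun _ => Or.inr hjO, fun _ => Or.inl rfl⟩
        · rw [Equiv.swap_apply_of_ne_of_ne hxi hxj]
    have hstab : MulAction.stabilizer (Equiv.Perm (Fin n)) i ≤ M := by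
      apply key
      · intro h
        have h1 : Equiv.swap i j ∈ MulAction.stabilizer (Equiv.Perm (Fin n)) i := by rw [h]; trivial
        have h2 : Equiv.swap i j i = i := h1
        rw [Equiv.swap_apply_left] at h2
        exact hji h2
      · intro s hs
        exact hi' s hs
    apply hM.1
    rw [eq_top_iff]
    intro g _
    by_cases hgi : g i = i
    · exact hstab hgi
    · have h1 : (Equiv.swap j (g i) * Equiv.swap i j)⁻¹ * g ∈ MulAction.stabilizer (Equiv.Perm (Fin n)) i := by
        change ((Equiv.swap j (g i) * Equiv.swap i j)⁻¹ * g) i = i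
        rw [Equiv.Perm.mul_apply, Equiv.Perm.inv_eq_iff_eq, Equiv.Perm.mul_apply, Equiv.swap_apply_left, Equiv.swap_apply_left]
      have h2 : Equiv.swap j (g i) ∈ MulAction.stabilizer (Equiv.Perm (Fin n)) i := by
        change Equiv.swap j (g i) i = i
        exact Equiv.swap_apply_of_ne_of_ne (Ne.symm hji) (Ne.symm hgi)
      have h3 := M.mul_mem (M.mul_mem (hstab h2) hswap) (hstab h1)
      rwa [mul_inv_cancel_left] at h3
  obtain ⟨m, hm⟩ := S.isPGroup'.card_orbit j
  refine ⟨m, ?_⟩
  have h1 : (Set.univ : Set (Fin n)) = insert i O := by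
    ext x; simp only [Set.mem_univ, Set.mem_insert_iff, true_iff]; exact hall x
  have h2 := congrArg Set.ncard h1
  rw [Set.ncard_univ, Nat.card_fin, Set.ncard_insert_of_notMem hiO (Set.toFinite _)] at h2
  rw [h2, ← hm]
  rfl

end Cfsg.Agent.S2963
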