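import Cfsg.Statements.S3006
import Cfsg.Agent.H7.ChD

set_option autoImplicit false
open scoped Pointwise
open Cfsg

namespace Cfsg.Agent.S3006

/-- Let P be a finite p-group, Q a centrally large subgroup of P (|Q|·|Z(Q)| maximal among subgroups of P) and A an abelian subgroup of P of largest order. Then QA = AQ is a centrally large subgroup of P, C_{QA}(Q ∩ A) = Z(Q)·A, and the subgroup generated by all centrally large subgroups of P contains C_P(Z(J(P))), where J(P) is generated by the abelian subgroups of largest order. -/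
theorem result {p : ℕ} [Fact p.Prime] (P : Type*) [Group P] [Finite P] (hP : IsPGroup p P) (Q A : Subgroup P) (hQ : Cfsg.IsCentrallyLarge Q) (hA : A ∈ Cfsg.maxAbelianSubgroups P) : ((Q ⊔ A : Subgroup P) : Set P) = (Q : Set P) * (A : Set P) ∧ Cfsg.IsCentrallyLarge (Q ⊔ A) ∧ (Q ⊔ A) ⊓ Subgroup.centralizer ((Q ⊓ A : Subgroup P) : Set P) = (Q ⊓ Subgroup.centralizer (Q : Set P)) ⊔ A ∧ (((Q ⊓ Subgroup.centralizer (Q : Set P)) ⊔ A : Subgroup P) : Set P) = ((Q ⊓ Subgroup.centralizer (Q : Set P)) : Set P) * (A : Set P) ∧ Subgroup.centralizer ((Cfsg.thompsonSubgroupA P ⊓ Subgroup.centralizer (Cfsg.thompsonSubgroupA P : Set P) : Subgroup P) : Set P) ≤ Cfsg.centrallyLargeJoin P := by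
  unfold Cfsg.centrallyLargeJoin
  rw [CfsgH7.isCentrallyLarge_iff] at hQ
  rw [CfsgH7.mem_maxAbelian_iff] at hA
  simp only [CfsgH7.isCentrallyLarge_iff]
  obtain ⟨h1, h2, h3⟩ := hQ.sup_MA hA
  refine ⟨h1, h2, (hQ.cent_inf_MA hA).1, (hQ.cent_inf_MA hA).2, ?_⟩
  rw [CfsgH7.thompsonSubgroupA_eq]
  exact hQ.cent_cent_JA.trans (le_sSup (CfsgH7.CL.sup_JA hQ))

end Cfsg.Agent.S3006
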