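import Mathlib
import Cfsg.Agent.H7.Syl
import Cfsg.Statements.S3059

set_option autoImplicit false
open Cfsg

namespace Cfsg.Agent.S3059

/-- Let p be a prime and H a strongly p-embedded subgroup of the finite group G in the classical sense: H is proper, p divides the order of H, and H ∩ gHg⁻¹ has order prime to p for every g outside H. Then for every normal subgroup N of G of order divisible by p, G = H · O^p(N), where O^p(N) is the subgroup generated by the elements of N of order prime to p. -/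
theorem result {G : Type*} [Group G] [Finite G]
    (p : ℕ) [Fact p.Prime] (H : Subgroup G) (hH : H ≠ ⊤) (hpH : p ∣ Nat.card H)
    (hse : ∀ g : G, g ∉ H → ¬ p ∣ Nat.card ↥(H ⊓ H.map (MulAut.conj g).toMonoidHom))
    (N : Subgroup G) [N.Normal] (hN : p ∣ Nat.card N) :
    H ⊔ Subgroup.closure {g : G | g ∈ N ∧ (orderOf g).Coprime p} = ⊤ := by
  classical
  have key : ∀ Q : Subgroup G, Q ≤ H → p ∣ Nat.card Q → Subgroup.normalizer (Q : Set G) ≤ H := by
    intro Q hQ hp g hg
    by_contra hgH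
    apply hse g hgH
    refine hp.trans (Subgroup.card_dvd_of_le (le_inf hQ ?_))
    have h1 : CfsgH7.cj g Q = Q := CfsgH7.cj_of_mem_normalizer hg
    have h2 := CfsgH7.cj_mono (g := g) hQ
    rw [h1] at h2
    exact h2
  obtain ⟨T, hT⟩ := CfsgH7.exists_isSyl p H
  have hcardT : p ∣ Nat.card T := by
    have h1 : Nat.card T * T.relIndex H = Nat.card H := by
      have h0 := Subgroup.relIndex_mul_relIndex ⊥ T H bot_le hT.le
      rwa [Subgroup.relIndex_bot_left, Subgroup.relIndex_bot_left] at h0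
    rw [← h1] at hpH
    exact ((Fact.out : p.Prime).dvd_mul.1 hpH).resolve_right hT.not_dvd
  obtain ⟨S, hTS, hS⟩ := CfsgH7.exists_isSyl_ge hT.isPGroup (le_top : T ≤ ⊤)
  have hTS' : T = S := by
    by_contra hne
    have h1 := CfsgH7.lt_inf_normalizer hS.isPGroup (lt_of_le_of_ne hTS hne)
    have h2 : S ⊓ Subgroup.normalizer (T : Set G) ≤ H := inf_le_right.trans (key T hT.le hcardT)
    have h3 := hT.eq_of_le (hS.isPGroup.to_le inf_le_left) h1.le h2
    exact h1.ne' h3
  subst hTS'
  have hTN : CfsgH7.IsSyl p (T ⊓ N) N := hS.inf le_top (by rw [Subgroup.normalizer_eq_top])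
  have hcardTN : p ∣ Nat.card ↥(T ⊓ N) := by
    have h1 : Nat.card ↥(T ⊓ N) * (T ⊓ N).relIndex N = Nat.card N := by
      have h0 := Subgroup.relIndex_mul_relIndex ⊥ (T ⊓ N) N bot_le hTN.le
      rwa [Subgroup.relIndex_bot_left, Subgroup.relIndex_bot_left] at h0
    rw [← h1] at hN
    exact ((Fact.out : p.Prime).dvd_mul.1 hN).resolve_right hTN.not_dvd
  have hNH := key (T ⊓ N) (inf_le_left.trans hT.le) hcardTN
  set K := Subgroup.closure {g : G | g ∈ N ∧ (orderOf g).Coprime p} with hK
  have hKN : N ≤ K ⊔ (T ⊓ N) := by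
    rw [← Subgroup.relIndex_eq_one]
    by_contra hne
    obtain ⟨q, hq, hqd⟩ := Nat.exists_prime_and_dvd hne
    haveI : Fact q.Prime := ⟨hq⟩
    by_cases hqp : q = p
    · subst hqp
      exact hTN.not_dvd (hqd.trans (Subgroup.relIndex_dvd_of_le_left _ le_sup_right))
    · obtain ⟨Q, hQ⟩ := CfsgH7.exists_isSyl q N
      have h1 : Q ≤ K := by
        intro x hx
        apply Subgroup.subset_closure
        refine ⟨hQ.le hx, ?_⟩
        obtain ⟨k, hk⟩ := hQ.isPGroup ⟨x, hx⟩
        have hk' : x ^ q ^ k = 1 := by simpa using congrArg Subtype.val hk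
        exact Nat.Coprime.coprime_dvd_left (orderOf_dvd_of_pow_eq_one hk') (((Nat.coprime_primes hq Fact.out).2 hqp).pow_left k)
      exact hQ.not_dvd (hqd.trans (Subgroup.relIndex_dvd_of_le_left _ (h1.trans le_sup_left)))
  rw [eq_top_iff]
  intro x _
  obtain ⟨n, hn, y, hy, rfl⟩ := hTN.frattini le_top (by rw [Subgroup.normalizer_eq_top]) (Subgroup.mem_top x)
  have h1 : n ∈ H ⊔ K := by
    have h2 : K ⊔ (T ⊓ N) ≤ H ⊔ K := sup_le le_sup_right ((inf_le_left.trans hT.le).trans le_sup_left)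
    exact h2 (hKN hn)
  exact (H ⊔ K).mul_mem h1 ((le_sup_left : H ≤ H ⊔ K) (hNH hy.2))

end Cfsg.Agent.S3059
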