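import Cfsg.Statements.S3062
import Cfsg.Agent.H7.DStar

set_option autoImplicit false
open Cfsg

namespace Cfsg.Agent.S3062

/-- Let S be a finite p-group, J(S) the subgroup generated by the abelian subgroups of S of largest order and Z(J(S)) its centre. Then Z(S) ≤ D*(S) ≤ Z(J(S)), and every maximal normal abelian subgroup of S contains D*(S). -/
theorem result {S : Type*} [Group S] [Finite S] {p : ℕ} [Fact p.Prime]
    (hS : IsPGroup p S) :
    Subgroup.center S ≤ Cfsg.dStar S ∧
    Cfsg.dStar S ≤ Cfsg.thompsonSubgroupA S ⊓ Subgroup.centralizer (Cfsg.thompsonSubgroupA S : Set S) ∧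
    ∀ A : Subgroup S, A.Normal → IsMulCommutative A →
      (∀ B : Subgroup S, B.Normal → IsMulCommutative B → A ≤ B → B = A) → Cfsg.dStar S ≤ A := by
  refine ⟨CfsgH7.center_le_dStar S, ?_, ?_⟩
  · unfold Cfsg.thompsonSubgroupA
    rw [CfsgH7.maxAb_eq, CfsgH7.zjA_eq']
    exact CfsgH7.dStar_le_zF hS
  · intro A hA hAc hAm
    refine sSup_le fun D hD => ?_
    exact CfsgH7.dfam_le_max hS hD hA (CfsgH7.isMulComm_iff.mp hAc)
      (fun B hB hBc hAB => hAm B hB (CfsgH7.isMulComm_iff.mpr hBc) hAB)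

end Cfsg.Agent.S3062
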