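import Cfsg.Statements.S3078
import Cfsg.Agent.H7.ReplRank

set_option autoImplicit false
open Cfsg

namespace Cfsg.Agent.S3078

open scoped commutatorElement

/-- A replacement Theorem for abelian subgroups of p-groups, p odd. Let G be a finite p-group with p odd, A an abelian subgroup of G, and B a subgroup of nilpotency class at most 2 with [B, B] ≤ A, such that A normalizes B but B does not normalize A. Then there is an abelian subgroup A* of G of the same order as A with A ∩ B strictly contained in A* ∩ B, A* contained in N_G(A) and in the normal closure of A, the exponent of A* dividing the exponent of A, and with the subgroup generated by the elements of order dividing p in A of order at most that of the corresponding subgroup of A* (the rank of A is at most the rank of A*). -/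
theorem result {G : Type*} [Group G] [Finite G] {p : ℕ} [Fact p.Prime] (hp : p ≠ 2) (hG : IsPGroup p G) (A B : Subgroup G) (hA : IsMulCommutative A) (hB2 : ⁅⁅B, B⁆, B⁆ = ⊥) (hBA : ⁅B, B⁆ ≤ A) (hAB : A ≤ Subgroup.normalizer (B : Set G)) (hBnA : ¬ B ≤ Subgroup.normalizer (A : Set G)) : ∃ Astar : Subgroup G, IsMulCommutative Astar ∧ Nat.card Astar = Nat.card A ∧ A ⊓ B < Astar ⊓ B ∧ Astar ≤ Subgroup.normalizer (A : Set G) ∧ Astar ≤ Subgroup.normalClosure (A : Set G) ∧ Monoid.exponent Astar ∣ Monoid.exponent A ∧ Nat.card (Cfsg.omegaOne p A) ≤ Nat.card (Cfsg.omegaOne p Astar) := by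
  have hT : IsPGroup p ↥(A ⊔ B) := hG.to_subgroup _
  have hPB : A ⊔ B ≤ Subgroup.normalizer (B : Set G) := sup_le hAB Subgroup.le_normalizer
  obtain ⟨x, h1, h2, h3⟩ := CfsgH7.exists_repl_elt (P := A ⊔ B) (A := A) (B := B) hT le_sup_right hPB hBnA
  have hdata : CfsgH7.ReplData A B x :=
    CfsgH7.exists_replData hT (Or.inl hp) le_sup_left le_sup_right hPB (CfsgH7.isMulComm_iff.mp hA) hBA h1 h2
  have hodd : Odd (Monoid.exponent ↥A) := by
    have h1 : IsPGroup p ↥A := hG.to_subgroup A
    obtain ⟨n, hn⟩ := IsPGroup.iff_card.mp h1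
    have h2 : Monoid.exponent ↥A ∣ p ^ n := by rw [← hn]; exact Group.exponent_dvd_nat_card
    exact Odd.of_dvd_nat ((‹Fact p.Prime›.out.odd_of_ne_two hp).pow) h2
  refine ⟨CfsgH7.aStar A x, CfsgH7.isMulComm_iff.mpr hdata.aStar_comm, hdata.card_eq, hdata.inf_lt h3, hdata.aStar_le_normalizer,
    ?_, ?_, hdata.rank (‹Fact p.Prime›.out.odd_of_ne_two hp)⟩
  · refine hdata.aStar_le.trans (sup_le Subgroup.le_normalClosure ?_)
    rintro _ ⟨a, ha, rfl⟩
    exact (inferInstance : (Subgroup.normalClosure (A : Set G)).Normal).conj_mem _ (Subgroup.subset_normalClosure ha) x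
  · apply Monoid.exponent_dvd_of_forall_pow_eq_one
    rintro ⟨g, hg⟩
    apply Subtype.ext
    exact hdata.aStar_pow hodd (fun a ha => congrArg Subtype.val (Monoid.pow_exponent_eq_one (⟨a, ha⟩ : ↥A))) g hg

end Cfsg.Agent.S3078
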