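import Mathlib
import Cfsg.Statements.S3155

set_option autoImplicit false
open Cfsg

namespace Cfsg.Agent.S3155

/-- Let B be the direct product of three cyclic groups of order 4. Then the automorphism of B inverting every element is not the square of any automorphism of B. -/
theorem result {B : Type*} [CommGroup B] [Finite B] (hB : Nonempty (B ≃* Multiplicative (ZMod 4 × ZMod 4 × ZMod 4)))
    (τ : B ≃* B) : τ.trans τ ≠ MulEquiv.inv B := by
  intro hτ
  obtain ⟨e⟩ := hB
  have hτ2 : ∀ b : B, τ (τ b) = b⁻¹ := fun b => DFunLike.congr_fun hτ b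
  let f : (ZMod 4 × ZMod 4 × ZMod 4) →+ (ZMod 4 × ZMod 4 × ZMod 4) :=
    { toFun := fun v => Multiplicative.toAdd (e (τ (e.symm (Multiplicative.ofAdd v))))
      map_zero' := by simp
      map_add' := fun a b => by simp [ofAdd_add] }
  have hf : ∀ v, f (f v) = -v := by
    intro v
    change Multiplicative.toAdd (e (τ (e.symm (Multiplicative.ofAdd (Multiplicative.toAdd (e (τ (e.symm (Multiplicative.ofAdd v))))))))) = -v
    rw [ofAdd_toAdd, MulEquiv.symm_apply_apply, hτ2, map_inv, MulEquiv.apply_symm_apply, toAdd_inv, toAdd_ofAdd]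
  let g : (ZMod 4 × ZMod 4 × ZMod 4) →ₗ[ZMod 4] (ZMod 4 × ZMod 4 × ZMod 4) := f.toZModLinearMap 4
  have hg : g ∘ₗ g = (-1 : ZMod 4) • LinearMap.id := by
    apply LinearMap.ext
    intro v
    change f (f v) = (-1 : ZMod 4) • v
    rw [hf, neg_smul, one_smul]
  have h1 := congrArg LinearMap.det hg
  rw [LinearMap.det_comp, LinearMap.det_smul, LinearMap.det_id, mul_one] at h1
  haveI : Fact (1 < 4) := ⟨by norm_num⟩
  haveI : Nontrivial (ZMod 4) := ZMod.nontrivial 4
  have h2 : Module.finrank (ZMod 4) (ZMod 4 × ZMod 4 × ZMod 4) = 3 := by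
    rw [Module.finrank_prod, Module.finrank_prod, Module.finrank_self]
  rw [h2] at h1
  have h3 : ∀ x : ZMod 4, x * x ≠ (-1) ^ 3 := by decide
  exact h3 _ h1

end Cfsg.Agent.S3155
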