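import Cfsg.Statements.S3178
import Mathlib
import Cfsg.Agent.H3.QDFus
import Cfsg.Agent.H3.Fusion

set_option autoImplicit false
open Cfsg

namespace Cfsg.Agent.S3178

/-- Groups with a modular Sylow 2-subgroup have a normal 2-complement. Let S, of order 2^(n+1) with n ≥ 3, be a Sylow 2-subgroup of a finite group G, and suppose S contains an element a of order 2^n and an involution b with b a b⁻¹ = a^(2^(n-1) + 1); so S is the non-abelian 2-group with a cyclic subgroup of index 2 that is neither dihedral, semidihedral nor generalized quaternion. Then G has a normal 2-complement. -/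
theorem result {G : Type*} [Group G] [Finite G]
    (S : Sylow 2 G) (n : ℕ) (hn : 3 ≤ n) (hS : Nat.card ↥(S : Subgroup G) = 2 ^ (n + 1))
    (a b : G) (ha : a ∈ (S : Subgroup G)) (hb : b ∈ (S : Subgroup G))
    (hao : orderOf a = 2 ^ n) (hbo : orderOf b = 2) (hrel : b * a * b⁻¹ = a ^ (2 ^ (n - 1) + 1)) :
    Cfsg.HasNormalPComplement 2 G := by
  classical
  haveI : Fact (Nat.Prime 2) := ⟨Nat.prime_two⟩
  obtain ⟨m, rfl⟩ := Nat.exists_eq_add_of_le' hn
  have e1 : m + 3 - 1 = m + 2 := rfl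
  rw [e1] at hrel
  rw [CfsgH3.hasNPC_iff]
  obtain ⟨z, hz⟩ : ∃ z, z = a ^ (2 ^ (m + 2)) := ⟨_, rfl⟩
  have haa : a ^ (2 ^ (m + 3)) = 1 := by rw [← hao, pow_orderOf_eq_one]
  have hzz : z * z = 1 := by
    rw [hz, ← pow_add, ← two_mul, ← pow_succ']; exact haa
  have hz1 : z ≠ 1 := by
    rw [hz]
    intro h
    have h1 := orderOf_dvd_of_pow_eq_one h
    rw [hao] at h1
    have h2 := Nat.le_of_dvd (by positivity) h1
    have h3 : 2 ^ (m + 3) = 2 ^ (m + 2) * 2 := pow_succ _ _
    have h4 : 0 < 2 ^ (m + 2) := by positivity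
    omega
  have hbb : b * b = 1 := by rw [← pow_two, ← hbo, pow_orderOf_eq_one]
  have hbi : b⁻¹ = b := inv_eq_of_mul_eq_one_right hbb
  have hb1 : b ≠ 1 := by rintro rfl; rw [orderOf_one] at hbo; omega
  have hconj : ∀ i : ℤ, b * a ^ i * b⁻¹ = a ^ i * z ^ i := by
    intro i
    rw [← conj_zpow, hrel, pow_succ, ← hz]
    have : Commute z a := by rw [hz]; exact (Commute.refl a).pow_left _
    rw [this.mul_zpow]
    exact (this.zpow_zpow i i).eq
  -- `⟨a⟩` has index 2
  have haS : Subgroup.zpowers a ≤ (S : Subgroup G) := by rw [Subgroup.zpowers_le]; exact ha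
  have hidx : (Subgroup.zpowers a).relIndex (S : Subgroup G) = 2 := by
    have h1 := Subgroup.relIndex_mul_relIndex ⊥ (Subgroup.zpowers a) (S : Subgroup G) bot_le haS
    rw [Subgroup.relIndex_bot_left, Subgroup.relIndex_bot_left, hS, Nat.card_zpowers, hao, pow_succ 2 (m + 3)] at h1
    exact Nat.eq_of_mul_eq_mul_left (by positivity) h1
  have hidx' : ((Subgroup.zpowers a).subgroupOf (S : Subgroup G)).index = 2 := hidx
  -- involutions in `⟨a⟩`
  have huniq : ∀ x ∈ Subgroup.zpowers a, x * x = 1 → x = 1 ∨ x = z := by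
    intro x hx hxx
    obtain ⟨k, rfl⟩ := Subgroup.mem_zpowers_iff.1 hx
    rw [← zpow_add] at hxx
    have h1 := orderOf_dvd_iff_zpow_eq_one.2 hxx
    rw [hao] at h1
    obtain ⟨j, hj⟩ := h1
    have h2 : k = 2 ^ (m + 2) * j := by
      push_cast at hj
      rw [pow_succ] at hj
      have : 2 * k = 2 * (2 ^ (m + 2) * j) := by rw [two_mul, hj]; ring
      exact mul_left_cancel₀ (by norm_num) this
    have h3 : a ^ k = z ^ j := by
      rw [h2, zpow_mul, hz]
      congr 1
      exact_mod_cast zpow_natCast a (2 ^ (m + 2))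
    rw [h3]
    rcases Int.even_or_odd' j with ⟨t, ht | ht⟩
    · left
      rw [ht, zpow_mul, zpow_two, hzz, one_zpow]
    · right
      rw [ht, zpow_add, zpow_mul, zpow_two, hzz, one_zpow, one_mul, zpow_one]
  have hsqm : ∀ s ∈ (S : Subgroup G), s * s ∈ Subgroup.zpowers a := by
    intro s hs
    have h1 := Subgroup.sq_mem_of_index_two hidx' ⟨s, hs⟩
    rw [pow_two] at h1
    exact h1
  have hzb : z ≠ b := by
    intro h
    have h1 := hconj 1
    rw [zpow_one, zpow_one, ← h] at h1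
    have : Commute z a := by rw [hz]; exact (Commute.refl a).pow_left _
    rw [this.eq, mul_inv_cancel_right] at h1
    exact hz1 (mul_eq_left.1 h1.symm)
  have hbz : b * z = z * b := by
    have h1 := hconj (2 ^ (m + 2))
    have h2 : a ^ ((2 : ℤ) ^ (m + 2)) = z := by
      rw [hz]; exact_mod_cast zpow_natCast a (2 ^ (m + 2))
    have h3 : z ^ ((2 : ℤ) ^ (m + 2)) = 1 := by
      rw [pow_succ, mul_comm, zpow_mul, zpow_two, hzz, one_zpow]
    rw [h2, h3, mul_one] at h1
    exact mul_inv_eq_iff_eq_mul.1 h1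
  have hbnot : b ∉ Subgroup.zpowers a := by
    intro h
    rcases huniq b h hbb with h1 | h1
    · exact hb1 h1
    · exact hzb h1.symm
  have hScent : (S : Subgroup G) ≤ Subgroup.centralizer ({z} : Set G) := by
    intro s hs
    rw [Subgroup.mem_centralizer_singleton_iff]
    have hza : ∀ x ∈ Subgroup.zpowers a, x * z = z * x := by
      intro x hx
      obtain ⟨k, rfl⟩ := Subgroup.mem_zpowers_iff.1 hx
      rw [hz]
      exact (((Commute.refl a).zpow_left k).pow_right _).eq
    by_cases h : s ∈ Subgroup.zpowers a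
    · exact hza s h
    · have h1 := (Subgroup.mul_mem_iff_of_index_two hidx' (a := ⟨s, hs⟩) (b := ⟨b, hb⟩)).2
        ⟨fun h2 => absurd h2 h, fun h2 => absurd h2 hbnot⟩
      have h2 := hza (s * b) h1
      have h3 : s * z * b = z * s * b := by
        rw [mul_assoc s z b, ← hbz, ← mul_assoc, h2, mul_assoc]
      exact mul_right_cancel h3
  -- `b` is not conjugate into `⟨a⟩`
  have hfus : ∀ g : G, g * b * g⁻¹ ∉ Subgroup.zpowers a := by
    intro g hg
    have hgz : g * b * g⁻¹ = z := by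
      rcases huniq _ hg (by
        have : g * b * g⁻¹ * (g * b * g⁻¹) = g * (b * b) * g⁻¹ := by group
        rw [this, hbb]; group) with h | h
      · exfalso
        apply hb1
        have : g⁻¹ * (g * b * g⁻¹) * g = b := by group
        rw [← this, h]; group
      · exact h
    obtain ⟨e, he⟩ : ∃ e, e = a ^ (2 ^ (m + 1)) := ⟨_, rfl⟩
    have hee : e * e = z := by rw [he, hz, ← pow_add, ← two_mul, ← pow_succ']
    have hbe : b * e = e * b := by
      have h1 := hconj (2 ^ (m + 1))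
      have h2 : a ^ ((2 : ℤ) ^ (m + 1)) = e := by
        rw [he]; exact_mod_cast zpow_natCast a (2 ^ (m + 1))
      have h3 : z ^ ((2 : ℤ) ^ (m + 1)) = 1 := by
        rw [pow_succ, mul_comm, zpow_mul, zpow_two, hzz, one_zpow]
      rw [h2, h3, mul_one] at h1
      exact mul_inv_eq_iff_eq_mul.1 h1
    have hxC : g * e * g⁻¹ ∈ Subgroup.centralizer ({z} : Set G) := by
      rw [Subgroup.mem_centralizer_singleton_iff, ← hgz]
      calc g * e * g⁻¹ * (g * b * g⁻¹) = g * (e * b) * g⁻¹ := by group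
        _ = g * (b * e) * g⁻¹ := by rw [hbe]
        _ = g * b * g⁻¹ * (g * e * g⁻¹) := by group
    have hxp : IsPGroup 2 ↥(Subgroup.zpowers (⟨g * e * g⁻¹, hxC⟩ : ↥(Subgroup.centralizer ({z} : Set G)))) := by
      have h1 : (⟨g * e * g⁻¹, hxC⟩ : ↥(Subgroup.centralizer ({z} : Set G))) ^ (2 ^ 2) = 1 := by
        apply Subtype.ext
        change (g * e * g⁻¹) ^ (2 ^ 2) = 1
        rw [conj_pow]
        have : e ^ (2 ^ 2) = 1 := by
          rw [show (2 : ℕ) ^ 2 = 2 * 2 from rfl, pow_mul, pow_two e, hee, pow_two, hzz]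
        rw [this]; group
      obtain ⟨k, -, hk⟩ := (Nat.dvd_prime_pow Nat.prime_two).1 (orderOf_dvd_of_pow_eq_one h1)
      exact IsPGroup.of_card (n := k) (by rw [Nat.card_zpowers, hk])
    obtain ⟨Q, hQ⟩ := hxp.exists_le_sylow
    obtain ⟨c, hc⟩ := MulAction.exists_smul_eq ↥(Subgroup.centralizer ({z} : Set G)) Q (S.subtype hScent)
    have h1 : c * ⟨g * e * g⁻¹, hxC⟩ * c⁻¹ ∈ ((S.subtype hScent : Sylow 2 _) : Subgroup ↥(Subgroup.centralizer ({z} : Set G))) := by
      rw [← hc]
      exact ⟨_, hQ (Subgroup.mem_zpowers _), rfl⟩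
    have h2 : (c : G) * (g * e * g⁻¹) * (c : G)⁻¹ ∈ (S : Subgroup G) := h1
    have h3 := hsqm _ h2
    have hcz := Subgroup.mem_centralizer_singleton_iff.1 c.2
    have h4 : (c : G) * (g * e * g⁻¹) * (c : G)⁻¹ * ((c : G) * (g * e * g⁻¹) * (c : G)⁻¹) = (c : G) * (g * z * g⁻¹) * (c : G)⁻¹ := by
      have : (c : G) * (g * e * g⁻¹) * (c : G)⁻¹ * ((c : G) * (g * e * g⁻¹) * (c : G)⁻¹) = (c : G) * (g * (e * e) * g⁻¹) * (c : G)⁻¹ := by group
      rw [this, hee]
    rw [h4] at h3
    have h5 : (c : G) * (g * z * g⁻¹) * (c : G)⁻¹ = z := by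
      rcases huniq _ h3 (by
        have : (c : G) * (g * z * g⁻¹) * (c : G)⁻¹ * ((c : G) * (g * z * g⁻¹) * (c : G)⁻¹) = (c : G) * (g * (z * z) * g⁻¹) * (c : G)⁻¹ := by group
        rw [this, hzz]; group) with h | h
      · exfalso
        apply hz1
        have : ((c : G) * g)⁻¹ * ((c : G) * (g * z * g⁻¹) * (c : G)⁻¹) * ((c : G) * g) = z := by group
        rw [← this, h]; group
      · exact h
    have h6 : (c : G) * (g * b * g⁻¹) * (c : G)⁻¹ = z := by rw [hgz, hcz, mul_inv_cancel_right]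
    apply hzb
    have h7 := h5.trans h6.symm
    have h8 : ((c : G) * g) * z * ((c : G) * g)⁻¹ = ((c : G) * g) * b * ((c : G) * g)⁻¹ := by
      have x1 : ((c : G) * g) * z * ((c : G) * g)⁻¹ = (c : G) * (g * z * g⁻¹) * (c : G)⁻¹ := by group
      have x2 : ((c : G) * g) * b * ((c : G) * g)⁻¹ = (c : G) * (g * b * g⁻¹) * (c : G)⁻¹ := by group
      rw [x1, x2, h7]
    exact mul_left_cancel (mul_right_cancel h8)
  obtain ⟨M, hMn, hM2, hbM⟩ := CfsgH3.thompson_transfer_invol S (Subgroup.zpowers a) hidx b hbo hb hfus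
  -- the Sylow subgroup of `M` is cyclic
  have hres : Cfsg.pResidual 2 G ≤ M :=
    CfsgH3.pResidual_le M (IsPGroup.of_card (n := 1) (by rw [← Subgroup.index_eq_card, hM2, pow_one]))
  refine CfsgH3.HasNPC.of_le_pResidual hres ?_
  obtain ⟨Q, hQ⟩ := CfsgH3.exists_sylow_inf_normal S M
  refine CfsgH3.hasNPC_of_isCyclic Q ?_
  have hQc : Nat.card ↥(Q : Subgroup ↥M) = 2 ^ (m + 3) := by
    rw [hQ]
    have h1 : Nat.card ↥((S : Subgroup G).subgroupOf M) = Nat.card ↥(M.subgroupOf (S : Subgroup G)) := by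
      have x1 := Subgroup.card_map_of_injective (K := (S : Subgroup G).subgroupOf M) M.subtype_injective
      have x2 := Subgroup.card_map_of_injective (K := M.subgroupOf (S : Subgroup G)) (S : Subgroup G).subtype_injective
      rw [Subgroup.subgroupOf_map_subtype] at x1 x2
      rw [← x1, ← x2, inf_comm]
    rw [h1]
    have h2 := Subgroup.card_mul_index (M.subgroupOf (S : Subgroup G))
    have h3 : (M.subgroupOf (S : Subgroup G)).index = 2 := by
      have h4 : M.relIndex (S : Subgroup G) ∣ M.index := Subgroup.relIndex_dvd_index_of_normal M _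
      rw [hM2, Nat.dvd_prime Nat.prime_two] at h4
      rcases h4 with h4 | h4
      · exfalso
        rw [Subgroup.relIndex_eq_one] at h4
        exact hbM (h4 hb)
      · exact h4
    rw [h3, hS, pow_succ 2 (m + 3)] at h2
    omega
  -- a generator
  obtain ⟨x, hxS, hxM, hxo⟩ : ∃ x : G, x ∈ (S : Subgroup G) ∧ x ∈ M ∧ orderOf x = 2 ^ (m + 3) := by
    by_cases haM : a ∈ M
    · exact ⟨a, ha, haM, hao⟩
    · refine ⟨a * b, mul_mem ha hb, (Subgroup.mul_mem_iff_of_index_two hM2).2 ⟨fun h => absurd h haM, fun h => absurd h hbM⟩, ?_⟩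
      have h1 : (a * b) ^ 2 = a ^ 2 * z := by
        have h2 := hconj 1
        rw [zpow_one, zpow_one, hbi] at h2
        calc (a * b) ^ 2 = a * (b * a * b) := by rw [pow_two]; simp only [mul_assoc]
          _ = a ^ 2 * z := by rw [h2, pow_two, mul_assoc]
      have hcza : Commute (a ^ 2) z := by rw [hz]; exact ((Commute.refl a).pow_left 2).pow_right _
      have h2 : (a * b) ^ (2 ^ (m + 2)) = z := by
        have h3 : 2 ^ (m + 2) = 2 * 2 ^ (m + 1) := by rw [pow_succ]; ring
        rw [h3, pow_mul, h1, hcza.mul_pow, ← pow_mul, ← h3, ← hz, pow_succ 2 m, mul_comm (2 ^ m) 2, pow_mul z, pow_two z, hzz, one_pow, mul_one]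
      apply orderOf_eq_prime_pow
      · rw [h2]; exact hz1
      · rw [pow_succ 2 (m + 2), pow_mul, h2, pow_two, hzz]
  refine isCyclic_of_orderOf_eq_card (⟨⟨x, hxM⟩, by rw [hQ]; exact hxS⟩ : ↥(Q : Subgroup ↥M)) ?_
  rw [hQc, Subgroup.orderOf_mk, Subgroup.orderOf_mk, hxo]

end Cfsg.Agent.S3178
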