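import Cfsg.Statements.S3180
import Mathlib

set_option autoImplicit false
open Cfsg

namespace Cfsg.Agent.S3180

/-- Let P be a Sylow p-subgroup of a finite group J and P₁ a subgroup of P that is weakly closed in P with respect to J. If J acts on a set and two points, each fixed by every element of P₁, lie in one J-orbit, then they lie in one orbit of the normalizer of P₁ in J. -/
theorem result {J : Type*} [Group J] [Finite J]
    {p : ℕ} [Fact p.Prime] (P : Sylow p J) (P₁ : Subgroup J) (hW : Cfsg.IsWeaklyClosed P₁ (P : Subgroup J))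
    {Ω : Type*} [MulAction J Ω] (x y : Ω) (hx : ∀ g ∈ P₁, g • x = x) (hy : ∀ g ∈ P₁, g • y = y)
    (hc : ∃ g : J, g • x = y) :
    ∃ g ∈ Subgroup.normalizer (P₁ : Set J), g • x = y := by
  classical
  obtain ⟨g, hg⟩ := hc
  obtain ⟨hPP, hW⟩ := hW
  -- weakly closed in every Sylow subgroup containing it
  have hP1p : IsPGroup p ↥P₁ := P.isPGroup'.to_le hPP
  have hmem : ∀ (A : Subgroup J) (t u : J), u ∈ A.map (MulAut.conj t).toMonoidHom ↔ t⁻¹ * u * t ∈ A := by
    intro A t u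
    constructor
    · rintro ⟨a, ha, rfl⟩
      have : t⁻¹ * (MulAut.conj t).toMonoidHom a * t = a := by
        change t⁻¹ * (t * a * t⁻¹) * t = a
        group
      rw [this]; exact ha
    · intro h
      refine ⟨_, h, ?_⟩
      change t * (t⁻¹ * u * t) * t⁻¹ = u
      group
  have hall : ∀ (P' : Sylow p J), P₁ ≤ P' → ∀ t : J, P₁.map (MulAut.conj t).toMonoidHom ≤ P' →
      P₁.map (MulAut.conj t).toMonoidHom = P₁ := by
    intro P' hP' t ht
    obtain ⟨h, hh⟩ := MulAction.exists_smul_eq J P P'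
    have hP'eq : (P' : Subgroup J) = (P : Subgroup J).map (MulAut.conj h).toMonoidHom := by
      rw [← hh]; rfl
    have hinP : ∀ s : J, P₁.map (MulAut.conj s).toMonoidHom ≤ P' →
        P₁.map (MulAut.conj (h⁻¹ * s)).toMonoidHom = P₁ := by
      intro s hs
      apply hW
      intro u hu
      rw [hmem] at hu
      have h1 : h * u * h⁻¹ ∈ P₁.map (MulAut.conj s).toMonoidHom := by
        rw [hmem]
        have : s⁻¹ * (h * u * h⁻¹) * s = (h⁻¹ * s)⁻¹ * u * (h⁻¹ * s) := by group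
        rw [this]; exact hu
      have h2 := hs h1
      rw [hP'eq, hmem] at h2
      have : h⁻¹ * (h * u * h⁻¹) * h = u := by group
      rw [this] at h2; exact h2
    have e1 := hinP 1 (by
      intro u hu
      rw [hmem] at hu
      have : (1 : J)⁻¹ * u * 1 = u := by group
      rw [this] at hu
      exact hP' hu)
    have e2 := hinP t ht
    ext u
    rw [hmem]
    -- u ∈ t P₁ t⁻¹ iff h⁻¹ u h ∈ P₁ iff u ∈ P₁
    have k1 : h⁻¹ * u * h ∈ P₁.map (MulAut.conj (h⁻¹ * t)).toMonoidHom ↔ t⁻¹ * u * t ∈ P₁ := by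
      rw [hmem]
      have : (h⁻¹ * t)⁻¹ * (h⁻¹ * u * h) * (h⁻¹ * t) = t⁻¹ * u * t := by group
      rw [this]
    have k2 : h⁻¹ * u * h ∈ P₁.map (MulAut.conj (h⁻¹ * 1)).toMonoidHom ↔ u ∈ P₁ := by
      rw [hmem]
      have : (h⁻¹ * 1)⁻¹ * (h⁻¹ * u * h) * (h⁻¹ * 1) = u := by group
      rw [this]
    rw [← k1, e2, ← k2, e1]
  -- the stabilizer of `y`
  set K := MulAction.stabilizer J y with hK
  have h1K : P₁ ≤ K := fun a ha => hy a ha
  have h2K : P₁.map (MulAut.conj g).toMonoidHom ≤ K := by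
    intro u hu
    rw [hmem] at hu
    have h3 := hx _ hu
    change u • y = y
    rw [← hg]
    have : u • g • x = g • ((g⁻¹ * u * g) • x) := by
      rw [smul_smul, smul_smul]; congr 1; group
    rw [this, h3]
  obtain ⟨Q1, hQ1⟩ := (hP1p.of_equiv (Subgroup.subgroupOfEquivOfLe h1K).symm).exists_le_sylow
  have h2p : IsPGroup p ↥((P₁.map (MulAut.conj g).toMonoidHom).subgroupOf K) :=
    (hP1p.map (MulAut.conj g).toMonoidHom).of_equiv (Subgroup.subgroupOfEquivOfLe h2K).symm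
  obtain ⟨Q2, hQ2⟩ := h2p.exists_le_sylow
  obtain ⟨k, hk⟩ := MulAction.exists_smul_eq ↥K Q2 Q1
  have hQ1p : IsPGroup p ↥((Q1 : Subgroup ↥K).map K.subtype) := Q1.isPGroup'.map _
  obtain ⟨P', hP'⟩ := hQ1p.exists_le_sylow
  have hP1P' : P₁ ≤ P' := by
    intro a ha
    apply hP'
    exact ⟨⟨a, h1K ha⟩, hQ1 (show (⟨a, h1K ha⟩ : ↥K) ∈ P₁.subgroupOf K from ha), rfl⟩
  have hkg : P₁.map (MulAut.conj ((k : J) * g)).toMonoidHom ≤ P' := by
    intro a ha
    rw [hmem] at ha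
    have ha2 : (k : J)⁻¹ * a * k ∈ P₁.map (MulAut.conj g).toMonoidHom := by
      rw [hmem]
      have : g⁻¹ * ((k : J)⁻¹ * a * k) * g = ((k : J) * g)⁻¹ * a * ((k : J) * g) := by group
      rw [this]; exact ha
    have ha3 := h2K ha2
    have ha4 : (⟨(k : J)⁻¹ * a * k, ha3⟩ : ↥K) ∈ (Q2 : Subgroup ↥K) := hQ2 (show _ ∈ (P₁.map (MulAut.conj g).toMonoidHom).subgroupOf K from ha2)
    have haK : a ∈ K := by
      have := K.mul_mem (K.mul_mem k.2 ha3) (K.inv_mem k.2)
      have e : (k : J) * ((k : J)⁻¹ * a * k) * (k : J)⁻¹ = a := by group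
      rwa [e] at this
    apply hP'
    refine ⟨⟨a, haK⟩, ?_, rfl⟩
    rw [← hk]
    change (⟨a, haK⟩ : ↥K) ∈ (Q2 : Subgroup ↥K).map (MulAut.conj k).toMonoidHom
    refine ⟨_, ha4, ?_⟩
    apply Subtype.ext
    change (k : J) * ((k : J)⁻¹ * a * k) * (k : J)⁻¹ = a
    group
  have hfin := hall P' hP1P' _ hkg
  refine ⟨(k : J) * g, ?_, ?_⟩
  · rw [Subgroup.mem_normalizer_iff]
    intro u
    have h5 : u ∈ P₁ ↔ u ∈ P₁ := Iff.rfl
    have h6 : (k : J) * g * u * ((k : J) * g)⁻¹ ∈ P₁.map (MulAut.conj ((k : J) * g)).toMonoidHom ↔ u ∈ P₁ := by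
      rw [hmem]
      have : ((k : J) * g)⁻¹ * ((k : J) * g * u * ((k : J) * g)⁻¹) * ((k : J) * g) = u := by group
      rw [this]
    rw [hfin] at h6
    exact h6.symm
  · rw [mul_smul, hg]
    exact k.2

end Cfsg.Agent.S3180
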