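import Mathlib
import Cfsg.Agent.H3.Iso
import Cfsg.Agent.H3.AlpFus
import Cfsg.Agent.H3.FitHall
import Cfsg.Agent.H1.Syl
import Cfsg.Statements.S3184

set_option autoImplicit false
open Cfsg

namespace Cfsg.Agent.S3184

open scoped Pointwise

theorem char_fix {G : Type*} [Group G] [Finite G] (S : Sylow 2 G) (C : Subgroup ↥(S : Subgroup G)) (hCc : IsCyclic ↥C) (hCh : C.Characteristic)
    (c : ↥(S : Subgroup G)) (hc : c ∈ C) (hc2 : orderOf c = 2) {n : G} (hn : MulAut.conj n • (S : Subgroup G) = (S : Subgroup G)) :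
    n * (c : G) * n⁻¹ = c := by
  have hmem : ∀ x : G, x ∈ (S : Subgroup G) → n * x * n⁻¹ ∈ (S : Subgroup G) := by
    intro x hx
    have h1 : n * x * n⁻¹ ∈ MulAut.conj n • (S : Subgroup G) := by
      rw [CfsgH1.mem_conj_smul]
      have : n⁻¹ * (n * x * n⁻¹) * n = x := by group
      rw [this]; exact hx
    rwa [hn] at h1
  let f : ↥(S : Subgroup G) →* ↥(S : Subgroup G) :=
    { toFun := fun x => ⟨n * x * n⁻¹, hmem x x.2⟩
      map_one' := by ext; simp
      map_mul' := by intro x y; ext; simp }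
  have hinj : Function.Injective f := by
    intro x y hxy
    have h1 : n * (x : G) * n⁻¹ = n * (y : G) * n⁻¹ := congrArg Subtype.val hxy
    exact Subtype.ext (by simpa using h1)
  let e : ↥(S : Subgroup G) ≃* ↥(S : Subgroup G) := MulEquiv.ofBijective f (Finite.injective_iff_bijective.1 hinj)
  have h2 : C.map e.toMonoidHom = C := (Subgroup.characteristic_iff_map_eq.1 hCh) e
  have h3 : e c ∈ C := by
    have : e c ∈ C.map e.toMonoidHom := Subgroup.mem_map_of_mem _ hc
    rwa [h2] at this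
  have h4 : orderOf (e c) = 2 := by rw [MulEquiv.orderOf_eq, hc2]
  haveI := hCc
  have h5 : Subgroup.zpowers (⟨c, hc⟩ : ↥C) = Subgroup.zpowers (⟨e c, h3⟩ : ↥C) := by
    apply CfsgH3.cyclic_subgroup_eq
    rw [Nat.card_zpowers, Nat.card_zpowers]
    have e1 : orderOf (⟨c, hc⟩ : ↥C) = orderOf c := Subgroup.orderOf_mk c hc
    have e2 : orderOf (⟨e c, h3⟩ : ↥C) = orderOf (e c) := Subgroup.orderOf_mk (e c) h3
    rw [e1, e2, hc2, h4]
  have h6 : (⟨e c, h3⟩ : ↥C) ∈ Subgroup.zpowers (⟨c, hc⟩ : ↥C) := by rw [h5]; exact Subgroup.mem_zpowers _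
  rw [Subgroup.mem_zpowers_iff] at h6
  obtain ⟨k, hk⟩ := h6
  have hk' : c ^ k = e c := by
    have := congrArg Subtype.val hk
    simpa using this
  have hcc : c * c = 1 := by
    have := pow_orderOf_eq_one c
    rwa [hc2, pow_two] at this
  have h7 : e c = 1 ∨ e c = c := by
    rcases Int.even_or_odd' k with ⟨m, rfl | rfl⟩
    · left; rw [← hk', zpow_mul]
      have : c ^ (2 : ℤ) = 1 := by
        rw [show (2 : ℤ) = ((2 : ℕ) : ℤ) from rfl, zpow_natCast, pow_two, hcc]
      rw [this, one_zpow]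
    · right; rw [← hk', zpow_add, zpow_mul, zpow_one]
      have : c ^ (2 : ℤ) = 1 := by
        rw [show (2 : ℤ) = ((2 : ℕ) : ℤ) from rfl, zpow_natCast, pow_two, hcc]
      rw [this, one_zpow, one_mul]
  rcases h7 with h7 | h7
  · rw [h7, orderOf_one] at h4; omega
  · exact congrArg Subtype.val h7

theorem iso {G : Type*} [Group G] [Finite G]
    (hCI : ∀ S T : Sylow 2 G, S ≠ T → ∃ U : Sylow 2 G,
      (S : Subgroup G) ⊓ (T : Subgroup G) ≤ (Subgroup.center ↥(U : Subgroup G)).map (U : Subgroup G).subtype)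
    (S : Sylow 2 G) (C : Subgroup ↥(S : Subgroup G)) (hCc : IsCyclic ↥C) (hCh : C.Characteristic)
    (c : ↥(S : Subgroup G)) (hc : c ∈ C) (hc2 : orderOf c = 2) : Cfsg.IsIsolatedInvolution (c : G) := by
  have hN : ∀ {n : G}, MulAut.conj n • (S : Subgroup G) = (S : Subgroup G) → n * (c : G) * n⁻¹ = c :=
    fun hn => char_fix S C hCc hCh c hc hc2 hn
  have ho : orderOf (c : G) = 2 := by rw [Subgroup.orderOf_coe, hc2]
  refine ⟨ho, fun g hcom => ?_⟩
  set d : G := g * (c : G) * g⁻¹ with hd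
  have hod : orderOf d = 2 := by
    rw [← ho, hd]
    have : g * (c : G) * g⁻¹ = (MulAut.conj g) (c : G) := rfl
    rw [this, MulEquiv.orderOf_eq]
  have hcz : ∀ s ∈ (S : Subgroup G), s * (c : G) * s⁻¹ = c := by
    intro s hs
    apply hN
    exact CfsgH1.conj_smul_eq_self_iff.2 (Subgroup.le_normalizer hs)
  have hScc : (S : Subgroup G) ≤ Subgroup.centralizer ({(c : G)} : Set G) := by
    intro s hs
    rw [Subgroup.mem_centralizer_singleton_iff]
    have := hcz s hs
    exact mul_inv_eq_iff_eq_mul.1 this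
  have hSyl := CfsgH1.sylow_isSylowOf S
  have hS1 : CfsgH1.IsSylowOf 2 (S : Subgroup G) (Subgroup.centralizer ({(c : G)} : Set G)) :=
    CfsgH1.isSylowOf_of_le hSyl hScc le_top
  have hTd : MulAut.conj g • (S : Subgroup G) ≤ Subgroup.centralizer ({d} : Set G) := by
    intro s hs
    rw [CfsgH1.mem_conj_smul] at hs
    have h1 := hcz _ hs
    rw [Subgroup.mem_centralizer_singleton_iff]
    have h2 : s * d * s⁻¹ = d := by
      rw [hd]
      calc s * (g * (c : G) * g⁻¹) * s⁻¹ = g * ((g⁻¹ * s * g) * c * (g⁻¹ * s * g)⁻¹) * g⁻¹ := by group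
        _ = _ := by rw [h1]
    exact mul_inv_eq_iff_eq_mul.1 h2
  have hSg : CfsgH1.IsSylowOf 2 (MulAut.conj g • (S : Subgroup G)) (⊤ : Subgroup G) := by
    apply CfsgH1.isSylowOf_conj hSyl
    rw [Subgroup.normalizer_eq_top]; trivial
  have hT1 := CfsgH1.isSylowOf_of_le hSg hTd le_top
  have hpd : IsPGroup 2 (Subgroup.zpowers d) := IsPGroup.of_card (n := 1) (by rw [Nat.card_zpowers, hod]; rfl)
  have hpc : IsPGroup 2 (Subgroup.zpowers (c : G)) := IsPGroup.of_card (n := 1) (by rw [Nat.card_zpowers, ho]; rfl)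
  obtain ⟨k, hk, hkd⟩ := CfsgH3.exists_conj_le_sylowOf hS1 hpd (by
    rw [Subgroup.zpowers_le, Subgroup.mem_centralizer_singleton_iff]; exact hcom.symm.eq)
  obtain ⟨l, hl, hlc⟩ := CfsgH3.exists_conj_le_sylowOf hT1 hpc (by
    rw [Subgroup.zpowers_le, Subgroup.mem_centralizer_singleton_iff]; exact hcom.eq)
  rw [Subgroup.mem_centralizer_singleton_iff] at hk hl
  have hkd' : k * d * k⁻¹ ∈ (S : Subgroup G) := by
    apply hkd
    rw [CfsgH1.mem_conj_smul]
    have : k⁻¹ * (k * d * k⁻¹) * k = d := by group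
    rw [this]; exact Subgroup.mem_zpowers d
  have hlc' : l * (c : G) * l⁻¹ ∈ MulAut.conj g • (S : Subgroup G) := by
    apply hlc
    rw [CfsgH1.mem_conj_smul]
    have : l⁻¹ * (l * (c : G) * l⁻¹) * l = c := by group
    rw [this]; exact Subgroup.mem_zpowers _
  have hkc : k * (c : G) * k⁻¹ = c := by rw [hk]; group
  have hkc' : k⁻¹ * (c : G) * k = c := by
    have : k⁻¹ * (c : G) * k = k⁻¹ * ((c : G) * k) := by group
    rw [this, ← hk]; group
  have hld' : l * d * l⁻¹ = d := by rw [hl]; group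
  have hld2 : l⁻¹ * d * l = d := by
    have : l⁻¹ * d * l = l⁻¹ * (d * l) := by group
    rw [this, ← hl]; group
  -- the two Sylow subgroups
  have hcS1 : (c : G) ∈ ((k⁻¹ • S : Sylow 2 G) : Subgroup G) := by
    rw [Sylow.coe_subgroup_smul]
    rw [CfsgH1.mem_conj_smul, inv_inv, hkc]; exact c.2
  have hdS1 : d ∈ ((k⁻¹ • S : Sylow 2 G) : Subgroup G) := by
    rw [Sylow.coe_subgroup_smul]
    rw [CfsgH1.mem_conj_smul, inv_inv]; exact hkd'
  have hcT1 : (c : G) ∈ (((l⁻¹ * g) • S : Sylow 2 G) : Subgroup G) := by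
    rw [Sylow.coe_subgroup_smul]
    rw [CfsgH1.mem_conj_smul]
    rw [CfsgH1.mem_conj_smul] at hlc'
    have : (l⁻¹ * g)⁻¹ * (c : G) * (l⁻¹ * g) = g⁻¹ * (l * (c : G) * l⁻¹) * g := by group
    rw [this]; exact hlc'
  have hdT1 : d ∈ (((l⁻¹ * g) • S : Sylow 2 G) : Subgroup G) := by
    rw [Sylow.coe_subgroup_smul]
    rw [CfsgH1.mem_conj_smul]
    have : (l⁻¹ * g)⁻¹ * d * (l⁻¹ * g) = g⁻¹ * (l * d * l⁻¹) * g := by group
    rw [this, hld', hd]
    have : g⁻¹ * (g * (c : G) * g⁻¹) * g = c := by group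
    rw [this]; exact c.2
  by_cases hST : (k⁻¹ • S : Sylow 2 G) = (l⁻¹ * g) • S
  · have h1 : MulAut.conj (k * (l⁻¹ * g)) • (S : Subgroup G) = (S : Subgroup G) := by
      have h2 : ((k * (l⁻¹ * g)) • S : Sylow 2 G) = S := by
        rw [mul_smul, ← hST, smul_inv_smul]
      have := congrArg (fun X : Sylow 2 G => (X : Subgroup G)) h2
      simpa only [Sylow.coe_subgroup_smul] using this
    have h3 := hN h1
    have h4 : k * (l⁻¹ * g) * (c : G) * (k * (l⁻¹ * g))⁻¹ = k * (l⁻¹ * d * l) * k⁻¹ := by rw [hd]; group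
    rw [h4, hld2] at h3
    calc d = k⁻¹ * (k * d * k⁻¹) * k := by group
      _ = c := by rw [h3, hkc']
  · obtain ⟨U, hU⟩ := hCI _ _ hST
    have hcU := hU (Subgroup.mem_inf.2 ⟨hcS1, hcT1⟩)
    have hdU := hU (Subgroup.mem_inf.2 ⟨hdS1, hdT1⟩)
    have hgen : ∀ y : G, y ∈ (Subgroup.center ↥(U : Subgroup G)).map (U : Subgroup G).subtype → (U : Subgroup G) ≤ Subgroup.centralizer ({y} : Set G) := by
      rintro _ ⟨y, hy, rfl⟩ u hu
      rw [Subgroup.mem_centralizer_singleton_iff]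
      have := Subgroup.mem_center_iff.1 hy ⟨u, hu⟩
      exact congrArg Subtype.val this
    have hUsyl := CfsgH1.sylow_isSylowOf U
    obtain ⟨a, ha, haU⟩ := CfsgH1.isSylowOf_conj_trans hS1 (CfsgH1.isSylowOf_of_le hUsyl (hgen _ hcU) le_top)
    obtain ⟨b, hb, hbU⟩ := CfsgH1.isSylowOf_conj_trans hT1 (CfsgH1.isSylowOf_of_le hUsyl (hgen _ hdU) le_top)
    rw [Subgroup.mem_centralizer_singleton_iff] at ha hb
    have h1 : MulAut.conj (a⁻¹ * (b * g)) • (S : Subgroup G) = (S : Subgroup G) := by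
      rw [map_mul, mul_smul, map_mul, mul_smul, hbU, ← haU, ← mul_smul, ← map_mul]
      simp
    have h3 := hN h1
    have h4 : a⁻¹ * (b * g) * (c : G) * (a⁻¹ * (b * g))⁻¹ = a⁻¹ * (b * d * b⁻¹) * a := by rw [hd]; group
    have h5 : b * d * b⁻¹ = d := by rw [hb]; group
    rw [h4, h5] at h3
    calc d = a * (a⁻¹ * d * a) * a⁻¹ := by group
      _ = a * (c : G) * a⁻¹ := by rw [h3]
      _ = c := by rw [ha]; group

/-- Let G be a finite group in which the intersection of any two distinct Sylow 2-subgroups is contained in the centre of some Sylow 2-subgroup, and let S be a Sylow 2-subgroup. If C is a nontrivial cyclic characteristic subgroup of S, then the involution of C is central modulo the largest normal subgroup of odd order of G: each of its conjugates has the same image in G/O(G). -/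
theorem result {G : Type*} [Group G] [Finite G]
    (hCI : ∀ S T : Sylow 2 G, S ≠ T → ∃ U : Sylow 2 G,
      (S : Subgroup G) ⊓ (T : Subgroup G) ≤ (Subgroup.center ↥(U : Subgroup G)).map (U : Subgroup G).subtype)
    (S : Sylow 2 G) (C : Subgroup ↥(S : Subgroup G)) (hC : C ≠ ⊥) (hCc : IsCyclic ↥C) (hCh : C.Characteristic)
    (c : ↥(S : Subgroup G)) (hc : c ∈ C) (hc2 : orderOf c = 2) :
    ∀ g : G, (QuotientGroup.mk (s := Cfsg.oddCore G) (g * (c : G) * g⁻¹)) =
      QuotientGroup.mk (s := Cfsg.oddCore G) (c : G) := by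
  intro g
  have hz := CfsgH3.iso_zstar (iso hCI S C hCc hCh c hc hc2) g
  rw [QuotientGroup.eq]
  have hn : (Cfsg.oddCore G).Normal := inferInstance
  have h1 := hn.conj_mem _ hz (c : G)⁻¹
  have hcc : (c : G)⁻¹ * ((c : G) * g * (c : G)⁻¹ * g⁻¹) * (c : G)⁻¹⁻¹ = g * (c : G)⁻¹ * g⁻¹ * (c : G) := by group
  rw [hcc] at h1
  have h2 : (g * (c : G) * g⁻¹)⁻¹ * (c : G) = g * (c : G)⁻¹ * g⁻¹ * (c : G) := by group
  rw [h2]; exact h1

end Cfsg.Agent.S3184
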