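import Cfsg.Statements.S3190
import Mathlib
import Cfsg.Agent.H1.ConjAct
import Cfsg.Agent.H1.PGrp2

set_option autoImplicit false
open Cfsg

namespace Cfsg.Agent.S3190

/-- Let p be an odd prime and, inside a finite group, let P be a p-subgroup normalized by a Klein four-group T. Let R be a subgroup of P, normal in P and normalized by T, such that P is the product of R with the centralizer of T in P. If T centralizes the centre of P, then T centralizes the centre of R. -/
theorem result {X : Type*} [Group X] [Finite X]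
    {p : ℕ} (hp : p.Prime) (hodd : Odd p) (P T R : Subgroup X) (hP : IsPGroup p ↥P) (hT : IsKleinFour ↥T)
    (hTP : T ≤ Subgroup.normalizer (P : Set X)) (hRP : R ≤ P) (hRn : (R.subgroupOf P).Normal)
    (hTR : T ≤ Subgroup.normalizer (R : Set X)) (hfac : R ⊔ (P ⊓ Subgroup.centralizer (T : Set X)) = P)
    (hZ : T ≤ Subgroup.centralizer (((Subgroup.center ↥P).map P.subtype : Subgroup X) : Set X)) :
    T ≤ Subgroup.centralizer (((Subgroup.center ↥R).map R.subtype : Subgroup X) : Set X) := by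
  classical
  haveI : Fact p.Prime := ⟨hp⟩
  obtain ⟨V, hV⟩ : ∃ V : Subgroup X, V = (Subgroup.center ↥R).map R.subtype := ⟨_, rfl⟩
  rw [← hV]
  have hVmem : ∀ v, v ∈ V ↔ v ∈ R ∧ ∀ r ∈ R, r * v = v * r := by
    intro v
    rw [hV]
    constructor
    · rintro ⟨w, hw, rfl⟩
      refine ⟨w.2, fun r hr => ?_⟩
      exact congrArg Subtype.val (Subgroup.mem_center_iff.1 hw ⟨r, hr⟩)
    · rintro ⟨h1, h2⟩
      exact ⟨⟨v, h1⟩, Subgroup.mem_center_iff.2 (fun r => Subtype.ext (h2 r r.2)), rfl⟩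
  have hnormV : Subgroup.normalizer (R : Set X) ≤ Subgroup.normalizer (V : Set X) := by
    intro g hg
    have hg' := Subgroup.mem_normalizer_iff.1 hg
    refine Subgroup.mem_normalizer_iff.2 (fun v => ?_)
    rw [hVmem, hVmem, hg' v]
    constructor
    · rintro ⟨h1, h2⟩
      refine ⟨h1, fun r hr => ?_⟩
      have h3 : g⁻¹ * r * g ∈ R := (hg' _).2 (by simpa [mul_assoc] using hr)
      have h4 := h2 _ h3
      calc r * (g * v * g⁻¹) = g * ((g⁻¹ * r * g) * v) * g⁻¹ := by group
        _ = g * (v * (g⁻¹ * r * g)) * g⁻¹ := by rw [h4]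
        _ = g * v * g⁻¹ * r := by group
    · rintro ⟨h1, h2⟩
      refine ⟨h1, fun r hr => ?_⟩
      have h3 : g * r * g⁻¹ ∈ R := (hg' _).1 hr
      have h4 := h2 _ h3
      calc r * v = g⁻¹ * ((g * r * g⁻¹) * (g * v * g⁻¹)) * g := by group
        _ = g⁻¹ * ((g * v * g⁻¹) * (g * r * g⁻¹)) * g := by rw [h4]
        _ = v * r := by group
  have hVR : V ≤ R := fun v hv => ((hVmem v).1 hv).1
  have hVab : ∀ x ∈ V, ∀ y ∈ V, x * y = y * x := fun x hx y hy => ((hVmem y).1 hy).2 x (hVR hx)
  have hTV : T ≤ Subgroup.normalizer (V : Set X) := hTR.trans hnormV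
  have hPR : P ≤ Subgroup.normalizer (R : Set X) := (Subgroup.normal_subgroupOf_iff_le_normalizer hRP).1 hRn
  have hWV : ⁅V, T⁆ ≤ V := Subgroup.le_normalizer_iff_commutator_le_left.1 hTV
  have hcn : ∀ (c : X) (K : Subgroup X), (∀ k ∈ K, k * c = c * k) → c ∈ Subgroup.normalizer (K : Set X) := by
    intro c K h
    refine Subgroup.mem_normalizer_iff.2 (fun x => ⟨fun hx => ?_, fun hx => ?_⟩)
    · have : c * x * c⁻¹ = x := by rw [← h x hx, mul_inv_cancel_right]
      rw [this]; exact hx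
    · have h1 := h _ hx
      have h2 : x = c * x * c⁻¹ := by
        calc x = c⁻¹ * ((c * x * c⁻¹) * c) := by group
          _ = c⁻¹ * (c * (c * x * c⁻¹)) := by rw [h1]
          _ = c * x * c⁻¹ := by group
      rw [h2]; exact hx
  refine CfsgH1.le_centralizer_iff_commutator.2 ?_
  rw [Subgroup.commutator_comm]
  by_contra hWne
  have hPW : P ≤ Subgroup.normalizer ((⁅V, T⁆ : Subgroup X) : Set X) := by
    refine hfac.symm.le.trans (sup_le ?_ ?_)
    · intro r hr
      exact hcn r _ (fun k hk => (((hVmem k).1 (hWV hk)).2 r hr).symm)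
    · refine CfsgH1.normalizer_commutator ?_ ?_
      · exact inf_le_left.trans (hPR.trans hnormV)
      · intro c hc
        exact hcn c _ (fun k hk => Subgroup.mem_centralizer_iff.1 hc.2 k hk)
  have hne := CfsgH1.inf_centralizer_ne_bot_of_nilpotent (N := ⁅V, T⁆) (P := P) hP.isNilpotent (hWV.trans (hVR.trans hRP)) hPW hWne
  rw [Ne, Subgroup.eq_bot_iff_forall] at hne
  push Not at hne
  obtain ⟨w, hw, hw1⟩ := hne
  have hwV : w ∈ V := hWV hw.1
  have hwP : w ∈ P := hRP (hVR hwV)
  have hwT : w ∈ Subgroup.centralizer (T : Set X) := by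
    rw [Subgroup.mem_centralizer_iff]
    intro t ht
    have h1 := Subgroup.mem_centralizer_iff.1 (hZ ht) w ⟨⟨w, hwP⟩, Subgroup.mem_center_iff.2 (fun r => Subtype.ext (Subgroup.mem_centralizer_iff.1 hw.2 r r.2)), rfl⟩
    exact h1.symm
  have hcop : (Nat.card T).Coprime (Nat.card V) := by
    obtain ⟨k, hk⟩ := IsPGroup.iff_card.1 (hP.to_le (hVR.trans hRP))
    rw [hk, hT.card_four]
    exact Nat.Coprime.pow_right k (Nat.Coprime.pow_left 2 (Nat.coprime_two_left.2 hodd))
  have hbot := CfsgH1.coprime_abelian_inf hVab hTV hcop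
  have : w ∈ (⊥ : Subgroup X) := by
    rw [← hbot]
    exact ⟨⟨hwV, hwT⟩, hw.1⟩
  exact hw1 (Subgroup.mem_bot.1 this)

end Cfsg.Agent.S3190
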