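import Cfsg.Statements.S3195
import Mathlib
import Cfsg.Agent.S0200
import Cfsg.Agent.H2.GenFitting

set_option autoImplicit false
open Cfsg

namespace Cfsg.Agent.S3195

/-- Let A be a Klein four-subgroup of a finite group G. If every G-conjugate of every involution of A commutes with some involution of A (its centralizer meets A nontrivially), then A meets the largest normal 2-subgroup O₂(G) nontrivially. -/
theorem result {G : Type*} [Group G] [Finite G]
    (A : Subgroup G) (hA : IsKleinFour ↥A)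
    (h : ∀ a ∈ A, a ≠ 1 → ∀ g : G, A ⊓ Subgroup.centralizer ({g * a * g⁻¹} : Set G) ≠ ⊥) :
    A ⊓ Cfsg.pCore 2 G ≠ ⊥ := by
  classical
  haveI : Fact (Nat.Prime 2) := ⟨Nat.prime_two⟩
  by_contra hbot
  have h4 : Nat.card ↥A = 4 := hA.card_four
  have hsq : ∀ a ∈ A, a * a = 1 := by
    intro a ha
    have := hA.exponent_two
    have h2 := Monoid.pow_exponent_eq_one (⟨a, ha⟩ : ↥A)
    rw [this, pow_two] at h2
    exact congrArg Subtype.val h2
  have hinvA : ∀ a ∈ A, a⁻¹ = a := fun a ha => inv_eq_of_mul_eq_one_right (hsq a ha)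
  have hcm : ∀ a ∈ A, ∀ b ∈ A, a * b = b * a := by
    intro a ha b hb
    have h1 := hinvA _ (A.mul_mem ha hb)
    rw [mul_inv_rev, hinvA a ha, hinvA b hb] at h1
    exact h1.symm
  have hfour : ∀ a ∈ A, ∀ b ∈ A, a ≠ 1 → b ≠ 1 → a ≠ b → ∀ y ∈ A, y = 1 ∨ y = a ∨ y = b ∨ y = a * b := by
    intro a ha b hb ha1 hb1 hab y hy
    have hab1 : a * b ≠ 1 := by
      intro h1
      apply hab
      rw [← hinvA b hb]
      exact eq_inv_of_mul_eq_one_left h1
    have hs : ({1, a, b, a * b} : Set G) ⊆ (A : Set G) := by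
      rintro z (rfl | rfl | rfl | rfl)
      · exact A.one_mem
      · exact ha
      · exact hb
      · exact A.mul_mem ha hb
    have hc : ({1, a, b, a * b} : Set G).ncard = 4 := by
      rw [Set.ncard_insert_of_notMem, Set.ncard_insert_of_notMem, Set.ncard_pair]
      · intro h1
        apply ha1
        exact (mul_eq_right.1 h1.symm)
      · rintro (h1 | h1)
        · exact hab h1
        · exact hb1 (mul_eq_left.1 (Set.mem_singleton_iff.1 h1).symm)
      · rintro (h1 | h1 | h1)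
        · exact ha1 h1.symm
        · exact hb1 h1.symm
        · exact hab1 (Set.mem_singleton_iff.1 h1).symm
    have hAc : (A : Set G).ncard = 4 := h4
    have he := Set.eq_of_subset_of_ncard_le hs (by rw [hAc, hc])
    have : y ∈ ({1, a, b, a * b} : Set G) := by rw [he]; exact hy
    exact this
  -- odd order elements
  have hodd4 : ∀ r : G, Odd (orderOf r) → r * r * (r * r) = 1 → r = 1 := by
    intro r hr h1
    have h2 : r ^ 4 = 1 := by rw [← h1]; simp only [pow_succ, pow_zero, one_mul, mul_assoc]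
    have h3 := orderOf_dvd_of_pow_eq_one h2
    have h5 : (orderOf r).Coprime 4 := by
      rw [show 4 = 2 ^ 2 by norm_num]
      exact Nat.Coprime.pow_right 2 (Nat.coprime_two_right.2 hr)
    exact orderOf_eq_one_iff.1 (Nat.Coprime.eq_one_of_dvd h5 h3)
  have hodd2 : ∀ r : G, Odd (orderOf r) → r * r = 1 → r = 1 := by
    intro r hr h1
    exact hodd4 r hr (by rw [h1, one_mul])
  have hcommodd : ∀ r b : G, Odd (orderOf r) → Commute b (r * r) → Commute b r := by
    intro r b hro hbrr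
    obtain ⟨k, hk⟩ := hro
    have h5 : r = (r * r) ^ (k + 1) := by
      rw [← pow_two, ← pow_mul]
      have : 2 * (k + 1) = orderOf r + 1 := by omega
      rw [this, pow_succ, pow_orderOf_eq_one, one_mul]
    have h6 : Commute b ((r * r) ^ (k + 1)) := Commute.pow_right hbrr _
    rw [← h5] at h6
    exact h6
  -- elements of odd order inverted by the involutions of `A`
  have hex : ∀ a ∈ A, a ≠ 1 → ∃ r : G, r ≠ 1 ∧ Odd (orderOf r) ∧ a * r * a⁻¹ = r⁻¹ := by
    intro a ha ha1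
    have hao : orderOf a = 2 := orderOf_eq_prime (by rw [pow_two]; exact hsq a ha) ha1
    refine Cfsg.Agent.S0200.result a hao ?_
    intro N hN hNp haN
    have : a ∈ (⊥ : Subgroup G) := by
      rw [← hbot]
      exact ⟨ha, CfsgH2.le_pCore hN hNp haN⟩
    exact ha1 (Subgroup.mem_bot.1 this)
  -- one involution of `A` centralizes it
  have hstar : ∀ a ∈ A, a ≠ 1 → ∀ r : G, r ≠ 1 → Odd (orderOf r) → a * r * a⁻¹ = r⁻¹ →
      ∃ b ∈ A, b ≠ 1 ∧ b ≠ a ∧ b * r = r * b := by
    intro a ha ha1 r hr hro har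
    have h1 := h a ha ha1 r
    obtain ⟨⟨b, hb⟩, hb1'⟩ := Subgroup.ne_bot_iff_exists_ne_one.1 h1
    have hb1 : b ≠ 1 := fun h => hb1' (Subtype.ext h)
    have hbc := Subgroup.mem_centralizer_singleton_iff.1 hb.2
    have hb' := hb.1
    have hra : a * r = r⁻¹ * a := by
      rw [← har]; group
    have hrar : r * a * r⁻¹ = r * r * a := by
      have : a * r⁻¹ = r * a := by
        have e := congrArg (·⁻¹) har
        beta_reduce at e
        rw [inv_inv] at e
        have e3 : a * r⁻¹ = (a * r * a⁻¹)⁻¹ * a := by group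
        rw [e3, e]
      rw [mul_assoc, this, mul_assoc]
    rw [hrar] at hbc
    -- `b` commutes with `a` so with `r * r`
    have hba := hcm a ha b hb'
    have hbrr : b * (r * r) = r * r * b := by
      have e1 : b * (r * r * a) = b * (r * r) * a := by group
      have e2 : r * r * a * b = r * r * b * a := by rw [mul_assoc, hba, ← mul_assoc]
      rw [e1, e2] at hbc
      exact mul_right_cancel hbc
    have hbr : b * r = r * b := hcommodd r b hro hbrr
    refine ⟨b, hb', hb1, ?_, hbr⟩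
    rintro rfl
    apply hr
    apply hodd2 r hro
    have : r⁻¹ = r := by rw [← har, hbr, mul_inv_cancel_right]
    nth_rewrite 1 [← this]
    exact inv_mul_cancel r
  -- main computation
  have key : ∀ a ∈ A, ∀ b ∈ A, a ≠ 1 → b ≠ 1 → a ≠ b → ∀ ρ σ : G, ρ ≠ 1 → σ ≠ 1 → Odd (orderOf ρ) → Odd (orderOf σ) →
      a * ρ * a = ρ⁻¹ → b * ρ * b = ρ → a * σ * a = σ → b * σ * b = σ⁻¹ →
      ρ * ρ * (σ * σ) * (ρ * ρ * (σ * σ)) = 1 := by
    intro a ha b hb ha1 hb1 hab ρ σ hρ hσ hρo hσo h1 h2 h3 h5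
    have haa := hsq a ha
    have hbb := hsq b hb
    have habc := hcm a ha b hb
    obtain ⟨c, hc⟩ : ∃ c, c = a * b := ⟨_, rfl⟩
    have hcA : c ∈ A := by rw [hc]; exact A.mul_mem ha hb
    have hcc := hsq c hcA
    have hc1 : c ≠ 1 := by
      rw [hc]
      intro h6
      apply hab
      rw [← hinvA b hb]
      exact eq_inv_of_mul_eq_one_left h6
    have hcρ : c * ρ * c = ρ⁻¹ := by
      have : c * ρ * c = a * (b * ρ * b) * a := by
        rw [hc]; nth_rewrite 2 [habc]; simp only [mul_assoc]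
      rw [this, h2, h1]
    have hcσ : c * σ * c = σ⁻¹ := by
      have : c * σ * c = b * (a * σ * a) * b := by
        rw [hc]; nth_rewrite 1 [habc]; simp only [mul_assoc]
      rw [this, h3, h5]
    have e1 : c * σ = σ⁻¹ * c := by rw [← hcσ, mul_assoc (c * σ), hcc, mul_one]
    have e2 : c * ρ = ρ⁻¹ * c := by rw [← hcρ, mul_assoc (c * ρ), hcc, mul_one]
    obtain ⟨u, hu⟩ : ∃ u, u = σ * (ρ * ρ) * σ := ⟨_, rfl⟩
    have hw : (σ⁻¹ * ρ⁻¹) * c * (σ⁻¹ * ρ⁻¹)⁻¹ = c * u := by
      rw [hu]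
      symm
      calc c * (σ * (ρ * ρ) * σ) = (c * σ) * ρ * ρ * σ := by simp only [mul_assoc]
        _ = σ⁻¹ * (c * ρ) * ρ * σ := by rw [e1]; simp only [mul_assoc]
        _ = σ⁻¹ * ρ⁻¹ * c * ρ * σ := by rw [e2]; simp only [mul_assoc]
        _ = (σ⁻¹ * ρ⁻¹) * c * (σ⁻¹ * ρ⁻¹)⁻¹ := by group
    have conj4 : ∀ x p q : G, x * x = 1 → (x * p * x) * (x * q * x) * (x * q * x) * (x * p * x) = x * (p * (q * q) * p) * x := by
      intro x p q hx
      calc (x * p * x) * (x * q * x) * (x * q * x) * (x * p * x) = x * p * (x * x) * q * (x * x) * q * (x * x) * p * x := by simp only [mul_assoc]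
        _ = x * (p * (q * q) * p) * x := by rw [hx]; simp only [mul_one, mul_assoc]
    have h6 := h c hcA hc1 (σ⁻¹ * ρ⁻¹)
    rw [hw] at h6
    obtain ⟨⟨y, hy⟩, hy1'⟩ := Subgroup.ne_bot_iff_exists_ne_one.1 h6
    have hy1 : y ≠ 1 := fun h => hy1' (Subtype.ext h)
    have hyc := Subgroup.mem_centralizer_singleton_iff.1 hy.2
    have hyu : y * u = u * y := by
      have h7 := hcm y hy.1 c hcA
      have h8 : c * (y * u) = c * (u * y) := by
        rw [← mul_assoc, ← h7, mul_assoc, hyc, mul_assoc]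
      exact mul_left_cancel h8
    have hyuy : y * u * y = u := by rw [hyu, mul_assoc, hsq y hy.1, mul_one]
    rw [hu] at hyuy
    rw [← conj4 y σ ρ (hsq y hy.1)] at hyuy
    rcases hfour a ha b hb ha1 hb1 hab y hy.1 with h7 | h7 | h7 | h7
    · exact absurd h7 hy1
    · exfalso
      rw [h7, h3, h1] at hyuy
      apply hρ
      apply hodd4 ρ hρo
      have h8 : ρ⁻¹ * ρ⁻¹ = ρ * ρ := by
        have h9 : σ * (ρ⁻¹ * ρ⁻¹) * σ = σ * (ρ * ρ) * σ := by rw [← hyuy]; simp only [mul_assoc]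
        exact mul_left_cancel (mul_right_cancel h9)
      nth_rewrite 1 [← h8]
      group
    · exfalso
      rw [h7, h5, h2] at hyuy
      have h8 : ρ * ρ = (σ * σ) * (ρ * ρ) * (σ * σ) := by
        calc ρ * ρ = σ * (σ⁻¹ * ρ * ρ * σ⁻¹) * σ := by group
          _ = σ * (σ * (ρ * ρ) * σ) * σ := by rw [hyuy]
          _ = (σ * σ) * (ρ * ρ) * (σ * σ) := by simp only [mul_assoc]
      have hRo : Odd (orderOf (ρ * ρ)) := by
        rw [← pow_two]
        exact Odd.of_dvd_nat hρo (orderOf_pow_dvd 2)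
      generalize ρ * ρ = R at h8 hRo
      obtain ⟨S, hS⟩ : ∃ S, S = σ * σ := ⟨_, rfl⟩
      rw [← hS] at h8
      have h9 : S * R = R * S⁻¹ := by
        calc S * R = S * R * S * S⁻¹ := by group
          _ = R * S⁻¹ := by rw [← h8]
      have h10 : S⁻¹ * R = R * S := by
        calc S⁻¹ * R = S⁻¹ * (S * R * S) := by rw [← h8]
          _ = R * S := by group
      have h11 : Commute S (R * R) := by
        change S * (R * R) = R * R * S
        rw [← mul_assoc, h9, mul_assoc, h10, mul_assoc]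
      have h12 := hcommodd R S hRo h11
      apply hσ
      apply hodd4 σ hσo
      rw [← hS]
      have h13 : S = S⁻¹ := by
        have : R * S = R * S⁻¹ := by rw [← h9, h12.eq]
        exact mul_left_cancel this
      nth_rewrite 1 [h13]
      exact inv_mul_cancel S
    · rw [h7, ← hc, hcσ, hcρ] at hyuy
      calc ρ * ρ * (σ * σ) * (ρ * ρ * (σ * σ)) = σ⁻¹ * (σ * (ρ * ρ) * σ) * (σ * (ρ * ρ) * σ) * σ := by group
        _ = σ⁻¹ * (σ⁻¹ * ρ⁻¹ * ρ⁻¹ * σ⁻¹) * (σ * (ρ * ρ) * σ) * σ := by rw [hyuy]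
        _ = 1 := by group
  -- choose elements
  obtain ⟨⟨a₀, ha₀⟩, ha₀1'⟩ : ∃ a : ↥A, a ≠ 1 := by
    haveI : Nontrivial ↥A := by
      rw [← Finite.one_lt_card_iff_nontrivial, h4]; norm_num
    exact exists_ne 1
  have ha₀1 : a₀ ≠ 1 := fun h => ha₀1' (Subtype.ext h)
  obtain ⟨r, hr1, hro, hr⟩ := hex a₀ ha₀ ha₀1
  obtain ⟨b, hb, hb1, hba₀, hbr⟩ := hstar a₀ ha₀ ha₀1 r hr1 hro hr
  obtain ⟨s, hs1, hso, hs⟩ := hex b hb hb1
  obtain ⟨a, ha, ha1, hab, has⟩ := hstar b hb hb1 s hs1 hso hs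
  rw [hinvA a₀ ha₀] at hr
  rw [hinvA b hb] at hs
  have hbrb : b * r * b = r := by rw [hbr, mul_assoc, hsq b hb, mul_one]
  have hasa : a * s * a = s := by rw [has, mul_assoc, hsq a ha, mul_one]
  have har : a * r * a = r⁻¹ := by
    rcases hfour a₀ ha₀ b hb ha₀1 hb1 hba₀.symm a ha with h7 | h7 | h7 | h7
    · exact absurd h7 ha1
    · rw [h7]; exact hr
    · exact absurd h7 hab
    · rw [h7]
      calc a₀ * b * r * (a₀ * b) = a₀ * b * r * (b * a₀) := by rw [hcm a₀ ha₀ b hb]
        _ = a₀ * (b * r * b) * a₀ := by simp only [mul_assoc]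
        _ = r⁻¹ := by rw [hbrb, hr]
  have inv3 : ∀ x y z : G, x * x = 1 → x * y * x = z → x * y⁻¹ * x = z⁻¹ := by
    intro x y z hx hy
    have hxi : x⁻¹ = x := inv_eq_of_mul_eq_one_right hx
    rw [← hy, mul_inv_rev, mul_inv_rev, hxi, mul_assoc]
  have sq3 : ∀ x y z : G, x * x = 1 → x * y * x = z → x * (y * y) * x = z * z := by
    intro x y z hx hy
    rw [← hy]
    calc x * (y * y) * x = x * y * 1 * y * x := by group
      _ = x * y * x * (x * y * x) := by rw [← hx]; simp only [mul_assoc]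
  have k1 := key a ha b hb ha1 hb1 hab r s hr1 hs1 hro hso har hbrb hasa hs
  have k2 := key a ha b hb ha1 hb1 hab r s⁻¹ hr1 (inv_ne_one.2 hs1) hro (by rwa [orderOf_inv]) har hbrb
    (inv3 a s s (hsq a ha) hasa) (by have := inv3 b s s⁻¹ (hsq b hb) hs; exact this)
  have k3 := key a ha b hb ha1 hb1 hab (r * r) s (fun h => hr1 (hodd2 r hro h)) hs1 
    (by rw [← pow_two]; exact Odd.of_dvd_nat hro (orderOf_pow_dvd 2)) hso (by rw [sq3 a r _ (hsq a ha) har, mul_inv_rev]) 
    (sq3 b r _ (hsq b hb) hbrb) hasa hs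
  apply hs1
  apply hodd4 s hso
  have e0 : s⁻¹ * s⁻¹ = (s * s)⁻¹ := by rw [mul_inv_rev]
  rw [e0] at k2
  generalize s * s = S at k1 k2 k3 ⊢
  generalize r * r = R at k1 k2 k3
  have f1 : R * S * R = S⁻¹ := eq_inv_of_mul_eq_one_left (by rw [← k1]; simp only [mul_assoc])
  have f2 : R * S⁻¹ * R = S := by
    have := eq_inv_of_mul_eq_one_left (show R * S⁻¹ * R * S⁻¹ = 1 by rw [← k2]; simp only [mul_assoc])
    rwa [inv_inv] at this
  have f3 : R * R * S * (R * R) = S⁻¹ := eq_inv_of_mul_eq_one_left (by rw [← k3]; simp only [mul_assoc])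
  have f4 : R * R * S * (R * R) = S := by
    calc R * R * S * (R * R) = R * (R * S * R) * R := by simp only [mul_assoc]
      _ = S := by rw [f1, f2]
  have f5 : S = S⁻¹ := f4.symm.trans f3
  nth_rewrite 1 [f5]
  exact inv_mul_cancel S

end Cfsg.Agent.S3195
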