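import Cfsg.Statements.S3196
import Mathlib
import Cfsg.Agent.H2.GenFitting
import Cfsg.Agent.H2.NpcComp

set_option autoImplicit false
open Cfsg

namespace Cfsg.Agent.S3196

/-- Let p be a prime and K a set of subgroups of order p of a finite group G, closed under conjugation, such that at least two distinct members of K commute elementwise, and whenever two distinct members X, Y of K commute: every subgroup of order p of the group XY they generate belongs to K, and every member W of K has centralizer meeting XY nontrivially. Then some member V of K commutes elementwise with every member of K and lies in O_p(G); in particular G is not simple. -/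
theorem result {G : Type*} [Group G] [Finite G]
    {p : ℕ} (hp : p.Prime) (K : Set (Subgroup G)) (hK : ∀ X ∈ K, Nat.card ↥X = p)
    (hKc : ∀ X ∈ K, ∀ g : G, X.map (MulAut.conj g).toMonoidHom ∈ K)
    (hex : ∃ X ∈ K, ∃ Y ∈ K, X ≠ Y ∧ ∀ x ∈ X, ∀ y ∈ Y, x * y = y * x)
    (ha : ∀ X ∈ K, ∀ Y ∈ K, X ≠ Y → (∀ x ∈ X, ∀ y ∈ Y, x * y = y * x) →
      ∀ Z : Subgroup G, Z ≤ X ⊔ Y → Nat.card ↥Z = p → Z ∈ K)
    (hb : ∀ X ∈ K, ∀ Y ∈ K, X ≠ Y → (∀ x ∈ X, ∀ y ∈ Y, x * y = y * x) →
      ∀ W ∈ K, (X ⊔ Y) ⊓ Subgroup.centralizer (W : Set G) ≠ ⊥) :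
    (∃ V ∈ K, (∀ W ∈ K, ∀ v ∈ V, ∀ w ∈ W, v * w = w * v) ∧ V ≤ Cfsg.pCore p G) ∧ ¬ IsSimpleGroup G := by
  classical
  haveI := Fact.mk hp
  let cm : Subgroup G → Subgroup G → Prop := fun X Y => ∀ x ∈ X, ∀ y ∈ Y, x * y = y * x
  have cm_symm : ∀ {X Y : Subgroup G}, cm X Y → cm Y X := fun h y hy x hx => (h x hx y hy).symm
  have hgen : ∀ X : Subgroup G, Nat.card ↥X = p → ∀ x ∈ X, x ≠ 1 → Subgroup.zpowers x = X := by
    intro X hX x hx hx1
    have hle : Subgroup.zpowers x ≤ X := by rw [Subgroup.zpowers_le]; exact hx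
    have h1 := Subgroup.card_dvd_of_le hle
    rw [hX, Nat.dvd_prime hp] at h1
    rcases h1 with h1 | h1
    · rw [Nat.card_zpowers, orderOf_eq_one_iff] at h1
      exact absurd h1 hx1
    · exact Subgroup.eq_of_le_of_card_ge hle (by rw [h1, hX])
  have hpow : ∀ X : Subgroup G, Nat.card ↥X = p → ∀ x ∈ X, x ^ p = 1 := by
    intro X hX x hx
    have := pow_card_eq_one' (x := (⟨x, hx⟩ : ↥X))
    rw [hX] at this
    exact congrArg Subtype.val this
  have hzc : ∀ x : G, x ≠ 1 → x ^ p = 1 → Nat.card ↥(Subgroup.zpowers x) = p := by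
    intro x hx h
    rw [Nat.card_zpowers]
    exact orderOf_eq_prime h hx
  -- commuting with a generator
  have comz : ∀ g x : G, g * x = x * g → ∀ y ∈ Subgroup.zpowers x, g * y = y * g := by
    intro g x h y hy
    obtain ⟨k, rfl⟩ := Subgroup.mem_zpowers_iff.1 hy
    exact (Commute.zpow_right h k)
  have cm_self : ∀ X ∈ K, cm X X := by
    intro X hX x hx y hy
    by_cases h1 : x = 1
    · rw [h1, one_mul, mul_one]
    · exact (comz x x rfl y (by rw [hgen X (hK X hX) x hx h1]; exact hy))
  have cm_of : ∀ X ∈ K, ∀ x ∈ X, x ≠ 1 → ∀ W : Subgroup G, (∀ w ∈ W, w * x = x * w) → cm X W := by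
    intro X hX x hx hx1 W h y hy w hw
    rw [← hgen X (hK X hX) x hx hx1] at hy
    exact (comz w x (h w hw) y hy).symm
  -- products of commuting subgroups
  have hprod : ∀ X Y : Subgroup G, cm X Y → ∀ z ∈ X ⊔ Y, ∃ x ∈ X, ∃ y ∈ Y, z = x * y := by
    intro X Y h
    let P : Subgroup G := {
      carrier := {z | ∃ x ∈ X, ∃ y ∈ Y, z = x * y}
      one_mem' := ⟨1, X.one_mem, 1, Y.one_mem, (mul_one 1).symm⟩
      mul_mem' := by
        rintro _ _ ⟨x, hx, y, hy, rfl⟩ ⟨x', hx', y', hy', rfl⟩
        refine ⟨x * x', X.mul_mem hx hx', y * y', Y.mul_mem hy hy', ?_⟩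
        have := h x' hx' y hy
        calc x * y * (x' * y') = x * (y * x') * y' := by simp only [mul_assoc]
          _ = x * x' * (y * y') := by rw [← this]; simp only [mul_assoc]
      inv_mem' := by
        rintro _ ⟨x, hx, y, hy, rfl⟩
        refine ⟨x⁻¹, X.inv_mem hx, y⁻¹, Y.inv_mem hy, ?_⟩
        rw [mul_inv_rev]
        exact (h _ (X.inv_mem hx) _ (Y.inv_mem hy)).symm }
    have h1 : X ⊔ Y ≤ P := sup_le (fun x hx => ⟨x, hx, 1, Y.one_mem, (mul_one x).symm⟩)
      (fun y hy => ⟨1, X.one_mem, y, hy, (one_mul y).symm⟩)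
    intro z hz
    exact h1 hz
  -- the line axiom
  have L1 : ∀ X ∈ K, ∀ Y ∈ K, X ≠ Y → cm X Y → ∀ W ∈ K, ∃ z : G, z ≠ 1 ∧ z ∈ X ⊔ Y ∧ Subgroup.zpowers z ∈ K ∧ ∀ w ∈ W, w * z = z * w := by
    intro X hX Y hY hXY hc W hW
    obtain ⟨⟨z, hz⟩, hz1⟩ := Subgroup.ne_bot_iff_exists_ne_one.1 (hb X hX Y hY hXY hc W hW)
    have hz1' : z ≠ 1 := fun h => hz1 (Subtype.ext h)
    refine ⟨z, hz1', hz.1, ?_, fun w hw => Subgroup.mem_centralizer_iff.1 hz.2 w hw⟩
    apply ha X hX Y hY hXY hc
    · rw [Subgroup.zpowers_le]; exact hz.1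
    · apply hzc z hz1'
      obtain ⟨x, hx, y, hy, rfl⟩ := hprod X Y hc z hz.1
      rw [(show Commute x y from hc x hx y hy).mul_pow, hpow X (hK X hX) x hx, hpow Y (hK Y hY) y hy, one_mul]
  -- exchange
  have L4 : ∀ U ∈ K, ∀ V ∈ K, cm U V → ∀ z ∈ U ⊔ V, z ∉ V → ∀ g : G, g * z = z * g → (∀ v ∈ V, g * v = v * g) → ∀ u ∈ U, g * u = u * g := by
    intro U hU V hV hc z hz hzV g hgz hgV
    obtain ⟨x, hx, y, hy, rfl⟩ := hprod U V hc z hz
    have hx1 : x ≠ 1 := by
      rintro rfl
      exact hzV (by rw [one_mul]; exact hy)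
    have h1 : g * x = x * g := by
      have h2 := hgV y hy
      have h3 : g * x * y = x * g * y := by
        calc g * x * y = g * (x * y) := mul_assoc _ _ _
          _ = x * y * g := hgz
          _ = x * g * y := by rw [mul_assoc, ← h2, mul_assoc]
      exact mul_right_cancel h3
    intro u hu
    rw [← hgen U (hK U hU) x hx hx1] at hu
    exact comz g x h1 u hu
  -- perps
  let perp : Subgroup G → Set (Subgroup G) := fun U => {X | X ∈ K ∧ cm X U}
  obtain ⟨X₀, hX₀, Y₀, hY₀, hXY₀, hcm₀⟩ := hex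
  obtain ⟨V, hVK, hVmax⟩ : ∃ V ∈ K, ∀ U ∈ K, (perp U).ncard ≤ (perp V).ncard := by
    obtain ⟨V, hV, h⟩ := (Set.toFinite K).exists_maximalFor (fun U => (perp U).ncard) K ⟨X₀, hX₀⟩
    refine ⟨V, hV, fun U hU => ?_⟩
    by_contra hcon
    push Not at hcon
    exact absurd (h hU hcon.le) (not_le.2 hcon)
  have hmax : ∀ U ∈ K, perp V ⊆ perp U → perp U = perp V := fun U hU h =>
    (Set.eq_of_subset_of_ncard_le h (hVmax U hU)).symm
  have hperp_self : ∀ U ∈ K, U ∈ perp U := fun U hU => ⟨hU, cm_self U hU⟩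
  -- conjugates
  have hmem : ∀ (U : Subgroup G) (g x : G), x ∈ U.map (MulAut.conj g).toMonoidHom ↔ ∃ u ∈ U, g * u * g⁻¹ = x := by
    intro U g x
    rw [Subgroup.mem_map]
    rfl
  -- the subgroup `T`
  have T_mul : ∀ x y : G, x ≠ 1 → y ≠ 1 → x * y ≠ 1 → Subgroup.zpowers x ∈ K → Subgroup.zpowers y ∈ K → perp (Subgroup.zpowers x) = perp V → 
      perp (Subgroup.zpowers y) = perp V → Subgroup.zpowers (x * y) ∈ K ∧ perp (Subgroup.zpowers (x * y)) = perp V := by
    intro x y hx hy hxy hxK hyK hxp hyp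
    have hc : cm (Subgroup.zpowers x) (Subgroup.zpowers y) := by
      have : Subgroup.zpowers x ∈ perp (Subgroup.zpowers y) := by rw [hyp, ← hxp]; exact hperp_self _ hxK
      exact this.2
    by_cases he : Subgroup.zpowers x = Subgroup.zpowers y
    · have h1 : x * y ∈ Subgroup.zpowers x := mul_mem (Subgroup.mem_zpowers x) (by rw [he]; exact Subgroup.mem_zpowers y)
      rw [hgen _ (hK _ hxK) _ h1 hxy]
      exact ⟨hxK, hxp⟩
    · have hxy' : x * y ∈ Subgroup.zpowers x ⊔ Subgroup.zpowers y := Subgroup.mul_mem_sup (Subgroup.mem_zpowers x) (Subgroup.mem_zpowers y)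
      have hcard : Nat.card ↥(Subgroup.zpowers (x * y)) = p := by
        apply hzc _ hxy
        rw [(show Commute x y from hc x (Subgroup.mem_zpowers x) y (Subgroup.mem_zpowers y)).mul_pow,
          hpow _ (hK _ hxK) x (Subgroup.mem_zpowers x), hpow _ (hK _ hyK) y (Subgroup.mem_zpowers y), one_mul]
      have hKxy := ha _ hxK _ hyK he hc (Subgroup.zpowers (x * y)) (by rw [Subgroup.zpowers_le]; exact hxy') hcard
      refine ⟨hKxy, hmax _ hKxy ?_⟩
      intro R hR
      refine ⟨hR.1, cm_symm ?_⟩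
      refine cm_of _ hKxy (x * y) (Subgroup.mem_zpowers _) hxy R ?_
      intro r hr
      have h1 : R ∈ perp (Subgroup.zpowers x) := by rw [hxp]; exact hR
      have h2 : R ∈ perp (Subgroup.zpowers y) := by rw [hyp]; exact hR
      have h3 := h1.2 r hr x (Subgroup.mem_zpowers x)
      have h4 := h2.2 r hr y (Subgroup.mem_zpowers y)
      rw [← mul_assoc, h3, mul_assoc, h4, ← mul_assoc]
  let T : Subgroup G := {
    carrier := {x | x = 1 ∨ (Subgroup.zpowers x ∈ K ∧ perp (Subgroup.zpowers x) = perp V)}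
    one_mem' := Or.inl rfl
    mul_mem' := by
      intro x y hx hy
      by_cases hx1 : x = 1
      · rw [hx1, one_mul]; exact hy
      by_cases hy1 : y = 1
      · rw [hy1, mul_one]; exact hx
      by_cases hxy : x * y = 1
      · exact Or.inl hxy
      · have hx' := hx.resolve_left hx1
        have hy' := hy.resolve_left hy1
        exact Or.inr (T_mul x y hx1 hy1 hxy hx'.1 hy'.1 hx'.2 hy'.2)
    inv_mem' := by
      intro x hx
      rcases hx with hx | hx
      · exact Or.inl (by rw [hx, inv_one])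
      · exact Or.inr (by rw [Subgroup.zpowers_inv]; exact hx) }
  have hTmem : ∀ x : G, x ∈ T ↔ (x = 1 ∨ (Subgroup.zpowers x ∈ K ∧ perp (Subgroup.zpowers x) = perp V)) := fun x => Iff.rfl
  have hVT : V ≤ T := by
    intro v hv
    by_cases hv1 : v = 1
    · exact Or.inl hv1
    · refine Or.inr ?_
      rw [hgen V (hK V hVK) v hv hv1]
      exact ⟨hVK, rfl⟩
  have hTp : IsPGroup p ↥T := by
    intro x
    refine ⟨1, Subtype.ext ?_⟩
    change (x : G) ^ p ^ 1 = 1
    rw [pow_one]
    rcases x.2 with h | h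
    · rw [h, one_pow]
    · exact hpow _ (hK _ h.1) _ (Subgroup.mem_zpowers _)
  have hV1 : ∃ v ∈ V, v ≠ 1 := by
    have : Nontrivial ↥V := by
      rw [← Finite.one_lt_card_iff_nontrivial, hK V hVK]; exact hp.one_lt
    obtain ⟨v, hv⟩ := exists_ne (1 : ↥V)
    exact ⟨v, v.2, fun h => hv (Subtype.ext h)⟩
  -- `V` commutes with all of `K`
  have hall : ∀ W ∈ K, cm V W := by
    intro W hW
    by_contra hVW
    have hWperp : W ∉ perp V := fun h => hVW (cm_symm h.2)
    have hnb : ∀ U ∈ K, perp U = perp V → ∃ Y ∈ K, Y ≠ U ∧ cm Y U := by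
      intro U hU hUV
      by_contra hcon
      push Not at hcon
      have h1 : perp U ⊆ {U} := by
        intro Y hY
        by_contra h2
        exact hcon Y hY.1 h2 hY.2
      have h2 : (perp X₀).ncard ≤ 1 := by
        refine (hVmax X₀ hX₀).trans ?_
        rw [← hUV]
        exact (Set.ncard_le_ncard h1).trans (by rw [Set.ncard_singleton])
      have h3 : ({X₀, Y₀} : Set (Subgroup G)) ⊆ perp X₀ := by
        rintro Z (rfl | rfl)
        · exact hperp_self _ hX₀
        · exact ⟨hY₀, cm_symm hcm₀⟩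
      have h4 := Set.ncard_le_ncard h3
      rw [Set.ncard_pair hXY₀] at h4
      omega
    -- first claim
    have C1 : ∀ U ∈ K, perp U = perp V → ∀ w ∈ W, cm (U.map (MulAut.conj w).toMonoidHom) U := by
      intro U hU hUV w hw
      by_contra hnc
      have hWU : ¬ cm W U := fun h => hWperp (by rw [← hUV]; exact ⟨hW, h⟩)
      have hw1 : w ≠ 1 := by
        rintro rfl
        apply hnc
        intro x hx y hy
        obtain ⟨u, hu, rfl⟩ := (hmem U 1 x).1 hx
        have : (1 : G) * u * 1⁻¹ = u := by group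
        rw [this]
        exact cm_self U hU u hu y hy
      have hwU : ¬ ∀ u ∈ U, u * w = w * u := by
        intro h
        exact hWU (cm_of W hW w hw hw1 U h)
      obtain ⟨Y, hY, hYU, hcYU⟩ := hnb U hU hUV
      obtain ⟨z, hz1, hzUY, hzK, hzW⟩ := L1 Y hY U hU hYU hcYU W hW
      have hzU : ∀ u ∈ U, u * z = z * u := by
        obtain ⟨a, ha', b, hb', rfl⟩ := hprod Y U hcYU z hzUY
        intro u hu
        have h1 := hcYU a ha' u hu
        have h2 := cm_self U hU b hb' u hu
        rw [← mul_assoc, ← h1, mul_assoc, ← h2, mul_assoc]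
      have hznU : z ∉ U := by
        intro h
        exact hWU (cm_symm (cm_of U hU z h hz1 W hzW))
      have hzw := hzW w hw
      obtain ⟨q, hq⟩ : ∃ q, q = z * w := ⟨_, rfl⟩
      have hq1 : q ≠ 1 := by
        rw [hq]
        intro h
        apply hwU
        intro u hu
        have h1 : w = z⁻¹ := eq_inv_of_mul_eq_one_right h
        rw [h1]
        exact (Commute.inv_right (hzU u hu))
      have hzWne : Subgroup.zpowers z ≠ W := by
        intro h
        apply hwU
        intro u hu
        exact comz u z (hzU u hu) w (by rw [h]; exact hw)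
      have hqK : Subgroup.zpowers q ∈ K := by
        apply ha (Subgroup.zpowers z) hzK W hW hzWne
        · exact cm_of _ hzK z (Subgroup.mem_zpowers z) hz1 W hzW
        · rw [Subgroup.zpowers_le, hq]
          exact Subgroup.mul_mem_sup (Subgroup.mem_zpowers z) hw
        · apply hzc q hq1
          rw [hq, (show Commute z w from hzw.symm).mul_pow, hpow _ (hK _ hzK) z (Subgroup.mem_zpowers z), hpow W (hK W hW) w hw, one_mul]
      have hsub : perp V ⊆ perp (Subgroup.zpowers z) := by
        rw [← hUV]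
        intro R hR
        refine ⟨hR.1, cm_symm (cm_of _ hzK z (Subgroup.mem_zpowers z) hz1 R ?_)⟩
        by_cases hRU : R = U
        · rw [hRU]; exact hzU
        obtain ⟨a, ha1, haRU, haK, haW⟩ := L1 R hR.1 U hU hRU hR.2 W hW
        obtain ⟨b, hb1, hbRU, hbK, hbq⟩ := L1 R hR.1 U hU hRU hR.2 _ hqK
        have haU : a ∉ U := fun h => hWU (cm_symm (cm_of U hU a h ha1 W haW))
        have hbq' := hbq q (Subgroup.mem_zpowers q)
        have hbU : b ∉ U := by
          intro h
          apply hwU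
          have h1 : ∀ u ∈ U, q * u = u * q := by
            intro u hu
            exact comz q b hbq' u (by rw [hgen U (hK U hU) b h hb1]; exact hu)
          intro u hu
          have h2 := h1 u hu
          have h3 := hzU u hu
          rw [hq] at h2
          -- z w u = u z w = z u w
          have h4 : z * (u * w) = z * (w * u) := by
            rw [← mul_assoc, ← h3, mul_assoc, ← h2, mul_assoc]
          exact mul_left_cancel h4
        -- elements of R ⊔ U commute with U
        have hcU : ∀ c ∈ R ⊔ U, ∀ u ∈ U, c * u = u * c := by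
          intro c hc u hu
          obtain ⟨r, hr, t, ht, rfl⟩ := hprod R U hR.2 c hc
          have h1 := hR.2 r hr u hu
          have h2 := cm_self U hU t ht u hu
          rw [mul_assoc, h2, ← mul_assoc, h1, mul_assoc]
        have haw := haW w hw
        have haw' : ∀ g ∈ U.map (MulAut.conj w).toMonoidHom, g * a = a * g := by
          intro g hg
          obtain ⟨u, hu, rfl⟩ := (hmem U w g).1 hg
          have h1 := hcU a haRU u hu
          have c1 : Commute a w := haw.symm
          have c2 : Commute a u := h1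
          exact (((c1.mul_right c2).mul_right c1.inv_right).eq).symm
        have hbw' : ∀ g ∈ U.map (MulAut.conj w).toMonoidHom, g * b = b * g := by
          intro g hg
          obtain ⟨u, hu, rfl⟩ := (hmem U w g).1 hg
          have h1 := hcU b hbRU u hu
          have c1 : Commute b q := hbq'.symm
          have c2 : Commute b u := h1
          have h3 : w * u * w⁻¹ = q * u * q⁻¹ := by
            rw [hq]
            have h4 := hzU u hu
            have h5 : z * w = w * z := hzw.symm
            rw [h5]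
            calc w * u * w⁻¹ = w * (u * z) * z⁻¹ * w⁻¹ := by group
              _ = w * (z * u) * z⁻¹ * w⁻¹ := by rw [h4]
              _ = w * z * u * (w * z)⁻¹ := by group
          rw [h3]
          exact (((c1.mul_right c2).mul_right c1.inv_right).eq).symm
        -- compare `a` and `b`
        obtain ⟨r₁, hr₁, u₁, hu₁, ha2⟩ := hprod R U hR.2 a haRU
        obtain ⟨r₂, hr₂, u₂, hu₂, hb2⟩ := hprod R U hR.2 b hbRU
        have hr₁1 : r₁ ≠ 1 := by
          rintro rfl
          apply haU; rw [ha2, one_mul]; exact hu₁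
        obtain ⟨k, hk⟩ := Subgroup.mem_zpowers_iff.1 (show r₂ ∈ Subgroup.zpowers r₁ by rw [hgen R (hK R hR.1) r₁ hr₁ hr₁1]; exact hr₂)
        have hak : a ^ k = r₂ * u₁ ^ k := by
          rw [ha2, (show Commute r₁ u₁ from hR.2 r₁ hr₁ u₁ hu₁).mul_zpow, hk]
        have hdU : (a ^ k)⁻¹ * b ∈ U := by
          rw [hak, hb2]
          have : (r₂ * u₁ ^ k)⁻¹ * (r₂ * u₂) = (u₁ ^ k)⁻¹ * u₂ := by group
          rw [this]
          exact U.mul_mem (U.inv_mem (U.zpow_mem hu₁ k)) hu₂
        by_cases hd : (a ^ k)⁻¹ * b = 1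
        · have hbk : b = a ^ k := (inv_mul_eq_one.1 hd).symm
          have hbw : w * b = b * w := by
            rw [hbk]
            exact (Commute.zpow_right haw k)
          have hbz : z * b = b * z := by
            rw [hq] at hbq'
            have h4 : z * b * w = b * z * w := by
              rw [mul_assoc, ← hbw, ← mul_assoc, hbq', ← mul_assoc]
            exact mul_right_cancel h4
          intro r hr
          exact (L4 R hR.1 U hU hR.2 b hbRU hbU z hbz (fun u hu => (hzU u hu).symm) r hr).symm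
        · exfalso
          apply hnc
          intro g hg u hu
          rw [← hgen U (hK U hU) _ hdU hd] at hu
          refine comz g _ ?_ u hu
          have c1 : Commute g a := haw' g hg
          have c2 : Commute g b := hbw' g hg
          exact ((c1.zpow_right k).inv_right.mul_right c2).eq
      have h9 := hmax _ hzK hsub
      apply hWperp
      rw [← h9]
      exact ⟨hW, cm_symm (cm_of _ hzK z (Subgroup.mem_zpowers z) hz1 W hzW)⟩
    have C2 : ∀ U ∈ K, perp U = perp V → ∀ w ∈ W, perp (U.map (MulAut.conj w).toMonoidHom) = perp V := by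
      intro U hU hUV w hw
      apply hmax _ (hKc U hU w)
      rw [← hUV]
      intro R hR
      refine ⟨hR.1, ?_⟩
      have hc1 := C1 U hU hUV w hw
      by_cases hRU : R = U
      · rw [hRU]; exact cm_symm hc1
      have hWU : ¬ cm W U := fun h => hWperp (by rw [← hUV]; exact ⟨hW, h⟩)
      obtain ⟨a, ha1, haRU, haK, haW⟩ := L1 R hR.1 U hU hRU hR.2 W hW
      have haU : a ∉ U := fun h => hWU (cm_symm (cm_of U hU a h ha1 W haW))
      have haw' : ∀ g ∈ U.map (MulAut.conj w).toMonoidHom, g * a = a * g := by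
        intro g hg
        obtain ⟨u, hu, rfl⟩ := (hmem U w g).1 hg
        have h1 : a * u = u * a := by
          obtain ⟨r, hr, t, ht, rfl⟩ := hprod R U hR.2 a haRU
          have h1 := hR.2 r hr u hu
          have h2 := cm_self U hU t ht u hu
          rw [mul_assoc, h2, ← mul_assoc, h1, mul_assoc]
        have c1 : Commute a w := (haW w hw).symm
        have c2 : Commute a u := h1
        exact (((c1.mul_right c2).mul_right c1.inv_right).eq).symm
      intro r hr g hg
      exact (L4 R hR.1 U hU hR.2 a haRU haU g (haw' g hg) (fun u hu => hc1 g hg u hu) r hr).symm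
    have hWT : W ≤ Subgroup.normalizer (T : Set G) := by
      have h1 : ∀ w ∈ W, ∀ x ∈ T, w * x * w⁻¹ ∈ T := by
        intro w hw x hx
        rcases hx with hx | hx
        · left; rw [hx]; group
        · right
          have h2 : (Subgroup.zpowers x).map (MulAut.conj w).toMonoidHom = Subgroup.zpowers (w * x * w⁻¹) := by
            rw [MonoidHom.map_zpowers]; rfl
          rw [← h2]
          exact ⟨hKc _ hx.1 w, C2 _ hx.1 hx.2 w hw⟩
      intro w hw
      rw [Subgroup.mem_normalizer_iff]
      intro x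
      constructor
      · exact h1 w hw x
      · intro hx
        have := h1 w⁻¹ (W.inv_mem hw) _ hx
        have e : w⁻¹ * (w * x * w⁻¹) * w⁻¹⁻¹ = x := by group
        rwa [e] at this
    have hWp : IsPGroup p ↥W := IsPGroup.of_card (n := 1) (by rw [hK W hW, pow_one])
    have hTb : T ≠ ⊥ := by
      obtain ⟨v, hv, hv1⟩ := hV1
      intro h
      exact hv1 (Subgroup.mem_bot.1 (h ▸ hVT hv))
    obtain ⟨x, hxT, hx1, hxW⟩ : ∃ x ∈ T, x ≠ 1 ∧ ∀ w ∈ W, w * x = x * w := by
      have h1 := CfsgH2.inf_centralizer_ne_bot_of_isPGroup (p := p) hTp hWp hWT hTb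
      obtain ⟨⟨x, hx⟩, hx1⟩ := Subgroup.ne_bot_iff_exists_ne_one.1 h1
      exact ⟨x, hx.1, fun h => hx1 (Subtype.ext h), fun w hw => Subgroup.mem_centralizer_iff.1 hx.2 w hw⟩
    have hx' := ((hTmem x).1 hxT).resolve_left hx1
    apply hWperp
    rw [← hx'.2]
    exact ⟨hW, cm_symm (cm_of _ hx'.1 x (Subgroup.mem_zpowers x) hx1 W hxW)⟩
  have hperpV : perp V = K := by
    ext W
    exact ⟨fun h => h.1, fun h => ⟨h, cm_symm (hall W h)⟩⟩
  have hTn : T.Normal := by
    refine ⟨fun x hx g => ?_⟩
    rcases hx with hx | hx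
    · left; rw [hx]; group
    · right
      have h2 : (Subgroup.zpowers x).map (MulAut.conj g).toMonoidHom = Subgroup.zpowers (g * x * g⁻¹) := by
        rw [MonoidHom.map_zpowers]; rfl
      rw [← h2]
      refine ⟨hKc _ hx.1 g, ?_⟩
      rw [hperpV]
      ext W
      refine ⟨fun h => h.1, fun h => ⟨h, ?_⟩⟩
      have h3 := hKc W h g⁻¹
      have h4 : W.map (MulAut.conj g⁻¹).toMonoidHom ∈ perp (Subgroup.zpowers x) := by
        rw [hx.2, hperpV]; exact h3
      intro w hw y hy
      obtain ⟨u, hu, rfl⟩ := (hmem _ g y).1 hy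
      have h5 := h4.2 (g⁻¹ * w * g) ((hmem W g⁻¹ _).2 ⟨w, hw, by rw [inv_inv]⟩) u hu
      calc w * (g * u * g⁻¹) = g * (g⁻¹ * w * g * u) * g⁻¹ := by group
        _ = g * (u * (g⁻¹ * w * g)) * g⁻¹ := by rw [h5]
        _ = g * u * g⁻¹ * w := by group
  refine ⟨⟨V, hVK, fun W hW v hv w hw => hall W hW v hv w hw, hVT.trans (CfsgH2.le_pCore hTn hTp)⟩, ?_⟩
  intro hsimple
  haveI := hsimple
  have hTtop : T = ⊤ := by
    rcases hTn.eq_bot_or_eq_top with h | h
    · exfalso
      obtain ⟨v, hv, hv1⟩ := hV1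
      exact hv1 (Subgroup.mem_bot.1 (h ▸ hVT hv))
    · exact h
  have hab : ∀ a b : G, a * b = b * a := by
    intro a b
    have h1 : a ∈ T := by rw [hTtop]; trivial
    have h2 : b ∈ T := by rw [hTtop]; trivial
    rcases h1 with h1 | h1
    · rw [h1, one_mul, mul_one]
    rcases h2 with h2 | h2
    · rw [h2, one_mul, mul_one]
    have h3 : Subgroup.zpowers a ∈ perp (Subgroup.zpowers b) := by rw [h2.2, ← h1.2]; exact hperp_self _ h1.1
    exact h3.2 a (Subgroup.mem_zpowers a) b (Subgroup.mem_zpowers b)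
  have hnt : ∀ X ∈ K, X = ⊤ := by
    intro X hX
    have hn : X.Normal := ⟨fun x hx g => by rw [hab g x, mul_inv_cancel_right]; exact hx⟩
    rcases hn.eq_bot_or_eq_top with h | h
    · exfalso
      have h1 := hK X hX
      rw [h, Subgroup.card_bot] at h1
      exact hp.one_lt.ne h1
    · exact h
  exact hXY₀ ((hnt X₀ hX₀).trans (hnt Y₀ hY₀).symm)

end Cfsg.Agent.S3196
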