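import Cfsg.Statements.S3200
import Mathlib
import Cfsg.Agent.H1.KW4
import Cfsg.Agent.H1.Carter
import Cfsg.Agent.H1.SysNorm3

set_option autoImplicit false
open Cfsg

namespace Cfsg.Agent.S3200
open Pointwise

/-- Let H be a finite group in which a Sylow 2-subgroup has an abelian complement (an abelian subgroup meeting it trivially whose product with it is all of H). Then H is solvable, and every subgroup and every quotient group of H again has a Sylow 2-subgroup with an abelian complement. -/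
theorem result {H : Type*} [Group H] [Finite H]
    (S : Sylow 2 H) (C : Subgroup H) (hC : IsMulCommutative ↥C) (hSC : Subgroup.IsComplement' (S : Subgroup H) C) :
    Group.IsSolvable H ∧
    (∀ L : Subgroup H, ∃ (P : Sylow 2 ↥L) (D : Subgroup ↥L), IsMulCommutative ↥D ∧ Subgroup.IsComplement' (P : Subgroup ↥L) D) ∧
    (∀ (N : Subgroup H) [N.Normal], ∃ (P : Sylow 2 (H ⧸ N)) (D : Subgroup (H ⧸ N)),
      IsMulCommutative ↥D ∧ Subgroup.IsComplement' (P : Subgroup (H ⧸ N)) D) := by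
  classical
  haveI : Fact (Nat.Prime 2) := ⟨Nat.prime_two⟩
  have hCi : C.index = Nat.card ↥(S : Subgroup H) := hSC.index_eq_card
  have hSi : (S : Subgroup H).index = Nat.card ↥C := hSC.symm.index_eq_card
  have hCc : (Nat.card ↥C).Coprime 2 := by
    rw [← hSi, Nat.coprime_comm]
    exact (Nat.Prime.coprime_iff_not_dvd Nat.prime_two).2 S.not_dvd_index
  obtain ⟨n, hn⟩ := IsPGroup.iff_card.1 S.isPGroup'
  have hCn : C.index = 2 ^ n := hCi.trans hn
  have hsol : Group.IsSolvable H := by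
    refine CfsgH1.kegel_wielandt (Nat.card H) H rfl (S : Subgroup H) C S.isPGroup'.isNilpotent ?_ ?_
    · letI : CommGroup ↥C := { (inferInstance : Group ↥C) with mul_comm := hC.is_comm.comm }
      exact (inferInstance : Group.IsNilpotent ↥C)
    · intro g
      obtain ⟨⟨x, y⟩, hxy⟩ := hSC.2 g
      exact ⟨x, x.2, y, y.2, hxy.symm⟩
  haveI := hsol
  -- complements
  have hcomp : ∀ {L : Type _} [Group L] [Finite L] (D : Subgroup L) (k : ℕ), (Nat.card ↥D).Coprime 2 → D.index = 2 ^ k → 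
      ∃ P : Sylow 2 L, Subgroup.IsComplement' (P : Subgroup L) D := by
    intro L _ _ D k hD hk
    obtain ⟨P⟩ : Nonempty (Sylow 2 L) := inferInstance
    refine ⟨P, ?_⟩
    obtain ⟨m, hm⟩ := IsPGroup.iff_card.1 P.isPGroup'
    have h1 := D.card_mul_index
    have h2 := (P : Subgroup L).card_mul_index
    have h3 : (Nat.card ↥(P : Subgroup L)) = 2 ^ m := hm
    have h4 : Nat.Coprime (2 ^ k) (P : Subgroup L).index :=
      Nat.Coprime.pow_left k ((Nat.Prime.coprime_iff_not_dvd Nat.prime_two).2 P.not_dvd_index)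
    have h5 : Nat.Coprime (2 ^ m) (Nat.card ↥D) := Nat.Coprime.pow_left m hD.symm
    have h6 : 2 ^ m = 2 ^ k := by
      apply Nat.dvd_antisymm
      · apply h5.dvd_of_dvd_mul_left
        rw [← hk, h1, ← h2, h3]
        exact Dvd.intro _ rfl
      · apply h4.dvd_of_dvd_mul_right
        rw [← h3, h2, ← h1, hk]
        exact Dvd.intro_left _ rfl
    apply Subgroup.isComplement'_of_coprime
    · rw [h3, h6, ← hk, mul_comm, h1]
    · rw [h3]; exact h5
  refine ⟨hsol, ?_, ?_⟩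
  · intro L
    haveI : Group.IsSolvable ↥L := inferInstance
    obtain ⟨D, k, hDc, hDk⟩ := CfsgH1.exists_hall_pprime (G := ↥L) Nat.prime_two
    obtain ⟨P, hP⟩ := hcomp D k hDc hDk
    refine ⟨P, D, ?_, hP⟩
    have hDm : (Nat.card ↥(D.map L.subtype)).Coprime 2 := by
      rw [Subgroup.card_map_of_injective (Subgroup.subtype_injective _)]; exact hDc
    obtain ⟨Q, l, hQc, hQl, hDQ⟩ := CfsgH1.exists_hall_pprime_ge Nat.prime_two hDm
    obtain ⟨g, hg⟩ := CfsgH1.hall_pprime_conj Nat.prime_two hCc hCn hQc hQl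
    refine ⟨⟨fun a b => ?_⟩⟩
    apply Subtype.ext
    apply Subtype.ext
    have ha : ((a : ↥L) : H) ∈ MulAut.conj g • C := by rw [hg]; exact hDQ ⟨a, a.2, rfl⟩
    have hb : ((b : ↥L) : H) ∈ MulAut.conj g • C := by rw [hg]; exact hDQ ⟨b, b.2, rfl⟩
    obtain ⟨x, hx, hxa⟩ := ha
    obtain ⟨y, hy, hyb⟩ := hb
    have hxy : x * y = y * x := congrArg Subtype.val (hC.is_comm.comm (⟨x, hx⟩ : ↥C) ⟨y, hy⟩)
    change ((a : ↥L) : H) * ((b : ↥L) : H) = ((b : ↥L) : H) * ((a : ↥L) : H)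
    rw [← hxa, ← hyb]
    change g * x * g⁻¹ * (g * y * g⁻¹) = g * y * g⁻¹ * (g * x * g⁻¹)
    calc g * x * g⁻¹ * (g * y * g⁻¹) = g * (x * y) * g⁻¹ := by group
      _ = g * (y * x) * g⁻¹ := by rw [hxy]
      _ = g * y * g⁻¹ * (g * x * g⁻¹) := by group
  · intro N hN
    have hDc : (Nat.card ↥(C.map (QuotientGroup.mk' N))).Coprime 2 := Nat.Coprime.coprime_dvd_left (Subgroup.card_map_dvd _ _) hCc
    have hDi : (C.map (QuotientGroup.mk' N)).index ∣ 2 ^ n := by
      rw [← hCn]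
      exact Subgroup.index_map_dvd _ (QuotientGroup.mk'_surjective N)
    obtain ⟨k, -, hk⟩ := (Nat.dvd_prime_pow Nat.prime_two).1 hDi
    obtain ⟨P, hP⟩ := hcomp (C.map (QuotientGroup.mk' N)) k hDc hk
    refine ⟨P, _, ?_, hP⟩
    refine ⟨⟨?_⟩⟩
    rintro ⟨_, x, hx, rfl⟩ ⟨_, y, hy, rfl⟩
    apply Subtype.ext
    change QuotientGroup.mk' N x * QuotientGroup.mk' N y = QuotientGroup.mk' N y * QuotientGroup.mk' N x
    rw [← map_mul, ← map_mul]
    congr 1
    exact congrArg Subtype.val (hC.is_comm.comm (⟨x, hx⟩ : ↥C) ⟨y, hy⟩)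

end Cfsg.Agent.S3200
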