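import Cfsg.Statements.S3208
import Mathlib

set_option autoImplicit false
open Cfsg

namespace Cfsg.Agent.S3208

/-- Let j be an involution of a finite group G, H a subgroup of G, and T a Sylow 2-subgroup of H ∩ C_G(j) containing j such that ⟨j⟩ is a characteristic subgroup of T. Then T is a Sylow 2-subgroup of H. -/
theorem result {G : Type*} [Group G] [Finite G]
    (j : G) (hj : orderOf j = 2) (H T : Subgroup G) (hT : T ≤ H ⊓ Subgroup.centralizer ({j} : Set G)) (h2 : IsPGroup 2 ↥T)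
    (hSyl : ¬ 2 ∣ T.relIndex (H ⊓ Subgroup.centralizer ({j} : Set G))) (hjT : j ∈ T)
    (hchar : ((Subgroup.zpowers j).subgroupOf T).Characteristic) :
    ¬ 2 ∣ T.relIndex H := by
  classical
  haveI : Fact (Nat.Prime 2) := ⟨Nat.prime_two⟩
  intro h2H
  have hTH : T ≤ H := hT.trans inf_le_left
  -- `N_H(T) ≤ C(j)`
  have hN : ∀ n ∈ Subgroup.normalizer (T : Set G), n * j * n⁻¹ = j := by
    intro n hn
    have h1 : Subgroup.map (MulAut.conj n).toMonoidHom T = T := by
      ext u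
      constructor
      · rintro ⟨a, ha, rfl⟩
        exact (Subgroup.mem_normalizer_iff.1 hn a).1 ha
      · intro hu
        refine ⟨n⁻¹ * u * n, ?_, ?_⟩
        · apply (Subgroup.mem_normalizer_iff.1 hn _).2
          have : n * (n⁻¹ * u * n) * n⁻¹ = u := by group
          rw [this]; exact hu
        · change n * (n⁻¹ * u * n) * n⁻¹ = u
          group
    let β : ↥T ≃* ↥T := (T.equivMapOfInjective (MulAut.conj n).toMonoidHom (MulAut.conj n).injective).trans
      (MulEquiv.subgroupCongr h1)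
    have h2 := hchar.fixed β
    have h3 : (⟨j, hjT⟩ : ↥T) ∈ ((Subgroup.zpowers j).subgroupOf T).comap β.toMonoidHom := by
      rw [h2]
      exact Subgroup.mem_zpowers j
    have h4 : n * j * n⁻¹ ∈ Subgroup.zpowers j := h3
    obtain ⟨k, hk⟩ := Subgroup.mem_zpowers_iff.1 h4
    have hjj : j ^ (2 : ℤ) = 1 := by
      have := pow_orderOf_eq_one j
      rw [hj] at this
      exact_mod_cast this
    rcases Int.even_or_odd' k with ⟨m, hm | hm⟩
    · exfalso
      rw [hm, zpow_mul, hjj, one_zpow] at hk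
      have h5 : j = 1 := by
        have : n⁻¹ * (n * j * n⁻¹) * n = 1 := by rw [← hk]; group
        have e : n⁻¹ * (n * j * n⁻¹) * n = j := by group
        rwa [e] at this
      rw [h5, orderOf_one] at hj
      omega
    · rw [hm, zpow_add, zpow_mul, hjj, one_zpow, one_mul, zpow_one] at hk
      exact hk.symm
  -- enlarge `T` inside `H`
  have hTp : IsPGroup 2 ↥(T.subgroupOf H) := h2.of_equiv (Subgroup.subgroupOfEquivOfLe hTH).symm
  obtain ⟨S, hS⟩ := hTp.exists_le_sylow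
  have hne : T.subgroupOf H ≠ (S : Subgroup ↥H) := by
    intro h
    have h1 := S.not_dvd_index
    rw [← h] at h1
    exact h1 h2H
  have hlt : T.subgroupOf H < (S : Subgroup ↥H) := lt_of_le_of_ne hS hne
  -- normalizers grow in `S`
  have hnc : NormalizerCondition ↥(S : Subgroup ↥H) := by
    haveI := S.isPGroup'.isNilpotent
    exact Group.normalizerCondition_of_isNilpotent
  have hlt2 : (T.subgroupOf H).subgroupOf (S : Subgroup ↥H) < ⊤ := by
    rw [lt_top_iff_ne_top]
    intro h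
    rw [Subgroup.subgroupOf_eq_top] at h
    exact absurd (le_antisymm hS h) hne
  obtain ⟨n, hn1, hn2⟩ := SetLike.exists_of_lt (hnc _ hlt2)
  -- `⟨T, n⟩` is a 2-subgroup of `H ∩ C(j)`
  have hnN : ((n : ↥H) : G) ∈ Subgroup.normalizer (T : Set G) := by
    rw [Subgroup.mem_normalizer_iff]
    intro u
    rw [Subgroup.mem_normalizer_iff] at hn1
    constructor
    · intro hu
      exact (hn1 ⟨⟨u, hTH hu⟩, hS (show (⟨u, hTH hu⟩ : ↥H) ∈ T.subgroupOf H from hu)⟩).1 hu
    · intro hu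
      have huH : u ∈ H := by
        have := H.mul_mem (H.mul_mem (H.inv_mem (n : ↥H).2) (hTH hu)) (n : ↥H).2
        have e : ((n : ↥H) : G)⁻¹ * (((n : ↥H) : G) * u * ((n : ↥H) : G)⁻¹) * ((n : ↥H) : G) = u := by group
        rwa [e] at this
      have huS : (⟨u, huH⟩ : ↥H) ∈ (S : Subgroup ↥H) := by
        have h1 : (⟨_, hTH hu⟩ : ↥H) ∈ (S : Subgroup ↥H) := hS (show (⟨_, hTH hu⟩ : ↥H) ∈ T.subgroupOf H from hu)
        have h2 := mul_mem (mul_mem (inv_mem n.2) h1) n.2
        have e : (n : ↥H)⁻¹ * ⟨_, hTH hu⟩ * (n : ↥H) = ⟨u, huH⟩ := by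
          apply Subtype.ext
          change ((n : ↥H) : G)⁻¹ * (((n : ↥H) : G) * u * ((n : ↥H) : G)⁻¹) * ((n : ↥H) : G) = u
          group
        rwa [e] at h2
      exact (hn1 ⟨⟨u, huH⟩, huS⟩).2 hu
  have hnC : ((n : ↥H) : G) ∈ H ⊓ Subgroup.centralizer ({j} : Set G) := by
    refine ⟨(n : ↥H).2, ?_⟩
    exact Subgroup.mem_centralizer_singleton_iff.2 (mul_inv_eq_iff_eq_mul.1 (hN _ hnN))
  -- the 2-subgroup `S ∩ C(j)` contains `T` properly
  set L : Subgroup G := H ⊓ Subgroup.centralizer ({j} : Set G) with hL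
  have hSL : IsPGroup 2 ↥(((S : Subgroup ↥H).map H.subtype) ⊓ L) := (S.isPGroup'.map H.subtype).to_le inf_le_left
  have hle : T ≤ ((S : Subgroup ↥H).map H.subtype) ⊓ L := by
    intro u hu
    exact ⟨⟨⟨u, hTH hu⟩, hS (show (⟨u, hTH hu⟩ : ↥H) ∈ T.subgroupOf H from hu), rfl⟩, hT hu⟩
  have hnot : ((n : ↥H) : G) ∉ T := fun h => hn2 h
  have hin : ((n : ↥H) : G) ∈ ((S : Subgroup ↥H).map H.subtype) ⊓ L := ⟨⟨n, n.2, rfl⟩, hnC⟩
  have hrel : T.relIndex (((S : Subgroup ↥H).map H.subtype) ⊓ L) ∣ T.relIndex L := by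
    have h1 := Subgroup.relIndex_mul_relIndex T (((S : Subgroup ↥H).map H.subtype) ⊓ L) L hle inf_le_right
    exact Dvd.intro _ h1
  obtain ⟨k, hk⟩ := (IsPGroup.iff_card (p := 2)).1 hSL
  have hdvd : T.relIndex (((S : Subgroup ↥H).map H.subtype) ⊓ L) ∣ 2 ^ k := by
    rw [← hk]
    exact Subgroup.index_dvd_card _
  obtain ⟨m, -, hm⟩ := (Nat.dvd_prime_pow Nat.prime_two).1 hdvd
  have hm0 : m ≠ 0 := by
    rintro rfl
    rw [pow_zero, Subgroup.relIndex_eq_one] at hm
    exact hnot (hm hin)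
  apply hSyl
  exact (dvd_trans (dvd_pow_self 2 hm0) (dvd_of_eq hm.symm)).trans hrel

end Cfsg.Agent.S3208
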