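import Cfsg.Statements.S3209
import Mathlib
import Cfsg.Agent.L.Misc.SL2Prod

set_option autoImplicit false
open Cfsg

namespace Cfsg.Agent.S3209

/-- Let L₁ ≅ SL₂(q₁) and L₂ ≅ SL₂(q₂), q₁ and q₂ odd, be elementwise-commuting subgroups of a finite group meeting in ⟨j⟩ for an involution j. Then L₁L₂ has exactly two conjugacy classes of involutions: the central involution j, and one further class (there is an involution x ≠ j in L₁L₂, and every involution of L₁L₂ other than j is conjugate to x by an element of L₁L₂). -/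
theorem result {G : Type*} [Group G] [Finite G]
    {F₁ : Type*} [Field F₁] [Fintype F₁] {F₂ : Type*} [Field F₂] [Fintype F₂]
    (hF₁ : Odd (Fintype.card F₁)) (hF₂ : Odd (Fintype.card F₂)) (L₁ L₂ : Subgroup G)
    (e₁ : ↥L₁ ≃* Matrix.SpecialLinearGroup (Fin 2) F₁) (e₂ : ↥L₂ ≃* Matrix.SpecialLinearGroup (Fin 2) F₂)
    (hc : ∀ x ∈ L₁, ∀ y ∈ L₂, x * y = y * x) (j : G) (hj : orderOf j = 2) (hm : L₁ ⊓ L₂ = Subgroup.zpowers j) :
    ∃ x ∈ L₁ ⊔ L₂, orderOf x = 2 ∧ x ≠ j ∧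
      ∀ y ∈ L₁ ⊔ L₂, orderOf y = 2 → y = j ∨ ∃ g ∈ L₁ ⊔ L₂, g * x * g⁻¹ = y := by
  classical
  have hjj : j * j = 1 := by rw [← pow_two, ← hj, pow_orderOf_eq_one]
  have hj1 : j ≠ 1 := by rintro rfl; rw [orderOf_one] at hj; omega
  have hji : j⁻¹ = j := inv_eq_of_mul_eq_one_right hjj
  have hjm : j ∈ L₁ ⊓ L₂ := by rw [hm]; exact Subgroup.mem_zpowers j
  have hzj : ∀ y ∈ Subgroup.zpowers j, y = 1 ∨ y = j := by
    intro y hy
    obtain ⟨k, rfl⟩ := Subgroup.mem_zpowers_iff.1 hy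
    rcases Int.even_or_odd' k with ⟨m, h | h⟩
    · left; rw [h, zpow_mul, zpow_two, hjj, one_zpow]
    · right; rw [h, zpow_add, zpow_mul, zpow_two, hjj, one_zpow, one_mul, zpow_one]
  obtain ⟨⟨a₀, ha₀, haa₀⟩, hA1, hA2⟩ := CfsgL.SL2Prod.hdata hjj hj1 hF₁ L₁ e₁ hjm.1
  obtain ⟨⟨b₀, hb₀, hbb₀⟩, hB1, hB2⟩ := CfsgL.SL2Prod.hdata hjj hj1 hF₂ L₂ e₂ hjm.2
  have hprod : ∀ z ∈ L₁ ⊔ L₂, ∃ x ∈ L₁, ∃ y ∈ L₂, z = x * y := by
    let P : Subgroup G := {
      carrier := {z | ∃ x ∈ L₁, ∃ y ∈ L₂, z = x * y}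
      one_mem' := ⟨1, L₁.one_mem, 1, L₂.one_mem, (mul_one 1).symm⟩
      mul_mem' := by
        rintro _ _ ⟨x, hx, y, hy, rfl⟩ ⟨x', hx', y', hy', rfl⟩
        refine ⟨x * x', L₁.mul_mem hx hx', y * y', L₂.mul_mem hy hy', ?_⟩
        have := hc x' hx' y hy
        calc x * y * (x' * y') = x * (y * x') * y' := by simp only [mul_assoc]
          _ = x * x' * (y * y') := by rw [← this]; simp only [mul_assoc]
      inv_mem' := by
        rintro _ ⟨x, hx, y, hy, rfl⟩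
        refine ⟨x⁻¹, L₁.inv_mem hx, y⁻¹, L₂.inv_mem hy, ?_⟩
        rw [mul_inv_rev]
        exact (hc _ (L₁.inv_mem hx) _ (L₂.inv_mem hy)).symm }
    have h1 : L₁ ⊔ L₂ ≤ P := sup_le (fun x hx => ⟨x, hx, 1, L₂.one_mem, (mul_one x).symm⟩)
      (fun y hy => ⟨1, L₁.one_mem, y, hy, (one_mul y).symm⟩)
    intro z hz
    exact h1 hz
  have hne : a₀ * b₀ ≠ 1 ∧ a₀ * b₀ ≠ j := by
    have hk : a₀ ∉ L₁ ⊓ L₂ := by
      rw [hm]
      intro h
      rcases hzj a₀ h with h | h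
      · rw [h, one_mul] at haa₀; exact hj1 haa₀.symm
      · rw [h, hjj] at haa₀; exact hj1 haa₀.symm
    constructor
    · intro h
      apply hk
      refine ⟨ha₀, ?_⟩
      rw [eq_inv_of_mul_eq_one_left h]
      exact L₂.inv_mem hb₀
    · intro h
      apply hk
      refine ⟨ha₀, ?_⟩
      rw [eq_mul_inv_of_mul_eq h]
      exact L₂.mul_mem hjm.2 (L₂.inv_mem hb₀)
  have hsqp : ∀ a ∈ L₁, ∀ b ∈ L₂, a * b * (a * b) = a * a * (b * b) := by
    intro a ha b hb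
    have := hc a ha b hb
    calc a * b * (a * b) = a * (b * a) * b := by simp only [mul_assoc]
      _ = a * a * (b * b) := by rw [← this]; simp only [mul_assoc]
  refine ⟨a₀ * b₀, Subgroup.mul_mem_sup ha₀ hb₀, ?_, hne.2, ?_⟩
  · apply orderOf_eq_prime _ hne.1
    rw [pow_two, hsqp a₀ ha₀ b₀ hb₀, haa₀, hbb₀, hjj]
  · intro y hy hyo
    have hyy : y * y = 1 := by rw [← pow_two, ← hyo, pow_orderOf_eq_one]
    have hy1 : y ≠ 1 := by rintro rfl; rw [orderOf_one] at hyo; omega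
    obtain ⟨a, ha, b, hb, rfl⟩ := hprod y hy
    rw [hsqp a ha b hb] at hyy
    have h1 : a * a = (b * b)⁻¹ := eq_inv_of_mul_eq_one_left hyy
    have h2 : a * a ∈ L₁ ⊓ L₂ := ⟨L₁.mul_mem ha ha, by rw [h1]; exact L₂.inv_mem (L₂.mul_mem hb hb)⟩
    rw [hm] at h2
    rcases hzj _ h2 with h3 | h3
    · left
      rw [h3, one_mul] at hyy
      rcases hA1 a ha h3 with h4 | h4 <;> rcases hB1 b hb hyy with h5 | h5
      · exfalso; exact hy1 (by rw [h4, h5, one_mul])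
      · rw [h4, h5, one_mul]
      · rw [h4, h5, mul_one]
      · exfalso; exact hy1 (by rw [h4, h5, hjj])
    · right
      have h4 : b * b = j := by
        rw [h3] at hyy
        rw [← hji]; exact eq_inv_of_mul_eq_one_right hyy
      obtain ⟨g, hg, hga⟩ := hA2 a₀ ha₀ a ha haa₀ h3
      obtain ⟨k, hk, hkb⟩ := hB2 b₀ hb₀ b hb hbb₀ h4
      refine ⟨g * k, Subgroup.mul_mem_sup hg hk, ?_⟩
      have c1 := hc a₀ ha₀ k hk
      have c2 := hc g⁻¹ (L₁.inv_mem hg) (k * b₀ * k⁻¹) (L₂.mul_mem (L₂.mul_mem hk hb₀) (L₂.inv_mem hk))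
      calc g * k * (a₀ * b₀) * (g * k)⁻¹ = g * (k * a₀) * b₀ * k⁻¹ * g⁻¹ := by group
        _ = g * (a₀ * k) * b₀ * k⁻¹ * g⁻¹ := by rw [c1]
        _ = g * a₀ * ((k * b₀ * k⁻¹) * g⁻¹) := by group
        _ = g * a₀ * (g⁻¹ * (k * b₀ * k⁻¹)) := by rw [c2]
        _ = (g * a₀ * g⁻¹) * (k * b₀ * k⁻¹) := by group
        _ = a * b := by rw [hga, hkb]

end Cfsg.Agent.S3209
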