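import Cfsg.Statements.S3224
import Mathlib
import Cfsg.Agent.H3.MaxClIso

set_option autoImplicit false
open Cfsg

namespace Cfsg.Agent.S3224

/-- A finite 2-group containing an involution whose centralizer has order 4 is dihedral, quasi-dihedral (semidihedral), or of order 4. -/
theorem result {S : Type*} [Group S] [Finite S] (hS : IsPGroup 2 S)
    (x : S) (hx : orderOf x = 2) (hC : Nat.card ↥(Subgroup.centralizer ({x} : Set S)) = 4) :
    (∃ n : ℕ, Nonempty (S ≃* DihedralGroup n)) ∨ Cfsg.IsQuasiDihedral S ∨ Nat.card S = 4 := by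
  classical
  haveI : Fact (Nat.Prime 2) := ⟨Nat.prime_two⟩
  by_cases h4 : Nat.card S = 4
  · exact Or.inr (Or.inr h4)
  -- the class of `x`
  have hidx : (Subgroup.centralizer ({x} : Set S)).index * 4 = Nat.card S := by
    rw [← hC, mul_comm]; exact Subgroup.card_mul_index _
  have hcls : (Subgroup.centralizer ({x} : Set S)).index ≤ Nat.card ↥(_root_.commutator S) := by
    rw [Subgroup.index]
    refine Nat.card_le_card_of_injective (fun q : S ⧸ Subgroup.centralizer ({x} : Set S) => 
      (⟨q.out * x * q.out⁻¹ * x⁻¹, Subgroup.commutator_mem_commutator trivial trivial⟩ : ↥(_root_.commutator S))) ?_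
    intro a b hab
    have h1 : a.out * x * a.out⁻¹ * x⁻¹ = b.out * x * b.out⁻¹ * x⁻¹ := congrArg Subtype.val hab
    have h2 : a.out * x * a.out⁻¹ = b.out * x * b.out⁻¹ := mul_right_cancel h1
    rw [← QuotientGroup.out_eq' a, ← QuotientGroup.out_eq' b]
    rw [QuotientGroup.eq, Subgroup.mem_centralizer_singleton_iff]
    have e1 : a.out⁻¹ * b.out * x = a.out⁻¹ * (b.out * x * b.out⁻¹) * b.out := by group
    have e2 : x * (a.out⁻¹ * b.out) = a.out⁻¹ * (a.out * x * a.out⁻¹) * b.out := by group
    rw [e1, e2, h2]
  have hcomm : (_root_.commutator S).index ≤ 4 := by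
    have h1 := (_root_.commutator S).card_mul_index
    have h2 : 0 < (Subgroup.centralizer ({x} : Set S)).index := Nat.pos_of_ne_zero Subgroup.index_ne_zero_of_finite
    by_contra hcon
    push Not at hcon
    have h3 : (Subgroup.centralizer ({x} : Set S)).index * 5 ≤ Nat.card ↥(_root_.commutator S) * (_root_.commutator S).index :=
      Nat.mul_le_mul hcls hcon
    omega
  have hnc : ¬ IsMulCommutative S := by
    intro h
    apply h4
    rw [← hC]
    have : Subgroup.centralizer ({x} : Set S) = ⊤ := by
      rw [eq_top_iff]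
      intro s _
      rw [Subgroup.mem_centralizer_singleton_iff]
      exact h.is_comm.comm _ _
    rw [this]
    exact (Subgroup.card_top).symm
  have h2lt : 2 < (_root_.commutator S).index := by
    by_contra hcon
    push Not at hcon
    have := CfsgH3.cyclic_of_index_commutator_le hS hcon
    apply hnc
    obtain ⟨c, hc⟩ := this.exists_generator
    refine ⟨⟨fun a b => ?_⟩⟩
    obtain ⟨i, rfl⟩ := Subgroup.mem_zpowers_iff.1 (hc a)
    obtain ⟨j, rfl⟩ := Subgroup.mem_zpowers_iff.1 (hc b)
    exact (zpow_mul_comm c i j)
  have hi4 : (_root_.commutator S).index = 4 := by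
    obtain ⟨n, hn⟩ := IsPGroup.iff_card.1 hS
    have h1 : (_root_.commutator S).index ∣ 2 ^ n := by rw [← hn]; exact Subgroup.index_dvd_card _
    obtain ⟨m, -, hm⟩ := (Nat.dvd_prime_pow Nat.prime_two).1 h1
    have h3 : (_root_.commutator S).index ≠ 3 := by
      intro h
      rw [h] at hm
      rcases m with _ | m
      · simp at hm
      · rw [pow_succ] at hm; omega
    omega
  rcases CfsgH3.maxcl_iso hS hi4 h4 with ⟨k, hk⟩ | ⟨k, h1, a, b, ha, hb, hab⟩ | ⟨k, ⟨e⟩⟩
  · exact Or.inl ⟨_, hk⟩
  · exact Or.inr (Or.inl ⟨k + 3, by omega, h1, a, b, ha, hb, hab⟩)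
  · exfalso
    apply h4
    rw [← hC]
    have h5 : orderOf (e x) = 2 := (e.orderOf_eq x).trans hx
    have h6 : ∀ y, e x * y = y * e x := by
      intro y
      rcases hex : e x with i | i
      · rw [hex] at h5
        have h7 : QuaternionGroup.a i * QuaternionGroup.a i = (1 : QuaternionGroup (2 ^ (k + 1))) := by
          have h70 := pow_orderOf_eq_one (QuaternionGroup.a i)
          rw [h5, pow_two] at h70
          exact h70
        rw [QuaternionGroup.a_mul_a, QuaternionGroup.one_def] at h7
        have h8 : i + i = 0 := QuaternionGroup.a.inj h7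
        rcases y with j | j
        · rw [QuaternionGroup.a_mul_a, QuaternionGroup.a_mul_a]
          exact congrArg _ (add_comm i j)
        · rw [QuaternionGroup.a_mul_xa, QuaternionGroup.xa_mul_a]
          have h9 : j - i = j + i := by
            have : j - i = j + i - (i + i) := by ring
            rw [this, h8, sub_zero]
          exact congrArg _ h9
      · rw [hex] at h5
        haveI : NeZero (2 ^ (k + 1)) := ⟨by positivity⟩
        rw [QuaternionGroup.orderOf_xa] at h5
        omega
    have : Subgroup.centralizer ({x} : Set S) = ⊤ := by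
      rw [eq_top_iff]
      intro s _
      rw [Subgroup.mem_centralizer_singleton_iff]
      apply e.injective
      rw [map_mul, map_mul]
      exact (h6 _).symm
    rw [this]
    exact (Subgroup.card_top).symm

end Cfsg.Agent.S3224
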