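import Cfsg.Statements.S3225
import Mathlib
import Cfsg.Agent.H3.Fusion

set_option autoImplicit false
open Cfsg

namespace Cfsg.Agent.S3225

/-- Let G be a finite group of even order with no subgroup of index 2, S a Sylow 2-subgroup of G and M a subgroup of index 2 in S such that, for some n ≥ 1, every element of S outside M has order greater than 2^(n−1). Then every element of S of order 2ⁿ is conjugate in G to an element of M. -/
theorem result {G : Type*} [Group G] [Finite G] (hev : Even (Nat.card G))
    (hG : ∀ H : Subgroup G, H.index ≠ 2) (S : Sylow 2 G) (M : Subgroup G) (hMS : M ≤ (S : Subgroup G)) (hM : M.relIndex (S : Subgroup G) = 2)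
    (n : ℕ) (hn : 1 ≤ n) (hord : ∀ y ∈ (S : Subgroup G), y ∉ M → 2 ^ (n - 1) < orderOf y)
    (x : G) (hx : x ∈ (S : Subgroup G)) (hxn : orderOf x = 2 ^ n) :
    ∃ g : G, g * x * g⁻¹ ∈ M := by
  classical
  by_contra hcon
  push Not at hcon
  obtain ⟨N, -, hN, -⟩ := CfsgH3.thompson_transfer S M hM x hx (fun g _ h => by
      have h1 := hcon g⁻¹
      rw [inv_inv] at h1
      exact h1 h) (fun g k hk hP => by
      by_contra hnot
      have h1 := hord _ hP hnot
      obtain ⟨j, hj⟩ := hk
      have h2 : (g⁻¹ * x ^ k * g) ^ (2 ^ (n-1)) = 1 := by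
        have e : g⁻¹ * x ^ k * g = g⁻¹ * x ^ k * (g⁻¹)⁻¹ := by rw [inv_inv]
        rw [e, conj_pow, ← pow_mul]
        have : k * 2 ^ (n-1) = 2 ^ n * j := by
          obtain ⟨m, rfl⟩ := Nat.exists_eq_add_of_le hn
          rw [hj, Nat.add_sub_cancel_left, pow_add]; ring
        rw [this, pow_mul, ← hxn, pow_orderOf_eq_one, one_pow, mul_one, mul_inv_cancel]
      have h3 := orderOf_le_of_pow_eq_one (by positivity) h2
      omega)
  exact hG N hN

end Cfsg.Agent.S3225
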