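import Cfsg.Statements.S3246
import Mathlib
import Cfsg.Agent.L.Misc.ScnCon

set_option autoImplicit false
open Cfsg

namespace Cfsg.Agent.S3246

/-- Let G be a finite group whose Sylow 2-subgroup S has a self-centralizing normal subgroup of rank at least 3. Suppose that either every maximal 2-local subgroup of G is 2-constrained with no nontrivial normal subgroup of odd order, or the centralizer of every involution of G is 2-constrained with no nontrivial normal subgroup of odd order. Then S normalizes no nontrivial subgroup of G of odd order and every 2-local subgroup of G is 2-constrained. -/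
theorem result {G : Type*} [Group G] [Finite G]
    (S : Sylow 2 G) (A : Subgroup G) (hA : Cfsg.IsSCN (S : Subgroup G) A) (hA3 : ¬ Cfsg.PRankLE 2 2 ↥A)
    (h : (∀ M : Subgroup G, Cfsg.IsMaximalTwoLocal M → Cfsg.IsPConstrained 2 ↥M ∧ Cfsg.oddCore ↥M = ⊥) ∨
      (∀ t : G, orderOf t = 2 → Cfsg.IsPConstrained 2 ↥(Subgroup.centralizer ({t} : Set G)) ∧
        Cfsg.oddCore ↥(Subgroup.centralizer ({t} : Set G)) = ⊥)) :
    (∀ X : Subgroup G, Odd (Nat.card ↥X) → (S : Subgroup G) ≤ Subgroup.normalizer (X : Set G) → X = ⊥) ∧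
      (∀ T : Subgroup G, IsPGroup 2 ↥T → T ≠ ⊥ → Cfsg.IsPConstrained 2 ↥(Subgroup.normalizer (T : Set G))) := by
  classical
  haveI : Fact (Nat.Prime 2) := ⟨Nat.prime_two⟩
  have hC : ∀ t : G, orderOf t = 2 → CfsgH1.CharP 2 ↥(Subgroup.centralizer ({t} : Set G)) := by
    intro t ht
    rcases h with h | h
    · -- inside a maximal 2-local
      have htt : t * t = 1 := by rw [← pow_two, ← ht, pow_orderOf_eq_one]
      have ht1 : t ≠ 1 := by rintro rfl; rw [orderOf_one] at ht; omega
      have hzp : IsPGroup 2 ↥(Subgroup.zpowers t) := IsPGroup.of_card (n := 1) (by rw [Nat.card_zpowers, ht, pow_one])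
      have hN : Subgroup.normalizer (Subgroup.zpowers t : Set G) = Subgroup.centralizer ({t} : Set G) := by
        apply le_antisymm
        · intro g hg
          have h1 := (Subgroup.mem_normalizer_iff.1 hg t).1 (Subgroup.mem_zpowers t)
          rw [Subgroup.mem_centralizer_singleton_iff]
          obtain ⟨k, hk⟩ := Subgroup.mem_zpowers_iff.1 h1
          rcases Int.even_or_odd' k with ⟨m, hm | hm⟩
          · exfalso
            rw [hm, zpow_mul, zpow_two, htt, one_zpow] at hk
            apply ht1
            have : g⁻¹ * (g * t * g⁻¹) * g = t := by group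
            rw [← this, ← hk]; group
          · rw [hm, zpow_add, zpow_mul, zpow_two, htt, one_zpow, one_mul, zpow_one] at hk
            exact mul_inv_eq_iff_eq_mul.1 hk.symm
        · intro g hg
          have hg' := Subgroup.mem_centralizer_singleton_iff.1 hg
          have key : ∀ y ∈ Subgroup.zpowers t, g * y = y * g := by
            intro y hy
            obtain ⟨k, rfl⟩ := Subgroup.mem_zpowers_iff.1 hy
            exact (Commute.zpow_right hg' k)
          rw [Subgroup.mem_normalizer_iff]
          intro y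
          constructor
          · intro hy
            rw [key y hy, mul_inv_cancel_right]; exact hy
          · intro hy
            have h1 := key _ hy
            have : g * y * g⁻¹ = y := by
              have e : g⁻¹ * (g * (g * y * g⁻¹)) * g = g⁻¹ * ((g * y * g⁻¹) * g) * g := by rw [h1]
              have e1 : g⁻¹ * (g * (g * y * g⁻¹)) * g = g * y := by group
              have e2 : g⁻¹ * ((g * y * g⁻¹) * g) * g = y * g := by group
              rw [e1, e2] at e
              rw [e, mul_inv_cancel_right]
            rw [this] at hy; exact hy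
      have hzb : Subgroup.zpowers t ≠ ⊥ := by
        rw [Ne, Subgroup.zpowers_eq_bot]; exact ht1
      obtain ⟨M, hle, hM⟩ := (Set.toFinite {M : Subgroup G | Cfsg.IsTwoLocal M}).exists_le_maximal
        (a := Subgroup.centralizer ({t} : Set G)) ⟨Subgroup.zpowers t, hzp, hzb, hN.symm⟩
      have hMm : Cfsg.IsMaximalTwoLocal M := ⟨hM.prop, fun N hN hMN => (hM.eq_of_le hN hMN).symm⟩
      obtain ⟨h1, h2⟩ := h M hMm
      have h3 : CfsgH1.CharP 2 ↥M := (CfsgH1.pcon_iff_charP h2).1 h1
      have hTM : Subgroup.zpowers t ≤ M := by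
        refine le_trans ?_ hle
        rw [← hN]; exact Subgroup.le_normalizer
      have h4 := h3.normalizer (P := (Subgroup.zpowers t).subgroupOf M) (hzp.comap_of_injective _ (Subgroup.subtype_injective _))
      have e1 : Subgroup.normalizer (((Subgroup.zpowers t).subgroupOf M : Subgroup ↥M) : Set ↥M) = (Subgroup.normalizer (Subgroup.zpowers t : Set G)).subgroupOf M :=
        (Subgroup.subgroupOf_normalizer_eq hTM).symm
      rw [e1, hN] at h4
      exact h4.congr (Subgroup.subgroupOfEquivOfLe hle)
    · obtain ⟨h1, h2⟩ := h t ht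
      exact (CfsgH1.pcon_iff_charP h2).1 h1
  constructor
  · intro X hX hSX
    -- a normal four-group
    have hE : ∃ E : Subgroup ↥(S : Subgroup G), (∀ x ∈ E, ∀ y ∈ E, x * y = y * x) ∧ (∀ x ∈ E, x * x = 1) ∧ 8 ≤ Nat.card ↥E := by
      unfold Cfsg.PRankLE at hA3
      push Not at hA3
      obtain ⟨B, hBc, hB2, hBcard⟩ := hA3
      have hAS : A ≤ (S : Subgroup G) := hA.1
      refine ⟨(B.map (Subgroup.inclusion hAS)), ?_, ?_, ?_⟩
      · rintro _ ⟨x, hx, rfl⟩ _ ⟨y, hy, rfl⟩
        rw [← map_mul, ← map_mul]
        congr 1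
        exact congrArg Subtype.val (hBc.is_comm.comm (⟨x, hx⟩ : ↥B) ⟨y, hy⟩)
      · rintro _ ⟨x, hx, rfl⟩
        rw [← map_mul, ← pow_two, hB2 x hx, map_one]
      · rw [Subgroup.card_map_of_injective (Subgroup.inclusion_injective hAS)]
        have hBp : IsPGroup 2 ↥B := by
          intro x
          refine ⟨1, ?_⟩
          apply Subtype.ext
          change (x : ↥A) ^ 2 ^ 1 = 1
          rw [pow_one]; exact hB2 x x.2
        obtain ⟨k, hk⟩ := IsPGroup.iff_card.1 hBp
        rw [hk] at hBcard ⊢
        have : 2 < k := (Nat.pow_lt_pow_iff_right (by norm_num)).1 hBcard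
        calc 8 = 2 ^ 3 := by norm_num
          _ ≤ 2 ^ k := Nat.pow_le_pow_right (by norm_num) this
    obtain ⟨E, hE1, hE2, hE3⟩ := hE
    obtain ⟨U, hUn, hUab, hU2, hUc⟩ := CfsgH2.exists_normal_four S.isPGroup' hE1 hE2 hE3
    exact CfsgL.ScnCon.odd_bot S hUn hUab hU2 hUc hC hX hSX
  · intro T hT hT1
    obtain ⟨x, hxT, hxo, hxc⟩ := CfsgL.PConLoc.exists_central T hT hT1
    have h1 := (hC x hxo).pcon
    have hTM : T ≤ Subgroup.centralizer ({x} : Set G) := by
      intro t ht
      exact Subgroup.mem_centralizer_singleton_iff.2 (hxc t ht)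
    have h2 := CfsgL.PConLoc.pcon_cent_sub T hT _ hTM h1 (by
      intro g hg
      rw [Subgroup.mem_centralizer_singleton_iff]
      exact (Subgroup.mem_centralizer_iff.1 hg x hxT).symm)
    exact CfsgL.PConLoc.pcon_normalizer T hT h2

end Cfsg.Agent.S3246
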