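import Cfsg.Statements.S3247
import Mathlib
import Cfsg.Agent.L.Misc.PConLoc

set_option autoImplicit false
open Cfsg

namespace Cfsg.Agent.S3247

/-- Let G be a finite group and p a prime; here a p-local subgroup means the normalizer of a nontrivial p-subgroup, other than G itself. If every p-local subgroup of G that is maximal among p-local subgroups is p-constrained, or if the centralizer of every element of order p of G is p-constrained, then every p-local subgroup of G is p-constrained. -/
theorem result {G : Type*} [Group G] [Finite G] (p : ℕ) [hp : Fact p.Prime]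
    (h : (∀ M : Subgroup G, (∃ T : Subgroup G, IsPGroup p ↥T ∧ T ≠ ⊥ ∧ M = Subgroup.normalizer (T : Set G)) → M ≠ ⊤ →
        (∀ M' : Subgroup G, (∃ T' : Subgroup G, IsPGroup p ↥T' ∧ T' ≠ ⊥ ∧ M' = Subgroup.normalizer (T' : Set G)) → M' ≠ ⊤ → M ≤ M' → M = M') →
        Cfsg.IsPConstrained p ↥M) ∨
      (∀ x : G, orderOf x = p → Cfsg.IsPConstrained p ↥(Subgroup.centralizer ({x} : Set G))))
    (T : Subgroup G) (hT : IsPGroup p ↥T) (hT1 : T ≠ ⊥) (hTG : Subgroup.normalizer (T : Set G) ≠ ⊤) :
    Cfsg.IsPConstrained p ↥(Subgroup.normalizer (T : Set G)) := by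
  classical
  rcases h with h | h
  · obtain ⟨M, hle, hM⟩ := (Set.toFinite {M : Subgroup G | (∃ T' : Subgroup G, IsPGroup p ↥T' ∧ T' ≠ ⊥ ∧ M = Subgroup.normalizer (T' : Set G)) ∧ M ≠ ⊤}).exists_le_maximal
      (a := Subgroup.normalizer (T : Set G)) ⟨⟨T, hT, hT1, rfl⟩, hTG⟩
    have h1 := h M hM.prop.1 hM.prop.2 (fun M' h1 h2 h3 => hM.eq_of_le ⟨h1, h2⟩ h3)
    exact CfsgL.PConLoc.charP_of_centralizer T hT M (Subgroup.le_normalizer.trans hle) h1 hle
  · obtain ⟨x, hxT, hxo, hxc⟩ := CfsgL.PConLoc.exists_central T hT hT1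
    have h1 := h x hxo
    have hTM : T ≤ Subgroup.centralizer ({x} : Set G) := by
      intro t ht
      exact Subgroup.mem_centralizer_singleton_iff.2 (hxc t ht)
    have h2 := CfsgL.PConLoc.pcon_cent_sub T hT _ hTM h1 (by
      intro g hg
      rw [Subgroup.mem_centralizer_singleton_iff]
      exact (Subgroup.mem_centralizer_iff.1 hg x hxT).symm)
    exact CfsgL.PConLoc.pcon_normalizer T hT h2

end Cfsg.Agent.S3247
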