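import Cfsg.Statements.S3269
import Cfsg.Agent.L.Fus.QuatFactor
import Cfsg.Agent.S0215

set_option autoImplicit false
open Cfsg

namespace Cfsg.Agent.S3269
open Subgroup

open scoped IsMulCommutative

open QuaternionGroup in
theorem quat_facts (n : ℕ) (hn : 1 ≤ n) :
    (a (2 ^ n : ZMod (2 * 2 ^ n)) : QuaternionGroup (2 ^ n)) ≠ 1 ∧
    (a (2 ^ n : ZMod (2 * 2 ^ n)) : QuaternionGroup (2 ^ n)) * a (2 ^ n) = 1 ∧
    (∀ q : QuaternionGroup (2 ^ n), q * q = 1 → q = 1 ∨ q = a (2 ^ n)) ∧
    (∀ q : QuaternionGroup (2 ^ n), (∀ y, q * y = y * q) → q = 1 ∨ q = a (2 ^ n)) ∧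
    (∀ y : QuaternionGroup (2 ^ n), a (2 ^ n) * y = y * a (2 ^ n)) ∧
    (∃ u v : QuaternionGroup (2 ^ n), u * v = a (2 ^ n) * (v * u)) := by
  have hpos : 0 < 2 ^ n := by positivity
  have hN : (2 ^ n : ZMod (2 * 2 ^ n)) + 2 ^ n = 0 := by
    have : ((2 * 2 ^ n : ℕ) : ZMod (2 * 2 ^ n)) = 0 := ZMod.natCast_self _
    push_cast at this
    rw [← this]; ring
  have hN0 : (2 ^ n : ZMod (2 * 2 ^ n)) ≠ 0 := by
    intro h
    have h1 : ((2 ^ n : ℕ) : ZMod (2 * 2 ^ n)) = 0 := by push_cast; exact h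
    rw [ZMod.natCast_eq_zero_iff] at h1
    have := Nat.le_of_dvd hpos h1
    omega
  have hdouble : ∀ i : ZMod (2 * 2 ^ n), i + i = 0 → i = 0 ∨ i = 2 ^ n := by
    intro i hi
    haveI : NeZero (2 * 2 ^ n) := ⟨by positivity⟩
    have h1 : ((i.val + i.val : ℕ) : ZMod (2 * 2 ^ n)) = 0 := by
      push_cast; rw [ZMod.natCast_zmod_val]; exact hi
    rw [ZMod.natCast_eq_zero_iff] at h1
    have h2 : i.val < 2 * 2 ^ n := ZMod.val_lt i
    have h3 : 2 ^ n ∣ i.val := by
      have : 2 * 2 ^ n ∣ 2 * i.val := by rw [two_mul i.val]; exact h1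
      exact Nat.dvd_of_mul_dvd_mul_left (by norm_num) this
    obtain ⟨k, hk⟩ := h3
    have h4 : k < 2 := by
      rw [hk] at h2
      by_contra hcon
      push Not at hcon
      nlinarith
    have h5 : i = ((2 ^ n * k : ℕ) : ZMod (2 * 2 ^ n)) := by
      rw [← hk, ZMod.natCast_zmod_val]
    interval_cases k
    · left; rw [h5]; simp
    · right; rw [h5]; simp
  refine ⟨?_, ?_, ?_, ?_, ?_, ?_⟩
  · rw [one_def]
    intro h
    injection h with h'
    exact hN0 h'
  · rw [a_mul_a, hN, a_zero]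
  · rintro (i | i) h
    · rw [a_mul_a, one_def] at h
      have h1 : i + i = 0 := by injection h
      rcases hdouble i h1 with rfl | rfl
      · left; rw [one_def]
      · right; rfl
    · exfalso
      rw [xa_mul_xa, one_def] at h
      have h1 : ((2 ^ n : ℕ) : ZMod (2 * 2 ^ n)) + i - i = 0 := by injection h
      apply hN0
      push_cast at h1
      rw [← h1]; ring
  · rintro (i | i) h
    · have h1 := h (xa 0)
      rw [a_mul_xa, xa_mul_a] at h1
      have h2 : (0 : ZMod (2 * 2 ^ n)) - i = 0 + i := by simpa using h1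
      have h3 : i + i = 0 := by linear_combination -h2
      rcases hdouble i h3 with rfl | rfl
      · left; rw [one_def]
      · right; rfl
    · exfalso
      have h1 := h (a 1)
      rw [a_mul_xa, xa_mul_a] at h1
      have h2 : i + 1 = i - 1 := by simpa using h1
      have h3 : (1 : ZMod (2 * 2 ^ n)) + 1 = 0 := by linear_combination h2
      have h4 : ((2 : ℕ) : ZMod (2 * 2 ^ n)) = 0 := by
        rw [← h3]; norm_num
      rw [ZMod.natCast_eq_zero_iff] at h4
      have h5 := Nat.le_of_dvd (by norm_num) h4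
      have h6 : 2 ≤ 2 ^ n := by
        calc 2 = 2 ^ 1 := by norm_num
          _ ≤ 2 ^ n := Nat.pow_le_pow_right (by norm_num) hn
      omega
  · rintro (i | i)
    · rw [a_mul_a, a_mul_a, add_comm]
    · rw [a_mul_xa, xa_mul_a]
      congr 1
      linear_combination -hN
  · refine ⟨xa 0, a (2 ^ (n - 1)), ?_⟩
    rw [xa_mul_a, a_mul_xa, a_mul_xa]
    congr 1
    have gen : ∀ (k m : ℕ), 1 ≤ m → (2 ^ (m - 1) : ZMod k) + 2 ^ (m - 1) = 2 ^ m := by
      intro k m hm
      obtain ⟨j, rfl⟩ := Nat.exists_eq_add_of_le hm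
      rw [Nat.add_sub_cancel_left, add_comm 1 j, pow_succ]
      ring
    have h1 := gen (2 * 2 ^ n) n hn
    linear_combination h1 + hN


/-- Let G be a finite group whose Sylow 2-subgroup S is an internal direct product Q × R with Q generalized quaternion (of order at least 8) and R a subgroup all of whose involutions are central in R. Then G is not simple. In particular no finite simple group has a Sylow 2-subgroup that is a direct product of one or more generalized quaternion groups. -/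
theorem result {G : Type*} [Group G] [Finite G]
    (S : Sylow 2 G) (Q R : Subgroup G) (hQR : Cfsg.IsInternalDirectProduct Q R (S : Subgroup G))
    (n : ℕ) (hn : 1 ≤ n) (eQ : ↥Q ≃* QuaternionGroup (2 ^ n))
    (hR : ∀ r ∈ R, orderOf r = 2 → ∀ s ∈ R, r * s = s * r) :
    ¬ IsSimpleGroup G := by
  intro hsimp
  haveI : Fact (Nat.Prime 2) := ⟨Nat.prime_two⟩
  obtain ⟨hQS, hRS, hc, hi, hsup⟩ := hQR
  obtain ⟨f1, f2, f3, f4, f5, u, v, f6⟩ := quat_facts n hn
  obtain ⟨z, hz⟩ : ∃ z : Q, z = eQ.symm (QuaternionGroup.a (2 ^ n)) := ⟨_, rfl⟩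
  have hez : eQ z = QuaternionGroup.a (2 ^ n) := by rw [hz, MulEquiv.apply_symm_apply]
  have hz1 : (z : G) ≠ 1 := by
    intro h
    apply f1
    rw [← hez, show z = 1 from Subtype.ext h, map_one]
  have hz2 : (z : G) * z = 1 := by
    have : z * z = 1 := by
      apply eQ.injective; rw [map_mul, hez, f2, map_one]
    exact congrArg Subtype.val this
  have hu : ∀ q ∈ Q, q * q = 1 → q = 1 ∨ q = (z : G) := by
    intro q hq h
    have h1 : eQ ⟨q, hq⟩ * eQ ⟨q, hq⟩ = 1 := by
      rw [← map_mul]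
      have : (⟨q, hq⟩ : Q) * ⟨q, hq⟩ = 1 := Subtype.ext h
      rw [this, map_one]
    rcases f3 _ h1 with h2 | h2
    · left
      have : (⟨q, hq⟩ : Q) = 1 := eQ.injective (by rw [h2, map_one])
      exact congrArg Subtype.val this
    · right
      have : (⟨q, hq⟩ : Q) = z := eQ.injective (by rw [h2, hez])
      exact congrArg Subtype.val this
  have hcen : ∀ q ∈ Q, (∀ y ∈ Q, q * y = y * q) → q = 1 ∨ q = (z : G) := by
    intro q hq h
    have h1 : ∀ y, eQ ⟨q, hq⟩ * y = y * eQ ⟨q, hq⟩ := by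
      intro y
      obtain ⟨w, rfl⟩ := eQ.surjective y
      rw [← map_mul, ← map_mul]
      congr 1
      exact Subtype.ext (h w w.2)
    rcases f4 _ h1 with h2 | h2
    · left
      have : (⟨q, hq⟩ : Q) = 1 := eQ.injective (by rw [h2, map_one])
      exact congrArg Subtype.val this
    · right
      have : (⟨q, hq⟩ : Q) = z := eQ.injective (by rw [h2, hez])
      exact congrArg Subtype.val this
  have hzc : ∀ y ∈ Q, (z : G) * y = y * z := by
    intro y hy
    have : z * ⟨y, hy⟩ = ⟨y, hy⟩ * z := by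
      apply eQ.injective; rw [map_mul, map_mul, hez, f5]
    exact congrArg Subtype.val this
  have hcom : ∃ a ∈ Q, ∃ b ∈ Q, a * b = (z : G) * (b * a) := by
    refine ⟨eQ.symm u, (eQ.symm u).2, eQ.symm v, (eQ.symm v).2, ?_⟩
    have : eQ.symm u * eQ.symm v = z * (eQ.symm v * eQ.symm u) := by
      apply eQ.injective
      simp only [map_mul, MulEquiv.apply_symm_apply, hez]
      exact f6
    exact congrArg Subtype.val this
  -- every element of S is a product
  have hdec : ∀ s ∈ (S : Subgroup G), ∃ q ∈ Q, ∃ r ∈ R, s = q * r := by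
    intro s hs
    rw [← hsup, Subgroup.sup_eq_closure] at hs
    refine Subgroup.closure_induction (p := fun s _ => ∃ q ∈ Q, ∃ r ∈ R, s = q * r) ?_ ?_ ?_ ?_ hs
    · rintro q (hq | hq)
      · exact ⟨q, hq, 1, one_mem _, by simp⟩
      · exact ⟨1, one_mem _, q, hq, by simp⟩
    · exact ⟨1, one_mem _, 1, one_mem _, by simp⟩
    · rintro x y - - ⟨q, hq, r, hr, rfl⟩ ⟨q', hq', r', hr', rfl⟩
      refine ⟨q * q', mul_mem hq hq', r * r', mul_mem hr hr', ?_⟩
      calc q * r * (q' * r') = q * (r * q') * r' := by group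
        _ = q * (q' * r) * r' := by rw [← hc q' hq' r hr]
        _ = _ := by group
    · rintro x - ⟨q, hq, r, hr, rfl⟩
      refine ⟨q⁻¹, Q.inv_mem hq, r⁻¹, R.inv_mem hr, ?_⟩
      rw [hc q hq r hr, mul_inv_rev]
  have hinvc : ∀ s ∈ (S : Subgroup G), s * s = 1 → ∀ x ∈ (S : Subgroup G), s * x = x * s := by
    intro s hs hs2 x hx
    obtain ⟨q, hq, r, hr, rfl⟩ := hdec s hs
    obtain ⟨q', hq', r', hr', rfl⟩ := hdec x hx
    have e1 : q * r * (q * r) = (q * q) * (r * r) := by
      calc q * r * (q * r) = q * (r * q) * r := by group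
        _ = q * (q * r) * r := by rw [← hc q hq r hr]
        _ = _ := by group
    rw [e1] at hs2
    have e2 : q * q = 1 := by
      have : q * q ∈ Q ⊓ R := ⟨mul_mem hq hq, by
        rw [eq_inv_of_mul_eq_one_left hs2]; exact R.inv_mem (mul_mem hr hr)⟩
      rwa [hi, Subgroup.mem_bot] at this
    have e3 : r * r = 1 := by rw [e2, one_mul] at hs2; exact hs2
    have e4 : q * q' = q' * q := by
      rcases hu q hq e2 with h | h
      · rw [h]; simp
      · rw [h]; exact hzc q' hq'
    have e5 : r * r' = r' * r := by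
      by_cases h : r = 1
      · rw [h]; simp
      · exact hR r hr (orderOf_eq_prime (by rw [pow_two]; exact e3) h) r' hr'
    calc q * r * (q' * r') = q * (r * q') * r' := by group
      _ = (q * q') * (r * r') := by rw [← hc q' hq' r hr]; group
      _ = (q' * q) * (r' * r) := by rw [e4, e5]
      _ = q' * (q * r') * r := by group
      _ = q' * (r' * q) * r := by rw [hc q hq r' hr']
      _ = _ := by group
  -- pass to the group S
  have hzS : (z : G) ∈ (S : Subgroup G) := hQS z.2
  obtain ⟨zS, hzSe⟩ : ∃ zS : (S : Subgroup G), (zS : G) = z := ⟨⟨z, hzS⟩, rfl⟩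
  have hzcen : zS ∈ Subgroup.center (S : Subgroup G) := by
    rw [Subgroup.mem_center_iff]
    intro x
    apply Subtype.ext
    rw [Subgroup.coe_mul, Subgroup.coe_mul, hzSe]
    exact (hinvc _ hzS hz2 x x.2).symm
  have hQ2 : IsPGroup 2 (Q.subgroupOf (S : Subgroup G)) := S.isPGroup'.to_subgroup _
  have key : ∀ φ : MulAut (S : Subgroup G), φ zS = zS ∨ φ zS ∈ R.subgroupOf (S : Subgroup G) := by
    intro φ
    apply CfsgL.Fus.quat_factor (Q.subgroupOf (S : Subgroup G)) (R.subgroupOf (S : Subgroup G))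
    · intro a ha b hb
      exact Subtype.ext (hc a ha b hb)
    · rw [eq_bot_iff]
      rintro x ⟨hx1, hx2⟩
      have : (x : G) ∈ Q ⊓ R := ⟨hx1, hx2⟩
      rw [hi, Subgroup.mem_bot] at this
      exact Subtype.ext this
    · rw [eq_top_iff]
      intro x _
      obtain ⟨q, hq, r, hr, hx⟩ := hdec x x.2
      have : x = ⟨q, hQS hq⟩ * ⟨r, hRS hr⟩ := Subtype.ext hx
      rw [this]
      exact mul_mem (Subgroup.mem_sup_left (Subgroup.mem_subgroupOf.2 hq))
        (Subgroup.mem_sup_right (Subgroup.mem_subgroupOf.2 hr))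
    · exact hQ2
    · rw [Subgroup.mem_subgroupOf, hzSe]; exact z.2
    · intro h; apply hz1; rw [← hzSe, h]; rfl
    · apply Subtype.ext; rw [Subgroup.coe_mul, hzSe]; exact hz2
    · intro q hq h
      rcases hu q hq (congrArg Subtype.val h) with h1 | h1
      · left; exact Subtype.ext h1
      · right; apply Subtype.ext; rw [hzSe]; exact h1
    · intro q hq h
      rcases hcen q hq (fun y hy => congrArg Subtype.val (h ⟨y, hQS hy⟩ hy)) with h1 | h1
      · left; exact Subtype.ext h1
      · right; apply Subtype.ext; rw [hzSe]; exact h1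
    · intro y hy
      apply Subtype.ext
      rw [Subgroup.coe_mul, Subgroup.coe_mul, hzSe]
      exact hzc y hy
    · obtain ⟨a, ha, b, hb, hab⟩ := hcom
      refine ⟨⟨a, hQS ha⟩, ha, ⟨b, hQS hb⟩, hb, ?_⟩
      apply Subtype.ext
      rw [Subgroup.coe_mul, Subgroup.coe_mul, hzSe]
      exact hab
  -- the product of the conjugates of z under the normalizer
  let N := Subgroup.normalizer ((S : Subgroup G) : Set G)
  obtain ⟨Φ, hΦ⟩ : ∃ Φ : N → MulAut (S : Subgroup G), ∀ g s, ((Φ g s : (S : Subgroup G)) : G) = g * s * (g : G)⁻¹ :=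
    ⟨fun g => (S : Subgroup G).normalizerMonoidHom g, fun g s => rfl⟩
  obtain ⟨Ψ, hΨ⟩ : ∃ Ψ : N → (Subgroup.center (S : Subgroup G)) ≃* (Subgroup.center (S : Subgroup G)), ∀ g (s : (Subgroup.center (S : Subgroup G))), ((Ψ g s : (Subgroup.center (S : Subgroup G))) : (S : Subgroup G)) = Φ g s :=
    ⟨fun g => Subgroup.centerCongr (Φ g), fun g s => rfl⟩
  classical
  let zA : (Subgroup.center (S : Subgroup G)) := ⟨zS, hzcen⟩
  haveI : Fintype (Subgroup.center (S : Subgroup G)) := Fintype.ofFinite _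
  let T : Finset (Subgroup.center (S : Subgroup G)) := Finset.univ.filter (fun c => ∃ g : N, Ψ g zA = c)
  have hTmem : ∀ c, c ∈ T ↔ ∃ g : N, Ψ g zA = c := by intro c; simp [T]
  have hzAT : zA ∈ T := by
    rw [hTmem]
    refine ⟨1, ?_⟩
    apply Subtype.ext; apply Subtype.ext
    rw [hΨ, hΦ]; simp
  have hT2 : ∀ c ∈ T, c * c = 1 := by
    intro c hc'
    obtain ⟨g, rfl⟩ := (hTmem c).1 hc'
    rw [← map_mul]
    have : zA * zA = 1 := by
      apply Subtype.ext; apply Subtype.ext
      show (zS : G) * zS = 1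
      rw [hzSe]; exact hz2
    rw [this, map_one]
  have hTR : ∀ c ∈ T, c ≠ zA → ((c : (S : Subgroup G)) : G) ∈ R := by
    intro c hc' hne
    obtain ⟨g, rfl⟩ := (hTmem c).1 hc'
    rcases key (Φ g) with h | h
    · exfalso; apply hne
      apply Subtype.ext
      rw [hΨ]; exact h
    · rw [Subgroup.mem_subgroupOf] at h
      rw [hΨ]; exact h
  obtain ⟨P, hP⟩ : ∃ P : (Subgroup.center (S : Subgroup G)), P = ∏ t ∈ T, t := ⟨_, rfl⟩
  have hP1 : P ≠ 1 := by
    intro h
    rw [hP, ← Finset.mul_prod_erase T _ hzAT] at h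
    have h1 : zA = (∏ t ∈ T.erase zA, t)⁻¹ := eq_inv_of_mul_eq_one_left h
    have h2 : ∀ F : Finset (Subgroup.center (S : Subgroup G)), (∀ c ∈ F, ((c : (S : Subgroup G)) : G) ∈ R) →
        (((∏ t ∈ F, t : (Subgroup.center (S : Subgroup G))) : (S : Subgroup G)) : G) ∈ R := by
      intro F
      induction F using Finset.induction_on with
      | empty => intro _; simp
      | insert a F ha ih =>
        intro hF
        rw [Finset.prod_insert ha]
        exact mul_mem (hF a (Finset.mem_insert_self _ _))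
          (ih (fun c hc' => hF c (Finset.mem_insert_of_mem hc')))
    have h3 := h2 (T.erase zA) (fun c hc' => hTR c (Finset.mem_of_mem_erase hc') (Finset.ne_of_mem_erase hc'))
    have h4 : (z : G) ∈ R := by
      rw [← hzSe]
      have h5 := congrArg (fun c : (Subgroup.center (S : Subgroup G)) => ((c : (S : Subgroup G)) : G)) h1
      simp only [Subgroup.coe_inv] at h5
      show ((zA : (S : Subgroup G)) : G) ∈ R
      rw [h5]; exact R.inv_mem h3
    have h6 : (z : G) ∈ Q ⊓ R := ⟨z.2, h4⟩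
    rw [hi, Subgroup.mem_bot] at h6
    exact hz1 h6
  have hP2 : P * P = 1 := by
    rw [hP, ← Finset.prod_mul_distrib]
    exact Finset.prod_eq_one hT2
  have hPinv : ∀ g : N, Ψ g P = P := by
    intro g
    rw [hP, map_prod]
    refine Finset.prod_bijective (Ψ g) (Ψ g).bijective ?_ (fun _ _ => rfl)
    intro c
    have hmul : ∀ (g h : N) (c : (Subgroup.center (S : Subgroup G))), Ψ g (Ψ h c) = Ψ (g * h) c := by
      intro g h c
      apply Subtype.ext; apply Subtype.ext
      rw [hΨ, hΨ, hΦ, hΨ, hΦ, hΦ, Subgroup.coe_mul]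
      group
    rw [hTmem, hTmem]
    constructor
    · rintro ⟨h, rfl⟩
      exact ⟨g * h, (hmul _ _ _).symm⟩
    · rintro ⟨h, hh⟩
      refine ⟨g⁻¹ * h, ?_⟩
      rw [← hmul, hh, hmul]
      apply Subtype.ext; apply Subtype.ext
      rw [hΨ, hΦ]; simp
  obtain ⟨w, hw⟩ : ∃ w : G, w = ((P : (S : Subgroup G)) : G) := ⟨_, rfl⟩
  have hwS : w ∈ (S : Subgroup G) := hw ▸ (P : (S : Subgroup G)).2
  have hw1 : w ≠ 1 := by
    intro h; apply hP1
    apply Subtype.ext; apply Subtype.ext
    rw [← hw, h]; rfl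
  have hw2 : w * w = 1 := by
    rw [hw]
    exact congrArg (fun x : (Subgroup.center (S : Subgroup G)) => ((x : (S : Subgroup G)) : G)) hP2
  have hwo : orderOf w = 2 := orderOf_eq_prime (by rw [pow_two]; exact hw2) hw1
  have hiso : ∀ g : G, g * w * g⁻¹ ∈ S → g * w * g⁻¹ = w := by
    intro g hg
    have h1 : (g * w * g⁻¹) * (g * w * g⁻¹) = 1 := by
      calc (g * w * g⁻¹) * (g * w * g⁻¹) = g * (w * w) * g⁻¹ := by group
        _ = 1 := by rw [hw2]; group
    have h2 := S.conj_eq_normalizer_conj_of_mem_centralizer w g⁻¹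
      (by
        rw [Subgroup.mem_centralizer_iff]
        intro x hx
        exact (hinvc w hwS hw2 x hx).symm)
      (by
        rw [inv_inv, Subgroup.mem_centralizer_iff]
        intro x hx
        exact (hinvc _ hg h1 x hx).symm)
    obtain ⟨m, hm, hme⟩ := h2
    rw [inv_inv] at hme
    rw [hme]
    have h3 := hPinv ⟨m⁻¹, inv_mem hm⟩
    have h4 : (((Ψ ⟨m⁻¹, inv_mem hm⟩ P : (Subgroup.center (S : Subgroup G))) : (S : Subgroup G)) : G) = w := by rw [h3, hw]
    rw [hΨ, hΦ] at h4
    rw [hw]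
    simpa [hw] using h4
  obtain ⟨M, hMn, hModd, hM⟩ := Cfsg.Agent.S0215.result S w hwo hwS hiso
  rcases hsimp.eq_bot_or_eq_top_of_normal M hMn with h | h
  · have hwc : w ∈ Subgroup.center G := by
      rw [Subgroup.mem_center_iff]
      intro g
      have h1 := hM g
      rw [h, Subgroup.mem_bot] at h1
      have h2 : w * g * w⁻¹ = g := mul_inv_eq_one.1 h1
      calc g * w = (w * g * w⁻¹) * w := by rw [h2]
        _ = w * g := by group
    rcases hsimp.eq_bot_or_eq_top_of_normal (Subgroup.center G) inferInstance with h2 | h2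
    · rw [h2, Subgroup.mem_bot] at hwc; exact hw1 hwc
    · obtain ⟨a, -, b, -, hab⟩ := hcom
      have h3 : b ∈ Subgroup.center G := h2 ▸ Subgroup.mem_top b
      have h4 := Subgroup.mem_center_iff.1 h3 a
      rw [h4] at hab
      exact hz1 (right_eq_mul.1 hab)
  · rw [h] at hModd
    rw [Subgroup.card_top] at hModd
    have h1 : 2 ∣ Nat.card G := hwo ▸ orderOf_dvd_natCard w
    exact (Nat.not_even_iff_odd.2 hModd) (even_iff_two_dvd.2 h1)

end Cfsg.Agent.S3269
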