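import Cfsg.Statements.S3276
import Mathlib
import Cfsg.Agent.H7.Quick9

set_option autoImplicit false
open Cfsg

namespace Cfsg.Agent.S3276

/-- Let x and y be commuting, non-conjugate involutions of a finite group G, and suppose that for every involution u commuting with x, each conjugate of y that commutes with u also commutes with y. Then the normal closure of y is a proper, normal, elementary abelian 2-subgroup of G; and if y is the only involution of that normal closure commuting with x, it has order at most 4. -/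
theorem result {G : Type*} [Group G] [Finite G] (x y : G) (hx : orderOf x = 2) (hy : orderOf y = 2)
    (hxy : Commute x y) (hnc : ¬ IsConj x y)
    (hstar : ∀ u : G, orderOf u = 2 → Commute u x → ∀ g : G, Commute (g * y * g⁻¹) u → Commute (g * y * g⁻¹) y) :
    Subgroup.normalClosure ({y} : Set G) ≠ ⊤ ∧ Cfsg.IsElementaryAbelian 2 (Subgroup.normalClosure ({y} : Set G)) ∧
      ((∀ u ∈ Subgroup.normalClosure ({y} : Set G), orderOf u = 2 → Commute u x → u = y) →
        Nat.card ↥(Subgroup.normalClosure ({y} : Set G)) ≤ 4) := by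
  have hinv : ∀ {u : G}, orderOf u = 2 → u * u = 1 := fun {u} h => by rw [← pow_two, ← h, pow_orderOf_eq_one]
  have hyy := hinv hy
  have hxx := hinv hx
  -- all conjugates of `y` commute with `y`
  have key : ∀ g : G, Commute (g * y * g⁻¹) y := by
    intro g
    have hy1 : orderOf (g * y * g⁻¹) = 2 := by rw [← hy]; exact (MulAut.conj g).orderOf_eq y
    have hncj : ¬ IsConj x (g * y * g⁻¹) := by
      intro h
      apply hnc
      exact h.trans (isConj_iff.2 ⟨g⁻¹, by group⟩)
    obtain ⟨u, hu, hux, huy⟩ : ∃ u : G, orderOf u = 2 ∧ Commute u x ∧ Commute u (g * y * g⁻¹) := by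
      obtain ⟨m, hm⟩ := CfsgH7.even_of_not_isConj hx hy1 hncj
      have hy11 := hinv hy1
      generalize g * y * g⁻¹ = w at hy11 hm ⊢
      have hxi : x⁻¹ = x := inv_eq_of_mul_eq_one_right hxx
      have hwi : w⁻¹ = w := inv_eq_of_mul_eq_one_right hy11
      have hpos := orderOf_pos (x * w)
      have hm0 : m ≠ 0 := by omega
      have hu2 : orderOf ((x * w) ^ m) = 2 := by
        rw [orderOf_pow' (x * w) hm0, hm]
        have : (m + m).gcd m = m := by
          rw [Nat.gcd_comm]; exact Nat.gcd_eq_left ⟨2, by ring⟩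
        rw [this]
        rw [← two_mul]
        exact Nat.mul_div_cancel 2 (by omega)
      have huu : ((x * w) ^ m)⁻¹ = (x * w) ^ m := inv_eq_of_mul_eq_one_right (hinv hu2)
      refine ⟨(x * w) ^ m, hu2, ?_, ?_⟩
      · change (x * w) ^ m * x = x * (x * w) ^ m
        have h1 : x * (x * w) ^ m * x⁻¹ = (x * w) ^ m := by
          rw [← conj_pow]
          have : x * (x * w) * x⁻¹ = (x * w)⁻¹ := by
            rw [mul_inv_rev x w, hwi, hxi, ← mul_assoc, hxx, one_mul]
          rw [this, inv_pow, huu]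
        exact (mul_inv_eq_iff_eq_mul.1 h1).symm
      · change (x * w) ^ m * w = w * (x * w) ^ m
        have h1 : w * (x * w) ^ m * w⁻¹ = (x * w) ^ m := by
          rw [← conj_pow]
          have : w * (x * w) * w⁻¹ = (x * w)⁻¹ := by
            rw [mul_inv_rev x w, hwi, hxi, mul_assoc, mul_assoc, hy11, mul_one]
          rw [this, inv_pow, huu]
        exact (mul_inv_eq_iff_eq_mul.1 h1).symm
    exact hstar u hu hux g huy.symm
  have key2 : ∀ a b : G, Commute (a * y * a⁻¹) (b * y * b⁻¹) := by
    intro a b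
    have h1 := key (b⁻¹ * a)
    have h2 : b * (b⁻¹ * a * y * (b⁻¹ * a)⁻¹ * y) * b⁻¹ = b * (y * (b⁻¹ * a * y * (b⁻¹ * a)⁻¹)) * b⁻¹ := by
      rw [h1.eq]
    change a * y * a⁻¹ * (b * y * b⁻¹) = b * y * b⁻¹ * (a * y * a⁻¹)
    calc a * y * a⁻¹ * (b * y * b⁻¹) = b * (b⁻¹ * a * y * (b⁻¹ * a)⁻¹ * y) * b⁻¹ := by group
      _ = b * (y * (b⁻¹ * a * y * (b⁻¹ * a)⁻¹)) * b⁻¹ := h2
      _ = b * y * b⁻¹ * (a * y * a⁻¹) := by group
  have hcomm : IsMulCommutative (Subgroup.normalClosure ({y} : Set G)) := by
    rw [Subgroup.normalClosure]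
    refine Subgroup.isMulCommutative_closure ?_
    intro a ha b hb
    rw [Group.mem_conjugatesOfSet_iff] at ha hb
    obtain ⟨_, rfl, h1⟩ := ha
    obtain ⟨_, rfl, h2⟩ := hb
    obtain ⟨c, rfl⟩ := isConj_iff.1 h1
    obtain ⟨d, rfl⟩ := isConj_iff.1 h2
    exact key2 c d
  have hmc : ∀ a ∈ Subgroup.normalClosure ({y} : Set G), ∀ b ∈ Subgroup.normalClosure ({y} : Set G), a * b = b * a := by
    intro a ha b hb
    have := hcomm.is_comm.comm (⟨a, ha⟩ : Subgroup.normalClosure ({y} : Set G)) ⟨b, hb⟩
    exact congrArg Subtype.val this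
  have hea : Cfsg.IsElementaryAbelian 2 (Subgroup.normalClosure ({y} : Set G)) := by
    refine ⟨hcomm, fun a ha => ?_⟩
    let K : Subgroup G := {
      carrier := {a | a ∈ Subgroup.normalClosure ({y} : Set G) ∧ a ^ 2 = 1}
      one_mem' := ⟨one_mem _, one_pow _⟩
      mul_mem' := by
        rintro a b ⟨ha, ha2⟩ ⟨hb, hb2⟩
        refine ⟨mul_mem ha hb, ?_⟩
        rw [(show Commute a b from hmc a ha b hb).mul_pow, ha2, hb2, one_mul]
      inv_mem' := by
        rintro a ⟨ha, ha2⟩
        exact ⟨inv_mem ha, by rw [inv_pow, ha2, inv_one]⟩ }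
    have hle : Subgroup.normalClosure ({y} : Set G) ≤ K := by
      conv_lhs => rw [Subgroup.normalClosure]
      rw [Subgroup.closure_le]
      intro a ha
      refine ⟨Subgroup.subset_closure ha, ?_⟩
      rw [Group.mem_conjugatesOfSet_iff] at ha
      obtain ⟨w, hw, h1⟩ := ha
      rw [Set.mem_singleton_iff.1 hw] at h1
      obtain ⟨c, rfl⟩ := isConj_iff.1 h1
      calc (c * y * c⁻¹) ^ 2 = c * (y * y) * c⁻¹ := by rw [pow_two]; group
        _ = 1 := by rw [hyy]; group
    exact (hle ha).2
  have hyN : y ∈ Subgroup.normalClosure ({y} : Set G) := Subgroup.subset_normalClosure rfl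
  refine ⟨?_, hea, ?_⟩
  · intro htop
    have hall : ∀ g : G, g * y * g⁻¹ = y := by
      intro g
      have := hmc g (by rw [htop]; trivial) y hyN
      rw [this, mul_inv_cancel_right]
    have h1 : Subgroup.normalClosure ({y} : Set G) ≤ Subgroup.zpowers y := by
      haveI : (Subgroup.zpowers y).Normal := by
        refine ⟨fun n hn g => ?_⟩
        obtain ⟨k, rfl⟩ := Subgroup.mem_zpowers_iff.1 hn
        rw [← conj_zpow, hall]
        exact Subgroup.zpow_mem _ (Subgroup.mem_zpowers y) k
      apply Subgroup.normalClosure_le_normal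
      intro w hw
      rw [Set.mem_singleton_iff.1 hw]
      exact Subgroup.mem_zpowers y
    rw [htop] at h1
    have h2 : x ∈ Subgroup.zpowers y := h1 trivial
    obtain ⟨k, hk⟩ := Subgroup.mem_zpowers_iff.1 h2
    rcases Int.even_or_odd' k with ⟨m, hm | hm⟩
    · have : x = 1 := by
        rw [← hk, hm, zpow_mul]
        have : y ^ (2 : ℤ) = 1 := by rw [zpow_two]; exact hyy
        rw [this, one_zpow]
      rw [this, orderOf_one] at hx
      omega
    · have : x = y := by
        rw [← hk, hm, zpow_add, zpow_mul]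
        have : y ^ (2 : ℤ) = 1 := by rw [zpow_two]; exact hyy
        rw [this, one_zpow, one_mul, zpow_one]
      exact hnc (by rw [this])
  · intro honly
    set N := Subgroup.normalClosure ({y} : Set G) with hN
    haveI hNn : N.Normal := Subgroup.normalClosure_normal
    -- the map n ↦ n * x n x⁻¹
    let φ : ↥N →* ↥N := {
      toFun := fun n => ⟨(n : G) * (x * n * x⁻¹), N.mul_mem n.2 (hNn.conj_mem _ n.2 x)⟩
      map_one' := by apply Subtype.ext; change (1 : G) * (x * 1 * x⁻¹) = 1; group
      map_mul' := by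
        intro a b
        apply Subtype.ext
        change (a : G) * b * (x * (a * b) * x⁻¹) = (a : G) * (x * a * x⁻¹) * (b * (x * b * x⁻¹))
        have h1 : (b : G) * (x * a * x⁻¹) = (x * a * x⁻¹) * b := hmc _ b.2 _ (hNn.conj_mem _ a.2 x)
        calc (a : G) * b * (x * (a * b) * x⁻¹) = a * (b * (x * a * x⁻¹)) * (x * b * x⁻¹) := by group
          _ = a * ((x * a * x⁻¹) * b) * (x * b * x⁻¹) := by rw [h1]
          _ = (a : G) * (x * a * x⁻¹) * (b * (x * b * x⁻¹)) := by group }
    have hfix : ∀ n : ↥N, (x * (n : G) * x⁻¹ = n) → n = 1 ∨ n = ⟨y, hyN⟩ := by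
      intro n hn
      by_cases h1 : (n : G) = 1
      · left; exact Subtype.ext h1
      · right
        apply Subtype.ext
        have h2 : (n : G) ^ 2 = 1 := hea.2 n n.2
        have h3 : orderOf (n : G) = 2 := orderOf_eq_prime h2 h1
        refine honly n n.2 h3 ?_
        exact (mul_inv_eq_iff_eq_mul.1 hn).symm
    have hker : Nat.card φ.ker ≤ 2 := by
      have : (φ.ker : Set ↥N) ⊆ {1, ⟨y, hyN⟩} := by
        intro n hn
        have h1 : (n : G) * (x * n * x⁻¹) = 1 := congrArg Subtype.val (MonoidHom.mem_ker.1 hn)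
        have h2 : (n : G) ^ 2 = 1 := hea.2 n n.2
        have h3 : (n : G)⁻¹ = n := inv_eq_of_mul_eq_one_right (by rw [← pow_two]; exact h2)
        have h4 : x * (n : G) * x⁻¹ = n := (eq_inv_of_mul_eq_one_right h1).trans h3
        rcases hfix n h4 with h5 | h5
        · left; exact h5
        · right; exact h5
      have h2 := Set.ncard_le_ncard this
      exact h2.trans (Set.ncard_insert_le _ _ |>.trans (by rw [Set.ncard_singleton]))
    have hran : Nat.card φ.range ≤ 2 := by
      have : (φ.range : Set ↥N) ⊆ {1, ⟨y, hyN⟩} := by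
        rintro _ ⟨n, rfl⟩
        apply hfix
        change x * ((n : G) * (x * n * x⁻¹)) * x⁻¹ = (n : G) * (x * n * x⁻¹)
        have h1 : (n : G) * (x * n * x⁻¹) = (x * n * x⁻¹) * n := hmc _ n.2 _ (hNn.conj_mem _ n.2 x)
        have hx2 : x⁻¹ = x := inv_eq_of_mul_eq_one_right hxx
        calc x * ((n : G) * (x * n * x⁻¹)) * x⁻¹ = x * n * (x * n * (x⁻¹ * x⁻¹)) := by group
          _ = (x * n * x⁻¹) * n := by rw [hx2, hxx, mul_one]; simp only [mul_assoc]
          _ = (n : G) * (x * n * x⁻¹) := h1.symm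
      have h2 := Set.ncard_le_ncard this
      exact h2.trans (Set.ncard_insert_le _ _ |>.trans (by rw [Set.ncard_singleton]))
    have h1 := Subgroup.card_eq_card_quotient_mul_card_subgroup φ.ker
    rw [Nat.card_congr (QuotientGroup.quotientKerEquivRange φ).toEquiv] at h1
    rw [h1]
    calc Nat.card φ.range * Nat.card φ.ker ≤ 2 * 2 := Nat.mul_le_mul hran hker
      _ = 4 := rfl

end Cfsg.Agent.S3276
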