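import Cfsg.Statements.S3279
import Cfsg.Agent.L.Fus.ThreeInv

set_option autoImplicit false
open Cfsg

namespace Cfsg.Agent.S3279
open CfsgL.Fus
open Subgroup

/-- Let G be a finite simple group and x an involution of G whose centralizer contains at most three involutions. Then C_G(x) contains a Sylow 2-subgroup of G, and all involutions of G are conjugate. -/
theorem result {G : Type*} [Group G] [Finite G] [IsSimpleGroup G] (x : G) (hx : orderOf x = 2)
    (h3 : Nat.card {u : ↥(Subgroup.centralizer ({x} : Set G)) // orderOf u = 2} ≤ 3) :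
    (∃ S : Sylow 2 G, (S : Subgroup G) ≤ Subgroup.centralizer ({x} : Set G)) ∧
      ∀ u v : G, orderOf u = 2 → orderOf v = 2 → IsConj u v := by
  classical
  haveI : Fact (Nat.Prime 2) := ⟨Nat.prime_two⟩
  have hs : IsSimpleGroup G := inferInstance
  by_cases hG : IsMulCommutative G
  · have hc : ∀ a b : G, a * b = b * a := fun a b => hG.is_comm.comm a b
    refine ⟨?_, ?_⟩
    · obtain ⟨S⟩ : Nonempty (Sylow 2 G) := inferInstance
      exact ⟨S, fun s _ => mem_centralizer_singleton_iff.2 (hc _ _)⟩
    · intro u v hu hv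
      have h1 : (zpowers u) = ⊤ := by
        rcases hs.eq_bot_or_eq_top_of_normal (zpowers u) ⟨fun a ha g => by rw [hc g a, mul_assoc, mul_inv_cancel, mul_one]; exact ha⟩ with h | h
        · exfalso
          rw [zpowers_eq_bot] at h
          rw [h, orderOf_one] at hu; omega
        · exact h
      have h2 : v ∈ zpowers u := h1 ▸ mem_top v
      obtain ⟨k, hk⟩ := h2
      have hk : u ^ k = v := hk
      have hu2 : u ^ (2 : ℤ) = 1 := by
        have := sq_of_order hu
        rw [zpow_two]; exact this
      rcases Int.even_or_odd' k with ⟨m, hm | hm⟩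
      · exfalso
        rw [hm, zpow_mul, hu2, one_zpow] at hk
        rw [← hk, orderOf_one] at hv; omega
      · rw [hm, zpow_add, zpow_mul, hu2, one_zpow, one_mul, zpow_one] at hk
        rw [hk]
  -- nonabelian case
  have hfew : Few x := by
    intro a b c d ha hb hc hd ha' hb' hc' hd' hab hac hbc
    by_contra hcon
    push Not at hcon
    haveI : Finite {u : ↥(Subgroup.centralizer ({x} : Set G)) // orderOf u = 2} := inferInstance
    have mk : ∀ u : G, orderOf u = 2 → u * x = x * u →
        ∃ v : {u : ↥(Subgroup.centralizer ({x} : Set G)) // orderOf u = 2}, ((v : ↥(Subgroup.centralizer ({x} : Set G))) : G) = u := by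
      intro u hu hux
      refine ⟨⟨⟨u, mem_centralizer_singleton_iff.2 hux⟩, ?_⟩, rfl⟩
      rw [← Subgroup.orderOf_coe]; exact hu
    obtain ⟨a', ea⟩ := mk a ha ha'
    obtain ⟨b', eb⟩ := mk b hb hb'
    obtain ⟨c', ec⟩ := mk c hc hc'
    obtain ⟨d', ed⟩ := mk d hd hd'
    haveI : Fintype {u : ↥(Subgroup.centralizer ({x} : Set G)) // orderOf u = 2} := Fintype.ofFinite _
    have h4 : ({a', b', c', d'} : Finset {u : ↥(Subgroup.centralizer ({x} : Set G)) // orderOf u = 2}).card = 4 := by
      have hne : ∀ (u v : {u : ↥(Subgroup.centralizer ({x} : Set G)) // orderOf u = 2}),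
          ((u : ↥(Subgroup.centralizer ({x} : Set G))) : G) ≠ ((v : ↥(Subgroup.centralizer ({x} : Set G))) : G) → u ≠ v := by
        intro u v h h'; exact h (by rw [h'])
      rw [Finset.card_insert_of_notMem, Finset.card_insert_of_notMem,
        Finset.card_insert_of_notMem, Finset.card_singleton]
      · simp only [Finset.mem_singleton]
        exact hne _ _ (by rw [ec, ed]; exact fun h => hcon.2.2 h.symm)
      · simp only [Finset.mem_insert, Finset.mem_singleton]
        push Not
        exact ⟨hne _ _ (by rw [eb, ec]; exact hbc), hne _ _ (by rw [eb, ed]; exact fun h => hcon.2.1 h.symm)⟩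
      · simp only [Finset.mem_insert, Finset.mem_singleton]
        push Not
        exact ⟨hne _ _ (by rw [ea, eb]; exact hab), hne _ _ (by rw [ea, ec]; exact hac),
          hne _ _ (by rw [ea, ed]; exact fun h => hcon.1 h.symm)⟩
    have h5 := Finset.card_le_univ ({a', b', c', d'} : Finset {u : ↥(Subgroup.centralizer ({x} : Set G)) // orderOf u = 2})
    rw [Nat.card_eq_fintype_card] at h3
    omega
  have hx2 := sq_of_order hx
  have hx1 : x ≠ 1 := by rintro rfl; rw [orderOf_one] at hx; omega
  -- Claim A
  have hA : ∃ S : Sylow 2 G, (S : Subgroup G) ≤ Subgroup.centralizer ({x} : Set G) := by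
    by_contra hnot
    push Not at hnot
    obtain ⟨T⟩ : Nonempty (Sylow 2 (Subgroup.centralizer ({x} : Set G))) := inferInstance
    obtain ⟨T', hT'⟩ : ∃ T' : Subgroup G, T' = (T : Subgroup (Subgroup.centralizer ({x} : Set G))).map (Subgroup.centralizer ({x} : Set G)).subtype := ⟨_, rfl⟩
    have hT'p : IsPGroup 2 T' := hT' ▸ T.isPGroup'.map _
    have hT'C : T' ≤ Subgroup.centralizer ({x} : Set G) := by rw [hT']; exact map_subtype_le _
    obtain ⟨S, hTS⟩ := hT'p.exists_le_sylow
    have hST : ∀ s ∈ S, s * x = x * s → s ∈ T' := by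
      intro s hs hsx
      have h1 : IsPGroup 2 (((S : Subgroup G) ⊓ Subgroup.centralizer ({x} : Set G)).subgroupOf (Subgroup.centralizer ({x} : Set G))) :=
        (S.isPGroup'.to_le inf_le_left).comap_of_injective _ (Subgroup.subtype_injective _)
      have h2 : (T : Subgroup (Subgroup.centralizer ({x} : Set G))) ≤ ((S : Subgroup G) ⊓ Subgroup.centralizer ({x} : Set G)).subgroupOf (Subgroup.centralizer ({x} : Set G)) := by
        intro t ht
        exact ⟨hTS (by rw [hT']; exact ⟨t, ht, rfl⟩), t.2⟩
      have h4 := T.is_maximal' h1 h2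
      have h5 : (⟨s, mem_centralizer_singleton_iff.2 hsx⟩ : Subgroup.centralizer ({x} : Set G)) ∈ (T : Subgroup (Subgroup.centralizer ({x} : Set G))) := by
        rw [← h4]
        exact ⟨hs, mem_centralizer_singleton_iff.2 hsx⟩
      rw [hT']
      exact ⟨_, h5, rfl⟩
    have hxT : x ∈ T' := by
      have h1 : (⟨x, mem_centralizer_singleton_iff.2 rfl⟩ : Subgroup.centralizer ({x} : Set G)) ∈ T := by
        apply mem_sylow_of_commute T
        · rw [IsPGroup.iff_card]
          exact ⟨1, by rw [Nat.card_zpowers, ← Subgroup.orderOf_coe, pow_one]; exact hx⟩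
        · intro y _
          exact Subtype.ext (mem_centralizer_singleton_iff.1 y.2)
      rw [hT']; exact ⟨_, h1, rfl⟩
    have hxS : x ∈ S := hTS hxT
    -- the central involution
    have hne : Nontrivial (S : Subgroup G) := ⟨⟨x, hxS⟩, 1, fun h => hx1 (congrArg Subtype.val h)⟩
    obtain ⟨z, hzS, hz, hzc⟩ : ∃ z ∈ S, orderOf z = 2 ∧ ∀ s ∈ S, s * z = z * s := by
      haveI := S.isPGroup'.center_nontrivial
      have hc : 2 ∣ Nat.card (Subgroup.center (S : Subgroup G)) :=
        (S.isPGroup'.to_subgroup _).card_eq_or_dvd.resolve_left Finite.one_lt_card.ne'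
      obtain ⟨t, ht⟩ := exists_prime_orderOf_dvd_card' 2 hc
      refine ⟨((t : (S : Subgroup G)) : G), (t : (S : Subgroup G)).2, ?_, fun s hs => ?_⟩
      · rw [Subgroup.orderOf_coe, Subgroup.orderOf_coe, ht]
      · have h2 := Subgroup.mem_center_iff.1 t.2 ⟨s, hs⟩
        exact congrArg Subtype.val h2
    have hz2 := sq_of_order hz
    have hz1 : z ≠ 1 := by rintro rfl; rw [orderOf_one] at hz; omega
    -- no conjugate of x has a Sylow subgroup in its centralizer
    have hnc : ∀ g, g * x * g⁻¹ ≠ z := by
      intro g hg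
      apply hnot (g⁻¹ • S)
      intro s hs
      change s ∈ ((g⁻¹ • S : Sylow 2 G) : Subgroup G) at hs
      rw [Sylow.coe_subgroup_smul, Subgroup.mem_pointwise_smul_iff_inv_smul_mem] at hs
      have h1 : g * s * g⁻¹ ∈ S := by
        have e : (MulAut.conj g⁻¹)⁻¹ • s = g * s * g⁻¹ := by
          rw [← map_inv, MulAut.smul_def, MulAut.conj_apply, inv_inv]
        rw [e] at hs; exact hs
      have h2 := hzc _ h1
      rw [← hg] at h2
      rw [mem_centralizer_singleton_iff]
      calc s * x = g⁻¹ * (g * s * g⁻¹ * (g * x * g⁻¹)) * g := by group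
        _ = g⁻¹ * (g * x * g⁻¹ * (g * s * g⁻¹)) * g := by rw [h2]
        _ = x * s := by group
    -- facts for a conjugate of x inside S
    have hfacts : ∀ g : G, g * x * g⁻¹ ∈ S → ∀ u : G, orderOf u = 2 → u * (g * x * g⁻¹) = (g * x * g⁻¹) * u →
        u = g * x * g⁻¹ ∨ u = z ∨ u = g * x * g⁻¹ * z := by
      intro g hgS u hu hux
      obtain ⟨y, hy⟩ : ∃ y, y = g * x * g⁻¹ := ⟨_, rfl⟩
      have hyo : orderOf y = 2 := hy ▸ order_conj hx g
      have hyf : Few y := hy ▸ hfew.conj g
      rw [← hy] at hgS hux ⊢
      have hy2 := sq_of_order hyo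
      have hyz : y ≠ z := hy ▸ hnc g
      have hcyz : y * z = z * y := hzc y hgS
      have hyz1 : y * z ≠ 1 := by
        intro h; apply hyz
        rw [eq_inv_of_mul_eq_one_left h, inv_eq_of_mul_eq_one_right hz2]
      have hyz2 : y * z * (y * z) = 1 := by
        calc y * z * (y * z) = y * (z * y) * z := by group
          _ = y * (y * z) * z := by rw [hcyz]
          _ = (y * y) * (z * z) := by group
          _ = 1 := by rw [hy2, hz2, one_mul]
      refine hyf y z (y * z) u hyo hz (order_of_sq hyz2 hyz1) hu rfl hcyz.symm ?_ hux hyz ?_ ?_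
      · rw [mul_assoc, ← hcyz]
      · intro h; exact hz1 (mul_eq_left.1 h.symm)
      · intro h
        have : y = 1 := mul_eq_right.1 h.symm
        rw [this, orderOf_one] at hyo; omega
    have hTne : T' < (S : Subgroup G) := by
      refine lt_of_le_of_ne hTS ?_
      intro h
      apply hnot S
      rw [← h]; exact hT'C
    haveI : Group.IsNilpotent (S : Subgroup G) := S.isPGroup'.isNilpotent
    obtain ⟨s₀, hs₀S, hs₀T, hs₀N⟩ := CfsgH3.exists_normalizer_gt hTne
    have hs₀x : s₀ * x ≠ x * s₀ := fun h => hs₀T (hST s₀ hs₀S h)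
    rcases normal_four_or (S := (S : Subgroup G)) S.isPGroup' with ⟨U, hU, hU4, hUe⟩ | ⟨a, haN, haC, hai⟩
    · haveI := hU
      -- U contains z
      have hUne : U ≠ ⊥ := by
        intro h; rw [h, card_bot] at hU4; omega
      obtain ⟨z', hz'U, hz'c, hz'o⟩ := CfsgH3.exists_center_mem S.isPGroup' U hUne
      have hz'x : ((z' : (S : Subgroup G)) : G) * x = x * z' :=
        (congrArg Subtype.val (mem_center_iff.1 hz'c ⟨x, hxS⟩)).symm
      have hz'o' : orderOf ((z' : (S : Subgroup G)) : G) = 2 := by rw [Subgroup.orderOf_coe]; exact hz'o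
      have hz'cen : ∀ s ∈ S, s * (z' : G) = z' * s := fun s hs =>
        congrArg Subtype.val (mem_center_iff.1 hz'c ⟨s, hs⟩)
      have hz'z : ((z' : (S : Subgroup G)) : G) = z := by
        rcases hfacts 1 (by simpa using hxS) z' hz'o' (by simpa using hz'x) with h | h | h
        · exfalso; apply hs₀x
          simp only [one_mul, inv_one, mul_one] at h
          rw [← h]; exact hz'cen s₀ hs₀S
        · exact h
        · exfalso; apply hs₀x
          simp only [one_mul, inv_one, mul_one] at h
          have h1 := hz'cen s₀ hs₀S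
          rw [h] at h1
          have h2 : s₀ * x * z = x * s₀ * z := by
            calc s₀ * x * z = s₀ * (x * z) := by group
              _ = x * z * s₀ := h1
              _ = x * (z * s₀) := by group
              _ = x * (s₀ * z) := by rw [hzc s₀ hs₀S]
              _ = _ := by group
          exact mul_right_cancel h2
      -- another element u of U
      obtain ⟨u, huU, hu1, huz⟩ : ∃ u ∈ U, (u : G) ≠ 1 ∧ (u : G) ≠ z := by
        by_contra hcon
        push Not at hcon
        have h1 : Nat.card U ≤ Nat.card ({1, z'} : Set (S : Subgroup G)) := by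
          apply Nat.card_le_card_of_injective (fun v : U => (⟨(v : (S : Subgroup G)), by
            by_cases hv : ((v : (S : Subgroup G)) : G) = 1
            · left; exact Subtype.ext hv
            · right
              rw [Set.mem_singleton_iff]
              exact Subtype.ext ((hcon v v.2 hv).trans hz'z.symm)⟩ : ({1, z'} : Set (S : Subgroup G))))
          intro v w hvw
          exact Subtype.ext (Subtype.mk.inj hvw)
        have h2 : Nat.card ({1, z'} : Set (S : Subgroup G)) ≤ 2 := by
          rw [Nat.card_coe_set_eq]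
          exact (Set.ncard_insert_le _ _).trans (by rw [Set.ncard_singleton])
        omega
      have hu2 : (u : G) * u = 1 := congrArg Subtype.val (hUe u huU)
      have huo : orderOf (u : G) = 2 := order_of_sq hu2 hu1
      -- the elements of U
      have hUall : ∀ v ∈ U, (v : G) = 1 ∨ (v : G) = z ∨ (v : G) = u ∨ (v : G) = u * z := by
        have hcuz : u * z' = z' * u := mem_center_iff.1 hz'c u
        have huz' : u ≠ z' := fun h => huz (by rw [h, hz'z])
        have hz'1 : z' ≠ 1 := fun h => hz1 (by rw [← hz'z, h]; rfl)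
        have hu1' : u ≠ 1 := fun h => hu1 (by rw [h]; rfl)
        have hF := CfsgH3.isKleinFour_fourSub (hUe u huU) (hUe z' hz'U) hcuz hu1' hz'1 huz'
        have hle : CfsgH3.fourSub u z' (hUe u huU) (hUe z' hz'U) hcuz ≤ U := by
          rintro v (rfl | rfl | rfl | rfl)
          · exact one_mem _
          · exact huU
          · exact hz'U
          · exact mul_mem huU hz'U
        have heq := Subgroup.eq_of_le_of_card_ge hle (by rw [hU4, hF.card_four])
        intro v hv
        rw [← heq, CfsgH3.mem_fourSub] at hv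
        rcases hv with h | h | h | h
        · left; rw [h]; rfl
        · right; right; left; rw [h]
        · right; left; rw [h, hz'z]
        · right; right; right; rw [h, Subgroup.coe_mul, hz'z]
      have hact : ∀ s ∈ S, s * (u : G) * s⁻¹ = u ∨ s * (u : G) * s⁻¹ = u * z := by
        intro s hs
        have h1 := hU.conj_mem u huU ⟨s, hs⟩
        rcases hUall _ h1 with h | h | h | h
        · exfalso; apply hu1
          have h : s * (u : G) * s⁻¹ = 1 := h
          calc (u : G) = s⁻¹ * (s * u * s⁻¹) * s := by group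
            _ = 1 := by rw [h]; group
        · exfalso; apply huz
          have h : s * (u : G) * s⁻¹ = z := h
          calc (u : G) = s⁻¹ * (s * u * s⁻¹) * s := by group
            _ = s⁻¹ * (z * s) := by rw [h]; group
            _ = s⁻¹ * (s * z) := by rw [hzc s hs]
            _ = z := by group
        · left; exact h
        · right; exact h
      -- u is not central
      have hunc : ∃ s ∈ S, s * (u : G) ≠ u * s := by
        by_contra hcon
        push Not at hcon
        have h1 : (u : G) * x = x * u := (hcon x hxS).symm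
        rcases hfacts 1 (by simpa using hxS) u huo (by simpa using h1) with h | h | h
        · simp only [one_mul, inv_one, mul_one] at h
          exact hs₀x (h ▸ hcon s₀ hs₀S)
        · exact huz h
        · simp only [one_mul, inv_one, mul_one] at h
          apply hs₀x
          have h1 := hcon s₀ hs₀S
          rw [h] at h1
          have h2 : s₀ * x * z = x * s₀ * z := by
            calc s₀ * x * z = s₀ * (x * z) := by group
              _ = x * z * s₀ := h1
              _ = x * (z * s₀) := by group
              _ = x * (s₀ * z) := by rw [hzc s₀ hs₀S]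
              _ = _ := by group
          exact mul_right_cancel h2
      -- the maximal subgroup C_S(u)
      let M : Subgroup G := (S : Subgroup G) ⊓ centralizer {(u : G)}
      have hMm : ∀ v, v ∈ M ↔ v ∈ S ∧ v * (u : G) = u * v := by
        intro v
        show v ∈ (S : Subgroup G) ∧ v ∈ centralizer ({(u : G)} : Set G) ↔ _
        rw [mem_centralizer_singleton_iff]
        exact Iff.rfl
      have hMrel : M.relIndex (S : Subgroup G) = 2 := by
        show (M.subgroupOf (S : Subgroup G)).index = 2
        obtain ⟨s₁, hs₁, hs₁u⟩ := hunc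
        rw [Subgroup.index_eq_two_iff]
        refine ⟨⟨s₁, hs₁⟩, fun b => ?_⟩
        have hs₁' : s₁ * (u : G) * s₁⁻¹ = u * z := by
          rcases hact s₁ hs₁ with h | h
          · exfalso; apply hs₁u
            calc s₁ * (u : G) = (s₁ * u * s₁⁻¹) * s₁ := by group
              _ = u * s₁ := by rw [h]
          · exact h
        have hs₁M : s₁ ∉ M := fun h => hs₁u ((hMm s₁).1 h).2
        rw [mem_subgroupOf, mem_subgroupOf]
        by_cases hb : (b : G) ∈ M
        · right
          refine ⟨hb, fun h => hs₁M ?_⟩
          exact (Subgroup.mul_mem_cancel_left _ hb).1 h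
        · left
          refine ⟨?_, hb⟩
          rw [hMm] at hb ⊢
          refine ⟨mul_mem b.2 hs₁, ?_⟩
          have hb' : (b : G) * u * (b : G)⁻¹ = u * z := by
            rcases hact b b.2 with h | h
            · exfalso; apply hb; refine ⟨b.2, ?_⟩
              calc (b : G) * (u : G) = (b * u * (b : G)⁻¹) * b := by group
                _ = u * b := by rw [h]
            · exact h
          have hbz : (b : G) * z * (b : G)⁻¹ = z := by rw [hzc b b.2]; group
          have h5 : (b : G) * s₁ * u * ((b : G) * s₁)⁻¹ = u := by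
            calc (b : G) * s₁ * u * ((b : G) * s₁)⁻¹ = b * (s₁ * u * s₁⁻¹) * (b : G)⁻¹ := by group
              _ = (b * u * (b : G)⁻¹) * (b * z * (b : G)⁻¹) := by rw [hs₁']; group
              _ = u * z * z := by rw [hb', hbz]
              _ = u := by rw [mul_assoc, hz2, mul_one]
          calc (((b * ⟨s₁, hs₁⟩ : (S : Subgroup G))) : G) * u = ((b : G) * s₁ * u * ((b : G) * s₁)⁻¹) * (b * s₁) := by
                rw [Subgroup.coe_mul]; group
            _ = u * (b * s₁) := by rw [h5]
      obtain ⟨g, hg⟩ := simple_transfer hG S M hMrel x hx hxS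
      rw [hMm] at hg
      -- the conjugate x' lies in U
      have hux : (u : G) * (g * x * g⁻¹) = (g * x * g⁻¹) * u := hg.2.symm
      obtain ⟨y, hy⟩ : ∃ y, y = g * x * g⁻¹ := ⟨_, rfl⟩
      have hyS : y ∈ S := hy ▸ hg.1
      have hyo : orderOf y = 2 := hy ▸ order_conj hx g
      have hyf : Few y := hy ▸ hfew.conj g
      have hcase : (u : G) = y ∨ (u : G) = y * z := by
        rcases hfacts g hg.1 u huo hux with h | h | h
        · left; rw [h, hy]
        · exact absurd h huz
        · right; rw [h, hy]
      have hyu : y = u ∨ y = u * z := by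
        rcases hcase with h | h
        · left; exact h.symm
        · right; rw [h, mul_assoc, hz2, mul_one]
      have hcuz : (u : G) * z = z * u := hzc u u.2
      refine final hG S y z hyo hz hyS hzS hzc hyf ?_ ?_ ?_
      · intro k hk
        apply hnc (k * g)
        rw [← hk, hy]; group
      · intro s hs
        have hsz : s * z * s⁻¹ = z := by rw [hzc s hs]; group
        rcases hyu with h | h
        · rw [h]; exact hact s hs
        · have e : s * y * s⁻¹ = (s * u * s⁻¹) * (s * z * s⁻¹) := by rw [h]; group
          rw [e, hsz]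
          rcases hact s hs with h' | h'
          · left; rw [h', h]
          · right; rw [h', h]
      · obtain ⟨s₁, hs₁, hs₁u⟩ := hunc
        refine ⟨s₁, hs₁, fun h => hs₁u ?_⟩
        rcases hcase with h' | h'
        · rw [h']; exact h
        · rw [h', ← mul_assoc, h, mul_assoc, hzc s₁ hs₁, ← mul_assoc]
    · -- a cyclic maximal subgroup
      obtain ⟨Q, hQ⟩ : ∃ Q : Subgroup G, Q = (zpowers a).map (S : Subgroup G).subtype := ⟨_, rfl⟩
      have hQS : Q ≤ (S : Subgroup G) := by rw [hQ]; exact map_subtype_le _
      have hQsub : Q.subgroupOf (S : Subgroup G) = zpowers a := by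
        rw [hQ, Subgroup.subgroupOf, Subgroup.comap_map_eq_self_of_injective (Subgroup.subtype_injective _)]
      have hidx0 : (zpowers a).index ≠ 0 := Subgroup.index_ne_zero_of_finite
      have hidx1 : (zpowers a).index ≠ 1 := by
        intro h
        rw [Subgroup.index_eq_one] at h
        apply hs₀x
        have h1 : (⟨s₀, hs₀S⟩ : (S : Subgroup G)) ∈ zpowers a := h ▸ mem_top _
        have h2 : (⟨x, hxS⟩ : (S : Subgroup G)) ∈ zpowers a := h ▸ mem_top _
        obtain ⟨i, hi⟩ := h1
        obtain ⟨j, hj⟩ := h2
        have h5 : (⟨s₀, hs₀S⟩ : (S : Subgroup G)) * ⟨x, hxS⟩ = ⟨x, hxS⟩ * ⟨s₀, hs₀S⟩ := by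
          rw [← hi, ← hj]
          show a ^ i * a ^ j = a ^ j * a ^ i
          rw [← zpow_add, ← zpow_add, add_comm]
        exact congrArg Subtype.val h5
      have hQrel : Q.relIndex (S : Subgroup G) = 2 := by
        show (Q.subgroupOf (S : Subgroup G)).index = 2
        rw [hQsub]; omega
      obtain ⟨g, hg⟩ := simple_transfer hG S Q hQrel x hx hxS
      -- z ∈ ⟨a⟩
      have hza : (⟨z, hzS⟩ : (S : Subgroup G)) ∈ zpowers a := by
        rw [← haC, mem_centralizer_iff]
        intro y _
        exact Subtype.ext (hzc y y.2)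
      have hga : (⟨g * x * g⁻¹, hQS hg⟩ : (S : Subgroup G)) ∈ zpowers a := by
        rw [← hQsub, mem_subgroupOf]; exact hg
      -- unique involution of a cyclic group
      have huniq : ∀ u v : (S : Subgroup G), u ∈ zpowers a → v ∈ zpowers a → orderOf u = 2 → orderOf v = 2 → u = v :=
        fun u v hu hv hou hov => cyc_invol_uniq hu hv hou hov
      have hzo' : orderOf (⟨z, hzS⟩ : (S : Subgroup G)) = 2 := by rw [← Subgroup.orderOf_coe]; exact hz
      have hgo' : orderOf (⟨g * x * g⁻¹, hQS hg⟩ : (S : Subgroup G)) = 2 := by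
        rw [← Subgroup.orderOf_coe]; exact order_conj hx g
      have := huniq _ _ hga hza hgo' hzo'
      exact hnc g (congrArg Subtype.val this)
  refine ⟨hA, ?_⟩
  -- Claim B
  obtain ⟨S, hS⟩ := hA
  have hSx : ∀ s ∈ S, s * x = x * s := fun s hs => mem_centralizer_singleton_iff.1 (hS hs)
  have hxS : x ∈ S := mem_sylow_of_commute S x (by
    rw [IsPGroup.iff_card]; exact ⟨1, by rw [Nat.card_zpowers, hx, pow_one]⟩) hSx
  obtain ⟨g, hgS, hgx⟩ := simple_not_isolated hG S x hx hxS
  obtain ⟨y, hy⟩ : ∃ y, y = g * x * g⁻¹ := ⟨_, rfl⟩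
  rw [← hy] at hgS hgx
  have hyo : orderOf y = 2 := hy ▸ order_conj hx g
  have hy2 := sq_of_order hyo
  have hcxy : y * x = x * y := hSx y hgS
  have hxy2 : x * y * (x * y) = 1 := by
    calc x * y * (x * y) = x * (y * x) * y := by group
      _ = x * (x * y) * y := by rw [hcxy]
      _ = (x * x) * (y * y) := by group
      _ = 1 := by rw [hx2, hy2, one_mul]
  have hxy1 : x * y ≠ 1 := by
    intro h; apply hgx
    rw [← inv_eq_of_mul_eq_one_right h, inv_eq_of_mul_eq_one_right hx2]
  have hxyo : orderOf (x * y) = 2 := order_of_sq hxy2 hxy1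
  have hy1 : y ≠ 1 := by rintro h; rw [h, orderOf_one] at hyo; omega
  have hSinv : ∀ u ∈ S, orderOf u = 2 → u = x ∨ u = y ∨ u = x * y := by
    intro u hu huo
    refine hfew x y (x * y) u hx hyo hxyo huo rfl hcxy ?_ (hSx u hu) hgx.symm ?_ ?_
    · rw [mul_assoc, hcxy]
    · intro h; exact hy1 (mul_eq_left.1 h.symm)
    · intro h; exact hx1 (mul_eq_right.1 h.symm)
  have hyx : IsConj x y := isConj_iff.2 ⟨g, hy.symm⟩
  have hxyx : IsConj x (x * y) := by
    by_contra hcon
    obtain ⟨k, hkS, hkne⟩ := simple_not_isolated hG S (x * y) hxyo (mul_mem hxS hgS)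
    have hkc : IsConj (x * y) (k * (x * y) * k⁻¹) := isConj_iff.2 ⟨k, rfl⟩
    rcases hSinv _ hkS (order_conj hxyo k) with h | h | h
    · rw [h] at hkc; exact hcon hkc.symm
    · rw [h] at hkc; exact hcon (hyx.trans hkc.symm)
    · exact hkne h
  have hall : ∀ u : G, orderOf u = 2 → IsConj x u := by
    intro u hu
    obtain ⟨k, hk⟩ := conj_into_sylow S (zpowers u) (by
      rw [IsPGroup.iff_card]; exact ⟨1, by rw [Nat.card_zpowers, hu, pow_one]⟩)
    have hkS := hk u (mem_zpowers u)
    have hkc : IsConj u (k * u * k⁻¹) := isConj_iff.2 ⟨k, rfl⟩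
    rcases hSinv _ hkS (order_conj hu k) with h | h | h
    · rw [h] at hkc; exact hkc.symm
    · rw [h] at hkc; exact hyx.trans hkc.symm
    · rw [h] at hkc; exact hxyx.trans hkc.symm
  intro u v hu hv
  exact (hall u hu).symm.trans (hall v hv)

end Cfsg.Agent.S3279
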