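import Cfsg.Statements.S3303
import Mathlib
import Cfsg.Agent.L.Misc.SylInt

set_option autoImplicit false
open Cfsg

namespace Cfsg.Agent.S3303

/-- Let G be a finite solvable group in which the intersection of any two distinct Sylow 2-subgroups is cyclic. Then G/O(G) has a normal Sylow 2-subgroup, where O(G) is the largest normal subgroup of odd order. -/
theorem result {G : Type*} [Group G] [Finite G] (hs : Group.IsSolvable G)
    (hC : ∀ S T : Sylow 2 G, S ≠ T → IsCyclic ↥((S : Subgroup G) ⊓ (T : Subgroup G))) :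
    ∃ P : Sylow 2 (G ⧸ Cfsg.oddCore G), (P : Subgroup (G ⧸ Cfsg.oddCore G)).Normal := by
  classical
  haveI : Fact (Nat.Prime 2) := ⟨Nat.prime_two⟩
  have hQ := CfsgL.SylInt.cyc_quot hC (Cfsg.oddCore G)
  have hO : Cfsg.pPrimeCore 2 (G ⧸ Cfsg.oddCore G) = ⊥ := CfsgH2.pPrimeCore_quotient_pPrimeCore (G := G) 2
  have hsol : Group.IsSolvable (G ⧸ Cfsg.oddCore G) := inferInstance
  obtain ⟨P⟩ : Nonempty (Sylow 2 (G ⧸ Cfsg.oddCore G)) := inferInstance
  refine ⟨P, ?_⟩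
  by_cases h : ∀ T : Sylow 2 (G ⧸ Cfsg.oddCore G), T = P
  · refine ⟨fun x hx g => ?_⟩
    have h1 : g • P = P := h _
    rw [← h1]
    exact ⟨x, hx, rfl⟩
  · push Not at h
    obtain ⟨T, hT⟩ := h
    have h1 := hQ T P hT
    have h2 : Cfsg.pCore 2 (G ⧸ Cfsg.oddCore G) ≤ (T : Subgroup (G ⧸ Cfsg.oddCore G)) ⊓ (P : Subgroup (G ⧸ Cfsg.oddCore G)) :=
      le_inf ((CfsgH2.isPGroup_pCore 2).le_sylow_of_normal T) ((CfsgH2.isPGroup_pCore 2).le_sylow_of_normal P)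
    have h3 : IsCyclic ↥(Cfsg.pCore 2 (G ⧸ Cfsg.oddCore G)) := by
      have h6 : IsCyclic ↥((Cfsg.pCore 2 (G ⧸ Cfsg.oddCore G)).subgroupOf ((T : Subgroup (G ⧸ Cfsg.oddCore G)) ⊓ (P : Subgroup (G ⧸ Cfsg.oddCore G)))) := inferInstance
      exact isCyclic_of_surjective (Subgroup.subgroupOfEquivOfLe h2) (MulEquiv.surjective _)
    have h4 := CfsgL.SylInt.solv_cyc hsol hO h3
    have h5 : (P : Subgroup (G ⧸ Cfsg.oddCore G)) = ⊤ := (P.is_maximal' (Q := ⊤) (h4.to_subgroup ⊤) le_top).symm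
    rw [h5]
    infer_instance

end Cfsg.Agent.S3303
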