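import Cfsg.Statements.S3349
import Cfsg.Agent.H1.Basic

set_option autoImplicit false
open Cfsg

namespace Cfsg.Agent.S3349

open scoped commutatorElement Pointwise

/-- Let Q be a finite extraspecial p-group and α an automorphism of Q fixing every element of some maximal abelian subgroup of Q. Then the order of α is a power of p. -/
theorem result {Q : Type*} [Group Q] [Finite Q]
    (p : ℕ) [Fact p.Prime] (hQ : Cfsg.IsExtraspecial p Q) (α : MulAut Q)
    (A : Subgroup Q) (hA : IsMulCommutative A) (hmax : ∀ B : Subgroup Q, A ≤ B → IsMulCommutative B → B = A)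
    (hfix : ∀ a ∈ A, α a = a) :
    ∃ k : ℕ, orderOf α = p ^ k := by
  have hp : p.Prime := Fact.out
  have hAc : ∀ a ∈ A, ∀ b ∈ A, a * b = b * a := fun a ha b hb => congrArg Subtype.val (hA.is_comm.comm ⟨a, ha⟩ ⟨b, hb⟩)
  have hcA : ∀ c : Q, (∀ a ∈ A, c * a = a * c) → c ∈ A := by
    intro c hc
    have h1 : Subgroup.closure ((A : Set Q) ∪ {c}) = A := by
      apply hmax _ (fun a ha => Subgroup.subset_closure (Or.inl ha))
      haveI := Subgroup.isMulCommutative_closure (k := (A : Set Q) ∪ {c}) (by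
        rintro x (hx | hx) y (hy | hy)
        · exact hAc x hx y hy
        · rw [Set.mem_singleton_iff] at hy; rw [hy]; exact (hc x hx).symm
        · rw [Set.mem_singleton_iff] at hx; rw [hx]; exact hc y hy
        · rw [Set.mem_singleton_iff] at hx hy; rw [hx, hy])
      exact this
    rw [← h1]
    exact Subgroup.subset_closure (Or.inr rfl)
  have hZA : Subgroup.center Q ≤ A := fun z hz => hcA z (fun a _ => ((Subgroup.mem_center_iff.1 hz) a).symm)
  have hQZ : commutator Q = Subgroup.center Q := hQ.1.2.2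
  have hAn : ∀ x a : Q, a ∈ A → x * a * x⁻¹ ∈ A := by
    intro x a ha
    have h1 : ⁅x, a⁆ ∈ A := hZA (hQZ ▸ Subgroup.commutator_mem_commutator (Subgroup.mem_top x) (Subgroup.mem_top a))
    have h2 : x * a * x⁻¹ = ⁅x, a⁆ * a := by rw [commutatorElement_def]; group
    rw [h2]; exact A.mul_mem h1 ha
  have hx : ∀ x : Q, x⁻¹ * α x ∈ A := by
    intro x
    apply hcA
    intro a ha
    have h1 := hfix _ (hAn x a ha)
    rw [map_mul, map_mul, map_inv, hfix a ha] at h1
    -- α x * a * (α x)⁻¹ = x * a * x⁻¹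
    have h2 : x⁻¹ * α x * a = a * (x⁻¹ * α x) := by
      calc x⁻¹ * α x * a = x⁻¹ * (α x * a * (α x)⁻¹) * α x := by group
        _ = x⁻¹ * (x * a * x⁻¹) * α x := by rw [h1]
        _ = _ := by group
    exact h2
  have hiter : ∀ (n : ℕ) (x : Q), (α ^ n) x = x * (x⁻¹ * α x) ^ n := by
    intro n
    induction n with
    | zero => intro x; simp
    | succ n ih =>
      intro x
      rw [pow_succ', MulAut.mul_apply, ih, map_mul, map_pow, hfix _ (hx x), pow_succ', ← mul_assoc x, mul_inv_cancel_left]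
  have h1 : α ^ Nat.card A = 1 := by
    ext x
    rw [hiter]
    have h2 : (⟨x⁻¹ * α x, hx x⟩ : A) ^ Nat.card A = 1 := pow_card_eq_one'
    have h3 : (x⁻¹ * α x) ^ Nat.card A = 1 := congrArg Subtype.val h2
    rw [h3, mul_one]; rfl
  have hQp : IsPGroup p Q := hQ.1.1
  obtain ⟨k, hk⟩ := IsPGroup.iff_card.1 (hQp.to_subgroup A)
  rw [hk] at h1
  obtain ⟨j, _, hj⟩ := (Nat.dvd_prime_pow hp).1 (orderOf_dvd_of_pow_eq_one h1)
  exact ⟨j, hj⟩

end Cfsg.Agent.S3349
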