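import Cfsg.Statements.S3389
import Cfsg.Agent.H1.PGrp2

set_option autoImplicit false
open Cfsg

namespace Cfsg.Agent.S3389

open scoped commutatorElement Pointwise

section
variable {G Ω : Type*} [Group G] [MulAction G Ω]

/-- if every point of a finite set has trivial stabilizer then the group order divides the size. -/
theorem semireg_dvd [Finite G] [Finite Ω] (h : ∀ (g : G) (w : Ω), g • w = w → g = 1) :
    Nat.card G ∣ Nat.card Ω := by
  classical
  haveI : Fintype (Quotient (MulAction.orbitRel G Ω)) := Fintype.ofFinite _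
  have e := MulAction.selfEquivSigmaOrbitsQuotientStabilizer G Ω
  rw [Nat.card_congr e, Nat.card_sigma]
  apply Finset.dvd_sum
  intro q _
  have h1 : MulAction.stabilizer G q.out = ⊥ := by
    rw [eq_bot_iff]
    intro g hg
    exact Subgroup.mem_bot.mpr (h g _ hg)
  have h2 : Nat.card (G ⧸ MulAction.stabilizer G q.out) = Nat.card G := by
    rw [← Subgroup.index_eq_card, h1, Subgroup.index_bot]
  rw [h2]

/-- a `p`-group acting on a set with fewer than `p` points acts trivially -/
theorem small_fix {p : ℕ} [Fact p.Prime] [Finite G] [Finite Ω] (hG : IsPGroup p G)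
    (hlt : Nat.card Ω < p) (g : G) (w : Ω) : g • w = w := by
  obtain ⟨n, hn⟩ := hG.index (MulAction.stabilizer G w)
  have h1 : (MulAction.stabilizer G w).index = (MulAction.orbit G w).ncard :=
    MulAction.index_stabilizer G w
  have h2 : (MulAction.orbit G w).ncard ≤ Nat.card Ω := Set.ncard_le_card _
  have h3 : (MulAction.stabilizer G w).index = 1 := by
    rcases Nat.eq_zero_or_pos n with rfl | h0
    · rw [hn, pow_zero]
    · exfalso
      have : p ^ 1 ≤ p ^ n := Nat.pow_le_pow_right (Fact.out : p.Prime).pos h0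
      rw [pow_one] at this
      omega
  rw [Subgroup.index_eq_one] at h3
  have : g ∈ MulAction.stabilizer G w := h3 ▸ Subgroup.mem_top g
  exact this

theorem gl_fix {p : ℕ} [hp : Fact p.Prime] [Finite G] [Finite Ω] (S : Subgroup G)
    (hS : IsPGroup p S) (g : G) (hg : g ∈ S) (hlt : Nat.card (MulAction.fixedBy Ω g) < p) :
    S ≤ fixingSubgroup G (MulAction.fixedBy Ω g) := by
  set F := MulAction.fixedBy Ω g with hF
  set P := S ⊓ fixingSubgroup G F with hP
  by_contra hne
  have hPS : P ≠ S := fun h => hne (by rw [← h]; exact inf_le_right)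
  have hnil : Group.IsNilpotent S := hS.isNilpotent
  have h1 := CfsgH1.lt_inf_normalizer_of_nilpotent hnil (inf_le_left : P ≤ S) hPS
  obtain ⟨r, hr, hrP⟩ := SetLike.exists_of_lt h1
  apply hrP
  refine ⟨hr.1, ?_⟩
  change r ∈ fixingSubgroup G F
  rw [mem_fixingSubgroup_iff]
  have hgF : g ∈ fixingSubgroup G F := by
    rw [mem_fixingSubgroup_iff]; intro y hy; exact hy
  have hgP : g ∈ P := ⟨hg, hgF⟩
  have hrF : ∀ x ∈ Subgroup.zpowers r, ∀ w ∈ F, x • w ∈ F := by
    intro x hx w hw
    have hxn : x ∈ Subgroup.normalizer (P : Set G) := (Subgroup.zpowers_le.mpr hr.2) hx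
    have h2 : x⁻¹ * g * x ∈ P := (Subgroup.mem_normalizer_iff''.mp hxn g).mp hgP
    have h3 : (x⁻¹ * g * x) • w = w := ((mem_fixingSubgroup_iff G).mp h2.2) w hw
    rw [hF, MulAction.mem_fixedBy]
    calc g • x • w = x • ((x⁻¹ * g * x) • w) := by rw [mul_smul, mul_smul, smul_inv_smul]
      _ = x • w := by rw [h3]
  letI act : MulAction (Subgroup.zpowers r) F :=
    { smul := fun x w => ⟨(x : G) • (w : Ω), hrF x x.2 w w.2⟩
      one_smul := fun w => Subtype.ext (one_smul G _)
      mul_smul := fun a b w => Subtype.ext (mul_smul (a : G) (b : G) _) }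
  have hp' : IsPGroup p (Subgroup.zpowers r) := hS.to_le (Subgroup.zpowers_le.mpr hr.1)
  intro y hy
  have := small_fix hp' hlt ⟨r, Subgroup.mem_zpowers r⟩ (⟨y, hy⟩ : F)
  exact congrArg Subtype.val this

end

/-- Let G be a finite group acting faithfully and transitively on a finite set Ω with fixity k ≥ 1: every non-identity element fixes at most k points and some non-identity element fixes exactly k points. Then |Z(G)| divides k; if k = 2 then |G| is even; and for every prime p > k dividing |G| and every point α, either p does not divide |G_α| or G_α contains a Sylow p-subgroup of G. -/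
theorem result {G : Type*} [Group G] [Finite G] {Ω : Type*} [Fintype Ω] [MulAction G Ω] [FaithfulSMul G Ω]
    (htr : MulAction.IsPretransitive G Ω) (k : ℕ) (hk : 1 ≤ k)
    (hfix : ∀ g : G, g ≠ 1 → Nat.card (MulAction.fixedBy Ω g) ≤ k) (hex : ∃ g : G, g ≠ 1 ∧ Nat.card (MulAction.fixedBy Ω g) = k) :
    Nat.card (Subgroup.center G) ∣ k ∧ (k = 2 → 2 ∣ Nat.card G) ∧
      ∀ (p : ℕ), p.Prime → k < p → p ∣ Nat.card G → ∀ α : Ω,
        ¬ p ∣ Nat.card (MulAction.stabilizer G α) ∨ ¬ p ∣ (MulAction.stabilizer G α).index := by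

  classical
  haveI := htr
  have hfixZ : ∀ z ∈ Subgroup.center G, ∀ w : Ω, z • w = w → z = 1 := by
    intro z hz w hw
    apply FaithfulSMul.eq_of_smul_eq_smul (α := Ω)
    intro u
    obtain ⟨g, rfl⟩ := MulAction.exists_smul_eq G w u
    rw [one_smul, ← mul_smul, ← (Subgroup.mem_center_iff.mp hz g), mul_smul, hw]
  obtain ⟨g₀, hg₀, hg₀k⟩ := hex
  refine ⟨?_, ?_, ?_⟩
  · -- the center acts semiregularly on the fixed points of g₀
    rw [← hg₀k]
    letI act : MulAction (Subgroup.center G) (MulAction.fixedBy Ω g₀) :=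
      { smul := fun z w => ⟨(z : G) • (w : Ω), by
          have hw := w.2
          rw [MulAction.mem_fixedBy] at hw ⊢
          rw [← mul_smul, (Subgroup.mem_center_iff.mp z.2 g₀), mul_smul, hw]⟩
        one_smul := fun w => Subtype.ext (one_smul G _)
        mul_smul := fun a b w => Subtype.ext (mul_smul (a : G) (b : G) _) }
    apply semireg_dvd (G := Subgroup.center G) (Ω := MulAction.fixedBy Ω g₀)
    intro z w h
    apply Subtype.ext
    exact hfixZ z z.2 w (congrArg Subtype.val h)
  · rintro rfl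
    by_contra hodd
    have h0 : orderOf g₀ ≠ 1 := fun h => hg₀ (orderOf_eq_one_iff.mp h)
    obtain ⟨p, hp, hpd⟩ := Nat.exists_prime_and_dvd h0
    haveI : Fact p.Prime := ⟨hp⟩
    have hp2 : 2 < p := by
      rcases hp.two_le.lt_or_eq with h | h
      · exact h
      · exfalso; exact hodd (h ▸ hpd.trans (orderOf_dvd_natCard g₀))
    set g₁ := g₀ ^ (orderOf g₀ / p) with hg₁
    have hg₁o : orderOf g₁ = p := orderOf_pow_orderOf_div (orderOf_pos _).ne' hpd
    have hg₁1 : g₁ ≠ 1 := fun h => hp.one_lt.ne' (by rw [← hg₁o, h, orderOf_one])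
    have hsub : ∀ w ∈ MulAction.fixedBy Ω g₀, w ∈ MulAction.fixedBy Ω g₁ := by
      intro w hw
      have h1 : g₀ ∈ MulAction.stabilizer G w := hw
      exact pow_mem h1 _
    obtain ⟨⟨a, ha⟩, ⟨b, hb⟩, hab, -⟩ := Nat.card_eq_two_iff.mp hg₀k
    have hab' : a ≠ b := fun h => hab (Subtype.ext h)
    have ha1 := hsub a ha
    have hb1 := hsub b hb
    have hset : ({a, b} : Set Ω) = MulAction.fixedBy Ω g₁ := by
      apply Set.eq_of_subset_of_ncard_le
      · rintro w (rfl | rfl)
        · exact ha1
        · exact hb1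
      · rw [Set.ncard_pair hab', ← Nat.card_coe_set_eq]
        exact hfix g₁ hg₁1
      · exact Set.toFinite _
    have hpz : IsPGroup p (Subgroup.zpowers g₁) :=
      IsPGroup.of_card (n := 1) (by rw [Nat.card_zpowers, hg₁o, pow_one])
    obtain ⟨S, hS⟩ := hpz.exists_le_sylow
    have hg₁S : g₁ ∈ (S : Subgroup G) := hS (Subgroup.mem_zpowers _)
    have hGL := gl_fix (Ω := Ω) (S : Subgroup G) S.2 g₁ hg₁S (lt_of_le_of_lt (hfix g₁ hg₁1) hp2)
    have hSa : ∀ s ∈ (S : Subgroup G), s • a = a := fun s hs =>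
      ((mem_fixingSubgroup_iff G).mp (hGL hs)) a ha1
    have hSb : ∀ s ∈ (S : Subgroup G), s • b = b := fun s hs =>
      ((mem_fixingSubgroup_iff G).mp (hGL hs)) b hb1
    obtain ⟨h, hh⟩ := MulAction.exists_smul_eq G a b
    have hB : (S : Subgroup G) ≤ MulAction.stabilizer G b := fun s hs => hSb s hs
    have hB' : ((h • S : Sylow p G) : Subgroup G) ≤ MulAction.stabilizer G b := by
      intro s hs
      have hs' : s ∈ MulAut.conj h • (S : Subgroup G) := hs
      rw [Subgroup.mem_smul_pointwise_iff_exists] at hs'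
      obtain ⟨t, ht, rfl⟩ := hs'
      rw [MulAction.mem_stabilizer_iff, MulAut.smul_def, MulAut.conj_apply, mul_smul, mul_smul]
      have : h⁻¹ • b = a := by rw [← hh, inv_smul_smul]
      rw [this, hSa t ht, hh]
    obtain ⟨x, hx⟩ := MulAction.exists_smul_eq (MulAction.stabilizer G b)
      ((h • S : Sylow p G).subtype hB') (S.subtype hB)
    rw [Sylow.smul_subtype] at hx
    have hx2 := Sylow.subtype_injective hx
    have hx3 : ((x : G) * h) • S = S := by rw [mul_smul]; exact hx2
    have hx4 := Sylow.smul_eq_iff_mem_normalizer.mp hx3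
    set y := (x : G) * h with hy
    have hya : y • a = b := by rw [hy, mul_smul, hh]; exact x.2
    clear_value y
    have hyb : y • b = a := by
      have h2 : y⁻¹ * g₁ * y ∈ (S : Subgroup G) :=
        (Subgroup.mem_normalizer_iff''.mp hx4 g₁).mp hg₁S
      have h3 : y • b ∈ MulAction.fixedBy Ω g₁ := by
        rw [MulAction.mem_fixedBy]
        calc g₁ • y • b = y • ((y⁻¹ * g₁ * y) • b) := by rw [mul_smul, mul_smul, smul_inv_smul]
          _ = y • b := by rw [hSb _ h2]
      rw [← hset] at h3
      rcases h3 with h3 | h3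
      · exact h3
      · exfalso
        have h4 : y • b = y • a := by rw [hya]; exact h3
        exact hab' (smul_left_cancel _ h4).symm
    have hy2 : y ^ 2 ∈ MulAction.stabilizer G a := by
      rw [MulAction.mem_stabilizer_iff, pow_two, mul_smul, hya, hyb]
    obtain ⟨j, hj⟩ := Nat.not_even_iff_odd.mp (fun h => hodd h.two_dvd)
    have hy1 : y ^ Nat.card G = 1 := pow_card_eq_one'
    rw [hj, pow_succ', pow_mul] at hy1
    have h5 : (y * (y ^ 2) ^ j) • a = b := by
      rw [mul_smul]
      have h6 : ((y ^ 2) ^ j) • a = a := pow_mem hy2 j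
      rw [h6, hya]
    rw [hy1, one_smul] at h5
    exact hab' h5
  · intro p hp hkp hpG α
    haveI : Fact p.Prime := ⟨hp⟩
    by_contra hcon
    push Not at hcon
    obtain ⟨h1, h2⟩ := hcon
    obtain ⟨x, hx⟩ := exists_prime_orderOf_dvd_card' (G := MulAction.stabilizer G α) p h1
    have hxo : orderOf (x : G) = p := by rw [Subgroup.orderOf_coe, hx]
    have hx1 : (x : G) ≠ 1 := fun h => hp.one_lt.ne' (by rw [← hxo, h, orderOf_one])
    have hpz : IsPGroup p (Subgroup.zpowers (x : G)) :=
      IsPGroup.of_card (n := 1) (by rw [Nat.card_zpowers, hxo, pow_one])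
    obtain ⟨S, hS⟩ := hpz.exists_le_sylow
    have hxS : (x : G) ∈ (S : Subgroup G) := hS (Subgroup.mem_zpowers _)
    have hGL := gl_fix (Ω := Ω) (S : Subgroup G) S.2 (x : G) hxS (lt_of_le_of_lt (hfix _ hx1) hkp)
    have hxα : α ∈ MulAction.fixedBy Ω (x : G) := x.2
    have hSα : (S : Subgroup G) ≤ MulAction.stabilizer G α := fun s hs =>
      ((mem_fixingSubgroup_iff G).mp (hGL hs)) α hxα
    have h3 : (MulAction.stabilizer G α).index ∣ (S : Subgroup G).index :=
      Subgroup.index_dvd_of_le hSα
    exact S.not_dvd_index (h2.trans h3)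

end Cfsg.Agent.S3389
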