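import Cfsg.Statements.S3391
import Cfsg.Agent.L.Sz.Fix2
import Cfsg.Agent.L.Sz.Bridge

set_option autoImplicit false
open Cfsg

namespace Cfsg.Agent.S3391
open CfsgL.Sz

/-- Let q = 2^{2m+1} ≥ 8 and let G be isomorphic to the Suzuki group Sz(q). If G acts faithfully and transitively on a finite set Ω with fixity 2 (every non-identity element fixes at most two points, and some fixes exactly two), then either |Ω| = q² + 1 and the action is 2-transitive, or |Ω| = q²(q² + 1) and the point stabilizers have order q − 1. -/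
theorem result {G : Type*} [Group G] [Finite G] (F : Type) [Field F] [Fintype F] (m : ℕ) (hm : 1 ≤ m) (hF : Fintype.card F = 2 ^ (2 * m + 1))
    (e : G ≃* ↥(Cfsg.Lie.Sz F (2 ^ (m + 1)))) {Ω : Type*} [Fintype Ω] [MulAction G Ω] [FaithfulSMul G Ω] (htr : MulAction.IsPretransitive G Ω)
    (hfix : ∀ g : G, g ≠ 1 → Nat.card (MulAction.fixedBy Ω g) ≤ 2) (hex : ∃ g : G, g ≠ 1 ∧ Nat.card (MulAction.fixedBy Ω g) = 2) :
    (Fintype.card Ω = Fintype.card F ^ 2 + 1 ∧ MulAction.IsMultiplyPretransitive G Ω 2) ∨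
    (Fintype.card Ω = Fintype.card F ^ 2 * (Fintype.card F ^ 2 + 1) ∧ ∀ α : Ω, Nat.card (MulAction.stabilizer G α) = Fintype.card F - 1) := by
  haveI := CfsgL.Sz.char_two hF
  haveI : Fact (Fintype.card F = 2 ^ (2 * m + 1)) := ⟨hF⟩
  haveI : Fact (1 ≤ m) := ⟨hm⟩
  let e' : Gz F m ≃* G := (bridge F m).trans e.symm
  letI act' : MulAction (Gz F m) Ω := MulAction.compHom Ω e'.toMonoidHom
  have hsm : ∀ (g : Gz F m) (x : Ω), g • x = e' g • x := fun _ _ => rfl
  haveI : FaithfulSMul (Gz F m) Ω := ⟨fun {g k} h => e'.injective (FaithfulSMul.eq_of_smul_eq_smul (α := Ω) h)⟩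
  haveI : MulAction.IsPretransitive (Gz F m) Ω := ⟨fun x y => by
    obtain ⟨g, hg⟩ := htr.exists_smul_eq x y
    exact ⟨e'.symm g, by rw [hsm, e'.apply_symm_apply, hg]⟩⟩
  have hfix' : ∀ g : Gz F m, g ≠ 1 → Nat.card (MulAction.fixedBy Ω g) ≤ 2 := by
    intro g hg
    have : MulAction.fixedBy Ω g = MulAction.fixedBy Ω (e' g) := rfl
    rw [this]
    exact hfix _ (fun h => hg (e'.injective (by rw [h, map_one])))
  have hstab : ∀ α : Ω, Nat.card (MulAction.stabilizer G α) = Nat.card (MulAction.stabilizer (Gz F m) α) := by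
    intro α
    apply Nat.card_congr
    exact ⟨fun g => ⟨e'.symm g, by
        rw [MulAction.mem_stabilizer_iff, hsm, e'.apply_symm_apply]; exact g.2⟩,
      fun g => ⟨e' g, g.2⟩, fun g => Subtype.ext (e'.apply_symm_apply _), fun g => Subtype.ext (e'.symm_apply_apply _)⟩
  obtain ⟨g₀, hg₀, hg₀2⟩ := hex
  obtain ⟨⟨α₀, hα₀⟩⟩ : Nonempty (MulAction.fixedBy Ω g₀) := by
    rw [← Finite.card_pos_iff, hg₀2]; norm_num
  have hcardΩ : ∀ α : Ω, Fintype.card Ω = (MulAction.stabilizer (Gz F m) α).index := by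
    intro α
    rw [MulAction.index_stabilizer_of_transitive, Nat.card_eq_fintype_card]
  have hconj : ∀ α β : Ω, Nat.card (MulAction.stabilizer (Gz F m) α) = Nat.card (MulAction.stabilizer (Gz F m) β) := by
    intro α β
    have h1 := (MulAction.stabilizer (Gz F m) α).index_mul_card
    have h2 := (MulAction.stabilizer (Gz F m) β).index_mul_card
    rw [← hcardΩ] at h1 h2
    have : 0 < Fintype.card Ω := Fintype.card_pos_iff.2 ⟨α⟩
    exact Nat.eq_of_mul_eq_mul_left this (h1.trans h2.symm)
  have hq : Nat.card F = Fintype.card F := Nat.card_eq_fintype_card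
  rcases Nat.even_or_odd (Nat.card (MulAction.stabilizer (Gz F m) α₀)) with hev | hod
  · left
    -- an involution in a stabilizer, moved to standard position
    obtain ⟨t, ht⟩ := exists_prime_orderOf_dvd_card' (G := MulAction.stabilizer (Gz F m) α₀) 2 hev.two_dvd
    have ht' : orderOf (t : Gz F m) = 2 := by rw [Subgroup.orderOf_coe, ht]
    have hstd : ∃ (x : Gz F m) (b : F), b ≠ 0 ∧ (t : Gz F m) = x * u m 0 b * x⁻¹ := by
      rcases tri (t : Gz F m) with ⟨x, a, b, h⟩ | ⟨x, j, hj, h⟩ | h
      · have h1 : u m a b * u m a b = 1 := by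
          have h2 : (t : Gz F m) * t = 1 := by rw [← pow_two, ← ht', pow_orderOf_eq_one]
          rw [h] at h2
          calc u m a b * u m a b = x⁻¹ * (x * u m a b * x⁻¹ * (x * u m a b * x⁻¹)) * x := by group
            _ = 1 := by rw [h2]; group
        rw [u_sq] at h1
        have h3 := (u_ne_one h1).2
        have ha : a = 0 := by
          rcases mul_eq_zero.1 h3 with h | h
          · exact sg_eq_zero.1 h
          · exact h
        refine ⟨x, b, ?_, by rw [h, ha]⟩
        rintro rfl
        rw [h, ha, u_zero, mul_one, mul_inv_cancel, orderOf_one] at ht'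
        exact absurd ht' (by norm_num)
      · exfalso
        have h2 : orderOf (t : Gz F m) ∣ Nat.card F - 1 := by
          apply orderOf_dvd_of_pow_eq_one
          rw [h, conj_pow, hh_pow_card]; group
        rw [ht'] at h2
        obtain ⟨k, hk⟩ := card_F_even (F := F) (m := m)
        have := card_F_ge (F := F) (m := m)
        omega
      · exfalso
        have h2 := Fpf.order_dvd h
        rw [ht'] at h2
        exact absurd (odd_of_dvd (card_F_even (F := F) (m := m)) h2) (by decide)
    obtain ⟨x, b, hb, hx⟩ := hstd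
    have h1 : u m 0 b ∈ MulAction.stabilizer (Gz F m) (x⁻¹ • α₀) := by
      rw [MulAction.mem_stabilizer_iff, ← mul_smul, eq_inv_smul_iff, ← mul_smul]
      have h2 : x * (u m 0 b * x⁻¹) = (t : Gz F m) := by rw [hx, mul_assoc]
      rw [h2]
      exact t.2
    obtain ⟨α, hα⟩ : ∃ α, α = x⁻¹ • α₀ := ⟨_, rfl⟩
    rw [← hα] at h1
    have h2 := even_case hfix' hb h1
    refine ⟨by rw [hcardΩ α, h2, index_BB, hq], ?_⟩
    rw [MulAction.is_two_pretransitive_iff]
    -- the equivalence with the ovoid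
    have hex : ∀ β : Ω, ∃ g : Gz F m, g • α = β := fun β => MulAction.exists_smul_eq _ _ _
    choose f hf using hex
    have hkey : ∀ g k : Gz F m, g • α = k • α ↔ g • pinf F m = k • pinf F m := by
      intro g k
      have h3 : (k⁻¹ * g) ∈ MulAction.stabilizer (Gz F m) α ↔ (k⁻¹ * g) ∈ BB F m := by rw [h2]
      rw [MulAction.mem_stabilizer_iff, mem_BB, mul_smul, mul_smul, inv_smul_eq_iff, inv_smul_eq_iff] at h3
      exact h3
    intro a b c d hab hcd
    have h3 : f a • pinf F m ≠ f b • pinf F m := by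
      intro h; rw [← hkey, hf, hf] at h; exact hab h
    have h4 : f c • pinf F m ≠ f d • pinf F m := by
      intro h; rw [← hkey, hf, hf] at h; exact hcd h
    obtain ⟨g, hg1, hg2⟩ := MulAction.is_two_pretransitive_iff.1 (isTwoTrans (F := F) (m := m)) h3 h4
    refine ⟨e' g, ?_, ?_⟩
    · rw [← hsm, ← hf a, ← hf c, ← mul_smul, hkey, mul_smul, hg1]
    · rw [← hsm, ← hf b, ← hf d, ← mul_smul, hkey, mul_smul, hg2]
  · right
    have h1 : MulAction.stabilizer (Gz F m) α₀ ≠ ⊥ := by
      intro h
      have h2 : e'.symm g₀ ∈ MulAction.stabilizer (Gz F m) α₀ := by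
        rw [MulAction.mem_stabilizer_iff, hsm, e'.apply_symm_apply]; exact hα₀
      rw [h, Subgroup.mem_bot] at h2
      apply hg₀
      rw [← e'.apply_symm_apply g₀, h2, map_one]
    have h2 := odd_case hfix' hod h1
    have h3 : ∀ α : Ω, Nat.card (MulAction.stabilizer G α) = Fintype.card F - 1 := by
      intro α
      rw [hstab, hconj α α₀, h2, hq]
    refine ⟨?_, h3⟩
    have h4 := (MulAction.stabilizer (Gz F m) α₀).index_mul_card
    rw [← hcardΩ, h2, card_Gz, ← mul_assoc] at h4
    have h5 : 0 < Nat.card F - 1 := by have := card_F_ge (F := F) (m := m); omega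
    have h6 := Nat.eq_of_mul_eq_mul_right h5 h4
    rw [h6, hq]; ring

end Cfsg.Agent.S3391
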