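import Cfsg.Statements.S3493
import Mathlib
import Cfsg.Agent.L.PermG.ONS7

set_option autoImplicit false
open Cfsg

namespace Cfsg.Agent.S3493

/-- An extremely primitive permutation group is of affine type or almost simple. Let a finite group G act faithfully and primitively on a finite set Ω with at least two points, in such a way that every point stabilizer acts primitively on each of its own orbits in Ω (an orbit of size one counts as primitive). Then either G has a non-trivial abelian normal subgroup whose elements other than the identity fix no point (affine type), or G has a non-abelian simple normal subgroup with trivial centralizer (almost simple). -/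
theorem result {G : Type*} [Group G] [Finite G] {Ω : Type*} [Fintype Ω] [MulAction G Ω] [FaithfulSMul G Ω] (hΩ : 2 ≤ Fintype.card Ω) (hprim : MulAction.IsPreprimitive G Ω) (hep : ∀ (α : Ω) (ω : Ω), MulAction.IsPreprimitive (MulAction.stabilizer G α) (MulAction.orbit (MulAction.stabilizer G α) ω)) :
    (∃ N : Subgroup G, N.Normal ∧ N ≠ ⊥ ∧ IsMulCommutative N ∧ ∀ ω : Ω, MulAction.stabilizer N ω = ⊥) ∨ (∃ T : Subgroup G, T.Normal ∧ IsSimpleGroup T ∧ ¬ IsMulCommutative T ∧ Subgroup.centralizer (T : Set G) = ⊥) := by
  classical
  have hΩ' : 2 ≤ Nat.card Ω := by rw [Nat.card_eq_fintype_card]; exact hΩ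
  haveI : Nontrivial Ω := Finite.one_lt_card_iff_nontrivial.1 hΩ'
  obtain ⟨α⟩ : Nonempty Ω := inferInstance
  obtain ⟨hU, hcore⟩ := CfsgL.ONS.prim_data hprim hΩ' α
  haveI : MulAction.IsPretransitive G Ω := hprim.toIsPretransitive
  haveI : Nontrivial G := by
    obtain ⟨β, hβ⟩ := exists_ne α
    obtain ⟨x, hx⟩ := MulAction.exists_smul_eq G α β
    exact ⟨x, 1, fun h => hβ (by rw [← hx, h, one_smul])⟩
  obtain ⟨N, hNn, hN, hmin⟩ := CfsgH1.exists_minNormal (G := G)
  by_cases hab : ∀ x ∈ N, ∀ y ∈ N, x * y = y * x
  · left
    have hNU := (CfsgH1.cf_abelian hU hcore hN hab).2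
    exact ⟨N, hNn, hN, ⟨⟨fun a b => Subtype.ext (hab a a.2 b b.2)⟩⟩, CfsgL.ONS.affine_stab α hNU⟩
  · right
    obtain ⟨T, hT⟩ := CfsgL.ONS.exists_fac N hN hmin
    have hep' : ∀ β : Ω, β ≠ α → IsCoatom (MulAction.stabilizer (MulAction.stabilizer G α) β) := by
      intro β hβ
      -- the orbit of β is nontrivial
      have hnt : ∃ u ∈ MulAction.stabilizer G α, u • β ≠ β := by
        by_contra hcon
        push Not at hcon
        obtain ⟨g, hg⟩ := MulAction.exists_smul_eq G α β
        have h1 : MulAction.stabilizer G α ≤ MulAction.stabilizer G β := fun u hu => hcon u hu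
        have h2 : Nat.card (MulAction.stabilizer G β) = Nat.card (MulAction.stabilizer G α) := by
          rw [← hg]
          exact (Nat.card_congr (MulAction.stabilizerEquivStabilizer (G := G) (a := α) (b := g • α) (g := g) rfl).toEquiv).symm
        have h3 : MulAction.stabilizer G α = MulAction.stabilizer G β := Subgroup.eq_of_le_of_card_ge h1 h2.le
        have h4 : g⁻¹ ∈ Subgroup.normalizer ((MulAction.stabilizer G α : Subgroup G) : Set G) := by
          apply Subgroup.mem_normalizer_fintype
          intro u hu
          have hu' : u ∈ MulAction.stabilizer G β := h1 hu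
          have hu2 : u • β = β := hu'
          change (g⁻¹ * u * g⁻¹⁻¹) • α = α
          rw [inv_inv, mul_smul, mul_smul, hg, hu2, ← hg, inv_smul_smul]
        have h5 : Subgroup.normalizer ((MulAction.stabilizer G α : Subgroup G) : Set G) = ⊤ := by
          apply hU.2
          refine lt_of_le_of_ne Subgroup.le_normalizer (fun h6 => ?_)
          rw [← h6] at h4
          have h7 : g⁻¹ • α = α := h4
          exact hβ (by rw [← hg]; exact (inv_smul_eq_iff.1 h7).symm)
        have h6 : (MulAction.stabilizer G α).Normal := Subgroup.normalizer_eq_top_iff.1 h5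
        have h7 : MulAction.stabilizer G α = ⊥ := by
          rw [eq_bot_iff, ← hcore]
          exact Subgroup.normal_le_normalCore.2 le_rfl
        rw [h7] at hU
        have h8 := CfsgH2.card_prime_of_bot_coatom hU
        haveI := Fact.mk h8
        haveI := isCyclic_of_prime_card (α := G) rfl
        exact hab (fun x _ y _ => (IsCyclic.commGroup (α := G)).mul_comm x y)
      obtain ⟨u, hu, hub⟩ := hnt
      haveI := hep α β
      let b : MulAction.orbit (MulAction.stabilizer G α) β := ⟨β, MulAction.mem_orbit_self β⟩
      haveI : Nontrivial (MulAction.orbit (MulAction.stabilizer G α) β) := by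
        refine ⟨b, ⟨u • β, ⟨⟨u, hu⟩, rfl⟩⟩, fun h => hub ?_⟩
        exact (congrArg Subtype.val h).symm
      have h1 := MulAction.IsPreprimitive.isCoatom_stabilizer_of_isPreprimitive (MulAction.stabilizer G α) b
      have h2 : MulAction.stabilizer (MulAction.stabilizer G α) b = MulAction.stabilizer (MulAction.stabilizer G α) β := by
        ext v
        rw [MulAction.mem_stabilizer_iff, MulAction.mem_stabilizer_iff]
        constructor
        · intro h; exact congrArg Subtype.val h
        · intro h; exact Subtype.ext h
      rwa [h2] at h1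
    obtain ⟨rfl, h2⟩ := CfsgL.ONS.extremely hU hcore hN hab hT hep'
    exact ⟨T, hNn, hT.simple hab, hT.not_comm hab, h2⟩

end Cfsg.Agent.S3493
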