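import Cfsg.Statements.S3495

set_option autoImplicit false
open Cfsg

namespace Cfsg.Agent.S3495

open scoped commutatorElement Pointwise

/-- Let a finite group G act faithfully and primitively on a finite set Ω with non-trivial point stabilizers, each acting primitively on every one of its orbits (an extremely primitive group), and suppose G has an elementary abelian normal p-subgroup N acting regularly on Ω (affine type). Then every non-trivial subgroup M of a point stabilizer G_α that is normal in G_α has the same orbits on Ω as G_α, and normalizes no subgroup of N other than 1 and N. -/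
theorem result {G : Type*} [Group G] [Finite G] {Ω : Type*} [Fintype Ω] [MulAction G Ω] [FaithfulSMul G Ω] (hprim : MulAction.IsPreprimitive G Ω) (hH : ∀ α : Ω, MulAction.stabilizer G α ≠ ⊥) (hep : ∀ (α : Ω) (ω : Ω), MulAction.IsPreprimitive (MulAction.stabilizer G α) (MulAction.orbit (MulAction.stabilizer G α) ω))
    (N : Subgroup G) [N.Normal] (hNc : IsMulCommutative N) (p : ℕ) (hp : p.Prime) (hNp : ∀ n ∈ N, n ^ p = 1)
    (hNtr : MulAction.IsPretransitive N Ω) (hNreg : ∀ ω : Ω, MulAction.stabilizer N ω = ⊥) (α : Ω) (M : Subgroup G) (hM : M ≠ ⊥) (hMle : M ≤ MulAction.stabilizer G α)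
    (hMn : MulAction.stabilizer G α ≤ Subgroup.normalizer (M : Set G)) :
    (∀ ω : Ω, MulAction.orbit M ω = MulAction.orbit (MulAction.stabilizer G α) ω) ∧
    (∀ L : Subgroup G, L ≤ N → M ≤ Subgroup.normalizer (L : Set G) → L = ⊥ ∨ L = N) := by
  classical
  haveI := hprim
  haveI := hNtr
  haveI : MulAction.IsPretransitive G Ω := hprim.toIsPretransitive
  set H := MulAction.stabilizer G α with hHd
  have hNab : ∀ a ∈ N, ∀ b ∈ N, a * b = b * a := fun a ha b hb =>
    congrArg Subtype.val (hNc.is_comm.comm (⟨a, ha⟩ : N) ⟨b, hb⟩)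
  have hreg : ∀ a ∈ N, ∀ b ∈ N, a • α = b • α → a = b := by
    intro a ha b hb h
    have h1 : (⟨b, hb⟩ : N)⁻¹ * ⟨a, ha⟩ ∈ MulAction.stabilizer N α := by
      rw [MulAction.mem_stabilizer_iff, mul_smul, inv_smul_eq_iff]
      exact h
    rw [hNreg, Subgroup.mem_bot] at h1
    exact (congrArg Subtype.val (inv_mul_eq_one.mp h1)).symm
  have htr : ∀ w : Ω, ∃ n ∈ N, n • α = w := by
    intro w
    obtain ⟨n, hn⟩ := MulAction.exists_smul_eq N α w
    exact ⟨n, n.2, hn⟩
  have hNn : N.Normal := inferInstance
  have hmin : ∀ L : Subgroup G, L ≤ N → H ≤ Subgroup.normalizer (L : Set G) → L = ⊥ ∨ L = N := by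
    intro L hL hHL
    have hNL : N ≤ Subgroup.normalizer (L : Set G) := by
      intro n hn
      refine Subgroup.mem_normalizer_fintype ?_
      intro l hl
      rw [hNab n hn l (hL hl), mul_inv_cancel_right]
      exact hl
    have htop : Subgroup.normalizer (L : Set G) = ⊤ := by
      rw [eq_top_iff]
      intro g _
      obtain ⟨n, hn, hg⟩ := htr (g • α)
      have h1 : n⁻¹ * g ∈ H := by
        rw [hHd, MulAction.mem_stabilizer_iff, mul_smul, ← hg, inv_smul_smul]
      have h2 : g = n * (n⁻¹ * g) := by group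
      rw [h2]
      exact mul_mem (hNL hn) (hHL h1)
    haveI : L.Normal := Subgroup.normalizer_eq_top_iff.mp htop
    by_cases hfix : MulAction.fixedPoints L Ω = ⊤
    · left
      rw [eq_bot_iff]
      intro l hl
      rw [Subgroup.mem_bot]
      apply FaithfulSMul.eq_of_smul_eq_smul (α := Ω)
      intro w
      rw [one_smul]
      have hw : w ∈ MulAction.fixedPoints L Ω := hfix ▸ Set.mem_univ w
      exact hw ⟨l, hl⟩
    · right
      have hLt : MulAction.IsPretransitive L Ω :=
        MulAction.IsQuasiPreprimitive.isPretransitive_of_normal hfix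
      apply le_antisymm hL
      intro n hn
      obtain ⟨l, hl⟩ := MulAction.exists_smul_eq L α (n • α)
      have h3 := hreg l (hL l.2) n hn hl
      rw [← h3]
      exact l.2
  have hconj : ∀ h ∈ H, ∀ n : G, (h * n * h⁻¹) • α = h • n • α := by
    intro h hh n
    have h1 : h⁻¹ • α = α := inv_mem hh
    rw [mul_smul, mul_smul, h1]
  -- the centralizer of M in N is trivial
  have hCn : H ≤ Subgroup.normalizer ((N ⊓ Subgroup.centralizer (M : Set G) : Subgroup G) : Set G) := by
    intro h hh
    refine Subgroup.mem_normalizer_fintype ?_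
    rintro c ⟨hc1, hc2⟩
    refine ⟨hNn.conj_mem c hc1 h, ?_⟩
    change h * c * h⁻¹ ∈ Subgroup.centralizer (M : Set G)
    rw [Subgroup.mem_centralizer_iff]
    intro m hm
    have h1 : h⁻¹ * m * h ∈ M := (Subgroup.mem_normalizer_iff''.mp (hMn hh) m).mp hm
    have h2 := (Subgroup.mem_centralizer_iff.mp hc2) _ h1
    calc m * (h * c * h⁻¹) = h * ((h⁻¹ * m * h) * c) * h⁻¹ := by group
      _ = h * (c * (h⁻¹ * m * h)) * h⁻¹ := by rw [h2]
      _ = h * c * h⁻¹ * m := by group
  have hC : N ⊓ Subgroup.centralizer (M : Set G) = ⊥ := by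
    rcases hmin (N ⊓ Subgroup.centralizer (M : Set G)) inf_le_left hCn with h | h
    · exact h
    · exfalso
      apply hM
      rw [eq_bot_iff]
      intro m hm
      rw [Subgroup.mem_bot]
      apply FaithfulSMul.eq_of_smul_eq_smul (α := Ω)
      intro w
      obtain ⟨n, hn, rfl⟩ := htr w
      have hn' : n ∈ N ⊓ Subgroup.centralizer (M : Set G) := by rw [h]; exact hn
      have h1 := (Subgroup.mem_centralizer_iff.mp hn'.2) m hm
      have h2 : m • α = α := hMle hm
      rw [one_smul, ← mul_smul, h1, mul_smul, h2]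
  have hfixM : ∀ w : Ω, (∀ m ∈ M, m • w = w) → w = α := by
    intro w hw
    obtain ⟨n, hn, rfl⟩ := htr w
    have h1 : n ∈ N ⊓ Subgroup.centralizer (M : Set G) := by
      refine ⟨hn, ?_⟩
      change n ∈ Subgroup.centralizer (M : Set G)
      rw [Subgroup.mem_centralizer_iff]
      intro m hm
      have h2 : m * n * m⁻¹ = n := by
        apply hreg _ (hNn.conj_mem n hn m) _ hn
        rw [hconj m (hMle hm), hw m hm]
      calc m * n = m * n * m⁻¹ * m := by group
        _ = n * m := by rw [h2]
    rw [hC, Subgroup.mem_bot] at h1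
    rw [h1, one_smul]
  have horb : ∀ ω : Ω, MulAction.orbit M ω = MulAction.orbit H ω := by
    intro ω
    apply Set.Subset.antisymm
    · rintro _ ⟨m, rfl⟩
      exact ⟨⟨m, hMle m.2⟩, rfl⟩
    · rintro _ ⟨h, rfl⟩
      by_cases hω : ω = α
      · refine ⟨1, ?_⟩
        change (1 : M) • ω = (h : G) • ω
        have h1 : (h : G) • α = α := h.2
        rw [hω, one_smul, h1]
      · haveI := hep α ω
        haveI hMN : (M.subgroupOf H).Normal := by
          rw [Subgroup.normal_subgroupOf_iff_le_normalizer hMle]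
          exact hMn
        have hnf : MulAction.fixedPoints (M.subgroupOf H) (MulAction.orbit H ω) ≠ ⊤ := by
          intro hf
          apply hω
          apply hfixM
          intro m hm
          have h1 : (⟨ω, MulAction.mem_orbit_self ω⟩ : MulAction.orbit H ω) ∈
              MulAction.fixedPoints (M.subgroupOf H) (MulAction.orbit H ω) := hf ▸ Set.mem_univ _
          have h2 := h1 ⟨⟨m, hMle hm⟩, hm⟩
          exact congrArg Subtype.val h2
        have hpt : MulAction.IsPretransitive (M.subgroupOf H) (MulAction.orbit H ω) :=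
          MulAction.IsQuasiPreprimitive.isPretransitive_of_normal hnf
        obtain ⟨m, hm⟩ := MulAction.exists_smul_eq (M.subgroupOf H)
          (⟨ω, MulAction.mem_orbit_self ω⟩ : MulAction.orbit H ω) ⟨h • ω, MulAction.mem_orbit ω h⟩
        exact ⟨⟨((m : H) : G), m.2⟩, congrArg Subtype.val hm⟩
  refine ⟨horb, ?_⟩
  intro L hL hML
  apply hmin L hL
  intro h hh
  refine Subgroup.mem_normalizer_fintype ?_
  intro l hl
  have h1 : h • l • α ∈ MulAction.orbit M (l • α) := by
    rw [horb]
    exact ⟨⟨h, hh⟩, rfl⟩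
  obtain ⟨m, hm⟩ := h1
  have hm' : (m : G) • l • α = h • l • α := hm
  have h2 : h * l * h⁻¹ = m * l * (m : G)⁻¹ := by
    apply hreg _ (hNn.conj_mem l (hL hl) h) _ (hNn.conj_mem l (hL hl) m)
    rw [hconj h hh, hconj m (hMle m.2), hm']
  rw [h2]
  exact (Subgroup.mem_normalizer_iff.mp (hML m.2) l).mp hl

end Cfsg.Agent.S3495
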