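import Cfsg.Statements.S3498
import Cfsg.Agent.H1.FpfAut
import Cfsg.Agent.H1.CopExtra

set_option autoImplicit false
open Cfsg

namespace Cfsg.Agent.S3498

open scoped commutatorElement Pointwise

/-- A maximal subgroup of a finite almost simple group does not have prime order. Here G is almost simple in the sense that it has a non-abelian simple normal subgroup T with trivial centralizer. -/
theorem result {G : Type*} [Group G] [Finite G] (T : Subgroup G) [T.Normal] (hT : IsSimpleGroup T) (hTc : ¬ IsMulCommutative T)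
    (hC : Subgroup.centralizer (T : Set G) = ⊥) (H : Subgroup G) (hmax : IsCoatom H) : ¬ (Nat.card H).Prime := by
  intro hprime
  set r := Nat.card H with hr
  haveI hrF : Fact r.Prime := ⟨hprime⟩
  have hH1 : H ≠ ⊥ := by
    intro h
    rw [← Subgroup.card_eq_one, ← hr] at h
    exact hprime.one_lt.ne' h
  have hHmin : ∀ K : Subgroup G, K ≤ H → K = ⊥ ∨ K = H := by
    intro K hK
    have h1 : Nat.card K ∣ r := Subgroup.card_dvd_of_le hK
    rcases (Nat.dvd_prime hprime).1 h1 with h2 | h2
    · left; exact Subgroup.card_eq_one.1 h2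
    · right; exact Subgroup.eq_of_le_of_card_ge hK (by rw [h2])
  have hTne : T ≠ ⊥ := by
    intro h
    haveI : Nontrivial T := hT.toNontrivial
    rw [h] at this
    exact not_subsingleton (⊥ : Subgroup G) inferInstance
  have hHcomm : ∀ x ∈ H, ∀ y ∈ H, x * y = y * x := by
    haveI : IsCyclic H := isCyclic_of_prime_card hr.symm
    intro x hx y hy
    have := IsCyclic.commGroup (α := H) |>.mul_comm ⟨x, hx⟩ ⟨y, hy⟩
    exact congrArg Subtype.val this
  have hTnotab : ¬ (∀ x ∈ T, ∀ y ∈ T, x * y = y * x) := fun h => hTc ⟨⟨fun a b => Subtype.ext (h a a.2 b b.2)⟩⟩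
  -- `H` is self-normalising
  have hN : Subgroup.normalizer (H : Set G) = H := by
    by_contra hne
    have htop : Subgroup.normalizer (H : Set G) = ⊤ := hmax.2 _ (lt_of_le_of_ne Subgroup.le_normalizer (Ne.symm hne))
    haveI hHn : H.Normal := Subgroup.normalizer_eq_top_iff.1 htop
    rcases hHmin (H ⊓ T) inf_le_left with h | h
    · have h1 : ⁅H, T⁆ ≤ ⊥ := by rw [← h]; exact Subgroup.commutator_le_inf H T
      have h2 : H ≤ Subgroup.centralizer (T : Set G) := Subgroup.commutator_eq_bot_iff_le_centralizer.1 (le_bot_iff.1 h1)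
      rw [hC, le_bot_iff] at h2
      exact hH1 h2
    · have h1 : H ≤ T := by rw [← h]; exact inf_le_right
      have h2 : (H.subgroupOf T).Normal := inferInstance
      rcases hT.eq_bot_or_eq_top_of_normal _ h2 with h3 | h3
      · rw [Subgroup.subgroupOf_eq_bot, disjoint_iff, inf_eq_left.2 h1] at h3
        exact hH1 h3
      · rw [Subgroup.subgroupOf_eq_top] at h3
        exact hTnotab (fun x hx y hy => hHcomm x (h3 hx) y (h3 hy))
  -- `H` is a Sylow subgroup
  have hHp : IsPGroup r H := IsPGroup.of_card (n := 1) (by rw [pow_one])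
  obtain ⟨P, hP⟩ := hHp.exists_le_sylow
  have hHP : H = P := by
    by_contra hne
    have hlt : H < (P : Subgroup G) := lt_of_le_of_ne hP hne
    have htop : (P : Subgroup G) = ⊤ := hmax.2 _ hlt
    have hGp : IsPGroup r G := by
      have h1 := P.2
      rw [htop] at h1
      exact h1.of_equiv Subgroup.topEquiv
    haveI := hGp.isNilpotent
    have h2 := Group.normalizerCondition_of_isNilpotent (G := G) H (lt_top_iff_ne_top.2 hmax.1)
    rw [hN] at h2
    exact lt_irrefl _ h2
  have hNC : Subgroup.normalizer ((P : Subgroup G) : Set G) ≤ Subgroup.centralizer ((P : Subgroup G) : Set G) := by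
    rw [← hHP, hN]
    intro x hx
    rw [Subgroup.mem_centralizer_iff]
    intro y hy
    exact hHcomm y hy x hx
  set K := (MonoidHom.transferSylow P hNC).ker with hK
  have hKc := MonoidHom.ker_transferSylow_isComplement' P hNC
  haveI hKn : K.Normal := inferInstance
  obtain ⟨⟨h, hh⟩, hh1⟩ : ∃ h : H, h ≠ 1 := by
    haveI : Nontrivial H := (Subgroup.nontrivial_iff_ne_bot H).2 hH1
    exact exists_ne 1
  have hh1' : h ≠ 1 := fun e => hh1 (Subtype.ext e)
  have hzp : Subgroup.zpowers h = H := by
    rcases hHmin (Subgroup.zpowers h) ((Subgroup.zpowers_le).2 hh) with h1 | h1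
    · exact absurd (Subgroup.zpowers_eq_bot.1 h1) hh1'
    · exact h1
  have hnil : Group.IsNilpotent K := by
    apply CfsgH1.nilpotent_of_fpf_conj (h := h) (r := r) (by rw [Subgroup.normalizer_eq_top K]; exact Subgroup.mem_top h) hprime
    · have h1 : h ^ r = 1 := by
        have h2 : (⟨h, hh⟩ : H) ^ r = 1 := pow_card_eq_one'
        exact congrArg Subtype.val h2
      rw [h1]; exact Subgroup.one_mem _
    · intro x hx hcomm
      have h1 : x ∈ Subgroup.normalizer (H : Set G) := by
        apply Subgroup.centralizer_le_normalizer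
        rw [← hzp, Subgroup.mem_centralizer_iff]
        intro y hy
        obtain ⟨k, rfl⟩ := hy
        exact (Commute.zpow_left (show Commute h x from hcomm) k)
      rw [hN, hHP] at h1
      have h2 := hKc.disjoint
      rw [disjoint_iff] at h2
      have h3 : x ∈ K ⊓ (P : Subgroup G) := ⟨hx, h1⟩
      rw [h2, Subgroup.mem_bot] at h3
      exact h3
  haveI hKs : Group.IsSolvable K := inferInstance
  -- then `T ⊓ K` is trivial or `T`
  have hTK : ((K ⊓ T).subgroupOf T).Normal := inferInstance
  rcases hT.eq_bot_or_eq_top_of_normal _ hTK with h3 | h3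
  · rw [Subgroup.subgroupOf_eq_bot, disjoint_iff, inf_assoc, inf_idem] at h3
    have h4 : ∀ x ∈ T, ∀ y ∈ T, x * y = y * x := by
      intro x hx y hy
      have h5 : ⁅x, y⁆ ∈ K ⊓ T := by
        refine Subgroup.mem_inf.2 ⟨?_, ?_⟩
        · rw [hK, MonoidHom.mem_ker, map_commutatorElement]
          apply Subtype.ext
          have e1 := (MonoidHom.transferSylow P hNC x).2
          have e2 := (MonoidHom.transferSylow P hNC y).2
          rw [commutatorElement_def, Subgroup.coe_mul, Subgroup.coe_mul, Subgroup.coe_mul, Subgroup.coe_inv, Subgroup.coe_inv]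
          have e3 := hHcomm _ (by rw [hHP]; exact e1) _ (by rw [hHP]; exact e2)
          rw [e3]; simp
        · exact T.mul_mem (T.mul_mem (T.mul_mem hx hy) (T.inv_mem hx)) (T.inv_mem hy)
      rw [h3, Subgroup.mem_bot] at h5
      exact commutatorElement_eq_one_iff_mul_comm.1 h5
    exact hTnotab h4
  · rw [Subgroup.subgroupOf_eq_top] at h3
    have h4 : T ≤ K := h3.trans inf_le_left
    haveI hTs : Group.IsSolvable T := by
      exact solvable_of_solvable_injective (f := Subgroup.inclusion h4) (Subgroup.inclusion_injective h4)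
    haveI := hT
    exact hTnotab (fun x hx y hy => by
      have := IsSimpleGroup.comm_iff_isSolvable.2 hTs ⟨x, hx⟩ ⟨y, hy⟩
      exact congrArg Subtype.val this)

end Cfsg.Agent.S3498
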