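import Cfsg.Statements.S3504

set_option autoImplicit false
open Cfsg

namespace Cfsg.Agent.S3504

open scoped commutatorElement Pointwise

theorem der_sum {n : ℕ} (g : Equiv.Perm (Fin n)) (hf : ∀ i : Fin n, g i ≠ i) :
    g.cycleType.sum = n := by
  have h : g.support = Finset.univ := by
    rw [Finset.eq_univ_iff_forall]
    intro i
    exact Equiv.Perm.mem_support.mpr (hf i)
  rw [Equiv.Perm.sum_cycleType, h, Finset.card_univ, Fintype.card_fin]

theorem der_ct {n : ℕ} (g : Equiv.Perm (Fin n)) (hp : (orderOf g).Prime)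
    (hf : ∀ i : Fin n, g i ≠ i) :
    g.cycleType = Multiset.replicate (n / orderOf g) (orderOf g) ∧ orderOf g ∣ n := by
  obtain ⟨k, hk⟩ := Equiv.Perm.cycleType_prime_order hp
  have hs := der_sum g hf
  rw [hk, Multiset.sum_replicate, smul_eq_mul] at hs
  have h1 : n / orderOf g = k + 1 := Nat.div_eq_of_eq_mul_left hp.pos hs.symm
  rw [h1]
  exact ⟨hk, Dvd.intro_left _ hs⟩

theorem der_ex {n p : ℕ} (hn : n ≠ 0) (hp : p.Prime) (hd : p ∣ n) :
    ∃ g : Equiv.Perm (Fin n), orderOf g = p ∧ ∀ i : Fin n, g i ≠ i := by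
  have hne : n / p ≠ 0 := (Nat.div_pos (Nat.le_of_dvd (Nat.pos_of_ne_zero hn) hd) hp.pos).ne'
  obtain ⟨g, hg⟩ := (Equiv.Perm.exists_with_cycleType_iff (α := Fin n)
    (m := Multiset.replicate (n / p) p)).mpr ⟨by
      rw [Multiset.sum_replicate, smul_eq_mul, Nat.div_mul_cancel hd, Fintype.card_fin],
      fun a ha => by rw [Multiset.eq_of_mem_replicate ha]; exact hp.two_le⟩
  refine ⟨g, ?_, ?_⟩
  · rw [← Equiv.Perm.lcm_cycleType, hg]
    apply Nat.dvd_antisymm
    · rw [Multiset.lcm_dvd]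
      intro b hb
      rw [Multiset.eq_of_mem_replicate hb]
    · exact Multiset.dvd_lcm (Multiset.mem_replicate.mpr ⟨hne, rfl⟩)
  · have h1 : g.support.card = Fintype.card (Fin n) := by
      rw [← Equiv.Perm.sum_cycleType, hg, Multiset.sum_replicate, smul_eq_mul,
        Nat.div_mul_cancel hd, Fintype.card_fin]
    have h2 := Finset.card_eq_iff_eq_univ _ |>.mp h1
    intro i
    exact Equiv.Perm.mem_support.mp (h2 ▸ Finset.mem_univ i)

/-- For n ≥ 5, the fixed-point-free permutations of prime order in the symmetric group of degree n form a single conjugacy class if and only if n is a prime power. -/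
theorem result (n : ℕ) (hn : 5 ≤ n) :
    Nat.card {c : ConjClasses (Equiv.Perm (Fin n)) // ∃ g : Equiv.Perm (Fin n), ConjClasses.mk g = c ∧ (orderOf g).Prime ∧ ∀ i : Fin n, g i ≠ i} = 1 ↔ IsPrimePow n := by

  classical
  have hn0 : n ≠ 0 := by omega
  rw [isPrimePow_iff_card_primeFactors_eq_one]
  suffices h : Nat.card {c : ConjClasses (Equiv.Perm (Fin n)) // ∃ g : Equiv.Perm (Fin n),
      ConjClasses.mk g = c ∧ (orderOf g).Prime ∧ ∀ i : Fin n, g i ≠ i} = n.primeFactors.card by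
    rw [h]
  let f : {c : ConjClasses (Equiv.Perm (Fin n)) // ∃ g : Equiv.Perm (Fin n),
      ConjClasses.mk g = c ∧ (orderOf g).Prime ∧ ∀ i : Fin n, g i ≠ i} → ℕ :=
    fun c => orderOf (Classical.choose c.2)
  have hf : Function.Injective f := by
    rintro ⟨c, hc⟩ ⟨d, hd⟩ he
    apply Subtype.ext
    simp only
    obtain ⟨h1, h2, h3⟩ := Classical.choose_spec hc
    obtain ⟨h1', h2', h3'⟩ := Classical.choose_spec hd
    have he' : orderOf (Classical.choose hc) = orderOf (Classical.choose hd) := he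
    rw [← h1, ← h1', ConjClasses.mk_eq_mk_iff_isConj, Equiv.Perm.isConj_iff_cycleType_eq,
      (der_ct _ h2 h3).1, (der_ct _ h2' h3').1, he']
  have hr : Set.range f = (n.primeFactors : Set ℕ) := by
    ext p
    rw [Set.mem_range, Finset.mem_coe, Nat.mem_primeFactors]
    constructor
    · rintro ⟨⟨c, hc⟩, rfl⟩
      obtain ⟨h1, h2, h3⟩ := Classical.choose_spec hc
      exact ⟨h2, (der_ct _ h2 h3).2, hn0⟩
    · rintro ⟨hp, hd, -⟩
      obtain ⟨g, hg, hg'⟩ := der_ex hn0 hp hd
      have hc : ∃ g' : Equiv.Perm (Fin n), ConjClasses.mk g' = ConjClasses.mk g ∧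
        (orderOf g').Prime ∧ ∀ i : Fin n, g' i ≠ i := ⟨g, rfl, hg ▸ hp, hg'⟩
      refine ⟨⟨ConjClasses.mk g, hc⟩, ?_⟩
      obtain ⟨h1, h2, h3⟩ := Classical.choose_spec hc
      have h4 : orderOf (Classical.choose hc) = orderOf g := by
        rw [← Equiv.Perm.lcm_cycleType, ← Equiv.Perm.lcm_cycleType,
          Equiv.Perm.isConj_iff_cycleType_eq.mp (ConjClasses.mk_eq_mk_iff_isConj.mp h1)]
      exact h4.trans hg
  rw [Nat.card_congr (Equiv.ofInjective f hf), hr, Nat.card_coe_set_eq, Set.ncard_coe_finset]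

end Cfsg.Agent.S3504
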