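import Cfsg.Statements.S3508

set_option autoImplicit false
open Cfsg

namespace Cfsg.Agent.S3508

open scoped commutatorElement Pointwise

theorem aff_lem {p : ℕ} [hp : Fact p.Prime] {V : Type*} [AddCommGroup V] [Module (ZMod p) V]
    [Finite V] (φ : V →ₗ[ZMod p] V) (n : V) (a : V → V) (ha : ∀ v, a v = φ v + n) (r s : ℕ)
    (har : ∀ v, a^[p ^ r] v = v) (hs : Module.finrank (ZMod p) V < p ^ s) :
    ∀ v, a^[p ^ s] v = v := by
  haveI : Module.Finite (ZMod p) V := Module.Finite.of_finite
  let T : Module.End (ZMod p) (V × ZMod p) :=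
    { toFun := fun w => (φ w.1 + w.2 • n, w.2)
      map_add' := by
        intro x y
        simp only [Prod.fst_add, Prod.snd_add, map_add, add_smul, Prod.mk_add_mk, Prod.mk.injEq,
          and_true]
        abel
      map_smul' := by
        intro c x
        simp only [Prod.smul_fst, Prod.smul_snd, map_smul, RingHom.id_apply, Prod.smul_mk,
          smul_add, smul_eq_mul, mul_smul] }
  have hT : ∀ (k : ℕ) (v : V), (T ^ k) (v, 1) = (a^[k] v, 1) := by
    intro k
    induction k with
    | zero => intro v; rfl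
    | succ k ih =>
      intro v
      rw [pow_succ', Module.End.mul_apply, ih, Function.iterate_succ_apply', ha]
      change (φ (a^[k] v) + (1 : ZMod p) • n, (1 : ZMod p)) = _
      rw [one_smul]
  have hone : ∀ k : ℕ, (∀ v, a^[k] v = v) → T ^ k = 1 := by
    intro k hk
    apply LinearMap.ext
    rintro ⟨v, c⟩
    have h1 : ((v, c) : V × ZMod p) = (v, 1) + (c - 1) • ((0 : V), (1 : ZMod p)) := by
      simp
    rw [h1, map_add, map_smul, hT, hT, hk, hk]
    rfl
  haveI : CharP (Module.End (ZMod p) (V × ZMod p)) p := by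
    haveI : Nontrivial (V × ZMod p) := inferInstance
    exact charP_of_injective_algebraMap
      (algebraMap (ZMod p) (Module.End (ZMod p) (V × ZMod p))).injective p
  have h1 : (T - 1) ^ p ^ r = 0 := by
    rw [sub_pow_char_pow_of_commute _ _ (Commute.one_right T), hone _ har, one_pow, sub_self]
  have h2 : (T - 1) ^ (Module.finrank (ZMod p) (V × ZMod p)) = 0 := by
    have h3 := Module.End.ker_pow_le_ker_pow_finrank (T - 1) (p ^ r)
    rw [h1] at h3
    apply LinearMap.ext
    intro w
    exact LinearMap.mem_ker.mp (h3 (LinearMap.mem_ker.mpr rfl))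
  have h4 : (T - 1) ^ p ^ s = 0 := by
    apply pow_eq_zero_of_le _ h2
    rw [Module.finrank_prod, Module.finrank_self]
    exact hs
  rw [sub_pow_char_pow_of_commute _ _ (Commute.one_right T), one_pow, sub_eq_zero] at h4
  intro v
  have h5 := hT (p ^ s) v
  rw [h4] at h5
  exact (congrArg Prod.fst h5).symm

theorem fr_card {p m : ℕ} [hp : Fact p.Prime] {A : Type*} [AddCommGroup A]
    [Module (ZMod p) A] [Finite A] (hcard : Nat.card A = p ^ m) :
    Module.finrank (ZMod p) A = m := by
  haveI : Module.Finite (ZMod p) A := Module.Finite.of_finite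
  have h1 := Module.natCard_eq_pow_finrank (K := ZMod p) (V := A)
  rw [hcard, Nat.card_zmod] at h1
  exact (Nat.pow_right_injective hp.out.two_le h1).symm

theorem aff_add {p m : ℕ} [hp : Fact p.Prime] {A : Type*} [AddCommGroup A] [Finite A]
    (hA : ∀ a : A, p • a = 0) (hcard : Nat.card A = p ^ m) (φ : A →+ A) (n : A) (a : A → A)
    (ha : ∀ v, a v = φ v + n) (r s : ℕ) (har : ∀ v, a^[p ^ r] v = v) (hs : m < p ^ s) :
    ∀ v, a^[p ^ s] v = v := by
  letI : Module (ZMod p) A := AddCommGroup.zmodModule hA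
  have hfr : Module.finrank (ZMod p) A = m := fr_card hcard
  exact aff_lem (φ.toZModLinearMap p) n a ha r s har (by rw [hfr]; exact hs)

theorem aff_mul {p m : ℕ} [hp : Fact p.Prime] {N : Type*} [CommGroup N] [Finite N]
    (hN : ∀ a : N, a ^ p = 1) (hcard : Nat.card N = p ^ m) (φ : N →* N) (n : N) (a : N → N)
    (ha : ∀ v, a v = φ v * n) (r s : ℕ) (har : ∀ v, a^[p ^ r] v = v) (hs : m < p ^ s) :
    ∀ v, a^[p ^ s] v = v := by
  haveI : Finite (Additive N) := inferInstanceAs (Finite N)
  exact aff_add (A := Additive N) hN hcard (MonoidHom.toAdditive φ) (Additive.ofMul n) a ha r s har hs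

/-- Let a finite group G act faithfully on a set Ω with p ^ m points (p prime) and have an elementary abelian normal p-subgroup N acting regularly on Ω (so G is a group of affine transformations of an m-dimensional space over the field with p elements). If G contains an element of order p ^ r with r ≥ 1, then p ^ (r − 1) ≤ m. In particular an element of order p ^ m forces m ≤ 2, and m ≤ 1 when p is odd. -/
theorem result {G : Type*} [Group G] [Finite G] {Ω : Type*} [Fintype Ω] [MulAction G Ω] [FaithfulSMul G Ω] (p m : ℕ) (hp : p.Prime) (hcard : Fintype.card Ω = p ^ m)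
    (N : Subgroup G) [N.Normal] (hNc : IsMulCommutative N) (hNp : ∀ n ∈ N, n ^ p = 1)
    (hNtr : MulAction.IsPretransitive N Ω) (hNreg : ∀ ω : Ω, MulAction.stabilizer N ω = ⊥)
    (g : G) (r : ℕ) (hr : 1 ≤ r) (hg : orderOf g = p ^ r) :
    p ^ (r - 1) ≤ m ∧ (r = m → m ≤ 2 ∧ (2 < p → m ≤ 1)) := by

  classical
  haveI : Fact p.Prime := ⟨hp⟩
  haveI := hNtr
  haveI hne : Nonempty Ω := by
    rw [← Fintype.card_pos_iff, hcard]
    exact pow_pos hp.pos m
  obtain ⟨ω⟩ := hne
  letI : CommGroup N := { (inferInstance : Group N) with mul_comm := hNc.is_comm.comm }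
  let e : N → Ω := fun n => (n : G) • ω
  have hej : Function.Injective e := by
    intro x y hxy
    have h1 : y⁻¹ * x ∈ MulAction.stabilizer N ω := by
      rw [MulAction.mem_stabilizer_iff, mul_smul, inv_smul_eq_iff]
      exact hxy
    rw [hNreg, Subgroup.mem_bot] at h1
    exact (inv_mul_eq_one.mp h1).symm
  have hes : Function.Surjective e := by
    intro w
    obtain ⟨x, hx⟩ := MulAction.exists_smul_eq N ω w
    exact ⟨x, hx⟩
  have hcN : Nat.card N = p ^ m := by
    rw [Nat.card_congr (Equiv.ofBijective e ⟨hej, hes⟩), Nat.card_eq_fintype_card, hcard]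
  obtain ⟨n₀, hn₀⟩ := hes (g • ω)
  have hn₀' : (n₀ : G) • ω = g • ω := hn₀
  let φ : N →* N := (MulAut.conjNormal g : N ≃* N).toMonoidHom
  let a : N → N := fun v => φ v * n₀
  have hae : ∀ v, e (a v) = g • e v := by
    intro v
    change (g * (v : G) * g⁻¹ * (n₀ : G)) • ω = g • (v : G) • ω
    rw [mul_smul, hn₀', ← mul_smul, inv_mul_cancel_right, mul_smul]
  have hak : ∀ (k : ℕ) v, e (a^[k] v) = g ^ k • e v := by
    intro k
    induction k with
    | zero => intro v; simp
    | succ k ih =>
      intro v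
      rw [Function.iterate_succ_apply', hae, ih, pow_succ', mul_smul]
  have key : ∀ s, m < p ^ s → r ≤ s := by
    intro s hs
    have h1 : ∀ v, a^[p ^ r] v = v := by
      intro v
      apply hej
      rw [hak, ← hg, pow_orderOf_eq_one, one_smul]
    have h2 := aff_mul (p := p) (m := m) (N := N) (fun x => Subtype.ext (hNp x x.2)) hcN φ n₀ a
      (fun v => rfl) r s h1 hs
    have h3 : g ^ p ^ s = 1 := by
      apply FaithfulSMul.eq_of_smul_eq_smul (α := Ω)
      intro w
      obtain ⟨v, rfl⟩ := hes w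
      rw [← hak, h2, one_smul]
    have h4 := orderOf_dvd_of_pow_eq_one h3
    rw [hg] at h4
    exact (Nat.pow_dvd_pow_iff_le_right hp.one_lt).mp h4
  have hmain : p ^ (r - 1) ≤ m := by
    by_contra hcon
    have := key (r - 1) (by omega)
    omega
  refine ⟨hmain, ?_⟩
  rintro rfl
  refine ⟨?_, ?_⟩
  · by_contra hcon
    obtain ⟨k, rfl⟩ : ∃ k, r = k + 3 := ⟨r - 3, by omega⟩
    have h1 : k < 2 ^ k := Nat.lt_pow_self (by norm_num)
    have h2 : 2 ^ (k + 3 - 1) ≤ p ^ (k + 3 - 1) := Nat.pow_le_pow_left hp.two_le _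
    have h3 : 2 ^ (k + 3 - 1) = 4 * 2 ^ k := by
      rw [show k + 3 - 1 = k + 2 by omega, pow_add]; ring
    omega
  · intro hp2
    by_contra hcon
    obtain ⟨k, rfl⟩ : ∃ k, r = k + 2 := ⟨r - 2, by omega⟩
    have h1 : k < 3 ^ k := Nat.lt_pow_self (by norm_num)
    have h2 : 3 ^ (k + 2 - 1) ≤ p ^ (k + 2 - 1) := Nat.pow_le_pow_left hp2 _
    have h3 : 3 ^ (k + 2 - 1) = 3 * 3 ^ k := by
      rw [show k + 2 - 1 = k + 1 by omega, pow_add]; ring
    omega

end Cfsg.Agent.S3508
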