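import Cfsg.Statements.S3511
import Cfsg.Agent.H1.Basic

set_option autoImplicit false
open Cfsg

namespace Cfsg.Agent.S3511

open scoped commutatorElement Pointwise

/-- Let a finite group G act faithfully on a set Ω. If every element of G of square-free order has a regular cycle (an orbit of the cyclic group it generates with trivial stabilizer), then every element of G has a regular cycle. -/
theorem result {G : Type*} [Group G] [Finite G] {Ω : Type*} [MulAction G Ω] [FaithfulSMul G Ω]
    (h : ∀ g : G, Squarefree (orderOf g) → ∃ ω : Ω, MulAction.stabilizer (Subgroup.zpowers g) ω = ⊥) (g : G) :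
    ∃ ω : Ω, MulAction.stabilizer (Subgroup.zpowers g) ω = ⊥ := by
  classical
  set n := orderOf g with hn
  have hn0 : n ≠ 0 := (orderOf_pos g).ne'
  set r := UniqueFactorizationMonoid.radical n with hr
  obtain ⟨c, hc⟩ : r ∣ n := UniqueFactorizationMonoid.radical_dvd_self
  have hc0 : c ≠ 0 := by rintro rfl; rw [mul_zero] at hc; exact hn0 hc
  have hr0 : 0 < r := Nat.pos_of_ne_zero (by intro h0; rw [h0, zero_mul] at hc; exact hn0 hc)
  have hord : orderOf (g ^ c) = r := by
    rw [orderOf_pow' g hc0, ← hn, hc, Nat.gcd_mul_left_left, Nat.mul_div_cancel _ (Nat.pos_of_ne_zero hc0)]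
  obtain ⟨ω, hω⟩ := h (g ^ c) (by rw [hord]; exact UniqueFactorizationMonoid.squarefree_radical)
  refine ⟨ω, ?_⟩
  rw [eq_bot_iff]
  intro x hx
  rw [Subgroup.mem_bot]
  by_contra hx1
  have ho : orderOf x ≠ 1 := fun h1 => hx1 (orderOf_eq_one_iff.1 h1)
  obtain ⟨q, hq, hqd⟩ := Nat.exists_prime_and_dvd ho
  obtain ⟨e, he⟩ := hqd
  have hxo : 0 < orderOf x := orderOf_pos x
  set y := x ^ e with hy
  have hyq : y ^ q = 1 := by rw [hy, ← pow_mul, mul_comm, ← he, pow_orderOf_eq_one]
  have hy1 : y ≠ 1 := by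
    intro h1
    have h2 := orderOf_dvd_of_pow_eq_one h1
    have he0 : 0 < e := Nat.pos_of_ne_zero (by rintro rfl; rw [mul_zero] at he; omega)
    have h3 := Nat.le_of_dvd he0 h2
    rw [he] at h3
    have := hq.two_le
    nlinarith
  have hyω : (y : G) • ω = ω := by
    have h1 : y ∈ MulAction.stabilizer (Subgroup.zpowers g) ω := Subgroup.pow_mem _ hx e
    exact h1
  obtain ⟨k, hk⟩ := (mem_powers_iff_mem_zpowers (x := g) (y := (y : G))).2 y.2
  have hk' : g ^ k = y := hk
  have hqn : q ∣ n := by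
    have h1 : q ∣ orderOf x := ⟨e, he⟩
    have h2 : orderOf x ∣ n := by
      have h9 := orderOf_dvd_natCard x
      rwa [Nat.card_zpowers g] at h9
    exact h1.trans h2
  have hqr : q ∣ r := (UniqueFactorizationMonoid.dvd_radical_iff_of_irreducible hq hn0).2 hqn
  have hyr : g ^ (k * r) = 1 := by
    rw [pow_mul, hk']
    obtain ⟨s, hs⟩ := hqr
    have h1 : (y : G) ^ q = 1 := congrArg Subtype.val hyq
    rw [hs, pow_mul, h1, one_pow]
  have h5 := orderOf_dvd_of_pow_eq_one hyr
  rw [← hn, hc, mul_comm k r] at h5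
  obtain ⟨t, ht⟩ := Nat.dvd_of_mul_dvd_mul_left hr0 h5
  have h6 : (y : G) ∈ Subgroup.zpowers (g ^ c) := by
    rw [← hk', ht, pow_mul]
    exact Subgroup.pow_mem _ (Subgroup.mem_zpowers _) t
  have h7 : (⟨y, h6⟩ : Subgroup.zpowers (g ^ c)) ∈ MulAction.stabilizer (Subgroup.zpowers (g ^ c)) ω := hyω
  rw [hω, Subgroup.mem_bot] at h7
  have h8 : (y : G) = 1 := congrArg Subtype.val h7
  exact hy1 (Subtype.ext h8)

end Cfsg.Agent.S3511
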