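import Cfsg.Statements.S3514
import Cfsg.Agent.H1.Basic

set_option autoImplicit false
open Cfsg

namespace Cfsg.Agent.S3514

open scoped commutatorElement Pointwise

section
variable {G : Type*} [Group G]

theorem cmr {H K : Subgroup G} (h : H ≤ K) : Nat.card H * H.relIndex K = Nat.card K := by
  have := Subgroup.relIndex_mul_relIndex (⊥ : Subgroup G) H K bot_le h
  simpa only [Subgroup.relIndex_bot_left] using this

/-- a Hall-type transfer of indices: `p ∤ |H : H ∩ S|` implies `p ∤ |K : K ∩ S|` for `K ⊴ H`. -/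
theorem rel_norm [Finite G] {p : ℕ} (S H K : Subgroup G) (hKH : K ≤ H)
    (hn : H ≤ Subgroup.normalizer (K : Set G)) (h : ¬ p ∣ S.relIndex H) :
    ¬ p ∣ S.relIndex K := by
  intro hd
  apply h
  set T := S ⊓ H with hT
  have hTH : T ≤ H := inf_le_right
  have hTn : T ≤ Subgroup.normalizer (K : Set G) := hTH.trans hn
  have h1 := CfsgH1.card_sup_mul_card_inf hTn
  have h2 : Nat.card T * T.relIndex (T ⊔ K) = Nat.card (T ⊔ K : Subgroup G) :=
    cmr le_sup_left
  have h3 : Nat.card (T ⊓ K : Subgroup G) * (T ⊓ K).relIndex K = Nat.card K :=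
    cmr inf_le_right
  have h4 : T.relIndex (T ⊔ K) = (T ⊓ K).relIndex K := by
    rw [← h2, ← h3] at h1
    have hpos : 0 < Nat.card T * Nat.card (T ⊓ K : Subgroup G) := Nat.mul_pos Nat.card_pos Nat.card_pos
    apply Nat.eq_of_mul_eq_mul_left hpos
    calc _ = Nat.card T * T.relIndex (T ⊔ K) * Nat.card (T ⊓ K : Subgroup G) := by ring
      _ = Nat.card T * (Nat.card (T ⊓ K : Subgroup G) * (T ⊓ K).relIndex K) := h1
      _ = _ := by ring
  have h5 : (T ⊓ K) = S ⊓ K := by
    rw [hT, inf_assoc, inf_eq_right.mpr hKH]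
  rw [h5, Subgroup.inf_relIndex_right] at h4
  have h6 : T.relIndex (T ⊔ K) * (T ⊔ K).relIndex H = T.relIndex H :=
    Subgroup.relIndex_mul_relIndex _ _ _ le_sup_left (sup_le hTH hKH)
  rw [hT, Subgroup.inf_relIndex_right] at h6
  rw [← h6, ← hT, h4]
  exact hd.mul_right _

theorem rel_sup [Finite G] {p : ℕ} (hp : p.Prime) (S H N : Subgroup G)
    (hn : H ≤ Subgroup.normalizer (N : Set G)) (hN : ¬ p ∣ Nat.card N)
    (h : ¬ p ∣ S.relIndex H) : ¬ p ∣ S.relIndex (N ⊔ H) := by
  intro hd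
  have h1 : ¬ p ∣ H.relIndex (N ⊔ H) := by
    intro h2
    have h3 := CfsgH1.card_sup_mul_card_inf hn
    have h4 : Nat.card H * H.relIndex (H ⊔ N) = Nat.card (H ⊔ N : Subgroup G) :=
      cmr le_sup_left
    rw [← h4] at h3
    have h5 : H.relIndex (H ⊔ N) * Nat.card (H ⊓ N : Subgroup G) = Nat.card N := by
      apply Nat.eq_of_mul_eq_mul_left (Nat.card_pos (α := H))
      rw [← mul_assoc]; exact h3
    rw [sup_comm] at h2
    exact hN (h5 ▸ h2.mul_right _)
  have h2 : (S ⊓ H).relIndex H * H.relIndex (N ⊔ H) = (S ⊓ H).relIndex (N ⊔ H) :=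
    Subgroup.relIndex_mul_relIndex _ _ _ inf_le_right le_sup_right
  rw [Subgroup.inf_relIndex_right] at h2
  have h3 : S.relIndex (N ⊔ H) ∣ (S ⊓ H).relIndex (N ⊔ H) :=
    Subgroup.relIndex_dvd_of_le_left _ inf_le_left
  rw [← h2] at h3
  rcases hp.dvd_mul.mp (hd.trans h3) with h4 | h4
  · exact h h4
  · exact h1 h4

theorem orb_card [Finite G] {V : Type*} [Finite V] [MulAction G V] (H : Subgroup G) (v : V) :
    Nat.card {u : V | ∃ h ∈ H, h • v = u} = (MulAction.stabilizer G v).relIndex H := by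
  have h1 : MulAction.stabilizer H v = (MulAction.stabilizer G v).subgroupOf H := by
    ext g
    rw [Subgroup.mem_subgroupOf]
    exact Iff.rfl
  have h3 := MulAction.index_stabilizer H v
  rw [h1] at h3
  rw [Subgroup.relIndex, h3, ← Nat.card_coe_set_eq]
  apply Nat.card_congr
  apply Equiv.setCongr
  ext u
  constructor
  · rintro ⟨h, hh, rfl⟩
    exact ⟨⟨h, hh⟩, rfl⟩
  · rintro ⟨⟨h, hh⟩, rfl⟩
    exact ⟨h, hh, rfl⟩

end

/-- Let p be a prime, V a finite vector space over the field with p elements, and H a group of linear transformations of V all of whose orbits on V have size coprime to p. (i) Every normal subgroup K of H has all its orbits on V of size coprime to p. (ii) If N is a group of linear transformations of V of order coprime to p that is normalized by H, then the group generated by N and H has all its orbits on V of size coprime to p. -/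
theorem result (p : ℕ) [Fact p.Prime] {V : Type*} [AddCommGroup V] [Module (ZMod p) V] [Finite V]
    (H : Subgroup (V ≃ₗ[ZMod p] V)) (hH : ∀ v : V, ¬ p ∣ Nat.card {u : V | ∃ h ∈ H, h v = u}) :
    (∀ K : Subgroup (V ≃ₗ[ZMod p] V), K ≤ H → H ≤ Subgroup.normalizer (K : Set (V ≃ₗ[ZMod p] V)) →
        ∀ v : V, ¬ p ∣ Nat.card {u : V | ∃ k ∈ K, k v = u}) ∧
    (∀ N : Subgroup (V ≃ₗ[ZMod p] V), ¬ p ∣ Nat.card N → H ≤ Subgroup.normalizer (N : Set (V ≃ₗ[ZMod p] V)) →
        ∀ v : V, ¬ p ∣ Nat.card {u : V | ∃ x ∈ N ⊔ H, x v = u}) := by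

  haveI : Finite (V ≃ₗ[ZMod p] V) := by
    apply Finite.of_injective (fun f : V ≃ₗ[ZMod p] V => (f : V → V)) DFunLike.coe_injective
  have hp : p.Prime := Fact.out
  have key : ∀ (K : Subgroup (V ≃ₗ[ZMod p] V)) (v : V), Nat.card {u : V | ∃ h ∈ K, h v = u} =
      (MulAction.stabilizer (V ≃ₗ[ZMod p] V) v).relIndex K := fun K v => orb_card K v
  refine ⟨?_, ?_⟩
  · intro K hK hn v
    rw [key]
    exact rel_norm _ H K hK hn (by rw [← key]; exact hH v)
  · intro N hN hn v
    rw [key]
    exact rel_sup hp _ H N hn hN (by rw [← key]; exact hH v)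

end Cfsg.Agent.S3514
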