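import Cfsg.Statements.S3516

set_option autoImplicit false
open Cfsg

namespace Cfsg.Agent.S3516

open scoped commutatorElement Pointwise

theorem fwd {p d : ℕ} [hp : Fact p.Prime] (hp2 : p ≠ 2)
    (σ : Equiv.Perm (Fin d → ZMod p))
    (h : ∀ t : Fin 3 → (Fin d → ZMod p), ∃ (A : (Fin d → ZMod p) ≃ₗ[ZMod p] (Fin d → ZMod p))
      (b : Fin d → ZMod p), ∀ i, σ (t i) = A (t i) + b) :
    ∃ (A : (Fin d → ZMod p) ≃ₗ[ZMod p] (Fin d → ZMod p)) (b : Fin d → ZMod p),
      ∀ x, σ x = A x + b := by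
  have h2 : (2 : ZMod p) ≠ 0 := by
    intro h0
    have h3 : ((2 : ℕ) : ZMod p) = 0 := by exact_mod_cast h0
    rw [ZMod.natCast_eq_zero_iff] at h3
    exact hp2 ((Nat.prime_dvd_prime_iff_eq hp.out Nat.prime_two).mp h3)
  have key : ∀ (c : ZMod p) (x y : Fin d → ZMod p),
      σ ((1 - c) • x + c • y) = (1 - c) • σ x + c • σ y := by
    intro c x y
    obtain ⟨A, b, hA⟩ := h ![x, y, (1 - c) • x + c • y]
    have e0 : σ x = A x + b := hA 0
    have e1 : σ y = A y + b := hA 1
    have e2 : σ ((1 - c) • x + c • y) = A ((1 - c) • x + c • y) + b := hA 2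
    rw [e0, e1, e2, map_add, map_smul, map_smul]
    module
  let f : (Fin d → ZMod p) → (Fin d → ZMod p) := fun x => σ x - σ 0
  have hf0 : f 0 = 0 := sub_self _
  have hfc : ∀ (c : ZMod p) x y, f ((1 - c) • x + c • y) = (1 - c) • f x + c • f y := by
    intro c x y
    simp only [f]
    rw [key]
    module
  have hfs : ∀ (c : ZMod p) y, f (c • y) = c • f y := by
    intro c y
    have := hfc c 0 y
    rwa [smul_zero, zero_add, hf0, smul_zero, zero_add] at this
  have hfa : ∀ x y, f (x + y) = f x + f y := by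
    intro x y
    have h3 := hfc (2⁻¹) ((2 : ZMod p) • x) ((2 : ZMod p) • y)
    have h4 : (1 : ZMod p) - 2⁻¹ = 2⁻¹ := by field_simp; norm_num
    rw [h4, smul_smul, smul_smul, inv_mul_cancel₀ h2, one_smul, one_smul, hfs, hfs, smul_smul,
      smul_smul, inv_mul_cancel₀ h2, one_smul, one_smul] at h3
    exact h3
  let L : (Fin d → ZMod p) →ₗ[ZMod p] (Fin d → ZMod p) :=
    { toFun := f, map_add' := hfa, map_smul' := fun c x => hfs c x }
  have hinj : Function.Injective L := by
    intro x y hxy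
    have h3 : σ x - σ 0 = σ y - σ 0 := hxy
    exact σ.injective (sub_left_injective h3)
  refine ⟨LinearEquiv.ofInjectiveEndo L hinj, σ 0, fun x => ?_⟩
  change σ x = (σ x - σ 0) + σ 0
  rw [sub_add_cancel]

/-- Let p be an odd prime, d ≥ 3, and G a group of affine permutations x ↦ Ax + b of V = F_p^d containing all translations and all maps x ↦ Ax with A of determinant 1. Then the 3-closure of G is the full affine group: a permutation σ of V agrees on every triple of points with some element of G if and only if σ is an affine map. -/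
theorem result (p : ℕ) [Fact p.Prime] (hp : p ≠ 2) (d : ℕ) (hd : 3 ≤ d) (G : Subgroup (Equiv.Perm (Fin d → ZMod p)))
    (haff : (G : Set (Equiv.Perm (Fin d → ZMod p))) ⊆ {τ : Equiv.Perm (Fin d → ZMod p) | ∃ (A : (Fin d → ZMod p) ≃ₗ[ZMod p] (Fin d → ZMod p)) (b : Fin d → ZMod p), ∀ x, τ x = A x + b})
    (htrans : ∀ b : Fin d → ZMod p, ∃ g ∈ G, ∀ x, g x = x + b)
    (hsl : ∀ A : (Fin d → ZMod p) ≃ₗ[ZMod p] (Fin d → ZMod p), LinearMap.det (A : (Fin d → ZMod p) →ₗ[ZMod p] (Fin d → ZMod p)) = 1 → ∃ g ∈ G, ∀ x, g x = A x)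
    (σ : Equiv.Perm (Fin d → ZMod p)) :
    (∀ t : Fin 3 → (Fin d → ZMod p), ∃ g ∈ G, ∀ i, σ (t i) = g (t i)) ↔ σ ∈ {τ : Equiv.Perm (Fin d → ZMod p) | ∃ (A : (Fin d → ZMod p) ≃ₗ[ZMod p] (Fin d → ZMod p)) (b : Fin d → ZMod p), ∀ x, τ x = A x + b} := by

  constructor
  · intro h
    apply fwd hp
    intro t
    obtain ⟨g, hg, hgt⟩ := h t
    obtain ⟨A, b, hA⟩ := haff hg
    exact ⟨A, b, fun i => by rw [hgt, hA]⟩
  · rintro ⟨A, b, hA⟩ t
    have hdA : LinearMap.det (A : (Fin d → ZMod p) →ₗ[ZMod p] (Fin d → ZMod p)) ≠ 0 :=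
      A.isUnit_det'.ne_zero
    set dA := LinearMap.det (A : (Fin d → ZMod p) →ₗ[ZMod p] (Fin d → ZMod p)) with hdAd
    let U : Submodule (ZMod p) (Fin d → ZMod p) :=
      Submodule.span (ZMod p) {t 1 - t 0, t 2 - t 0}
    have hU : U < ⊤ := by
      rw [lt_top_iff_ne_top]
      intro hUt
      have h1 : Module.finrank (ZMod p) U ≤ 2 := by
        have h2 := finrank_span_le_card (R := ZMod p) (M := Fin d → ZMod p)
          ({t 1 - t 0, t 2 - t 0} : Set (Fin d → ZMod p))
        refine h2.trans ?_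
        rw [Set.toFinset_card]
        classical
        rw [← Nat.card_eq_fintype_card, Nat.card_coe_set_eq]
        exact (Set.ncard_insert_le _ _).trans (by rw [Set.ncard_singleton])
      rw [hUt, finrank_top, Module.finrank_fin_fun] at h1
      omega
    obtain ⟨f, hf0, hUf⟩ := Submodule.exists_le_ker_of_lt_top U hU
    obtain ⟨v₀, hv₀⟩ : ∃ v, f v ≠ 0 := by
      by_contra hcon
      push Not at hcon
      exact hf0 (LinearMap.ext hcon)
    let v : Fin d → ZMod p := ((dA⁻¹ - 1) * (f v₀)⁻¹) • v₀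
    have hfv : f v = dA⁻¹ - 1 := by
      simp only [v, map_smul, smul_eq_mul]
      rw [mul_assoc, inv_mul_cancel₀ hv₀, mul_one]
    have hdT : LinearMap.det (LinearMap.transvection f v) = dA⁻¹ := by
      rw [LinearMap.transvection.det, hfv]; ring
    have hdet : LinearMap.det ((A : (Fin d → ZMod p) →ₗ[ZMod p] (Fin d → ZMod p)) ∘ₗ
        LinearMap.transvection f v) = 1 := by
      rw [LinearMap.det_comp, hdT, ← hdAd, mul_inv_cancel₀ hdA]
    let A' : (Fin d → ZMod p) ≃ₗ[ZMod p] (Fin d → ZMod p) :=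
      LinearMap.equivOfDetNeZero _ (by rw [hdet]; exact one_ne_zero)
    have hA'c : (A' : (Fin d → ZMod p) →ₗ[ZMod p] (Fin d → ZMod p)) =
        (A : (Fin d → ZMod p) →ₗ[ZMod p] (Fin d → ZMod p)) ∘ₗ LinearMap.transvection f v := by
      apply LinearMap.ext; intro x; rfl
    have hA' : ∀ x, A' x = A (x + f x • v) := by
      intro x
      have := LinearMap.congr_fun hA'c x
      exact this
    obtain ⟨g₀, hg₀, hg₀A⟩ := hsl A' (by rw [hA'c]; exact hdet)
    obtain ⟨τ, hτ, hτb⟩ := htrans (A (t 0) + b - A' (t 0))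
    refine ⟨τ * g₀, mul_mem hτ hg₀, ?_⟩
    have hUeq : ∀ u ∈ U, A' u = A u := by
      intro u hu
      have h1 : f u = 0 := hUf hu
      rw [hA', h1, zero_smul, add_zero]
    have hfin : ∀ i, t i - t 0 ∈ U := by
      intro i
      fin_cases i
      · simp
      · exact Submodule.subset_span (by simp)
      · exact Submodule.subset_span (by simp)
    intro i
    rw [hA, Equiv.Perm.mul_apply, hτb, hg₀A]
    have h1 := hUeq _ (hfin i)
    rw [map_sub, map_sub] at h1
    have h2 : A' (t i) = A (t i) - A (t 0) + A' (t 0) := by rw [← h1]; abel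
    rw [h2]; abel

end Cfsg.Agent.S3516
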