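import Mathlib
import Cfsg.Statements.S3517

set_option autoImplicit false
open Cfsg

namespace Cfsg.Agent.S3517

theorem ext_equiv {K V ι : Type*} [Field K] [AddCommGroup V] [Module K V] [FiniteDimensional K V] [Fintype ι] (f f' : ι → V)
    (hf : LinearIndependent K f) (hf' : LinearIndependent K f') : ∃ e : V ≃ₗ[K] V, ∀ i, e (f i) = f' i := by
  classical
  set U₁ := Submodule.span K (Set.range f) with hU₁
  set U₂ := Submodule.span K (Set.range f') with hU₂
  obtain ⟨W₁, hW₁⟩ := Submodule.exists_isCompl U₁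
  obtain ⟨W₂, hW₂⟩ := Submodule.exists_isCompl U₂
  let b₁ : Module.Basis ι K U₁ := Module.Basis.span hf
  let b₂ : Module.Basis ι K U₂ := Module.Basis.span hf'
  have hb₁ : ∀ i, (b₁ i : V) = f i := fun i => congrArg Subtype.val (Module.Basis.span_apply hf i)
  have hb₂ : ∀ i, (b₂ i : V) = f' i := fun i => congrArg Subtype.val (Module.Basis.span_apply hf' i)
  let e₁ : U₁ ≃ₗ[K] U₂ := b₁.equiv b₂ (Equiv.refl ι)
  have hfin : Module.finrank K U₁ = Module.finrank K U₂ := LinearEquiv.finrank_eq e₁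
  have hW : Module.finrank K W₁ = Module.finrank K W₂ := by
    have h1 := Submodule.finrank_add_eq_of_isCompl hW₁
    have h2 := Submodule.finrank_add_eq_of_isCompl hW₂
    omega
  let e₂ : W₁ ≃ₗ[K] W₂ := LinearEquiv.ofFinrankEq _ _ hW
  let e : V ≃ₗ[K] V := (Submodule.prodEquivOfIsCompl U₁ W₁ hW₁).symm ≪≫ₗ (e₁.prodCongr e₂) ≪≫ₗ Submodule.prodEquivOfIsCompl U₂ W₂ hW₂
  refine ⟨e, fun i => ?_⟩
  have h2 : (Submodule.prodEquivOfIsCompl U₁ W₁ hW₁).symm (f i) = (b₁ i, (0 : W₁)) := by
    rw [← hb₁]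
    exact Submodule.prodEquivOfIsCompl_symm_apply_left U₁ W₁ hW₁ (b₁ i)
  simp only [e, LinearEquiv.trans_apply, h2]
  have h3 : e₁ (b₁ i) = b₂ i := by simp [e₁]
  simp [h3, hb₂]

theorem pair_equiv {V : Type*} [AddCommGroup V] [Module (ZMod 2) V] [FiniteDimensional (ZMod 2) V] (u v u' v' : V)
    (h1 : u = 0 ↔ u' = 0) (h2 : v = 0 ↔ v' = 0) (h3 : u = v ↔ u' = v') : ∃ e : V ≃ₗ[ZMod 2] V, e u = u' ∧ e v = v' := by
  classical
  have hsingle : ∀ x x' : V, x ≠ 0 → x' ≠ 0 → ∃ e : V ≃ₗ[ZMod 2] V, e x = x' := by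
    intro x x' hx hx'
    obtain ⟨e, he⟩ := ext_equiv (K := ZMod 2) (ι := Fin 1) (fun _ => x) (fun _ => x')
      (LinearIndependent.of_subsingleton 0 hx) (LinearIndependent.of_subsingleton 0 hx')
    exact ⟨e, he 0⟩
  by_cases hu : u = 0
  · by_cases hv : v = 0
    · refine ⟨LinearEquiv.refl _ _, ?_, ?_⟩
      · simp [hu, h1.1 hu]
      · simp [hv, h2.1 hv]
    · obtain ⟨e, he⟩ := hsingle v v' hv (fun h => hv (h2.2 h))
      exact ⟨e, by rw [hu, h1.1 hu, map_zero], he⟩
  · by_cases hv : v = 0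
    · obtain ⟨e, he⟩ := hsingle u u' hu (fun h => hu (h1.2 h))
      exact ⟨e, he, by rw [hv, h2.1 hv, map_zero]⟩
    · by_cases huv : u = v
      · obtain ⟨e, he⟩ := hsingle u u' hu (fun h => hu (h1.2 h))
        exact ⟨e, he, by rw [← huv, he, h3.1 huv]⟩
      · have hli : ∀ x y : V, x ≠ 0 → y ≠ 0 → x ≠ y → LinearIndependent (ZMod 2) ![x, y] := by
          intro x y hx hy hxy
          rw [LinearIndependent.pair_iff]
          intro s t hst
          have hz : ∀ z : ZMod 2, z = 0 ∨ z = 1 := by decide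
          rcases hz s with rfl | rfl <;> rcases hz t with rfl | rfl
          · exact ⟨rfl, rfl⟩
          · rw [zero_smul, zero_add, one_smul] at hst; exact absurd hst hy
          · rw [zero_smul, add_zero, one_smul] at hst; exact absurd hst hx
          · exfalso
            rw [one_smul, one_smul] at hst
            apply hxy
            have h4 : y + y = 0 := by
              have : (2 : ZMod 2) • y = 0 := by
                rw [show (2 : ZMod 2) = 0 from rfl, zero_smul]
              rwa [two_smul] at this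
            calc x = x + (y + y) := by rw [h4, add_zero]
              _ = (x + y) + y := by abel
              _ = y := by rw [hst, zero_add]
        obtain ⟨e, he⟩ := ext_equiv (K := ZMod 2) ![u, v] ![u', v'] (hli u v hu hv huv)
          (hli u' v' (fun h => hu (h1.2 h)) (fun h => hv (h2.2 h)) (fun h => huv (h3.2 h)))
        exact ⟨e, he 0, he 1⟩

/-- For d ≥ 3, the 3-closure of the affine group AGL_d(2) acting on F_2^d is the full symmetric group: every permutation of F_2^d agrees on every ordered triple of points with some affine map (AGL_d(2) is 3-transitive). -/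
theorem result (d : ℕ) (hd : 3 ≤ d) (σ : Equiv.Perm (Fin d → ZMod 2)) (t : Fin 3 → (Fin d → ZMod 2)) :
    ∃ (A : (Fin d → ZMod 2) ≃ₗ[ZMod 2] (Fin d → ZMod 2)) (b : Fin d → ZMod 2), ∀ i, σ (t i) = A (t i) + b := by
  classical
  obtain ⟨e, he1, he2⟩ := pair_equiv (t 1 - t 0) (t 2 - t 0) (σ (t 1) - σ (t 0)) (σ (t 2) - σ (t 0))
    (by rw [sub_eq_zero, sub_eq_zero, σ.injective.eq_iff])
    (by rw [sub_eq_zero, sub_eq_zero, σ.injective.eq_iff])
    (by rw [sub_left_inj, sub_left_inj, σ.injective.eq_iff])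
  refine ⟨e, σ (t 0) - e (t 0), ?_⟩
  rw [map_sub] at he1 he2
  intro i
  fin_cases i
  · change σ (t 0) = e (t 0) + (σ (t 0) - e (t 0))
    abel
  · change σ (t 1) = e (t 1) + (σ (t 0) - e (t 0))
    have h1 : e (t 1) = (σ (t 1) - σ (t 0)) + e (t 0) := by rw [← he1]; abel
    rw [h1]; abel
  · change σ (t 2) = e (t 2) + (σ (t 0) - e (t 0))
    have h1 : e (t 2) = (σ (t 2) - σ (t 0)) + e (t 0) := by rw [← he2]; abel
    rw [h1]; abel

end Cfsg.Agent.S3517
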