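import Cfsg.Statements.S3524
import Cfsg.Agent.H1.Basic

set_option autoImplicit false
open Cfsg

namespace Cfsg.Agent.S3524

open scoped commutatorElement Pointwise

/-- A permutation group with a base is closed at one level above the base size. Let G be a group of permutations of a set Ω and suppose some k points α₁, …, α_k are fixed simultaneously only by the identity of G (a base of size k). Then G is (k+1)-closed: a permutation of Ω that agrees on every (k+1)-tuple of points with some element of G belongs to G. -/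
theorem result {Ω : Type*} (G : Subgroup (Equiv.Perm Ω)) (k : ℕ) (α : Fin k → Ω)
    (hbase : ∀ g ∈ G, (∀ i, g (α i) = α i) → g = 1) (σ : Equiv.Perm Ω)
    (hσ : ∀ t : Fin (k + 1) → Ω, ∃ g ∈ G, ∀ i, σ (t i) = g (t i)) : σ ∈ G := by
  classical
  rcases isEmpty_or_nonempty Ω with he | ⟨⟨β0⟩⟩
  · have : σ = 1 := Equiv.ext (fun x => (he.false x).elim)
    rw [this]; exact G.one_mem
  have key : ∀ β : Ω, ∃ g ∈ G, (∀ i, σ (α i) = g (α i)) ∧ σ β = g β := by
    intro β
    obtain ⟨g, hg, h⟩ := hσ (Fin.snoc α β)
    refine ⟨g, hg, fun i => ?_, ?_⟩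
    · have := h (Fin.castSucc i)
      simpa using this
    · have := h (Fin.last k)
      simpa using this
  obtain ⟨g0, hg0, h0, -⟩ := key β0
  have : σ = g0 := by
    ext β
    obtain ⟨g, hg, h1, h2⟩ := key β
    have h3 : g0⁻¹ * g = 1 := by
      apply hbase _ (G.mul_mem (G.inv_mem hg0) hg)
      intro i
      rw [Equiv.Perm.mul_apply, ← h1 i, h0 i]; simp
    rw [h2, ← inv_mul_eq_one.1 h3]
  rw [this]; exact hg0

end Cfsg.Agent.S3524
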