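import Cfsg.Statements.S3639
import Cfsg.Agent.L.Sz.Semi
import Cfsg.Agent.L.Sz.Bridge

set_option autoImplicit false
open Cfsg

namespace Cfsg.Agent.S3639
open CfsgL.Sz

/-- Let S be the Suzuki group over the field with q = 2^(2m+1) ≥ 8 elements. Then there are finite groups of arbitrarily large order with the same prime graph as S. -/
theorem result {F : Type*} [Field F] [Fintype F] {m : ℕ} (hm : 1 ≤ m) (hF : Fintype.card F = 2 ^ (2 * m + 1)) (N : ℕ) :
    ∃ (H : Type) (_ : Group H) (_ : Fintype H), N < Fintype.card H ∧ ((∀ r : ℕ, r.Prime → (r ∣ Nat.card ↥(Cfsg.Lie.Sz F (2 ^ (m + 1))) ↔ r ∣ Nat.card H)) ∧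
      (∀ r s : ℕ, r.Prime → s.Prime → r ≠ s → ((∃ x : ↥(Cfsg.Lie.Sz F (2 ^ (m + 1))), orderOf x = r * s) ↔ (∃ y : H, orderOf y = r * s)))) := by
  haveI := CfsgL.Sz.char_two hF
  haveI : Fact (Fintype.card F = 2 ^ (2 * m + 1)) := ⟨hF⟩
  haveI : Fact (1 ≤ m) := ⟨hm⟩
  have hcardS : Nat.card (Cfsg.Lie.Sz F (2 ^ (m + 1))) = Nat.card (Gz F m) :=
    (Nat.card_congr (bridge F m).toEquiv).symm
  have hcardN : Nat.card (Multiplicative (Fin N → Fin 4 → F)) = 2 ^ ((2 * m + 1) * 4 * N) := by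
    have h1 : Nat.card (Multiplicative (Fin N → Fin 4 → F)) = Nat.card (Fin N → Fin 4 → F) := rfl
    rw [h1, Nat.card_fun, Nat.card_fun, Nat.card_eq_fintype_card (α := F), hF, Nat.card_eq_fintype_card,
      Nat.card_eq_fintype_card, Fintype.card_fin, Fintype.card_fin, ← pow_mul, ← pow_mul, mul_assoc]
  haveI : Finite (Multiplicative (Fin N → Fin 4 → F) ⋊[act F m N] Gz F m) :=
    Finite.of_equiv _ SemidirectProduct.equivProd.symm
  obtain ⟨H, _, _, ⟨e⟩⟩ := exists_type_zero (Multiplicative (Fin N → Fin 4 → F) ⋊[act F m N] Gz F m)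
  have hcardH : Nat.card H = 2 ^ ((2 * m + 1) * 4 * N) * Nat.card (Gz F m) := by
    rw [← Nat.card_congr e.toEquiv, Nat.card_congr SemidirectProduct.equivProd, Nat.card_prod, hcardN]
  refine ⟨H, inferInstance, inferInstance, ?_, ?_, ?_⟩
  · rw [← Nat.card_eq_fintype_card, hcardH]
    calc N < 2 ^ N := Nat.lt_two_pow_self
      _ ≤ 2 ^ ((2 * m + 1) * 4 * N) := Nat.pow_le_pow_right (by norm_num) (by nlinarith)
      _ ≤ _ := Nat.le_mul_of_pos_right _ Nat.card_pos
  · intro r hr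
    rw [hcardS, hcardH]
    constructor
    · intro h; exact h.mul_left _
    · intro h
      rcases hr.dvd_mul.1 h with h | h
      · have h2 : r = 2 := (Nat.prime_dvd_prime_iff_eq hr Nat.prime_two).1 (hr.dvd_of_dvd_pow h)
        rw [h2, card_Gz]
        refine Dvd.dvd.mul_left (Dvd.dvd.mul_right ?_ _) _
        rw [card_F (F := F) (m := m)]
        exact dvd_pow (dvd_pow_self 2 (by omega)) (by norm_num)
      · exact h
  · intro r s hr hs hrs
    have h1 : (∃ x : ↥(Cfsg.Lie.Sz F (2 ^ (m + 1))), orderOf x = r * s) ↔ ∃ x : Gz F m, orderOf x = r * s := by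
      constructor
      · rintro ⟨x, hx⟩
        exact ⟨(bridge F m).symm x, by rw [MulEquiv.orderOf_eq, hx]⟩
      · rintro ⟨x, hx⟩
        exact ⟨bridge F m x, by rw [MulEquiv.orderOf_eq, hx]⟩
    rw [h1, semi_order (n := N) hr hs hrs]
    constructor
    · rintro ⟨x, hx⟩
      exact ⟨e x, by rw [MulEquiv.orderOf_eq, hx]⟩
    · rintro ⟨x, hx⟩
      exact ⟨e.symm x, by rw [MulEquiv.orderOf_eq, hx]⟩

end Cfsg.Agent.S3639
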