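import Cfsg.Statements.S3683
import Cfsg.Agent.H1.Basic

set_option autoImplicit false
open Cfsg

namespace Cfsg.Agent.S3683

open scoped commutatorElement Pointwise

theorem prime_of_coatom_bot {G : Type*} [Group G] [Finite G] (h : IsCoatom (⊥ : Subgroup G)) : IsCyclic G ∧ (Nat.card G).Prime := by
  have hne : Nat.card G ≠ 1 := by
    intro h1
    apply h.1
    haveI : Subsingleton G := (Nat.card_eq_one_iff_unique.1 h1).1
    exact Subsingleton.elim _ _
  obtain ⟨q, hq, hqd⟩ := Nat.exists_prime_and_dvd hne
  haveI : Fact q.Prime := ⟨hq⟩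
  obtain ⟨g, hg⟩ := exists_prime_orderOf_dvd_card' q hqd
  have h1 : Subgroup.zpowers g = ⊤ := by
    apply h.2
    rw [bot_lt_iff_ne_bot, Ne, Subgroup.zpowers_eq_bot]
    rintro rfl
    rw [orderOf_one] at hg
    exact hq.one_lt.ne hg
  have h2 : Nat.card G = q := by
    rw [← Subgroup.card_top (G := G), ← h1, Nat.card_zpowers, hg]
  exact ⟨isCyclic_of_prime_card h2, by rw [h2]; exact hq⟩

/-- Let a finite group G act faithfully and primitively on a set Ω, and suppose the stabilizer of a point a fixes a second point b ≠ a (a suborbit of length 1 other than {a}). Then the stabilizer of a is trivial and G is cyclic of prime order. -/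
theorem result {G Ω : Type*} [Group G] [Finite G] [MulAction G Ω] [FaithfulSMul G Ω] [Finite Ω]
    (hprim : MulAction.IsPreprimitive G Ω) (a b : Ω) (hab : a ≠ b) (hfix : ∀ g : G, g • a = a → g • b = b) :
    MulAction.stabilizer G a = ⊥ ∧ IsCyclic G ∧ (Nat.card G).Prime := by

  have hle : MulAction.stabilizer G a ≤ MulAction.stabilizer G b := fun g hg => hfix g hg
  haveI := hprim
  haveI : Nontrivial Ω := ⟨⟨a, b, hab⟩⟩
  have htr : MulAction.IsPretransitive G Ω := inferInstance
  obtain ⟨x, hx⟩ := htr.exists_smul_eq a b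
  have hconj : MulAction.stabilizer G b = MulAut.conj x • MulAction.stabilizer G a := by
    rw [← hx, MulAction.stabilizer_smul_eq_stabilizer_map_conj]; rfl
  have heq : MulAction.stabilizer G a = MulAction.stabilizer G b := by
    apply Subgroup.eq_of_le_of_card_ge hle
    rw [hconj]
    exact (Nat.card_congr (Subgroup.equivSMul (MulAut.conj x) _).toEquiv).ge
  have hxN : x ∈ Subgroup.normalizer (MulAction.stabilizer G a : Set G) := by
    rw [← CfsgH1.conj_smul_eq_self_iff, ← hconj, heq]
  have hco : IsCoatom (MulAction.stabilizer G a) := MulAction.IsPreprimitive.isCoatom_stabilizer_of_isPreprimitive G a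
  have hN : Subgroup.normalizer (MulAction.stabilizer G a : Set G) = ⊤ := by
    apply hco.2
    refine lt_of_le_of_ne Subgroup.le_normalizer (fun h => ?_)
    rw [← h] at hxN
    exact hab (hxN.symm.trans hx)
  have hnorm : (MulAction.stabilizer G a).Normal := Subgroup.normalizer_eq_top_iff.1 hN
  have hbot : MulAction.stabilizer G a = ⊥ := by
    rw [eq_bot_iff]
    intro g hg
    rw [Subgroup.mem_bot]
    apply FaithfulSMul.eq_of_smul_eq_smul (α := Ω)
    intro ω
    obtain ⟨y, rfl⟩ := htr.exists_smul_eq a ω
    have h1 := hnorm.conj_mem g hg y⁻¹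
    rw [inv_inv] at h1
    have h2 : (y⁻¹ * g * y) • a = a := h1
    rw [mul_assoc, mul_smul, inv_smul_eq_iff, mul_smul] at h2
    rw [one_smul]; exact h2
  rw [hbot] at hco
  exact ⟨hbot, prime_of_coatom_bot hco⟩

end Cfsg.Agent.S3683
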