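import Cfsg.Statements.S3684
import Cfsg.Agent.H9.Dih

set_option autoImplicit false
open Cfsg

namespace Cfsg.Agent.S3684

open scoped commutatorElement Pointwise

/-- a normal subgroup in a point stabilizer of a faithful transitive action is trivial. -/
theorem nrm_bot {G Ω : Type*} [Group G] [MulAction G Ω] [FaithfulSMul G Ω]
    [MulAction.IsPretransitive G Ω] (a : Ω) (N : Subgroup G) [hN : N.Normal]
    (h : N ≤ MulAction.stabilizer G a) : N = ⊥ := by
  rw [eq_bot_iff]
  intro n hn
  rw [Subgroup.mem_bot]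
  apply FaithfulSMul.eq_of_smul_eq_smul (α := Ω)
  intro w
  obtain ⟨g, rfl⟩ := MulAction.exists_smul_eq G a w
  have h1 : g⁻¹ * n * g ∈ MulAction.stabilizer G a := by
    apply h
    have := hN.conj_mem n hn g⁻¹
    simpa using this
  rw [MulAction.mem_stabilizer_iff] at h1
  rw [one_smul]
  calc n • g • a = g • ((g⁻¹ * n * g) • a) := by
        rw [mul_smul, mul_smul, smul_inv_smul]
    _ = g • a := by rw [h1]

theorem card2 {G : Type*} [Group G] {A : Subgroup G} (h : Nat.card A = 2) :
    ∃ s ∈ A, s ≠ 1 ∧ s * s = 1 ∧ ∀ g ∈ A, g = 1 ∨ g = s := by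
  obtain ⟨s, hs, hu⟩ := (Nat.card_eq_two_iff' (1 : A)).mp h
  refine ⟨s, s.2, fun e => hs (Subtype.ext e), ?_, ?_⟩
  · by_contra hne
    have h1 := hu (s * s) (fun e => hne (by simpa using congrArg Subtype.val e))
    exact hs (mul_eq_left.mp h1)
  · intro g hg
    by_cases h1 : (⟨g, hg⟩ : A) = 1
    · left; exact congrArg Subtype.val h1
    · right; exact congrArg Subtype.val (hu _ h1)

/-- Let a finite group G act faithfully and primitively on a set Ω, and suppose the stabilizer of a point a has an orbit of length 2. Then the stabilizer of a has order 2 and G is isomorphic to the dihedral group of order 2p for some prime p. -/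
theorem result {G Ω : Type*} [Group G] [Finite G] [MulAction G Ω] [FaithfulSMul G Ω] [Finite Ω]
    (hprim : MulAction.IsPreprimitive G Ω) (a b : Ω) (h2 : Nat.card (MulAction.orbit (MulAction.stabilizer G a) b) = 2) :
    Nat.card (MulAction.stabilizer G a) = 2 ∧ ∃ p : ℕ, p.Prime ∧ Nonempty (G ≃* DihedralGroup p) := by

  classical
  haveI := hprim
  haveI : MulAction.IsPretransitive G Ω := hprim.toIsPretransitive
  set A := MulAction.stabilizer G a with hA
  set B := MulAction.stabilizer G b with hB
  have hBA : B.relIndex A = 2 := by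
    have h1 : MulAction.stabilizer A b = B.subgroupOf A := by
      ext g
      rw [Subgroup.mem_subgroupOf]
      exact Iff.rfl
    have h3 := MulAction.index_stabilizer A b
    rw [h1] at h3
    rw [Subgroup.relIndex, h3, ← h2]
    exact (Nat.card_coe_set_eq _).symm
  have hidx : A.index = B.index := by
    rw [hA, hB, MulAction.index_stabilizer_of_transitive, MulAction.index_stabilizer_of_transitive]
  have hDA : (A ⊓ B).relIndex A = 2 := by rw [Subgroup.inf_relIndex_left, hBA]
  have hDB : (A ⊓ B).relIndex B = 2 := by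
    have h1 := Subgroup.relIndex_mul_index (inf_le_left : A ⊓ B ≤ A)
    have h3 := Subgroup.relIndex_mul_index (inf_le_right : A ⊓ B ≤ B)
    rw [hDA, ← h3, hidx] at h1
    exact (Nat.eq_of_mul_eq_mul_right (Nat.pos_of_ne_zero Subgroup.index_ne_zero_of_finite) h1).symm
  have hnle : ¬ B ≤ A := by
    intro hle
    have h1 := Subgroup.relIndex_mul_index hle
    rw [hBA, hidx] at h1
    have : B.index ≠ 0 := Subgroup.index_ne_zero_of_finite
    omega
  haveI hnt : Nontrivial Ω := by
    refine ⟨a, b, ?_⟩
    intro hab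
    apply hnle
    rw [hA, hB, hab]
  have hcoA : IsCoatom A := MulAction.IsPreprimitive.isCoatom_stabilizer_of_isPreprimitive G a
  have htop : A ⊔ B = ⊤ := by
    apply hcoA.2
    exact lt_of_le_of_ne le_sup_left (fun e => hnle (by rw [e]; exact le_sup_right))
  have hDn : (A ⊓ B).Normal := by
    have h1 : ((A ⊓ B).subgroupOf A).Normal := Subgroup.normal_of_index_eq_two hDA
    have h3 : ((A ⊓ B).subgroupOf B).Normal := Subgroup.normal_of_index_eq_two hDB
    rw [Subgroup.normal_subgroupOf_iff_le_normalizer inf_le_left] at h1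
    rw [Subgroup.normal_subgroupOf_iff_le_normalizer inf_le_right] at h3
    rw [← Subgroup.normalizer_eq_top_iff, eq_top_iff, ← htop]
    exact sup_le h1 h3
  have hD : A ⊓ B = ⊥ := nrm_bot a (A ⊓ B) inf_le_left
  rw [hD, Subgroup.relIndex_bot_left] at hDA hDB
  refine ⟨hDA, ?_⟩
  obtain ⟨s, hsA, hs1, hss, hsall⟩ := card2 hDA
  obtain ⟨t, htB, ht1, htt, htall⟩ := card2 hDB
  have hsi : s⁻¹ = s := inv_eq_of_mul_eq_one_left hss
  have hti : t⁻¹ = t := inv_eq_of_mul_eq_one_left htt
  have hst : s * t ≠ 1 := by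
    intro h
    have : s = t := by rw [← hti]; exact eq_inv_of_mul_eq_one_left h
    apply hs1
    have h3 : s ∈ A ⊓ B := ⟨hsA, this ▸ htB⟩
    rw [hD] at h3
    exact Subgroup.mem_bot.mp h3
  obtain ⟨p, hp, hpn⟩ := Nat.exists_prime_and_dvd (fun h => hst (orderOf_eq_one_iff.mp h))
  refine ⟨p, hp, ?_⟩
  set z := (s * t) ^ (orderOf (s * t) / p) with hz
  have hzo : orderOf z = p := orderOf_pow_orderOf_div (orderOf_pos _).ne' hpn
  have hsz : s * z * s⁻¹ = z⁻¹ := by
    rw [hz, ← conj_pow, ← inv_pow]
    congr 1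
    rw [mul_inv_rev, hti, ← mul_assoc, hss, one_mul]
  have htz : t * z * t⁻¹ = z⁻¹ := by
    rw [hz, ← conj_pow, ← inv_pow]
    congr 1
    rw [mul_inv_rev, hti, hsi, ← mul_assoc, mul_assoc, htt, mul_one]
  set C := Subgroup.zpowers z with hC
  have hinv : ∀ g : G, g * z * g⁻¹ = z⁻¹ → ∀ c ∈ C, g * c * g⁻¹ = c⁻¹ := by
    rintro g hg c ⟨i, rfl⟩
    simp only
    rw [← conj_zpow, hg, inv_zpow]
  have hnorm : ∀ g : G, g * z * g⁻¹ = z⁻¹ → g ∈ Subgroup.normalizer (C : Set G) := by
    intro g hg
    refine Subgroup.mem_normalizer_fintype ?_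
    intro c hc
    rw [hinv g hg c hc]
    exact inv_mem hc
  have hCn : C.Normal := by
    rw [← Subgroup.normalizer_eq_top_iff, eq_top_iff, ← htop]
    refine sup_le ?_ ?_
    · intro g hg
      rcases hsall g hg with rfl | rfl
      · exact one_mem _
      · exact hnorm _ hsz
    · intro g hg
      rcases htall g hg with rfl | rfl
      · exact one_mem _
      · exact hnorm _ htz
  have hCA : ¬ C ≤ A := by
    intro h
    have h1 : C = ⊥ := nrm_bot a C h
    have h3 : Nat.card C = p := by rw [hC, Nat.card_zpowers, hzo]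
    rw [h1, Subgroup.card_bot] at h3
    exact hp.one_lt.ne h3
  have htop2 : C ⊔ A = ⊤ := by
    apply hcoA.2
    exact lt_of_le_of_ne le_sup_right (fun e => hCA (by rw [e]; exact le_sup_left))
  have hsC : s ∉ C := by
    intro hs
    have h1 : A ≤ C := by
      intro g hg
      rcases hsall g hg with rfl | rfl
      · exact one_mem _
      · exact hs
    have h3 : C = ⊤ := by rw [← htop2, sup_eq_left.mpr h1]
    have hcomm : ∀ g h : G, g * h = h * g := by
      intro g h
      have hg : g ∈ C := h3 ▸ Subgroup.mem_top g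
      have hh : h ∈ C := h3 ▸ Subgroup.mem_top h
      obtain ⟨i, rfl⟩ := hg
      obtain ⟨j, rfl⟩ := hh
      exact (((Commute.refl z).zpow_left i).zpow_right j).eq
    haveI : A.Normal := ⟨fun n hn g => by rw [hcomm g n, mul_inv_cancel_right]; exact hn⟩
    have h4 : A = ⊥ := nrm_bot a A le_rfl
    rw [h4, Subgroup.card_bot] at hDA
    omega
  have hdec : ∀ g : G, g ∈ C ∨ s * g ∈ C := by
    intro g
    have hg : g ∈ C ⊔ A := htop2 ▸ Subgroup.mem_top g
    rw [Subgroup.mem_sup_of_normal_left] at hg
    obtain ⟨c, hc, g', hg', rfl⟩ := hg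
    rcases hsall g' hg' with rfl | rfl
    · left; rwa [mul_one]
    · right
      have h1 := hinv _ hsz c hc
      rw [hsi, mul_assoc] at h1
      rw [h1]
      exact inv_mem hc
  have hcard : Nat.card G = 2 * p := by
    have h1 : C.index = 2 := by
      rw [Subgroup.index_eq_two_iff]
      refine ⟨s, fun g => ?_⟩
      have h3 : ∀ g, g * s ∈ C ↔ s * g ∈ C := by
        intro g
        constructor
        · intro h
          have := hCn.conj_mem _ h s
          rwa [mul_assoc, mul_assoc, mul_inv_cancel, mul_one] at this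
        · intro h
          have := hCn.conj_mem _ h s⁻¹
          rwa [inv_inv, ← mul_assoc, inv_mul_cancel, one_mul] at this
      rw [h3]
      rcases hdec g with h | h
      · right
        refine ⟨h, fun h' => hsC ?_⟩
        have := mul_mem h' (inv_mem h)
        rwa [mul_inv_cancel_right] at this
      · left
        refine ⟨h, fun h' => hsC ?_⟩
        have := mul_mem h (inv_mem h')
        rwa [mul_inv_cancel_right] at this
    rw [← Subgroup.card_mul_index C, h1, hC, Nat.card_zpowers, hzo, mul_comm]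
  exact CfsgH9.Dih.dihedral_of_cyclic C (by rw [hC]; infer_instance)
    (by rw [hC, Nat.card_zpowers, hzo]) hcard hss
    (fun c hc => by have := hinv s hsz c hc; rwa [hsi] at this) hdec

end Cfsg.Agent.S3684
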