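import Cfsg.Statements.S3802
import Cfsg.Agent.H1.Subn

set_option autoImplicit false
open Cfsg

namespace Cfsg.Agent.S3802

open scoped commutatorElement Pointwise

/-- Let G be a finite group, M a maximal subgroup of G and N a subnormal subgroup of G contained in M. Then N is contained in every conjugate of M, that is, N lies in the core of M in G. -/
theorem result {G : Type*} [Group G] [Finite G] (M N : Subgroup G) (hM : IsCoatom M) (hN : N.IsSubnormal) (hNM : N ≤ M) :
    N ≤ Subgroup.normalCore M := by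
  classical
  set S : Set (Subgroup G) := {U | (∃ g : G, U = MulAut.conj g • N) ∧ U ≤ M} with hS
  set J : Subgroup G := sSup S with hJ
  have hSn : ∀ U ∈ S, U.IsSubnormal := by
    rintro U ⟨⟨g, rfl⟩, -⟩
    exact CfsgH1.isSubnormal_conj hN g
  have hJs : J.IsSubnormal := CfsgH1.isSubnormal_sSup hSn
  have hNJ : N ≤ J := le_sSup ⟨⟨1, by simp⟩, hNM⟩
  have hJM : J ≤ M := sSup_le fun U hU => hU.2
  by_cases hn : J.Normal
  · exact hNJ.trans ((Subgroup.normal_le_normalCore (H := M) (N := J)).2 hJM)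
  · exfalso
    obtain ⟨x, hx1, hx2, -⟩ := CfsgH1.exists_conj_le_normalizer hJs hn
    have hMN : M ≤ Subgroup.normalizer (J : Set G) := by
      intro m hm
      rw [← CfsgH1.conj_smul_eq_self_iff]
      apply CfsgH1.eq_of_le_of_card_le _ (by rw [CfsgH1.card_conj_smul])
      change J.map (MulAut.conj m).toMonoidHom ≤ J
      rw [Subgroup.map_le_iff_le_comap]
      refine sSup_le fun U hU => ?_
      rw [← Subgroup.map_le_iff_le_comap]
      apply le_sSup
      obtain ⟨⟨g, rfl⟩, hU2⟩ := hU
      refine ⟨⟨m * g, ?_⟩, ?_⟩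
      · rw [map_mul, mul_smul]; rfl
      · rintro _ ⟨u, hu, rfl⟩
        exact M.mul_mem (M.mul_mem hm (hU2 hu)) (M.inv_mem hm)
    have hNe : Subgroup.normalizer (J : Set G) ≠ ⊤ := fun h => hn (Subgroup.normalizer_eq_top_iff.1 h)
    have hMe : Subgroup.normalizer (J : Set G) = M := by
      by_contra hne
      exact hNe (hM.2 _ (lt_of_le_of_ne hMN (Ne.symm hne)))
    apply hx2
    change J.map (MulAut.conj x).toMonoidHom ≤ J
    rw [Subgroup.map_le_iff_le_comap]
    refine sSup_le fun U hU => ?_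
    rw [← Subgroup.map_le_iff_le_comap]
    apply le_sSup
    have hUJ : U ≤ J := le_sSup hU
    obtain ⟨⟨g, rfl⟩, hU2⟩ := hU
    refine ⟨⟨x * g, ?_⟩, ?_⟩
    · rw [map_mul, mul_smul]; rfl
    · rw [← hMe]
      refine le_trans ?_ hx1
      rintro _ ⟨u, hu, rfl⟩
      exact ⟨u, hUJ hu, rfl⟩

end Cfsg.Agent.S3802
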