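import Cfsg.Statements.S3803
import Cfsg.Agent.H1.Omega4

set_option autoImplicit false
open Cfsg

namespace Cfsg.Agent.S3803

open scoped commutatorElement Pointwise

open Subgroup in
theorem exists_between {G : Type*} [Group G] [Finite G] {P H : Subgroup G} (hHP : H ≤ P) {j m : ℕ} (hj : Nat.card H = 2 ^ j) (hjm : j ≤ m)
    (hm : 2 ^ m ∣ Nat.card P) : ∃ K : Subgroup G, H ≤ K ∧ K ≤ P ∧ Nat.card K = 2 ^ m := by
  haveI : Fact (Nat.Prime 2) := ⟨Nat.prime_two⟩
  obtain ⟨K, hK, hHK⟩ := Sylow.exists_subgroup_card_pow_prime_le 2 (G := P) hm (H.subgroupOf P)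
    (by rw [Nat.card_congr (subgroupOfEquivOfLe hHP).toEquiv, hj]) hjm
  refine ⟨K.map P.subtype, ?_, Subgroup.map_subtype_le _, ?_⟩
  · intro x hx
    exact ⟨⟨x, hHP hx⟩, hHK hx, rfl⟩
  · rw [← hK]
    exact Nat.card_congr (K.equivMapOfInjective _ P.subtype_injective).symm.toEquiv

/-- Let P be a 2-subgroup and A a subgroup of odd order of a finite group, with A normalizing P. Let D ≤ P with 1 < |D| < |P|. If every subgroup of P of order |D|, and also every subgroup of P of order 4 in case |D| = 2, is normalized by A, then A centralizes P. -/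
theorem result {X : Type*} [Group X] [Finite X] (P A D : Subgroup X) (hP : IsPGroup 2 P) (hA : Odd (Nat.card A))
    (hAP : A ≤ Subgroup.normalizer (P : Set X)) (hDP : D ≤ P) (hD1 : 1 < Nat.card D) (hD2 : Nat.card D < Nat.card P)
    (hinv : ∀ E : Subgroup X, E ≤ P → (Nat.card E = Nat.card D ∨ (Nat.card D = 2 ∧ Nat.card E = 4)) → A ≤ Subgroup.normalizer (E : Set X)) :
    A ≤ Subgroup.centralizer (P : Set X) := by

  haveI : Fact (Nat.Prime 2) := ⟨Nat.prime_two⟩
  apply CfsgH1.centralizes_of_pow4 _ rfl hP hA hAP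
  intro x hx hx4 a ha
  have hao : Odd (orderOf a) := by
    have h1 : orderOf a ∣ Nat.card A := by
      have := orderOf_dvd_natCard (⟨a, ha⟩ : A)
      rwa [← Subgroup.orderOf_coe] at this
    exact Odd.of_dvd_nat hA h1
  have key : ∀ E : Subgroup X, x ∈ E → A ≤ Subgroup.normalizer (E : Set X) → IsCyclic E → a * x = x * a := by
    intro E hxE hAE hEc
    apply CfsgH1.commute_of_pow4 hao hx4
    let N := Subgroup.normalizer (E : Set X)
    have hEN : E ≤ N := Subgroup.le_normalizer
    haveI : (E.subgroupOf N).Normal := Subgroup.normal_in_normalizer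
    have hc : IsCyclic (E.subgroupOf N) := by
      haveI := hEc
      exact isCyclic_of_surjective (Subgroup.subgroupOfEquivOfLe hEN).symm (Subgroup.subgroupOfEquivOfLe hEN).symm.surjective
    have h1 := CfsgH1.conj_mem_zpowers_of_cyclic hc (y := (⟨x, hEN hxE⟩ : N)) (Subgroup.mem_subgroupOf.2 hxE) ⟨a, hAE ha⟩
    obtain ⟨k, hk⟩ := Subgroup.mem_zpowers_iff.1 h1
    exact Subgroup.mem_zpowers_iff.2 ⟨k, congrArg Subtype.val hk⟩
  have hxo : orderOf x ∣ 2 ^ 2 := orderOf_dvd_of_pow_eq_one hx4
  obtain ⟨j, hj2, hj⟩ := (Nat.dvd_prime_pow Nat.prime_two).1 hxo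
  have hzc : Nat.card (Subgroup.zpowers x) = 2 ^ j := by rw [Nat.card_zpowers, hj]
  have hzP : Subgroup.zpowers x ≤ P := Subgroup.zpowers_le.2 hx
  obtain ⟨d, hd⟩ := IsPGroup.iff_card.1 (hP.to_le hDP)
  obtain ⟨n, hn⟩ := IsPGroup.iff_card.1 hP
  have hd1 : 1 ≤ d := by
    rcases Nat.eq_zero_or_pos d with h | h
    · rw [h, pow_zero] at hd; omega
    · exact h
  have hdn : d < n := by
    rw [hd, hn] at hD2
    exact (Nat.pow_lt_pow_iff_right (by norm_num)).1 hD2
  by_cases hjd : j ≤ d
  · obtain ⟨E, hzE, hEP, hE⟩ := exists_between hzP hzc hjd (by rw [hn]; exact pow_dvd_pow 2 hdn.le)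
    have hAE := hinv E hEP (Or.inl (by rw [hE, hd]))
    have hxE : x ∈ E := hzE (Subgroup.mem_zpowers x)
    obtain ⟨R, hER, hRP, hR⟩ := exists_between hEP hE (Nat.le_succ d) (by rw [hn]; exact pow_dvd_pow 2 hdn)
    by_cases hRc : IsCyclic R
    · apply key E hxE hAE
      haveI := hRc
      exact isCyclic_of_injective (Subgroup.inclusion hER) (Subgroup.inclusion_injective hER)
    · have hAR : A ≤ Subgroup.normalizer (R : Set X) := by
        rw [CfsgH1.le_normalizer_iff_conj]
        intro b hb r hr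
        have hzr : Subgroup.zpowers r ≤ R := Subgroup.zpowers_le.2 hr
        have hRp : IsPGroup 2 R := hP.to_le hRP
        obtain ⟨i, hi⟩ := IsPGroup.iff_card.1 (hRp.to_le hzr)
        have hid : i ≤ d := by
          by_contra hlt
          apply hRc
          have h1 : Nat.card R ≤ Nat.card (Subgroup.zpowers r) := by
            rw [hR, hi]; exact Nat.pow_le_pow_right (by norm_num) (by omega)
          have h2 : Subgroup.zpowers r = R := Subgroup.eq_of_le_of_card_ge hzr h1
          rw [← h2]; infer_instance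
        obtain ⟨M, hzM, hMR, hM⟩ := exists_between hzr hi hid (by rw [hR]; exact pow_dvd_pow 2 (Nat.le_succ d))
        have hAM := hinv M (hMR.trans hRP) (Or.inl (by rw [hM, hd]))
        exact hMR (CfsgH1.le_normalizer_iff_conj.1 hAM b hb r (hzM (Subgroup.mem_zpowers r)))
      have h1 := CfsgH1.centralizes_of_maximals (hP.to_le hRP) hA hAR (by
        intro M hMR hM
        apply hinv M (hMR.trans hRP)
        left
        rw [hR, pow_succ] at hM
        rw [hd]; omega)
      exact (Subgroup.mem_centralizer_iff.1 (h1 ha) x (hER hxE)).symm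
  · -- j = 2, d = 1
    have hj' : j = 2 := by omega
    have hd' : d = 1 := by omega
    subst hj' hd'
    apply key (Subgroup.zpowers x) (Subgroup.mem_zpowers x) _ inferInstance
    exact hinv _ hzP (Or.inr ⟨by rw [hd]; norm_num, by rw [hzc]; norm_num⟩)

end Cfsg.Agent.S3803
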