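import Cfsg.Statements.S3815
import Cfsg.Agent.H1.Basic
import Cfsg.Agent.H2.Cores

set_option autoImplicit false
open Cfsg

namespace Cfsg.Agent.S3815

open scoped commutatorElement Pointwise

/-- Let G be a finite group, p a prime and d ∈ G an element of order prime to p. If dg has order prime to p for every element g ∈ G of order prime to p, then d ∈ O_{p'}(G). -/
theorem result {G : Type*} [Group G] [Finite G] {p : ℕ} [Fact p.Prime]
    (d : G) (hd : (orderOf d).Coprime p)
    (h : ∀ g : G, (orderOf g).Coprime p → (orderOf (d * g)).Coprime p) :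
    d ∈ Cfsg.pPrimeCore p G := by
  classical
  have hp : p.Prime := Fact.out
  let D : Subgroup G := 
    { carrier := {d | ∀ g : G, (orderOf g).Coprime p → (orderOf (d * g)).Coprime p}
      mul_mem' := by
        intro a b ha hb g hg
        rw [mul_assoc]
        exact ha _ (hb g hg)
      one_mem' := by intro g hg; rwa [one_mul]
      inv_mem' := by
        intro a ha g hg
        have h1 : ∀ n : ℕ, ∀ g : G, (orderOf g).Coprime p → (orderOf (a ^ n * g)).Coprime p := by
          intro n
          induction n with
          | zero => intro g hg; simpa using hg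
          | succ n ih =>
            intro g hg
            rw [pow_succ', mul_assoc]
            exact ha _ (ih g hg)
        have h2 : a⁻¹ = a ^ (orderOf a - 1) := by
          rw [inv_eq_iff_mul_eq_one, ← pow_succ', Nat.sub_add_cancel (orderOf_pos a), pow_orderOf_eq_one]
        rw [h2]
        exact h1 _ g hg }
  have hD : ∀ x, x ∈ D ↔ ∀ g : G, (orderOf g).Coprime p → (orderOf (x * g)).Coprime p := fun _ => Iff.rfl
  have hord : ∀ (x g : G), orderOf (g * x * g⁻¹) = orderOf x := by
    intro x g
    have := orderOf_injective (MulAut.conj g).toMonoidHom (MulAut.conj g).injective x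
    exact this
  have hDn : D.Normal := by
    constructor
    intro x hx g
    rw [hD] at hx ⊢
    intro y hy
    have h1 : g * x * g⁻¹ * y = g * (x * (g⁻¹ * y * g)) * g⁻¹ := by group
    rw [h1, hord]
    apply hx
    have h2 := hord y g⁻¹
    rw [inv_inv] at h2
    rw [h2]; exact hy
  have hDc : (Nat.card D).Coprime p := by
    rw [Nat.coprime_comm, Nat.Prime.coprime_iff_not_dvd hp]
    intro hdvd
    obtain ⟨x, hx⟩ := exists_prime_orderOf_dvd_card' (G := D) p hdvd
    have h1 := (hD _).1 x.2 1 (by simp)
    rw [mul_one, Subgroup.orderOf_coe, hx, Nat.coprime_self] at h1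
    exact hp.one_lt.ne' h1
  exact CfsgH2.le_pPrimeCore hDn hDc ((hD d).2 h)

end Cfsg.Agent.S3815
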