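import Cfsg.Statements.S3820
import Cfsg.Agent.H1.Basic

set_option autoImplicit false
open Cfsg

namespace Cfsg.Agent.S3820

open scoped commutatorElement Pointwise

/-- Call a subgroup H of G pronormal if H and gHg⁻¹ are conjugate inside ⟨H, gHg⁻¹⟩ for every g ∈ G. Let S ≤ H ≤ G be subgroups of a finite group with S pronormal in G (for instance S a Sylow subgroup). Then H is pronormal in G if and only if H and gHg⁻¹ are conjugate inside ⟨H, gHg⁻¹⟩ for every g ∈ N_G(S). In particular H is pronormal whenever N_G(S) ≤ H. -/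
theorem result {G : Type*} [Group G] [Finite G] (S H : Subgroup G) (hSH : S ≤ H)
    (hS : Cfsg.IsPronormal S) :
    Cfsg.IsPronormal H ↔
      ∀ g ∈ Subgroup.normalizer (S : Set G), ∃ w ∈ H ⊔ H.map (MulAut.conj g).toMonoidHom,
        H.map (MulAut.conj g).toMonoidHom = H.map (MulAut.conj w).toMonoidHom := by
  have hmem : ∀ (K : Subgroup G) (g y : G), y ∈ K.map (MulAut.conj g).toMonoidHom ↔ g⁻¹ * y * g ∈ K := by
    intro K g y
    constructor
    · rintro ⟨k, hk, rfl⟩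
      have : g⁻¹ * (MulAut.conj g).toMonoidHom k * g = k := by
        change g⁻¹ * (g * k * g⁻¹) * g = k
        group
      rw [this]; exact hk
    · intro h
      refine ⟨_, h, ?_⟩
      change g * (g⁻¹ * y * g) * g⁻¹ = y
      group
  constructor
  · intro h g _
    exact h g
  · intro h g
    obtain ⟨x, hx, hxg⟩ := hS g
    have hle : S ⊔ S.map (MulAut.conj g).toMonoidHom ≤ H ⊔ H.map (MulAut.conj g).toMonoidHom := 
      sup_le_sup hSH (Subgroup.map_mono hSH)
    have hx' := hle hx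
    have hn : x⁻¹ * g ∈ Subgroup.normalizer (S : Set G) := by
      rw [Subgroup.mem_normalizer_iff]
      intro s
      have h1 := hmem S g (x * s * x⁻¹)
      rw [hxg, hmem] at h1
      have e1 : x⁻¹ * (x * s * x⁻¹) * x = s := by group
      rw [e1] at h1
      -- s ∈ S ↔ g⁻¹ x s x⁻¹ g ∈ S
      have h2 := hmem S g (x * (x⁻¹ * g * s * (x⁻¹ * g)⁻¹) * x⁻¹)
      rw [hxg, hmem] at h2
      have e2 : x⁻¹ * (x * (x⁻¹ * g * s * (x⁻¹ * g)⁻¹) * x⁻¹) * x = x⁻¹ * g * s * (x⁻¹ * g)⁻¹ := by group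
      have e3 : g⁻¹ * (x * (x⁻¹ * g * s * (x⁻¹ * g)⁻¹) * x⁻¹) * g = s := by group
      rw [e2, e3] at h2
      exact h2.symm
    obtain ⟨w, hw, hwg⟩ := h _ hn
    refine ⟨x * w, ?_, ?_⟩
    · have h3 : x * w * x⁻¹ ∈ H ⊔ H.map (MulAut.conj g).toMonoidHom := by
        have h4 : (H ⊔ H.map (MulAut.conj (x⁻¹ * g)).toMonoidHom).map (MulAut.conj x).toMonoidHom ≤ H ⊔ H.map (MulAut.conj g).toMonoidHom := by
          rw [Subgroup.map_sup]
          apply sup_le
          · rintro _ ⟨y, hy, rfl⟩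
            exact (H ⊔ H.map (MulAut.conj g).toMonoidHom).mul_mem ((H ⊔ H.map (MulAut.conj g).toMonoidHom).mul_mem hx' ((le_sup_left : H ≤ _) hy)) ((H ⊔ H.map (MulAut.conj g).toMonoidHom).inv_mem hx')
          · rintro _ ⟨_, ⟨y, hy, rfl⟩, rfl⟩
            apply (le_sup_right : H.map (MulAut.conj g).toMonoidHom ≤ _)
            refine ⟨y, hy, ?_⟩
            change g * y * g⁻¹ = x * (x⁻¹ * g * y * (x⁻¹ * g)⁻¹) * x⁻¹
            group
        exact h4 ⟨w, hw, rfl⟩
      have h5 := (H ⊔ H.map (MulAut.conj g).toMonoidHom).mul_mem h3 hx'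
      rwa [inv_mul_cancel_right] at h5
    · ext y
      have h6 : ∀ z, z ∈ H.map (MulAut.conj (x⁻¹ * g)).toMonoidHom ↔ z ∈ H.map (MulAut.conj w).toMonoidHom := fun z => by rw [hwg]
      have h7 := h6 (x⁻¹ * y * x)
      rw [hmem, hmem] at h7
      rw [hmem, hmem]
      have e1 : (x⁻¹ * g)⁻¹ * (x⁻¹ * y * x) * (x⁻¹ * g) = g⁻¹ * y * g := by group
      have e2 : w⁻¹ * (x⁻¹ * y * x) * w = (x * w)⁻¹ * y * (x * w) := by group
      rwa [e1, e2] at h7

end Cfsg.Agent.S3820
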