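import Cfsg.Statements.S3821
import Cfsg.Agent.H1.Basic

set_option autoImplicit false
open Cfsg

namespace Cfsg.Agent.S3821

open scoped commutatorElement Pointwise

/-- Let A be a normal subgroup of the finite group G and H a subgroup of A. Then H is pronormal in G (H and gHg⁻¹ conjugate inside ⟨H, gHg⁻¹⟩ for every g ∈ G) if and only if H is pronormal in A and G = A · N_G(H). -/
theorem result {G : Type*} [Group G] [Finite G] (A H : Subgroup G) [A.Normal] (hHA : H ≤ A) :
    Cfsg.IsPronormal H ↔ (Cfsg.IsPronormal (H.subgroupOf A) ∧ A ⊔ Subgroup.normalizer (H : Set G) = ⊤) := by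
  have hmem : ∀ (K : Subgroup G) (g y : G), y ∈ K.map (MulAut.conj g).toMonoidHom ↔ g⁻¹ * y * g ∈ K := by
    intro K g y
    constructor
    · rintro ⟨k, hk, rfl⟩
      have : g⁻¹ * (MulAut.conj g).toMonoidHom k * g = k := by
        change g⁻¹ * (g * k * g⁻¹) * g = k
        group
      rw [this]; exact hk
    · intro h
      refine ⟨_, h, ?_⟩
      change g * (g⁻¹ * y * g) * g⁻¹ = y
      group
  have hmemA : ∀ (K : Subgroup A) (g y : A), y ∈ K.map (MulAut.conj g).toMonoidHom ↔ g⁻¹ * y * g ∈ K := by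
    intro K g y
    constructor
    · rintro ⟨k, hk, rfl⟩
      have : g⁻¹ * (MulAut.conj g).toMonoidHom k * g = k := by
        change g⁻¹ * (g * k * g⁻¹) * g = k
        group
      rw [this]; exact hk
    · intro h
      refine ⟨_, h, ?_⟩
      change g * (g⁻¹ * y * g) * g⁻¹ = y
      group
  have hAn : A.Normal := inferInstance
  have hconjA : ∀ g : G, H.map (MulAut.conj g).toMonoidHom ≤ A := by
    rintro g _ ⟨h, hh, rfl⟩
    exact hAn.conj_mem h (hHA hh) g
  have hsubm : ∀ a : A, (H.subgroupOf A ⊔ (H.subgroupOf A).map (MulAut.conj a).toMonoidHom).map A.subtype = H ⊔ H.map (MulAut.conj (a : G)).toMonoidHom := by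
    intro a
    rw [Subgroup.map_sup, Subgroup.map_subgroupOf_eq_of_le hHA]
    congr 1
    ext y
    constructor
    · rintro ⟨_, ⟨z, hz, rfl⟩, rfl⟩
      exact ⟨z, hz, rfl⟩
    · rintro ⟨z, hz, rfl⟩
      exact ⟨MulAut.conj a ⟨z, hHA hz⟩, ⟨⟨z, hHA hz⟩, hz, rfl⟩, rfl⟩
  have hiff : ∀ a b : A, (H.subgroupOf A).map (MulAut.conj a).toMonoidHom = (H.subgroupOf A).map (MulAut.conj b).toMonoidHom ↔ 
      H.map (MulAut.conj (a : G)).toMonoidHom = H.map (MulAut.conj (b : G)).toMonoidHom := by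
    intro a b
    constructor
    · intro h
      ext y
      by_cases hy : y ∈ A
      · have h1 : (⟨y, hy⟩ : A) ∈ (H.subgroupOf A).map (MulAut.conj a).toMonoidHom ↔ (⟨y, hy⟩ : A) ∈ (H.subgroupOf A).map (MulAut.conj b).toMonoidHom := by rw [h]
        rw [hmemA, hmemA, Subgroup.mem_subgroupOf, Subgroup.mem_subgroupOf] at h1
        rw [hmem, hmem]
        exact h1
      · exact ⟨fun h1 => absurd (hconjA _ h1) hy, fun h1 => absurd (hconjA _ h1) hy⟩
    · intro h
      ext y
      have h1 : (y : G) ∈ H.map (MulAut.conj (a : G)).toMonoidHom ↔ (y : G) ∈ H.map (MulAut.conj (b : G)).toMonoidHom := by rw [h]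
      rw [hmem, hmem] at h1
      rw [hmemA, hmemA, Subgroup.mem_subgroupOf, Subgroup.mem_subgroupOf]
      exact h1
  constructor
  · intro h
    constructor
    · intro a
      obtain ⟨x, hx, hxa⟩ := h (a : G)
      rw [← hsubm] at hx
      obtain ⟨y, hy, hyx⟩ := hx
      refine ⟨y, hy, ?_⟩
      rw [hiff, hxa, ← hyx]
      rfl
    · rw [eq_top_iff]
      intro g _
      obtain ⟨x, hx, hxg⟩ := h g
      have hxA : x ∈ A := (sup_le hHA (hconjA g)) hx
      have hn : x⁻¹ * g ∈ Subgroup.normalizer (H : Set G) := by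
        rw [Subgroup.mem_normalizer_iff]
        intro s
        have h2 := hmem H g (x * (x⁻¹ * g * s * (x⁻¹ * g)⁻¹) * x⁻¹)
        rw [hxg, hmem] at h2
        have e2 : x⁻¹ * (x * (x⁻¹ * g * s * (x⁻¹ * g)⁻¹) * x⁻¹) * x = x⁻¹ * g * s * (x⁻¹ * g)⁻¹ := by group
        have e3 : g⁻¹ * (x * (x⁻¹ * g * s * (x⁻¹ * g)⁻¹) * x⁻¹) * g = s := by group
        rw [e2, e3] at h2
        exact h2.symm
      have h3 := (A ⊔ Subgroup.normalizer (H : Set G)).mul_mem ((le_sup_left : A ≤ _) hxA) ((le_sup_right : Subgroup.normalizer (H : Set G) ≤ _) hn)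
      rwa [mul_inv_cancel_left] at h3
  · rintro ⟨h, htop⟩ g
    have hg : g ∈ A ⊔ Subgroup.normalizer (H : Set G) := by rw [htop]; exact Subgroup.mem_top g
    obtain ⟨a, ha, n, hn, rfl⟩ := (Subgroup.mem_sup_of_normal_left).1 hg
    have h1 : H.map (MulAut.conj (a * n)).toMonoidHom = H.map (MulAut.conj a).toMonoidHom := by
      ext y
      rw [hmem, hmem]
      have h2 := (Subgroup.mem_normalizer_iff.1 hn) ((a * n)⁻¹ * y * (a * n))
      rw [h2]
      have e : n * ((a * n)⁻¹ * y * (a * n)) * n⁻¹ = a⁻¹ * y * a := by group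
      rw [e]
    rw [h1]
    obtain ⟨x, hx, hxa⟩ := h ⟨a, ha⟩
    refine ⟨x, ?_, ?_⟩
    · have := hsubm ⟨a, ha⟩
      rw [← this]
      exact ⟨x, hx, rfl⟩
    · exact (hiff ⟨a, ha⟩ x).1 hxa

end Cfsg.Agent.S3821
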