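import Cfsg.Statements.S3825
import Mathlib.GroupTheory.FixedPointFree
import Cfsg.Agent.H1.Basic

set_option autoImplicit false
open Cfsg

namespace Cfsg.Agent.S3825

open scoped commutatorElement Pointwise

theorem main {H : Type*} [Group H] [Finite H] (U : Subgroup H) (w : H) (hw : orderOf w = 2)
    (hwU : w ∈ Subgroup.normalizer (U : Set H)) (y : H) (hy : y ≠ 1) (hyU : y ∈ U)
    (hfix : ∀ u ∈ U, w * u * w⁻¹ = u ↔ (u = 1 ∨ u = y))
    (V : Subgroup H) (hVU : V ≤ U) (hVn : (V.subgroupOf U).Normal) (hVw : ∀ v ∈ V, w * v * w⁻¹ ∈ V)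
    (hVe : Cfsg.IsElementaryAbelian 2 V) (hVc : ¬ IsCyclic ↥V) (hyV : y ∈ V) :
    ¬ 2 ∣ V.relIndex U ∧ Nat.card ↥V = 4 ∧ ⁅U, U⁆ ≤ V := by
  classical
  have hw2 : w * w = 1 := by
    have := pow_orderOf_eq_one w
    rw [hw, sq] at this; exact this
  have hwi : w⁻¹ = w := inv_eq_of_mul_eq_one_left hw2
  have hww : ∀ u : H, w * (w * u * w⁻¹) * w⁻¹ = u := by
    intro u
    rw [hwi]
    calc w * (w * u * w) * w = (w * w) * u * (w * w) := by group
      _ = u := by rw [hw2]; group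
  have hVab : ∀ a ∈ V, ∀ b ∈ V, a * b = b * a := fun a ha b hb => 
    congrArg (fun z : V => (z : H)) (hVe.1.is_comm.comm ⟨a, ha⟩ ⟨b, hb⟩)
  have hV2 : ∀ a ∈ V, a * a = 1 := fun a ha => by rw [← sq]; exact hVe.2 a ha
  have hVi : ∀ a ∈ V, a⁻¹ = a := fun a ha => inv_eq_of_mul_eq_one_left (hV2 a ha)
  -- v * v^w is 1 or y
  have hvv : ∀ v ∈ V, v * (w * v * w⁻¹) = 1 ∨ v * (w * v * w⁻¹) = y := by
    intro v hv
    have h1 : v * (w * v * w⁻¹) ∈ V := V.mul_mem hv (hVw v hv)
    apply (hfix _ (hVU h1)).1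
    have h2 : w * (v * (w * v * w⁻¹)) * w⁻¹ = (w * v * w⁻¹) * (w * (w * v * w⁻¹) * w⁻¹) := by group
    rw [h2, hww, hVab _ (hVw v hv) v hv]
  have hv1 : ∀ v ∈ V, v * (w * v * w⁻¹) = 1 → v = 1 ∨ v = y := by
    intro v hv h
    apply (hfix _ (hVU hv)).1
    rw [mul_eq_one_iff_inv_eq, hVi v hv] at h
    exact h.symm
  have hwy : w * y * w⁻¹ = y := (hfix y hyU).2 (Or.inr rfl)
  -- there is an element of V outside {1, y}
  obtain ⟨v₀, hv₀, hv₀1, hv₀y⟩ : ∃ v ∈ V, v ≠ 1 ∧ v ≠ y := by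
    by_contra hcon
    push Not at hcon
    apply hVc
    have hle : V ≤ Subgroup.zpowers y := by
      intro v hv
      by_cases h1 : v = 1
      · rw [h1]; exact Subgroup.one_mem _
      · rw [hcon v hv h1]; exact Subgroup.mem_zpowers y
    exact isCyclic_of_injective (Subgroup.inclusion hle) (Subgroup.inclusion_injective hle)
  have hv₀w : v₀ * (w * v₀ * w⁻¹) = y := by
    rcases hvv v₀ hv₀ with h | h
    · rcases hv1 v₀ hv₀ h with h2 | h2
      · exact absurd h2 hv₀1
      · exact absurd h2 hv₀y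
    · exact h
  -- all elements of V
  have hall : ∀ v ∈ V, v = 1 ∨ v = y ∨ v = v₀ ∨ v = v₀ * y := by
    intro v hv
    rcases hvv v hv with h | h
    · rcases hv1 v hv h with h2 | h2
      · exact Or.inl h2
      · exact Or.inr (Or.inl h2)
    · have h3 : v₀ * v ∈ V := V.mul_mem hv₀ hv
      have h4 : (v₀ * v) * (w * (v₀ * v) * w⁻¹) = 1 := by
        calc (v₀ * v) * (w * (v₀ * v) * w⁻¹) = v₀ * (v * (w * v₀ * w⁻¹)) * (w * v * w⁻¹) := by group
          _ = v₀ * ((w * v₀ * w⁻¹) * v) * (w * v * w⁻¹) := by rw [hVab v hv _ (hVw _ hv₀)]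
          _ = (v₀ * (w * v₀ * w⁻¹)) * (v * (w * v * w⁻¹)) := by group
          _ = 1 := by rw [h, hv₀w]; exact hV2 y hyV
      rcases hv1 _ h3 h4 with h5 | h5
      · right; right; left
        rw [mul_eq_one_iff_inv_eq, hVi _ hv₀] at h5
        exact h5.symm
      · right; right; right
        rw [← h5, ← mul_assoc, hV2 _ hv₀, one_mul]
  have hcard : Nat.card V = 4 := by
    let f : Fin 4 → V := ![1, ⟨y, hyV⟩, ⟨v₀, hv₀⟩, ⟨v₀ * y, V.mul_mem hv₀ hyV⟩]
    have hne1 : v₀ * y ≠ 1 := by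
      intro h
      rw [mul_eq_one_iff_inv_eq, hVi _ hv₀] at h
      exact hv₀y h
    have hne2 : v₀ * y ≠ y := by
      intro h
      exact hv₀1 (mul_eq_right.1 h)
    have hne3 : v₀ * y ≠ v₀ := by
      intro h
      exact hy (mul_eq_left.1 h)
    have hf : Function.Bijective f := by
      constructor
      · intro i j hij
        have hij' : ((f i : V) : H) = f j := by rw [hij]
        fin_cases i <;> fin_cases j <;> simp [f] at hij' <;> first | rfl | (exfalso; first | exact hy hij' | exact hy hij'.symm | exact hv₀1 hij' | exact hv₀1 hij'.symm | exact hv₀y hij' | exact hv₀y hij'.symm | exact hne1 hij' | exact hne1 hij'.symm | exact hne2 hij' | exact hne2 hij'.symm | exact hne3 hij' | exact hne3 hij'.symm | (first | exact hy hij'.1 | exact hv₀1 hij'))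
      · rintro ⟨v, hv⟩
        rcases hall v hv with h | h | h | h
        · exact ⟨0, Subtype.ext h.symm⟩
        · exact ⟨1, Subtype.ext h.symm⟩
        · exact ⟨2, Subtype.ext h.symm⟩
        · exact ⟨3, Subtype.ext h.symm⟩
    have := Nat.card_eq_of_bijective f hf
    rw [← this]; simp
  -- the quotient
  set V' : Subgroup U := V.subgroupOf U with hV'
  haveI := hVn
  have hUw : ∀ u ∈ U, w * u * w⁻¹ ∈ U := fun u hu => (Subgroup.mem_normalizer_iff.1 hwU u).1 hu
  let α : U →* U := 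
    { toFun := fun u => ⟨w * u * w⁻¹, hUw u u.2⟩
      map_one' := Subtype.ext (by simp)
      map_mul' := fun a b => Subtype.ext (by simp) }
  have hα : ∀ u : U, ((α u : U) : H) = w * u * w⁻¹ := fun _ => rfl
  have hαV : V' ≤ V'.comap α := by
    intro u hu
    rw [Subgroup.mem_comap, Subgroup.mem_subgroupOf, hα]
    exact hVw _ (Subgroup.mem_subgroupOf.1 hu)
  let β : U ⧸ V' →* U ⧸ V' := QuotientGroup.map V' V' α hαV
  have hβ : ∀ u : U, β (u : U ⧸ V') = ((α u : U) : U ⧸ V') := fun _ => rfl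
  have hinv : Function.Involutive β := by
    intro z
    obtain ⟨u, rfl⟩ := QuotientGroup.mk_surjective z
    rw [hβ, hβ]
    congr 1
    exact Subtype.ext (hww u)
  have hfpf : MonoidHom.FixedPointFree β := by
    intro z hz
    obtain ⟨u, rfl⟩ := QuotientGroup.mk_surjective z
    rw [hβ, QuotientGroup.eq, Subgroup.mem_subgroupOf] at hz
    have hz' : (w * (u : H) * w⁻¹)⁻¹ * u ∈ V := hz
    set v := (w * (u : H) * w⁻¹)⁻¹ * u with hv
    have hvu : w * (u : H) * w⁻¹ = u * v := by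
      rw [hv]
      have : v * v = 1 := hV2 v hz'
      have h1 : (u : H) = (w * (u : H) * w⁻¹) * v := by rw [hv]; group
      calc w * (u : H) * w⁻¹ = (w * (u : H) * w⁻¹) * (v * v) := by rw [this, mul_one]
        _ = ((w * (u : H) * w⁻¹) * v) * v := by group
        _ = u * v := by rw [← h1]
    -- v is fixed by w
    have hvfix : v = 1 ∨ v = y := by
      apply (hfix v (hVU hz')).1
      have h1 := hww (u : H)
      rw [hvu] at h1
      have h2 : w * ((u : H) * v) * w⁻¹ = (w * (u : H) * w⁻¹) * (w * v * w⁻¹) := by group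
      rw [h2, hvu] at h1
      have h3 : v * (w * v * w⁻¹) = 1 := by
        have : (u : H) * (v * (w * v * w⁻¹)) = u * 1 := by rw [mul_one, ← mul_assoc]; exact h1
        exact mul_left_cancel this
      rw [mul_eq_one_iff_inv_eq, hVi v hz'] at h3
      exact h3.symm
    rw [QuotientGroup.eq_one_iff, Subgroup.mem_subgroupOf]
    rcases hvfix with h | h
    · rw [h, mul_one] at hvu
      rcases (hfix u u.2).1 hvu with h2 | h2
      · rw [h2]; exact V.one_mem
      · rw [h2]; exact hyV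
    · rw [h] at hvu
      -- u * v₀ fixed
      have h4 : w * ((u : H) * v₀) * w⁻¹ = u * v₀ := by
        have h5 : w * ((u : H) * v₀) * w⁻¹ = (w * u * w⁻¹) * (w * v₀ * w⁻¹) := by group
        rw [h5, hvu]
        have h6 : y * (w * v₀ * w⁻¹) = v₀ := by
          rw [← hv₀w]
          calc v₀ * (w * v₀ * w⁻¹) * (w * v₀ * w⁻¹) = v₀ * ((w * v₀ * w⁻¹) * (w * v₀ * w⁻¹)) := by group
            _ = v₀ := by rw [hV2 _ (hVw _ hv₀), mul_one]
        rw [mul_assoc, h6]
      have h7 : (u : H) * v₀ ∈ V := by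
        rcases (hfix _ (U.mul_mem u.2 (hVU hv₀))).1 h4 with h2 | h2
        · rw [h2]; exact V.one_mem
        · rw [h2]; exact hyV
      exact (V.mul_mem_cancel_right hv₀).1 h7
  have hodd : Odd (Nat.card (U ⧸ V')) := by
    exact hfpf.odd_card_of_involutive hinv
  refine ⟨?_, hcard, ?_⟩
  · intro h
    have h1 : V.relIndex U = Nat.card (U ⧸ V') := rfl
    rw [h1] at h
    exact (Nat.not_even_iff_odd.2 hodd) (even_iff_two_dvd.2 h)
  · rw [Subgroup.commutator_le]
    intro a ha b hb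
    have h1 := hfpf.commute_all_of_involutive hinv (((⟨a, ha⟩ : U) : U ⧸ V')) (((⟨b, hb⟩ : U) : U ⧸ V'))
    have h2 : ((⁅(⟨a, ha⟩ : U), (⟨b, hb⟩ : U)⁆ : U) : U ⧸ V') = 1 := by
      have h3 := (commutatorElement_eq_one_iff_mul_comm).2 h1
      rw [← h3]; rfl
    rw [QuotientGroup.eq_one_iff, Subgroup.mem_subgroupOf] at h2
    exact h2

/-- Let U be a subgroup of a finite group H and w an involution of H normalizing U and commuting with exactly two elements of U, the identity and y. If V is a non-cyclic elementary abelian 2-subgroup of U containing y which is normal in U and invariant under w, then V is a Sylow 2-subgroup of U, V has order 4, and U/V is abelian. -/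
theorem result {H : Type*} [Group H] [Finite H] (U : Subgroup H) (w : H) (hw : orderOf w = 2)
    (hwU : w ∈ Subgroup.normalizer (U : Set H)) (y : H) (hy : y ≠ 1) (hyU : y ∈ U)
    (hfix : ∀ u ∈ U, w * u * w⁻¹ = u ↔ (u = 1 ∨ u = y))
    (V : Subgroup H) (hVU : V ≤ U) (hVn : (V.subgroupOf U).Normal) (hVw : ∀ v ∈ V, w * v * w⁻¹ ∈ V)
    (hVe : Cfsg.IsElementaryAbelian 2 V) (hVc : ¬ IsCyclic ↥V) (hyV : y ∈ V) :
    ¬ 2 ∣ V.relIndex U ∧ Nat.card ↥V = 4 ∧ ⁅U, U⁆ ≤ V := by

  exact main U w hw hwU y hy hyU hfix V hVU hVn hVw hVe hVc hyV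

end Cfsg.Agent.S3825
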