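import Cfsg.Statements.S3836
import Cfsg.Agent.H1.Basic
import Cfsg.Agent.H2.Cores

set_option autoImplicit false
open Cfsg

namespace Cfsg.Agent.S3836

open scoped commutatorElement Pointwise

/-- Let G be a finite group that is p-stable in the normalizer form: for every p-subgroup Q and every x ∈ N_G(Q) with [Q, x, x] = 1, the image of x in N_G(Q)/C_G(Q) lies in O_p(N_G(Q)/C_G(Q)). Then every subgroup of G is p-stable in the same sense. -/
theorem result {G : Type*} [Group G] [Finite G] {p : ℕ} [Fact p.Prime] (hst : Cfsg.IsNormalizerPStable p G) (H : Subgroup G) : Cfsg.IsNormalizerPStable p ↥H := by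
  classical
  intro P hP g hg hquad
  set P' : Subgroup G := P.map H.subtype with hP'
  have hP'p : IsPGroup p P' := hP.map _
  have hmemP : ∀ y : H, y ∈ P ↔ (y : G) ∈ P' := by
    intro y
    constructor
    · intro h; exact ⟨y, h, rfl⟩
    · rintro ⟨z, hz, hzy⟩
      have : z = y := Subtype.ext hzy
      rw [← this]; exact hz
  have hN : ∀ y : H, y ∈ Subgroup.normalizer (P : Set H) → (y : G) ∈ Subgroup.normalizer (P' : Set G) := by
    intro y hy
    rw [Subgroup.mem_normalizer_iff]
    intro z
    constructor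
    · rintro ⟨a, ha, rfl⟩
      exact ⟨y * a * y⁻¹, (Subgroup.mem_normalizer_iff.1 hy a).1 ha, rfl⟩
    · rintro ⟨a, ha, haz⟩
      have hz : z = ((y⁻¹ * a * y : H) : G) := by
        change (a : G) = y * z * (y : G)⁻¹ at haz
        push_cast
        rw [haz]; group
      rw [hz, ← hmemP]
      have h2 := (Subgroup.mem_normalizer_iff.1 hy (y⁻¹ * a * y))
      rw [h2]
      have e : y * (y⁻¹ * a * y) * y⁻¹ = a := by group
      rw [e]; exact ha
  have hquad' : ⁅⁅P', Subgroup.zpowers (g : G)⁆, Subgroup.zpowers (g : G)⁆ = ⊥ := by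
    have h1 : (Subgroup.zpowers g).map H.subtype = Subgroup.zpowers (g : G) := by
      rw [MonoidHom.map_zpowers]; rfl
    rw [← h1, hP', ← Subgroup.map_commutator, ← Subgroup.map_commutator, hquad, Subgroup.map_bot]
  have key := hst P' hP'p (g : G) (hN g hg) hquad'
  -- the homomorphism
  let ι : ↥(Subgroup.normalizer (P : Set H)) →* ↥(Subgroup.normalizer (P' : Set G)) := 
    { toFun := fun y => ⟨((y : H) : G), hN y y.2⟩
      map_one' := rfl
      map_mul' := fun _ _ => rfl }
  let f := (QuotientGroup.mk' ((Subgroup.centralizer (P' : Set G)).subgroupOf (Subgroup.normalizer (P' : Set G)))).comp ι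
  have hker : ∀ y, f y = 1 → y ∈ (Subgroup.centralizer (P : Set H)).subgroupOf (Subgroup.normalizer (P : Set H)) := by
    intro y hy
    have h1 : ι y ∈ (Subgroup.centralizer (P' : Set G)).subgroupOf (Subgroup.normalizer (P' : Set G)) := by
      exact (QuotientGroup.eq_one_iff (ι y)).1 hy
    rw [Subgroup.mem_subgroupOf] at h1 ⊢
    rw [Subgroup.mem_centralizer_iff] at h1 ⊢
    intro z hz
    exact Subtype.ext (h1 z ((hmemP z).1 hz))
  set O := (pCore p (↥(Subgroup.normalizer (P' : Set G)) ⧸ (Subgroup.centralizer (P' : Set G)).subgroupOf (Subgroup.normalizer (P' : Set G)))).comap f with hO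
  have hgO : (⟨g, hg⟩ : ↥(Subgroup.normalizer (P : Set H))) ∈ O := key
  have hOn : O.Normal := inferInstance
  have h2 : O.map (QuotientGroup.mk' ((Subgroup.centralizer (P : Set H)).subgroupOf (Subgroup.normalizer (P : Set H)))) ≤ 
      pCore p (↥(Subgroup.normalizer (P : Set H)) ⧸ (Subgroup.centralizer (P : Set H)).subgroupOf (Subgroup.normalizer (P : Set H))) := by
    apply CfsgH2.le_pCore
    · exact hOn.map _ (QuotientGroup.mk'_surjective _)
    · rintro ⟨_, y, hy, rfl⟩
      obtain ⟨k, hk⟩ := CfsgH2.isPGroup_pCore p ⟨f y, hy⟩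
      refine ⟨k, Subtype.ext ?_⟩
      have h3 : f (y ^ p ^ k) = 1 := by
        rw [map_pow]
        exact congrArg Subtype.val hk
      have h4 := hker _ h3
      change (QuotientGroup.mk' _ y) ^ p ^ k = 1
      rw [← map_pow]
      exact (QuotientGroup.eq_one_iff _).2 h4
  exact h2 ⟨_, hgO, rfl⟩

end Cfsg.Agent.S3836
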