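import Cfsg.Statements.S3838
import Cfsg.Agent.H1.NPCQuot

set_option autoImplicit false
open Cfsg

namespace Cfsg.Agent.S3838

open scoped commutatorElement Pointwise

/-- Let G be a finite group with Sylow p-subgroup P such that N_G(P) has a normal p-complement. Then N_G(Q) has a normal p-complement for every subgroup Q with [P, P] ≤ Q ≤ Φ(P). -/
theorem result {G : Type*} [Group G] [Finite G] {p : ℕ} [Fact p.Prime] (P : Sylow p G) (hN : Cfsg.HasNormalPComplement p ↥(Subgroup.normalizer ((P : Subgroup G) : Set G))) (Q : Subgroup G) (h1 : (commutator ↥(P : Subgroup G)).map (P : Subgroup G).subtype ≤ Q) (h2 : Q ≤ (frattini ↥(P : Subgroup G)).map (P : Subgroup G).subtype) : Cfsg.HasNormalPComplement p ↥(Subgroup.normalizer (Q : Set G)) := by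
  refine CfsgH1.npc_normalizer P hN Q ?_ (h2.trans (Subgroup.map_subtype_le _)) ?_
  · rwa [Subgroup.map_subtype_commutator] at h1
  · intro X hXP hXQ
    have hQP : Q ≤ P := h2.trans (Subgroup.map_subtype_le _)
    have h3 : X.subgroupOf (P : Subgroup G) ⊔ Q.subgroupOf (P : Subgroup G) = ⊤ := by
      apply Subgroup.map_injective (Subgroup.subtype_injective (P : Subgroup G))
      rw [Subgroup.map_sup, Subgroup.map_subgroupOf_eq_of_le hXP, Subgroup.map_subgroupOf_eq_of_le hQP, hXQ, ← MonoidHom.range_eq_map, Subgroup.range_subtype]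
    have h4 : Q.subgroupOf (P : Subgroup G) ≤ frattini (P : Subgroup G) := by
      intro x hx
      obtain ⟨y, hy, e⟩ := h2 (Subgroup.mem_subgroupOf.1 hx)
      have : y = x := Subtype.ext e
      rw [← this]; exact hy
    have h5 := CfsgH1.eq_top_of_sup_frattini h4 h3
    exact le_antisymm hXP (Subgroup.subgroupOf_eq_top.1 h5)

end Cfsg.Agent.S3838
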