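import Cfsg.Statements.S3858
import Cfsg.Agent.H1.AlmSimp
import Cfsg.Agent.H1.Engel

set_option autoImplicit false
open Cfsg

namespace Cfsg.Agent.S3858

open scoped commutatorElement Pointwise

/-- Let G be a finite group with a normal non-abelian simple subgroup T whose centralizer is trivial (G almost simple with socle T), r a prime and R a Sylow r-subgroup of G meeting T nontrivially. Then R lies in exactly one maximal subgroup of G if and only if G has exactly one conjugacy class of maximal subgroups whose index is prime to r. -/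
theorem result {G : Type*} [Group G] [Finite G] (T : Subgroup G) [T.Normal] (hT : IsSimpleGroup T) (hna : ¬ IsMulCommutative T)
    (hC : Subgroup.centralizer (T : Set G) = ⊥) {r : ℕ} [Fact r.Prime] (R : Sylow r G) (hR0 : (R : Subgroup G) ⊓ T ≠ ⊥) :
    (∃! M : Subgroup G, IsCoatom M ∧ (R : Subgroup G) ≤ M) ↔
      ((∃ M : Subgroup G, IsCoatom M ∧ ¬ r ∣ M.index) ∧
        ∀ M₁ M₂ : Subgroup G, IsCoatom M₁ → ¬ r ∣ M₁.index → IsCoatom M₂ → ¬ r ∣ M₂.index → ∃ g : G, M₂ = M₁.map (MulAut.conj g).toMonoidHom) := by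
  classical
  have hNne : Subgroup.normalizer ((R : Subgroup G) : Set G) ≠ ⊤ := by
    intro h
    have hn : (R : Subgroup G).Normal := Subgroup.normalizer_eq_top_iff.1 h
    apply CfsgH1.normalizer_inf_ne_top hT hna R hR0
    rw [Subgroup.normalizer_eq_top_iff]
    infer_instance
  -- index prime to r iff contains a conjugate of R
  have hidx : ∀ M : Subgroup G, ¬ r ∣ M.index → ∃ g : G, (R : Subgroup G) ≤ M.map (MulAut.conj g).toMonoidHom := by
    intro M hM
    obtain ⟨Q, hQ⟩ := CfsgH1.exists_isSylowOf r M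
    have h1 : CfsgH1.IsSylowOf r Q ⊤ := by
      rw [CfsgH1.isSylowOf_iff] at hQ ⊢
      refine ⟨le_top, hQ.2.1, fun hd => ?_⟩
      have h2 := Subgroup.relIndex_mul_relIndex Q M ⊤ hQ.1 le_top
      rw [← h2, Subgroup.relIndex_top_right] at hd
      rcases (Nat.Prime.dvd_mul Fact.out).1 hd with h | h
      · exact hQ.2.2 h
      · exact hM h
    obtain ⟨g, -, hg⟩ := CfsgH1.isSylowOf_conj_trans h1 (CfsgH1.sylow_isSylowOf R)
    refine ⟨g, ?_⟩
    rw [← hg]
    exact Subgroup.map_mono (CfsgH1.isSylowOf_le hQ)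
  have hidx2 : ∀ M : Subgroup G, (R : Subgroup G) ≤ M → ¬ r ∣ M.index := by
    intro M hM hd
    have h1 := (CfsgH1.isSylowOf_iff.1 (CfsgH1.sylow_isSylowOf R)).2.2
    apply h1
    rw [Subgroup.relIndex_top_right]
    exact hd.trans (Subgroup.index_dvd_of_le hM)
  have hcoatom : ∀ (M : Subgroup G) (g : G), IsCoatom M → IsCoatom (M.map (MulAut.conj g).toMonoidHom) := by
    intro M g hM
    exact CfsgH1.isCoatom_conj hM g
  constructor
  · rintro ⟨M, ⟨hM, hRM⟩, hu⟩
    refine ⟨⟨M, hM, hidx2 M hRM⟩, ?_⟩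
    have key : ∀ M₁ : Subgroup G, IsCoatom M₁ → ¬ r ∣ M₁.index → ∃ g : G, M = M₁.map (MulAut.conj g).toMonoidHom := by
      intro M₁ h1 h2
      obtain ⟨g, hg⟩ := hidx M₁ h2
      exact ⟨g, (hu _ ⟨hcoatom M₁ g h1, hg⟩).symm⟩
    intro M₁ M₂ h1 h1' h2 h2'
    obtain ⟨g₁, hg₁⟩ := key M₁ h1 h1'
    obtain ⟨g₂, hg₂⟩ := key M₂ h2 h2'
    refine ⟨g₂⁻¹ * g₁, ?_⟩
    have h3 : M₂ = (M₂.map (MulAut.conj g₂).toMonoidHom).map (MulAut.conj g₂⁻¹).toMonoidHom := by
      ext y
      constructor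
      · intro hy
        exact ⟨g₂ * y * g₂⁻¹, ⟨y, hy, rfl⟩, by change g₂⁻¹ * (g₂ * y * g₂⁻¹) * g₂⁻¹⁻¹ = y; group⟩
      · rintro ⟨_, ⟨z, hz, rfl⟩, rfl⟩
        have : (MulAut.conj g₂⁻¹).toMonoidHom ((MulAut.conj g₂).toMonoidHom z) = z := by
          change g₂⁻¹ * (g₂ * z * g₂⁻¹) * g₂⁻¹⁻¹ = z; group
        rw [this]; exact hz
    rw [h3, ← hg₂, hg₁, Subgroup.map_map]
    congr 1
    ext y
    change g₂⁻¹ * (g₁ * y * g₁⁻¹) * g₂⁻¹⁻¹ = (g₂⁻¹ * g₁) * y * (g₂⁻¹ * g₁)⁻¹
    group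
  · rintro ⟨-, hconj⟩
    obtain ⟨M, hM, hNM⟩ := (eq_top_or_exists_le_coatom (Subgroup.normalizer ((R : Subgroup G) : Set G))).resolve_left hNne
    have hRM : (R : Subgroup G) ≤ M := Subgroup.le_normalizer.trans hNM
    refine ⟨M, ⟨hM, hRM⟩, ?_⟩
    rintro M' ⟨hM', hRM'⟩
    obtain ⟨g, hg⟩ := hconj M M' hM (hidx2 M hRM) hM' (hidx2 M' hRM')
    -- R and R^g in M'
    have s1 : CfsgH1.IsSylowOf r (R : Subgroup G) M' := CfsgH1.isSylowOf_of_le (CfsgH1.sylow_isSylowOf R) hRM' le_top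
    have s2 : CfsgH1.IsSylowOf r (MulAut.conj g • (R : Subgroup G)) M' := by
      have h1 : CfsgH1.IsSylowOf r (MulAut.conj g • (R : Subgroup G)) ⊤ := CfsgH1.isSylowOf_conj (CfsgH1.sylow_isSylowOf R) (by
        rw [Subgroup.normalizer_eq_top_iff.2 (inferInstance : (⊤ : Subgroup G).Normal)]; exact Subgroup.mem_top g)
      apply CfsgH1.isSylowOf_of_le h1 _ le_top
      rw [hg]
      exact Subgroup.map_mono hRM
    obtain ⟨m, hm, hmR⟩ := CfsgH1.isSylowOf_conj_trans s2 s1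
    -- m g normalizes R
    have h2 : m * g ∈ Subgroup.normalizer ((R : Subgroup G) : Set G) := by
      rw [← CfsgH1.conj_smul_eq_self_iff, map_mul, mul_smul]
      exact hmR
    have h3 : m * g ∈ M := hNM h2
    -- M' = m M' m⁻¹ = (mg) M (mg)⁻¹ = M
    ext y
    have e1 : y ∈ M' ↔ m⁻¹ * y * m ∈ M' := by
      constructor
      · intro hy; exact M'.mul_mem (M'.mul_mem (M'.inv_mem hm) hy) hm
      · intro hy
        have := M'.mul_mem (M'.mul_mem hm hy) (M'.inv_mem hm)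
        have e : m * (m⁻¹ * y * m) * m⁻¹ = y := by group
        rwa [e] at this
    have e2 : ∀ z, z ∈ M' ↔ g⁻¹ * z * g ∈ M := by
      intro z
      rw [hg]
      constructor
      · rintro ⟨k, hk, rfl⟩
        have : g⁻¹ * (MulAut.conj g).toMonoidHom k * g = k := by
          change g⁻¹ * (g * k * g⁻¹) * g = k
          group
        rw [this]; exact hk
      · intro h
        refine ⟨_, h, ?_⟩
        change g * (g⁻¹ * z * g) * g⁻¹ = z
        group
    have e3 : y ∈ M ↔ (m * g)⁻¹ * y * (m * g) ∈ M := by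
      constructor
      · intro hy; exact M.mul_mem (M.mul_mem (M.inv_mem h3) hy) h3
      · intro hy
        have := M.mul_mem (M.mul_mem h3 hy) (M.inv_mem h3)
        have e : (m * g) * ((m * g)⁻¹ * y * (m * g)) * (m * g)⁻¹ = y := by group
        rwa [e] at this
    rw [e1, e2, e3]
    have e4 : g⁻¹ * (m⁻¹ * y * m) * g = (m * g)⁻¹ * y * (m * g) := by group
    rw [e4]

end Cfsg.Agent.S3858
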