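import Cfsg.Statements.S3859
import Cfsg.Agent.H1.AlmSimp

set_option autoImplicit false
open Cfsg

namespace Cfsg.Agent.S3859

open scoped commutatorElement Pointwise

/-- Let G be a finite group with a normal non-abelian simple subgroup T whose centralizer is trivial (G almost simple with socle T), r a prime and R a Sylow r-subgroup of G meeting T nontrivially. If R lies in exactly one maximal subgroup of G, then G/T is an r-group. -/
theorem result {G : Type*} [Group G] [Finite G] (T : Subgroup G) [T.Normal] (hT : IsSimpleGroup T) (hna : ¬ IsMulCommutative T)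
    (hC : Subgroup.centralizer (T : Set G) = ⊥) {r : ℕ} [Fact r.Prime] (R : Sylow r G) (hR0 : (R : Subgroup G) ⊓ T ≠ ⊥)
    (huniq : ∃! M : Subgroup G, IsCoatom M ∧ (R : Subgroup G) ≤ M) : IsPGroup r (G ⧸ T) := by
  obtain ⟨M, ⟨hM, hRM⟩, hu⟩ := huniq
  have hRT : CfsgH1.IsSylowOf r ((R : Subgroup G) ⊓ T) T := 
    CfsgH1.isSylowOf_inf_of_normal (CfsgH1.sylow_isSylowOf R) le_top (CfsgH1.le_normalizer_of_normal _ _)
  have hfr := CfsgH1.frattini_arg_sup hRT
  have hNne := CfsgH1.normalizer_inf_ne_top hT hna R hR0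
  have hRN : (R : Subgroup G) ≤ Subgroup.normalizer (((R : Subgroup G) ⊓ T : Subgroup G) : Set G) := 
    CfsgH1.le_normalizer_inf Subgroup.le_normalizer (CfsgH1.le_normalizer_of_normal _ _)
  have hex : ∀ K : Subgroup G, K ≠ ⊤ → (R : Subgroup G) ≤ K → K ≤ M := by
    intro K hK hRK
    obtain ⟨M', hM', hKM'⟩ := (eq_top_or_exists_le_coatom K).resolve_left hK
    have := hu M' ⟨hM', hRK.trans hKM'⟩
    rw [← this]; exact hKM'
  have hNM := hex _ hNne hRN
  have hTR : T ⊔ (R : Subgroup G) = ⊤ := by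
    by_contra hne
    have h1 := hex _ hne le_sup_right
    apply hM.1
    rw [eq_top_iff, ← hfr]
    exact sup_le (le_sup_left.trans h1) hNM
  -- G/T is an r-group
  intro y
  obtain ⟨g, rfl⟩ := QuotientGroup.mk_surjective y
  have hg : g ∈ T ⊔ (R : Subgroup G) := by rw [hTR]; exact Subgroup.mem_top g
  obtain ⟨t, ht, x, hx, rfl⟩ := Subgroup.mem_sup_of_normal_left.1 hg
  obtain ⟨k, hk⟩ := R.2 ⟨x, hx⟩
  refine ⟨k, ?_⟩
  have h2 : ((t : G) : G ⧸ T) = 1 := (QuotientGroup.eq_one_iff t).2 ht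
  have h3 : x ^ r ^ k = 1 := congrArg (fun z : R => (z : G)) hk
  rw [QuotientGroup.mk_mul, h2, one_mul, ← QuotientGroup.mk_pow, h3, QuotientGroup.mk_one]

end Cfsg.Agent.S3859
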