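import Cfsg.Statements.S3862
import Cfsg.Agent.H1.Coprime
import Cfsg.Agent.H1.CopExtra
import Cfsg.Agent.H1.MinNormal
import Cfsg.Agent.H1.Frat
import Cfsg.Agent.H3.NPC2
import Cfsg.Agent.H1.Regular

set_option autoImplicit false
open Cfsg

namespace Cfsg.Agent.S3862

open scoped commutatorElement Pointwise

open Subgroup CfsgH1 in
theorem key {G : Type*} [Group G] [Finite G] (h : ∀ x : G, (∃ j : ℕ, orderOf x = 2 ^ j) → IsConj x x⁻¹ → x ∈ Subgroup.center G) 
    {U A : Subgroup G} (hU : IsPGroup 2 U) (hAU : A ≤ normalizer (U : Set G)) (hcop : (Nat.card A).Coprime 2) 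
    (hmin : ∀ V : Subgroup G, V < U → A ≤ normalizer (V : Set G) → V ≤ centralizer (A : Set G)) : U ≤ centralizer (A : Set G) := by
  by_contra hne
  haveI : Fact (Nat.Prime 2) := ⟨Nat.prime_two⟩
  have hcop' : (Nat.card A).Coprime (Nat.card U) := by
    obtain ⟨k, hk⟩ := IsPGroup.iff_card.1 hU
    rw [hk]; exact Nat.Coprime.pow_right k hcop
  have hsolU : Group.IsSolvable U := isSolvable_of_isPGroup hU
  -- [U,A] = U
  have hUA : ⁅U, A⁆ = U := by
    by_contra hlt
    have h1 : ⁅U, A⁆ < U := lt_of_le_of_ne (by rw [← Subgroup.le_normalizer_iff_commutator_le_left]; exact hAU) hlt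
    have h2 := hmin _ h1 (normalizer_commutator_ge_right _ _)
    have h3 : ⁅⁅U, A⁆, A⁆ = ⊥ := commutator_eq_bot_iff_le_centralizer.2 h2
    have h4 := coprime_commutator_eq_bot hAU hcop' (Or.inr hsolU) h3
    exact hne (commutator_eq_bot_iff_le_centralizer.1 h4)
  -- proper invariant normal subgroups are central in U
  have hF : ∀ V : Subgroup G, V < U → A ≤ normalizer (V : Set G) → U ≤ normalizer (V : Set G) → ∀ x ∈ V, ∀ u ∈ U, x * u = u * x := by
    intro V hVU hVA hVn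
    have h1 := hmin V hVU hVA
    have h2 : ⁅A, V⁆ = ⊥ := by rw [commutator_comm]; exact commutator_eq_bot_iff_le_centralizer.2 h1
    have h3 : ⁅V, U⁆ ≤ V := by rw [← Subgroup.le_normalizer_iff_commutator_le_left]; exact hVn
    have h4 : ⁅⁅V, U⁆, A⁆ = ⊥ := commutator_eq_bot_iff_le_centralizer.2 (h3.trans h1)
    have h5 : ⁅⁅A, V⁆, U⁆ = ⊥ := by rw [h2, commutator_bot_left]
    have h6 := commutator_commutator_eq_bot_of_rotate h5 h4
    rw [hUA] at h6
    have h7 := commutator_eq_bot_iff_le_centralizer.1 h6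
    intro x hx u hu
    exact (mem_centralizer_iff.1 (h7 hu)) x hx
  have hUne : U ≠ ⊥ := by
    rintro rfl
    exact hne bot_le
  haveI hUnil : Group.IsNilpotent U := hU.isNilpotent
  set F := (frattini U).map U.subtype with hFdef
  have hFU : F < U := by
    refine lt_of_le_of_ne (map_subtype_le _) ?_
    intro he
    haveI : Nontrivial U := (Subgroup.nontrivial_iff_ne_bot U).2 hUne
    apply frattini_ne_top_of (G := U)
    rw [eq_top_iff]
    intro u _
    have : (u : G) ∈ F := by rw [he]; exact u.2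
    obtain ⟨v, hv, hvu⟩ := this
    have : v = u := Subtype.ext hvu
    rw [← this]; exact hv
  have hFN : normalizer (U : Set G) ≤ normalizer (F : Set G) := normalizer_le_map_characteristic (frattini U)
  have hFA := hmin F hFU (hAU.trans hFN)
  have hFc := hF F hFU (hAU.trans hFN) (Subgroup.le_normalizer.trans hFN)
  have hsqF : ∀ u ∈ U, u ^ 2 ∈ F := fun u hu => ⟨_, pow_mem_frattini hU (⟨u, hu⟩ : U), rfl⟩
  have hcmF : ∀ u ∈ U, ∀ v ∈ U, ⁅u, v⁆ ∈ F := fun u hu v hv => 
    ⟨⁅(⟨u, hu⟩ : U), (⟨v, hv⟩ : U)⁆, commutator_le_frattini (Subgroup.commutator_mem_commutator (mem_top _) (mem_top _)), rfl⟩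
  have hcen : ∀ u ∈ U, ∀ v ∈ U, ∀ w ∈ U, ⁅u, v⁆ * w = w * ⁅u, v⁆ := fun u hu v hv w hw => hFc _ (hcmF u hu v hv) w hw
  have hcmA : ∀ u ∈ U, ∀ v ∈ U, ∀ a ∈ A, a * ⁅u, v⁆ * a⁻¹ = ⁅u, v⁆ := by
    intro u hu v hv a ha
    rw [(mem_centralizer_iff.1 (hFA (hcmF u hu v hv))) a ha, mul_inv_cancel_right]
  -- all squares are in U'
  have hUU : ⁅U, U⁆ ≤ U := Subgroup.commutator_le_self U
  have hmulsq : ∀ u ∈ U, ∀ v ∈ U, (u * v) ^ 2 = u ^ 2 * v ^ 2 * ⁅v, u⁆ := by
    intro u hu v hv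
    have e1 : v * u = ⁅v, u⁆ * (u * v) := by simp only [commutatorElement_def]; group
    have e2 := hcen v hv u hu u hu
    have e3 := hcen v hv u hu (u ^ 2 * v ^ 2) (U.mul_mem (U.pow_mem hu 2) (U.pow_mem hv 2))
    calc (u * v) ^ 2 = u * (v * u) * v := by rw [sq]; group
      _ = u * (⁅v, u⁆ * (u * v)) * v := by rw [← e1]
      _ = (u * ⁅v, u⁆) * u * v ^ 2 := by rw [sq v]; group
      _ = (⁅v, u⁆ * u) * u * v ^ 2 := by rw [e2]
      _ = ⁅v, u⁆ * (u ^ 2 * v ^ 2) := by rw [sq u]; group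
      _ = _ := e3
  let E : Subgroup G := 
    { carrier := {u | u ∈ U ∧ u ^ 2 ∈ ⁅U, U⁆}
      mul_mem' := by
        rintro u v ⟨hu, hu2⟩ ⟨hv, hv2⟩
        refine ⟨U.mul_mem hu hv, ?_⟩
        rw [hmulsq u hu v hv]
        exact Subgroup.mul_mem _ (Subgroup.mul_mem _ hu2 hv2) (commutator_mem_commutator hv hu)
      one_mem' := ⟨U.one_mem, by rw [one_pow]; exact Subgroup.one_mem _⟩
      inv_mem' := by
        rintro u ⟨hu, hu2⟩
        exact ⟨U.inv_mem hu, by rw [inv_pow]; exact Subgroup.inv_mem _ hu2⟩ }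
  have hEU : U ≤ E := by
    have h1 : ⁅U, A⁆ ≤ E := by
      rw [commutator_le]
      intro u hu a ha
      have hua : a * u * a⁻¹ ∈ U := (le_normalizer_iff_conj.1 hAU) a ha u hu
      have hw : ⁅u, a⁆ = u * (a * u * a⁻¹)⁻¹ := by simp only [commutatorElement_def]; group
      have hwU : ⁅u, a⁆ ∈ U := by rw [hw]; exact U.mul_mem hu (U.inv_mem hua)
      refine ⟨hwU, ?_⟩
      rw [hw, hmulsq u hu _ (U.inv_mem hua)]
      have h2 : (a * u * a⁻¹) ^ 2 = u ^ 2 := by
        rw [conj_pow, (mem_centralizer_iff.1 (hFA (hsqF u hu))) a ha, mul_inv_cancel_right]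
      rw [inv_pow, h2, mul_inv_cancel, one_mul]
      exact commutator_mem_commutator (U.inv_mem hua) hu
    rw [hUA] at h1
    exact h1
  -- order condition
  have hord : ∀ u ∈ U, ∃ j : ℕ, orderOf u = 2 ^ j := by
    intro u hu
    obtain ⟨j, hj⟩ := IsPGroup.iff_orderOf.1 hU ⟨u, hu⟩
    rw [Subgroup.orderOf_mk] at hj
    exact ⟨j, hj⟩
  by_cases hab : ∀ u ∈ U, ∀ v ∈ U, u * v = v * u
  · apply hne
    intro u hu
    have h1 : ⁅U, U⁆ = ⊥ := by
      rw [eq_bot_iff, commutator_le]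
      intro x hx y hy
      rw [mem_bot, commutatorElement_eq_one_iff_mul_comm]
      exact hab x hx y hy
    have h2 := (hEU hu).2
    rw [h1, mem_bot] at h2
    have h3 : u⁻¹ = u := by
      rw [inv_eq_iff_mul_eq_one, ← sq]; exact h2
    have h4 := h u (hord u hu) (by rw [h3])
    rw [mem_centralizer_iff]
    intro a _
    exact (Subgroup.mem_center_iff.1 h4 a)
  · push Not at hab
    obtain ⟨u, hu, v, hv, huv⟩ := hab
    -- H = [u,U]
    have hmulc : ∀ w ∈ U, ∀ s ∈ U, ∀ t ∈ U, ⁅w, s * t⁆ = ⁅w, s⁆ * ⁅w, t⁆ := by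
      intro w hw s hs t ht
      have e1 : ⁅w, s * t⁆ = ⁅w, s⁆ * (s * ⁅w, t⁆ * s⁻¹) := by simp only [commutatorElement_def]; group
      rw [e1, ← hcen w hw t ht s hs, mul_inv_cancel_right]
    have hmull : ∀ w ∈ U, ∀ s ∈ U, ∀ t ∈ U, ⁅w * s, t⁆ = ⁅w, t⁆ * ⁅s, t⁆ := by
      intro w hw s hs t ht
      have e1 : ⁅w * s, t⁆ = (w * ⁅s, t⁆ * w⁻¹) * ⁅w, t⁆ := by simp only [commutatorElement_def]; group
      rw [e1, ← hcen s hs t ht w hw, mul_inv_cancel_right]
      exact hcen s hs t ht _ (hUU (commutator_mem_commutator hw ht))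
    let H : Subgroup G := 
      { carrier := {x | ∃ t ∈ U, x = ⁅u, t⁆}
        mul_mem' := by
          rintro _ _ ⟨s, hs, rfl⟩ ⟨t, ht, rfl⟩
          exact ⟨s * t, U.mul_mem hs ht, (hmulc u hu s hs t ht).symm⟩
        one_mem' := ⟨1, U.one_mem, by simp⟩
        inv_mem' := by
          rintro _ ⟨s, hs, rfl⟩
          refine ⟨s⁻¹, U.inv_mem hs, ?_⟩
          have e1 := hmulc u hu s hs s⁻¹ (U.inv_mem hs)
          rw [mul_inv_cancel, commutatorElement_one_right] at e1
          exact (eq_inv_of_mul_eq_one_right e1.symm).symm }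
    let W : Subgroup G := 
      { carrier := {w | w ∈ U ∧ ∀ t ∈ U, ⁅w, t⁆ ∈ H}
        mul_mem' := by
          rintro w s ⟨hw, hw2⟩ ⟨hs, hs2⟩
          refine ⟨U.mul_mem hw hs, fun t ht => ?_⟩
          rw [hmull w hw s hs t ht]
          exact H.mul_mem (hw2 t ht) (hs2 t ht)
        one_mem' := ⟨U.one_mem, fun t _ => by rw [commutatorElement_one_left]; exact H.one_mem⟩
        inv_mem' := by
          rintro w ⟨hw, hw2⟩
          refine ⟨U.inv_mem hw, fun t ht => ?_⟩
          have e1 := hmull w hw w⁻¹ (U.inv_mem hw) t ht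
          rw [mul_inv_cancel, commutatorElement_one_left] at e1
          have e2 := (eq_inv_of_mul_eq_one_right e1.symm)
          rw [e2]
          exact H.inv_mem (hw2 t ht) }
    have hWU : W ≤ U := fun w hw => hw.1
    have hWeq : W = U := by
      by_contra hlt
      have hW1 : W < U := lt_of_le_of_ne hWU hlt
      have hWA : A ≤ normalizer (W : Set G) := by
        rw [le_normalizer_iff_conj]
        rintro a ha w ⟨hw, hw2⟩
        have hwa : a * w * a⁻¹ ∈ U := (le_normalizer_iff_conj.1 hAU) a ha w hw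
        refine ⟨hwa, fun t ht => ?_⟩
        have hta : a⁻¹ * t * a ∈ U := by
          have := (le_normalizer_iff_conj.1 hAU) a⁻¹ (A.inv_mem ha) t ht
          rwa [inv_inv] at this
        have e1 : ⁅a * w * a⁻¹, t⁆ = a * ⁅w, a⁻¹ * t * a⁆ * a⁻¹ := by simp only [commutatorElement_def]; group
        rw [e1, hcmA w hw _ hta a ha]
        exact hw2 _ hta
      have hWn : U ≤ normalizer (W : Set G) := by
        rw [le_normalizer_iff_conj]
        rintro x hx w ⟨hw, hw2⟩
        refine ⟨U.mul_mem (U.mul_mem hx hw) (U.inv_mem hx), fun t ht => ?_⟩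
        have e1 : x * w * x⁻¹ = ⁅x, w⁆ * w := by simp only [commutatorElement_def]; group
        have hxw : ⁅x, w⁆ ∈ U := hUU (commutator_mem_commutator hx hw)
        rw [e1, hmull _ hxw w hw t ht]
        have e2 : ⁅⁅x, w⁆, t⁆ = 1 := by
          rw [commutatorElement_eq_one_iff_mul_comm]
          exact hcen x hx w hw t ht
        rw [e2, one_mul]
        exact hw2 t ht
      have huW : u ∈ W := ⟨hu, fun t ht => ⟨t, ht, rfl⟩⟩
      exact huv (hF W hW1 hWA hWn u huW v hv)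
    have hD : ⁅U, U⁆ ≤ H := by
      rw [commutator_le]
      intro x hx y hy
      rw [← hWeq] at hx
      exact hx.2 y hy
    obtain ⟨t, ht, hut⟩ := hD (hEU hu).2
    -- t u t⁻¹ = u⁻¹
    have hconj : t * u * t⁻¹ = u⁻¹ := by
      have e1 : t * u * t⁻¹ = ⁅u, t⁆⁻¹ * u := by simp only [commutatorElement_def]; group
      rw [e1, ← hut, sq]; group
    have h4 := h u (hord u hu) (isConj_iff.2 ⟨t, hconj⟩)
    exact huv (Subgroup.mem_center_iff.1 h4 v).symm

open Subgroup CfsgH1 in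
theorem main {G : Type*} [Group G] [Finite G] (h : ∀ x : G, (∃ j : ℕ, orderOf x = 2 ^ j) → IsConj x x⁻¹ → x ∈ Subgroup.center G) : Cfsg.HasNormalPComplement 2 G := by
  haveI : Fact (Nat.Prime 2) := ⟨Nat.prime_two⟩
  rw [CfsgH3.hasNPC_iff]
  apply CfsgH3.hasNPC_frobenius
  intro X hX g hg hgo
  have hA : (Nat.card (zpowers g)).Coprime 2 := by rw [Nat.card_zpowers]; exact hgo
  by_contra hcon
  have hne : ¬ X ≤ centralizer (zpowers g : Set G) := by
    intro hc
    apply hcon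
    have := (Subgroup.le_centralizer_iff.1 hc) (mem_zpowers g)
    exact this
  obtain ⟨U, ⟨hU1, hU2, hU3⟩, hUmin⟩ := exists_minimal_of_set {U : Subgroup G | IsPGroup 2 U ∧ zpowers g ≤ normalizer (U : Set G) ∧ ¬ U ≤ centralizer (zpowers g : Set G)}
    ⟨X, hX, by rw [zpowers_le]; exact hg, hne⟩
  apply hU3
  apply key h hU1 hU2 hA
  intro V hV hVA
  by_contra hVc
  exact hV.ne (hUmin V ⟨hU1.to_le hV.le, hVA, hVc⟩ hV.le)

/-- If every 2-element of the finite group G that is conjugate to its inverse lies in the centre of G, then G has a normal 2-complement. -/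
theorem result {G : Type*} [Group G] [Finite G] (h : ∀ x : G, (∃ j : ℕ, orderOf x = 2 ^ j) → IsConj x x⁻¹ → x ∈ Subgroup.center G) : Cfsg.HasNormalPComplement 2 G := by

  exact main h

end Cfsg.Agent.S3862
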