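import Cfsg.Statements.S3863
import Cfsg.Agent.H1.Real

set_option autoImplicit false
open Cfsg

namespace Cfsg.Agent.S3863

open scoped commutatorElement Pointwise

/-- Let x be an element of the finite group G that is conjugate to its inverse. Then some 2-element conjugates x to its inverse; if the conjugacy class of x has odd size then x ^ 2 = 1; and x lies in, and is conjugate to its inverse inside, every normal subgroup of odd index. -/
theorem result {G : Type*} [Group G] [Finite G] (x : G) (hx : IsConj x x⁻¹) : (∃ t : G, (∃ j : ℕ, orderOf t = 2 ^ j) ∧ t * x * t⁻¹ = x⁻¹) ∧ (Odd (Subgroup.centralizer ({x} : Set G)).index → x ^ 2 = 1) ∧ ∀ (N : Subgroup G) [N.Normal], Odd N.index → ∃ hxN : x ∈ N, IsConj (⟨x, hxN⟩ : N) (⟨x, hxN⟩ : N)⁻¹ := by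
  refine ⟨CfsgH1.real_two_element hx, CfsgH1.real_odd_class hx, ?_⟩
  intro N hN hodd
  obtain ⟨t, ht2, ht⟩ := CfsgH1.real_two_element hx
  have htN : t ∈ N := CfsgH1.mem_of_two_element ht2 hodd
  have h1 : x⁻¹ * x⁻¹ ∈ N := by
    nth_rewrite 1 [← ht]
    have e : t * x * t⁻¹ * x⁻¹ = t * (x * t⁻¹ * x⁻¹) := by group
    rw [e]
    exact N.mul_mem htN (hN.conj_mem _ (N.inv_mem htN) x)
  have h2 : x ^ 2 ∈ N := by
    have := N.inv_mem h1
    rw [mul_inv_rev, inv_inv] at this
    rwa [sq]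
  have hxN : x ∈ N := by
    have h3 : orderOf (QuotientGroup.mk' N x) ∣ 2 := by
      rw [orderOf_dvd_iff_pow_eq_one, ← map_pow]
      exact (QuotientGroup.eq_one_iff _).2 h2
    have h4 : orderOf (QuotientGroup.mk' N x) ∣ N.index := orderOf_dvd_natCard _
    have h5 := Nat.Coprime.eq_one_of_dvd (Nat.Coprime.coprime_dvd_left h3 (Nat.coprime_two_left.2 hodd)) h4
    exact (QuotientGroup.eq_one_iff x).1 (orderOf_eq_one_iff.1 h5)
  refine ⟨hxN, isConj_iff.2 ⟨⟨t, htN⟩, Subtype.ext ht⟩⟩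

end Cfsg.Agent.S3863
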