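import Cfsg.Statements.S3867
import Cfsg.Agent.H1.Basic
import Cfsg.Agent.H2.LocalQ

set_option autoImplicit false
open Cfsg

namespace Cfsg.Agent.S3867

open scoped commutatorElement Pointwise

open Subgroup CfsgH1 in
/-- Frattini: `N(PKM) = M N(PK)` -/
theorem frat {G : Type*} [Group G] [Finite G] {p : ℕ} [hp : Fact p.Prime] (P : Sylow p G) (K M : Subgroup G) [hK : K.Normal] [hM : M.Normal] :
    normalizer (((P : Subgroup G) ⊔ (K ⊔ M) : Subgroup G) : Set G) = M ⊔ normalizer (((P : Subgroup G) ⊔ K : Subgroup G) : Set G) := by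
  apply le_antisymm
  · intro g hg
    set L := (P : Subgroup G) ⊔ (K ⊔ M) with hL
    have hPL : (P : Subgroup G) ≤ L := le_sup_left
    -- P^g ≤ L
    have h1 : ((g • P : Sylow p G) : Subgroup G) ≤ L := by
      rintro _ ⟨y, hy, rfl⟩
      exact (mem_normalizer_iff.1 hg y).1 (hPL hy)
    obtain ⟨l, hl⟩ := MulAction.exists_smul_eq L (P.subtype hPL) ((g • P).subtype h1)
    have h2 : (l : G) • P = g • P := by
      apply Sylow.ext
      have h3 := congrArg (fun Q : Sylow p L => ((Q : Subgroup L)).map L.subtype) hl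
      have h4 : ∀ (Q : Sylow p G) (hQ : (Q : Subgroup G) ≤ L), ((Q.subtype hQ : Sylow p L) : Subgroup L).map L.subtype = Q := by
        intro Q hQ
        change ((Q : Subgroup G).subgroupOf L).map L.subtype = Q
        rw [map_subgroupOf_eq_of_le hQ]
      rw [h4 _ h1] at h3
      rw [← h3]
      ext y
      constructor
      · rintro ⟨z, hz, rfl⟩
        exact ⟨(l : L) * ⟨z, hPL hz⟩ * (l : L)⁻¹, ⟨⟨z, hPL hz⟩, hz, rfl⟩, rfl⟩
      · rintro ⟨_, ⟨z, hz, rfl⟩, rfl⟩
        exact ⟨z, hz, rfl⟩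
    -- l = m * z with z ∈ P ⊔ K
    have h5 : (l : G) ∈ M ⊔ ((P : Subgroup G) ⊔ K) := by
      have h6 : L = M ⊔ ((P : Subgroup G) ⊔ K) := by rw [hL, ← sup_assoc, sup_comm]
      rw [← h6]; exact l.2
    obtain ⟨m, hm, z, hz, hmz⟩ := mem_sup_of_normal_left.1 h5
    -- z⁻¹ m⁻¹ g normalizes P so PK
    have h7 : ((l : G)⁻¹ * g) ∈ normalizer ((P : Subgroup G) : Set G) := by
      apply Sylow.smul_eq_iff_mem_normalizer.1
      rw [mul_smul, ← h2, inv_smul_smul]
    have h8 : normalizer ((P : Subgroup G) : Set G) ≤ normalizer (((P : Subgroup G) ⊔ K : Subgroup G) : Set G) := 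
      le_normalizer_sup le_rfl (le_normalizer_of_normal _ _)
    have h9 := (normalizer (((P : Subgroup G) ⊔ K : Subgroup G) : Set G)).mul_mem (Subgroup.le_normalizer hz) (h8 h7)
    have h10 : g = m * (z * ((l : G)⁻¹ * g)) := by rw [← hmz]; group
    rw [h10]
    exact (M ⊔ _).mul_mem ((le_sup_left : M ≤ _) hm) ((le_sup_right : normalizer (((P : Subgroup G) ⊔ K : Subgroup G) : Set G) ≤ _) h9)
  · apply sup_le
    · refine le_trans ?_ Subgroup.le_normalizer
      exact le_sup_right.trans le_sup_right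
    · rw [← sup_assoc]
      exact le_normalizer_sup le_rfl (le_normalizer_of_normal _ _)

theorem powmem {G : Type*} [Group G] {p : ℕ} (P : Sylow p G) (N : Subgroup G) [N.Normal] {y : G} (hy1 : y ∈ (P : Subgroup G) ⊔ N) : ∃ k, y ^ p ^ k ∈ N := by
  obtain ⟨a, ha, n, hn, han⟩ := (Subgroup.mem_sup_of_normal_right).1 hy1
  obtain ⟨k, hk⟩ := P.2 ⟨a, ha⟩
  refine ⟨k, ?_⟩
  rw [← QuotientGroup.eq_one_iff, ← han]
  have h2 : ((n : G) : G ⧸ N) = 1 := (QuotientGroup.eq_one_iff n).2 hn
  have h3 : a ^ p ^ k = 1 := congrArg (fun z : P => (z : G)) hk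
  rw [QuotientGroup.mk_pow, QuotientGroup.mk_mul, h2, mul_one, ← QuotientGroup.mk_pow, h3, QuotientGroup.mk_one]

open Subgroup CfsgH1 in
theorem count {G : Type*} [Group G] [Finite G] {p : ℕ} [hp : Fact p.Prime] (P : Sylow p G) (L : Subgroup G) [hL : L.Normal] :
    Nat.card (Sylow p (G ⧸ L)) = (normalizer (((P : Subgroup G) ⊔ L : Subgroup G) : Set G)).index := by
  rw [← CfsgH2.comap_normalizer_map, Subgroup.index_comap_of_surjective _ (QuotientGroup.mk'_surjective L)]
  exact Sylow.card_eq_index_normalizer (P.mapSurjective (QuotientGroup.mk'_surjective L))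

open Subgroup CfsgH1 in
theorem index_eq {G : Type*} [Group G] [Finite G] {M N : Subgroup G} [M.Normal] : 
    N.index * Nat.card ↥(N ⊓ M) = (M ⊔ N).index * Nat.card M := by
  have h1 := card_sup_mul_card_inf (H := N) (K := M) (le_normalizer_of_normal _ _)
  have h2 := Subgroup.index_mul_card N
  have h3 := Subgroup.index_mul_card (M ⊔ N)
  rw [sup_comm] at h1
  apply Nat.eq_of_mul_eq_mul_right (Nat.card_pos (α := N))
  calc N.index * Nat.card ↥(N ⊓ M) * Nat.card N = (N.index * Nat.card N) * Nat.card ↥(N ⊓ M) := by ring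
    _ = ((M ⊔ N).index * Nat.card ↥(M ⊔ N)) * Nat.card ↥(N ⊓ M) := by rw [h2, h3]
    _ = (M ⊔ N).index * (Nat.card ↥(M ⊔ N) * Nat.card ↥(N ⊓ M)) := by ring
    _ = _ := by rw [h1]; ring

/-- Let M and N be nontrivial normal subgroups of the finite group G with M ⊓ N trivial, and let p be a prime. Writing n(X) for the number of Sylow p-subgroups of a group X, one has n(G) · n(G/MN) = n(G/M) · n(G/N). -/
theorem result {G : Type*} [Group G] [Finite G] (p : ℕ) [Fact p.Prime] (M N : Subgroup G) [M.Normal] [N.Normal] (hM : M ≠ ⊥) (hN : N ≠ ⊥) (hMN : M ⊓ N = ⊥) : Nat.card (Sylow p G) * Nat.card (Sylow p (G ⧸ (M ⊔ N))) = Nat.card (Sylow p (G ⧸ M)) * Nat.card (Sylow p (G ⧸ N)) := by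

  classical
  obtain ⟨P⟩ := (inferInstance : Nonempty (Sylow p G))
  have c0 : Nat.card (Sylow p G) = (Subgroup.normalizer ((P : Subgroup G) : Set G)).index := Sylow.card_eq_index_normalizer P
  have c1 := count P M
  have c2 := count P N
  have c3 := count P (M ⊔ N)
  have f1 := frat P ⊥ M
  have f2 := frat P N M
  rw [sup_comm N M] at f2
  rw [bot_sup_eq, sup_bot_eq] at f1
  have i1 := index_eq (M := M) (N := Subgroup.normalizer ((P : Subgroup G) : Set G))
  have i2 := index_eq (M := M) (N := Subgroup.normalizer (((P : Subgroup G) ⊔ N : Subgroup G) : Set G))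
  rw [← f1, ← c1, ← c0] at i1
  rw [← f2, ← c3, ← c2] at i2
  have key : Subgroup.normalizer ((P : Subgroup G) : Set G) ⊓ M = Subgroup.normalizer (((P : Subgroup G) ⊔ N : Subgroup G) : Set G) ⊓ M := by
    apply le_antisymm
    · apply inf_le_inf_right
      exact CfsgH1.le_normalizer_sup le_rfl (CfsgH1.le_normalizer_of_normal _ _)
    · rintro m ⟨hm, hmM⟩
      refine ⟨?_, hmM⟩
      -- (P ⊔ N) ⊓ M is a p-group
      have hp1 : IsPGroup p ↥(((P : Subgroup G) ⊔ N) ⊓ M) := by
        intro y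
        obtain ⟨hy1, hy2⟩ := y.2
        have h1 : ∃ k, (y : G) ^ p ^ k ∈ N := by
          exact powmem P N hy1
        obtain ⟨k, hk⟩ := h1
        refine ⟨k, Subtype.ext ?_⟩
        have h2 : (y : G) ^ p ^ k ∈ M ⊓ N := ⟨M.pow_mem hy2 _, hk⟩
        rw [hMN] at h2
        exact h2
      have hp2 : ((P : Subgroup G) ⊔ N) ⊓ M ≤ (P : Subgroup G) := by
        have h1 : IsPGroup p ↥((P : Subgroup G) ⊔ (((P : Subgroup G) ⊔ N) ⊓ M)) := by
          apply P.2.to_sup_of_normal_right' hp1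
          apply CfsgH1.le_normalizer_inf
          · exact le_sup_left.trans Subgroup.le_normalizer
          · exact CfsgH1.le_normalizer_of_normal _ _
        have h2 := P.3 h1 le_sup_left
        exact le_trans le_sup_right h2.le
      apply Subgroup.mem_normalizer_fintype
      intro a ha
      have h3 : m * a * m⁻¹ * a⁻¹ ∈ ((P : Subgroup G) ⊔ N) ⊓ M := by
        refine ⟨?_, ?_⟩
        · exact Subgroup.mul_mem _ ((Subgroup.mem_normalizer_iff.1 hm a).1 ((le_sup_left : (P : Subgroup G) ≤ _) ha)) (Subgroup.inv_mem _ ((le_sup_left : (P : Subgroup G) ≤ _) ha))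
        · have e : m * a * m⁻¹ * a⁻¹ = m * (a * m⁻¹ * a⁻¹) := by group
          rw [e]
          exact M.mul_mem hmM ((inferInstance : M.Normal).conj_mem _ (M.inv_mem hmM) a)
      have h4 := (P : Subgroup G).mul_mem (hp2 h3) ha
      rwa [inv_mul_cancel_right] at h4
  rw [key] at i1
  set c := Nat.card ↥(Subgroup.normalizer (((P : Subgroup G) ⊔ N : Subgroup G) : Set G) ⊓ M) with hc
  have hcpos : 0 < c := Nat.card_pos
  have hMpos : 0 < Nat.card M := Nat.card_pos
  apply Nat.eq_of_mul_eq_mul_right (Nat.mul_pos hcpos hMpos)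
  calc Nat.card (Sylow p G) * Nat.card (Sylow p (G ⧸ (M ⊔ N))) * (c * Nat.card M) 
      = (Nat.card (Sylow p G) * c) * (Nat.card (Sylow p (G ⧸ (M ⊔ N))) * Nat.card M) := by ring
    _ = (Nat.card (Sylow p (G ⧸ M)) * Nat.card M) * (Nat.card (Sylow p (G ⧸ N)) * c) := by rw [i1, i2]
    _ = _ := by ring

end Cfsg.Agent.S3867
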