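import Cfsg.Statements.S3897
import Cfsg.Agent.H1.KP

set_option autoImplicit false
open Cfsg

namespace Cfsg.Agent.S3897

/-- Let p be an odd prime and G a finite group with Sylow p-subgroup P, and write k_p(G) for the number of conjugacy classes of G consisting of p-elements (elements of p-power order, the identity included). Then k_p(G) > (p + 1)|P|/(2p) if and only if G has a normal p-complement and P is abelian. -/
theorem result {G : Type*} [Group G] [Finite G] {p : ℕ} [Fact p.Prime] (hp : p ≠ 2) (P : Sylow p G) :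
    (p + 1) * Nat.card ↥(P : Subgroup G) < 2 * p * Nat.card {c : ConjClasses G // ∀ x ∈ c.carrier, ∃ k : ℕ, orderOf x = p ^ k} ↔
      Cfsg.HasNormalPComplement p G ∧ IsMulCommutative ↥(P : Subgroup G) := by
  classical
  have hpr : p.Prime := Fact.out
  constructor
  · intro h
    exact CfsgH1.npc_abelian_of_pclasses P h
  · rintro ⟨hN, hP⟩
    obtain ⟨K, hKn, hc⟩ := CfsgH1.hasNPC_of_sylow hN P
    -- map P -> classes injective
    have hle : Nat.card ↥(P : Subgroup G) ≤ 
        Nat.card {c : ConjClasses G // ∀ x ∈ c.carrier, ∃ k : ℕ, orderOf x = p ^ k} := by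
      apply Nat.card_le_card_of_injective (fun x : (P : Subgroup G) => (⟨ConjClasses.mk (x : G), 
        (CfsgH1.classes_iff CfsgH1.isPEl_conj (x : G)).2 (by
          obtain ⟨k, hk⟩ := (IsPGroup.iff_orderOf.1 P.isPGroup') x
          exact ⟨k, by rw [← hk, Subgroup.orderOf_coe]⟩)⟩ : 
          {c : ConjClasses G // ∀ x ∈ c.carrier, ∃ k : ℕ, orderOf x = p ^ k}))
      intro x y hxy
      have h1 : ConjClasses.mk (x : G) = ConjClasses.mk (y : G) := congrArg Subtype.val hxy
      rw [ConjClasses.mk_eq_mk_iff_isConj] at h1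
      obtain ⟨g, hg⟩ := isConj_iff.1 h1
      -- write g = k * z, k ∈ K, z ∈ P
      obtain ⟨k, hk, z, hz, rfl⟩ : ∃ k ∈ K, ∃ z ∈ (P : Subgroup G), k * z = g := by
        obtain ⟨⟨a, b⟩, hab⟩ := hc.2 g
        exact ⟨a, a.2, b, b.2, hab⟩
      have hzx : z * (x : G) * z⁻¹ = x := by
        have := hP.is_comm.comm (⟨z, hz⟩ : (P : Subgroup G)) x
        have h2 := congrArg Subtype.val this
        change z * (x : G) = x * z at h2
        rw [h2]; group
      have h3 : k * (x : G) * k⁻¹ = y := by
        rw [← hg]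
        calc k * (x : G) * k⁻¹ = k * (z * (x : G) * z⁻¹) * k⁻¹ := by rw [hzx]
          _ = k * z * (x : G) * (k * z)⁻¹ := by group
      have h4 : (y : G) * (x : G)⁻¹ ∈ K := by
        rw [← h3]
        have : k * (x : G) * k⁻¹ * (x : G)⁻¹ = k * ((x : G) * k⁻¹ * (x : G)⁻¹) := by group
        rw [this]
        exact K.mul_mem hk (hKn.conj_mem _ (K.inv_mem hk) _)
      have h5 : (y : G) * (x : G)⁻¹ ∈ K ⊓ (P : Subgroup G) := 
        ⟨h4, (P : Subgroup G).mul_mem y.2 ((P : Subgroup G).inv_mem x.2)⟩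
      rw [hc.disjoint.eq_bot, Subgroup.mem_bot] at h5
      exact Subtype.ext (mul_inv_eq_one.1 h5).symm
    have hPpos : 0 < Nat.card ↥(P : Subgroup G) := Nat.card_pos
    have h2 : 1 < p := hpr.one_lt
    calc (p + 1) * Nat.card ↥(P : Subgroup G) < 2 * p * Nat.card ↥(P : Subgroup G) := by
          apply Nat.mul_lt_mul_of_pos_right _ hPpos
          omega
      _ ≤ _ := Nat.mul_le_mul_left _ hle

end Cfsg.Agent.S3897
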