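import Cfsg.Statements.S3899
import Cfsg.Agent.H1.KPi

set_option autoImplicit false
open Cfsg

namespace Cfsg.Agent.S3899

open scoped commutatorElement Pointwise

/-- Let π be a finite non-empty set of odd primes with smallest member p and G a finite group. Write k_π(G) for the number of conjugacy classes of G consisting of π-elements (elements all of whose order's prime divisors lie in π) and |G|_π for the π-part of the order of G. If k_π(G) > (p + 1)|G|_π/(2p), then G has a normal π-complement (a normal subgroup of order prime to π whose index is a π-number) and an abelian Hall π-subgroup. -/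
theorem result {G : Type*} [Group G] [Finite G] (π : Finset ℕ) (hπ : ∀ r ∈ π, r.Prime) (h2 : 2 ∉ π) (p : ℕ) (hp : p ∈ π)
    (hmin : ∀ r ∈ π, p ≤ r) (hk : (p + 1) * π.prod (fun r => r ^ (Nat.card G).factorization r) < 2 * p * Nat.card {c : ConjClasses G // ∀ x ∈ c.carrier, ∀ r : ℕ, r.Prime → r ∣ orderOf x → r ∈ π}) :
    (∃ N : Subgroup G, N.Normal ∧ (∀ r : ℕ, r.Prime → r ∣ Nat.card ↥N → r ∉ π) ∧ ∀ r : ℕ, r.Prime → r ∣ N.index → r ∈ π) ∧ ∃ H : Subgroup G, Cfsg.IsPiHall (↑π : Set ℕ) H ∧ IsMulCommutative ↥H := by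
  classical
  have hall : ∀ q ∈ π, ∃ P : Sylow q G, Cfsg.HasNormalPComplement q G ∧ IsMulCommutative ↥(P : Subgroup G) := by
    intro q hq
    haveI : Fact q.Prime := ⟨hπ q hq⟩
    obtain ⟨P⟩ := (inferInstance : Nonempty (Sylow q G))
    refine ⟨P, CfsgH1.npc_abelian_of_pclasses P ?_⟩
    have h1 := CfsgH1.card_piclasses_le_mul_prod (G := G) π hπ hq
    set X := Nat.card {c : ConjClasses G // ∀ x ∈ c.carrier, ∀ r : ℕ, r.Prime → r ∣ orderOf x → r ∈ π}
    set Y := Nat.card {c : ConjClasses G // ∀ x ∈ c.carrier, ∃ k : ℕ, orderOf x = q ^ k}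
    rw [← Finset.mul_prod_erase π _ hq, ← P.card_eq_multiplicity] at hk
    set M := (π.erase q).prod (fun r => r ^ (Nat.card G).factorization r) with hM
    have hMpos : 0 < M := Finset.prod_pos fun r hr => pow_pos (hπ r (Finset.mem_of_mem_erase hr)).pos _
    have hpq : p ≤ q := hmin q hq
    have hppos : 0 < p := (hπ p hp).pos
    have h2 : (p + 1) * (Nat.card P * M) < 2 * p * (Y * M) := hk.trans_le (Nat.mul_le_mul_left _ h1)
    have h3 : (p + 1) * Nat.card P < 2 * p * Y := by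
      have h4 : ((p + 1) * Nat.card P) * M < (2 * p * Y) * M := by
        calc ((p + 1) * Nat.card P) * M = (p + 1) * (Nat.card P * M) := by ring
          _ < _ := h2
          _ = _ := by ring
      exact lt_of_mul_lt_mul_right h4 (Nat.zero_le _)
    have h5 : p * ((q + 1) * Nat.card P) < p * (2 * q * Y) := by
      calc p * ((q + 1) * Nat.card P) ≤ q * ((p + 1) * Nat.card P) := by nlinarith [Nat.zero_le (Nat.card P), Nat.mul_le_mul_right (Nat.card P) hpq]
        _ < q * (2 * p * Y) := Nat.mul_lt_mul_of_pos_left h3 (by omega)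
        _ = _ := by ring
    exact lt_of_mul_lt_mul_left h5 (Nat.zero_le _)
  obtain ⟨N, hN, h1, h2, h3⟩ := CfsgH1.exists_normal_pi_complement (G := G) π hπ (by
    intro q hq
    haveI : Fact q.Prime := ⟨hπ q hq⟩
    obtain ⟨P, hP, -⟩ := hall q hq
    exact CfsgH1.hasNPC_iff.1 hP)
  have hcomm : commutator G ≤ N := by
    apply h3
    intro q hq M hM hMq ⟨k, hk⟩
    haveI : Fact q.Prime := ⟨hπ q hq⟩
    obtain ⟨P, -, hab⟩ := hall q hq
    have hc := CfsgH1.hasNPC_isComplement' hMq hk P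
    rw [commutator_def, Subgroup.commutator_le]
    intro g _ h _
    have hdec : ∀ g : G, ∃ k ∈ M, ∃ z ∈ (P : Subgroup G), k * z = g := by
      intro g
      obtain ⟨⟨a, b⟩, hab⟩ := hc.2 g
      exact ⟨a, a.2, b, b.2, hab⟩
    obtain ⟨a, ha, x, hx, rfl⟩ := hdec g
    obtain ⟨b, hb, y, hy, rfl⟩ := hdec h
    rw [← QuotientGroup.eq_one_iff]
    have ha' : ((a : G) : G ⧸ M) = 1 := (QuotientGroup.eq_one_iff a).2 ha
    have hb' : ((b : G) : G ⧸ M) = 1 := (QuotientGroup.eq_one_iff b).2 hb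
    have hxy : x * y = y * x := congrArg Subtype.val (hab.is_comm.comm (⟨x, hx⟩ : (P : Subgroup G)) ⟨y, hy⟩)
    have e : ((⁅a * x, b * y⁆ : G) : G ⧸ M) = (((a * x) * (b * y) * (a * x)⁻¹ * (b * y)⁻¹ : G) : G ⧸ M) := rfl
    rw [e, QuotientGroup.mk_mul, QuotientGroup.mk_mul, QuotientGroup.mk_mul, QuotientGroup.mk_inv, QuotientGroup.mk_inv, 
      QuotientGroup.mk_mul, QuotientGroup.mk_mul, ha', hb', one_mul, one_mul, ← QuotientGroup.mk_mul, hxy, QuotientGroup.mk_mul]
    group
  have hcop : (Nat.card N).Coprime N.index := by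
    rw [Nat.coprime_iff_gcd_eq_one]
    by_contra hne
    obtain ⟨r, hr, hd⟩ := Nat.exists_prime_and_dvd hne
    exact h1 r hr (hd.trans (Nat.gcd_dvd_left _ _)) (h2 r hr (hd.trans (Nat.gcd_dvd_right _ _)))
  refine ⟨⟨N, hN, h1, h2⟩, ?_⟩
  obtain ⟨H, hH⟩ := Subgroup.exists_right_complement'_of_coprime hcop
  refine ⟨H, ⟨?_, ?_⟩, ?_⟩
  · intro r hr hd
    rw [← CfsgH1.index_of_isComplement' hH] at hd
    exact_mod_cast h2 r hr hd
  · intro r hr hmem hd
    rw [CfsgH1.index_of_isComplement' hH.symm] at hd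
    exact h1 r hr hd (by exact_mod_cast hmem)
  · refine ⟨⟨fun a b => ?_⟩⟩
    have h4 : ⁅(a : G), (b : G)⁆ ∈ N := hcomm (by
      rw [commutator_def]; exact Subgroup.commutator_mem_commutator (Subgroup.mem_top _) (Subgroup.mem_top _))
    have h5 : ⁅(a : G), (b : G)⁆ ∈ N ⊓ H := ⟨h4, (⁅a, b⁆ : H).2⟩
    rw [hH.disjoint.eq_bot, Subgroup.mem_bot, commutatorElement_eq_one_iff_mul_comm] at h5
    exact Subtype.ext h5

end Cfsg.Agent.S3899
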