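import Cfsg.Statements.S3903
import Cfsg.Agent.H1.Solv

set_option autoImplicit false
open Cfsg

namespace Cfsg.Agent.S3903

open scoped commutatorElement Pointwise

open Subgroup in
theorem cent_pgroup {G : Type*} [Group G] [Finite G] (N : Subgroup G) [N.Normal] 
    (h : ∀ x : G, x ∉ N → IsPrimePow (orderOf x)) {x : G} (hx : x ∉ N) :
    ∃ p : ℕ, p.Prime ∧ IsPGroup p (centralizer {x} : Subgroup G) := by
  obtain ⟨p, k, hp, hk, hpk⟩ := (isPrimePow_nat_iff _).1 (h x hx)
  haveI : Fact p.Prime := ⟨hp⟩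
  refine ⟨p, hp, ?_⟩
  rw [IsPGroup.iff_orderOf]
  rintro ⟨y, hy⟩
  rw [Subgroup.orderOf_mk]
  obtain ⟨u, v, huv, hcomm, ⟨j, hj⟩, hvp, -, -, hvz⟩ := CfsgH1.exists_qpart p y
  have hxy : x * y = y * x := (Subgroup.mem_centralizer_iff.1 hy) x rfl
  obtain ⟨m, hm⟩ := Subgroup.mem_zpowers_iff.1 hvz
  have hxv : Commute x v := by
    rw [← hm]; exact Commute.zpow_right hxy m
  have hcop : (orderOf x).Coprime (orderOf v) := by
    rw [← hpk]
    exact ((Nat.Prime.coprime_iff_not_dvd hp).2 hvp).pow_left k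
  have hnot : x * v ∉ N := by
    intro hmem
    have h1 : (x * v) ^ (orderOf v) ∈ N := N.pow_mem hmem _
    rw [hxv.mul_pow, pow_orderOf_eq_one, mul_one] at h1
    obtain ⟨m, hm⟩ := exists_pow_eq_self_of_coprime hcop.symm
    rw [← hm] at hx
    exact hx (N.pow_mem h1 m)
  have h2 := h _ hnot
  rw [hxv.orderOf_mul_eq_mul_orderOf_of_coprime hcop] at h2
  obtain ⟨q, l, hq, hl, hql⟩ := (isPrimePow_nat_iff _).1 h2
  have hv1 : orderOf v = 1 := by
    by_contra hne
    obtain ⟨r, hr, hrd⟩ := Nat.exists_prime_and_dvd hne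
    have hrq : r = q := CfsgH1.prime_dvd_card_of_not hq hr (by rw [hql]; exact Dvd.dvd.mul_left hrd _)
    have hpq : p = q := CfsgH1.prime_dvd_card_of_not hq hp (by 
      rw [hql, ← hpk]; exact Dvd.dvd.mul_right (dvd_pow_self p hk.ne') _)
    rw [hrq, ← hpq] at hrd
    exact hvp hrd
  rw [orderOf_eq_one_iff] at hv1
  rw [hv1, mul_one] at huv
  exact ⟨j, by rw [← huv]; exact hj⟩

open Subgroup in
theorem card_filter_le {G : Type*} [Group G] [Finite G] (p : ℕ) [Fact p.Prime] :
    p ^ 2 * Nat.card {x : G // ∃ Q : Sylow p G, ¬ IsMulCommutative (Q : Subgroup G) ∧ 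
      ∃ z ∈ center (Q : Subgroup G), (z : G) = x} ≤ Nat.card G := by
  classical
  haveI : Fintype (Sylow p G) := Fintype.ofFinite _
  haveI : Fintype G := Fintype.ofFinite _
  obtain ⟨Q0⟩ := (inferInstance : Nonempty (Sylow p G))
  have h1 : Nat.card {x : G // ∃ Q : Sylow p G, ¬ IsMulCommutative (Q : Subgroup G) ∧ 
      ∃ z ∈ center (Q : Subgroup G), (z : G) = x} ≤ 
      ∑ Q : Sylow p G, (if IsMulCommutative (Q : Subgroup G) then 0 else Nat.card (center (Q : Subgroup G))) := by
    have hsub : (Finset.univ.filter fun x : G => ∃ Q : Sylow p G, ¬ IsMulCommutative (Q : Subgroup G) ∧ 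
      ∃ z ∈ center (Q : Subgroup G), (z : G) = x) ⊆ Finset.univ.biUnion (fun Q : Sylow p G => 
        if IsMulCommutative (Q : Subgroup G) then ∅ else 
        (Finset.univ : Finset ↥(center (Q : Subgroup G))).image (fun z : ↥(center (Q : Subgroup G)) => ((z : (Q : Subgroup G)) : G))) := by
      intro x hx
      obtain ⟨Q, hQ, z, hz, hzx⟩ := (Finset.mem_filter.1 hx).2
      rw [Finset.mem_biUnion]
      refine ⟨Q, Finset.mem_univ _, ?_⟩
      rw [if_neg hQ, Finset.mem_image]
      exact ⟨⟨z, hz⟩, Finset.mem_univ _, hzx⟩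
    rw [Nat.card_eq_fintype_card, Fintype.card_subtype]
    refine (Finset.card_le_card hsub).trans (Finset.card_biUnion_le.trans (Finset.sum_le_sum fun Q _ => ?_))
    split_ifs
    · simp
    · refine Finset.card_image_le.trans ?_
      rw [Finset.card_univ, Nat.card_eq_fintype_card]
  have h2 : ∀ Q : Sylow p G, p ^ 2 * (if IsMulCommutative (Q : Subgroup G) then 0 else 
      Nat.card (center (Q : Subgroup G))) ≤ Nat.card (Q0 : Subgroup G) := by
    intro Q
    split_ifs with hQ
    · simp
    · have := CfsgH1.center_index_ge_sq Q.isPGroup' hQ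
      have e : Nat.card (Q : Subgroup G) = Nat.card (Q0 : Subgroup G) := by
        have e1 := Q.card_eq_multiplicity
        have e2 := Q0.card_eq_multiplicity
        exact e1.trans e2.symm
      rwa [e] at this
  calc _ ≤ p ^ 2 * ∑ Q : Sylow p G, (if IsMulCommutative (Q : Subgroup G) then 0 else 
        Nat.card (center (Q : Subgroup G))) := Nat.mul_le_mul_left _ h1
    _ = ∑ Q : Sylow p G, p ^ 2 * (if IsMulCommutative (Q : Subgroup G) then 0 else 
        Nat.card (center (Q : Subgroup G))) := Finset.mul_sum _ _ _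
    _ ≤ ∑ Q : Sylow p G, Nat.card (Q0 : Subgroup G) := Finset.sum_le_sum fun Q _ => h2 Q
    _ = Nat.card (Sylow p G) * Nat.card (Q0 : Subgroup G) := by
        rw [Finset.sum_const, smul_eq_mul, Finset.card_univ, Nat.card_eq_fintype_card (α := Sylow p G)]
    _ = (normalizer (Q0 : Set G)).index * Nat.card (Q0 : Subgroup G) := by rw [Q0.card_eq_index_normalizer]
    _ ≤ (normalizer (Q0 : Set G)).index * Nat.card (normalizer (Q0 : Set G)) := by
        apply Nat.mul_le_mul_left
        exact Nat.card_le_card_of_injective _ (Subgroup.inclusion_injective Subgroup.le_normalizer)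
    _ = Nat.card G := by rw [mul_comm, Subgroup.card_mul_index]

/-- Let N be a proper normal subgroup of the finite group G such that every element x of G outside N has prime power order and has centralizer C_G(x) a maximal subgroup of G. Then N is solvable. -/
theorem result {G : Type*} [Group G] [Finite G] (N : Subgroup G) [N.Normal] (hN : N ≠ ⊤)
    (h : ∀ x : G, x ∉ N → IsPrimePow (orderOf x) ∧ IsCoatom (Subgroup.centralizer ({x} : Set G))) : Group.IsSolvable ↥N := by

  classical
  haveI : Fintype G := Fintype.ofFinite _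
  by_cases hGp : ∃ p, p.Prime ∧ IsPGroup p G
  · obtain ⟨p, hp, hpG⟩ := hGp
    haveI : Fact p.Prime := ⟨hp⟩
    haveI := CfsgH1.isSolvable_of_isPGroup hpG
    infer_instance
  push Not at hGp
  suffices hs : Group.IsSolvable G by infer_instance
  -- centralizers are Sylow
  have hsyl : ∀ x, x ∉ N → ∃ p, ∃ _ : Fact p.Prime, ∃ P : Sylow p G, (P : Subgroup G) = Subgroup.centralizer {x} := by
    intro x hx
    obtain ⟨p, hp, hpc⟩ := cent_pgroup N (fun x hx => (h x hx).1) hx
    haveI : Fact p.Prime := ⟨hp⟩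
    exact ⟨p, ⟨hp⟩, CfsgH1.exists_sylow_eq_of_isCoatom (h x hx).2 hpc (hGp p hp)⟩
  by_contra hns
  have hna : ∀ x, x ∉ N → ¬ IsMulCommutative (Subgroup.centralizer {x} : Subgroup G) := by
    intro x hx hab
    obtain ⟨p, hp, P, hP⟩ := hsyl x hx
    exact hns (CfsgH1.isSolvable_of_abelian_sylow_isCoatom P (by rw [hP]; exact (h x hx).2) (by rw [hP]; exact hab))
  -- counting
  have hcov : (Finset.univ.filter fun x : G => x ∉ N) ⊆ (Nat.card G).primeFactors.biUnion (fun p => 
      Finset.univ.filter fun x : G => ∃ _ : Fact p.Prime, ∃ Q : Sylow p G, ¬ IsMulCommutative (Q : Subgroup G) ∧ 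
      ∃ z ∈ Subgroup.center (Q : Subgroup G), (z : G) = x) := by
    intro x hx
    have hxN := (Finset.mem_filter.1 hx).2
    obtain ⟨p, hp, P, hP⟩ := hsyl x hxN
    have hxP : x ∈ (P : Subgroup G) := by 
      rw [hP, Subgroup.mem_centralizer_iff]
      intro y hy; rw [Set.mem_singleton_iff.1 hy]
    rw [Finset.mem_biUnion]
    refine ⟨p, ?_, ?_⟩
    · rw [Nat.mem_primeFactors]
      refine ⟨hp.out, ?_, Nat.card_pos.ne'⟩
      have hx1 : x ≠ 1 := fun hh => hxN (hh ▸ N.one_mem)
      obtain ⟨k, hk⟩ := (IsPGroup.iff_orderOf.1 P.isPGroup') ⟨x, hxP⟩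
      rw [Subgroup.orderOf_mk] at hk
      have hk0 : k ≠ 0 := by
        rintro rfl
        rw [pow_zero, orderOf_eq_one_iff] at hk
        exact hx1 hk
      exact (dvd_pow_self p hk0).trans (hk ▸ orderOf_dvd_natCard x)
    · rw [Finset.mem_filter]
      refine ⟨Finset.mem_univ _, hp, P, ?_, ⟨x, hxP⟩, ?_, rfl⟩
      · rw [hP]; exact hna x hxN
      · rw [Subgroup.mem_center_iff]
        intro g
        apply Subtype.ext
        have hg : (g : G) ∈ Subgroup.centralizer {x} := hP ▸ g.2
        exact ((Subgroup.mem_centralizer_iff.1 hg) x rfl).symm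
  have hle := (Finset.card_le_card hcov).trans Finset.card_biUnion_le
  have hNle : 2 * Nat.card N ≤ Nat.card G := by
    have h1 := N.card_mul_index
    have h3 : N.index ≠ 1 := fun hh => hN (Subgroup.index_eq_one.1 hh)
    have h4 : N.index ≠ 0 := Subgroup.FiniteIndex.index_ne_zero
    have h5 : 2 ≤ N.index := by omega
    rw [← h1, mul_comm 2]
    exact Nat.mul_le_mul_left _ h5
  have hcardN : (Finset.univ.filter fun x : G => x ∉ N).card + Nat.card N = Nat.card G := by
    have h1 : Nat.card N = (Finset.univ.filter fun x : G => x ∈ N).card := by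
      rw [Nat.card_eq_fintype_card]; exact Fintype.card_subtype _
    rw [h1, add_comm, Finset.card_filter_add_card_filter_not, Finset.card_univ, Nat.card_eq_fintype_card]
  have hGpos : (0 : ℚ) < Nat.card G := by exact_mod_cast Nat.card_pos
  have hb : ∀ p ∈ (Nat.card G).primeFactors, 
      (((Finset.univ.filter fun x : G => ∃ _ : Fact p.Prime, ∃ Q : Sylow p G, ¬ IsMulCommutative (Q : Subgroup G) ∧ 
      ∃ z ∈ Subgroup.center (Q : Subgroup G), (z : G) = x).card : ℕ) : ℚ) ≤ Nat.card G * (1 / (p : ℚ) ^ 2) := by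
    intro p hp
    have hpp : p.Prime := Nat.prime_of_mem_primeFactors hp
    haveI : Fact p.Prime := ⟨hpp⟩
    have h1 := card_filter_le (G := G) p
    have h2 : (Finset.univ.filter fun x : G => ∃ _ : Fact p.Prime, ∃ Q : Sylow p G, ¬ IsMulCommutative (Q : Subgroup G) ∧ 
      ∃ z ∈ Subgroup.center (Q : Subgroup G), (z : G) = x).card ≤ Nat.card {x : G // ∃ Q : Sylow p G, ¬ IsMulCommutative (Q : Subgroup G) ∧ 
      ∃ z ∈ Subgroup.center (Q : Subgroup G), (z : G) = x} := by
      rw [Nat.card_eq_fintype_card, Fintype.card_subtype]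
      apply Finset.card_le_card
      intro x hx
      obtain ⟨_, hx⟩ := (Finset.mem_filter.1 hx).2
      exact Finset.mem_filter.2 ⟨Finset.mem_univ _, hx⟩
    have h3 := (Nat.mul_le_mul_left (p ^ 2) h2).trans h1
    have hp0 : (0 : ℚ) < p := by exact_mod_cast hpp.pos
    rw [mul_one_div, le_div_iff₀ (by positivity), mul_comm]
    exact_mod_cast h3
  have hsum : ((Finset.univ.filter fun x : G => x ∉ N).card : ℚ) ≤ 
      ∑ p ∈ (Nat.card G).primeFactors, Nat.card G * (1 / (p : ℚ) ^ 2) := by
    refine le_trans ?_ (Finset.sum_le_sum hb)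
    exact_mod_cast hle
  rw [← Finset.mul_sum] at hsum
  have hlt := CfsgH1.sum_inv_prime_sq_lt (Nat.card G).primeFactors (fun p hp => Nat.prime_of_mem_primeFactors hp)
  have h6 : ((Finset.univ.filter fun x : G => x ∉ N).card : ℚ) < Nat.card G * (1 / 2) := 
    hsum.trans_lt (mul_lt_mul_of_pos_left hlt hGpos)
  have h7 : ((Finset.univ.filter fun x : G => x ∉ N).card : ℚ) + Nat.card N = Nat.card G := by exact_mod_cast hcardN
  have h8 : (2 : ℚ) * Nat.card N ≤ Nat.card G := by exact_mod_cast hNle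
  linarith

end Cfsg.Agent.S3903
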