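import Cfsg.Statements.S3908
import Cfsg.Agent.H1.BConj

set_option autoImplicit false
open Cfsg

namespace Cfsg.Agent.S3908

open scoped commutatorElement Pointwise

/-- Let G be a finite group in which any two abelian subgroups of the same order are conjugate. Then a Sylow 2-subgroup of G is cyclic, elementary abelian or generalized quaternion, and for an odd prime p a Sylow p-subgroup of G is cyclic or has exponent dividing p. -/
theorem result {G : Type*} [Group G] [Finite G] (hB : ∀ A B : Subgroup G, IsMulCommutative ↥A → IsMulCommutative ↥B → Nat.card ↥A = Nat.card ↥B → ∃ g : G, B = A.map (MulAut.conj g).toMonoidHom) :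
    (∀ P : Sylow 2 G, IsCyclic ↥(P : Subgroup G) ∨ Cfsg.IsElementaryAbelian 2 (P : Subgroup G) ∨ ∃ k : ℕ, Nonempty (↥(P : Subgroup G) ≃* QuaternionGroup (2 ^ k))) ∧
    ∀ (p : ℕ) [Fact p.Prime], p ≠ 2 → ∀ P : Sylow p G, IsCyclic ↥(P : Subgroup G) ∨ ∀ x ∈ (P : Subgroup G), x ^ p = 1 := by
  have key : ∀ (p : ℕ) [Fact p.Prime], ∀ P : Sylow p G, (IsCyclic ↥(P : Subgroup G) ∨ (p = 2 ∧ ∃ n : ℕ, Nonempty (↥(P : Subgroup G) ≃* QuaternionGroup (2 ^ n)))) ∨ ∀ x ∈ (P : Subgroup G), x ^ p = 1 := by
    intro p _ P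
    rcases CfsgH1.BC.key hB P.isPGroup' with h | h
    · exact Or.inl (CfsgH1.punique_classification P.isPGroup' h)
    · exact Or.inr h
  refine ⟨fun P => ?_, fun p _ hp P => ?_⟩
  · rcases key 2 P with (h | ⟨-, h⟩) | h
    · exact Or.inl h
    · exact Or.inr (Or.inr h)
    · right; left
      refine ⟨⟨⟨fun x y => ?_⟩⟩, h⟩
      apply Subtype.ext
      change (x : G) * y = y * x
      have h1 := h x x.2
      have h2 := h y y.2
      have h3 := h _ (mul_mem x.2 y.2)
      rw [sq] at h1 h2 h3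
      have e1 : (x : G)⁻¹ = x := inv_eq_of_mul_eq_one_left h1
      have e2 : (y : G)⁻¹ = y := inv_eq_of_mul_eq_one_left h2
      have e3 : ((x : G) * y)⁻¹ = x * y := inv_eq_of_mul_eq_one_left h3
      rw [← e3, mul_inv_rev, e1, e2]
  · rcases key p P with (h | ⟨h, -⟩) | h
    · exact Or.inl h
    · exact absurd h hp
    · exact Or.inr h

end Cfsg.Agent.S3908
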