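import Cfsg.Statements.S3909
import Cfsg.Agent.H1.BConj

set_option autoImplicit false
open Cfsg

namespace Cfsg.Agent.S3909

open scoped commutatorElement Pointwise

/-- Let G be a finite group in which any two abelian subgroups of the same order are conjugate. Let M be a normal subgroup of G. If M contains an element of the same order as a ∈ G, then a ∈ M; and if M is elementary abelian of order p^t with p prime and t ≥ 2, then M is the unique Sylow p-subgroup of G. -/
theorem result {G : Type*} [Group G] [Finite G] (hB : ∀ A B : Subgroup G, IsMulCommutative ↥A → IsMulCommutative ↥B → Nat.card ↥A = Nat.card ↥B → ∃ g : G, B = A.map (MulAut.conj g).toMonoidHom) (M : Subgroup G) [M.Normal] :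
    (∀ a : G, (∃ m ∈ M, orderOf m = orderOf a) → a ∈ M) ∧
    ∀ (p t : ℕ) [Fact p.Prime], 2 ≤ t → Nat.card ↥M = p ^ t → Cfsg.IsElementaryAbelian p M → ∀ P : Sylow p G, (P : Subgroup G) = M := by
  have key : ∀ a : G, (∃ m ∈ M, orderOf m = orderOf a) → a ∈ M := by
    rintro a ⟨m, hm, hma⟩
    exact CfsgH1.BC.mem_normal hB hm hma
  refine ⟨key, ?_⟩
  intro p t hp ht hM hel P
  have hMp : IsPGroup p M := IsPGroup.of_card hM
  have hMP : M ≤ P := hMp.le_sylow_of_normal P
  -- an abelian subgroup of order p^2 in M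
  obtain ⟨A, hA⟩ := Sylow.exists_subgroup_card_pow_prime (G := M) p (n := 2) (by rw [hM]; exact pow_dvd_pow p ht)
  have hAM : A.map M.subtype ≤ M := Subgroup.map_subtype_le A
  -- an element of order p in M
  have h1 : ∃ m ∈ M, orderOf m = p := by
    haveI : Nontrivial M := by
      rw [← Finite.one_lt_card_iff_nontrivial, hM]
      exact Nat.one_lt_pow (by omega) hp.out.one_lt
    obtain ⟨m, hm⟩ := exists_ne (1 : M)
    refine ⟨m, m.2, ?_⟩
    have h2 := hel.2 m m.2
    exact orderOf_eq_prime h2 (fun h => hm (Subtype.ext h))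
  symm
  apply le_antisymm hMP
  intro x hx
  obtain ⟨k, hk⟩ := IsPGroup.iff_orderOf.1 P.isPGroup' ⟨x, hx⟩
  rw [Subgroup.orderOf_mk] at hk
  rcases Nat.lt_or_ge k 1 with hk0 | hk0
  · have : k = 0 := by omega
    rw [this, pow_zero, orderOf_eq_one_iff] at hk
    rw [hk]; exact M.one_mem
  rcases Nat.lt_or_ge k 2 with hk1 | hk1
  · have : k = 1 := by omega
    rw [this, pow_one] at hk
    obtain ⟨m, hm, hmo⟩ := h1
    exact key x ⟨m, hm, by rw [hmo, hk]⟩
  · exfalso
    have h2 := CfsgH1.orderOf_pow_sub hk (j := 2) hk1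
    obtain ⟨g, hg⟩ := hB (A.map M.subtype) (Subgroup.zpowers (x ^ p ^ (k - 2))) (by
      refine ⟨⟨?_⟩⟩
      rintro ⟨_, a, ha, rfl⟩ ⟨_, b, hb, rfl⟩
      apply Subtype.ext
      change (a : G) * b = b * a
      exact congrArg Subtype.val (hel.1.is_comm.comm a b)) (CfsgH1.isMulCommutative_zpowers _) (by
        rw [Subgroup.card_map_of_injective (Subgroup.subtype_injective M), hA, Nat.card_zpowers, h2])
    have h3 : x ^ p ^ (k - 2) ∈ (A.map M.subtype).map (MulAut.conj g).toMonoidHom := by rw [← hg]; exact Subgroup.mem_zpowers _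
    obtain ⟨_, ⟨a, ha, rfl⟩, h4⟩ := h3
    have h5 : (x ^ p ^ (k - 2)) ^ p = 1 := by
      rw [← h4]
      change (g * (a : G) * g⁻¹) ^ p = 1
      rw [conj_pow, hel.2 a a.2]; group
    have h6 := orderOf_dvd_of_pow_eq_one h5
    rw [h2] at h6
    have h7 := Nat.le_of_dvd hp.out.pos h6
    have := hp.out.one_lt
    nlinarith

end Cfsg.Agent.S3909
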