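import Cfsg.Statements.S3917
import Cfsg.Agent.H1.PUnique
import Cfsg.Agent.H1.MC

set_option autoImplicit false
open Cfsg

namespace Cfsg.Agent.S3917

open scoped commutatorElement Pointwise

/-- Say that a group has self-centralizing non-cyclic subgroups when every non-cyclic subgroup H satisfies C_G(H) ≤ H. A finite abelian group with self-centralizing non-cyclic subgroups is cyclic or elementary abelian of order p² for a prime p. -/
theorem result {G : Type*} [CommGroup G] [Finite G] (hX : (∀ H : Subgroup G, ¬ IsCyclic ↥H → Subgroup.centralizer (H : Set G) ≤ H)) :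
    IsCyclic G ∨ ∃ p : ℕ, p.Prime ∧ Nat.card G = p ^ 2 ∧ Monoid.exponent G = p := by
  classical
  by_cases hcyc : IsCyclic G
  · exact Or.inl hcyc
  right
  -- every noncyclic subgroup is everything
  have h1 : ∀ H : Subgroup G, ¬ IsCyclic H → H = ⊤ := by
    intro H hH
    rw [eq_top_iff]
    refine le_trans ?_ (hX H hH)
    intro g _
    rw [Subgroup.mem_centralizer_iff]
    intro h _
    exact mul_comm _ _
  -- there is a prime with two subgroups of order p
  have h2 : ∃ p : ℕ, p.Prime ∧ ∃ H K : Subgroup G, Nat.card H = p ∧ Nat.card K = p ∧ H ≠ K := by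
    by_contra hcon
    push Not at hcon
    apply hcyc
    apply CfsgH1.isCyclic_of_torsion_le (fun a b => mul_comm a b)
    intro q hq
    haveI : Fact q.Prime := ⟨hq⟩
    have hcard : ∀ b : G, b ≠ 1 → b ^ q = 1 → Nat.card (Subgroup.zpowers b) = q := by
      intro b hb1 hbq
      rw [Nat.card_zpowers, orderOf_eq_prime hbq hb1]
    by_cases hex : ∃ a : G, a ≠ 1 ∧ a ^ q = 1
    · obtain ⟨a, ha1, haq⟩ := hex
      have h2 : ∀ b : {b : G // b ^ q = 1}, (b : G) ∈ Subgroup.zpowers a := by
        rintro ⟨b, hbq⟩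
        by_cases hb1 : b = 1
        · subst hb1; exact (Subgroup.zpowers a).one_mem
        · rw [hcon q hq _ _ (hcard a ha1 haq) (hcard b hb1 hbq)]
          exact Subgroup.mem_zpowers _
      have h3 := Nat.card_le_card_of_injective (fun b : {b : G // b ^ q = 1} => (⟨(b : G), h2 b⟩ : Subgroup.zpowers a)) 
        (by intro b c hbc
            have : (b : G) = (c : G) := congrArg (fun z : Subgroup.zpowers a => (z : G)) hbc
            exact Subtype.ext this)
      rwa [hcard a ha1 haq] at h3
    · push Not at hex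
      have : Subsingleton {a : G // a ^ q = 1} := by
        constructor
        rintro ⟨a, ha⟩ ⟨b, hb⟩
        have h1 : a = 1 := by by_contra h; exact hex a h ha
        have h2 : b = 1 := by by_contra h; exact hex b h hb
        subst h1; subst h2; rfl
      have h1 : Nat.card {a : G // a ^ q = 1} ≤ 1 := Finite.card_le_one_iff_subsingleton.2 this
      exact h1.trans hq.one_lt.le
  obtain ⟨p, hp, H, K, hH, hK, hHK⟩ := h2
  haveI : Fact p.Prime := ⟨hp⟩
  have hinf : H ⊓ K = ⊥ := by
    have h3 : Nat.card ↥(H ⊓ K) ∣ p := hH ▸ Subgroup.card_dvd_of_le inf_le_left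
    rcases (Nat.dvd_prime hp).1 h3 with h | h
    · exact Subgroup.card_eq_one.1 h
    · exfalso
      apply hHK
      have e1 : H ⊓ K = H := Subgroup.eq_of_le_of_card_ge inf_le_left (by rw [hH, h])
      have e2 : H ⊓ K = K := Subgroup.eq_of_le_of_card_ge inf_le_right (by rw [hK, h])
      rw [← e1, e2]
  have hcard : Nat.card ↥(H ⊔ K) = p ^ 2 := by
    have := CfsgH1.card_sup_mul_card_inf (H := H) (K := K) (CfsgH1.le_normalizer_of_normal _ _)
    rw [hinf, Subgroup.card_bot, mul_one, hH, hK] at this
    rw [this, sq]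
  have hexp : ∀ x ∈ H ⊔ K, x ^ p = 1 := by
    intro x hx
    obtain ⟨h, hh, k, hk, rfl⟩ := Subgroup.mem_sup.1 hx
    rw [mul_pow]
    have e1 : h ^ p = 1 := by rw [← hH]; exact congrArg (fun z : H => (z : G)) (pow_card_eq_one' (x := (⟨h, hh⟩ : H)))
    have e2 : k ^ p = 1 := by rw [← hK]; exact congrArg (fun z : K => (z : G)) (pow_card_eq_one' (x := (⟨k, hk⟩ : K)))
    rw [e1, e2, one_mul]
  have htop : H ⊔ K = ⊤ := by
    apply h1
    intro hc
    obtain ⟨g, hg⟩ := hc.exists_generator
    have h3 : orderOf g = p ^ 2 := by rw [orderOf_eq_card_of_forall_mem_zpowers hg, hcard]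
    have h4 : orderOf g ∣ p := orderOf_dvd_of_pow_eq_one (Subtype.ext (hexp _ g.2))
    rw [h3] at h4
    have := Nat.le_of_dvd hp.pos h4
    have := hp.one_lt
    nlinarith
  refine ⟨p, hp, ?_, ?_⟩
  · rw [← hcard, htop, Subgroup.card_top]
  · apply Nat.dvd_antisymm
    · apply Monoid.exponent_dvd_of_forall_pow_eq_one
      intro x
      exact hexp x (by rw [htop]; exact Subgroup.mem_top x)
    · have h5 : p ∣ Nat.card G := by
        rw [← hH]; exact Subgroup.card_subgroup_dvd_card H
      obtain ⟨x, hx⟩ := exists_prime_orderOf_dvd_card' (G := G) p h5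
      rw [← hx]; exact Monoid.order_dvd_exponent x

end Cfsg.Agent.S3917
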