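import Cfsg.Statements.S3918
import Cfsg.Agent.H1.PGrp2
import Cfsg.Agent.H1.MinNormal
import Cfsg.Agent.H3.Rank2

set_option autoImplicit false
open Cfsg

namespace Cfsg.Agent.S3918

open scoped commutatorElement Pointwise

theorem main {G : Type*} [Group G] [Finite G] {p : ℕ} [hpf : Fact p.Prime] (hp : p ≠ 2) (hG : IsPGroup p G) (hna : ¬ IsMulCommutative G) :
    (∀ H : Subgroup G, ¬ IsCyclic ↥H → Subgroup.centralizer (H : Set G) ≤ H) ↔ Nat.card G = p ^ 3 := by
  classical
  have hp2 := hpf.out.two_le
  have hnc : ¬ IsCyclic G := by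
    intro hc
    apply hna
    letI := hc.commGroup
    exact ⟨⟨fun a b => mul_comm a b⟩⟩
  have habel : ∀ H : Subgroup G, Nat.card H = p ^ 2 → ∀ a ∈ H, ∀ b ∈ H, a * b = b * a := by
    intro H hH a ha b hb
    exact congrArg (fun z : H => (z : G)) (IsPGroup.commutative_of_card_eq_prime_sq hH ⟨a, ha⟩ ⟨b, hb⟩)
  obtain ⟨n, hn⟩ := IsPGroup.iff_card.1 hG
  have hn3 : 3 ≤ n := by
    by_contra hlt
    have : n = 0 ∨ n = 1 ∨ n = 2 := by omega
    apply hna
    rcases this with h | h | h
    · rw [h, pow_zero] at hn
      haveI := (Nat.card_eq_one_iff_unique.1 hn).1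
      exact ⟨⟨fun a b => Subsingleton.elim _ _⟩⟩
    · rw [h, pow_one] at hn
      haveI := isCyclic_of_prime_card hn
      exact absurd this hnc
    · rw [h] at hn
      exact ⟨⟨fun a b => IsPGroup.commutative_of_card_eq_prime_sq hn a b⟩⟩
  constructor
  · intro h
    obtain ⟨E, hEn, hEc, hEe, hEcard⟩ := CfsgH3.exists_normal_sq hp hG hnc
    haveI := hEn
    have hEnc : ¬ IsCyclic E := by
      intro hc
      obtain ⟨g, hg⟩ := hc.exists_generator
      have h3 : orderOf g = p ^ 2 := by rw [orderOf_eq_card_of_forall_mem_zpowers hg, hEcard]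
      have h4 : orderOf g ∣ p := orderOf_dvd_of_pow_eq_one (Subtype.ext (hEe _ g.2))
      rw [h3] at h4
      have := Nat.le_of_dvd hpf.out.pos h4
      nlinarith
    have h1 := h E hEnc
    have h2 := CfsgH3.centralizer_index_le hG hEc hEcard.le
    have h3 : Nat.card G ≤ p ^ 3 := by
      rw [← Subgroup.index_mul_card (Subgroup.centralizer (E : Set G))]
      calc (Subgroup.centralizer (E : Set G)).index * Nat.card (Subgroup.centralizer (E : Set G)) ≤ p * p ^ 2 := 
            Nat.mul_le_mul h2 (hEcard ▸ Subgroup.card_le_of_le h1)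
        _ = p ^ 3 := by ring
    rw [hn] at h3 ⊢
    have h4 : n ≤ 3 := (Nat.pow_le_pow_iff_right hpf.out.one_lt).1 h3
    rw [show n = 3 by omega]
  · intro hc H hH
    -- order of H
    obtain ⟨k, hk⟩ := IsPGroup.iff_card.1 (hG.to_subgroup H)
    have hk2 : 2 ≤ k := by
      by_contra hlt
      apply hH
      have : k = 0 ∨ k = 1 := by omega
      rcases this with h | h
      · rw [h, pow_zero] at hk
        haveI := (Nat.card_eq_one_iff_unique.1 hk).1
        infer_instance
      · rw [h, pow_one] at hk
        exact isCyclic_of_prime_card hk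
    have hkd : k ≤ 3 := by
      have h1 := Subgroup.card_le_card_group H
      rw [hk, hc] at h1
      exact (Nat.pow_le_pow_iff_right hpf.out.one_lt).1 h1
    rcases (show k = 2 ∨ k = 3 by omega) with h2 | h2
    · rw [h2] at hk
      have h3 : H ≤ Subgroup.centralizer (H : Set G) := by
        intro x hx
        rw [Subgroup.mem_centralizer_iff]
        intro y hy
        exact habel H hk y hy x hx
      have h4 : Subgroup.centralizer (H : Set G) ≠ ⊤ := by
        intro htop
        -- H ≤ Z(G), so G is abelian
        have h5 : H ≤ Subgroup.center G := by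
          intro x hx
          rw [Subgroup.mem_center_iff]
          intro g
          have : g ∈ Subgroup.centralizer (H : Set G) := by rw [htop]; exact Subgroup.mem_top g
          exact ((Subgroup.mem_centralizer_iff.1 this) x hx).symm
        have h6 : (Subgroup.center G).index ∣ p := by
          have h7 := Subgroup.index_mul_card H
          rw [hk, hc] at h7
          have h8 : H.index = p := by
            apply Nat.eq_of_mul_eq_mul_right (pow_pos hpf.out.pos 2)
            rw [h7]; ring
          rw [← h8]
          exact Subgroup.index_dvd_of_le h5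
        have h9 : IsCyclic (G ⧸ Subgroup.center G) := by
          rcases (Nat.dvd_prime hpf.out).1 h6 with h | h
          · haveI : Subsingleton (G ⧸ Subgroup.center G) := (Nat.card_eq_one_iff_unique.1 h).1
            infer_instance
          · exact isCyclic_of_prime_card (p := p) h
        apply hna
        exact ⟨⟨fun a b => commutative_of_cyclic_center_quotient (QuotientGroup.mk' (Subgroup.center G)) (by simp) a b⟩⟩
      have h5 : Nat.card (Subgroup.centralizer (H : Set G)) ≤ p ^ 2 := by
        obtain ⟨l, hl⟩ := IsPGroup.iff_card.1 (hG.to_subgroup (Subgroup.centralizer (H : Set G)))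
        have h6 := CfsgH1.card_lt_card_of_ne_top h4
        rw [hl, hc] at h6
        rw [hl]
        have h7 : l < 3 := (Nat.pow_lt_pow_iff_right hpf.out.one_lt).1 h6
        exact Nat.pow_le_pow_right hpf.out.pos (by omega)
      exact (Subgroup.eq_of_le_of_card_ge h3 (by rw [hk]; exact h5)).ge
    · have : H = ⊤ := Subgroup.eq_top_of_card_eq H (by rw [hk, hc, h2])
      rw [this]; exact le_top

/-- Say that a group has self-centralizing non-cyclic subgroups when every non-cyclic subgroup H satisfies C_G(H) ≤ H. For an odd prime p, a finite non-abelian p-group has self-centralizing non-cyclic subgroups if and only if it has order p³. -/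
theorem result {G : Type*} [Group G] [Finite G] {p : ℕ} [Fact p.Prime] (hp : p ≠ 2) (hG : IsPGroup p G) (hna : ¬ IsMulCommutative G) :
    (∀ H : Subgroup G, ¬ IsCyclic ↥H → Subgroup.centralizer (H : Set G) ≤ H) ↔ Nat.card G = p ^ 3 := by

  exact main hp hG hna

end Cfsg.Agent.S3918
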