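import Cfsg.Statements.S3920
import Cfsg.Agent.H1.Basic

set_option autoImplicit false
open Cfsg

namespace Cfsg.Agent.S3920

open scoped commutatorElement Pointwise

open DihedralGroup in
theorem rot_cyclic {n : ℕ} [NeZero n] {H : Subgroup (DihedralGroup n)} (h : ∀ x ∈ H, ∃ i : ZMod n, x = r i) : IsCyclic H := by
  let K : Subgroup (DihedralGroup n) := Subgroup.zpowers (r 1)
  have hK : H ≤ K := by
    intro x hx
    obtain ⟨i, rfl⟩ := h x hx
    rw [Subgroup.mem_zpowers_iff]
    refine ⟨(i.val : ℤ), ?_⟩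
    rw [zpow_natCast, r_one_pow, ZMod.natCast_zmod_val]
  exact isCyclic_of_injective (Subgroup.inclusion hK) (Subgroup.inclusion_injective hK)

open DihedralGroup in
theorem exists_refl {n : ℕ} [NeZero n] {H : Subgroup (DihedralGroup n)} (h : ¬ IsCyclic H) : ∃ i : ZMod n, sr i ∈ H := by
  by_contra hcon
  push Not at hcon
  apply h
  apply rot_cyclic
  rintro (i | i) hx
  · exact ⟨i, rfl⟩
  · exact absurd hx (hcon i)

open DihedralGroup in
theorem exists_rot {n : ℕ} [NeZero n] {H : Subgroup (DihedralGroup n)} (h : ¬ IsCyclic H) : ∃ i : ZMod n, i ≠ 0 ∧ r i ∈ H := by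
  by_contra hcon
  push Not at hcon
  obtain ⟨j, hj⟩ := exists_refl h
  apply h
  have hK : H ≤ Subgroup.zpowers (sr j) := by
    rintro (i | i) hx
    · by_cases hi : i = 0
      · rw [hi]; exact (Subgroup.zpowers (sr j)).one_mem
      · exact absurd hx (hcon i hi)
    · have h1 : r (j - i) ∈ H := by
        have := H.mul_mem hx hj
        rwa [sr_mul_sr] at this
      by_cases hi : j - i = 0
      · rw [sub_eq_zero.1 hi]; exact Subgroup.mem_zpowers _
      · exact absurd h1 (hcon _ hi)
  exact isCyclic_of_injective (Subgroup.inclusion hK) (Subgroup.inclusion_injective hK)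

open DihedralGroup in
theorem main (n : ℕ) (hn : 3 ≤ n) : (∀ H : Subgroup (DihedralGroup n), ¬ IsCyclic ↥H → Subgroup.centralizer (H : Set (DihedralGroup n)) ≤ H) ↔ (Odd n ∨ ∃ k : ℕ, n = 2 ^ k) := by
  haveI : NeZero n := ⟨by omega⟩
  have h2z : ∀ j : ZMod n, j + j = 0 → j = 0 ∨ (Even n ∧ j = ((n / 2 : ℕ) : ZMod n)) := by
    intro j hj
    have h1 : ((j.val + j.val : ℕ) : ZMod n) = 0 := by
      push_cast
      rw [ZMod.natCast_zmod_val]; exact hj
    rw [ZMod.natCast_eq_zero_iff] at h1
    have h2 := ZMod.val_lt j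
    obtain ⟨c, hc⟩ := h1
    have hc2 : c < 2 := by
      by_contra h
      have : n * 2 ≤ n * c := Nat.mul_le_mul_left n (by omega)
      omega
    interval_cases c
    · left
      have : j.val = 0 := by omega
      exact (ZMod.val_eq_zero j).1 this
    · right
      refine ⟨⟨j.val, by omega⟩, ?_⟩
      have h3 : n / 2 = j.val := by omega
      rw [h3, ZMod.natCast_zmod_val]
  constructor
  · intro h
    by_contra hcon
    push Not at hcon
    obtain ⟨hne, hnp⟩ := hcon
    rw [Nat.not_odd_iff_even] at hne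
    -- n = 2^k * m
    obtain ⟨k, m, hm, hkm⟩ := Nat.exists_eq_two_pow_mul_odd (n := n) (by omega)
    have hk : k ≠ 0 := by
      rintro rfl
      rw [pow_zero, one_mul] at hkm
      rw [hkm] at hne
      exact (Nat.not_odd_iff_even.2 hne) hm
    have hm1 : m ≠ 1 := by
      rintro rfl
      exact hnp k (by rw [hkm, mul_one])
    have hm3 : 3 ≤ m := by rcases hm with ⟨t, ht⟩; omega
    -- H = ⟨r^(2^k), sr 0⟩
    let H : Subgroup (DihedralGroup n) := 
      { carrier := {x | (∃ i : ℕ, x = r ((2 ^ k * i : ℕ) : ZMod n)) ∨ (∃ i : ℕ, x = sr ((2 ^ k * i : ℕ) : ZMod n))}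
        mul_mem' := by
          have hneg : ∀ i j : ℕ, ∃ l : ℕ, ((2 ^ k * j : ℕ) : ZMod n) - ((2 ^ k * i : ℕ) : ZMod n) = ((2 ^ k * l : ℕ) : ZMod n) := by
            intro i j
            refine ⟨j + i * (m * n - 1), ?_⟩
            have h1 : i * (m * n - 1) + i = i * (m * n) := by
              have : 1 ≤ m * n := by nlinarith
              calc i * (m * n - 1) + i = i * (m * n - 1 + 1) := by ring
                _ = _ := by rw [Nat.sub_add_cancel this]
            have h2 : ((i * (m * n - 1) : ℕ) : ZMod n) = - (i : ZMod n) := by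
              have h3 : ((i * (m * n - 1) + i : ℕ) : ZMod n) = 0 := by
                rw [h1]; push_cast; simp
              push_cast at h3 ⊢
              linear_combination h3
            push_cast at h2 ⊢
            linear_combination (-(2 : ZMod n) ^ k) * h2
          rintro a b (⟨i, rfl⟩ | ⟨i, rfl⟩) (⟨j, rfl⟩ | ⟨j, rfl⟩)
          · left; exact ⟨i + j, by rw [r_mul_r]; push_cast; ring_nf⟩
          · right
            obtain ⟨l, hl⟩ := hneg i j
            exact ⟨l, by rw [r_mul_sr, hl]⟩
          · right; exact ⟨i + j, by rw [sr_mul_r]; push_cast; ring_nf⟩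
          · left
            obtain ⟨l, hl⟩ := hneg i j
            exact ⟨l, by rw [sr_mul_sr, hl]⟩
        one_mem' := Or.inl ⟨0, by rw [one_def]; simp⟩
        inv_mem' := by
          have hneg : ∀ i : ℕ, ∃ l : ℕ, - ((2 ^ k * i : ℕ) : ZMod n) = ((2 ^ k * l : ℕ) : ZMod n) := by
            intro i
            refine ⟨i * (m * n - 1), ?_⟩
            have h1 : i * (m * n - 1) + i = i * (m * n) := by
              have : 1 ≤ m * n := by nlinarith
              calc i * (m * n - 1) + i = i * (m * n - 1 + 1) := by ring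
                _ = _ := by rw [Nat.sub_add_cancel this]
            have h2 : ((i * (m * n - 1) : ℕ) : ZMod n) = - (i : ZMod n) := by
              have h3 : ((i * (m * n - 1) + i : ℕ) : ZMod n) = 0 := by
                rw [h1]; push_cast; simp
              push_cast at h3 ⊢
              linear_combination h3
            push_cast at h2 ⊢
            linear_combination (-(2 : ZMod n) ^ k) * h2
          rintro a (⟨i, rfl⟩ | ⟨i, rfl⟩)
          · left
            obtain ⟨l, hl⟩ := hneg i
            exact ⟨l, by rw [inv_r, hl]⟩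
          · right; exact ⟨i, by rw [inv_sr]⟩ }
    have hH : ∀ x, x ∈ H ↔ (∃ i : ℕ, x = r ((2 ^ k * i : ℕ) : ZMod n)) ∨ (∃ i : ℕ, x = sr ((2 ^ k * i : ℕ) : ZMod n)) := fun _ => Iff.rfl
    have hHc : ¬ IsCyclic H := by
      intro hc
      have hcom : ∀ a ∈ H, ∀ b ∈ H, a * b = b * a := by
        intro a ha b hb
        letI := hc.commGroup
        exact congrArg (fun z : H => (z : DihedralGroup n)) (mul_comm (⟨a, ha⟩ : H) ⟨b, hb⟩)
      have h1 := hcom (r ((2 ^ k * 1 : ℕ) : ZMod n)) ((hH _).2 (Or.inl ⟨1, rfl⟩)) (sr ((2 ^ k * 0 : ℕ) : ZMod n)) ((hH _).2 (Or.inr ⟨0, rfl⟩))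
      rw [r_mul_sr, sr_mul_r] at h1
      have h2 := DihedralGroup.sr.inj h1
      have h3 : ((2 ^ k * 2 : ℕ) : ZMod n) = 0 := by
        push_cast at h2 ⊢
        linear_combination -h2
      rw [ZMod.natCast_eq_zero_iff, hkm] at h3
      have h4 := Nat.dvd_of_mul_dvd_mul_left (by positivity) h3
      have := Nat.le_of_dvd (by norm_num) h4
      omega
    have hz : r ((n / 2 : ℕ) : ZMod n) ∈ Subgroup.centralizer (H : Set (DihedralGroup n)) := by
      have h5 : ((n / 2 : ℕ) : ZMod n) + ((n / 2 : ℕ) : ZMod n) = 0 := by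
        have h6 : ((n / 2 + n / 2 : ℕ) : ZMod n) = 0 := by
          have : n / 2 + n / 2 = n := by rcases hne with ⟨t, ht⟩; omega
          rw [this]; simp
        push_cast at h6
        exact h6
      rw [Subgroup.mem_centralizer_iff]
      rintro (i | i) _
      · rw [r_mul_r, r_mul_r, add_comm]
      · rw [sr_mul_r, r_mul_sr]
        congr 1
        linear_combination h5
    have h7 := h H hHc hz
    rw [hH] at h7
    rcases h7 with ⟨i, hi⟩ | ⟨i, hi⟩
    · have h8 := DihedralGroup.r.inj hi
      rw [ZMod.natCast_eq_natCast_iff] at h8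
      have h9 : 2 ^ k ∣ n := ⟨m, hkm⟩
      have h10 : n / 2 ≡ 2 ^ k * i [MOD 2 ^ k] := h8.of_dvd h9
      have h11 : 2 ^ k ∣ n / 2 := by
        have h12 : 2 ^ k * i ≡ 0 [MOD 2 ^ k] := (Nat.modEq_zero_iff_dvd).2 (dvd_mul_right _ _)
        exact (Nat.modEq_zero_iff_dvd).1 (h10.trans h12)
      obtain ⟨c, hc⟩ := h11
      have h13 : n = 2 ^ k * (2 * c) := by
        have : n / 2 + n / 2 = n := by rcases hne with ⟨t, ht⟩; omega
        rw [hc] at this
        rw [← this]; ring
      rw [hkm] at h13
      have h14 := Nat.eq_of_mul_eq_mul_left (by positivity) h13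
      rcases hm with ⟨t, ht⟩
      omega
    · exact absurd hi (by simp)
  · intro h H hHc
    obtain ⟨i, hi⟩ := exists_refl hHc
    have hcent : ∀ x ∈ Subgroup.centralizer (H : Set (DihedralGroup n)), (x ∈ H) ∨ (Even n ∧ (x = r ((n / 2 : ℕ) : ZMod n) ∨ x * sr i = r ((n / 2 : ℕ) : ZMod n))) := by
      intro x hx
      have h1 := (Subgroup.mem_centralizer_iff.1 hx) _ hi
      rcases x with j | j
      · rw [sr_mul_r, r_mul_sr] at h1
        have h2 := DihedralGroup.sr.inj h1
        rcases h2z j (by linear_combination h2) with h3 | ⟨h3, h4⟩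
        · left; rw [h3]; exact H.one_mem
        · right; exact ⟨h3, Or.inl (by rw [← h4])⟩
      · rw [sr_mul_sr, sr_mul_sr] at h1
        have h2 := DihedralGroup.r.inj h1
        rcases h2z (i - j) (by linear_combination -h2) with h3 | ⟨h3, h4⟩
        · left; rw [← sub_eq_zero.1 h3]; exact hi
        · right; refine ⟨h3, Or.inr ?_⟩; rw [sr_mul_sr, ← h4]
    rcases h with hodd | ⟨k, hk⟩
    · intro x hx
      rcases hcent x hx with h1 | ⟨h1, -⟩
      · exact h1
      · exact absurd hodd (Nat.not_odd_iff_even.2 h1)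
    · have hz : r ((n / 2 : ℕ) : ZMod n) ∈ H := by
        obtain ⟨j, hj0, hj⟩ := exists_rot hHc
        -- j.val = 2^a * b with b odd
        have hjv : j.val ≠ 0 := fun h => hj0 ((ZMod.val_eq_zero j).1 h)
        obtain ⟨a, b, hb, hab⟩ := Nat.exists_eq_two_pow_mul_odd hjv
        have hjlt := ZMod.val_lt j
        have hak : a < k := by
          have h1 : 2 ^ a ≤ j.val := by
            rw [hab]; exact Nat.le_mul_of_pos_right _ hb.pos
          have h1' : 2 ^ a < 2 ^ k := by
            calc 2 ^ a ≤ j.val := h1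
              _ < n := hjlt
              _ = 2 ^ k := hk
          exact (Nat.pow_lt_pow_iff_right (by norm_num)).1 h1'
        have h2 : (r j) ^ (2 ^ (k - 1 - a)) = r ((n / 2 : ℕ) : ZMod n) := by
          rw [← ZMod.natCast_zmod_val j, ← r_one_pow, ← pow_mul, r_one_pow]
          congr 1
          rw [ZMod.natCast_eq_natCast_iff, hab]
          have h3 : n / 2 = 2 ^ (k - 1) := by
            rw [hk]
            obtain ⟨l, rfl⟩ : ∃ l, k = l + 1 := ⟨k - 1, by omega⟩
            rw [pow_succ]; simp
          rw [h3]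
          have h4 : 2 ^ a * b * 2 ^ (k - 1 - a) = 2 ^ (k - 1) * b := by
            rw [mul_comm (2 ^ a) b, mul_assoc, ← pow_add]
            rw [show a + (k - 1 - a) = k - 1 by omega, mul_comm]
          rw [h4]
          obtain ⟨t, ht⟩ := hb
          rw [ht, mul_add, mul_one]
          have h5 : 2 ^ (k - 1) * (2 * t) = n * t := by
            rw [hk]
            obtain ⟨l, rfl⟩ : ∃ l, k = l + 1 := ⟨k - 1, by omega⟩
            rw [pow_succ]; simp; ring
          rw [h5]
          have h6 : n * t ≡ 0 [MOD n] := (Nat.modEq_zero_iff_dvd).2 (dvd_mul_right _ _)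
          simpa using h6.add_right (2 ^ (k - 1))
        rw [← h2]
        exact H.pow_mem hj _
      intro x hx
      rcases hcent x hx with h1 | ⟨-, h1 | h1⟩
      · exact h1
      · rw [h1]; exact hz
      · rw [← h1] at hz
        exact (H.mul_mem_cancel_right hi).1 hz

/-- Say that a group has self-centralizing non-cyclic subgroups when every non-cyclic subgroup H satisfies C_G(H) ≤ H. For n ≥ 3, the dihedral group of order 2n has self-centralizing non-cyclic subgroups if and only if n is odd or a power of 2. -/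
theorem result (n : ℕ) (hn : 3 ≤ n) : (∀ H : Subgroup (DihedralGroup n), ¬ IsCyclic ↥H → Subgroup.centralizer (H : Set (DihedralGroup n)) ≤ H) ↔ (Odd n ∨ ∃ k : ℕ, n = 2 ^ k) := by

  exact main n hn

end Cfsg.Agent.S3920
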