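import Cfsg.Statements.S3937
import Cfsg.Agent.H1.Engel

set_option autoImplicit false
open Cfsg

namespace Cfsg.Agent.S3937

open scoped commutatorElement Pointwise

theorem foldl_eq {G : Type*} [Group G] (g : G) (n : ℕ) : ∀ x : G, (List.replicate n g).foldl (fun a b => a * b * a⁻¹ * b⁻¹) x = (fun a => a * g * a⁻¹ * g⁻¹)^[n] x := by
  induction n with
  | zero => intro x; rfl
  | succ n ih =>
    intro x
    rw [List.replicate_succ, List.foldl_cons, ih, Function.iterate_succ_apply]

/-- Baer's characterization of the Fitting subgroup: in a finite group G, an element g lies in the Fitting subgroup if and only if g is a left Engel element, that is, for every x there is n with [x, g, g, …, g] = 1 (n entries g, [a, b] = aba⁻¹b⁻¹). -/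
theorem result {G : Type*} [Group G] [Finite G] (g : G) :
    g ∈ Cfsg.fittingSubgroup G ↔ ∀ x : G, ∃ n : ℕ, (List.replicate n g).foldl (fun a b => a * b * a⁻¹ * b⁻¹) x = 1 := by

  simp only [foldl_eq]
  constructor
  · intro hg x
    obtain ⟨n, hn⟩ := (Subgroup.isNilpotent_iff_lowerCentralSeries (Cfsg.fittingSubgroup G)).1 CfsgH2.isNilpotent_fittingSubgroup
    have hF : (Cfsg.fittingSubgroup G).Normal := inferInstance
    have h1 : x * g * x⁻¹ * g⁻¹ ∈ Cfsg.fittingSubgroup G := (Cfsg.fittingSubgroup G).mul_mem (hF.conj_mem g hg x) ((Cfsg.fittingSubgroup G).inv_mem hg)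
    refine ⟨n + 1, ?_⟩
    rw [Function.iterate_succ_apply]
    have key : ∀ k : ℕ, (fun a => a * g * a⁻¹ * g⁻¹)^[k] (x * g * x⁻¹ * g⁻¹) ∈ (Cfsg.fittingSubgroup G).lowerCentralSeries k := by
      intro k
      induction k with
      | zero => exact h1
      | succ k ih =>
        rw [Function.iterate_succ_apply']
        exact Subgroup.commutator_mem_commutator ih hg
    have h2 := key n
    rw [hn] at h2
    exact h2
  · intro h
    have h1 := CfsgH1.engel_subnormal _ G rfl g h
    have h2 : Group.IsNilpotent (Subgroup.zpowers g) := by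
      letI : CommGroup (Subgroup.zpowers g) := IsCyclic.commGroup
      exact (inferInstance : Group.IsNilpotent (Subgroup.zpowers g))
    exact CfsgH2.IsSubnormal.le_fittingSubgroup h1 h2 (Subgroup.mem_zpowers g)

end Cfsg.Agent.S3937
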