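import Cfsg.Statements.S3941
import Cfsg.Agent.H1.PClosed
import Cfsg.Agent.H1.AlmSimp

set_option autoImplicit false
open Cfsg

namespace Cfsg.Agent.S3941

open scoped commutatorElement Pointwise

open Equiv Equiv.Perm in
theorem case5 (h : ∀ H : Subgroup ↥(alternatingGroup (Fin 5)), H ≠ ⊤ → 3 ∣ Nat.card ↥H → Cfsg.IsPClosed 3 ↥H) : False := by
  haveI : Fact (Nat.Prime 3) := ⟨Nat.prime_three⟩
  let H : Subgroup (alternatingGroup (Fin 5)) := 
    { carrier := {g | (g : Perm (Fin 5)) 4 = 4}
      mul_mem' := by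
        intro a b ha hb
        change (a : Perm (Fin 5)) ((b : Perm (Fin 5)) 4) = 4
        rw [show (b : Perm (Fin 5)) 4 = 4 from hb]; exact ha
      one_mem' := rfl
      inv_mem' := by
        intro a ha
        change ((a : Perm (Fin 5))⁻¹) 4 = 4
        rw [Perm.inv_eq_iff_eq]; exact (show (a : Perm (Fin 5)) 4 = 4 from ha).symm }
  let c : alternatingGroup (Fin 5) := ⟨swap 0 1 * swap 1 2, mem_alternatingGroup.2 (by decide)⟩
  let d : alternatingGroup (Fin 5) := ⟨swap 1 2 * swap 2 3, mem_alternatingGroup.2 (by decide)⟩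
  have hc : c ∈ H := by change (swap 0 1 * swap 1 2 : Perm (Fin 5)) 4 = 4; decide
  have hd : d ∈ H := by change (swap 1 2 * swap 2 3 : Perm (Fin 5)) 4 = 4; decide
  have hc3 : c ^ 3 = 1 := by decide
  have hd3 : d ^ 3 = 1 := by decide
  have hcd : (c * d) ^ 2 = 1 := by decide
  have hcd1 : c * d ≠ 1 := by decide
  have hc1 : c ≠ 1 := by decide
  have hHtop : H ≠ ⊤ := by
    intro h
    have h1 : (⟨swap 0 1 * swap 1 4, mem_alternatingGroup.2 (by decide)⟩ : alternatingGroup (Fin 5)) ∈ H := by rw [h]; exact Subgroup.mem_top _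
    have h2 : (swap 0 1 * swap 1 4 : Perm (Fin 5)) 4 = 4 := h1
    revert h2; decide
  have hord : ∀ x : alternatingGroup (Fin 5), x ∈ H → x ^ 3 = 1 → IsPGroup 3 (Subgroup.zpowers x) := by
    intro x _ hx
    rintro ⟨y, hy⟩
    obtain ⟨k, rfl⟩ := Subgroup.mem_zpowers_iff.1 hy
    refine ⟨1, Subtype.ext ?_⟩
    change (x ^ k) ^ (3 ^ 1) = 1
    rw [pow_one, ← zpow_natCast, ← zpow_mul, mul_comm, zpow_mul, zpow_natCast, hx, one_zpow]
  have h3 : 3 ∣ Nat.card H := by
    have h4 : orderOf (⟨c, hc⟩ : H) = 3 := orderOf_eq_prime (Subtype.ext hc3) (fun h => hc1 (congrArg Subtype.val h))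
    rw [← h4]; exact orderOf_dvd_natCard _
  have hcl := h H hHtop h3
  have hle : ∀ x (hx : x ∈ H), x ^ 3 = 1 → (⟨x, hx⟩ : H) ∈ Cfsg.pCore 3 H := by
    intro x hx hx3
    have h5 : (Subgroup.zpowers x).subgroupOf H ≤ Cfsg.pCore 3 H := CfsgH1.pclosed_le hcl ((hord x hx hx3).comap_of_injective _ H.subtype_injective)
    exact h5 (by rw [Subgroup.mem_subgroupOf]; exact Subgroup.mem_zpowers x)
  have h6 := (Cfsg.pCore 3 H).mul_mem (hle c hc hc3) (hle d hd hd3)
  obtain ⟨k, hk⟩ := CfsgH2.isPGroup_pCore 3 ⟨_, h6⟩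
  have h7 : (c * d) ^ 3 ^ k = 1 := congrArg (fun z : Cfsg.pCore 3 H => ((z : H) : alternatingGroup (Fin 5))) hk
  have h8 : orderOf (c * d) ∣ 2 := orderOf_dvd_of_pow_eq_one hcd
  have h9 : orderOf (c * d) ∣ 3 ^ k := orderOf_dvd_of_pow_eq_one h7
  have h10 : orderOf (c * d) ∣ 1 := by
    have : Nat.gcd 2 (3 ^ k) = 1 := Nat.Coprime.pow_right k (by decide)
    rw [← this]; exact Nat.dvd_gcd h8 h9
  exact hcd1 (orderOf_eq_one_iff.1 (Nat.dvd_one.1 h10))

open Equiv Equiv.Perm in
theorem main (n p : ℕ) (hn : 5 ≤ n) [hpf : Fact p.Prime] (hp : p ≠ 2) (hpn : p ≤ n)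
    (h : ∀ H : Subgroup ↥(alternatingGroup (Fin n)), H ≠ ⊤ → p ∣ Nat.card ↥H → Cfsg.IsPClosed p ↥H) : n = p := by
  classical
  by_contra hne
  have hlt : p < n := lt_of_le_of_ne hpn (Ne.symm hne)
  by_cases h5 : n = 5
  · subst h5
    have hp3 : p = 3 := by
      have := hpf.out.two_le
      have h4 : p ≠ 4 := by rintro rfl; exact absurd hpf.out (by decide)
      omega
    subst hp3
    exact case5 h
  · have hn6 : 6 ≤ n := by omega
    obtain ⟨m, rfl⟩ : ∃ m, n = m + 1 := ⟨n - 1, by omega⟩
    haveI : Nontrivial (Fin (m + 1)) := Fin.nontrivial_iff_two_le.2 (by omega)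
    -- the subtype
    let α' := {x : Fin (m + 1) // x ≠ Fin.last m}
    have hcardα : Nat.card α' = m := by
      rw [Nat.card_eq_fintype_card, Fintype.card_subtype_compl]
      simp
    haveI : Nontrivial α' := by
      rw [← Fintype.one_lt_card_iff_nontrivial, ← Nat.card_eq_fintype_card, hcardα]; omega
    haveI hsimp : IsSimpleGroup (alternatingGroup α') := alternatingGroup.isSimpleGroup (by rw [hcardα]; omega)
    let ι : alternatingGroup α' →* alternatingGroup (Fin (m + 1)) := 
      ((Equiv.Perm.ofSubtype (p := fun x : Fin (m + 1) => x ≠ Fin.last m)).comp (alternatingGroup α').subtype).codRestrict _ (by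
        intro x
        rw [Equiv.Perm.mem_alternatingGroup]
        change Equiv.Perm.sign (Equiv.Perm.ofSubtype (x : Perm α')) = 1
        rw [Equiv.Perm.sign_ofSubtype]
        exact Equiv.Perm.mem_alternatingGroup.1 x.2)
    have hι : Function.Injective ι := by
      intro a b hab
      have h1 : Equiv.Perm.ofSubtype (a : Perm α') = Equiv.Perm.ofSubtype (b : Perm α') := congrArg Subtype.val hab
      exact Subtype.ext (Equiv.Perm.ofSubtype_injective h1)
    have hcardA : 2 * Nat.card (alternatingGroup α') = m.factorial := by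
      rw [two_mul_nat_card_alternatingGroup, Nat.card_perm, hcardα]
    have hcardB : 2 * Nat.card (alternatingGroup (Fin (m + 1))) = (m + 1).factorial := by
      rw [two_mul_nat_card_alternatingGroup, Nat.card_perm, Nat.card_eq_fintype_card, Fintype.card_fin]
    have hrange : Nat.card ι.range = Nat.card (alternatingGroup α') := 
      (Nat.card_congr (MonoidHom.ofInjective hι).toEquiv).symm
    have hpA : p ∣ Nat.card (alternatingGroup α') := by
      have h1 : p ∣ 2 * Nat.card (alternatingGroup α') := by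
        rw [hcardA]; exact hpf.out.dvd_factorial.2 (by omega)
      rcases (hpf.out.dvd_mul).1 h1 with h2 | h2
      · exact absurd ((Nat.prime_dvd_prime_iff_eq hpf.out Nat.prime_two).1 h2) hp
      · exact h2
    have hproper : ι.range ≠ ⊤ := by
      intro htop
      rw [htop, Subgroup.card_top] at hrange
      have h1 : (m + 1).factorial = m.factorial := by rw [← hcardA, ← hcardB, hrange]
      rw [Nat.factorial_succ] at h1
      have := Nat.factorial_pos m
      nlinarith
    have hcl := h ι.range hproper (by rw [hrange]; exact hpA)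
    have hcl2 : Cfsg.IsPClosed p (alternatingGroup α') := CfsgH1.pclosed_equiv (MonoidHom.ofInjective hι).symm hcl
    obtain ⟨P⟩ := (inferInstance : Nonempty (Sylow p (alternatingGroup α')))
    have hPn : (P : Subgroup (alternatingGroup α')).Normal := hcl2 P
    rcases hPn.eq_bot_or_eq_top with h1 | h1
    · exact CfsgH1.sylow_ne_bot hpA P h1
    · have hpg : IsPGroup p (alternatingGroup α') := by
        have := P.2
        rw [h1] at this
        exact this.of_equiv Subgroup.topEquiv
      -- order divisible by 3 and 4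
      obtain ⟨k, hk⟩ := IsPGroup.iff_card.1 hpg
      have h3 : 3 ∣ Nat.card (alternatingGroup α') := by
        have h2 : 3 ∣ 2 * Nat.card (alternatingGroup α') := by
          rw [hcardA]; exact Nat.prime_three.dvd_factorial.2 (by omega)
        rcases (Nat.prime_three.dvd_mul).1 h2 with h4 | h4
        · exact absurd h4 (by decide)
        · exact h4
      have h4 : 2 ∣ Nat.card (alternatingGroup α') := by
        have h2 : 2 * 2 ∣ 2 * Nat.card (alternatingGroup α') := by
          rw [hcardA]
          calc 2 * 2 ∣ Nat.factorial 4 := by decide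
            _ ∣ _ := Nat.factorial_dvd_factorial (by omega)
        exact Nat.dvd_of_mul_dvd_mul_left (by norm_num) h2
      rw [hk] at h3 h4
      have e3 := (Nat.prime_dvd_prime_iff_eq Nat.prime_three hpf.out).1 (Nat.prime_three.dvd_of_dvd_pow h3)
      have e4 := (Nat.prime_dvd_prime_iff_eq Nat.prime_two hpf.out).1 (Nat.prime_two.dvd_of_dvd_pow h4)
      omega

/-- Let n ≥ 5 and p an odd prime with p ≤ n, and suppose that every proper subgroup of the alternating group of degree n whose order is divisible by p has a normal Sylow p-subgroup. Then n = p. -/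
theorem result (n p : ℕ) (hn : 5 ≤ n) [Fact p.Prime] (hp : p ≠ 2) (hpn : p ≤ n)
    (h : ∀ H : Subgroup ↥(alternatingGroup (Fin n)), H ≠ ⊤ → p ∣ Nat.card ↥H → Cfsg.IsPClosed p ↥H) : n = p := by

  exact main n p hn hp hpn h

end Cfsg.Agent.S3941
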