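import Cfsg.Statements.S3946
import Cfsg.Agent.H1.Split2

set_option autoImplicit false
open Cfsg

namespace Cfsg.Agent.S3946

open scoped commutatorElement Pointwise

/-- Call an automorphism α of order n of a group G splitting when x · α(x) · α²(x) ⋯ α^(n−1)(x) = 1 for every x ∈ G. A finite group admitting a splitting automorphism of prime order is nilpotent (this contains the case of a fixed-point-free automorphism of prime order). -/
theorem result {G : Type*} [Group G] [Finite G] (α : MulAut G) (hp : (orderOf α).Prime)
    (hsplit : ∀ x : G, (((List.range (orderOf α)).map (fun i : ℕ => (α ^ i) x)).prod = 1)) : Group.IsNilpotent G := by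
  have h1 : ∀ (k : ℕ), ∀ x : G, (α ^ k) x = (⇑(α.toMonoidHom))^[k] x := by
    intro k
    induction k with
    | zero => intro x; rfl
    | succ k ih =>
      intro x
      rw [pow_succ, Function.iterate_succ_apply, MulAut.mul_apply, ih]
      rfl
  refine CfsgH1.split_nilpotent _ G rfl α.toMonoidHom (orderOf α) hp ?_ ?_
  · funext x
    rw [← h1, pow_orderOf_eq_one]; rfl
  · intro x
    rw [← CfsgH1.NN_list, ← hsplit x]
    congr 1
    apply List.map_congr_left
    intro i _
    exact (h1 i x).symm

end Cfsg.Agent.S3946
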