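import Cfsg.Statements.S3949
import Cfsg.Agent.H1.Basic

set_option autoImplicit false
open Cfsg

namespace Cfsg.Agent.S3949

open scoped commutatorElement Pointwise

/-- Let G be a finite group and α an automorphism of G of order 2 such that the elements g·α(g)⁻¹ generate G. Let j be a positive integer such that 2^j divides the order of no element inverted by α. Then the set of values of the j-th iterate of the map c ↦ c·α(c)⁻¹ is exactly the set of elements of odd order inverted by α. -/
theorem result {G : Type*} [Group G] [Finite G] (α : MulAut G) (hα : orderOf α = 2) (hG : Subgroup.closure (Set.range (fun c : G => c * (α c)⁻¹)) = ⊤)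
    (j : ℕ) (hj : ∀ g : G, α g = g⁻¹ → ¬ 2 ^ j ∣ orderOf g) :
    Set.range ((fun c : G => c * (α c)⁻¹)^[j]) = {g : G | Odd (orderOf g) ∧ α g = g⁻¹} := by
  set f : G → G := fun c => c * (α c)⁻¹ with hf
  have hα2 : ∀ g, α (α g) = g := by
    intro g
    have h1 : α ^ 2 = 1 := by rw [← hα]; exact pow_orderOf_eq_one α
    have h2 := congrArg (fun β : MulAut G => β g) h1
    rw [sq] at h2
    exact h2
  have hfinv : ∀ c, α (f c) = (f c)⁻¹ := by
    intro c
    rw [hf]
    simp only [map_mul, map_inv, hα2, mul_inv_rev, inv_inv]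
  have hfsq : ∀ c, α c = c⁻¹ → f c = c ^ 2 := by
    intro c hc
    rw [hf]
    simp only [hc, inv_inv, sq]
  have hiter : ∀ k c, α c = c⁻¹ → f^[k] c = c ^ 2 ^ k := by
    intro k
    induction k with
    | zero => intro c _; simp
    | succ k ih =>
      intro c hc
      rw [Function.iterate_succ_apply, hfsq c hc, ih _ (by rw [map_pow, hc, inv_pow]), ← pow_mul, pow_succ, mul_comm]
  have hj0 : j ≠ 0 := by
    rintro rfl
    exact hj 1 (by simp) (by simp)
  obtain ⟨i, rfl⟩ : ∃ i, j = i + 1 := ⟨j - 1, by omega⟩
  ext g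
  constructor
  · rintro ⟨c, rfl⟩
    rw [Function.iterate_succ_apply, hiter i _ (hfinv c)]
    constructor
    · -- odd order
      rw [← Nat.not_even_iff_odd]
      intro he
      have h1 := hj _ (hfinv c)
      apply h1
      rw [even_iff_two_dvd, orderOf_pow' _ (pow_ne_zero _ two_ne_zero)] at he
      obtain ⟨k, hk, hk2⟩ := (Nat.dvd_prime_pow Nat.prime_two).1 (Nat.gcd_dvd_right (orderOf (f c)) (2 ^ i))
      have h3 : Nat.gcd (orderOf (f c)) (2 ^ i) = 2 ^ i := by
        -- otherwise 2^(k+1) divides both
        by_contra hne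
        have hki : k < i := by
          refine lt_of_le_of_ne hk ?_
          rintro rfl
          exact hne hk2
        have h4 : 2 ^ (k + 1) ∣ orderOf (f c) := by
          have h5 : orderOf (f c) = 2 ^ k * (orderOf (f c) / 2 ^ k) := by
            rw [Nat.mul_div_cancel']
            rw [← hk2]; exact Nat.gcd_dvd_left _ _
          rw [h5, pow_succ]
          rw [hk2] at he
          exact mul_dvd_mul_left _ he
        have h5 : 2 ^ (k + 1) ∣ 2 ^ i := pow_dvd_pow 2 hki
        have h6 := Nat.dvd_gcd h4 h5
        rw [hk2] at h6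
        have := Nat.le_of_dvd (by positivity) h6
        rw [pow_succ] at this
        have : 0 < 2 ^ k := by positivity
        omega
      rw [h3] at he
      have h5 : orderOf (f c) = 2 ^ i * (orderOf (f c) / 2 ^ i) := by
        rw [Nat.mul_div_cancel']
        rw [← h3]; exact Nat.gcd_dvd_left _ _
      rw [h5, pow_succ]
      exact mul_dvd_mul_left _ he
    · rw [map_pow, hfinv, inv_pow]
  · rintro ⟨hodd, hinv⟩
    -- g = h ^ (2^(i+1)) with h a power of g
    have hcop : Nat.Coprime (orderOf g) (2 ^ (i + 1)) := (Nat.Coprime.pow_right _ hodd.coprime_two_right)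
    obtain ⟨m, hm⟩ := exists_pow_eq_self_of_coprime hcop.symm
    refine ⟨g ^ m, ?_⟩
    rw [hiter _ _ (by rw [map_pow, hinv, inv_pow]), ← pow_mul, mul_comm, pow_mul]
    exact hm

end Cfsg.Agent.S3949
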