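import Cfsg.Statements.S4014
import Cfsg.Agent.H2.SymDL

set_option autoImplicit false
open Cfsg
open scoped commutatorElement

namespace Cfsg.Agent.S4014

/-- Let p be a prime, n ≥ 1, and P a Sylow p-subgroup of the symmetric group on n letters. Then the derived length of P is exactly k = ⌊log_p n⌋ (the largest k with p^k ≤ n): the k-th derived subgroup of P is trivial and, when k ≥ 1, the (k−1)-st is not. -/
theorem result (p : ℕ) [Fact p.Prime] (n : ℕ) (hn : 1 ≤ n) (P : Sylow p (Equiv.Perm (Fin n))) : derivedSeries ↥(P : Subgroup (Equiv.Perm (Fin n))) (Nat.log p n) = ⊥ ∧ (1 ≤ Nat.log p n → derivedSeries ↥(P : Subgroup (Equiv.Perm (Fin n))) (Nat.log p n - 1) ≠ ⊥) := by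
  constructor
  · rw [eq_bot_iff]
    intro x hx
    rw [Subgroup.mem_bot]
    apply Subtype.ext
    ext a
    have h1 : Nat.card (Fin n) < p ^ (Nat.log p n + 1) := by
      rw [Nat.card_eq_fintype_card, Fintype.card_fin]
      exact Nat.lt_pow_succ_log_self (Fact.out : p.Prime).one_lt n
    have h2 := CfsgH2.derived_upper (p := p) (Nat.log p n) (Fin n) (P : Subgroup (Equiv.Perm (Fin n))) P.isPGroup' h1 x hx a
    exact congrArg Fin.val h2
  · intro hk hbot
    obtain ⟨T, D, i1, i2, i3, i4, i5, h1, h2, h3⟩ := CfsgH2.derived_lower (p := p) (Nat.log p n - 1)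
    have hle : Nat.card T ≤ n := by
      rw [h1, Nat.sub_add_cancel hk]
      exact Nat.pow_log_le_self p (by omega)
    haveI := Fintype.ofFinite T
    obtain ⟨e⟩ : Nonempty (T ↪ Fin n) := by
      apply Function.Embedding.nonempty_of_card_le
      rw [← Nat.card_eq_fintype_card, Fintype.card_fin]
      exact hle
    let f : D →* Equiv.Perm (Fin n) := (Equiv.Perm.viaEmbeddingHom e).comp (MulAction.toPermHom D T)
    have hf : Function.Injective f := 
      (Equiv.Perm.viaEmbeddingHom_injective e).comp MulAction.toPerm_injective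
    have hfp : IsPGroup p f.range := h2.of_surjective f.rangeRestrict f.rangeRestrict_surjective
    obtain ⟨R, hR⟩ := hfp.exists_le_sylow
    have e2 : (R : Subgroup (Equiv.Perm (Fin n))) ≃* (P : Subgroup (Equiv.Perm (Fin n))) := Sylow.equiv R P
    let g : D →* (P : Subgroup (Equiv.Perm (Fin n))) := 
      e2.toMonoidHom.comp ((Subgroup.inclusion hR).comp f.rangeRestrict)
    have hg : Function.Injective g := by
      refine e2.injective.comp ((Subgroup.inclusion_injective hR).comp ?_)
      intro a b hab
      exact hf (congrArg Subtype.val hab)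
    apply h3
    have h4 := map_derivedSeries_le_derivedSeries g (Nat.log p n - 1)
    rw [hbot, le_bot_iff, Subgroup.map_eq_bot_iff_of_injective _ hg] at h4
    exact h4

end Cfsg.Agent.S4014
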