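import Cfsg.Statements.S4023
import Cfsg.Agent.H2.Misc19

set_option autoImplicit false
open Cfsg
open scoped commutatorElement

namespace Cfsg.Agent.S4023

/-- Let p be a prime and G a finite group in which any two p-subgroups of the same order are conjugate, with Sylow p-subgroup P. Then P is cyclic, or elementary abelian, or p = 2 and P is a quaternion group of order 8, or p is odd and P is non-abelian of order p³ and exponent p. -/
theorem result {G : Type*} [Group G] [Finite G]
    {p : ℕ} [Fact p.Prime] (hC : ∀ H K : Subgroup G, IsPGroup p H → IsPGroup p K → Nat.card H = Nat.card K →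
      ∃ g : G, K = H.map (MulAut.conj g).toMonoidHom) (P : Sylow p G) :
    IsCyclic P ∨ Cfsg.IsElementaryAbelian p (P : Subgroup G) ∨
      (p = 2 ∧ Nonempty ((P : Subgroup G) ≃* QuaternionGroup 2)) ∨
      (p ≠ 2 ∧ ¬ IsMulCommutative P ∧ Nat.card P = p ^ 3 ∧ Monoid.exponent P = p) := by
  have hiso : ∀ H K : Subgroup (P : Subgroup G), Nat.card H = Nat.card K → Nonempty (H ≃* K) := by
    intro H K hHK
    have e1 : H ≃* H.map (P : Subgroup G).subtype := H.equivMapOfInjective _ (P : Subgroup G).subtype_injective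
    have e2 : K ≃* K.map (P : Subgroup G).subtype := K.equivMapOfInjective _ (P : Subgroup G).subtype_injective
    obtain ⟨g, hg⟩ := hC (H.map (P : Subgroup G).subtype) (K.map (P : Subgroup G).subtype)
      ((P.2.to_subgroup H).map _) ((P.2.to_subgroup K).map _)
      (by rw [← Nat.card_congr e1.toEquiv, ← Nat.card_congr e2.toEquiv, hHK])
    have e3 : H.map (P : Subgroup G).subtype ≃* (H.map (P : Subgroup G).subtype).map (MulAut.conj g).toMonoidHom :=
      Subgroup.equivMapOfInjective _ _ (MulAut.conj g).injective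
    rw [← hg] at e3
    exact ⟨(e1.trans e3).trans e2.symm⟩
  rcases CfsgH2.iso_subgroups_classify P.2 hiso with h | ⟨h1, h2⟩ | ⟨h1, h2⟩ | ⟨h1, h2, h3, h4⟩
  · exact Or.inl h
  · right; left
    exact ⟨⟨⟨h1⟩⟩, fun a ha => congrArg Subtype.val (h2 ⟨a, ha⟩)⟩
  · exact Or.inr (Or.inr (Or.inl ⟨h1, h2⟩))
  · right; right; right
    refine ⟨h1, fun h => h2 (fun x y => h.is_comm.comm x y), h3, ?_⟩
    have h5 : Monoid.exponent P ∣ p := Monoid.exponent_dvd_of_forall_pow_eq_one h4
    have hp : p.Prime := Fact.out
    rcases (Nat.dvd_prime hp).1 h5 with h6 | h6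
    · exfalso
      apply h2
      have := Monoid.exp_eq_one_iff.1 h6
      intro x y
      exact Subsingleton.elim _ _
    · exact h6

end Cfsg.Agent.S4023
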