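import Cfsg.Statements.S4024
import Cfsg.Agent.H2.SameSubP

set_option autoImplicit false
open Cfsg
open scoped commutatorElement

namespace Cfsg.Agent.S4024

/-- Let p be an odd prime and G a finite group in which any two p-subgroups of the same order are conjugate, with Sylow p-subgroup P. If H is a normal p-solvable subgroup of G whose order is divisible by p, then P is abelian, and either P ≤ H or P is cyclic. -/
theorem result {G : Type*} [Group G] [Finite G]
    {p : ℕ} [Fact p.Prime] (hp : p ≠ 2) (hC : ∀ H K : Subgroup G, IsPGroup p H → IsPGroup p K → Nat.card H = Nat.card K →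
      ∃ g : G, K = H.map (MulAut.conj g).toMonoidHom) (P : Sylow p G)
    (H : Subgroup G) [H.Normal] (hsolv : Cfsg.IsPSolvable p H) (hdiv : p ∣ Nat.card H) :
    IsMulCommutative P ∧ ((P : Subgroup G) ≤ H ∨ IsCyclic P) := by
  open scoped Pointwise in
  have hC' : ∀ H K : Subgroup G, IsPGroup p H → IsPGroup p K → Nat.card H = Nat.card K → ∃ g : G, MulAut.conj g • H = K := by
    intro H K hH hK hc
    obtain ⟨g, hg⟩ := hC H K hH hK hc
    exact ⟨g, hg.symm⟩
  have hab := CfsgH2.samesub_psolv hp hC' P H hsolv hdiv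
  refine ⟨⟨⟨fun x y => Subtype.ext (hab x x.2 y y.2)⟩⟩, ?_⟩
  by_cases hPH : (P : Subgroup G) ≤ H
  · exact Or.inl hPH
  right
  apply CfsgH2.cyclic_of_unique_sub hp P.2 (H.subgroupOf (P : Subgroup G))
  · intro h
    rw [Subgroup.subgroupOf_eq_bot] at h
    have h1 : p ∣ Nat.card P := by
      obtain ⟨S, hS⟩ := Sylow.exists_subgroup_card_pow_prime (G := H) p (n := 1) (by rwa [pow_one])
      have h2 : p ∣ Nat.card G := hdiv.trans (Subgroup.card_subgroup_dvd_card H)
      exact P.dvd_card_of_dvd_card h2
    obtain ⟨x, hx⟩ := exists_prime_orderOf_dvd_card' p h1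
    have hxH : (x : G) ∈ H := by
      have := CfsgH2.samesub_le_of_normal hC' H (a := 1) (by rwa [pow_one]) (Subgroup.zpowers (x : G)) (by
        rw [Nat.card_zpowers, Subgroup.orderOf_coe, hx, pow_one])
      exact this (Subgroup.mem_zpowers _)
    have h3 := Subgroup.disjoint_def.1 h hxH x.2
    rw [OneMemClass.coe_eq_one] at h3
    rw [h3, orderOf_one] at hx
    exact (Fact.out : p.Prime).one_lt.ne hx
  · intro h
    rw [Subgroup.subgroupOf_eq_top] at h
    exact hPH h
  · intro X hX
    have hsub : ∀ Y : Subgroup (P : Subgroup G), Nat.card (Y.map (P : Subgroup G).subtype) = Nat.card Y := fun Y => by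
      rw [Nat.card_congr (Y.equivMapOfInjective _ (P : Subgroup G).subtype_injective).symm.toEquiv]
    obtain ⟨a, ha⟩ := IsPGroup.iff_card.1 (P.2.to_subgroup (H.subgroupOf (P : Subgroup G)))
    have h1 : p ^ a ∣ Nat.card H := by
      rw [← ha, ← hsub]
      apply Subgroup.card_dvd_of_le
      rintro _ ⟨x, hx, rfl⟩
      exact hx
    have h2 := CfsgH2.samesub_le_of_normal hC' H h1 (X.map (P : Subgroup G).subtype) (by rw [hsub, hX, ha])
    apply CfsgH1.eq_of_le_of_card_le
    · intro x hx
      exact h2 ⟨x, hx, rfl⟩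
    · rw [hX]

end Cfsg.Agent.S4024
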