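import Cfsg.Statements.S4027
import Cfsg.Agent.H2.OddInv

set_option autoImplicit false
open Cfsg
open scoped commutatorElement

namespace Cfsg.Agent.S4027

/-- Let G be a finite group in which every element x of odd order satisfies N_G(⟨x⟩) = C_G(x). Then the Sylow 2-subgroups of G are normal. -/
theorem result {G : Type*} [Group G] [Finite G]
    (hirr : ∀ x : G, (∀ r : ℕ, r.Prime → r ∣ orderOf x → r ≠ 2) →
      Subgroup.normalizer ((Subgroup.zpowers x : Subgroup G) : Set G) ≤ Subgroup.centralizer {x}) (P : Sylow 2 G) :
    (P : Subgroup G).Normal := by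
  refine CfsgH2.sylow_two_normal_aux _ G rfl ?_ P
  intro x hx t _ ht
  have h1 := hirr x (by
    intro r hr hrx h2
    subst h2
    exact absurd (Nat.eq_one_of_dvd_coprimes hx hrx dvd_rfl) (by norm_num)) ht
  exact CfsgH2.mem_centralizer_singleton_iff'.1 h1

end Cfsg.Agent.S4027
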