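import Cfsg.Statements.S4029
import Cfsg.Agent.H4.Perms
import Cfsg.Agent.H4.Tools
import Cfsg.Agent.H1.Frat
import Cfsg.Agent.H2.ClassSize

set_option autoImplicit false
open Cfsg
open scoped commutatorElement

namespace Cfsg.Agent.S4029

/-- Let P be a finite 2-group in which N_P(⟨y⟩) = C_P(y) for every y ∈ P. If s is the number of conjugacy classes of involutions of P, then #(P/Φ(P)) ≤ s + 1; in particular the subgroup generated by the involutions of P has order at least #(P/Φ(P)). -/
theorem result {P : Type*} [Group P] [Finite P] (hP : IsPGroup 2 P)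
    (hirr : ∀ y : P, Subgroup.normalizer ((Subgroup.zpowers y : Subgroup P) : Set P) ≤ Subgroup.centralizer {y}) :
    Nat.card (P ⧸ frattini P) ≤ Nat.card {c : ConjClasses P // ∃ y : P, ConjClasses.mk y = c ∧ orderOf y = 2} + 1 ∧
    Nat.card (P ⧸ frattini P) ≤ Nat.card (Subgroup.closure {y : P | orderOf y = 2}) := by
  classical
  haveI : Group.IsNilpotent P := hP.isNilpotent
  haveI : Fact (Nat.Prime 2) := ⟨Nat.prime_two⟩
  letI : Fintype P := Fintype.ofFinite P
  set V := P ⧸ frattini P with hV
  have hVcomm : commutator V = ⊥ := by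
    rw [commutator_def, Subgroup.commutator_eq_bot_iff_le_centralizer]
    intro x _
    rw [Subgroup.mem_centralizer_iff]
    intro y _
    obtain ⟨a, rfl⟩ := QuotientGroup.mk_surjective x
    obtain ⟨b, rfl⟩ := QuotientGroup.mk_surjective y
    rw [← QuotientGroup.mk_mul, ← QuotientGroup.mk_mul, QuotientGroup.eq]
    apply CfsgH1.commutator_le_frattini (G := P)
    have : (b * a)⁻¹ * (a * b) = ⁅a⁻¹, b⁻¹⁆ := by
      rw [commutatorElement_def]; group
    rw [this]
    exact Subgroup.commutator_mem_commutator (Subgroup.mem_top _) (Subgroup.mem_top _)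
  have hhom : Nat.card (V →* ℂˣ) = Nat.card V := by
    rw [CfsgH4.card_hom_units, hVcomm, Subgroup.index_bot]
  have hreal : Nat.card V ≤ Nat.card {χ : Cfsg.IrrCharacter P // ∀ g : P, ((χ : P → ℂ) g).im = 0} := by
    rw [← hhom]
    have hsq : ∀ (f : V →* ℂˣ) (v : V), f v ^ 2 = 1 := by
      intro f v
      obtain ⟨a, rfl⟩ := QuotientGroup.mk_surjective v
      rw [← map_pow, ← QuotientGroup.mk_pow, (QuotientGroup.eq_one_iff _).2 (CfsgH1.pow_mem_frattini hP a), map_one]
    haveI : Finite {χ : Cfsg.IrrCharacter P // ∀ g : P, ((χ : P → ℂ) g).im = 0} := by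
      infer_instance
    apply Nat.card_le_card_of_injective (fun f : V →* ℂˣ =>
      (⟨⟨fun g => ((f.comp (QuotientGroup.mk' (frattini P))) g : ℂ), CfsgH4.isCharacter_one_dim _⟩, by
        intro g
        have h1 := hsq f (QuotientGroup.mk' (frattini P) g)
        have h2 : ((f (QuotientGroup.mk' (frattini P) g) : ℂˣ) : ℂ) ^ 2 = 1 := by
          rw [← Units.val_pow_eq_pow_val, h1, Units.val_one]
        rcases (show ((f (QuotientGroup.mk' (frattini P) g) : ℂˣ) : ℂ) = 1 ∨ ((f (QuotientGroup.mk' (frattini P) g) : ℂˣ) : ℂ) = -1 from by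
          have h4 : (((f (QuotientGroup.mk' (frattini P) g) : ℂˣ) : ℂ) - 1) * (((f (QuotientGroup.mk' (frattini P) g) : ℂˣ) : ℂ) + 1) = 0 := by ring_nf; rw [h2]; ring
          rcases mul_eq_zero.1 h4 with h5 | h5
          · exact Or.inl (sub_eq_zero.1 h5)
          · exact Or.inr (eq_neg_of_add_eq_zero_left h5)) with h3 | h3
        · show ((f (QuotientGroup.mk' (frattini P) g) : ℂˣ) : ℂ).im = 0
          rw [h3]; simp
        · show ((f (QuotientGroup.mk' (frattini P) g) : ℂˣ) : ℂ).im = 0
          rw [h3]; simp⟩ : {χ : Cfsg.IrrCharacter P // ∀ g : P, ((χ : P → ℂ) g).im = 0}))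
    intro f f' hff
    have h1 : (fun g => ((f.comp (QuotientGroup.mk' (frattini P))) g : ℂ)) = fun g => ((f'.comp (QuotientGroup.mk' (frattini P))) g : ℂ) :=
      congrArg (fun χ => ((χ : {χ : Cfsg.IrrCharacter P // ∀ g : P, ((χ : P → ℂ) g).im = 0}) : Cfsg.IrrCharacter P).1) hff
    have h2 := CfsgH4.linHom_injective h1
    apply MonoidHom.ext
    intro v
    obtain ⟨a, rfl⟩ := QuotientGroup.mk_surjective v
    exact DFunLike.congr_fun h2 a
  rw [CfsgH4.card_real_irr] at hreal
  -- real classes
  have hcls : ∀ g : P, IsConj g g⁻¹ → g ^ 2 = 1 := by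
    intro g hg
    obtain ⟨c, hc⟩ := isConj_iff.1 hg
    have h1 : c ∈ Subgroup.normalizer (Subgroup.zpowers g : Set P) := by
      apply Subgroup.mem_normalizer_fintype
      rintro _ ⟨k, rfl⟩
      show c * g ^ k * c⁻¹ ∈ Subgroup.zpowers g
      rw [← conj_zpow, hc]
      exact (Subgroup.zpowers g).zpow_mem ((Subgroup.zpowers g).inv_mem (Subgroup.mem_zpowers g)) k
    have h2 := CfsgH2.mem_centralizer_singleton_iff'.1 (hirr g h1)
    rw [← h2, mul_inv_cancel_right] at hc
    rw [pow_two]
    nth_rewrite 2 [hc]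
    exact mul_inv_cancel g
  set S := {c : ConjClasses P // ∃ y : P, ConjClasses.mk y = c ∧ orderOf y = 2} with hS
  have hfirst : Nat.card {C : ConjClasses P // ∀ g : P, ConjClasses.mk g = C → IsConj g g⁻¹} ≤ Nat.card S + 1 := by
    have h1 : Nat.card S + 1 = Nat.card (S ⊕ Unit) := by rw [Nat.card_sum, Nat.card_unique (α := Unit)]
    rw [h1]
    apply Nat.card_le_card_of_injective (fun C : {C : ConjClasses P // ∀ g : P, ConjClasses.mk g = C → IsConj g g⁻¹} =>
      if h : (C : ConjClasses P) = ConjClasses.mk 1 then (Sum.inr () : S ⊕ Unit) else Sum.inl ⟨C.1, by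
        obtain ⟨g, hg⟩ := ConjClasses.exists_rep C.1
        refine ⟨g, hg, ?_⟩
        apply orderOf_eq_prime (hcls g (C.2 g hg))
        rintro rfl
        exact h hg.symm⟩)
    intro C D hCD
    by_cases hC : (C : ConjClasses P) = ConjClasses.mk 1 <;> by_cases hD : (D : ConjClasses P) = ConjClasses.mk 1
    · exact Subtype.ext (hC.trans hD.symm)
    · simp only [hC, hD, dite_true, dite_false] at hCD
      cases hCD
    · simp only [hC, hD, dite_true, dite_false] at hCD
      cases hCD
    · simp only [hC, hD, dite_false] at hCD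
      have h5 := Sum.inl_injective hCD
      exact Subtype.ext (congrArg (fun x : S => x.1) h5)
  refine ⟨hreal.trans hfirst, (hreal.trans hfirst).trans ?_⟩
  have h1 : Nat.card S + 1 = Nat.card (S ⊕ Unit) := by rw [Nat.card_sum, Nat.card_unique (α := Unit)]
  rw [h1]
  let φ : S ⊕ Unit → Subgroup.closure {y : P | orderOf y = 2} := fun t =>
    match t with
    | Sum.inl c => ⟨Classical.choose c.2, Subgroup.subset_closure (Classical.choose_spec c.2).2⟩
    | Sum.inr _ => 1
  apply Nat.card_le_card_of_injective φ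
  rintro (c | c) (d | d) hcd
  · have h2 : Classical.choose c.2 = Classical.choose d.2 := congrArg Subtype.val hcd
    congr 1
    apply Subtype.ext
    rw [← (Classical.choose_spec c.2).1, ← (Classical.choose_spec d.2).1, h2]
  · exfalso
    have h2 : Classical.choose c.2 = 1 := congrArg Subtype.val hcd
    have h3 := (Classical.choose_spec c.2).2
    rw [h2, orderOf_one] at h3
    omega
  · exfalso
    have h2 : (1 : P) = Classical.choose d.2 := congrArg Subtype.val hcd
    have h3 := (Classical.choose_spec d.2).2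
    rw [← h2, orderOf_one] at h3
    omega
  · rfl

end Cfsg.Agent.S4029
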