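import Cfsg.Statements.S4034
import Cfsg.Agent.H2.ClassSize2

set_option autoImplicit false
open Cfsg
open scoped commutatorElement

namespace Cfsg.Agent.S4034

open CfsgH2 CfsgH1 Subgroup

universe u

/-- every `p`-regular class has `p`-power size -/
def PReg (p : ℕ) (G : Type u) [Group G] : Prop :=
  ∀ x : G, (orderOf x).Coprime p → ∃ k : ℕ, csz x = p ^ k

/-- abelian `p`-complement -/
def AbComp (p : ℕ) (G : Type u) [Group G] : Prop :=
  ∃ H : Subgroup G, IsMulCommutative H ∧ ¬ p ∣ Nat.card H ∧ ∃ k : ℕ, H.index = p ^ k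

theorem preg_sub {p : ℕ} [hp : Fact p.Prime] (G : Type u) [Group G] [Finite G] (N : Subgroup G) [N.Normal] (h : PReg p G) :
    PReg p N := by
  intro x hx
  obtain ⟨k, hk⟩ := h (x : G) (by rwa [Subgroup.orderOf_coe])
  have h1 := csz_subtype_dvd x
  rw [hk] at h1
  obtain ⟨j, -, hj⟩ := (Nat.dvd_prime_pow hp.out).1 h1
  exact ⟨j, hj⟩

theorem preg_quot {p : ℕ} [hp : Fact p.Prime] (G : Type u) [Group G] [Finite G] (N : Subgroup G) [N.Normal] (h : PReg p G) :
    PReg p (G ⧸ N) := by
  intro x hx
  obtain ⟨y, rfl⟩ := QuotientGroup.mk'_surjective N x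
  obtain ⟨a, -, ha, ha'⟩ := exists_pRegular_lift p (QuotientGroup.mk' N) y hx
  obtain ⟨k, hk⟩ := h a ha'
  have h1 := csz_mk_dvd N a
  rw [hk, ha] at h1
  obtain ⟨j, -, hj⟩ := (Nat.dvd_prime_pow hp.out).1 h1
  exact ⟨j, hj⟩

theorem exists_pregular_ne_one {p : ℕ} [hp : Fact p.Prime] (G : Type u) [Group G] [Finite G] (h : ¬ IsPGroup p G) :
    ∃ x : G, x ≠ 1 ∧ (orderOf x).Coprime p := by
  by_contra hcon
  push Not at hcon
  apply h
  intro x
  obtain ⟨a, b, hab, -, ha, ⟨k, hk⟩, -, -⟩ := exists_pPart' p x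
  have : a = 1 := by
    by_contra ha1
    exact hcon a ha1 ha
  refine ⟨k, ?_⟩
  rw [hab, this, one_mul, ← hk]
  exact pow_orderOf_eq_one b

theorem preg_simple {p : ℕ} [hp : Fact p.Prime] (G : Type u) [Group G] [Finite G] [IsSimpleGroup G] (h : PReg p G) :
    Group.IsSolvable G := by
  by_cases hpg : IsPGroup p G
  · exact isSolvable_of_isPGroup hpg
  · obtain ⟨x, hx1, hx⟩ := exists_pregular_ne_one G hpg
    obtain ⟨k, hk⟩ := h x hx
    exact isSolvable_of_simple_of_csz hp.out hx1 hk

theorem preg_solvable {p : ℕ} [hp : Fact p.Prime] (G : Type u) [Group G] [Finite G] (h : PReg p G) :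
    Group.IsSolvable G :=
  solvable_induction (fun G _ => PReg p G) (fun G _ _ N _ h => preg_sub G N h) (fun G _ _ N _ h => preg_quot G N h)
    (fun G _ _ _ h => preg_simple G h) (Nat.card G) G rfl h

theorem abcomp_sub {p : ℕ} [hp : Fact p.Prime] (G : Type u) [Group G] [Finite G] (N : Subgroup G) [N.Normal] (h : AbComp p G) :
    AbComp p N := by
  obtain ⟨H, hH, hc, k, hk⟩ := h
  refine ⟨H.subgroupOf N, ?_, ?_, ?_⟩
  · refine ⟨⟨fun a b => Subtype.ext (Subtype.ext ?_)⟩⟩
    have h3 : ∀ c : H.subgroupOf N, ((c : N) : G) ∈ H := fun c => c.2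
    have h4 := congrArg Subtype.val (hH.is_comm.comm (⟨_, h3 a⟩ : H) ⟨_, h3 b⟩)
    exact h4
  · intro hd
    apply hc
    refine hd.trans ?_
    have e : Nat.card (H.subgroupOf N) = Nat.card ↥(H ⊓ N : Subgroup G) := by
      rw [← Subgroup.subgroupOf_map_subtype]
      exact (Subgroup.card_map_of_injective (Subgroup.subtype_injective _)).symm
    rw [e]
    exact Subgroup.card_dvd_of_le inf_le_left
  · have h1 : H.relIndex N ∣ H.index := relIndex_normal_dvd_index H N
    rw [hk] at h1
    obtain ⟨j, -, hj⟩ := (Nat.dvd_prime_pow hp.out).1 h1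
    exact ⟨j, hj⟩

theorem abcomp_quot {p : ℕ} [hp : Fact p.Prime] (G : Type u) [Group G] [Finite G] (N : Subgroup G) [N.Normal] (h : AbComp p G) :
    AbComp p (G ⧸ N) := by
  obtain ⟨H, hH, hc, k, hk⟩ := h
  refine ⟨H.map (QuotientGroup.mk' N), ?_, ?_, ?_⟩
  · haveI := hH
    infer_instance
  · intro hd
    exact hc (hd.trans (Subgroup.card_map_dvd _ _))
  · have h1 := Subgroup.index_map_dvd H (QuotientGroup.mk'_surjective N)
    rw [hk] at h1
    obtain ⟨j, -, hj⟩ := (Nat.dvd_prime_pow hp.out).1 h1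
    exact ⟨j, hj⟩

theorem abcomp_simple {p : ℕ} [hp : Fact p.Prime] (G : Type u) [Group G] [Finite G] [IsSimpleGroup G] (h : AbComp p G) :
    Group.IsSolvable G := by
  obtain ⟨H, hH, hc, k, hk⟩ := h
  by_cases hb : H = ⊥
  · apply isSolvable_of_isPGroup (p := p)
    rw [IsPGroup.iff_card]
    refine ⟨k, ?_⟩
    rw [← hk, hb, Subgroup.index_bot]
  · obtain ⟨x, hx⟩ := (Subgroup.ne_bot_iff_exists_ne_one.1 hb)
    have hle : H ≤ centralizer ({(x : G)} : Set G) := by
      intro y hy
      rw [mem_centralizer_singleton_iff']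
      exact congrArg Subtype.val (hH.is_comm.comm x ⟨y, hy⟩)
    have h1 := Subgroup.index_dvd_of_le hle
    rw [hk] at h1
    obtain ⟨j, -, hj⟩ := (Nat.dvd_prime_pow hp.out).1 h1
    refine isSolvable_of_simple_of_csz hp.out (x := (x : G)) ?_ hj
    intro h
    exact hx (Subtype.ext h)

theorem abcomp_solvable {p : ℕ} [hp : Fact p.Prime] (G : Type u) [Group G] [Finite G] (h : AbComp p G) :
    Group.IsSolvable G :=
  solvable_induction (fun G _ => AbComp p G) (fun G _ _ N _ h => abcomp_sub G N h) (fun G _ _ N _ h => abcomp_quot G N h)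
    (fun G _ _ _ h => abcomp_simple G h) (Nat.card G) G rfl h

theorem piNum_compl_singleton_iff {p : ℕ} (hp : p.Prime) {n : ℕ} : PiNum ({p}ᶜ) n ↔ ¬ p ∣ n := by
  constructor
  · intro h hd
    exact h p hp hd rfl
  · intro h q hq hd hqp
    rw [Set.mem_singleton_iff] at hqp
    exact h (hqp ▸ hd)

theorem piNum_singleton_iff {p : ℕ} (hp : p.Prime) {n : ℕ} (hn : n ≠ 0) : PiNum ({p}ᶜᶜ) n ↔ ∃ k, n = p ^ k := by
  rw [compl_compl]
  constructor
  · intro h
    exact ⟨_, Nat.eq_prime_pow_of_unique_prime_dvd hn (fun {q} hq hd => h q hq hd)⟩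
  · rintro ⟨k, rfl⟩
    exact PiNum.pow hp rfl

theorem main {p : ℕ} [hp : Fact p.Prime] : ∀ (n : ℕ) (G : Type u) [Group G] [Finite G], Nat.card G = n → PReg p G →
    ∀ H : Subgroup G, ¬ p ∣ Nat.card H → (∃ k : ℕ, H.index = p ^ k) → IsMulCommutative H := by
  intro n
  induction n using Nat.strong_induction_on with
  | _ n ih =>
  intro G _ _ hn hG H hH hHi
  haveI hs : Group.IsSolvable G := preg_solvable G hG
  by_cases hO : pCore p G = ⊥
  · -- F(G) is a p'-group
    set F := fittingSubgroup G with hF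
    have hFp : ¬ p ∣ Nat.card F := by
      intro hd
      haveI hFn : Group.IsNilpotent F := isNilpotent_fittingSubgroup
      obtain ⟨P⟩ : Nonempty (Sylow p F) := inferInstance
      have hPn : (P : Subgroup F).Normal := inferInstance
      haveI hPc : (P : Subgroup F).Characteristic := P.characteristic_of_normal hPn
      have h1 : ((P : Subgroup F).map F.subtype) ≤ pCore p G := by
        apply le_pCore
        · exact ConjAct.normal_of_characteristic_of_normal
        · exact P.2.map _
      rw [hO, le_bot_iff, (Subgroup.map_eq_bot_iff_of_injective _ (Subgroup.subtype_injective _))] at h1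
      have h2 := P.dvd_card_of_dvd_card hd
      rw [h1] at h2
      simp at h2
      exact hp.out.one_lt.ne' h2
    have hcomm : ∀ x : G, (orderOf x).Coprime p → x ∈ centralizer (F : Set G) := by
      intro x hx
      obtain ⟨k, hk⟩ := hG x hx
      -- F ≤ centralizer {x}
      obtain ⟨K, hK1, hK2, hK3⟩ := hallD_of_solvable (G := centralizer ({x} : Set G)) ({p}ᶜ : Set ℕ)
      have hKp : ¬ p ∣ Nat.card K := (piNum_compl_singleton_iff hp.out).1 hK1
      obtain ⟨j, hj⟩ := (piNum_singleton_iff hp.out Subgroup.index_ne_zero_of_finite).1 hK2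
      set K' := K.map (centralizer ({x} : Set G)).subtype with hK'
      have hKc : Nat.card K' = Nat.card K := Subgroup.card_map_of_injective (Subgroup.subtype_injective _)
      have hKi : K'.index = p ^ (j + k) := by
        rw [hK', Subgroup.index_map_subtype, hj, pow_add]
        congr 1
      -- F ≤ K'
      have hFK : F ≤ K' := by
        have h1 : Nat.card ↥(F ⊔ K') * Nat.card ↥(F ⊓ K') = Nat.card F * Nat.card K' := by
          have := card_sup_mul_card_inf (H := K') (K := F) (le_normalizer_of_normal K' F)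
          rw [sup_comm, inf_comm, this, mul_comm]
        have h2 : ¬ p ∣ Nat.card ↥(F ⊔ K') := by
          intro hd
          have : p ∣ Nat.card F * Nat.card K' := by rw [← h1]; exact hd.mul_right _
          rcases (Nat.Prime.dvd_mul hp.out).1 this with h | h
          · exact hFp h
          · rw [hKc] at h; exact hKp h
        have h3 : K'.relIndex (F ⊔ K') ∣ p ^ (j + k) := by
          rw [← hKi]; exact Subgroup.relIndex_dvd_index_of_le le_sup_right
        have h4 : K'.relIndex (F ⊔ K') ∣ Nat.card ↥(F ⊔ K') := Subgroup.relIndex_dvd_card _ _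
        have h5 : K'.relIndex (F ⊔ K') = 1 := by
          obtain ⟨i, -, hi⟩ := (Nat.dvd_prime_pow hp.out).1 h3
          rcases Nat.eq_zero_or_pos i with rfl | hi0
          · simpa using hi
          · exfalso
            apply h2
            refine (dvd_pow_self p (by omega : i ≠ 0)).trans ?_
            rw [← hi]; exact h4
        rw [Subgroup.relIndex_eq_one] at h5
        exact le_sup_left.trans h5
      rw [← le_centralizer_singleton]
      exact hFK.trans (Subgroup.map_subtype_le _)
    have hle : H ≤ F := by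
      intro x hx
      apply centralizer_fittingSubgroup_le_of_isSolvable hs
      apply hcomm
      have : orderOf x ∣ Nat.card H := by
        have := orderOf_dvd_natCard (⟨x, hx⟩ : H)
        rwa [Subgroup.orderOf_mk] at this
      exact Nat.Coprime.coprime_dvd_left this ((Nat.Prime.coprime_iff_not_dvd hp.out).2 hH).symm
    refine ⟨⟨fun a b => Subtype.ext ?_⟩⟩
    have h1 := hcomm a (by
      have : orderOf (a : G) ∣ Nat.card H := by
        have := orderOf_dvd_natCard a
        rwa [← Subgroup.orderOf_coe] at this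
      exact Nat.Coprime.coprime_dvd_left this ((Nat.Prime.coprime_iff_not_dvd hp.out).2 hH).symm)
    rw [Subgroup.mem_centralizer_iff] at h1
    exact (h1 b (hle b.2)).symm
  · -- quotient by O_p(G)
    set N := pCore p G with hN
    have hcard : Nat.card (G ⧸ N) < n := by
      have h1 := Subgroup.card_eq_card_quotient_mul_card_subgroup N
      have hpos1 : 1 < Nat.card N := (Subgroup.one_lt_card_iff_ne_bot N).2 hO
      rw [← hn, h1]
      exact lt_mul_of_one_lt_right Nat.card_pos hpos1
    have hNp : IsPGroup p N := isPGroup_pCore p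
    have h1 := ih _ hcard (G ⧸ N) rfl (preg_quot G N hG) (H.map (QuotientGroup.mk' N))
      (fun hd => hH (hd.trans (Subgroup.card_map_dvd _ _))) (by
        obtain ⟨k, hk⟩ := hHi
        have h1 := Subgroup.index_map_dvd H (QuotientGroup.mk'_surjective N)
        rw [hk] at h1
        obtain ⟨j, -, hj⟩ := (Nat.dvd_prime_pow hp.out).1 h1
        exact ⟨j, hj⟩)
    have hinf : H ⊓ N = ⊥ := by
      apply Subgroup.inf_eq_bot_of_coprime
      obtain ⟨m, hm⟩ := IsPGroup.iff_card.1 hNp
      rw [hm]
      exact Nat.Coprime.pow_right m ((Nat.Prime.coprime_iff_not_dvd hp.out).2 hH).symm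
    refine ⟨⟨fun a b => Subtype.ext ?_⟩⟩
    have h2 : ⁅(a : G), (b : G)⁆ ∈ H ⊓ N := by
      refine ⟨?_, ?_⟩
      · rw [commutatorElement_def]
        exact H.mul_mem (H.mul_mem (H.mul_mem a.2 b.2) (H.inv_mem a.2)) (H.inv_mem b.2)
      · have hk : ⁅(a : G), (b : G)⁆ ∈ (QuotientGroup.mk' N).ker := by
          rw [MonoidHom.mem_ker, map_commutatorElement, commutatorElement_eq_one_iff_mul_comm]
          have := h1.is_comm.comm ⟨_, Subgroup.mem_map_of_mem _ a.2⟩ ⟨_, Subgroup.mem_map_of_mem (QuotientGroup.mk' N) b.2⟩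
          exact congrArg Subtype.val this
        rwa [QuotientGroup.ker_mk'] at hk
    rw [hinf, Subgroup.mem_bot, commutatorElement_eq_one_iff_mul_comm] at h2
    exact h2


/-- Let G be a finite group and p a prime. Every conjugacy class of p-regular elements of G (elements of order prime to p) has p-power size if and only if G has an abelian p-complement, i.e. an abelian subgroup of order prime to p and p-power index. -/
theorem result {G : Type*} [Group G] [Finite G] {p : ℕ} (hp : p.Prime) :
    (∀ x : G, (orderOf x).Coprime p → ∃ k : ℕ, (ConjClasses.mk x).carrier.ncard = p ^ k) ↔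
    (∃ H : Subgroup G, IsMulCommutative H ∧ ¬ p ∣ Nat.card H ∧ ∃ k : ℕ, H.index = p ^ k) := by
  haveI : Fact p.Prime := ⟨hp⟩
  constructor
  · intro h
    have hG : PReg p G := fun x hx => by
      obtain ⟨k, hk⟩ := h x hx
      exact ⟨k, by rw [← hk, csz_eq_ncard]⟩
    haveI : Group.IsSolvable G := preg_solvable G hG
    obtain ⟨H, hH1, hH2, hH3⟩ := hallD_of_solvable (G := G) ({p}ᶜ : Set ℕ)
    have hHp : ¬ p ∣ Nat.card H := (piNum_compl_singleton_iff hp).1 hH1
    have hHi := (piNum_singleton_iff hp Subgroup.index_ne_zero_of_finite).1 hH2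
    exact ⟨H, main (Nat.card G) G rfl hG H hHp hHi, hHp, hHi⟩
  · intro h x hx
    haveI hs : Group.IsSolvable G := abcomp_solvable G h
    obtain ⟨H, hH, hHp, k, hk⟩ := h
    have hD := hallD_of_solvable (G := G) ({p}ᶜ : Set ℕ)
    obtain ⟨L, hL1, hL2, hL3⟩ := hD.exists_ge (K := Subgroup.zpowers x) (by
      rw [Nat.card_zpowers, piNum_compl_singleton_iff hp]
      intro hd
      exact Nat.Prime.not_coprime_iff_dvd.2 ⟨p, hp, hd, dvd_rfl⟩ hx)
    obtain ⟨g, hg⟩ := hD.conj (H := H) (K := L) ((piNum_compl_singleton_iff hp).2 hHp)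
      ((piNum_singleton_iff hp Subgroup.index_ne_zero_of_finite).2 ⟨k, hk⟩) hL1 hL2
    have hLc : L ≤ centralizer ({x} : Set G) := by
      intro y hy
      rw [mem_centralizer_singleton_iff']
      have hx' := hL3 (Subgroup.mem_zpowers x)
      rw [← hg, mem_conj_smul] at hx' hy
      have := congrArg Subtype.val (hH.is_comm.comm (⟨_, hx'⟩ : H) ⟨_, hy⟩)
      simp only [Subgroup.coe_mul] at this
      have h3 : g * (g⁻¹ * x * g * (g⁻¹ * y * g)) * g⁻¹ = g * (g⁻¹ * y * g * (g⁻¹ * x * g)) * g⁻¹ := by rw [this]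
      simpa [mul_assoc] using h3
    have h1 := Subgroup.index_dvd_of_le hLc
    obtain ⟨m, hm⟩ := (piNum_singleton_iff hp Subgroup.index_ne_zero_of_finite).1 hL2
    rw [hm] at h1
    obtain ⟨j, -, hj⟩ := (Nat.dvd_prime_pow hp).1 h1
    exact ⟨j, by rw [csz_eq_ncard]; exact hj⟩

end Cfsg.Agent.S4034
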