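import Cfsg.Statements.S4035
import Cfsg.Agent.H2.PReg

set_option autoImplicit false
open Cfsg
open scoped commutatorElement

namespace Cfsg.Agent.S4035

/-- Let G be a finite group and p a prime such that p divides the size of no conjugacy class of p-regular elements (elements of order prime to p). Then G is the internal direct product of a Sylow p-subgroup P and a normal subgroup H of order prime to p: P is normal, P ⊓ H = 1 and PH = G. -/
theorem result {G : Type*} [Group G] [Finite G] {p : ℕ} [Fact p.Prime]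
    (h : ∀ x : G, (orderOf x).Coprime p → ¬ p ∣ (ConjClasses.mk x).carrier.ncard) (P : Sylow p G) :
    (P : Subgroup G).Normal ∧ ∃ H : Subgroup G, H.Normal ∧ ¬ p ∣ Nat.card H ∧
      (P : Subgroup G) ⊓ H = ⊥ ∧ (P : Subgroup G) ⊔ H = ⊤ := by
  have h1 := CfsgH2.direct_of_preg (p := p) (G := G) (by
    intro x hx hd
    apply h x hx
    rw [CfsgH2.csz_eq_ncard]; exact hd) P
  obtain ⟨N, hN, hNc, k, hk⟩ := h1.2.2
  haveI := hN
  have h2 := CfsgH2.sylow_of_npc hNc hk P
  refine ⟨h1.1, N, hN, ?_, h2.1, h2.2⟩
  intro hd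
  exact (Fact.out : p.Prime).one_lt.ne' (Nat.eq_one_of_dvd_coprimes hNc hd dvd_rfl)

end Cfsg.Agent.S4035
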