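import Cfsg.Statements.S4039
import Cfsg.Agent.H2.MaxNil

set_option autoImplicit false
open Cfsg
open scoped commutatorElement

namespace Cfsg.Agent.S4039

/-- A finite group possessing a maximal subgroup that is nilpotent of class at most 2 is solvable. -/
theorem result {G : Type*} [Group G] [Finite G]
    (M : Subgroup G) (hmax : IsCoatom M) (hnil : Group.IsNilpotent M) (hcl : Group.nilpotencyClass ↥M ≤ 2) :
    Group.IsSolvable G := by
  refine CfsgH2.isSolvable_of_nil_coatom_aux _ G rfl M hmax hnil (Or.inr ?_)
  intro a b c
  haveI := hnil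
  have h1 : Subgroup.upperCentralSeries M 2 = ⊤ := by
    rw [eq_top_iff, ← Subgroup.upperCentralSeries_nilpotencyClass (G := M)]
    exact Subgroup.upperCentralSeries_mono _ hcl
  have h2 : a ∈ Subgroup.upperCentralSeries M 2 := by rw [h1]; trivial
  rw [Subgroup.mem_upperCentralSeries_succ_iff] at h2
  have h3 := h2 b
  rw [Subgroup.mem_upperCentralSeries_succ_iff] at h3
  exact h3 c

end Cfsg.Agent.S4039
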