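import Cfsg.Statements.S4049
import Cfsg.Agent.H2.OddInv

set_option autoImplicit false
open Cfsg
open scoped commutatorElement

namespace Cfsg.Agent.S4049

/-- Let G be a finite group such that N_G(H)/C_G(H) has odd order for every nontrivial subgroup H of odd order. Then the Sylow 2-subgroups of G are normal. -/
theorem result {G : Type*} [Group G] [Finite G]
    (hhom : ∀ H : Subgroup G, H ≠ ⊥ → ¬ 2 ∣ Nat.card ↥H →
        ¬ 2 ∣ (Subgroup.centralizer (H : Set G)).relIndex (Subgroup.normalizer (H : Set G))) (P : Sylow 2 G) :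
    (P : Subgroup G).Normal := by
  refine CfsgH2.sylow_two_normal_aux _ G rfl ?_ P
  intro x hx t ht hn
  by_cases hx1 : x = 1
  · rw [hx1, one_mul, mul_one]
  have h1 : Subgroup.zpowers x ≠ ⊥ := fun h => hx1 (Subgroup.zpowers_eq_bot.1 h)
  have h2 : ¬ 2 ∣ Nat.card (Subgroup.zpowers x) := by
    rw [Nat.card_zpowers]
    intro hd
    exact absurd (Nat.eq_one_of_dvd_coprimes hx hd dvd_rfl) (by norm_num)
  have h3 := hhom _ h1 h2
  set N := Subgroup.normalizer (Subgroup.zpowers x : Set G) with hN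
  set C := Subgroup.centralizer (Subgroup.zpowers x : Set G) with hC
  haveI : (C.subgroupOf N).Normal := by
    rw [hC, hN]; exact Subgroup.normal_subgroupOf_centralizer_normalizer _
  obtain ⟨k, hk⟩ := ht
  have h4 : (QuotientGroup.mk' (C.subgroupOf N) ⟨t, hn⟩) = 1 := by
    rw [← orderOf_eq_one_iff]
    have h5 : orderOf (QuotientGroup.mk' (C.subgroupOf N) ⟨t, hn⟩) ∣ 2 ^ k := by
      have := orderOf_map_dvd (QuotientGroup.mk' (C.subgroupOf N)) (⟨t, hn⟩ : N)
      rwa [Subgroup.orderOf_mk, hk] at this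
    have h6 : orderOf (QuotientGroup.mk' (C.subgroupOf N) ⟨t, hn⟩) ∣ C.relIndex N := orderOf_dvd_natCard _
    have h7 : (C.relIndex N).Coprime (2 ^ k) :=
      ((Nat.Prime.coprime_iff_not_dvd Nat.prime_two).2 h3).symm.pow_right k
    exact Nat.eq_one_of_dvd_coprimes h7 h6 h5
  have h5 : (⟨t, hn⟩ : N) ∈ C.subgroupOf N := (QuotientGroup.eq_one_iff _).1 h4
  rw [Subgroup.mem_subgroupOf] at h5
  exact (Subgroup.mem_centralizer_iff.1 h5) x (Subgroup.mem_zpowers x)

end Cfsg.Agent.S4049
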