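import Cfsg.Statements.S4058
import Cfsg.Agent.H2.FrobSchur
import Cfsg.Agent.H1.Frat
import Cfsg.Agent.H4.Burnside

set_option autoImplicit false
open Cfsg
open scoped commutatorElement

namespace Cfsg.Agent.S4058

open CfsgH2 CfsgH4 Subgroup
open scoped ComplexConjugate

universe u

theorem finite_homs (G : Type u) [Group G] [Finite G] : Finite (G →* ℂˣ) := by
  apply Nat.finite_of_card_ne_zero
  rw [card_hom_units]
  exact Subgroup.index_ne_zero_of_finite

theorem card_stab_le {G : Type u} [Group G] [Fintype G] {χ : G → ℂ} (hχ : IsIrrCharacter G χ) {n : ℕ} (hn : χ 1 = n)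
    (S : Subgroup (G →* ℂˣ)) (hS : ∀ f ∈ S, ∀ g, (f g : ℂ) * χ g = χ g) : Nat.card S ≤ n ^ 2 := by
  classical
  haveI := finite_homs G
  haveI : Fintype S := Fintype.ofFinite S
  set K : Finset G := Finset.univ.filter (fun g => ∀ f ∈ S, f g = 1) with hK
  have hz : ∀ g, g ∉ K → χ g = 0 := by
    intro g hg
    rw [hK, Finset.mem_filter, not_and] at hg
    have h1 := hg (Finset.mem_univ g)
    push Not at h1
    obtain ⟨f, hf, hfg⟩ := h1
    have h2 := hS f hf g
    have h3 : ((f g : ℂ) - 1) * χ g = 0 := by rw [sub_mul, h2, one_mul, sub_self]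
    rcases mul_eq_zero.1 h3 with h | h
    · exfalso
      apply hfg
      apply Units.ext
      rw [Units.val_one]
      exact sub_eq_zero.1 h
    · exact h
  have hrow : ∑ g : G, ∑ f : S, ((f : G →* ℂˣ) g : ℂ) = Nat.card G := by
    rw [Finset.sum_comm, ← Finset.add_sum_erase _ _ (Finset.mem_univ (1 : S))]
    have h1 : ∀ f ∈ Finset.univ.erase (1 : S), ∑ g : G, ((f : G →* ℂˣ) g : ℂ) = 0 := by
      intro f hf
      have hne : (Units.coeHom ℂ).comp (f : G →* ℂˣ) ≠ 1 := by
        intro h
        apply (Finset.mem_erase.1 hf).1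
        apply Subtype.ext
        ext g
        have := congrArg (fun φ : G →* ℂ => φ g) h
        simpa using this
      exact sum_hom_units_eq_zero _ hne
    rw [Finset.sum_eq_zero h1, add_zero]
    simp [Nat.card_eq_fintype_card]
  have hcol : ∀ g : G, ∑ f : S, ((f : G →* ℂˣ) g : ℂ) = if g ∈ K then (Nat.card S : ℂ) else 0 := by
    intro g
    by_cases hg : g ∈ K
    · rw [if_pos hg]
      rw [hK, Finset.mem_filter] at hg
      have : ∀ f : S, ((f : G →* ℂˣ) g : ℂ) = 1 := fun f => by rw [hg.2 f f.2]; rfl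
      simp [this, Nat.card_eq_fintype_card]
    · rw [if_neg hg]
      let ev : S →* ℂ :=
        { toFun := fun f => ((f : G →* ℂˣ) g : ℂ)
          map_one' := by simp
          map_mul' := fun a b => by simp }
      have hne : ev ≠ 1 := by
        intro h
        apply hg
        rw [hK, Finset.mem_filter]
        refine ⟨Finset.mem_univ _, fun f hf => ?_⟩
        have := congrArg (fun φ : S →* ℂ => φ ⟨f, hf⟩) h
        apply Units.ext
        simpa [ev] using this
      exact sum_hom_units_eq_zero ev hne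
  have hSK : Nat.card S * K.card = Nat.card G := by
    have h1 : ∑ g : G, (if g ∈ K then (Nat.card S : ℂ) else 0) = Nat.card G := by
      rw [← hrow]; exact Finset.sum_congr rfl fun g _ => (hcol g).symm
    rw [← Finset.sum_filter, Finset.sum_const, nsmul_eq_mul, Finset.filter_mem_eq_inter, Finset.univ_inter] at h1
    have h2 : ((Nat.card S * K.card : ℕ) : ℂ) = (Nat.card G : ℕ) := by
      push_cast; rw [mul_comm]; exact h1
    exact_mod_cast h2
  have hnorm : (Nat.card G : ℝ) ≤ K.card * (n : ℝ) ^ 2 := by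
    have h1 := classInner_irr_self hχ
    rw [classInner_self_eq] at h1
    have h2 : ((Nat.card G : ℝ)⁻¹ * ∑ g : G, ‖χ g‖ ^ 2 : ℝ) = 1 := by exact_mod_cast h1
    have hG0 : (Nat.card G : ℝ) ≠ 0 := by exact_mod_cast Nat.card_pos.ne'
    have h3 : ∑ g : G, ‖χ g‖ ^ 2 = (Nat.card G : ℝ) := by
      field_simp at h2
      exact h2
    rw [← h3]
    calc ∑ g : G, ‖χ g‖ ^ 2 ≤ ∑ g : G, (if g ∈ K then (n : ℝ) ^ 2 else 0) := by
          apply Finset.sum_le_sum
          intro g _
          by_cases hg : g ∈ K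
          · rw [if_pos hg]
            have h4 := IsCharacter.norm_le (IsIrr.isCharacter hχ) g
            have h5 : ‖χ g‖ ≤ n := by
              rw [hn] at h4
              simpa using h4
            exact pow_le_pow_left₀ (norm_nonneg _) h5 2
          · rw [if_neg hg, hz g hg]; simp
      _ = K.card * (n : ℝ) ^ 2 := by
          rw [← Finset.sum_filter, Finset.sum_const, nsmul_eq_mul, Finset.filter_mem_eq_inter, Finset.univ_inter]
  have h6 : Nat.card S * K.card ≤ K.card * n ^ 2 := by
    rw [hSK]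
    exact_mod_cast hnorm
  have hK0 : 0 < K.card := by
    rcases Nat.eq_zero_or_pos K.card with h | h
    · rw [h, mul_zero] at hSK
      exact absurd hSK.symm Nat.card_pos.ne'
    · exact h
  rw [mul_comm (K.card)] at h6
  exact Nat.le_of_mul_le_mul_right h6 hK0

/-- multiplication by linear characters -/
@[instance_reducible] noncomputable def linAct (G : Type u) [Group G] [Finite G] : MulAction (G →* ℂˣ) (IrrCharacter G) where
  smul f χ := ⟨fun g => (f g : ℂ) * (χ : G → ℂ) g, linear_mul_irr f χ.2⟩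
  one_smul χ := by
    apply Subtype.ext
    funext g
    show ((1 : G →* ℂˣ) g : ℂ) * (χ : G → ℂ) g = (χ : G → ℂ) g
    simp
  mul_smul f f' χ := by
    apply Subtype.ext
    funext g
    show ((f * f') g : ℂ) * (χ : G → ℂ) g = (f g : ℂ) * ((f' g : ℂ) * (χ : G → ℂ) g)
    rw [MonoidHom.mul_apply, Units.val_mul, mul_assoc]

theorem sum_orbits {Λ X : Type*} [Group Λ] [Fintype X] [Finite Λ] [MulAction Λ X] (F : X → ℂ) (m : ℕ)
    (hF : ∀ (l : Λ) (x : X), F (l • x) = F x)
    (hd : ∀ x : X, ∃ z : ℤ, (Nat.card (MulAction.orbit Λ x) : ℂ) * F x = m * z) :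
    ∃ z : ℤ, ∑ x : X, F x = m * z := by
  classical
  haveI : Fintype (Quotient (MulAction.orbitRel Λ X)) := Fintype.ofFinite _
  rw [← Finset.sum_fiberwise (s := Finset.univ) (g := fun x : X => (Quotient.mk (MulAction.orbitRel Λ X) x))]
  have key : ∀ q : Quotient (MulAction.orbitRel Λ X), ∃ z : ℤ,
      ∑ x ∈ Finset.univ.filter (fun x : X => (Quotient.mk (MulAction.orbitRel Λ X) x) = q), F x = m * z := by
    intro q
    obtain ⟨x0, rfl⟩ := Quotient.exists_rep q
    obtain ⟨z, hz⟩ := hd x0
    refine ⟨z, ?_⟩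
    rw [← hz]
    have h1 : ∀ x ∈ Finset.univ.filter (fun x : X => (Quotient.mk (MulAction.orbitRel Λ X) x) =
        (Quotient.mk (MulAction.orbitRel Λ X) x0)), F x = F x0 := by
      intro x hx
      rw [Finset.mem_filter] at hx
      obtain ⟨l, hl⟩ := Quotient.exact hx.2
      rw [← hl]; exact hF l x0
    rw [Finset.sum_congr rfl h1, Finset.sum_const, nsmul_eq_mul]
    congr 2
    rw [Nat.card_eq_fintype_card, ← Set.toFinset_card]
    congr 1
    ext x
    rw [Finset.mem_filter, Set.mem_toFinset]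
    constructor
    · intro hx; exact Quotient.exact hx.2
    · intro hx; exact ⟨Finset.mem_univ _, Quotient.sound hx⟩
  choose z hz using key
  refine ⟨∑ q, z q, ?_⟩
  rw [Finset.sum_congr rfl (fun q _ => hz q)]
  push_cast
  rw [Finset.mul_sum]

/-- the order two linear characters -/
def lin2 (G : Type u) [Group G] : Subgroup (G →* ℂˣ) where
  carrier := {f | ∀ g, f g * f g = 1}
  one_mem' := by intro g; simp
  mul_mem' := by
    intro a b ha hb g
    rw [MonoidHom.mul_apply, mul_mul_mul_comm, ha, hb, one_mul]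
  inv_mem' := by
    intro a ha g
    rw [MonoidHom.inv_apply, ← mul_inv, ha, inv_one]

theorem card_lin2_ge {G : Type u} [Group G] [Finite G] (hG : IsPGroup 2 G) :
    Nat.card (G ⧸ frattini G) ≤ Nat.card (lin2 G) := by
  haveI := finite_homs G
  have hcomm : ∀ a b : G ⧸ frattini G, a * b = b * a := by
    intro a b
    obtain ⟨x, rfl⟩ := QuotientGroup.mk'_surjective _ a
    obtain ⟨y, rfl⟩ := QuotientGroup.mk'_surjective _ b
    rw [← commutatorElement_eq_one_iff_mul_comm, ← map_commutatorElement]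
    have h1 : ⁅x, y⁆ ∈ frattini G := by
      haveI : Fact (Nat.Prime 2) := ⟨Nat.prime_two⟩
      haveI := hG.isNilpotent
      exact CfsgH1.commutator_le_frattini (Subgroup.commutator_mem_commutator (Subgroup.mem_top x) (Subgroup.mem_top y))
    exact (QuotientGroup.eq_one_iff _).2 h1
  have hQ : Nat.card ((G ⧸ frattini G) →* ℂˣ) = Nat.card (G ⧸ frattini G) := by
    rw [card_hom_units]
    have : commutator (G ⧸ frattini G) = ⊥ := by
      rw [eq_bot_iff, commutator_def, Subgroup.commutator_le]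
      intro a _ b _
      rw [Subgroup.mem_bot, commutatorElement_eq_one_iff_mul_comm]
      exact hcomm a b
    rw [this, Subgroup.index_bot]
  rw [← hQ]
  refine Nat.card_le_card_of_injective (fun f : (G ⧸ frattini G) →* ℂˣ =>
    (⟨f.comp (QuotientGroup.mk' _), ?_⟩ : lin2 G)) ?_
  · intro g
    haveI : Fact (Nat.Prime 2) := ⟨Nat.prime_two⟩
    rw [← map_mul, ← pow_two]
    have h1 : g ^ 2 ∈ frattini G := CfsgH1.pow_mem_frattini hG g
    have h2 : (QuotientGroup.mk' (frattini G)) (g ^ 2) = 1 := (QuotientGroup.eq_one_iff _).2 h1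
    rw [MonoidHom.comp_apply, h2, map_one]
  · intro f f' h
    have h1 := congrArg Subtype.val h
    simp only at h1
    ext x
    have := congrArg (fun φ : G →* ℂˣ => ((φ x : ℂˣ) : ℂ)) h1
    simpa using this

theorem card_lin2_pow {G : Type u} [Group G] [Finite G] : ∃ d, Nat.card (lin2 G) = 2 ^ d := by
  haveI := finite_homs G
  haveI : Fact (Nat.Prime 2) := ⟨Nat.prime_two⟩
  have : IsPGroup 2 (lin2 G) := by
    intro f
    refine ⟨1, Subtype.ext ?_⟩
    ext g
    have := f.2 g
    simp only [pow_one, Subgroup.coe_pow, MonoidHom.pow_apply, Subgroup.coe_one, MonoidHom.one_apply]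
    rw [pow_two, this]
  exact IsPGroup.iff_card.1 this


/-- Let G be a finite 2-group with #(G/Φ(G)) ≥ 2^(2k+1). Then the number of elements x of G with x² = 1 is divisible by 2^(k+1). -/
theorem result {G : Type*} [Group G] [Finite G] (hG : IsPGroup 2 G) (k : ℕ)
    (hgen : 2 ^ (2 * k + 1) ≤ Nat.card (G ⧸ frattini G)) :
    2 ^ (k + 1) ∣ Nat.card {x : G // x ^ 2 = 1} := by
  classical
  haveI := finite_homs G
  haveI : Fintype G := Fintype.ofFinite G
  haveI : Fact (Nat.Prime 2) := ⟨Nat.prime_two⟩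
  letI := linAct G
  set F : IrrCharacter G → ℂ := fun χ => ((Nat.card G : ℂ)⁻¹ * ∑ g : G, (χ : G → ℂ) (g * g)) * (χ : G → ℂ) 1 with hF
  obtain ⟨d, hd⟩ := card_lin2_pow (G := G)
  have hdk : 2 * k + 1 ≤ d := by
    have h1 := hgen.trans (card_lin2_ge hG)
    rw [hd] at h1
    exact (Nat.pow_le_pow_iff_right (by norm_num)).1 h1
  have hcoe : ∀ (f : lin2 G) (χ : IrrCharacter G) (g : G), ((f • χ : IrrCharacter G) : G → ℂ) g =
      ((f : G →* ℂˣ) g : ℂ) * (χ : G → ℂ) g := fun f χ g => rfl
  have hmain : ∃ z : ℤ, ∑ χ : IrrCharacter G, F χ = ((2 ^ (k + 1) : ℕ) : ℂ) * z := by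
    refine sum_orbits (Λ := lin2 G) F _ ?_ ?_
    · intro f χ
      simp only [hF]
      have h1 : ∀ g : G, ((f • χ : IrrCharacter G) : G → ℂ) (g * g) = (χ : G → ℂ) (g * g) := by
        intro g
        rw [hcoe, map_mul, f.2 g]; simp
      rw [Finset.sum_congr rfl (fun g _ => h1 g), hcoe, map_one, Units.val_one, one_mul]
    · intro χ
      obtain ⟨n, hn⟩ := IsCharacter.one_nat (IsIrr.isCharacter χ.2)
      obtain ⟨ν, hν⟩ := exists_int_indicator (IsIrr.isCharacter χ.2)
      have hnd := degree_dvd_card χ.2 hn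
      obtain ⟨m, hm⟩ := IsPGroup.iff_card.1 hG
      rw [hm] at hnd
      obtain ⟨e, -, he⟩ := (Nat.dvd_prime_pow Nat.prime_two).1 hnd
      -- stabilizer
      set S := MulAction.stabilizer (lin2 G) χ with hS
      have hS1 : Nat.card (S.map (lin2 G).subtype) ≤ n ^ 2 := by
        apply card_stab_le χ.2 hn
        rintro _ ⟨f, hf, rfl⟩ g
        have h1 : f • χ = χ := hf
        have h2 := hcoe f χ g
        rw [h1] at h2
        exact h2.symm
      rw [Subgroup.card_map_of_injective (Subgroup.subtype_injective _)] at hS1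
      have hS2 : Nat.card S ∣ 2 ^ d := by rw [← hd]; exact Subgroup.card_subgroup_dvd_card S
      obtain ⟨s, hsd, hs⟩ := (Nat.dvd_prime_pow Nat.prime_two).1 hS2
      have hs2e : s ≤ 2 * e := by
        rw [hs, he, ← pow_mul] at hS1
        have := (Nat.pow_le_pow_iff_right (by norm_num)).1 hS1
        omega
      have horb : Nat.card (MulAction.orbit (lin2 G) χ) = 2 ^ (d - s) := by
        have h1 := Nat.card_congr (MulAction.orbitProdStabilizerEquivGroup (lin2 G) χ)
        rw [Nat.card_prod, hd] at h1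
        have h2 : Nat.card (MulAction.orbit (lin2 G) χ) * 2 ^ s = 2 ^ (d - s) * 2 ^ s := by
          rw [← pow_add, Nat.sub_add_cancel hsd, ← h1]
          congr 1
          exact hs.symm
        exact Nat.eq_of_mul_eq_mul_right (by positivity) h2
      refine ⟨ν * 2 ^ (d - s + e - (k + 1)), ?_⟩
      simp only [hF]
      rw [horb, hν, hn, he]
      push_cast
      have h3 : d - s + e = (k + 1) + (d - s + e - (k + 1)) := by omega
      have h4 : (2 : ℂ) ^ (d - s) * (2 : ℂ) ^ e = 2 ^ (k + 1) * 2 ^ (d - s + e - (k + 1)) := by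
        rw [← pow_add, ← pow_add, ← h3]
      calc (2 : ℂ) ^ (d - s) * ((ν : ℂ) * 2 ^ e) = (2 ^ (d - s) * 2 ^ e) * ν := by ring
        _ = _ := by rw [h4]; ring
  obtain ⟨z, hz⟩ := hmain
  have h1 := card_sq_eq_one (G := G)
  rw [hF] at hz
  rw [hz] at h1
  have h2 : ((Nat.card {x : G // x ^ 2 = 1} : ℕ) : ℤ) = ((2 ^ (k + 1) : ℕ) : ℤ) * z := by
    exact_mod_cast h1
  exact Int.natCast_dvd_natCast.1 ⟨z, h2⟩

end Cfsg.Agent.S4058
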