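import Cfsg.Statements.S4084
import Cfsg.Agent.H2.Misc7

set_option autoImplicit false
open Cfsg
open scoped commutatorElement

namespace Cfsg.Agent.S4084

/-- Let G and H be finite groups whose commuting graphs are isomorphic: there is a bijection e : G → H with x, y commuting exactly when e(x), e(y) commute. Then G and H have the same prime graph: for distinct primes p, q, G has an element of order pq if and only if H does (and #G = #H, so the prime divisors agree). -/
theorem result {G H : Type*} [Group G] [Finite G] [Group H] [Finite H] (e : G ≃ H)
    (he : ∀ x y : G, Commute x y ↔ Commute (e x) (e y))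
    {p q : ℕ} (hp : p.Prime) (hq : q.Prime) (hpq : p ≠ q) :
    (∃ g : G, orderOf g = p * q) ↔ (∃ h : H, orderOf h = p * q) := by
  constructor
  · exact CfsgH2.commuting_prime_graph e he hp hq hpq
  · refine CfsgH2.commuting_prime_graph e.symm (fun x y => ?_) hp hq hpq
    rw [he, e.apply_symm_apply, e.apply_symm_apply]

end Cfsg.Agent.S4084
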