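import Cfsg.Statements.S4089
import Cfsg.Agent.H2.Subnz

set_option autoImplicit false
open Cfsg
open scoped commutatorElement

namespace Cfsg.Agent.S4089

/-- Let G be a finite group, p a prime and H a p-subgroup of G. Then the set of elements g of G such that H is subnormal in the subgroup generated by H and g is the union of the normalizers N_G(R) over the subgroups R of G containing H with R = O_p(N_G(R)); and this set does not change when H is replaced by the intersection of all Sylow p-subgroups of G containing H. -/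
theorem result {G : Type*} [Group G] [Finite G] (p : ℕ) [Fact p.Prime]
    (H : Subgroup G) (hH : IsPGroup p H) :
    {g : G | ((H).subgroupOf (H ⊔ Subgroup.zpowers g)).IsSubnormal} =
      {g : G | ∃ R : Subgroup G, H ≤ R ∧ (Cfsg.pCore p (Subgroup.normalizer (R : Set G))).map (Subgroup.normalizer (R : Set G)).subtype = R ∧ g ∈ Subgroup.normalizer (R : Set G)} ∧
    ∀ g : G, (((H).subgroupOf (H ⊔ Subgroup.zpowers g)).IsSubnormal ↔
      (((sInf {K : Subgroup G | ∃ Q : Sylow p G, H ≤ (Q : Subgroup G) ∧ K = (Q : Subgroup G)})).subgroupOf ((sInf {K : Subgroup G | ∃ Q : Sylow p G, H ≤ (Q : Subgroup G) ∧ K = (Q : Subgroup G)}) ⊔ Subgroup.zpowers g)).IsSubnormal) := by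
  constructor
  · ext g
    rw [Set.mem_setOf_eq, Set.mem_setOf_eq, CfsgH2.subnz_iff hH]
    constructor
    · exact CfsgH2.exists_radical
    · rintro ⟨R, hHR, hR, hg⟩
      exact ⟨R, by rw [← hR]; exact CfsgH2.isPGroup_pCoreOf _, hHR, hg⟩
  · intro g
    set T := sInf {K : Subgroup G | ∃ Q : Sylow p G, H ≤ (Q : Subgroup G) ∧ K = (Q : Subgroup G)} with hT
    have hHT : H ≤ T := by
      apply le_sInf
      rintro _ ⟨Q, hQ, rfl⟩
      exact hQ
    obtain ⟨Q0, hQ0⟩ := hH.exists_le_sylow
    have hTp : IsPGroup p T := Q0.2.to_le (sInf_le ⟨Q0, hQ0, rfl⟩)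
    rw [CfsgH2.subnz_iff hH, CfsgH2.subnz_iff hTp]
    constructor
    · intro h
      obtain ⟨R, hHR, hR, hg⟩ := CfsgH2.exists_radical h
      refine ⟨R, by rw [← hR]; exact CfsgH2.isPGroup_pCoreOf _, ?_, hg⟩
      rw [← CfsgH2.radical_sInf hR]
      apply sInf_le_sInf
      rintro _ ⟨Q, hQ, rfl⟩
      exact ⟨Q, hHR.trans hQ, rfl⟩
    · rintro ⟨R, hR, hTR, hg⟩
      exact ⟨R, hR, hHT.trans hTR, hg⟩

end Cfsg.Agent.S4089
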