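import Cfsg.Statements.S4115
import Cfsg.Agent.H2.TIFrob2

set_option autoImplicit false
universe u
open Cfsg
open scoped commutatorElement

namespace Cfsg.Agent.S4115

/-- Let G be a finite group and H a subgroup that meets each of its conjugates by elements outside N_G(H) trivially and whose order is coprime to its index in N_G(H). Then H has a normal complement in N_G(H) if and only if H has a normal complement in G. Moreover, if H is not normal in G and has a normal complement in N_G(H), then H is isomorphic to a Frobenius complement of some finite Frobenius group. -/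
theorem result {G : Type u} [Group G] [Finite G] (H : Subgroup G)
    (hTI : Cfsg.IsTISubset (H : Set G)) (hHall : (Nat.card H).Coprime (H.subgroupOf (Subgroup.normalizer (H : Set G))).index) :
    ((∃ K : Subgroup (Subgroup.normalizer (H : Set G)), K.Normal ∧ K.IsComplement' (H.subgroupOf (Subgroup.normalizer (H : Set G)))) ↔
      (∃ N : Subgroup G, N.Normal ∧ N.IsComplement' H)) ∧
    (¬ H.Normal → (∃ K : Subgroup (Subgroup.normalizer (H : Set G)), K.Normal ∧ K.IsComplement' (H.subgroupOf (Subgroup.normalizer (H : Set G)))) →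
      ∃ (F : Type u) (_ : Group F) (_ : Finite F) (C : Subgroup F), Cfsg.IsFrobeniusComplement C ∧ Nonempty (H ≃* C)) := by
  have key := fun hK : (∃ K : Subgroup (Subgroup.normalizer (H : Set G)), K.Normal ∧ K.IsComplement' (H.subgroupOf (Subgroup.normalizer (H : Set G)))) =>
    hK.elim fun K h => CfsgH2.ti_normal_complement hTI rfl hHall K h.1 h.2
  refine ⟨⟨key, ?_⟩, ?_⟩
  · rintro ⟨N, hN, hNc⟩
    haveI := hN
    set M := Subgroup.normalizer (H : Set G) with hM
    have hHM : H ≤ M := Subgroup.le_normalizer
    have h1 : N ⊓ H = ⊥ := hNc.disjoint.eq_bot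
    have h2 : N ⊔ H = ⊤ := hNc.sup_eq_top
    refine ⟨N.subgroupOf M, inferInstance, ?_⟩
    apply Subgroup.isComplement'_of_disjoint_and_mul_eq_univ
    · rw [disjoint_iff, eq_bot_iff]
      intro x hx
      obtain ⟨hx1, hx2⟩ := Subgroup.mem_inf.1 hx
      have h3 : (x : G) ∈ N ⊓ H := Subgroup.mem_inf.2 ⟨hx1, hx2⟩
      rw [h1, Subgroup.mem_bot] at h3
      exact Subtype.ext h3
    · rw [Set.eq_univ_iff_forall]
      intro x
      have h3 : (x : G) ∈ N ⊔ H := by rw [h2]; trivial
      obtain ⟨n, hn, h, hh, e⟩ := Subgroup.mem_sup_of_normal_left.1 h3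
      have hnM : n ∈ M := by
        have : n = (x : G) * h⁻¹ := by rw [← e]; group
        rw [this]
        exact M.mul_mem x.2 (M.inv_mem (hHM hh))
      exact ⟨⟨n, hnM⟩, hn, ⟨h, hHM hh⟩, hh, Subtype.ext e⟩
  · intro hnn hK
    obtain ⟨N, hN, hNc⟩ := key hK
    haveI := hN
    exact CfsgH2.ti_frobenius hTI (CfsgH2.ti_hall_coprime hTI hHall) hnn hNc

end Cfsg.Agent.S4115
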