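import Cfsg.Statements.S4149
import Cfsg.Agent.H2.ClassSize

set_option autoImplicit false
open Cfsg
open scoped commutatorElement

namespace Cfsg.Agent.S4149

/-- Let G be a finite group that has a normal p-complement for at most one prime p dividing its order, and let σ be a natural number such that every conjugacy class size of G has at most σ distinct prime divisors. Then the number of primes dividing at least one conjugacy class size of G is at most 2σ. -/
theorem result {G : Type*} [Group G] [Finite G] (σ : ℕ)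
    (hσ : ∀ x : G, ((Subgroup.centralizer ({x} : Set G)).index).primeFactors.card ≤ σ)
    (hnil : ∀ p q : ℕ, p.Prime → q.Prime → p ∣ Nat.card G → q ∣ Nat.card G →
      Cfsg.HasNormalPComplement p G → Cfsg.HasNormalPComplement q G → p = q) :
    Nat.card {p : ℕ | p.Prime ∧ ∃ x : G, p ∣ (Subgroup.centralizer ({x} : Set G)).index} ≤ 2 * σ := by
  classical
  haveI : Fintype G := Fintype.ofFinite G
  have hcs : ∀ x : G, (Subgroup.centralizer ({x} : Set G)).index = CfsgH2.csz x := fun x => rfl
  set R : Finset ℕ := (Nat.card G).primeFactors.filter (fun p => ∃ x : G, p ∣ CfsgH2.csz x) with hR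
  have hset : {p : ℕ | p.Prime ∧ ∃ x : G, p ∣ (Subgroup.centralizer ({x} : Set G)).index} = (R : Set ℕ) := by
    ext p
    rw [hR]
    simp only [Set.mem_setOf_eq, Finset.coe_filter, Nat.mem_primeFactors]
    constructor
    · rintro ⟨hp, x, hx⟩
      exact ⟨⟨hp, hx.trans (Subgroup.index_dvd_card _), Nat.card_pos.ne'⟩, x, hx⟩
    · rintro ⟨⟨hp, -⟩, x, hx⟩
      exact ⟨hp, x, hx⟩
  rw [hset]
  have hcardR : Nat.card (R : Set ℕ) = R.card := by
    rw [Nat.card_coe_set_eq, Set.ncard_coe_finset]
  rw [hcardR]
  rcases Nat.eq_zero_or_pos σ with rfl | hσ0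
  · have : R = ∅ := by
      rw [Finset.eq_empty_iff_forall_notMem]
      intro p hp
      rw [hR, Finset.mem_filter, Nat.mem_primeFactors] at hp
      obtain ⟨⟨hpp, -⟩, x, hx⟩ := hp
      have h1 := hσ x
      have h2 : p ∈ (CfsgH2.csz x).primeFactors := Nat.mem_primeFactors.2 ⟨hpp, hx, CfsgH2.csz_ne_zero x⟩
      have h3 := Finset.card_pos.2 ⟨p, h2⟩
      have h4 : (CfsgH2.csz x).primeFactors.card ≤ 0 := h1
      omega
    rw [this]; simp
  set R' : Finset ℕ := R.filter (fun p => ¬ Cfsg.HasNormalPComplement p G) with hR'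
  have hRR' : R.card ≤ R'.card + 1 := by
    have h1 : R.card = R'.card + (R.filter (fun p => Cfsg.HasNormalPComplement p G)).card := by
      rw [hR', add_comm]
      exact (Finset.card_filter_add_card_filter_not (s := R) (fun p => Cfsg.HasNormalPComplement p G)).symm
    have h2 : (R.filter (fun p => Cfsg.HasNormalPComplement p G)).card ≤ 1 := by
      rw [Finset.card_le_one]
      intro p hp q hq
      rw [Finset.mem_filter, hR, Finset.mem_filter, Nat.mem_primeFactors] at hp hq
      exact hnil p q hp.1.1.1 hq.1.1.1 hp.1.1.2.1 hq.1.1.2.1 hp.2 hq.2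
    omega
  have hone : ∀ p ∈ R', Fintype.card G ≤ 2 * (Finset.univ.filter (fun x : G => p ∣ CfsgH2.csz x)).card := by
    intro p hp
    rw [hR', Finset.mem_filter, hR, Finset.mem_filter, Nat.mem_primeFactors] at hp
    haveI : Fact p.Prime := ⟨hp.1.1.1⟩
    have h1 := CfsgH2.two_mul_card_not_dvd_csz_le (p := p) hp.2
    rw [Nat.card_eq_fintype_card, Nat.card_eq_fintype_card, Fintype.card_subtype] at h1
    have h2 := Finset.card_filter_add_card_filter_not (s := (Finset.univ : Finset G)) (fun x => p ∣ CfsgH2.csz x)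
    rw [Finset.card_univ] at h2
    omega
  have hsum : ∑ p ∈ R', (Finset.univ.filter (fun x : G => p ∣ CfsgH2.csz x)).card ≤ σ * (Fintype.card G - 1) := by
    have h1 : ∑ p ∈ R', (Finset.univ.filter (fun x : G => p ∣ CfsgH2.csz x)).card =
        ∑ x : G, (R'.filter (fun p => p ∣ CfsgH2.csz x)).card := by
      simp only [Finset.card_filter]
      rw [Finset.sum_comm]
    rw [h1, ← Finset.add_sum_erase _ _ (Finset.mem_univ (1 : G))]
    have h2 : (R'.filter (fun p => p ∣ CfsgH2.csz (1 : G))).card = 0 := by
      rw [Finset.card_eq_zero, Finset.filter_eq_empty_iff]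
      intro p hp hd
      rw [hR', Finset.mem_filter, hR, Finset.mem_filter, Nat.mem_primeFactors] at hp
      rw [CfsgH2.csz_one] at hd
      exact hp.1.1.1.one_lt.ne' (Nat.dvd_one.1 hd)
    rw [h2, zero_add]
    refine (Finset.sum_le_card_nsmul _ _ σ ?_).trans ?_
    · intro x _
      refine le_trans (Finset.card_le_card ?_) (hσ x)
      intro p hp
      rw [Finset.mem_filter, hR', Finset.mem_filter, hR, Finset.mem_filter, Nat.mem_primeFactors] at hp
      exact Nat.mem_primeFactors.2 ⟨hp.1.1.1.1, hp.2, CfsgH2.csz_ne_zero x⟩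
    · rw [Finset.card_erase_of_mem (Finset.mem_univ _), Finset.card_univ, smul_eq_mul, mul_comm]
  have h3 : R'.card * Fintype.card G ≤ 2 * (σ * (Fintype.card G - 1)) := by
    calc R'.card * Fintype.card G = ∑ p ∈ R', Fintype.card G := by simp
      _ ≤ ∑ p ∈ R', 2 * (Finset.univ.filter (fun x : G => p ∣ CfsgH2.csz x)).card := Finset.sum_le_sum hone
      _ = 2 * ∑ p ∈ R', (Finset.univ.filter (fun x : G => p ∣ CfsgH2.csz x)).card := by rw [Finset.mul_sum]
      _ ≤ _ := Nat.mul_le_mul_left _ hsum
  have hG : 0 < Fintype.card G := Fintype.card_pos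
  have h4 : R'.card < 2 * σ := by
    by_contra hcon
    push Not at hcon
    have h5 : 2 * σ * Fintype.card G ≤ R'.card * Fintype.card G := Nat.mul_le_mul_right _ hcon
    have h6 : 2 * (σ * (Fintype.card G - 1)) < 2 * σ * Fintype.card G := by
      rw [← mul_assoc]
      exact Nat.mul_lt_mul_of_pos_left (by omega) (by omega)
    omega
  omega

end Cfsg.Agent.S4149
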