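import Cfsg.Statements.S4152
import Cfsg.Agent.H2.PiCount

set_option autoImplicit false
open Cfsg
open scoped commutatorElement

namespace Cfsg.Agent.S4152

/-- Let G be a finite group, N a normal subgroup and π a set of primes. Then the number of conjugacy classes of π-elements of G (elements whose order is divisible only by primes in π) is at most the number of conjugacy classes of π-elements of N (under conjugation by N) times the number of conjugacy classes of π-elements of G/N. -/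
theorem result {G : Type*} [Group G] [Finite G] (N : Subgroup G) [N.Normal] (π : Set ℕ) :
    Nat.card {C : ConjClasses G // ∀ q : ℕ, q.Prime → (∃ g : G, ConjClasses.mk g = C ∧ q ∣ orderOf g) → q ∈ π} ≤ Nat.card {C : ConjClasses N // ∀ q : ℕ, q.Prime → (∃ g : N, ConjClasses.mk g = C ∧ q ∣ orderOf g) → q ∈ π} * Nat.card {C : ConjClasses (G ⧸ N) // ∀ q : ℕ, q.Prime → (∃ g : (G ⧸ N), ConjClasses.mk g = C ∧ q ∣ orderOf g) → q ∈ π} := by
  classical
  letI : Fintype G := Fintype.ofFinite G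
  have hM : Nat.card G ≠ 0 := Nat.card_pos.ne'
  obtain ⟨e, f, he1, he2, he3⟩ := CfsgH2.exists_pi_exp (Nat.card G) hM π
  have hG : ∀ g : G, g ^ Nat.card G = 1 := fun g => pow_card_eq_one'
  have hN : ∀ g : N, g ^ Nat.card G = 1 := fun g => Subtype.ext (by simpa using hG g)
  have hQ : ∀ g : G ⧸ N, g ^ Nat.card G = 1 := by
    intro g
    obtain ⟨a, rfl⟩ := QuotientGroup.mk_surjective g
    rw [← QuotientGroup.mk_pow, hG, QuotientGroup.mk_one]
  -- translation of the index sets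
  have hconv : ∀ {X : Type _} [Group X] (hX : ∀ g : X, g ^ Nat.card G = 1),
      Nat.card {C : ConjClasses X // ∀ q : ℕ, q.Prime → (∃ g : X, ConjClasses.mk g = C ∧ q ∣ orderOf g) → q ∈ π} =
      Nat.card {C : ConjClasses X // ∀ y : X, ConjClasses.mk y = C → y ^ e = y} := by
    intro X _ hX
    refine Nat.card_congr (Equiv.subtypeEquivRight fun C => ⟨?_, ?_⟩)
    · intro h y hy
      exact (he1 y (hX y) (fun q hq hqd => h q hq ⟨y, hy, hqd⟩)).1
    · rintro h q hq ⟨g, hg, hqd⟩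
      exact he2 g (hX g) (h g hg) q hq hqd
  rw [hconv hG, hconv hN, hconv hQ]
  have hconj : ∀ {X : Type _} [Group X], ∀ g y : X, y ^ e = y → (g * y * g⁻¹) ^ e = g * y * g⁻¹ := by
    intro X _ g y hy
    rw [conj_pow, hy]
  have cG := CfsgH2.card_comm_pairs (X := G) (fun y => y ^ e = y) (fun g y => hconj g y)
  have cN := CfsgH2.card_comm_pairs (X := N) (fun y => y ^ e = y) (fun g y => hconj g y)
  have cQ := CfsgH2.card_comm_pairs (X := G ⧸ N) (fun y => y ^ e = y) (fun g y => hconj g y)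
  set PG := {p : G × G // p.1 ^ e = p.1 ∧ p.1 * p.2 = p.2 * p.1} with hPG
  set PN := {p : N × N // p.1 ^ e = p.1 ∧ p.1 * p.2 = p.2 * p.1} with hPN
  set PQ := {p : (G ⧸ N) × (G ⧸ N) // p.1 ^ e = p.1 ∧ p.1 * p.2 = p.2 * p.1} with hPQ
  have key : Nat.card PG ≤ Nat.card PQ * Nat.card PN := by
    letI : Fintype PQ := Fintype.ofFinite _
    let φ : PG → PQ := fun p => ⟨((p.1.1 : G ⧸ N), (p.1.2 : G ⧸ N)), by
      refine ⟨?_, ?_⟩
      · show ((p.1.1 : G ⧸ N)) ^ e = _
        rw [← QuotientGroup.mk_pow, p.2.1]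
      · show ((p.1.1 : G ⧸ N)) * (p.1.2 : G ⧸ N) = _ * _
        rw [← QuotientGroup.mk_mul, p.2.2, QuotientGroup.mk_mul]⟩
    rw [Nat.card_congr (Equiv.sigmaFiberEquiv φ).symm, Nat.card_sigma]
    calc ∑ q : PQ, Nat.card {p : PG // φ p = q} ≤ ∑ _q : PQ, Nat.card PN := ?_
      _ = Nat.card PQ * Nat.card PN := by rw [Finset.sum_const, Finset.card_univ, smul_eq_mul, Nat.card_eq_fintype_card (α := PQ)]
    apply Finset.sum_le_sum
    rintro ⟨⟨x, z⟩, hx, hxz⟩ -
    -- first injection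
    let A1 := {p : G × N // (p.1 : G ⧸ N) = x ∧ p.1 ^ e = p.1 ∧ p.1 * p.2 = p.2 * p.1}
    let A2 := {p : G × N // (p.1 : G ⧸ N) = x ∧ p.2 ^ e = p.2 ∧ p.1 * p.2 = p.2 * p.1}
    have i1 : Nat.card {p : PG // φ p = ⟨(x, z), hx, hxz⟩} ≤ Nat.card A1 := by
      have hex : ∀ y : G, (∃ g : G, (g : G ⧸ N) = z ∧ y * g = g * y) → ∃ g : G, (g : G ⧸ N) = z ∧ y * g = g * y := fun y h => h
      let g0 : G → G := fun y => if h : ∃ g : G, (g : G ⧸ N) = z ∧ y * g = g * y then Classical.choose h else 1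
      have hg0 : ∀ y g : G, (g : G ⧸ N) = z → y * g = g * y → (g0 y : G ⧸ N) = z ∧ y * g0 y = g0 y * y := by
        intro y g h1 h2
        have h : ∃ g : G, (g : G ⧸ N) = z ∧ y * g = g * y := ⟨g, h1, h2⟩
        have : g0 y = Classical.choose h := dif_pos h
        rw [this]
        exact Classical.choose_spec h
      have hfst : ∀ p : {p : PG // φ p = ⟨(x, z), hx, hxz⟩}, (p.1.1.1 : G ⧸ N) = x ∧ (p.1.1.2 : G ⧸ N) = z := by
        intro p
        have h1 : ((p.1.1.1 : G ⧸ N), (p.1.1.2 : G ⧸ N)) = (x, z) := congrArg Subtype.val p.2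
        exact ⟨congrArg Prod.fst h1, congrArg Prod.snd h1⟩
      apply Nat.card_le_card_of_injective (fun p : {p : PG // φ p = ⟨(x, z), hx, hxz⟩} =>
        (⟨(p.1.1.1, ⟨(g0 p.1.1.1)⁻¹ * p.1.1.2, by
          have h2 := hg0 p.1.1.1 p.1.1.2 (hfst p).2 p.1.2.2
          exact QuotientGroup.eq.1 (h2.1.trans (hfst p).2.symm)⟩), (hfst p).1, p.1.2.1, by
          have h2 := (hg0 p.1.1.1 p.1.1.2 (hfst p).2 p.1.2.2).2
          have h3 : Commute p.1.1.1 (g0 p.1.1.1) := h2
          have h4 : Commute p.1.1.1 p.1.1.2 := p.1.2.2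
          exact (h3.inv_right.mul_right h4).eq⟩ : A1))
      intro p p' hpp
      have h2 : p.1.1.1 = p'.1.1.1 := congrArg (fun t : A1 => t.1.1) hpp
      have h3 : (g0 p.1.1.1)⁻¹ * p.1.1.2 = (g0 p'.1.1.1)⁻¹ * p'.1.1.2 := congrArg (fun t : A1 => (t.1.2 : G)) hpp
      rw [h2] at h3
      have h4 := mul_left_cancel h3
      exact Subtype.ext (Subtype.ext (Prod.ext h2 h4))
    have i2 : Nat.card A1 ≤ Nat.card A2 := by
      have hcm : ∀ p : A1, Commute p.1.1 (p.1.2 : G) := fun p => p.2.2.2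
      apply Nat.card_le_card_of_injective (fun p : A1 =>
        (⟨(p.1.1 * (p.1.2 : G) ^ f, p.1.2 ^ e), by
          refine ⟨?_, ?_, ?_⟩
          · show ((p.1.1 * (p.1.2 : G) ^ f : G) : G ⧸ N) = x
            rw [QuotientGroup.mk_mul, p.2.1, QuotientGroup.mk_pow, (QuotientGroup.eq_one_iff _).2 p.1.2.2, one_pow, mul_one]
          · show (p.1.2 ^ e) ^ e = p.1.2 ^ e
            rw [← pow_mul]; exact (he3 p.1.2 (hN _)).2.1
          · show p.1.1 * (p.1.2 : G) ^ f * ((p.1.2 ^ e : N) : G) = ((p.1.2 ^ e : N) : G) * (p.1.1 * (p.1.2 : G) ^ f)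
            rw [Subgroup.coe_pow]
            exact (((hcm p).pow_right e).mul_left ((Commute.refl (p.1.2 : G)).pow_pow f e)).eq⟩ : A2))
      intro p p' hpp
      have h1 : p.1.1 * (p.1.2 : G) ^ f = p'.1.1 * (p'.1.2 : G) ^ f := congrArg (fun t : A2 => t.1.1) hpp
      have h2 : p.1.2 ^ e = p'.1.2 ^ e := congrArg (fun t : A2 => t.1.2) hpp
      have h3 : ∀ p : A1, (p.1.1 * (p.1.2 : G) ^ f) ^ e = p.1.1 := by
        intro p
        rw [((hcm p).pow_right f).mul_pow, p.2.2.1, ← pow_mul, mul_comm f e, (he3 (p.1.2 : G) (hG _)).2.2.1, mul_one]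
      have h4 : p.1.1 = p'.1.1 := by rw [← h3 p, ← h3 p', h1]
      rw [h4] at h1
      have h5 := mul_left_cancel h1
      have h6 : p.1.2 = p'.1.2 := by
        apply Subtype.ext
        rw [← (he3 (p.1.2 : G) (hG _)).1, ← (he3 (p'.1.2 : G) (hG _)).1, h5]
        congr 1
        have := congrArg Subtype.val h2
        rwa [Subgroup.coe_pow, Subgroup.coe_pow] at this
      exact Subtype.ext (Prod.ext h4 h6)
    have i3 : Nat.card A2 ≤ Nat.card PN := by
      let y0 : N → G := fun a => if h : ∃ g : G, (g : G ⧸ N) = x ∧ g * a = a * g then Classical.choose h else 1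
      have hy0 : ∀ (a : N) (g : G), (g : G ⧸ N) = x → g * a = a * g → (y0 a : G ⧸ N) = x ∧ y0 a * a = a * y0 a := by
        intro a g h1 h2
        have h : ∃ g : G, (g : G ⧸ N) = x ∧ g * a = a * g := ⟨g, h1, h2⟩
        have : y0 a = Classical.choose h := dif_pos h
        rw [this]
        exact Classical.choose_spec h
      apply Nat.card_le_card_of_injective (fun p : A2 =>
        (⟨(p.1.2, ⟨(y0 p.1.2)⁻¹ * p.1.1, by
          have h2 := hy0 p.1.2 p.1.1 p.2.1 p.2.2.2
          exact QuotientGroup.eq.1 (h2.1.trans p.2.1.symm)⟩), p.2.2.1, by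
          have h2 := (hy0 p.1.2 p.1.1 p.2.1 p.2.2.2).2
          have h3 : Commute (y0 p.1.2) (p.1.2 : G) := h2
          have h4 : Commute p.1.1 (p.1.2 : G) := p.2.2.2
          apply Subtype.ext
          exact (h3.inv_left.mul_left h4).eq.symm⟩ : PN))
      intro p p' hpp
      have h1 : p.1.2 = p'.1.2 := congrArg (fun t : PN => t.1.1) hpp
      have h2 : (y0 p.1.2)⁻¹ * p.1.1 = (y0 p'.1.2)⁻¹ * p'.1.1 := congrArg (fun t : PN => ((t.1.2 : N) : G)) hpp
      rw [h1] at h2
      have h4 := mul_left_cancel h2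
      exact Subtype.ext (Prod.ext h4 h1)
    exact i1.trans (i2.trans i3)
  rw [cG, cN, cQ] at key
  have hcard : Nat.card G = Nat.card (G ⧸ N) * Nat.card N := Subgroup.card_eq_card_quotient_mul_card_subgroup N
  apply Nat.le_of_mul_le_mul_left _ (Nat.card_pos (α := G))
  calc _ ≤ _ := key
    _ = _ := by rw [hcard]; ring

end Cfsg.Agent.S4152
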