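import Cfsg.Statements.S4155
import Cfsg.Agent.H2.EqOrder

set_option autoImplicit false
open Cfsg
open scoped commutatorElement

namespace Cfsg.Agent.S4155

/-- Let G be a finite group and N a proper non-trivial normal nilpotent subgroup whose order is not a prime power, such that for every x outside N all elements of the coset xN have the same order as x. Then N is the Fitting subgroup of G, and for every prime q every Sylow q-subgroup of G/N is cyclic or generalized quaternion. -/
theorem result {G : Type*} [Group G] [Finite G] (N : Subgroup G) [N.Normal] (hN1 : N ≠ ⊥) (hN2 : N ≠ ⊤)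
    (heq : ∀ x : G, x ∉ N → ∀ n ∈ N, orderOf (x * n) = orderOf x)
    (hnil : Group.IsNilpotent N) (hnpp : ¬ IsPrimePow (Nat.card N)) :
    N = Cfsg.fittingSubgroup G ∧
    ∀ (q : ℕ) [Fact q.Prime] (Q : Sylow q (G ⧸ N)), IsCyclic (Q : Subgroup (G ⧸ N)) ∨ ∃ n : ℕ, Nonempty ((Q : Subgroup (G ⧸ N)) ≃* QuaternionGroup (2 ^ n)) := by
  refine ⟨?_, fun q _ Q => CfsgH2.eq_order_sylow hN1 heq hnil hnpp q Q⟩
  have h1 : N ≤ Cfsg.fittingSubgroup G := CfsgH2.le_fittingSubgroup inferInstance hnil
  by_contra hne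
  have h2 : ¬ Cfsg.fittingSubgroup G ≤ N := fun h => hne (le_antisymm h1 h)
  obtain ⟨p, hp, hpN⟩ := CfsgH2.exists_pCore_not_le h2
  have h3 := CfsgH2.primes_of_pCore_not_le heq hpN
  apply hnpp
  obtain ⟨k, hk⟩ := IsPGroup.iff_card.1 h3
  rw [hk]
  apply (Nat.Prime.isPrimePow hp.out).pow
  intro e
  rw [e, pow_zero] at hk
  exact hN1 (Subgroup.eq_bot_of_card_eq _ hk)

end Cfsg.Agent.S4155
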