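import Cfsg.Statements.S4160
import Cfsg.Agent.H2.ClassSize

set_option autoImplicit false
open Cfsg
open scoped commutatorElement

namespace Cfsg.Agent.S4160

/-- Let G be a finite group and p ≠ q primes each dividing the size of some conjugacy class of G, such that no conjugacy class size is divisible by pq. Then G has a normal p-complement or a normal q-complement. -/
theorem result {G : Type*} [Group G] [Finite G] (p q : ℕ) (hp : p.Prime) (hq : q.Prime) (hpq : p ≠ q)
    (hp' : ∃ x : G, p ∣ (Subgroup.centralizer ({x} : Set G)).index) (hq' : ∃ x : G, q ∣ (Subgroup.centralizer ({x} : Set G)).index) (h : ∀ x : G, ¬ p * q ∣ (Subgroup.centralizer ({x} : Set G)).index) :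
    Cfsg.HasNormalPComplement p G ∨ Cfsg.HasNormalPComplement q G := by
  classical
  haveI : Fact p.Prime := ⟨hp⟩
  haveI : Fact q.Prime := ⟨hq⟩
  haveI := Fintype.ofFinite G
  by_contra hcon
  push Not at hcon
  have h1 := CfsgH2.two_mul_card_not_dvd_csz_le (p := p) hcon.1
  have h2 := CfsgH2.two_mul_card_not_dvd_csz_le (p := q) hcon.2
  rw [Nat.card_eq_fintype_card, Fintype.card_subtype, Nat.card_eq_fintype_card] at h1 h2
  have h3 := Finset.card_union_add_card_inter (Finset.univ.filter (fun x : G => ¬ p ∣ CfsgH2.csz x))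
    (Finset.univ.filter (fun x : G => ¬ q ∣ CfsgH2.csz x))
  have h4 : (Finset.univ.filter (fun x : G => ¬ p ∣ CfsgH2.csz x)) ∪
    (Finset.univ.filter (fun x : G => ¬ q ∣ CfsgH2.csz x)) = Finset.univ := by
    rw [Finset.eq_univ_iff_forall]
    intro x
    rw [Finset.mem_union, Finset.mem_filter, Finset.mem_filter]
    by_contra hx
    push Not at hx
    apply h x
    exact Nat.Coprime.mul_dvd_of_dvd_of_dvd ((Nat.coprime_primes hp hq).2 hpq) (hx.1 (Finset.mem_univ _))
      (hx.2 (Finset.mem_univ _))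
  have h5 : 0 < ((Finset.univ.filter (fun x : G => ¬ p ∣ CfsgH2.csz x)) ∩
    (Finset.univ.filter (fun x : G => ¬ q ∣ CfsgH2.csz x))).card := by
    rw [Finset.card_pos]
    refine ⟨1, ?_⟩
    rw [Finset.mem_inter, Finset.mem_filter, Finset.mem_filter, CfsgH2.csz_one]
    exact ⟨⟨Finset.mem_univ _, fun e => hp.one_lt.ne' (Nat.dvd_one.1 e)⟩,
      ⟨Finset.mem_univ _, fun e => hq.one_lt.ne' (Nat.dvd_one.1 e)⟩⟩
  rw [h4, Finset.card_univ] at h3
  omega

end Cfsg.Agent.S4160
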