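import Cfsg.Statements.S4163
import Cfsg.Agent.H2.SmallClass

set_option autoImplicit false
open Cfsg
open scoped commutatorElement

namespace Cfsg.Agent.S4163

/-- Let G be a finite group with a normal abelian subgroup A satisfying C_G(A) = A. Suppose some conjugacy class of G has size greater than 1, let m be the smallest such size, and let M be the subgroup generated by the elements whose class has size 1 or m. Then M is nilpotent of class at most 3. -/
theorem result {G : Type*} [Group G] [Finite G]
    (A : Subgroup G) [A.Normal] (hA : IsMulCommutative A) (hCA : Subgroup.centralizer (A : Set G) = A)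
    (m : ℕ) (hm1 : 1 < m) (hm : ∃ x : G, (Subgroup.centralizer ({x} : Set G)).index = m) (hmin : ∀ x : G, 1 < (Subgroup.centralizer ({x} : Set G)).index → m ≤ (Subgroup.centralizer ({x} : Set G)).index) :
    Subgroup.upperCentralSeries ↥(Subgroup.closure {x : G | (Subgroup.centralizer ({x} : Set G)).index = 1 ∨ (Subgroup.centralizer ({x} : Set G)).index = m}) 3 = ⊤ := by
  have hab : ∀ a ∈ A, ∀ b ∈ A, a * b = b * a := fun a ha b hb =>
    congrArg Subtype.val (hA.is_comm.comm (⟨a, ha⟩ : A) ⟨b, hb⟩)
  have key := CfsgH2.small_classes hab hCA (S := {x : G | (Subgroup.centralizer ({x} : Set G)).index = 1 ∨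
      (Subgroup.centralizer ({x} : Set G)).index = m}) (by
    rintro x (hx | hx) y hy
    · change (Subgroup.centralizer ({x} : Set G)).index ≤ _
      rw [hx]; exact hy.le
    · change (Subgroup.centralizer ({x} : Set G)).index ≤ _
      rw [hx]; exact hmin y hy)
  rw [eq_top_iff]
  intro x _
  rw [Subgroup.mem_upperCentralSeries_succ_iff]
  intro y
  rw [Subgroup.mem_upperCentralSeries_succ_iff]
  intro z
  rw [Subgroup.mem_upperCentralSeries_succ_iff]
  intro w
  rw [Subgroup.upperCentralSeries_zero, Subgroup.mem_bot]
  have h1 := key.2 x x.2 y y.2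
  have h2 := key.1 z z.2 _ h1
  have h3 := Subgroup.mem_center_iff.1 h2 (w : G)
  apply Subtype.ext
  change ⁅⁅⁅(x : G), (y : G)⁆, (z : G)⁆, (w : G)⁆ = 1
  exact commutatorElement_eq_one_iff_mul_comm.2 h3.symm

end Cfsg.Agent.S4163
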