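import Cfsg.Statements.S4169
import Cfsg.Agent.H2.SmallClass

set_option autoImplicit false
open Cfsg
open scoped commutatorElement

namespace Cfsg.Agent.S4169

/-- Let P be a finite p-group whose conjugacy classes have exactly two sizes (1 and one other value). Then P has nilpotency class at most 3. -/
theorem result {P : Type*} [Group P] [Finite P] {p : ℕ} [Fact p.Prime] (hP : IsPGroup p P)
    (m : ℕ) (hm : 1 < m) (h : ∀ x : P, (Subgroup.centralizer ({x} : Set P)).index = 1 ∨ (Subgroup.centralizer ({x} : Set P)).index = m) :
    upperCentralSeries P 3 = ⊤ := by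
  haveI := hP.isNilpotent
  obtain ⟨A, hAn, hab, hCA⟩ := CfsgH2.exists_self_centralizing (P := P)
  haveI := hAn
  have key := CfsgH2.small_classes hab hCA (S := Set.univ) (by
    intro x _ y hy
    have h1 := h x
    have h2 := h y
    change 1 < (Subgroup.centralizer ({y} : Set P)).index at hy
    change (Subgroup.centralizer ({x} : Set P)).index ≤ (Subgroup.centralizer ({y} : Set P)).index
    omega)
  rw [Subgroup.closure_univ] at key
  change Subgroup.upperCentralSeries P 3 = ⊤
  rw [eq_top_iff]
  intro x _
  rw [Subgroup.mem_upperCentralSeries_succ_iff]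
  intro y
  rw [Subgroup.mem_upperCentralSeries_succ_iff]
  intro z
  rw [Subgroup.mem_upperCentralSeries_succ_iff]
  intro w
  rw [Subgroup.upperCentralSeries_zero, Subgroup.mem_bot]
  have h1 := key.2 x trivial y trivial
  have h2 := key.1 z trivial _ h1
  have h3 := Subgroup.mem_center_iff.1 h2 w
  exact commutatorElement_eq_one_iff_mul_comm.2 h3.symm

end Cfsg.Agent.S4169
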