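import Cfsg.Statements.S4176
import Cfsg.Agent.H2.PSolRep

set_option autoImplicit false
open Cfsg
open scoped commutatorElement

namespace Cfsg.Agent.S4176

/-- Let k be a field of prime characteristic p, H a finite p-soluble group and ρ a k-linear representation of H on V. Let a be a vector that is fixed by some Sylow p-subgroup of H and whose H-orbit spans V. Then the space of H-fixed vectors has dimension at most 1, and every vector b whose H-orbit has size coprime to the size of the orbit of a is fixed by H. -/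
theorem result {k V H : Type*} [Field k] (p : ℕ) [Fact p.Prime] [CharP k p] [AddCommGroup V] [Module k V]
    [Group H] [Finite H] (hsol : Cfsg.IsPSolvable p H) (ρ : Representation k H V) (a : V)
    (hfix : ∃ P : Sylow p H, ∀ x : H, x ∈ (P : Subgroup H) → ρ x a = a)
    (hspan : Submodule.span k {u : V | ∃ h : H, ρ h a = u} = ⊤) :
    Module.finrank k ρ.invariants ≤ 1 ∧
    ∀ b : V, (Nat.card {u : V | ∃ h : H, ρ h a = u}).Coprime (Nat.card {u : V | ∃ h : H, ρ h b = u}) → ∀ h : H, ρ h b = b := by
  classical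
  have hp : p.Prime := Fact.out
  obtain ⟨P, hP⟩ := hfix
  have hspanK : ∀ K : Subgroup H, (∀ h : H, ∃ x ∈ K, ∃ y : H, ρ y a = a ∧ h = x * y) →
      Submodule.span k {u : V | ∃ h ∈ K, ρ h a = u} = ⊤ := by
    intro K hK
    rw [← hspan]
    congr 1
    ext u
    constructor
    · rintro ⟨h, -, rfl⟩; exact ⟨h, rfl⟩
    · rintro ⟨h, rfl⟩
      obtain ⟨x, hx, y, hy, rfl⟩ := hK h
      exact ⟨x, hx, by rw [map_mul]; show ρ x a = ρ x (ρ y a); rw [hy]⟩
  refine ⟨?_, ?_⟩
  · obtain ⟨K, hK, hKP⟩ := CfsgH2.exists_pcompl hsol (P : Subgroup H) P.not_dvd_index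
    have hsp := hspanK K (fun h => by
      obtain ⟨x, hx, y, hy, hxy⟩ := hKP h
      exact ⟨x, hx, y, hP y hy, hxy⟩)
    have hfix := CfsgH2.fixed_of_span (k := k) p K hK ρ a hsp
    by_cases h0 : ∀ w : ρ.invariants, w = 0
    · apply finrank_le_one (0 : ρ.invariants)
      intro w
      exact ⟨0, by rw [h0 w, smul_zero]⟩
    · push Not at h0
      obtain ⟨w0, hw0⟩ := h0
      obtain ⟨c0, hc0⟩ := hfix w0 (fun x _ => w0.2 x)
      have hc0' : c0 ≠ 0 := by
        rintro rfl
        apply hw0
        apply Subtype.ext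
        rw [hc0, zero_smul]; rfl
      apply finrank_le_one w0
      intro w
      obtain ⟨c, hc⟩ := hfix w (fun x _ => w.2 x)
      refine ⟨c * c0⁻¹, ?_⟩
      apply Subtype.ext
      show (c * c0⁻¹) • (w0 : V) = w
      rw [hc0, hc, smul_smul, mul_assoc, inv_mul_cancel₀ hc0', mul_one]
  · intro b hcop
    letI : MulAction H V := 
      { smul := fun h v => ρ h v
        one_smul := fun v => by show ρ 1 v = v; rw [map_one]; rfl
        mul_smul := fun g h v => by show ρ (g * h) v = ρ g (ρ h v); rw [map_mul]; rfl }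
    have hsm : ∀ (h : H) (v : V), h • v = ρ h v := fun _ _ => rfl
    set A := MulAction.stabilizer H a with hA
    set B := MulAction.stabilizer H b with hB
    have hcA : Nat.card {u : V | ∃ h : H, ρ h a = u} = A.index := by
      rw [hA, MulAction.index_stabilizer]; rfl
    have hcB : Nat.card {u : V | ∃ h : H, ρ h b = u} = B.index := by
      rw [hB, MulAction.index_stabilizer]; rfl
    rw [hcA, hcB] at hcop
    have hPA : (P : Subgroup H) ≤ A := fun x hx => hP x hx
    have hpA : ¬ p ∣ A.index := fun h => P.not_dvd_index (h.trans (Subgroup.index_dvd_of_le hPA))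
    -- relative index
    have h1 : A.relIndex B * B.index = (A ⊓ B).index := by
      rw [← Subgroup.inf_relIndex_right]; exact Subgroup.relIndex_mul_index inf_le_right
    have h2 : B.relIndex A * A.index = (A ⊓ B).index := by
      rw [← Subgroup.inf_relIndex_left]; exact Subgroup.relIndex_mul_index inf_le_left
    have h3 : A.index ∣ A.relIndex B := by
      apply hcop.dvd_of_dvd_mul_right
      rw [h1, ← h2]; exact Dvd.intro_left _ rfl
    have h4 : A.relIndex B ≤ A.index := by
      have := Subgroup.relIndex_le_of_le_right (H := A) (le_top : B ≤ ⊤) (by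
        rw [Subgroup.relIndex_top_right]; exact Subgroup.index_ne_zero_of_finite)
      rwa [Subgroup.relIndex_top_right] at this
    have h5 : A.relIndex B = A.index :=
      le_antisymm h4 (Nat.le_of_dvd (Nat.pos_of_ne_zero Subgroup.index_ne_zero_of_finite) h3)
    obtain ⟨K0, hK0, hK0A⟩ := CfsgH2.exists_pcompl (CfsgH1.IsPSolvable.subgroup hsol B) (A.subgroupOf B) (by
      show ¬ p ∣ A.relIndex B
      rw [h5]; exact hpA)
    set K := K0.map B.subtype with hKdef
    have hK : ¬ p ∣ Nat.card K := by
      rw [hKdef, Nat.card_congr (K0.equivMapOfInjective _ B.subtype_injective).symm.toEquiv]; exact hK0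
    have hKA : ∀ h : H, ∃ x ∈ K, ∃ y : H, ρ y a = a ∧ h = x * y := by
      intro h
      obtain ⟨y, hy, x, hx, rfl⟩ := CfsgH2.mul_of_coprime_index' hcop.symm h
      obtain ⟨κ, hκ, z, hz, hyz⟩ := hK0A ⟨y, hy⟩
      refine ⟨κ, ⟨κ, hκ, rfl⟩, z * x, ?_, ?_⟩
      · have h6 : (z : H) * x ∈ A := A.mul_mem hz hx
        exact h6
      · have h6 : y = κ * z := congrArg Subtype.val hyz
        rw [h6, mul_assoc]
    obtain ⟨c, hc⟩ := CfsgH2.fixed_of_span (k := k) p K hK ρ a (hspanK K hKA) b (by
      rintro _ ⟨x, -, rfl⟩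
      exact x.2)
    letI : Fintype K := Fintype.ofFinite K
    rw [finsum_eq_sum_of_fintype] at hc
    set σ := ∑ x : K, ρ (x : H) a with hσ
    have hOfin : (MulAction.orbit H a).Finite := Set.finite_range _
    set O := hOfin.toFinset with hO
    have hOmem : ∀ u : V, u ∈ O ↔ ∃ h : H, ρ h a = u := fun u => by
      rw [hO, Set.Finite.mem_toFinset]; rfl
    set S := ∑ u ∈ O, u with hS
    have hSinv : ∀ h : H, ρ h S = S := by
      intro h
      rw [hS, map_sum]
      apply Finset.sum_nbij' (fun u => ρ h u) (fun u => ρ h⁻¹ u)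
      · intro u hu
        rw [hOmem] at hu ⊢
        obtain ⟨g, rfl⟩ := hu
        exact ⟨h * g, by rw [map_mul]; rfl⟩
      · intro u hu
        rw [hOmem] at hu ⊢
        obtain ⟨g, rfl⟩ := hu
        exact ⟨h⁻¹ * g, by rw [map_mul]; rfl⟩
      · intro u _
        rw [← Module.End.mul_apply, ← map_mul, inv_mul_cancel, map_one]; rfl
      · intro u _
        rw [← Module.End.mul_apply, ← map_mul, mul_inv_cancel, map_one]; rfl
      · intro u _; rfl
    let T : V →ₗ[k] V := ∑ x : K, ρ (x : H)
    have hT : ∀ w, T w = ∑ x : K, ρ (x : H) w := fun w => by simp [T]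
    have hTS : T S = (Nat.card K : k) • S := by
      rw [hT, Finset.sum_congr rfl (fun (x : K) _ => hSinv x), Finset.sum_const, Finset.card_univ, Nat.card_eq_fintype_card,
        Nat.cast_smul_eq_nsmul]
    have hTu : ∀ u ∈ O, T u = σ := by
      intro u hu
      rw [hOmem] at hu
      obtain ⟨h, rfl⟩ := hu
      obtain ⟨x0, hx0, y, hy, rfl⟩ := hKA h
      have h6 : ρ (x0 * y) a = ρ x0 a := by
        rw [map_mul]
        show ρ x0 (ρ y a) = _
        rw [hy]
      rw [h6, hT]
      have h7 : ∀ x : K, ρ (x : H) (ρ x0 a) = ρ ((x * ⟨x0, hx0⟩ : K) : H) a := by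
        intro x
        rw [Subgroup.coe_mul, map_mul]; rfl
      rw [Finset.sum_congr rfl (fun x _ => h7 x)]
      exact Equiv.sum_comp (Equiv.mulRight (⟨x0, hx0⟩ : K)) (fun x : K => ρ (x : H) a)
    have hTS2 : T S = (A.index : k) • σ := by
      rw [hS, map_sum, Finset.sum_congr rfl hTu, Finset.sum_const, Nat.cast_smul_eq_nsmul]
      congr 1
      rw [hA, MulAction.index_stabilizer, hO, Set.ncard_eq_toFinset_card _ hOfin]
    have hA0 : (A.index : k) ≠ 0 := by
      intro h
      exact hpA ((CharP.cast_eq_zero_iff k p _).1 h)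
    have hσ2 : σ = ((A.index : k)⁻¹ * (Nat.card K : k)) • S := by
      rw [mul_smul, ← hTS, hTS2, smul_smul, inv_mul_cancel₀ hA0, one_smul]
    intro h
    rw [hc, hσ2, map_smul, map_smul, hSinv]

end Cfsg.Agent.S4176
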