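import Mathlib
import Cfsg.Agent.H3.Count
import Cfsg.Statements.S4195

set_option autoImplicit false
open Cfsg

namespace Cfsg.Agent.S4195

/-- Let x be a non-identity element of a finite group G whose centralizer contains a Sylow 2-subgroup of G. If x is conjugate to its inverse, then x has order 2. -/
theorem result {G : Type*} [Group G] [Finite G] (x : G) (hx : x ≠ 1) (P : Sylow 2 G) (hP : (P : Subgroup G) ≤ Subgroup.centralizer ({x} : Set G)) (hreal : IsConj x x⁻¹) : orderOf x = 2 := by
  classical
  haveI : Fintype G := Fintype.ofFinite G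
  by_contra h2
  have hx2 : x ^ 2 ≠ 1 := by
    intro h
    exact h2 (orderOf_eq_prime h hx)
  -- the class of x
  let C : Finset G := Finset.univ.filter (fun y => IsConj x y)
  have hodd : Odd C.card := by
    have h1 : C.card = (Subgroup.centralizer ({x} : Set G)).index := by
      rw [← CfsgH3.card_isConj x, Nat.card_eq_fintype_card, Fintype.card_subtype]
    rw [h1]
    have h3 : (Subgroup.centralizer ({x} : Set G)).index ∣ (P : Subgroup G).index := Subgroup.index_dvd_of_le hP
    have h4 : ¬ 2 ∣ (P : Subgroup G).index := P.not_dvd_index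
    rw [Nat.odd_iff]
    rcases Nat.mod_two_eq_zero_or_one (Subgroup.centralizer ({x} : Set G)).index with h | h
    · exact absurd ((Nat.dvd_of_mod_eq_zero h).trans h3) h4
    · exact h
  have heven : Even C.card := by
    have := Finset.sum_involution (s := C) (f := fun _ => (1 : ZMod 2)) (fun y _ => y⁻¹)
      (fun y _ => by decide) ?_ ?_ ?_
    · rw [Finset.sum_const, nsmul_eq_mul, mul_one] at this
      exact (ZMod.natCast_eq_zero_iff_even).1 this
    · intro y hy _ h
      apply hx2
      have hy' : IsConj x y := (Finset.mem_filter.1 hy).2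
      obtain ⟨g, hg⟩ := isConj_iff.1 hy'
      have : y ^ 2 = 1 := by
        rw [pow_two]
        nth_rewrite 1 [← h]
        exact inv_mul_cancel y
      rw [← hg, conj_pow] at this
      have h6 : x ^ 2 = g⁻¹ * (g * x ^ 2 * g⁻¹) * g := by group
      rw [h6, this]
      group
    · intro y hy
      have hy' : IsConj x y := (Finset.mem_filter.1 hy).2
      refine Finset.mem_filter.2 ⟨Finset.mem_univ _, ?_⟩
      obtain ⟨g, hg⟩ := isConj_iff.1 hy'
      have : IsConj x⁻¹ y⁻¹ := isConj_iff.2 ⟨g, by rw [← hg]; group⟩
      exact hreal.trans this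
    · intro y _
      exact inv_inv y
  exact (Nat.not_even_iff_odd.2 hodd) heven

end Cfsg.Agent.S4195
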