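import Mathlib
import Cfsg.Agent.S4195
import Cfsg.Agent.H3.PBasic
import Cfsg.Statements.S4196

set_option autoImplicit false
open Cfsg

namespace Cfsg.Agent.S4196

/-- A finite group G has elementary abelian Sylow 2-subgroups (commutative with every element squaring to the identity) if and only if every 2-element of G has a Sylow 2-subgroup in its centralizer and is conjugate to its inverse. -/
theorem result {G : Type*} [Group G] [Finite G] (P : Sylow 2 G) :
    (IsMulCommutative (P : Subgroup G) ∧ ∀ x ∈ (P : Subgroup G), x ^ 2 = 1) ↔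
      ∀ x : G, (∃ k : ℕ, orderOf x = 2 ^ k) → (∃ Q : Sylow 2 G, (Q : Subgroup G) ≤ Subgroup.centralizer ({x} : Set G)) ∧ IsConj x x⁻¹ := by
  constructor
  · rintro ⟨hc, h2⟩ x ⟨k, hk⟩
    have hxp : IsPGroup 2 (Subgroup.zpowers x) := by
      refine IsPGroup.of_card (n := k) ?_
      rw [Nat.card_zpowers, hk]
    obtain ⟨R, hR⟩ := hxp.exists_le_sylow
    have hxR : x ∈ R := hR (Subgroup.mem_zpowers x)
    obtain ⟨g, hg⟩ := MulAction.exists_smul_eq G P R
    have hR' : ∀ y : G, y ∈ (R : Subgroup G) → g⁻¹ * y * g ∈ (P : Subgroup G) := by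
      intro y hy
      have : y ∈ g • P := by rw [hg]; exact hy
      exact CfsgH3.mem_smul_sylow_iff.1 this
    constructor
    · refine ⟨R, ?_⟩
      intro y hy
      rw [Subgroup.mem_centralizer_iff]
      intro z hz
      rw [Set.mem_singleton_iff] at hz
      subst hz
      have h3 := hc.is_comm.comm ⟨_, hR' z hxR⟩ ⟨_, hR' y hy⟩
      have h4 := congrArg Subtype.val h3
      have h5 : g⁻¹ * z * g * (g⁻¹ * y * g) = g⁻¹ * y * g * (g⁻¹ * z * g) := h4
      have h6 : z * y = g * (g⁻¹ * z * g * (g⁻¹ * y * g)) * g⁻¹ := by group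
      rw [h6, h5]
      group
    · have h3 := h2 _ (hR' x hxR)
      have h4 : x ^ 2 = 1 := by
        have h5 : x ^ 2 = g * (g⁻¹ * x * g) ^ 2 * g⁻¹ := by rw [pow_two, pow_two]; group
        rw [h5, h3]
        group
      have h5 : x⁻¹ = x := by
        rw [inv_eq_iff_mul_eq_one, ← pow_two, h4]
      rw [h5]
  · intro h
    have h2 : ∀ x ∈ (P : Subgroup G), x ^ 2 = 1 := by
      intro x hx
      obtain ⟨k, hk⟩ := IsPGroup.iff_orderOf.1 P.2 ⟨x, hx⟩
      rw [Subgroup.orderOf_mk] at hk
      obtain ⟨⟨Q, hQ⟩, hr⟩ := h x ⟨k, hk⟩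
      by_cases hx1 : x = 1
      · rw [hx1, one_pow]
      · have := Cfsg.Agent.S4195.result x hx1 Q hQ hr
        rw [← this, pow_orderOf_eq_one]
    refine ⟨⟨⟨fun a b => ?_⟩⟩, h2⟩
    apply Subtype.ext
    have h3 : (a : G) * a = 1 := by rw [← pow_two]; exact h2 a a.2
    have h4 : (b : G) * b = 1 := by rw [← pow_two]; exact h2 b b.2
    have h5 : ((a : G) * b) * (a * b) = 1 := by rw [← pow_two]; exact h2 _ (mul_mem a.2 b.2)
    change (a : G) * b = b * a
    calc (a : G) * b = a * (a * b * (a * b)) * b := by rw [h5, mul_one]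
      _ = (a * a) * (b * a) * (b * b) := by group
      _ = b * a := by rw [h3, h4, one_mul, mul_one]

end Cfsg.Agent.S4196
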