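import Mathlib
import Cfsg.Statements.S4230

set_option autoImplicit false
open Cfsg

namespace Cfsg.Agent.S4230

/-- Let p be an odd prime, q a natural number not divisible by p, and e the multiplicative order of q modulo p. For a natural number f, p divides the value at q of the f-th cyclotomic polynomial if and only if f = e·p^j for some j ≥ 0. -/
theorem result (p q f : ℕ) (hp : p.Prime) (hp2 : p ≠ 2) (hpq : ¬ p ∣ q) :
    ((p : ℤ) ∣ (Polynomial.cyclotomic f ℤ).eval (q : ℤ)) ↔ ∃ j : ℕ, f = orderOf (q : ZMod p) * p ^ j := by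
  haveI : Fact p.Prime := ⟨hp⟩
  have hq : (q : ZMod p) ≠ 0 := by
    rw [Ne, ZMod.natCast_eq_zero_iff]; exact hpq
  have hord : orderOf (q : ZMod p) ∣ p - 1 := orderOf_dvd_of_pow_eq_one (ZMod.pow_card_sub_one_eq_one hq)
  have hp1 : 0 < p - 1 := Nat.sub_pos_of_lt hp.one_lt
  have hord0 : 0 < orderOf (q : ZMod p) := Nat.pos_of_dvd_of_pos hord hp1
  have hordp : ¬ p ∣ orderOf (q : ZMod p) := by
    intro h
    have h1 := Nat.le_of_dvd hp1 (h.trans hord)
    omega
  have h1 : ((p : ℤ) ∣ (Polynomial.cyclotomic f ℤ).eval (q : ℤ)) ↔ (Polynomial.cyclotomic f (ZMod p)).IsRoot (q : ZMod p) := by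
    rw [← ZMod.intCast_zmod_eq_zero_iff_dvd] 
    rw [Polynomial.IsRoot, ← Polynomial.map_cyclotomic_int f (ZMod p), Polynomial.eval_map]
    rw [show ((q : ℕ) : ZMod p) = Int.castRingHom (ZMod p) (q : ℤ) by simp, Polynomial.eval₂_at_apply]
    rfl
  rw [h1]
  by_cases hf : f = 0
  · subst hf
    constructor
    · intro h
      rw [Polynomial.cyclotomic_zero, Polynomial.IsRoot, Polynomial.eval_one] at h
      exact absurd h one_ne_zero
    · rintro ⟨j, hj⟩
      have : 0 < orderOf (q : ZMod p) * p ^ j := Nat.mul_pos hord0 (pow_pos hp.pos j)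
      omega
  · obtain ⟨k, m, hm, hk⟩ := Nat.exists_eq_pow_mul_and_not_dvd hf p hp.ne_one
    haveI : NeZero ((m : ℕ) : ZMod p) := ⟨by rw [Ne, ZMod.natCast_eq_zero_iff]; exact hm⟩
    rw [hk, Polynomial.isRoot_cyclotomic_prime_pow_mul_iff_of_charP]
    constructor
    · intro h
      exact ⟨k, by rw [← h.eq_orderOf, mul_comm]⟩
    · rintro ⟨j, hj⟩
      have h2 : m = orderOf (q : ZMod p) := by
        have h3 : Nat.Coprime m (p ^ j) := Nat.Coprime.pow_right j (((Nat.Prime.coprime_iff_not_dvd hp).2 hm).symm)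
        have h4 : Nat.Coprime (orderOf (q : ZMod p)) (p ^ k) := Nat.Coprime.pow_right k (((Nat.Prime.coprime_iff_not_dvd hp).2 hordp).symm)
        apply Nat.dvd_antisymm
        · exact h3.dvd_of_dvd_mul_right (hj ▸ Dvd.intro_left _ rfl)
        · exact h4.dvd_of_dvd_mul_left (hj ▸ Dvd.intro _ rfl)
      rw [h2]
      exact IsPrimitiveRoot.orderOf _

end Cfsg.Agent.S4230
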