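import Mathlib
import Cfsg.Agent.H3.Frob
import Cfsg.Agent.H3.PGroup
import Cfsg.Agent.H1.CopExtra
import Cfsg.Agent.H2.Fitting
import Cfsg.Agent.H3.Fusion
import Cfsg.Statements.S4238

set_option autoImplicit false
open Cfsg

namespace Cfsg.Agent.S4238

open Subgroup CfsgH3 

open scoped Pointwise commutatorElement

section
variable {K : Type*} [Group K] [Finite K] {p q : ℕ} [hp : Fact p.Prime] [hq : Fact q.Prime]

theorem zpow_coprime {a : K} (haq : a ^ q = 1) {i : ℤ} (hi : ¬ (q : ℤ) ∣ i) : a ∈ zpowers (a ^ i) := by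
  have h1 : IsCoprime (q : ℤ) i := (Prime.coprime_iff_not_dvd (Nat.prime_iff_prime_int.1 hq.out)).2 hi
  obtain ⟨s, t, hst⟩ := h1
  refine ⟨t, ?_⟩
  show (a ^ i) ^ t = a
  have h2 : a ^ (s * q + t * i) = a := by rw [hst, zpow_one]
  rw [zpow_add, zpow_mul', zpow_natCast, haq, one_zpow, one_mul, zpow_mul'] at h2
  exact h2

theorem fpf {V : Subgroup K} [V.Normal] (hV : ∀ x ∈ V, ∀ y ∈ V, x * y = y * x) {a : K} (haq : a ^ q = 1) (hs : V ⊔ zpowers a = ⊤) 
    (hi : V ⊓ centralizer (zpowers a : Set K) = ⊥) {y v : K} (hy : y ∉ V) (hv : v ∈ V) (hyv : y * v = v * y) : v = 1 := by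
  have h1 : y ∈ ((V ⊔ zpowers a : Subgroup K) : Set K) := by rw [hs]; trivial
  rw [Subgroup.normal_mul] at h1
  obtain ⟨v', hv', _, ⟨i, rfl⟩, hy'⟩ := Set.mem_mul.1 h1
  have hy'' : v' * a ^ i = y := hy'
  have hqi : ¬ (q : ℤ) ∣ i := by
    rintro ⟨j, rfl⟩
    apply hy
    rw [← hy'', zpow_mul, zpow_natCast, haq, one_zpow, mul_one]
    exact hv'
  have h2 := zpow_coprime haq hqi
  have h3 : a ^ i * v = v * a ^ i := by
    have h4 := hV v hv v' hv'
    rw [← hy'', ← mul_assoc, h4] at hyv
    have h5 : v' * (a ^ i * v) = v' * (v * a ^ i) := by rw [← mul_assoc, ← mul_assoc]; exact hyv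
    exact mul_left_cancel h5
  rw [← mem_bot, ← hi]
  refine ⟨hv, ?_⟩
  show v ∈ centralizer (zpowers a : Set K)
  have h4 : a ∈ centralizer ({v} : Set K) := by
    have h6 : a ^ i ∈ centralizer ({v} : Set K) := by rw [mem_centralizer_singleton_iff]; exact h3
    exact (zpowers_le.2 h6) h2
  rw [zpowers_eq_closure, centralizer_closure, mem_centralizer_singleton_iff]
  exact (mem_centralizer_singleton_iff.1 h4).symm

theorem no_exp {V : Subgroup K} [hVn : V.Normal] (hV : ∀ x ∈ V, ∀ y ∈ V, x * y = y * x) (hVp : IsPGroup p V) (hV1 : V ≠ ⊥) (hpq : p ≠ q) {a : K} 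
    (haq : a ^ q = 1) (hs : V ⊔ zpowers a = ⊤) 
    (hi : V ⊓ centralizer (zpowers a : Set K) = ⊥) : Cfsg.pPrimeCore p K = ⊥ ∧ ∀ k : K, orderOf k ≠ Monoid.exponent K := by
  obtain ⟨v, hv, hv1⟩ := (Subgroup.bot_or_exists_ne_one V).resolve_left hV1
  constructor
  · set R := Cfsg.pPrimeCore p K with hR
    have hRc : (Nat.card R).Coprime p := CfsgH2.coprime_card_pPrimeCore p
    have hRV : R ⊓ V = ⊥ := by
      apply CfsgH1.inf_eq_bot_of_coprime
      obtain ⟨k, hk⟩ := IsPGroup.iff_card.1 hVp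
      rw [hk]; exact Nat.Coprime.pow_right k hRc
    rw [Subgroup.eq_bot_iff_forall]
    intro r hr
    by_contra hr1
    have hrV : r ∉ V := fun h => hr1 (by rw [← mem_bot, ← hRV]; exact ⟨hr, h⟩)
    have hcomm : r * v = v * r := by
      have h1 : ⁅r, v⁆ ∈ R ⊓ V := by
        rw [commutatorElement_def]
        haveI : R.Normal := by rw [hR]; infer_instance
        refine ⟨?_, V.mul_mem (hVn.conj_mem v hv r) (V.inv_mem hv)⟩
        have e : r * v * r⁻¹ * v⁻¹ = r * (v * r⁻¹ * v⁻¹) := by group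
        show r * v * r⁻¹ * v⁻¹ ∈ R
        rw [e]
        exact R.mul_mem hr ((inferInstance : R.Normal).conj_mem _ (R.inv_mem hr) v)
      rw [hRV, mem_bot, commutatorElement_eq_one_iff_mul_comm] at h1
      exact h1
    exact hv1 (fpf hV haq hs hi hrV hv hcomm)
  · intro k hk
    have hpV : ∃ u ∈ V, orderOf u = p := by
      obtain ⟨n, hn⟩ := IsPGroup.iff_card.1 hVp
      have hn0 : n ≠ 0 := by
        rintro rfl
        rw [pow_zero] at hn
        exact hV1 (Subgroup.card_eq_one.1 hn)
      obtain ⟨u, hu⟩ := exists_prime_orderOf_dvd_card' (G := V) p (by rw [hn]; exact dvd_pow_self p hn0)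
      exact ⟨u, u.2, by rw [Subgroup.orderOf_coe, hu]⟩
    obtain ⟨u, huV, hup⟩ := hpV
    have ha1 : a ≠ 1 := by
      rintro rfl
      apply hv1
      rw [← mem_bot, ← hi]
      refine ⟨hv, ?_⟩
      show v ∈ centralizer (zpowers (1 : K) : Set K)
      rw [zpowers_one_eq_bot, mem_centralizer_iff]
      intro x hx
      rw [SetLike.mem_coe, mem_bot] at hx
      rw [hx, one_mul, mul_one]
    have haq' : orderOf a = q := orderOf_eq_prime haq ha1
    have hpe : p ∣ orderOf k := by rw [hk, ← hup]; exact Monoid.order_dvd_exponent u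
    have hqe : q ∣ orderOf k := by rw [hk, ← haq']; exact Monoid.order_dvd_exponent a
    have ho : orderOf k ≠ 0 := (orderOf_pos k).ne'
    have h1 : orderOf (k ^ (orderOf k / p)) = p := orderOf_pow_orderOf_div ho hpe
    have h2 : orderOf (k ^ (orderOf k / q)) = q := orderOf_pow_orderOf_div ho hqe
    set k1 := k ^ (orderOf k / p) with hk1
    set k2 := k ^ (orderOf k / q) with hk2
    have hqV : ∀ y : K, y ^ q ∈ V := by
      intro y
      have h1 : y ∈ ((V ⊔ zpowers a : Subgroup K) : Set K) := by rw [hs]; trivial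
      rw [Subgroup.normal_mul] at h1
      obtain ⟨v', hv', _, ⟨i, rfl⟩, hy'⟩ := Set.mem_mul.1 h1
      have hy'' : v' * a ^ i = y := hy'
      rw [← QuotientGroup.eq_one_iff, QuotientGroup.mk_pow, ← hy'', QuotientGroup.mk_mul, (QuotientGroup.eq_one_iff v').2 hv', one_mul, ← QuotientGroup.mk_pow,
        ← zpow_natCast, ← zpow_mul, mul_comm, zpow_mul, zpow_natCast, haq, one_zpow, QuotientGroup.mk_one]
    have hk1V : k1 ∈ V := by
      have h3 : k1 ∈ zpowers (k1 ^ (q : ℤ)) := zpow_coprime (q := p) (by rw [← h1]; exact pow_orderOf_eq_one k1) (by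
        rw [Int.natCast_dvd_natCast]
        intro h
        exact hpq ((Nat.prime_dvd_prime_iff_eq hp.out hq.out).1 h))
      rw [zpow_natCast] at h3
      exact (zpowers_le.2 (hqV k1)) h3
    have hk2V : k2 ∉ V := by
      intro h
      obtain ⟨n, hn⟩ := IsPGroup.iff_orderOf.1 hVp ⟨k2, h⟩
      rw [← Subgroup.orderOf_coe] at hn
      have hn' : orderOf k2 = p ^ n := hn
      rw [h2] at hn'
      have := (Nat.prime_dvd_prime_iff_eq hq.out hp.out).1 (hq.out.dvd_of_dvd_pow (Dvd.intro 1 (by rw [mul_one]; exact hn')))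
      exact hpq this.symm
    have h3 := fpf hV haq hs hi hk2V hk1V (by rw [hk1, hk2, ← pow_add, ← pow_add, add_comm])
    rw [h3, orderOf_one] at h1
    exact hp.out.one_lt.ne h1

theorem section_lemma {Γ : Type*} [Group Γ] [Finite Γ] {X : Subgroup Γ} [hXn : X.Normal] (hX : IsPGroup p X) (hX1 : X ≠ ⊥) {g : Γ} (hg : (orderOf g).Coprime p) 
    (hpq : p ≠ q) (hgq : ∀ x ∈ X, g ^ q * x = x * g ^ q) (hs : X ⊔ zpowers g = ⊤) (hc : ⁅X, zpowers g⁆ = X) : 
    ∃ (N : Subgroup Γ) (_ : N.Normal), Cfsg.pPrimeCore p (Γ ⧸ N) = ⊥ ∧ ∀ k : Γ ⧸ N, orderOf k ≠ Monoid.exponent (Γ ⧸ N) := by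
  set Φ := (frattini X).map X.subtype with hΦ
  haveI : Φ.Normal := CfsgH1.normal_map_characteristic (K := X) (frattini X)
  have hΦX : Φ ≤ X := Subgroup.map_subtype_le _
  set Z := zpowers (g ^ q) with hZ
  have hZc : Z ≤ center Γ := by
    rw [hZ, zpowers_le, mem_center_iff]
    intro y
    have h1 : X ⊔ zpowers g ≤ centralizer ({g ^ q} : Set Γ) := by
      refine sup_le ?_ ?_
      · intro x hx
        rw [mem_centralizer_singleton_iff]; exact (hgq x hx).symm
      · rw [zpowers_le, mem_centralizer_singleton_iff, ← pow_succ, ← pow_succ']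
    rw [hs] at h1
    exact mem_centralizer_singleton_iff.1 (h1 (mem_top y))
  haveI : Z.Normal := ⟨fun z hz y => by
    have := (mem_center_iff.1 (hZc hz) y)
    rw [this, mul_assoc, mul_inv_cancel, mul_one]; exact hz⟩
  set N := Φ ⊔ Z with hN
  haveI : N.Normal := inferInstance
  refine ⟨N, inferInstance, ?_⟩
  set π := QuotientGroup.mk' N with hπ
  have hπs : Function.Surjective π := QuotientGroup.mk'_surjective _
  have hπ1 : ∀ x : Γ, π x = 1 ↔ x ∈ N := fun x => QuotientGroup.eq_one_iff x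
  haveI : (X.map π).Normal := Subgroup.Normal.map hXn π hπs
  have hVp : IsPGroup p (X.map π) := hX.map π
  have hVab : ∀ x ∈ X.map π, ∀ y ∈ X.map π, x * y = y * x := by
    rintro _ ⟨a, ha, rfl⟩ _ ⟨c, hc, rfl⟩
    have h1 : ⁅a, c⁆ ∈ N := by
      apply mem_sup_left
      exact ⟨⁅(⟨a, ha⟩ : X), ⟨c, hc⟩⁆, commutator_le_frattini hX (commutator_mem_commutator (mem_top _) (mem_top _)), rfl⟩
    rw [← hπ1, commutatorElement_def, map_mul, map_mul, map_mul, map_inv, map_inv] at h1
    calc π a * π c = (π a * π c * (π a)⁻¹ * (π c)⁻¹) * (π c * π a) := by group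
      _ = _ := by rw [h1, one_mul]
  have hV1 : X.map π ≠ ⊥ := by
    intro h
    have h1 : X ≤ Φ := by
      intro x hx
      have h2 : x ∈ ((Φ ⊔ Z : Subgroup Γ) : Set Γ) := by
        show x ∈ N
        rw [← hπ1, ← mem_bot, ← h]; exact ⟨x, hx, rfl⟩
      rw [Subgroup.normal_mul] at h2
      obtain ⟨f, hf, z, hz, hfz⟩ := Set.mem_mul.1 h2
      have hzX : z ∈ X := by
        have : z = f⁻¹ * x := by rw [← hfz]; group
        rw [this]; exact X.mul_mem (X.inv_mem (hΦX hf)) hx
      have hz1 : z = 1 := by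
        obtain ⟨n, hn⟩ := IsPGroup.iff_orderOf.1 hX ⟨z, hzX⟩
        rw [← Subgroup.orderOf_coe] at hn
        have hn' : orderOf z = p ^ n := hn
        have h3 : orderOf z ∣ orderOf g := by
          have h4 : z ∈ zpowers g := (zpowers_le.2 (pow_mem (mem_zpowers g) q) : zpowers (g ^ q) ≤ zpowers g) hz
          exact orderOf_dvd_of_mem_zpowers h4
        rw [hn'] at h3
        have h4 : (p ^ n).Coprime p := Nat.Coprime.coprime_dvd_left h3 hg
        rcases Nat.eq_zero_or_pos n with rfl | hn0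
        · rw [pow_zero, orderOf_eq_one_iff] at hn'; exact hn'
        · exfalso
          have := Nat.Coprime.eq_one_of_dvd h4.symm (dvd_pow_self p hn0.ne')
          exact hp.out.one_lt.ne' this
      rw [hz1, mul_one] at hfz
      rw [← hfz]; exact hf
    have h2 : frattini X = ⊤ := by
      rw [eq_top_iff]
      intro x _
      obtain ⟨y, hy, hyx⟩ := h1 x.2
      rwa [← Subtype.ext hyx]
    haveI : Nontrivial X := (Subgroup.nontrivial_iff_ne_bot X).2 hX1
    have h3 := CfsgH1.eq_top_of_sup_frattini (G := X) (K := ⊥) le_rfl (by rw [h2, bot_sup_eq])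
    exact absurd h3 bot_ne_top
  have hmapz : (zpowers g).map π = zpowers (π g) := MonoidHom.map_zpowers _ _
  have hVs : X.map π ⊔ zpowers (π g) = ⊤ := by
    rw [← hmapz, ← Subgroup.map_sup, hs, Subgroup.map_top_of_surjective π hπs]
  have hgq1 : (π g) ^ q = 1 := by
    rw [← map_pow, hπ1]; exact mem_sup_right (mem_zpowers _)
  have hi : X.map π ⊓ centralizer (zpowers (π g) : Set (Γ ⧸ N)) = ⊥ := by
    have h1 := CfsgH1.coprime_abelian_inf (A := zpowers (π g)) (V := X.map π) hVab (CfsgH1.le_normalizer_of_normal _ _) (by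
      rw [Nat.card_zpowers]
      obtain ⟨n, hn⟩ := IsPGroup.iff_card.1 hVp
      rw [hn]
      exact Nat.Coprime.pow_right n (Nat.Coprime.coprime_dvd_left (orderOf_map_dvd π g) hg))
    rw [← hmapz, ← Subgroup.map_commutator, hc] at h1
    rw [hmapz] at h1
    rwa [inf_assoc, inf_comm (centralizer _), ← inf_assoc, inf_idem] at h1
  exact no_exp hVab hVp hV1 hpq hgq1 hVs hi

end

/-- Let G be a finite group and p a prime. Then G has a normal p-complement if and only if every section K = H/N of G (N a normal subgroup of a subgroup H) whose largest normal subgroup of order prime to p is trivial contains an element whose order equals the exponent of K. -/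
theorem result {G : Type*} [Group G] [Finite G] (p : ℕ) [Fact p.Prime] :
    Cfsg.HasNormalPComplement p G ↔
      ∀ (H : Subgroup G) (N : Subgroup H) [N.Normal], Cfsg.pPrimeCore p (H ⧸ N) = ⊥ →
        ∃ k : H ⧸ N, orderOf k = Monoid.exponent (H ⧸ N) := by
  classical
  constructor
  · intro hG H N _ hK
    have h1 : HasNPC p (H ⧸ N) := HasNPC.quotient (HasNPC.subgroup (hasNPC_iff.1 hG) H) N
    have hKp : IsPGroup p (H ⧸ N) := by
      obtain ⟨L, hLn, hLc, n, hLi⟩ := h1
      have h2 : L ≤ Cfsg.pPrimeCore p (H ⧸ N) := CfsgH2.le_pPrimeCore hLn hLc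
      rw [hK, le_bot_iff] at h2
      rw [h2, Subgroup.index_bot] at hLi
      exact IsPGroup.of_card hLi
    obtain ⟨k, -, hkmax⟩ := Set.Finite.exists_maximalFor (fun k : H ⧸ N => orderOf k) Set.univ (Set.toFinite _) ⟨1, trivial⟩
    refine ⟨k, Nat.dvd_antisymm (Monoid.order_dvd_exponent k) (Monoid.exponent_dvd.2 ?_)⟩
    intro y
    obtain ⟨a, ha⟩ := IsPGroup.iff_orderOf.1 hKp y
    obtain ⟨c, hc⟩ := IsPGroup.iff_orderOf.1 hKp k
    rcases le_total a c with h | h
    · rw [ha, hc]; exact pow_dvd_pow p h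
    · have h2 : orderOf k ≤ orderOf y := by rw [ha, hc]; exact Nat.pow_le_pow_right (Fact.out : p.Prime).pos h
      have h3 := hkmax trivial h2
      have h4 : orderOf y ≤ orderOf k := h3
      rw [le_antisymm h4 h2]
  · intro hyp
    rw [hasNPC_iff]
    by_contra hno
    have h0 : ∃ X : Subgroup G, IsPGroup p X ∧ ∃ g ∈ normalizer (X : Set G), (orderOf g).Coprime p ∧ g ∉ centralizer (X : Set G) := by
      by_contra h
      push Not at h
      exact hno (hasNPC_frobenius (fun X hX g hg hgp => h X hX g hg hgp))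
    obtain ⟨X, ⟨hXp, hXg⟩, hXmin⟩ := CfsgH1.exists_minimal_of_set {X : Subgroup G | IsPGroup p X ∧ ∃ g ∈ normalizer (X : Set G), (orderOf g).Coprime p ∧ g ∉ centralizer (X : Set G)} h0
    obtain ⟨g, ⟨hgN, hgp, hgC⟩, hgmin⟩ := Set.Finite.exists_minimalFor (fun g : G => orderOf g) {g : G | g ∈ normalizer (X : Set G) ∧ (orderOf g).Coprime p ∧ g ∉ centralizer (X : Set G)} (Set.toFinite _) hXg
    have hg1 : orderOf g ≠ 1 := by
      intro h
      rw [orderOf_eq_one_iff] at h
      exact hgC (by rw [h]; exact one_mem _)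
    obtain ⟨q, hq, hqg⟩ := Nat.exists_prime_and_dvd hg1
    haveI := Fact.mk hq
    have hpq : p ≠ q := by
      rintro rfl
      exact (Nat.Prime.coprime_iff_not_dvd hq).1 hgp.symm hqg
    have hgq : g ^ q ∈ centralizer (X : Set G) := by
      by_contra h
      have h1 : orderOf (g ^ q) = orderOf g / q := by
        rw [orderOf_pow, Nat.gcd_eq_right hqg]
      have h2 : orderOf (g ^ q) < orderOf g := by
        rw [h1]; exact Nat.div_lt_self (orderOf_pos g) hq.one_lt
      have h3 := hgmin (j := g ^ q) ⟨pow_mem hgN q, Nat.Coprime.coprime_dvd_left (orderOf_pow_dvd q) hgp, h⟩ h2.le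
      exact absurd h3 h2.not_ge
    have hcopX : (Nat.card (zpowers g)).Coprime (Nat.card X) := by
      rw [Nat.card_zpowers]
      obtain ⟨n, hn⟩ := IsPGroup.iff_card.1 hXp
      rw [hn]; exact Nat.Coprime.pow_right n hgp
    have hcX : ⁅X, zpowers g⁆ = X := by
      have hle : ⁅X, zpowers g⁆ ≤ X := by
        rw [Subgroup.commutator_le]
        intro x hx a ha
        have haN : a ∈ normalizer (X : Set G) := (zpowers_le.2 hgN) ha
        rw [commutatorElement_def]
        have e : x * a * x⁻¹ * a⁻¹ = x * (a * x⁻¹ * a⁻¹) := by group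
        rw [e]; exact X.mul_mem hx ((mem_normalizer_iff.1 haN _).1 (X.inv_mem hx))
      by_contra hne
      have hnorm : zpowers g ≤ normalizer ((⁅X, zpowers g⁆ : Subgroup G) : Set G) := CfsgH1.normalizer_commutator (zpowers_le.2 hgN) le_normalizer
      have hgc : g ∈ centralizer ((⁅X, zpowers g⁆ : Subgroup G) : Set G) := by
        by_contra h
        exact hne (hXmin _ ⟨hXp.to_le hle, g, hnorm (mem_zpowers g), hgp, h⟩ hle)
      have h1 : ⁅⁅X, zpowers g⁆, zpowers g⁆ = ⊥ := by
        rw [Subgroup.commutator_comm, ← CfsgH1.le_centralizer_iff_commutator, zpowers_le]; exact hgc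
      have h2 := CfsgH1.coprime_commutator_eq_bot (A := zpowers g) (K := X) (zpowers_le.2 hgN) hcopX (Or.inl inferInstance) h1
      apply hgC
      have h3 : zpowers g ≤ centralizer (X : Set G) := by
        rw [CfsgH1.le_centralizer_iff_commutator, Subgroup.commutator_comm]; exact h2
      exact h3 (mem_zpowers g)
    have hX1 : X ≠ ⊥ := by
      rintro rfl
      apply hgC
      rw [mem_centralizer_iff]
      intro x hx
      rw [SetLike.mem_coe, mem_bot] at hx
      rw [hx, one_mul, mul_one]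
    set H := X ⊔ zpowers g with hH
    have hXH : X ≤ H := le_sup_left
    have hgH : g ∈ H := mem_sup_right (mem_zpowers g)
    have hHn : H ≤ normalizer (X : Set G) := sup_le le_normalizer (zpowers_le.2 hgN)
    have hzH : zpowers g ≤ H := zpowers_le.2 hgH
    haveI : (X.subgroupOf H).Normal := (normal_subgroupOf_iff_le_normalizer hXH).2 hHn
    have hmapX : (X.subgroupOf H).map H.subtype = X := Subgroup.map_subgroupOf_eq_of_le hXH
    have hmapz : (zpowers (⟨g, hgH⟩ : H)).map H.subtype = zpowers g := by rw [MonoidHom.map_zpowers]; rfl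
    obtain ⟨N, hN, h1, h2⟩ := section_lemma (p := p) (q := q) (Γ := H) (X := X.subgroupOf H) (hXp.comap_of_injective _ H.subtype_injective) (by
      intro h
      apply hX1
      rw [← hmapX, h, Subgroup.map_bot]) (g := ⟨g, hgH⟩) (by rw [Subgroup.orderOf_mk]; exact hgp) hpq (by
      intro x hx
      apply Subtype.ext
      exact ((mem_centralizer_iff.1 hgq) x hx).symm) (by
      apply Subgroup.map_injective H.subtype_injective
      rw [Subgroup.map_sup, hmapX, hmapz, ← MonoidHom.range_eq_map, Subgroup.range_subtype]) (by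
      apply Subgroup.map_injective H.subtype_injective
      rw [Subgroup.map_commutator, hmapX, hmapz, hcX])
    obtain ⟨k, hk⟩ := hyp H N h1
    exact h2 k hk

end Cfsg.Agent.S4238
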