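import Mathlib
import Cfsg.Agent.H1.MinNon
import Cfsg.Agent.H1.FF
import Cfsg.Agent.H1.CoprimeSylow
import Cfsg.Agent.H3.Frob
import Cfsg.Agent.H3.NPC2
import Cfsg.Agent.H2.GenFitting
import Cfsg.Statements.S4242

set_option autoImplicit false
open Cfsg

namespace Cfsg.Agent.S4242

open Subgroup CfsgH3 

open scoped Pointwise commutatorElement

theorem nil_sup {G : Type*} [Group G] {A B : Subgroup G} (hA : Group.IsNilpotent A) (hB : Group.IsNilpotent B) (h : A ≤ centralizer (B : Set G)) : 
    Group.IsNilpotent (A ⊔ B : Subgroup G) := by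
  have hc : ∀ (a : A) (b : B), Commute (A.subtype a) (B.subtype b) := fun a b => ((mem_centralizer_iff.1 (h a.2)) b b.2).symm
  let f : A × B →* G := MonoidHom.noncommCoprod A.subtype B.subtype hc
  have hr : f.range = A ⊔ B := by
    rw [MonoidHom.noncommCoprod_range, Subgroup.range_subtype, Subgroup.range_subtype]
  rw [← hr]
  exact Group.nilpotent_of_surjective f.rangeRestrict f.rangeRestrict_surjective

/-- Let G be a finite group and p a prime dividing its order. Every maximal subgroup of G of order divisible by p is nilpotent if and only if G is nilpotent, or G is a minimal non-nilpotent group, or G is the internal direct product of a normal subgroup of order p and a normal minimal non-nilpotent subgroup of order prime to p. -/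
theorem result {G : Type*} [Group G] [Finite G] (p : ℕ) (hp : p.Prime) (hpG : p ∣ Nat.card G) :
    (∀ M : Subgroup G, IsCoatom M → p ∣ Nat.card M → Group.IsNilpotent M) ↔
      (Group.IsNilpotent G ∨ Cfsg.IsMinimalNonNilpotent G ∨
        ∃ Z K : Subgroup G, Z.Normal ∧ K.Normal ∧ Z ⊓ K = ⊥ ∧ Z ⊔ K = ⊤ ∧ Nat.card Z = p ∧
          Cfsg.IsMinimalNonNilpotent K ∧ ¬ p ∣ Nat.card K) := by
  classical
  haveI := Fact.mk hp
  constructor
  · intro h
    by_contra hcon
    rw [not_or, not_or] at hcon
    obtain ⟨hn1, hn2, hn3⟩ := hcon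
    obtain ⟨H, hHt, hHn⟩ : ∃ H : Subgroup G, H ≠ ⊤ ∧ ¬ Group.IsNilpotent H := by
      by_contra hc
      push Not at hc
      exact hn2 ⟨hn1, hc⟩
    obtain ⟨M, hM, hHM⟩ := (eq_top_or_exists_le_coatom H).resolve_left hHt
    have hMn : ¬ Group.IsNilpotent M := fun hh => hHn (CfsgH1.isNilpotent_of_le hh hHM)
    have hpM : ¬ p ∣ Nat.card M := fun hh => hMn (h M hM hh)
    have hnil : ∀ L : Subgroup G, L ≠ ⊤ → p ∣ Nat.card L → Group.IsNilpotent L := by
      intro L hL hpL
      obtain ⟨M1, hM1, hLM1⟩ := (eq_top_or_exists_le_coatom L).resolve_left hL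
      exact CfsgH1.isNilpotent_of_le (h M1 hM1 (hpL.trans (Subgroup.card_dvd_of_le hLM1))) hLM1
    have hdvd : ∀ X : Subgroup G, IsPGroup p X → X ≠ ⊥ → p ∣ Nat.card X := by
      intro X hX hX1
      obtain ⟨n, hn⟩ := IsPGroup.iff_card.1 hX
      rw [hn]
      apply dvd_pow_self
      rintro rfl
      rw [pow_zero] at hn
      exact hX1 (Subgroup.card_eq_one.1 hn)
    have hcopM : ∀ X : Subgroup G, IsPGroup p X → (Nat.card M).Coprime (Nat.card X) := by
      intro X hX
      obtain ⟨n, hn⟩ := IsPGroup.iff_card.1 hX
      rw [hn]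
      exact Nat.Coprime.pow_right n ((Nat.Prime.coprime_iff_not_dvd hp).2 hpM).symm
    by_cases hA : ∃ X : Subgroup G, X.Normal ∧ IsPGroup p X ∧ X ≠ ⊥
    · obtain ⟨X, hXn, hXp, hX1⟩ := hA
      have hMX : M ⊓ X = ⊥ := CfsgH1.inf_eq_bot_of_coprime (hcopM X hXp)
      have hsup : ∀ X0 : Subgroup G, IsPGroup p X0 → X0 ≠ ⊥ → M ⊔ X0 = ⊤ := by
        intro X0 h1 h2
        apply hM.2
        refine lt_of_le_of_ne le_sup_left (fun he => ?_)
        have h3 : X0 ≤ M := by rw [he]; exact le_sup_right
        exact hpM ((hdvd X0 h1 h2).trans (Subgroup.card_dvd_of_le h3))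
      have hcG : Nat.card M * Nat.card X = Nat.card G := by
        rw [← CfsgH1.card_sup_of_disjoint (CfsgH1.le_normalizer_of_normal M X) hMX, hsup X hXp hX1, Subgroup.card_top]
      have hprop : ∀ M0 : Subgroup G, M0 ≤ M → M0 ≠ M → Group.IsNilpotent M0 ∧ M0 ≤ centralizer (X : Set G) := by
        intro M0 h1 h2
        have h3 : Nat.card M0 < Nat.card M := by
          refine lt_of_le_of_ne (Subgroup.card_le_of_le h1) (fun he => h2 (Subgroup.eq_of_le_of_card_ge h1 he.ge))
        have h4 : Nat.card (M0 ⊔ X : Subgroup G) = Nat.card M0 * Nat.card X := by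
          apply CfsgH1.card_sup_of_disjoint (CfsgH1.le_normalizer_of_normal M0 X)
          rw [eq_bot_iff, ← hMX]; exact inf_le_inf_right _ h1
        have h5 : (M0 ⊔ X : Subgroup G) ≠ ⊤ := by
          intro h6
          rw [h6, Subgroup.card_top, ← hcG] at h4
          have := Nat.eq_of_mul_eq_mul_right Nat.card_pos h4
          omega
        have h6 := hnil _ h5 ((hdvd X hXp hX1).trans (Subgroup.card_dvd_of_le le_sup_right))
        refine ⟨CfsgH1.isNilpotent_of_le h6 le_sup_left, ?_⟩
        exact CfsgH1.le_centralizer_of_nilpotent_sup (Nat.Coprime.coprime_dvd_left (Subgroup.card_dvd_of_le h1) (hcopM X hXp)) h6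
      have hMC : M ≤ centralizer (X : Set G) := by
        intro m hm
        have h1 : zpowers m ≤ M := zpowers_le.2 hm
        have h2 : zpowers m ≠ M := by
          intro he
          apply hMn
          rw [← he]
          haveI : IsMulCommutative (zpowers m) := inferInstance
          exact CfsgH2.isNilpotent_of_isMulCommutative inferInstance
        exact (hprop _ h1 h2).2 (mem_zpowers m)
      apply hn3
      refine ⟨X, M, hXn, ?_, by rw [inf_comm]; exact hMX, by rw [sup_comm]; exact hsup X hXp hX1, ?_, ⟨hMn, ?_⟩, hpM⟩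
      · rw [← normalizer_eq_top_iff, eq_top_iff, ← hsup X hXp hX1]
        refine sup_le le_normalizer ?_
        exact (le_centralizer_iff.1 hMC).trans (centralizer_le_normalizer _)
      · obtain ⟨u, hu⟩ := exists_prime_orderOf_dvd_card' (G := X) p (hdvd X hXp hX1)
        have hu' : orderOf (u : G) = p := by rw [Subgroup.orderOf_coe, hu]
        have h1 : zpowers (u : G) ≤ X := zpowers_le.2 u.2
        have h2 : zpowers (u : G) ≠ ⊥ := by
          intro h3
          rw [zpowers_eq_bot] at h3
          rw [h3, orderOf_one] at hu'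
          exact hp.one_lt.ne hu'
        have h3 := hsup _ (hXp.to_le h1) h2
        have h4 : Nat.card (M ⊔ zpowers (u : G) : Subgroup G) = Nat.card M * Nat.card (zpowers (u : G)) := by
          apply CfsgH1.card_sup_of_disjoint
          · exact (hMC.trans (centralizer_le h1)).trans (centralizer_le_normalizer _)
          · rw [eq_bot_iff, ← hMX]; exact inf_le_inf_left _ h1
        rw [h3, Subgroup.card_top, ← hcG, Nat.card_zpowers, hu'] at h4
        exact Nat.eq_of_mul_eq_mul_left Nat.card_pos h4
      · intro L hL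
        have h1 : L.map M.subtype ≤ M := Subgroup.map_subtype_le _
        have h2 : L.map M.subtype ≠ M := by
          intro he
          apply hL
          apply Subgroup.map_injective M.subtype_injective
          rw [he, ← MonoidHom.range_eq_map, Subgroup.range_subtype]
        have h3 := (hprop _ h1 h2).1
        exact (Group.isNilpotent_congr (L.equivMapOfInjective M.subtype M.subtype_injective)).2 h3
    · push Not at hA
      have hNPC : HasNPC p G := by
        apply hasNPC_frobenius
        intro X hX g hg hgp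
        by_cases hX1 : X = ⊥
        · rw [hX1, mem_centralizer_iff]
          intro x hx
          rw [SetLike.mem_coe, mem_bot] at hx
          rw [hx, one_mul, mul_one]
        have h1 : normalizer (X : Set G) ≠ ⊤ := by
          intro h2
          exact hX1 (hA X (normalizer_eq_top_iff.1 h2) hX)
        have h2 := hnil _ h1 ((hdvd X hX hX1).trans (Subgroup.card_dvd_of_le le_normalizer))
        have h3 : zpowers g ⊔ X ≤ normalizer (X : Set G) := sup_le (zpowers_le.2 hg) le_normalizer
        have h4 := CfsgH1.le_centralizer_of_nilpotent_sup (X := zpowers g) (Y := X) (by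
          rw [Nat.card_zpowers]
          obtain ⟨n, hn⟩ := IsPGroup.iff_card.1 hX
          rw [hn]; exact Nat.Coprime.pow_right n hgp) (CfsgH1.isNilpotent_of_le h2 h3)
        exact h4 (mem_zpowers g)
      obtain ⟨N, hNn, hNc, k, hNi⟩ := hNPC
      have hMN : M ≤ N := by
        intro m hm
        have h1 : (QuotientGroup.mk' N m) ^ Nat.card M = 1 := by
          rw [← map_pow]
          have : m ^ Nat.card M = 1 := by
            have h2 : (⟨m, hm⟩ : M) ^ Nat.card M = 1 := pow_card_eq_one'
            exact congrArg Subtype.val h2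
          rw [this, map_one]
        have h2 : (QuotientGroup.mk' N m) ^ Nat.card (G ⧸ N) = 1 := pow_card_eq_one'
        have h3 : Nat.card (G ⧸ N) = p ^ k := hNi
        rw [h3] at h2
        have h4 : orderOf (QuotientGroup.mk' N m) ∣ 1 := by
          have h5 : (Nat.card M).Coprime (p ^ k) := Nat.Coprime.pow_right k ((Nat.Prime.coprime_iff_not_dvd hp).2 hpM).symm
          rw [← h5]
          exact Nat.dvd_gcd (orderOf_dvd_of_pow_eq_one h1) (orderOf_dvd_of_pow_eq_one h2)
        have h5 := orderOf_eq_one_iff.1 (Nat.dvd_one.1 h4)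
        exact (QuotientGroup.eq_one_iff m).1 h5
      have hNt : N ≠ ⊤ := by
        intro h1
        rw [h1, Subgroup.card_top] at hNc
        exact (Nat.Prime.coprime_iff_not_dvd hp).1 hNc.symm hpG
      have hMeq : M = N := by
        by_contra hne
        exact hNt (hM.2 N (lt_of_le_of_ne hMN hne))
      obtain ⟨P⟩ : Nonempty (Sylow p G) := inferInstance
      have hP1 : (P : Subgroup G) ≠ ⊥ := Sylow.ne_bot_of_dvd_card P hpG
      have hPt : ¬ (P : Subgroup G).Normal := fun hh => hP1 (hA _ hh P.2)
      have hPM : M ⊔ (P : Subgroup G) = ⊤ := by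
        apply hM.2
        refine lt_of_le_of_ne le_sup_left (fun he => ?_)
        have h3 : (P : Subgroup G) ≤ M := by rw [he]; exact le_sup_right
        exact hpM ((hdvd _ P.2 hP1).trans (Subgroup.card_dvd_of_le h3))
      haveI hMnorm : M.Normal := by rw [hMeq]; exact hNn
      have hMPi : (P : Subgroup G) ⊓ M = ⊥ := by rw [inf_comm]; exact CfsgH1.inf_eq_bot_of_coprime (hcopM _ P.2)
      have hcG : Nat.card (P : Subgroup G) * Nat.card M = Nat.card G := by
        rw [← CfsgH1.card_sup_of_disjoint (CfsgH1.le_normalizer_of_normal (P : Subgroup G) M) hMPi, sup_comm, hPM, Subgroup.card_top]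
      have hMC : M ≤ centralizer ((P : Subgroup G) : Set G) := by
        apply CfsgH1.le_of_forall_sylowOf
        intro r hr
        haveI := Fact.mk hr
        obtain ⟨⟨Q, hQ, hPQ⟩, -⟩ := CfsgH1.coprime_sylow (A := (P : Subgroup G)) (K := M) (CfsgH1.le_normalizer_of_normal _ _) (hcopM _ P.2).symm (Or.inl (CfsgH1.isNilpotent_isSolvable P.2.isNilpotent)) r
        refine ⟨Q, hQ, ?_⟩
        have hQM := CfsgH1.isSylowOf_le hQ
        have hPQi : (P : Subgroup G) ⊓ Q = ⊥ := by
          rw [eq_bot_iff, ← hMPi]; exact inf_le_inf_left _ hQM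
        have h1 : (P : Subgroup G) ⊔ Q ≠ ⊤ := by
          intro h2
          have h3 := CfsgH1.card_sup_of_disjoint hPQ hPQi
          rw [h2, Subgroup.card_top, ← hcG] at h3
          have h4 := Nat.eq_of_mul_eq_mul_left Nat.card_pos h3
          have h5 : Q = M := Subgroup.eq_of_le_of_card_ge hQM h4.le
          have h6 := CfsgH1.isSylowOf_isPGroup hQ
          rw [h5] at h6
          exact hMn h6.isNilpotent
        have h2 := hnil _ h1 ((hdvd _ P.2 hP1).trans (Subgroup.card_dvd_of_le le_sup_left))
        rw [le_centralizer_iff]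
        exact CfsgH1.le_centralizer_of_nilpotent_sup (Nat.Coprime.coprime_dvd_right (Subgroup.card_dvd_of_le hQM) (hcopM _ P.2).symm) h2
      apply hPt
      rw [← normalizer_eq_top_iff, eq_top_iff, ← hPM]
      exact sup_le (hMC.trans (centralizer_le_normalizer _)) le_normalizer
  · rintro (h | h | ⟨Z, K, hZn, hKn, hZK, hZKs, hZc, hK, hpK⟩) M hM hpM
    · haveI := h
      infer_instance
    · exact h.2 M hM.1
    · -- Z ≤ M
      have hZp : IsPGroup p Z := IsPGroup.of_card (n := 1) (by rw [hZc, pow_one])
      have hKi : K.index = p := by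
        have h1 := CfsgH1.card_sup_of_disjoint (CfsgH1.le_normalizer_of_normal Z K) hZK
        rw [hZKs, Subgroup.card_top, hZc] at h1
        have h2 := Subgroup.card_mul_index K
        rw [h1, mul_comm] at h2
        exact Nat.eq_of_mul_eq_mul_right Nat.card_pos h2
      have hZM : Z ≤ M := by
        obtain ⟨u, hu⟩ := exists_prime_orderOf_dvd_card' (G := M) p hpM
        have hu' : orderOf (u : G) = p := by rw [Subgroup.orderOf_coe, hu]
        have h1 : (u : G) ∈ Z := by
          have h2 : (u : G) ∈ ((Z ⊔ K : Subgroup G) : Set G) := by rw [hZKs]; trivial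
          rw [Subgroup.normal_mul] at h2
          obtain ⟨z, hz, k, hk, hzk⟩ := Set.mem_mul.1 h2
          have hcomm : z * k = k * z := by
            have h3 : z * k * z⁻¹ * k⁻¹ ∈ Z ⊓ K := by
              refine ⟨?_, K.mul_mem (hKn.conj_mem k hk z) (K.inv_mem hk)⟩
              have : z * k * z⁻¹ * k⁻¹ = z * (k * z⁻¹ * k⁻¹) := by group
              rw [this]; exact Z.mul_mem hz (hZn.conj_mem _ (Z.inv_mem hz) k)
            rw [hZK, mem_bot] at h3
            calc z * k = (z * k * z⁻¹ * k⁻¹) * (k * z) := by group
              _ = _ := by rw [h3, one_mul]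
          have h4 : z ^ p = 1 := by
            have : (⟨z, hz⟩ : Z) ^ Nat.card Z = 1 := pow_card_eq_one'
            rw [hZc] at this
            exact congrArg Subtype.val this
          have h5 : (u : G) ^ p = 1 := by rw [← hu']; exact pow_orderOf_eq_one _
          rw [← hzk, (show Commute z k from hcomm).mul_pow, h4, one_mul] at h5
          have h6 : k ^ Nat.card K = 1 := by
            have : (⟨k, hk⟩ : K) ^ Nat.card K = 1 := pow_card_eq_one'
            exact congrArg Subtype.val this
          have h7 : orderOf k ∣ 1 := by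
            have h8 : p.Coprime (Nat.card K) := (Nat.Prime.coprime_iff_not_dvd hp).2 hpK
            rw [← h8]
            exact Nat.dvd_gcd (orderOf_dvd_of_pow_eq_one h5) (orderOf_dvd_of_pow_eq_one h6)
          rw [orderOf_eq_one_iff.1 (Nat.dvd_one.1 h7), mul_one] at hzk
          rw [← hzk]; exact hz
        have h2 : zpowers (u : G) ≤ Z := zpowers_le.2 h1
        have h3 : zpowers (u : G) = Z := Subgroup.eq_of_le_of_card_ge h2 (by rw [hZc, Nat.card_zpowers, hu'])
        rw [← h3, zpowers_le]; exact u.2
      have hMeq : M = Z ⊔ (M ⊓ K) := by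
        apply le_antisymm
        · intro m hm
          have h2 : m ∈ ((Z ⊔ K : Subgroup G) : Set G) := by rw [hZKs]; trivial
          rw [Subgroup.normal_mul] at h2
          obtain ⟨z, hz, k, hk, rfl⟩ := Set.mem_mul.1 h2
          have h3 : k ∈ M := by
            have : k = z⁻¹ * (z * k) := by group
            rw [this]; exact M.mul_mem (M.inv_mem (hZM hz)) hm
          exact mul_mem (mem_sup_left hz) (mem_sup_right ⟨h3, hk⟩)
        · exact sup_le hZM inf_le_left
      have hMK : Group.IsNilpotent (M ⊓ K : Subgroup G) := by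
        have h1 : M.subgroupOf K ≠ ⊤ := by
          intro h2
          rw [Subgroup.subgroupOf_eq_top] at h2
          apply hM.1
          rw [eq_top_iff, ← hZKs]
          exact sup_le hZM h2
        have h2 := hK.2 _ h1
        have h3 : (M ⊓ K).subgroupOf K = M.subgroupOf K := Subgroup.inf_subgroupOf_right M K
        rw [← h3] at h2
        exact (Group.isNilpotent_congr (subgroupOfEquivOfLe (inf_le_right : M ⊓ K ≤ K))).1 h2
      have hcc : Z ≤ centralizer ((M ⊓ K : Subgroup G) : Set G) := by
        intro z hz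
        rw [mem_centralizer_iff]
        rintro k ⟨-, hk⟩
        have h3 : k * z * k⁻¹ * z⁻¹ ∈ Z ⊓ K := by
          refine ⟨Z.mul_mem (hZn.conj_mem z hz k) (Z.inv_mem hz), ?_⟩
          have : k * z * k⁻¹ * z⁻¹ = k * (z * k⁻¹ * z⁻¹) := by group
          rw [this]; exact K.mul_mem hk (hKn.conj_mem _ (K.inv_mem hk) z)
        rw [hZK, mem_bot] at h3
        calc k * z = (k * z * k⁻¹ * z⁻¹) * (z * k) := by group
          _ = _ := by rw [h3, one_mul]
      rw [hMeq]
      exact nil_sup hZp.isNilpotent hMK hcc

end Cfsg.Agent.S4242
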