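import Mathlib
import Cfsg.Agent.H2.ClassSize
import Cfsg.Statements.S4244

set_option autoImplicit false
open Cfsg

namespace Cfsg.Agent.S4244

theorem aux {G : Type*} [Group G] [Finite G] (H H1 : Subgroup G) (hle : H ≤ H1) (hn : (H.subgroupOf H1).Normal) (K : Subgroup G) :
    (H ⊓ K).relIndex H ∣ (H1 ⊓ K).relIndex H1 := by
  have h1 : (H ⊓ K).relIndex H = K.relIndex H := by rw [inf_comm, Subgroup.inf_relIndex_right]
  have h2 : (H1 ⊓ K).relIndex H1 = K.relIndex H1 := by rw [inf_comm, Subgroup.inf_relIndex_right]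
  rw [h1, h2]
  have h3 : K.relIndex H = (K.subgroupOf H1).relIndex (H.subgroupOf H1) := by
    rw [Subgroup.relIndex_subgroupOf hle]
  rw [h3]
  change (K.subgroupOf H1).relIndex (H.subgroupOf H1) ∣ (K.subgroupOf H1).index
  exact CfsgH2.relIndex_normal_dvd_index _ _

/-- Let H be a subnormal subgroup of a finite group G. Then for every subgroup K of G the index of H ∩ K in H divides the index of K in G. -/
theorem result {G : Type*} [Group G] [Finite G] (H : Subgroup G) (hH : H.IsSubnormal) (K : Subgroup G) :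
    (H ⊓ K).relIndex H ∣ K.index := by
  have h0 : (H ⊓ K).relIndex H ∣ (⊤ ⊓ K : Subgroup G).relIndex ⊤ := by
    induction hH with
    | top => exact dvd_rfl
    | step H H1 hle hs hn ih => exact (aux H H1 hle hn K).trans ih
  rwa [top_inf_eq, Subgroup.relIndex_top_right] at h0

end Cfsg.Agent.S4244
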