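import Mathlib
import Cfsg.Agent.H3.Kegel
import Cfsg.Statements.S4249

set_option autoImplicit false
open Cfsg

namespace Cfsg.Agent.S4249

open Subgroup CfsgH3

universe u
variable {G : Type u} [Group G]

/-- the Hughes subgroup is normal -/
theorem hughes_normal (p : ℕ) : (Subgroup.closure {g : G | g ^ p ≠ 1}).Normal := by
  rw [← Subgroup.normalizer_eq_top_iff, eq_top_iff]
  intro g _
  rw [Subgroup.mem_normalizer_iff'']
  have key : ∀ g : G, ∀ h ∈ Subgroup.closure {g : G | g ^ p ≠ 1}, g⁻¹ * h * g ∈ Subgroup.closure {g : G | g ^ p ≠ 1} := by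
    intro g h hh
    induction hh using Subgroup.closure_induction with
    | mem x hx =>
      apply Subgroup.subset_closure
      have hx' : x ^ p ≠ 1 := hx
      intro h1
      apply hx'
      have e : (g⁻¹ * x * g) ^ p = g⁻¹ * x ^ p * g := by
        have := conj_pow (i := p) (a := g⁻¹) (b := x)
        rwa [inv_inv] at this
      rw [e] at h1
      have h2 : x ^ p = g * (g⁻¹ * x ^ p * g) * g⁻¹ := by group
      rw [h2, h1]; group
    | one => rw [mul_one, inv_mul_cancel]; exact one_mem _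
    | mul x y _ _ hx hy =>
      have e : g⁻¹ * (x * y) * g = (g⁻¹ * x * g) * (g⁻¹ * y * g) := by group
      rw [e]; exact mul_mem hx hy
    | inv x _ hx =>
      have e : g⁻¹ * x⁻¹ * g = (g⁻¹ * x * g)⁻¹ := by group
      rw [e]; exact inv_mem hx
  intro h
  refine ⟨fun hh => key g h hh, fun hh => ?_⟩
  have := key g⁻¹ _ hh
  have e : g⁻¹⁻¹ * (g⁻¹ * h * g) * g⁻¹ = h := by group
  rwa [e] at this

/-- Let G be a finite group and p a prime such that G is not a p-group, and suppose the Hughes subgroup H_p(G), generated by all elements g with g^p ≠ 1, is a proper subgroup. Then H_p(G) is nilpotent and has index p in G. -/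
theorem result {G : Type*} [Group G] [Finite G] (p : ℕ) (hp : p.Prime) (hG : ¬ IsPGroup p G)
    (hH : Subgroup.closure {g : G | g ^ p ≠ 1} ≠ ⊤) :
    Group.IsNilpotent (Subgroup.closure {g : G | g ^ p ≠ 1}) ∧ (Subgroup.closure {g : G | g ^ p ≠ 1}).index = p := by
  haveI : Fact p.Prime := ⟨hp⟩
  set H := Subgroup.closure {g : G | g ^ p ≠ 1} with hHdef
  have hmem : ∀ g : G, g ∉ H → g ^ p = 1 := by
    intro g hg
    by_contra h
    exact hg (Subgroup.subset_closure h)
  haveI hHn : H.Normal := hughes_normal p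
  obtain ⟨x, hx⟩ : ∃ x, x ∉ H := by
    by_contra h
    push Not at h
    exact hH (top_unique fun x _ => h x)
  have hnil : Group.IsNilpotent H := by
    apply kegel (p := p) (x := x)
    · rw [Subgroup.normalizer_eq_top_iff.2 hHn]; trivial
    · intro h hh
      apply hmem
      intro h1
      apply hx
      have := mul_mem h1 (inv_mem hh)
      rwa [mul_inv_cancel_right] at this
  refine ⟨hnil, ?_⟩
  -- a prime `q ≠ p`
  obtain ⟨q, hq, hqp, hqG⟩ : ∃ q : ℕ, q.Prime ∧ q ≠ p ∧ q ∣ Nat.card G := by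
    by_contra h2
    apply hG
    have h0 : Nat.card G ≠ 0 := Nat.card_pos.ne'
    exact IsPGroup.of_card (n := (Nat.card G).primeFactorsList.length)
        (Nat.eq_prime_pow_of_unique_prime_dvd h0 (by
          intro q hq hqd
          by_contra hne
          exact h2 ⟨q, hq, hne, hqd⟩))
  haveI : Fact q.Prime := ⟨hq⟩
  -- `q`-elements lie in `H`
  have hqH : ∀ g : G, (∃ k, g ^ q ^ k = 1) → g ∈ H := by
    rintro g ⟨k, hk⟩
    by_contra hg
    have h1 := hmem g hg
    have h2 : orderOf g = 1 := Nat.eq_one_of_dvd_coprimes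
      (Nat.Coprime.pow_left k ((Nat.coprime_primes hq hp).2 hqp)) (orderOf_dvd_of_pow_eq_one hk)
      (orderOf_dvd_of_pow_eq_one h1)
    rw [orderOf_eq_one_iff] at h2
    exact hg (h2 ▸ one_mem H)
  obtain ⟨g0, hg0⟩ := exists_prime_orderOf_dvd_card' (G := G) q hqG
  obtain ⟨Q, hQ⟩ := CfsgH1.exists_isSylowOf q H
  have hQH := CfsgH1.isSylowOf_le hQ
  have hQp := CfsgH1.isSylowOf_isPGroup hQ
  have hg0H : g0 ∈ H := hqH g0 ⟨1, by rw [pow_one, ← hg0, pow_orderOf_eq_one]⟩
  have hQne : Q ≠ ⊥ := by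
    rintro rfl
    have h1 := (CfsgH1.isSylowOf_iff.1 hQ).2.2
    rw [Subgroup.relIndex_bot_left] at h1
    apply h1
    have := orderOf_dvd_natCard (⟨g0, hg0H⟩ : H)
    rwa [Subgroup.orderOf_mk, hg0] at this
  have hQn : ⊤ ≤ normalizer (Q : Set G) := by
    rw [← Subgroup.normalizer_eq_top_iff.2 hHn]
    exact normalizer_le_of_isSylowOf_nilpotent hnil hQ
  set V := ZZ Q with hV
  have hVn : ⊤ ≤ normalizer (V : Set G) := hQn.trans (normalizer_le_ZZ Q)
  have hVne : V ≠ ⊥ := ZZ_ne_bot hQp hQne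
  have hVH : V ≤ H := (ZZ_le Q).trans hQH
  have hVp : IsPGroup q V := hQp.to_le (ZZ_le Q)
  have hVc : ∀ a ∈ V, ∀ b ∈ V, a * b = b * a := fun a ha b hb =>
    Subgroup.mem_centralizer_iff.1 (Subgroup.mem_inf.1 hb).2 a (ZZ_le Q ha)
  -- a Sylow `p`-subgroup
  obtain ⟨P⟩ : Nonempty (Sylow p G) := inferInstance
  have hPH : ∀ g : G, g ∉ H → ∃ k, g ^ p ^ k = 1 := fun g hg => ⟨1, by rw [pow_one]; exact hmem g hg⟩
  have hHidx : ∃ k, H.index = p ^ k := by
    have h1 : IsPGroup p (G ⧸ H) := by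
      intro y
      obtain ⟨g, rfl⟩ := QuotientGroup.mk_surjective y
      by_cases hg : g ∈ H
      · exact ⟨0, by rw [(QuotientGroup.eq_one_iff g).2 hg, one_pow]⟩
      · exact ⟨1, by rw [pow_one, ← QuotientGroup.mk_pow, hmem g hg, QuotientGroup.mk_one]⟩
    obtain ⟨k, hk⟩ := IsPGroup.iff_card.1 h1
    exact ⟨k, by rw [Subgroup.index_eq_card, hk]⟩
  have hHP : H ⊔ (P : Subgroup G) = ⊤ := by
    obtain ⟨k, hk⟩ := hHidx
    rw [← Subgroup.index_eq_one]
    have h1 : (H ⊔ (P : Subgroup G)).index ∣ p ^ k := by rw [← hk]; exact Subgroup.index_dvd_of_le le_sup_left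
    have h2 : (H ⊔ (P : Subgroup G)).index ∣ (P : Subgroup G).index := Subgroup.index_dvd_of_le le_sup_right
    obtain ⟨i, -, hi⟩ := (Nat.dvd_prime_pow hp).1 h1
    rcases Nat.eq_zero_or_pos i with rfl | h3
    · rw [hi, pow_zero]
    · exfalso
      apply P.not_dvd_index
      refine dvd_trans ?_ h2
      rw [hi]; exact dvd_pow_self p (by omega)
  have hPnot : ¬ (P : Subgroup G) ≤ H := by
    intro h
    rw [sup_eq_left.2 h] at hHP
    exact hH hHP
  -- `P ∩ H` is maximal in `P`
  set P0 := H.subgroupOf (P : Subgroup G) with hP0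
  have hP0ne : P0 ≠ ⊤ := by
    rw [hP0, Ne, Subgroup.subgroupOf_eq_top]; exact hPnot
  obtain ⟨U, hU, hP0U⟩ := (eq_top_or_exists_le_coatom P0).resolve_left hP0ne
  have hUeq : U = P0 := by
    by_contra hne
    have hlt : P0 < U := lt_of_le_of_ne hP0U (Ne.symm hne)
    obtain ⟨u, huU, hu0⟩ := SetLike.exists_of_lt hlt
    obtain ⟨y, hy⟩ : ∃ y : (P : Subgroup G), y ∉ U := by
      by_contra h
      push Not at h
      exact hU.1 (top_unique fun y _ => h y)
    haveI hUn : U.Normal := CfsgH3.coatom_normal P.2 hU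
    have hcen : (U.map (P : Subgroup G).subtype) ≤ centralizer (V : Set G) := by
      refine split_centralizes (p := p) (x := (y : G)) hVc ((le_top).trans hVn) (hVn trivial) ?_ ?_ ?_
      · apply Subgroup.mem_normalizer_fintype
        rintro _ ⟨c, hc, rfl⟩
        exact ⟨y * c * y⁻¹, hUn.conj_mem c hc y, rfl⟩
      · exact IsPGroup.coprime_card_of_ne p q hqp.symm _ V ((P.2.to_subgroup U).map _) hVp
      · rintro v hv _ ⟨c, hc, rfl⟩
        apply hmem
        intro h1
        have h2 : (y : G) * (c : G) ∈ H := by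
          have := mul_mem (inv_mem (hVH hv)) h1
          rwa [inv_mul_cancel_left] at this
        have h3 : y * c ∈ P0 := h2
        have h4 := mul_mem (hP0U h3) (inv_mem hc)
        rw [mul_inv_cancel_right] at h4
        exact hy h4
    -- `u` centralizes `V`
    obtain ⟨v, hv, hv1⟩ : ∃ v ∈ V, v ≠ 1 := by
      by_contra h
      push Not at h
      exact hVne ((Subgroup.eq_bot_iff_forall V).2 h)
    have hu' : (u : G) ∉ H := hu0
    have hcomm : v * (u : G) = u * v := Subgroup.mem_centralizer_iff.1 (hcen ⟨u, huU, rfl⟩) v hv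
    have h1 : (v * (u : G)) ^ p = 1 := by
      apply hmem
      intro h1
      have := mul_mem (inv_mem (hVH hv)) h1
      rw [inv_mul_cancel_left] at this
      exact hu' this
    rw [(show Commute v (u : G) from hcomm).mul_pow, hmem _ hu', mul_one] at h1
    obtain ⟨k, hk⟩ := hVp ⟨v, hv⟩
    have hk' : v ^ q ^ k = 1 := congrArg Subtype.val hk
    have h2 : orderOf v = 1 := Nat.eq_one_of_dvd_coprimes
      (Nat.Coprime.pow_left k ((Nat.coprime_primes hq hp).2 hqp)) (orderOf_dvd_of_pow_eq_one hk')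
      (orderOf_dvd_of_pow_eq_one h1)
    exact hv1 (orderOf_eq_one_iff.1 h2)
  have hidx : P0.index = p := by
    rw [← hUeq]
    exact CfsgH3.coatom_index P.2 hU
  have h1 : H.relIndex (P : Subgroup G) = H.index := by
    have h2 := Subgroup.relIndex_sup_right (H := (P : Subgroup G)) (K := H)
    rw [sup_comm, hHP, Subgroup.relIndex_top_right] at h2
    exact h2.symm
  rw [← h1]
  exact hidx

end Cfsg.Agent.S4249
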