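import Mathlib
import Cfsg.Agent.H3.Tame
import Cfsg.Statements.S4250

set_option autoImplicit false
open Cfsg

namespace Cfsg.Agent.S4250

open Subgroup CfsgH1 CfsgH3
open scoped Pointwise commutatorElement

/-- Let P be a Sylow p-subgroup of a finite group G. Call an intersection H = P ∩ Q with a Sylow p-subgroup Q tame when N_P(H) and N_Q(H) are Sylow p-subgroups of N_G(H). Then P ∩ G′ is generated by [P, N_G(P)] together with the commutator subgroups [P ∩ Q, ⟨x⟩] for all tame intersections P ∩ Q and all p-elements x of N_G(P ∩ Q). -/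
theorem result {G : Type*} [Group G] [Finite G] (p : ℕ) [Fact p.Prime] (P : Sylow p G) :
    (P : Subgroup G) ⊓ commutator G =
      ⁅(P : Subgroup G), Subgroup.normalizer ((P : Subgroup G) : Set G)⁆ ⊔
        ⨆ (Q : Sylow p G) (_ : (¬ p ∣ ((P : Subgroup G) ⊓ Subgroup.normalizer (((P : Subgroup G) ⊓ (Q : Subgroup G) : Subgroup G) : Set G)).relIndex (Subgroup.normalizer (((P : Subgroup G) ⊓ (Q : Subgroup G) : Subgroup G) : Set G)) ∧ ¬ p ∣ ((Q : Subgroup G) ⊓ Subgroup.normalizer (((P : Subgroup G) ⊓ (Q : Subgroup G) : Subgroup G) : Set G)).relIndex (Subgroup.normalizer (((P : Subgroup G) ⊓ (Q : Subgroup G) : Subgroup G) : Set G))))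
          (x : G) (_ : x ∈ Subgroup.normalizer (((P : Subgroup G) ⊓ (Q : Subgroup G) : Subgroup G) : Set G) ∧ ∃ k : ℕ, orderOf x = p ^ k),
          ⁅(P : Subgroup G) ⊓ (Q : Subgroup G), Subgroup.zpowers x⁆ := by
  set E := ⁅(P : Subgroup G), Subgroup.normalizer ((P : Subgroup G) : Set G)⁆ ⊔
        ⨆ (Q : Sylow p G) (_ : (¬ p ∣ ((P : Subgroup G) ⊓ Subgroup.normalizer (((P : Subgroup G) ⊓ (Q : Subgroup G) : Subgroup G) : Set G)).relIndex (Subgroup.normalizer (((P : Subgroup G) ⊓ (Q : Subgroup G) : Subgroup G) : Set G)) ∧ ¬ p ∣ ((Q : Subgroup G) ⊓ Subgroup.normalizer (((P : Subgroup G) ⊓ (Q : Subgroup G) : Subgroup G) : Set G)).relIndex (Subgroup.normalizer (((P : Subgroup G) ⊓ (Q : Subgroup G) : Subgroup G) : Set G))))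
          (x : G) (_ : x ∈ Subgroup.normalizer (((P : Subgroup G) ⊓ (Q : Subgroup G) : Subgroup G) : Set G) ∧ ∃ k : ℕ, orderOf x = p ^ k),
          ⁅(P : Subgroup G) ⊓ (Q : Subgroup G), Subgroup.zpowers x⁆ with hE
  apply le_antisymm
  · have key := fusion_tame P (fun A g => ∀ a ∈ A, a⁻¹ * (g * a * g⁻¹) ∈ E) (by
      intro n hn a ha
      rw [hE]
      apply mem_sup_left
      have e : a⁻¹ * (n * a * n⁻¹) = ⁅a⁻¹, n⁆ := by rw [commutatorElement_def]; group
      rw [e]
      exact commutator_mem_commutator (inv_mem ha) hn) (by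
      intro A g h _ _ _ h1 h2 a ha
      have e : a⁻¹ * (h * g * a * (h * g)⁻¹) = (a⁻¹ * (g * a * g⁻¹)) * ((g * a * g⁻¹)⁻¹ * (h * (g * a * g⁻¹) * h⁻¹)) := by group
      rw [e]
      refine mul_mem (h1 a ha) (h2 _ ?_)
      rw [mem_conj_smul]
      have e : g⁻¹ * (g * a * g⁻¹) * g = a := by group
      rw [e]; exact ha) (by
      intro A B g hBA _ _ h a ha
      exact h a (hBA ha)) (by
      intro Q hlt hPQ hQQ x hx hxp a ha
      rw [hE]
      apply mem_sup_right
      have e : a⁻¹ * (x * a * x⁻¹) = ⁅a⁻¹, x⁆ := by rw [commutatorElement_def]; group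
      rw [e]
      refine mem_iSup_of_mem Q (mem_iSup_of_mem ⟨(fullNorm_iff P _).1 hPQ, (fullNorm_iff Q _).1 hQQ⟩ (mem_iSup_of_mem x (mem_iSup_of_mem ⟨hx, hxp⟩ ?_)))
      exact commutator_mem_commutator (inv_mem ha) (mem_zpowers x))
    rw [inf_comm, Subgroup.commutator_inf_eq_focalSubgroup, Subgroup.focalSubgroup_def, Subgroup.closure_le]
    rintro _ ⟨hg, x, hx, u, rfl⟩
    have h2 : u * x⁻¹ * u⁻¹ ∈ (P : Subgroup G) := by
      have : u * x⁻¹ * u⁻¹ = x⁻¹ * ⁅x, u⁆ := by rw [commutatorElement_def]; group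
      rw [this]; exact (P : Subgroup G).mul_mem ((P : Subgroup G).inv_mem hx) hg
    have h3 := key (zpowers x⁻¹) u (by rw [zpowers_le]; exact (P : Subgroup G).inv_mem hx) (by
      intro y hy
      rw [mem_conj_smul] at hy
      obtain ⟨k, hk⟩ := hy
      have e : y = (u * x⁻¹ * u⁻¹) ^ k := by
        rw [conj_zpow]
        change x⁻¹ ^ k = u⁻¹ * y * u at hk
        rw [hk]; group
      rw [e]; exact zpow_mem h2 k) x⁻¹ (mem_zpowers _)
    have e : ⁅x, u⁆ = x⁻¹⁻¹ * (u * x⁻¹ * u⁻¹) := by rw [commutatorElement_def]; group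
    show ⁅x, u⁆ ∈ E
    rw [e]; exact h3
  · rw [hE]
    refine sup_le (le_inf ?_ ?_) ?_
    · rw [Subgroup.commutator_comm, Subgroup.commutator_le]
      intro n hn a ha
      rw [commutatorElement_def]
      exact (P : Subgroup G).mul_mem ((mem_normalizer_iff.1 hn a).1 ha) ((P : Subgroup G).inv_mem ha)
    · exact Subgroup.commutator_mono le_top le_top
    · refine iSup_le fun Q => iSup_le fun _ => iSup_le fun x => iSup_le fun hx => le_inf ?_ (Subgroup.commutator_mono le_top le_top)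
      refine le_trans ?_ (inf_le_left : (P : Subgroup G) ⊓ Q ≤ P)
      rw [Subgroup.commutator_comm, Subgroup.commutator_le]
      intro n hn a ha
      have hn' : n ∈ normalizer (((P : Subgroup G) ⊓ Q : Subgroup G) : Set G) := (zpowers_le.2 hx.1) hn
      rw [commutatorElement_def]
      exact mul_mem ((mem_normalizer_iff.1 hn' a).1 ha) (inv_mem ha)

end Cfsg.Agent.S4250
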