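import Mathlib
import Cfsg.Agent.H3.Tame
import Cfsg.Statements.S4251

set_option autoImplicit false
open Cfsg

namespace Cfsg.Agent.S4251

open Subgroup CfsgH1 CfsgH3
open scoped Pointwise commutatorElement

/-- Let P be a Sylow p-subgroup of a finite group G. Call an intersection H = P ∩ Q with a Sylow p-subgroup Q tame when N_P(H) and N_Q(H) are Sylow p-subgroups of N_G(H). If N_G(H)/C_G(H) is a p-group for every nontrivial tame intersection H = P ∩ Q, then G has a normal p-complement. -/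
theorem result {G : Type*} [Group G] [Finite G] (p : ℕ) [Fact p.Prime] (P : Sylow p G)
    (h : ∀ Q : Sylow p G, (P : Subgroup G) ⊓ (Q : Subgroup G) ≠ ⊥ → (¬ p ∣ ((P : Subgroup G) ⊓ Subgroup.normalizer (((P : Subgroup G) ⊓ (Q : Subgroup G) : Subgroup G) : Set G)).relIndex (Subgroup.normalizer (((P : Subgroup G) ⊓ (Q : Subgroup G) : Subgroup G) : Set G)) ∧ ¬ p ∣ ((Q : Subgroup G) ⊓ Subgroup.normalizer (((P : Subgroup G) ⊓ (Q : Subgroup G) : Subgroup G) : Set G)).relIndex (Subgroup.normalizer (((P : Subgroup G) ⊓ (Q : Subgroup G) : Subgroup G) : Set G))) →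
      IsPGroup p (Subgroup.normalizer (((P : Subgroup G) ⊓ (Q : Subgroup G) : Subgroup G) : Set G) ⧸
        (Subgroup.centralizer (((P : Subgroup G) ⊓ (Q : Subgroup G) : Subgroup G) : Set G)).subgroupOf
          (Subgroup.normalizer (((P : Subgroup G) ⊓ (Q : Subgroup G) : Subgroup G) : Set G)))) :
    Cfsg.HasNormalPComplement p G := by
  have hfac : ∀ (C T : Subgroup G), IsPGroup p (normalizer (C : Set G) ⧸ (centralizer (C : Set G)).subgroupOf (normalizer (C : Set G))) → 
      (T ≤ normalizer (C : Set G)) → ¬ p ∣ T.relIndex (normalizer (C : Set G)) → 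
      ∀ n ∈ normalizer (C : Set G), ∃ t ∈ T, ∀ a ∈ C, t * a * t⁻¹ = n * a * n⁻¹ := by
    intro C T hq hT hidx n hn
    set N := normalizer (C : Set G) with hN
    set K := (centralizer (C : Set G)).subgroupOf N with hK
    have h1 : (T.subgroupOf N) ⊔ K = ⊤ := by
      rw [← Subgroup.index_eq_one]
      have h2 : ((T.subgroupOf N) ⊔ K).index ∣ T.relIndex N := Subgroup.index_dvd_of_le le_sup_left
      have h3 : ((T.subgroupOf N) ⊔ K).index ∣ K.index := Subgroup.index_dvd_of_le le_sup_right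
      obtain ⟨k, hk⟩ := IsPGroup.iff_card.1 hq
      have h4 : K.index = p ^ k := hk
      rw [h4] at h3
      exact Nat.eq_one_of_dvd_coprimes (Nat.Coprime.pow_left k ((Nat.Prime.coprime_iff_not_dvd Fact.out).2 hidx)) h3 h2
    have h2 : (⟨n, hn⟩ : N) ∈ (T.subgroupOf N) ⊔ K := by rw [h1]; trivial
    obtain ⟨t, ht, c, hc, htc⟩ := Subgroup.mem_sup_of_normal_right.1 h2
    have h3 : (t : G) * c = n := congrArg Subtype.val htc
    refine ⟨t, ht, ?_⟩
    intro a ha
    have h4 := (mem_centralizer_iff.1 (mem_subgroupOf.1 hc)) a ha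
    rw [← h3]
    generalize (c : G) = c' at h4 ⊢
    generalize (t : G) = t' at h4 ⊢
    calc t' * a * t'⁻¹ = t' * (a * c') * c'⁻¹ * t'⁻¹ := by group
      _ = t' * (c' * a) * c'⁻¹ * t'⁻¹ := by rw [h4]
      _ = _ := by group
  by_cases hPbot : (P : Subgroup G) = ⊥
  · refine (CfsgH3.hasNPC_iff (p := p)).2 (hasNPC_of_controls P ?_)
    intro x hx g _
    have hx1 : x = 1 := by
      have : x ∈ (P : Subgroup G) := hx
      rw [hPbot, mem_bot] at this; exact this
    exact ⟨1, one_mem _, by rw [hx1]; group⟩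
  refine (CfsgH3.hasNPC_iff (p := p)).2 (hasNPC_of_controls P ?_)
  have key := fusion_core P (fun A g => ∃ u ∈ (P : Subgroup G), ∀ a ∈ A, u * a * u⁻¹ = g * a * g⁻¹) (by
    intro n hn
    have h1 := h P (by rw [inf_idem]; exact hPbot)
    rw [inf_idem] at h1
    have hP : (P : Subgroup G) ⊓ normalizer ((P : Subgroup G) : Set G) = P := inf_eq_left.2 le_normalizer
    rw [hP] at h1
    have h2 : ¬ p ∣ (P : Subgroup G).relIndex (normalizer ((P : Subgroup G) : Set G)) := by
      intro h3
      apply P.not_dvd_index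
      exact h3.trans (Dvd.intro _ (Subgroup.relIndex_mul_index le_normalizer))
    exact hfac _ P (h1 ⟨h2, h2⟩) le_normalizer h2 n hn) (by
    rintro A g h _ _ _ ⟨u, hu, hu2⟩ ⟨v, hv, hv2⟩
    refine ⟨v * u, mul_mem hv hu, ?_⟩
    intro a ha
    have h3 := hv2 (g * a * g⁻¹) (by
      rw [mem_conj_smul]
      have e : g⁻¹ * (g * a * g⁻¹) * g = a := by group
      rw [e]; exact ha)
    calc v * u * a * (v * u)⁻¹ = v * (u * a * u⁻¹) * v⁻¹ := by group
      _ = v * (g * a * g⁻¹) * v⁻¹ := by rw [hu2 a ha]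
      _ = h * (g * a * g⁻¹) * h⁻¹ := h3
      _ = _ := by group) (by
    rintro A B g hBA _ _ ⟨u, hu, hu2⟩
    exact ⟨u, hu, fun a ha => hu2 a (hBA ha)⟩) (by
    intro C hCP hfull hind n hn
    have hnC : ∀ m ∈ normalizer (C : Set G), MulAut.conj m • C = C := fun m hm => conj_smul_eq_self_iff.2 hm
    set T := (P : Subgroup G) ⊓ normalizer (C : Set G) with hT
    have hCT : C ≤ T := le_inf hCP.le le_normalizer
    by_cases hex : T ⊓ MulAut.conj n • T = C
    · obtain ⟨Q, hQ1, hQ2⟩ := tame_or P hCP.le hfull n hn hex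
      by_cases hCb : C = ⊥
      · refine ⟨1, one_mem _, ?_⟩
        intro a ha
        rw [hCb, mem_bot] at ha
        rw [ha]; group
      have h1 := h Q (by rw [hQ1]; exact hCb)
      rw [hQ1] at h1
      obtain ⟨t, ht, ht2⟩ := hfac C T (h1 ⟨(fullNorm_iff P C).1 hfull, (fullNorm_iff Q C).1 hQ2⟩) inf_le_right ((fullNorm_iff P C).1 hfull) n hn
      exact ⟨t, ht.1, ht2⟩
    · have h6 : C ≤ T ⊓ MulAut.conj n • T := by
        refine le_inf hCT ?_
        rw [← hnC n hn]
        exact conj_smul_mono n hCT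
      have h7 : C < T ⊓ MulAut.conj n • T := lt_of_le_of_ne h6 (Ne.symm hex)
      set A := MulAut.conj n⁻¹ • (T ⊓ MulAut.conj n • T) with hA
      have hnA : MulAut.conj n • A = T ⊓ MulAut.conj n • T := by
        rw [hA, ← mul_smul, ← map_mul, mul_inv_cancel, map_one, one_smul]
      have hAT : A ≤ T := by
        intro x hx
        rw [hA, mem_conj_smul, inv_inv] at hx
        have := mem_conj_smul.1 (show n * x * n⁻¹ ∈ MulAut.conj n • T from hx.2)
        have e : n⁻¹ * (n * x * n⁻¹) * n = x := by group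
        rwa [e] at this
      have hCA : C ≤ A := by
        intro x hx
        rw [hA, mem_conj_smul, inv_inv]
        apply h6
        exact (mem_normalizer_iff.1 hn x).1 hx
      obtain ⟨u, hu, hu2⟩ := hind A n (hAT.trans inf_le_left) (by rw [hnA]; exact inf_le_left.trans inf_le_left) (by
        rw [hA, card_conj_smul]
        exact CfsgH3.card_lt_card_of_lt h7)
      exact ⟨u, hu, fun a ha => hu2 a (hCA ha)⟩)
  intro x hx g hgx
  obtain ⟨u, hu, hu2⟩ := key _ (zpowers x) g rfl (by rw [zpowers_le]; exact hx) (by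
    intro y hy
    rw [mem_conj_smul] at hy
    obtain ⟨k, hk⟩ := hy
    have e : y = (g * x * g⁻¹) ^ k := by
      rw [conj_zpow]
      change x ^ k = g⁻¹ * y * g at hk
      rw [hk]; group
    rw [e]
    exact zpow_mem (show g * x * g⁻¹ ∈ (P : Subgroup G) from hgx) k)
  exact ⟨u, hu, hu2 x (mem_zpowers x)⟩

end Cfsg.Agent.S4251
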