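import Mathlib
import Cfsg.Agent.H3.PBasic
import Cfsg.Statements.S4252

set_option autoImplicit false
open Cfsg

namespace Cfsg.Agent.S4252

open scoped Pointwise

/-- Let a finite group G act on a finite set Ω with more than one point, transitively but not regularly, so that no non-identity element of G fixes two distinct points. Then the stabilizer H of any point is a Frobenius complement in G (nontrivial, proper, meeting its other conjugates trivially), and the Frobenius kernel of G with respect to H (the identity together with the elements lying in no conjugate of H) is exactly the set consisting of the identity and the elements fixing no point. -/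
theorem result {G Ω : Type*} [Group G] [Finite G] [Fintype Ω] [MulAction G Ω] (hΩ : 1 < Fintype.card Ω)
    (htrans : ∀ α β : Ω, ∃ g : G, g • α = β) (hnreg : ∃ g : G, g ≠ 1 ∧ ∃ α : Ω, g • α = α)
    (hfix : ∀ g : G, g ≠ 1 → ∀ α β : Ω, g • α = α → g • β = β → α = β) (α : Ω) :
    Cfsg.IsFrobeniusComplement (MulAction.stabilizer G α) ∧
      Cfsg.frobeniusKernel (MulAction.stabilizer G α) = {g : G | g = 1 ∨ ∀ ω : Ω, g • ω ≠ ω} := by
  classical
  obtain ⟨g0, hg0, α0, hα0⟩ := hnreg
  have hmem : ∀ (g x : G) (ω : Ω), x ∈ MulAut.conj g • MulAction.stabilizer G ω ↔ x • (g • ω) = g • ω := by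
    intro g x ω
    rw [CfsgH3.mem_conj_smul_iff, MulAction.mem_stabilizer_iff, mul_smul, mul_smul, inv_smul_eq_iff]
  refine ⟨⟨?_, ?_, ?_⟩, ?_⟩
  · intro h
    obtain ⟨g, hg⟩ := htrans α0 α
    have h1 : g * g0 * g⁻¹ ∈ MulAction.stabilizer G α := by
      rw [MulAction.mem_stabilizer_iff, ← hg, mul_smul, mul_smul, inv_smul_smul, hα0]
    rw [h, Subgroup.mem_bot] at h1
    apply hg0
    have h2 : g0 = g⁻¹ * (g * g0 * g⁻¹) * g := by group
    rw [h2, h1]
    group
  · intro h
    obtain ⟨β, hβ⟩ := Fintype.exists_ne_of_one_lt_card hΩ α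
    obtain ⟨g, hg⟩ := htrans α β
    have h1 : g ∈ MulAction.stabilizer G α := by rw [h]; trivial
    exact hβ (hg.symm.trans h1)
  · intro g hg
    rw [eq_bot_iff]
    intro x hx
    rw [Subgroup.mem_bot]
    by_contra hx1
    have h1 : x • α = α := (Subgroup.mem_inf.1 hx).1
    have h2 := (hmem _ _ _).1 (Subgroup.mem_inf.1 hx).2
    exact hg (hfix x hx1 _ _ h1 h2).symm
  · ext x
    constructor
    · rintro (h | h)
      · exact Or.inl h
      · right
        intro ω hω
        obtain ⟨g, hg⟩ := htrans α ω
        apply h g
        rw [hmem, hg, hω]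
    · rintro (h | h)
      · exact Or.inl h
      · right
        intro g hg
        rw [hmem] at hg
        exact h _ hg

end Cfsg.Agent.S4252
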