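import Mathlib
import Cfsg.Agent.H3.PBasic
import Cfsg.Statements.S4253

set_option autoImplicit false
open Cfsg

namespace Cfsg.Agent.S4253

open scoped Pointwise

/-- Let H be a Frobenius complement in a finite group G (a nontrivial proper subgroup meeting each conjugate gHg⁻¹ with g outside H trivially). Then in the action of G on the left cosets of H by left multiplication, no non-identity element of G fixes two distinct cosets. -/
theorem result {G : Type*} [Group G] [Finite G] (H : Subgroup G) (hH : Cfsg.IsFrobeniusComplement H)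
    (g : G) (hg : g ≠ 1) (a b : G ⧸ H) (ha : g • a = a) (hb : g • b = b) : a = b := by
  induction a using QuotientGroup.induction_on with
  | H x =>
  induction b using QuotientGroup.induction_on with
  | H y =>
  have h1 : ∀ z : G, g • (z : G ⧸ H) = z → z⁻¹ * g * z ∈ H := by
    intro z hz
    have hz' : ((g * z : G) : G ⧸ H) = (z : G ⧸ H) := hz
    have h3 := QuotientGroup.eq.1 hz'.symm
    rwa [← mul_assoc] at h3
  by_contra hne
  have hxy : x⁻¹ * y ∉ H := fun h => hne (QuotientGroup.eq.2 h)
  have h2 := hH.2.2 (x⁻¹ * y) hxy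
  have h3 : x⁻¹ * g * x ∈ H ⊓ (MulAut.conj (x⁻¹ * y) • H) := by
    refine Subgroup.mem_inf.2 ⟨h1 x ha, CfsgH3.mem_conj_smul_iff.2 ?_⟩
    have : (x⁻¹ * y)⁻¹ * (x⁻¹ * g * x) * (x⁻¹ * y) = y⁻¹ * g * y := by group
    rw [this]
    exact h1 y hb
  rw [h2, Subgroup.mem_bot] at h3
  apply hg
  have h4 : x * (x⁻¹ * g * x) * x⁻¹ = g := by group
  rw [← h4, h3]
  group

end Cfsg.Agent.S4253
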