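import Mathlib
import Cfsg.Agent.H3.Cores2
import Cfsg.Agent.H3.Inv
import Cfsg.Statements.S4260

set_option autoImplicit false
open Cfsg

namespace Cfsg.Agent.S4260

/-- Let H be a Hall subgroup of a finite group G (the order of H is coprime to its index) such that x^[G : H] lies in H for every x in G. Then H is normal in G. -/
theorem result {G : Type*} [Group G] [Finite G] (H : Subgroup G) (hHall : (Nat.card H).Coprime H.index)
    (hexp : ∀ x : G, x ^ H.index ∈ H) : H.Normal := by
  have h1 : ∀ x : G, x ∈ H ↔ (orderOf x).Coprime H.index := by
    intro x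
    constructor
    · intro hx
      refine Nat.Coprime.coprime_dvd_left ?_ hHall
      exact Subgroup.orderOf_dvd_natCard H hx
    · intro hx
      refine CfsgH3.mem_of_coprime_pow H (m := orderOf x) (n := H.index) ?_ (hexp x) hx
      rw [pow_orderOf_eq_one]
      exact H.one_mem
  constructor
  intro n hn g
  rw [h1, CfsgH3.orderOf_conj]
  exact (h1 n).1 hn

end Cfsg.Agent.S4260
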