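import Mathlib
import Cfsg.Agent.H3.Cores2
import Cfsg.Agent.H3.Inv
import Cfsg.Agent.H3.PBasic
import Cfsg.Agent.H3.MaxNil
import Cfsg.Agent.H3.PGroup
import Cfsg.Agent.H1.MinNormal
import Cfsg.Statements.S4261

set_option autoImplicit false
open Cfsg

namespace Cfsg.Agent.S4261

/-- Let M be a maximal subgroup of a finite solvable group G such that x^[G : M] lies in M for every x in G. Then M is normal in G. -/
theorem result {G : Type*} [Group G] [Finite G] (hG : Group.IsSolvable G) (M : Subgroup G) (hM : IsCoatom M)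
    (hexp : ∀ x : G, x ^ M.index ∈ M) : M.Normal := by
  classical
  haveI := hG
  -- index is a prime power
  have hidx : ∃ p : ℕ, p.Prime ∧ ∃ k, M.index ∣ p ^ k := by
    let K := M.normalCore
    have hKM : K ≤ M := Subgroup.normalCore_le M
    have hMK := CfsgH3.isCoatom_map_mk hKM hM
    haveI : Nontrivial (G ⧸ K) := by
      by_contra hnt
      rw [not_nontrivial_iff_subsingleton] at hnt
      exact hMK.1 (Subsingleton.elim _ _)
    obtain ⟨V, hVn, hV1, -, -, p, hp, -, hVp⟩ := CfsgH1.exists_minNormal_pgroup (G := G ⧸ K)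
    haveI := hVn
    haveI : Fact p.Prime := ⟨hp⟩
    have hVM : ¬ V ≤ M.map (QuotientGroup.mk' K) := by
      intro h
      have h1 : V.comap (QuotientGroup.mk' K) ≤ M := by
        have := Subgroup.comap_mono (f := QuotientGroup.mk' K) h
        rwa [Subgroup.comap_map_eq_self (by rw [QuotientGroup.ker_mk']; exact hKM)] at this
      have h2 : V.comap (QuotientGroup.mk' K) ≤ K := Subgroup.normal_le_normalCore.2 h1
      apply hV1
      rw [← Subgroup.map_comap_eq_self_of_surjective (QuotientGroup.mk'_surjective K) V, eq_bot_iff]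
      refine (Subgroup.map_mono h2).trans ?_
      rw [QuotientGroup.map_mk'_self]
    have htop : V ⊔ M.map (QuotientGroup.mk' K) = ⊤ := by
      apply hMK.2
      exact lt_of_le_of_ne le_sup_right (fun h => hVM (by rw [h]; exact le_sup_left))
    obtain ⟨n, hn⟩ := IsPGroup.iff_card.1 hVp
    refine ⟨p, hp, n, ?_⟩
    have h1 : M.index = (M.map (QuotientGroup.mk' K)).index := by
      rw [Subgroup.index_map_eq _ (QuotientGroup.mk'_surjective K) (by rw [QuotientGroup.ker_mk']; exact hKM)]
    rw [h1, ← hn]
    have h2 := CfsgH1.card_sup_mul_card_inf (H := M.map (QuotientGroup.mk' K)) (K := V)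
      (Subgroup.normalizer_eq_top_iff.2 hVn ▸ le_top)
    rw [sup_comm, htop, Subgroup.card_top, ← Subgroup.card_mul_index (M.map (QuotientGroup.mk' K)), mul_assoc] at h2
    have h3 := Nat.eq_of_mul_eq_mul_left Nat.card_pos h2
    exact ⟨_, h3.symm⟩
  obtain ⟨p, hp, k, hk⟩ := hidx
  haveI : Fact p.Prime := ⟨hp⟩
  have h1 : ∀ g : G, (orderOf g).Coprime p → g ∈ M := by
    intro g hg
    refine CfsgH3.mem_of_coprime_pow M (m := orderOf g) (n := M.index) ?_ (hexp g) ?_
    · rw [pow_orderOf_eq_one]; exact M.one_mem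
    · exact Nat.Coprime.coprime_dvd_right hk (hg.pow_right k)
  let N : Subgroup G := Subgroup.normalClosure {g : G | (orderOf g).Coprime p}
  have hNM : N ≤ M := by
    have h2 : N = Subgroup.closure {g : G | (orderOf g).Coprime p} := by
      change Subgroup.closure _ = _
      congr 1
      ext y
      rw [Group.mem_conjugatesOfSet_iff]
      constructor
      · rintro ⟨a, ha, hay⟩
        obtain ⟨c, hc⟩ := isConj_iff.1 hay
        rw [Set.mem_setOf_eq, ← hc, CfsgH3.orderOf_conj]
        exact ha
      · intro hy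
        exact ⟨y, hy, IsConj.refl y⟩
    rw [h2, Subgroup.closure_le]
    exact h1
  have hq : IsPGroup p (G ⧸ N) := CfsgH3.isPGroup_quotient_of_forall_mem N
    fun g hg => Subgroup.subset_normalClosure hg
  have h2 := CfsgH3.coatom_normal hq (CfsgH3.isCoatom_map_mk hNM hM)
  have h3 := h2.comap (QuotientGroup.mk' N)
  rwa [Subgroup.comap_map_eq_self (by rw [QuotientGroup.ker_mk']; exact hNM)] at h3

end Cfsg.Agent.S4261
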