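import Mathlib
import Cfsg.Agent.H3.NilNPC
import Cfsg.Statements.S4262

set_option autoImplicit false
open Cfsg

namespace Cfsg.Agent.S4262

open Subgroup CfsgH3

universe u
variable {G : Type u} [Group G]

theorem cent_le_of_comm [Finite G] (h : ∀ g : G, g ∉ Subgroup.center G → IsCoatom (Subgroup.centralizer ({g} : Set G)))
    {r : ℕ} [Fact r.Prime] {x y : G} (hx : x ∉ center G) (hxr : ∃ k, x ^ r ^ k = 1) (hxy : x * y = y * x)
    (hy : (orderOf y).Coprime r) : centralizer ({x} : Set G) ≤ centralizer ({y} : Set G) := by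
  obtain ⟨k, hk⟩ := hxr
  have hc : Commute x y := hxy
  have hox : orderOf x ∣ r ^ k := orderOf_dvd_of_pow_eq_one hk
  have hcop : (orderOf y).Coprime (orderOf x) := Nat.Coprime.coprime_dvd_right hox (Nat.Coprime.pow_right k hy)
  -- `x` is a power of `x * y`
  obtain ⟨j, hj⟩ := exists_pow_eq_self_of_coprime hcop
  have h1 : (x * y) ^ orderOf y = x ^ orderOf y := by rw [hc.mul_pow, pow_orderOf_eq_one, mul_one]
  have hxz : x = (x * y) ^ (orderOf y * j) := by rw [pow_mul, h1, hj]
  have hcx : centralizer ({x * y} : Set G) ≤ centralizer ({x} : Set G) := by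
    intro g hg
    rw [Subgroup.mem_centralizer_singleton_iff] at hg ⊢
    have hg' : Commute g (x * y) := hg
    have := hg'.pow_right (orderOf y * j)
    rw [← hxz] at this
    exact this.eq
  have hcy : centralizer ({x * y} : Set G) ≤ centralizer ({y} : Set G) := by
    intro g hg
    have hgx := hcx hg
    rw [Subgroup.mem_centralizer_singleton_iff] at hg hgx ⊢
    have e : y = x⁻¹ * (x * y) := by group
    have h2 : Commute g (x⁻¹ * (x * y)) := (Commute.inv_right hgx).mul_right hg
    rw [← e] at h2
    exact h2.eq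
  have hz : x * y ∉ center G := by
    intro hz
    apply hx
    rw [hxz]
    exact pow_mem hz _
  rcases (h _ hz).le_iff.1 hcx with h2 | h2
  · exact absurd h2 (h x hx).1
  · rw [h2]; exact hcy

theorem nilp [Finite G] (h : ∀ g : G, g ∉ Subgroup.center G → IsCoatom (Subgroup.centralizer ({g} : Set G)))
    {r : ℕ} [Fact r.Prime] {x : G} (hx : x ∉ center G) (hxr : ∃ k, x ^ r ^ k = 1) :
    Group.IsNilpotent (centralizer ({x} : Set G)) := by
  apply Group.of_quotient_center_nilpotent
  apply IsPGroup.isNilpotent (p := r)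
  intro q
  obtain ⟨m, rfl⟩ := QuotientGroup.mk_surjective q
  obtain ⟨a, ha, b, hb, hab, hcop, k, hk⟩ := exists_pPart (p := r) m (orderOf_pos _).ne'
  have hac : a ∈ center (centralizer ({x} : Set G)) := by
    rw [Subgroup.mem_center_iff]
    intro g
    have h1 := cent_le_of_comm h hx hxr (y := (a : G)) ((Subgroup.mem_centralizer_singleton_iff.1 a.2).symm)
      (by rw [Subgroup.orderOf_coe]; exact hcop) g.2
    apply Subtype.ext
    exact (Subgroup.mem_centralizer_singleton_iff.1 h1)
  refine ⟨k, ?_⟩
  rw [← QuotientGroup.mk_pow, QuotientGroup.eq_one_iff]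
  have hcomm : Commute a b := by
    obtain ⟨i, rfl⟩ := Subgroup.mem_zpowers_iff.1 ha
    obtain ⟨j, rfl⟩ := Subgroup.mem_zpowers_iff.1 hb
    exact (Commute.refl m).zpow_zpow i j
  rw [hab, hcomm.mul_pow, hk, mul_one]
  exact pow_mem hac _

theorem main_aux [Finite G] (h : ∀ g : G, g ∉ Subgroup.center G → IsCoatom (Subgroup.centralizer ({g} : Set G)))
    (hns : ¬ Group.IsSolvable G) {r : ℕ} [hr : Fact r.Prime] (hr2 : r ≠ 2) : HasNPC r G ∨ NormSyl r G := by
  by_contra hcon
  push Not at hcon
  obtain ⟨hnpc, hnsyl⟩ := hcon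
  by_cases hcase : ∀ S : Sylow r G, ∀ x ∈ (S : Subgroup G), (∀ s ∈ (S : Subgroup G), x * s = s * x) → x ∈ center G
  · apply hnsyl
    apply normSyl_of_forall
    intro x hxr
    by_cases hx : x ∈ center G
    · have hn : (zpowers x).Normal := by
        refine ⟨fun y hy g => ?_⟩
        obtain ⟨i, rfl⟩ := Subgroup.mem_zpowers_iff.1 hy
        have h1 := Subgroup.mem_center_iff.1 (zpow_mem hx i) g
        rw [h1, mul_inv_cancel_right]
        exact hy
      obtain ⟨k, hk⟩ := hxr
      have hp : IsPGroup r (zpowers x) := by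
        rintro ⟨y, hy⟩
        obtain ⟨i, rfl⟩ := Subgroup.mem_zpowers_iff.1 hy
        refine ⟨k, Subtype.ext ?_⟩
        change (x ^ i) ^ r ^ k = 1
        rw [← zpow_natCast, ← zpow_mul, mul_comm, zpow_mul, zpow_natCast, hk, one_zpow]
      exact CfsgH2.le_pCore hn hp (mem_zpowers x)
    have hM := h x hx
    set M := centralizer ({x} : Set G) with hMdef
    haveI hMnil : Group.IsNilpotent M := nilp h hx hxr
    obtain ⟨S0, hS0⟩ := CfsgH1.exists_isSylowOf r M
    obtain ⟨PM, hPM⟩ := hS0
    have hS0M : S0 ≤ M := by rw [← hPM]; exact Subgroup.map_subtype_le _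
    have hS0p : IsPGroup r S0 := by rw [← hPM]; exact PM.2.map _
    haveI hPMn : (PM : Subgroup M).Normal := inferInstance
    have hxM : x ∈ M := by
      rw [hMdef, Subgroup.mem_centralizer_singleton_iff]
    have hxS0 : x ∈ S0 := by
      obtain ⟨k, hk⟩ := hxr
      have hxc : (⟨x, hxM⟩ : M) ∈ center M := by
        rw [Subgroup.mem_center_iff]
        intro g
        apply Subtype.ext
        exact Subgroup.mem_centralizer_singleton_iff.1 g.2
      have hn : (zpowers (⟨x, hxM⟩ : M)).Normal := by
        refine ⟨fun y hy g => ?_⟩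
        obtain ⟨i, rfl⟩ := Subgroup.mem_zpowers_iff.1 hy
        have h1 := Subgroup.mem_center_iff.1 (zpow_mem hxc i) g
        rw [h1, mul_inv_cancel_right]
        exact hy
      have hp : IsPGroup r (zpowers (⟨x, hxM⟩ : M)) := by
        rintro ⟨y, hy⟩
        obtain ⟨i, rfl⟩ := Subgroup.mem_zpowers_iff.1 hy
        refine ⟨k, Subtype.ext (Subtype.ext ?_)⟩
        change (x ^ i) ^ r ^ k = 1
        rw [← zpow_natCast, ← zpow_mul, mul_comm, zpow_mul, zpow_natCast, hk, one_zpow]
      rw [← hPM]
      exact ⟨⟨x, hxM⟩, IsPGroup.le_sylow_of_normal hp PM (mem_zpowers _), rfl⟩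
    obtain ⟨T, hT⟩ := hS0p.exists_le_sylow
    have hne : S0 ≠ (T : Subgroup G) := by
      intro heq
      apply hx
      apply hcase T x (heq ▸ hxS0)
      intro s hs
      have : s ∈ M := hS0M (heq ▸ hs)
      exact (Subgroup.mem_centralizer_singleton_iff.1 this).symm
    have hlt : S0 < (T : Subgroup G) := lt_of_le_of_ne hT hne
    have hgrow := CfsgH7.lt_inf_normalizer T.2 hlt
    have hMn : M ≤ normalizer (S0 : Set G) := by
      intro m hm
      apply Subgroup.mem_normalizer_fintype
      intro s hs
      rw [← hPM] at hs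
      obtain ⟨s', hs', rfl⟩ := hs
      rw [← hPM]
      exact ⟨⟨m, hm⟩ * s' * ⟨m, hm⟩⁻¹, hPMn.conj_mem s' hs' _, rfl⟩
    rcases hM.le_iff.1 hMn with h1 | h1
    · have hn : S0.Normal := Subgroup.normalizer_eq_top_iff.1 h1
      exact CfsgH2.le_pCore hn hS0p hxS0
    · exfalso
      rw [h1] at hgrow
      have h2 : ((T : Subgroup G) ⊓ M).subgroupOf M = (PM : Subgroup M) := by
        apply PM.3
        · exact (T.2.to_le (inf_le_left : (T : Subgroup G) ⊓ M ≤ T)).comap_of_injective M.subtype M.subtype_injective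
        · intro y hy
          rw [Subgroup.mem_subgroupOf]
          refine hgrow.le ?_
          rw [← hPM]
          exact ⟨y, hy, rfl⟩
      have h3 : (T : Subgroup G) ⊓ M = S0 := by
        rw [← hPM, ← h2, Subgroup.map_subgroupOf_eq_of_le inf_le_right]
      exact hgrow.ne h3.symm
  · push Not at hcase
    obtain ⟨S, x, hxS, hxc, hx⟩ := hcase
    have hxr : ∃ k, x ^ r ^ k = 1 := exists_pow_eq_one_of_mem_sylow S hxS
    have hM := h x hx
    haveI hMnil : Group.IsNilpotent (centralizer ({x} : Set G)) := nilp h hx hxr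
    set M := centralizer ({x} : Set G) with hMdef
    have hSM : (S : Subgroup G) ≤ M := by
      intro s hs
      rw [hMdef, Subgroup.mem_centralizer_singleton_iff]
      exact (hxc s hs).symm
    have hMn : M ≤ normalizer ((S : Subgroup G) : Set G) := by
      intro m hm
      apply Subgroup.mem_normalizer_fintype
      intro s hs
      have hn : (S.subtype hSM : Subgroup M).Normal := inferInstance
      have h1 := hn.conj_mem ⟨s, hSM hs⟩ (by
        rw [Sylow.coe_subtype, Subgroup.mem_subgroupOf]; exact hs) ⟨m, hm⟩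
      rw [Sylow.coe_subtype, Subgroup.mem_subgroupOf] at h1
      exact h1
    have hxZ : x ∈ ZZ (S : Subgroup G) := by
      refine Subgroup.mem_inf.2 ⟨hxS, ?_⟩
      rw [Subgroup.mem_centralizer_iff]
      intro s hs
      exact (hxc s hs).symm
    have hCZ : centralizer (ZZ (S : Subgroup G) : Set G) ≤ M := by
      intro g hg
      rw [hMdef, Subgroup.mem_centralizer_singleton_iff]
      exact (Subgroup.mem_centralizer_iff.1 hg x hxZ).symm
    have hMNPC : HasNPC r M := hasNPC_of_isNilpotent
    rcases hM.le_iff.1 (hMn.trans (normalizer_le_JJ (e := 0) (S : Subgroup G))) with h1 | h1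
    · haveI hJn : (JJ 0 (S : Subgroup G)).Normal := Subgroup.normalizer_eq_top_iff.1 h1
      set V := ZZ (JJ 0 (S : Subgroup G)) with hV
      haveI hVn : V.Normal := ZZ_normal
      have hxV : x ∈ V := by
        refine Subgroup.mem_inf.2 ⟨ZZ_le_JJ _ hxZ, ?_⟩
        rw [Subgroup.mem_centralizer_iff]
        intro s hs
        exact (hxc s (JJ_le _ hs)).symm
      have hVc : ∀ v ∈ V, ∀ w ∈ V, v * w = w * v := by
        intro v hv w hw
        exact Subgroup.mem_centralizer_iff.1 (Subgroup.mem_inf.1 hw).2 v (Subgroup.mem_inf.1 hv).1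
      have hVM : V ≤ M := by
        intro v hv
        rw [hMdef, Subgroup.mem_centralizer_singleton_iff]
        exact hVc v hv x hxV
      have hCM : centralizer (V : Set G) ≤ M := by
        intro g hg
        rw [hMdef, Subgroup.mem_centralizer_singleton_iff]
        exact (Subgroup.mem_centralizer_iff.1 hg x hxV).symm
      have hCs : Group.IsSolvable (centralizer (V : Set G)) :=
        CfsgH1.isSolvable_of_le (CfsgH1.isNilpotent_isSolvable hMnil) hCM
      have hMp : IsPGroup r (M.map (QuotientGroup.mk' (centralizer (V : Set G)))) := by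
        rintro ⟨_, m, hm, rfl⟩
        obtain ⟨a, ha, b, hb, hab, hcop, k, hk⟩ := exists_pPart (p := r) m (orderOf_pos _).ne'
        have haM : a ∈ M := by obtain ⟨i, rfl⟩ := Subgroup.mem_zpowers_iff.1 ha; exact zpow_mem hm i
        have haC : a ∈ centralizer (V : Set G) := by
          rw [Subgroup.mem_centralizer_iff]
          intro v hv
          have h2 := cent_le_of_comm h hx hxr (y := a) ((Subgroup.mem_centralizer_singleton_iff.1 haM).symm) hcop (hVM hv)
          exact Subgroup.mem_centralizer_singleton_iff.1 h2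
        have hcomm : Commute a b := by
          obtain ⟨i, rfl⟩ := Subgroup.mem_zpowers_iff.1 ha
          obtain ⟨j, rfl⟩ := Subgroup.mem_zpowers_iff.1 hb
          exact (Commute.refl m).zpow_zpow i j
        refine ⟨k, Subtype.ext ?_⟩
        change (QuotientGroup.mk' (centralizer (V : Set G)) m) ^ r ^ k = 1
        rw [← map_pow, hab, hcomm.mul_pow, hk, mul_one]
        exact (QuotientGroup.eq_one_iff _).2 (pow_mem haC _)
      have hQ := isSolvable_of_pgroup_isCoatom hr2 (isCoatom_map_mk hCM hM) hMp
      exact hns (CfsgH1.isSolvable_of_normal_quotient _ hCs hQ)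
    · apply hnpc
      apply thompson_npc hr2 (e := 0) (Or.inl rfl) S
      · rw [h1]; exact hMNPC
      · exact hMNPC.le hCZ

/-- Let G be a finite group in which the centralizer of every non-central element is a maximal subgroup of G. Then G is solvable. -/
theorem result {G : Type*} [Group G] [Finite G]
    (h : ∀ g : G, g ∉ Subgroup.center G → IsCoatom (Subgroup.centralizer ({g} : Set G))) :
    Group.IsSolvable G := by
  by_contra hns
  apply hns
  apply CfsgH3.isSolvable_of_each
  intro r hr hr2
  haveI : Fact r.Prime := ⟨hr⟩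
  exact main_aux h hns hr2

end Cfsg.Agent.S4262
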