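import Mathlib
import Cfsg.Agent.H3.Cores2
import Cfsg.Statements.S4263

set_option autoImplicit false
open Cfsg

namespace Cfsg.Agent.S4263

/-- Let G be a finite group. An element x lies in the Fitting subgroup F(G) if and only if, for every subgroup H of G, the power x^[G : H] lies in H. -/
theorem result {G : Type*} [Group G] [Finite G] (x : G) :
    x ∈ Cfsg.fittingSubgroup G ↔ ∀ H : Subgroup G, x ^ H.index ∈ H := by
  haveI hFn : (Cfsg.fittingSubgroup G).Normal := inferInstance
  constructor
  · intro hx H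
    have hnil := CfsgH2.isNilpotent_fittingSubgroup (G := G)
    have hsub := CfsgH2.isSubnormal_of_isNilpotent (H.subgroupOf (Cfsg.fittingSubgroup G))
    have h1 := CfsgH3.pow_index_mem_of_isSubnormal hsub ⟨x, hx⟩
    have h2 : x ^ (H.relIndex (Cfsg.fittingSubgroup G)) ∈ H := h1
    obtain ⟨k, hk⟩ := CfsgH3.relIndex_dvd_index_of_normal_right H (Cfsg.fittingSubgroup G)
    rw [hk, pow_mul]
    exact pow_mem h2 k
  · intro h
    apply CfsgH3.mem_of_forall_pPart
    intro q hq b hb hk
    haveI : Fact q.Prime := ⟨hq⟩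
    apply CfsgH2.pCore_le_fittingSubgroup q
    apply CfsgH3.mem_pCore_of_forall
    intro P
    obtain ⟨k, hk⟩ := hk
    obtain ⟨j, rfl⟩ := Subgroup.mem_zpowers_iff.1 hb
    have h1 : (x ^ j) ^ (P : Subgroup G).index ∈ (P : Subgroup G) := by
      rw [← zpow_natCast, ← zpow_mul, mul_comm, zpow_mul, zpow_natCast]
      exact zpow_mem (h P) j
    apply CfsgH3.mem_of_coprime_pow (P : Subgroup G) h1 (by rw [hk]; exact one_mem _)
    apply Nat.Coprime.pow_right
    exact ((Nat.Prime.coprime_iff_not_dvd hq).2 P.not_dvd_index).symm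

end Cfsg.Agent.S4263
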