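import Mathlib
import Cfsg.Agent.H1.Basic
import Cfsg.Agent.H3.Fusion
import Cfsg.Statements.S4269

set_option autoImplicit false
open Cfsg

namespace Cfsg.Agent.S4269

open Subgroup CfsgH1
open scoped Pointwise commutatorElement

theorem conj_mul_of_mem {G : Type*} [Group G] {H : Subgroup G} {a h : G} (hh : h ∈ H) : MulAut.conj (a * h) • H = MulAut.conj a • H := by
  rw [map_mul, mul_smul, conj_smul_of_mem hh]

def wSub {G : Type*} [Group G] (V H U : Subgroup G) [hVn : V.Normal] (hVc : ∀ x ∈ V, ∀ y ∈ V, x * y = y * x) : Subgroup G where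
  carrier := {w | w ∈ V ∧ ∀ h ∈ H, h * w * h⁻¹ * w⁻¹ ∈ U}
  one_mem' := ⟨V.one_mem, fun h _ => by
    have : h * 1 * h⁻¹ * (1 : G)⁻¹ = 1 := by group
    rw [this]; exact U.one_mem⟩
  mul_mem' := by
    rintro a b ⟨ha, ha'⟩ ⟨hb, hb'⟩
    refine ⟨V.mul_mem ha hb, fun h hh => ?_⟩
    have e : h * (a * b) * h⁻¹ * (a * b)⁻¹ = (h * a * h⁻¹ * a⁻¹) * (h * b * h⁻¹ * b⁻¹) := by
      have hk : h * b * h⁻¹ * b⁻¹ ∈ V := V.mul_mem (hVn.conj_mem b hb h) (V.inv_mem hb)
      have h1 := hVc a ha _ hk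
      calc h * (a * b) * h⁻¹ * (a * b)⁻¹ = (h * a * h⁻¹) * ((h * b * h⁻¹ * b⁻¹) * a⁻¹) := by group
        _ = (h * a * h⁻¹) * (a⁻¹ * (a * (h * b * h⁻¹ * b⁻¹)) * a⁻¹) := by group
        _ = (h * a * h⁻¹) * (a⁻¹ * ((h * b * h⁻¹ * b⁻¹) * a) * a⁻¹) := by rw [h1]
        _ = _ := by group
    rw [e]
    exact U.mul_mem (ha' h hh) (hb' h hh)
  inv_mem' := by
    rintro a ⟨ha, ha'⟩
    refine ⟨V.inv_mem ha, fun h hh => ?_⟩
    have e : h * a⁻¹ * h⁻¹ * a⁻¹⁻¹ = (h * a * h⁻¹ * a⁻¹)⁻¹ := by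
      have h1 := hVc a ha _ (hVn.conj_mem a⁻¹ (V.inv_mem ha) h)
      calc h * a⁻¹ * h⁻¹ * a⁻¹⁻¹ = (h * a⁻¹ * h⁻¹) * a := by group
        _ = a * (h * a⁻¹ * h⁻¹) := h1.symm
        _ = _ := by group
    rw [e]
    exact U.inv_mem (ha' h hh)

/-- Let G be a finite group, V an abelian normal subgroup and H a subgroup with HV = G. Then H is pronormal in G (H and gHg⁻¹ are conjugate inside the subgroup they generate, for every g) if and only if every H-invariant subgroup U of V satisfies U = N_U(H)·[H, U], that is, U is the join of U ∩ N_G(H) and the commutator subgroup [H, U]. -/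
theorem result {G : Type*} [Group G] [Finite G]
    (V : Subgroup G) [V.Normal] (hV : IsMulCommutative ↥V) (H : Subgroup G) (hHV : H ⊔ V = ⊤) :
    Cfsg.IsPronormal H ↔
      ∀ U : Subgroup G, U ≤ V → (∀ h ∈ H, U.map (MulAut.conj h).toMonoidHom = U) →
        U = (U ⊓ Subgroup.normalizer (H : Set G)) ⊔ ⁅H, U⁆ := by
  have hVc : ∀ x ∈ V, ∀ y ∈ V, x * y = y * x := fun x hx y hy => congrArg Subtype.val (hV.is_comm.comm (⟨x, hx⟩ : V) ⟨y, hy⟩)
  have hVn : V.Normal := inferInstance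
  constructor
  · intro hpro U hUV hUH
    have hHU : H ≤ normalizer (U : Set G) := fun h hh => conj_smul_eq_self_iff.1 (hUH h hh)
    have hcU : ⁅H, U⁆ ≤ U := by
      rw [Subgroup.commutator_le]
      intro h hh u hu
      rw [commutatorElement_def]
      exact U.mul_mem ((mem_normalizer_iff.1 (hHU hh) u).1 hu) (U.inv_mem hu)
    apply le_antisymm
    · intro u hu
      obtain ⟨x, hx, hxH⟩ := hpro u
      have hxH' : MulAut.conj u • H = MulAut.conj x • H := hxH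
      have hHn : H ≤ normalizer ((⁅H, U⁆ : Subgroup G) : Set G) := Subgroup.normalizer_commutator_ge_left _ _
      have hle : H ⊔ MulAut.conj u • H ≤ H ⊔ ⁅H, U⁆ := by
        refine sup_le le_sup_left ?_
        intro y hy
        rw [mem_conj_smul] at hy
        have e : y = (u⁻¹ * y * u) * ((u⁻¹ * y * u)⁻¹ * u * (u⁻¹ * y * u)⁻¹⁻¹ * u⁻¹) := by group
        rw [e]
        exact Subgroup.mul_mem_sup hy (Subgroup.commutator_mem_commutator (H.inv_mem hy) hu)
      obtain ⟨y, hy, z, hz, hyz⟩ := CfsgH3.mem_sup_of_le_normalizer hHn (hle hx)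
      have hc : y * z * y⁻¹ ∈ ⁅H, U⁆ := (mem_normalizer_iff.1 (hHn hy) z).1 hz
      set c := y * z * y⁻¹ with hcdef
      have hxc : x = c * y := by rw [hyz, hcdef]; group
      have h1 : MulAut.conj u • H = MulAut.conj c • H := by rw [hxH', hxc, conj_mul_of_mem hy]
      have h2 : c⁻¹ * u ∈ normalizer (H : Set G) := by
        rw [← conj_smul_eq_self_iff, map_mul, mul_smul, h1, ← mul_smul, ← map_mul, inv_mul_cancel, map_one, one_smul]
      have e : u = (c⁻¹ * u) * ((c⁻¹ * u)⁻¹ * c * (c⁻¹ * u)) := by group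
      have e2 : (c⁻¹ * u)⁻¹ * c * (c⁻¹ * u) = c := by
        have hcV := hUV (hcU hc)
        have huV := hUV hu
        have h3 := hVc c hcV u huV
        calc (c⁻¹ * u)⁻¹ * c * (c⁻¹ * u) = u⁻¹ * (c * u) := by group
          _ = u⁻¹ * (u * c) := by rw [h3]
          _ = c := by group
      rw [e2] at e
      rw [e]
      exact Subgroup.mul_mem_sup ⟨U.mul_mem (U.inv_mem (hcU hc)) hu, h2⟩ hc
    · exact sup_le inf_le_left hcU
  · intro hU g
    have hg : g ∈ V ⊔ H := by rw [sup_comm, hHV]; trivial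
    obtain ⟨v, hv, h₁, hh₁, rfl⟩ := Subgroup.mem_sup_of_normal_left.1 hg
    have hconj : H.map (MulAut.conj (v * h₁)).toMonoidHom = MulAut.conj v • H := conj_mul_of_mem hh₁
    rw [hconj]
    set J := H ⊔ MulAut.conj v • H with hJ
    let U := J ⊓ V
    have hHJ : H ≤ J := le_sup_left
    have hUH : ∀ h ∈ H, ∀ u ∈ U, h * u * h⁻¹ ∈ U := fun h hh u hu => 
      ⟨J.mul_mem (J.mul_mem (hHJ hh) hu.1) (J.inv_mem (hHJ hh)), hVn.conj_mem u hu.2 h⟩
    let W := wSub V H U hVc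
    have hvW : v ∈ W := by
      refine ⟨hv, fun h hh => ⟨?_, V.mul_mem (hVn.conj_mem v hv h) (V.inv_mem hv)⟩⟩
      have e : h * v * h⁻¹ * v⁻¹ = h * (v * h⁻¹ * v⁻¹) := by group
      rw [e]
      refine J.mul_mem (hHJ hh) (?_ : v * h⁻¹ * v⁻¹ ∈ J)
      apply (le_sup_right : MulAut.conj v • H ≤ J)
      rw [mem_conj_smul]
      have e : v⁻¹ * (v * h⁻¹ * v⁻¹) * v = h⁻¹ := by group
      rw [e]; exact H.inv_mem hh
    have hWH : ∀ h ∈ H, ∀ w ∈ W, h * w * h⁻¹ ∈ W := by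
      rintro h₀ hh₀ w ⟨hw, hw'⟩
      refine ⟨hVn.conj_mem w hw h₀, fun h hh => ?_⟩
      have e : h * (h₀ * w * h₀⁻¹) * h⁻¹ * (h₀ * w * h₀⁻¹)⁻¹ = h₀ * ((h₀⁻¹ * h * h₀) * w * (h₀⁻¹ * h * h₀)⁻¹ * w⁻¹) * h₀⁻¹ := by group
      rw [e]
      exact hUH h₀ hh₀ _ (hw' _ (H.mul_mem (H.mul_mem (H.inv_mem hh₀) hh) hh₀))
    have hW := hU W (fun w hw => hw.1) (by
      intro h hh
      apply le_antisymm
      · rintro _ ⟨w, hw, rfl⟩
        exact hWH h hh w hw
      · intro w hw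
        refine ⟨h⁻¹ * w * h⁻¹⁻¹, hWH h⁻¹ (H.inv_mem hh) w hw, ?_⟩
        show h * (h⁻¹ * w * h⁻¹⁻¹) * h⁻¹ = w
        group)
    have hvW' := hvW
    rw [hW] at hvW'
    have hle : (W ⊓ normalizer (H : Set G)) ⊔ ⁅H, W⁆ ≤ (W ⊓ normalizer (H : Set G)) ⊔ U := by
      refine sup_le_sup_left ?_ _
      rw [Subgroup.commutator_le]
      intro h hh w hw
      exact hw.2 h hh
    have hn : (W ⊓ normalizer (H : Set G)) ≤ normalizer (U : Set G) := by
      intro w hw
      rw [mem_normalizer_iff]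
      intro u
      have hcw : ∀ u ∈ V, w * u * w⁻¹ = u := by
        intro u hu
        rw [hVc w hw.1.1 u hu]; group
      constructor
      · intro hu
        rw [hcw u hu.2]; exact hu
      · intro hu
        have h3 : u ∈ V := by
          have := hVn.conj_mem _ hu.2 w⁻¹
          have e : w⁻¹ * (w * u * w⁻¹) * w⁻¹⁻¹ = u := by group
          rwa [e] at this
        rwa [hcw u h3] at hu
    obtain ⟨n, hnn, u, hu, hvnu⟩ := CfsgH3.mem_sup_of_le_normalizer hn (hle hvW')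
    refine ⟨u, hu.1, ?_⟩
    show MulAut.conj v • H = MulAut.conj u • H
    have e : v = u * n := by rw [hvnu]; exact hVc n hnn.1.1 u hu.2
    rw [e, map_mul, mul_smul, conj_smul_eq_self_iff.2 hnn.2]

end Cfsg.Agent.S4269
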