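import Mathlib
import Cfsg.Agent.H2.Fitting
import Cfsg.Agent.H3.PCentral
import Cfsg.Agent.H1.Syl
import Cfsg.Statements.S4331

set_option autoImplicit false
open Cfsg

namespace Cfsg.Agent.S4331

open Subgroup

theorem nilp_range {G : Type*} [Group G] [Finite G] (v : G) (T : Subgroup G) (hT : Group.IsNilpotent T)
    (hvT : ∀ t ∈ T, t * v = v * t) : ∃ L : Subgroup G, Group.IsNilpotent L ∧ v ∈ L ∧ T ≤ L := by
  let f : (zpowers v) × T →* G := 
    { toFun := fun t => t.1 * t.2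
      map_one' := by simp
      map_mul' := by
        rintro ⟨⟨x, hx⟩, ⟨h, hh⟩⟩ ⟨⟨x', hx'⟩, ⟨h', hh'⟩⟩
        obtain ⟨i, rfl⟩ := mem_zpowers_iff.1 hx'
        have h1 : Commute h (v ^ i) := (show Commute h v from hvT h hh).zpow_right i
        change (x * v ^ i) * (h * h') = (x * h) * (v ^ i * h')
        calc (x * v ^ i) * (h * h') = x * (v ^ i * h) * h' := by group
          _ = x * (h * v ^ i) * h' := by rw [h1.eq]
          _ = _ := by group }
  haveI : Group.IsNilpotent (zpowers v) := by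
    letI : CommGroup (zpowers v) := { (inferInstance : Group (zpowers v)) with 
      mul_comm := by
        rintro ⟨x, hx⟩ ⟨y, hy⟩
        obtain ⟨i, rfl⟩ := mem_zpowers_iff.1 hx
        obtain ⟨j, rfl⟩ := mem_zpowers_iff.1 hy
        exact Subtype.ext (zpow_mul_comm v i j) }
    exact CommGroup.isNilpotent
  haveI : Group.IsNilpotent ((zpowers v) × T) := inferInstance
  refine ⟨f.range, Group.nilpotent_of_surjective f.rangeRestrict f.rangeRestrict_surjective, ?_, ?_⟩
  · exact ⟨(⟨v, mem_zpowers v⟩, 1), by simp [f]⟩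
  · intro t ht
    exact ⟨(1, ⟨t, ht⟩), by simp [f]⟩

theorem key {G : Type*} [Group G] [Finite G] (V : Subgroup G) [hV : V.Normal] (hVodd : Odd (Nat.card V)) {k : ℕ} (hk : V.index = 2 ^ k)
    (a : G) (ha : a * a = 1) (h : ∀ v ∈ V, ∃ x : G, (x * v * x⁻¹) * a = a * (x * v * x⁻¹)) (c : G) :
    ∃ g : G, IsConj c g ∧ ((zpowers a).subgroupOf (zpowers a ⊔ Subgroup.zpowers g)).IsSubnormal := by
  haveI : Fact (Nat.Prime 2) := ⟨Nat.prime_two⟩
  have hcV : c ^ (2 ^ k) ∈ V := by rw [← hk]; exact V.pow_index_mem c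
  obtain ⟨u, q, huq⟩ : ∃ u q : ℤ, u * ((2 ^ k : ℕ) : ℤ) + q * (Nat.card V : ℤ) = 1 := by
    have : IsCoprime ((2 ^ k : ℕ) : ℤ) (Nat.card V : ℤ) := by
      rw [Nat.isCoprime_iff_coprime]
      exact Nat.Coprime.pow_left k ((Nat.coprime_two_left).2 hVodd)
    obtain ⟨u, q, h⟩ := this
    exact ⟨u, q, h⟩
  obtain ⟨c1, hc1⟩ : ∃ c1, c1 = (c ^ (2 ^ k)) ^ u := ⟨_, rfl⟩
  obtain ⟨c2, hc2⟩ : ∃ c2, c2 = c ^ (q * (Nat.card V : ℤ)) := ⟨_, rfl⟩
  have hc12 : c1 * c2 = c := by
    rw [hc1, hc2, ← zpow_natCast, ← zpow_mul, ← zpow_add]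
    conv_rhs => rw [← zpow_one c]
    congr 1
    linarith
  have hcomm : c1 * c2 = c2 * c1 := by
    rw [hc1, hc2, ← zpow_natCast, ← zpow_mul]
    exact zpow_mul_comm c _ _
  have hc1V : c1 ∈ V := by rw [hc1]; exact V.zpow_mem hcV u
  have hc2k : c2 ^ (2 ^ k) = 1 := by
    have h1 : c2 ^ (2 ^ k) = ((c ^ (2 ^ k)) ^ (Nat.card V)) ^ q := by
      rw [hc2, ← zpow_natCast, ← zpow_natCast, ← zpow_natCast, ← zpow_mul, ← zpow_mul, ← zpow_mul]
      congr 1
      ring
    have h2 : (c ^ (2 ^ k)) ^ (Nat.card V) = 1 := by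
      have := pow_card_eq_one' (x := (⟨_, hcV⟩ : V))
      exact congrArg (Subtype.val : V → G) this
    rw [h1, h2, one_zpow]
  obtain ⟨x, hx⟩ := h c1 hc1V
  obtain ⟨v, hv⟩ : ∃ v, v = x * c1 * x⁻¹ := ⟨_, rfl⟩
  obtain ⟨s, hs⟩ : ∃ s, s = x * c2 * x⁻¹ := ⟨_, rfl⟩
  rw [← hv] at hx
  have hvs : v * s = s * v := by
    rw [hv, hs]
    calc x * c1 * x⁻¹ * (x * c2 * x⁻¹) = x * (c1 * c2) * x⁻¹ := by group
      _ = x * (c2 * c1) * x⁻¹ := by rw [hcomm]
      _ = _ := by group
  set C := centralizer ({v} : Set G) with hC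
  have haC : a ∈ C := mem_centralizer_singleton_iff.2 hx.symm
  have hsC : s ∈ C := mem_centralizer_singleton_iff.2 hvs.symm
  have hap : IsPGroup 2 (zpowers (⟨a, haC⟩ : C)) := by
    rw [IsPGroup.iff_card]
    have h1 : orderOf (⟨a, haC⟩ : C) ∣ 2 ^ 1 := by
      apply orderOf_dvd_of_pow_eq_one
      apply Subtype.ext
      change a ^ (2 ^ 1) = 1
      rw [pow_one, pow_two, ha]
    obtain ⟨j, -, hj⟩ := (Nat.dvd_prime_pow Nat.prime_two).1 h1
    exact ⟨j, by rw [Nat.card_zpowers, hj]⟩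
  have hsp : IsPGroup 2 (zpowers (⟨s, hsC⟩ : C)) := by
    rw [IsPGroup.iff_card]
    have h1 : orderOf (⟨s, hsC⟩ : C) ∣ 2 ^ k := by
      apply orderOf_dvd_of_pow_eq_one
      apply Subtype.ext
      change s ^ (2 ^ k) = 1
      rw [hs, conj_pow, hc2k, mul_one, mul_inv_cancel]
    obtain ⟨j, -, hj⟩ := (Nat.dvd_prime_pow Nat.prime_two).1 h1
    exact ⟨j, by rw [Nat.card_zpowers, hj]⟩
  obtain ⟨T, hT⟩ := hap.exists_le_sylow
  obtain ⟨T', hT'⟩ := hsp.exists_le_sylow
  obtain ⟨y, hy⟩ := MulAction.exists_smul_eq C T' T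
  have haT : (⟨a, haC⟩ : C) ∈ T := hT (mem_zpowers _)
  have hsT : y * ⟨s, hsC⟩ * y⁻¹ ∈ T := by
    rw [← hy]
    have h1 : (⟨s, hsC⟩ : C) ∈ T' := hT' (mem_zpowers _)
    exact Subgroup.smul_mem_pointwise_smul _ (MulAut.conj y) _ h1
  have hyv : (y : G) * v = v * y := mem_centralizer_singleton_iff.1 y.2
  refine ⟨v * ((y : G) * s * (y : G)⁻¹), ?_, ?_⟩
  · rw [isConj_iff]
    refine ⟨y * x, ?_⟩
    calc (y : G) * x * c * ((y : G) * x)⁻¹ = y * (x * (c1 * c2) * x⁻¹) * (y : G)⁻¹ := by rw [hc12]; group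
      _ = (y * v) * s * (y : G)⁻¹ := by rw [hv, hs]; group
      _ = v * (y * s * (y : G)⁻¹) := by rw [hyv]; group
  · haveI : Group.IsNilpotent T := T.2.isNilpotent
    haveI : Group.IsNilpotent ((T : Subgroup C).map C.subtype) := 
      Group.nilpotent_of_mulEquiv ((T : Subgroup C).equivMapOfInjective C.subtype C.subtype_injective)
    obtain ⟨L, hL, hvL, hTL⟩ := nilp_range v ((T : Subgroup C).map C.subtype) inferInstance (by
      rintro _ ⟨t, _, rfl⟩
      exact mem_centralizer_singleton_iff.1 t.2)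
    have hle : zpowers a ⊔ zpowers (v * ((y : G) * s * (y : G)⁻¹)) ≤ L := by
      refine sup_le ?_ ?_
      · rw [zpowers_le]
        exact hTL ⟨_, haT, rfl⟩
      · rw [zpowers_le]
        exact L.mul_mem hvL (hTL ⟨_, hsT, rfl⟩)
    haveI : Group.IsNilpotent ↥(zpowers a ⊔ zpowers (v * ((y : G) * s * (y : G)⁻¹))) := 
      CfsgH1.isNilpotent_of_le hL hle
    exact CfsgH2.isSubnormal_of_isNilpotent _

abbrev VV := Multiplicative (ZMod 3 × ZMod 3)

def Mf : MulAut VV where
  toFun x := Multiplicative.ofAdd (x.toAdd.1 + x.toAdd.2, 2 * x.toAdd.1 + x.toAdd.2)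
  invFun x := Multiplicative.ofAdd (2 * x.toAdd.1 + x.toAdd.2, 2 * x.toAdd.1 + 2 * x.toAdd.2)
  left_inv := by decide
  right_inv := by decide
  map_mul' := by decide

def Rf : MulAut VV where
  toFun x := Multiplicative.ofAdd (x.toAdd.1, 2 * x.toAdd.2)
  invFun x := Multiplicative.ofAdd (x.toAdd.1, 2 * x.toAdd.2)
  left_inv := by decide
  right_inv := by decide
  map_mul' := by decide

theorem M8 : Mf ^ 8 = 1 := by
  ext x : 1
  revert x
  decide

theorem R2 : Rf * Rf = 1 := by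
  ext x : 1
  revert x
  decide

theorem RMR : Rf * Mf * Rf⁻¹ = Mf ^ 3 := by
  ext x : 1
  revert x
  decide

def HH : Subgroup (MulAut VV) := zpowers Rf ⊔ zpowers Mf

theorem HH2 : IsPGroup 2 HH := by
  haveI : Fact (Nat.Prime 2) := ⟨Nat.prime_two⟩
  have h1 : IsPGroup 2 (zpowers Rf) := by
    rw [IsPGroup.iff_card]
    have h1 : orderOf Rf ∣ 2 ^ 1 := by
      apply orderOf_dvd_of_pow_eq_one
      rw [pow_one, pow_two, R2]
    obtain ⟨j, -, hj⟩ := (Nat.dvd_prime_pow Nat.prime_two).1 h1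
    exact ⟨j, by rw [Nat.card_zpowers, hj]⟩
  have h2 : IsPGroup 2 (zpowers Mf) := by
    rw [IsPGroup.iff_card]
    have h1 : orderOf Mf ∣ 2 ^ 3 := by
      apply orderOf_dvd_of_pow_eq_one
      have := M8
      norm_num at this ⊢
      exact this
    obtain ⟨j, -, hj⟩ := (Nat.dvd_prime_pow Nat.prime_two).1 h1
    exact ⟨j, by rw [Nat.card_zpowers, hj]⟩
  have h3 : zpowers Rf ≤ normalizer (zpowers Mf : Set (MulAut VV)) := by
    rw [zpowers_le, mem_normalizer_iff]
    have key : ∀ i : ℤ, Rf * Mf ^ i * Rf⁻¹ = Mf ^ (3 * i) := by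
      intro i
      rw [← conj_zpow, RMR, zpow_mul]
      norm_cast
    have hinv : Rf⁻¹ = Rf := inv_eq_of_mul_eq_one_left R2
    have hh : ∀ g ∈ zpowers Mf, Rf * g * Rf⁻¹ ∈ zpowers Mf := by
      intro g hg
      obtain ⟨i, rfl⟩ := mem_zpowers_iff.1 hg
      rw [key]; exact zpow_mem_zpowers _ _
    intro g
    refine ⟨hh g, fun hg => ?_⟩
    have h5 := hh _ hg
    have e : Rf * (Rf * g * Rf⁻¹) * Rf⁻¹ = (Rf * Rf) * g * (Rf * Rf)⁻¹ := by group
    rw [e, R2] at h5
    simpa using h5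
  exact IsPGroup.to_sup_of_normal_right' h1 h2 h3

theorem trans_all (x : VV) : x = 1 ∨ ∃ i : Fin 8, (Mf ^ (i : ℕ)) x = Multiplicative.ofAdd (1, 0) := by
  revert x
  decide

/-- There is a finite solvable group G with a subgroup A of order 2 such that every conjugacy class of G contains an element g for which A is subnormal in the subgroup generated by A and g, and yet A is not contained in O_2(G). (So the corresponding criteria for odd primes fail at the prime 2, even for solvable groups.) -/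
theorem result :
    ∃ (G : Type) (_ : Group G) (_ : Finite G) (A : Subgroup G), Group.IsSolvable G ∧ Nat.card A = 2 ∧
      (∀ c : G, ∃ g : G, IsConj c g ∧ (A.subgroupOf (A ⊔ Subgroup.zpowers g)).IsSubnormal) ∧
      ¬ A ≤ Cfsg.pCore 2 G := by
  haveI : Fact (Nat.Prime 2) := ⟨Nat.prime_two⟩
  let G := VV ⋊[HH.subtype] HH
  have hRH : Rf ∈ HH := Subgroup.mem_sup_left (mem_zpowers _)
  have hMH : Mf ∈ HH := Subgroup.mem_sup_right (mem_zpowers _)
  haveI : Finite (MulAut VV) := inferInstance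
  haveI : Finite G := Finite.of_equiv _ (SemidirectProduct.equivProd).symm
  let a : G := SemidirectProduct.inr ⟨Rf, hRH⟩
  have ha : a * a = 1 := by
    change (SemidirectProduct.inr (⟨Rf, hRH⟩ : HH) : G) * SemidirectProduct.inr (⟨Rf, hRH⟩ : HH) = 1
    rw [← map_mul]
    have : (⟨Rf, hRH⟩ : HH) * ⟨Rf, hRH⟩ = 1 := Subtype.ext R2
    rw [this, map_one]
  have ha1 : a ≠ 1 := by
    intro h
    have h1 := congrArg (fun g : G => ((g.right : HH) : MulAut VV) (Multiplicative.ofAdd (0, 1))) h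
    revert h1
    change Rf (Multiplicative.ofAdd (0, 1)) = (1 : MulAut VV) (Multiplicative.ofAdd (0, 1)) → False
    decide
  let V : Subgroup G := (SemidirectProduct.rightHom (φ := HH.subtype)).ker
  have hVcard : Nat.card V = 9 := by
    have h1 : V = (SemidirectProduct.inl (φ := HH.subtype)).range := SemidirectProduct.range_inl_eq_ker_rightHom.symm
    rw [h1]
    have h2 := Nat.card_congr (MonoidHom.ofInjective (SemidirectProduct.inl_injective (φ := HH.subtype))).toEquiv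
    rw [← h2, Nat.card_eq_fintype_card]
    rfl
  have hVidx : ∃ k, V.index = 2 ^ k := by
    obtain ⟨k, hk⟩ := IsPGroup.iff_card.1 HH2
    refine ⟨k, ?_⟩
    rw [← hk]
    have := Subgroup.index_ker (SemidirectProduct.rightHom (φ := HH.subtype))
    rw [MonoidHom.range_eq_top.2 SemidirectProduct.rightHom_surjective, Subgroup.card_top] at this
    exact this
  obtain ⟨k, hk⟩ := hVidx
  refine ⟨G, inferInstance, inferInstance, zpowers a, ?_, ?_, ?_, ?_⟩
  · haveI : Group.IsNilpotent HH := HH2.isNilpotent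
    haveI : Group.IsSolvable HH := inferInstance
    haveI : Group.IsSolvable VV := inferInstance
    exact Group.isSolvable_of_ker_le_range (SemidirectProduct.inl (φ := HH.subtype)) SemidirectProduct.rightHom
      SemidirectProduct.range_inl_eq_ker_rightHom.ge
  · rw [Nat.card_zpowers]
    exact orderOf_eq_prime (by rw [pow_two]; exact ha) ha1
  · intro c
    apply key V (by rw [hVcard]; decide) hk a ha
    intro v hv
    have h1 : v ∈ (SemidirectProduct.inl (φ := HH.subtype)).range := by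
      rw [SemidirectProduct.range_inl_eq_ker_rightHom]; exact hv
    obtain ⟨w, rfl⟩ := h1
    rcases trans_all w with rfl | ⟨i, hi⟩
    · exact ⟨1, by simp⟩
    · refine ⟨SemidirectProduct.inr (⟨Mf, hMH⟩ ^ (i : ℕ)), ?_⟩
      have e1 : (SemidirectProduct.inr ((⟨Mf, hMH⟩ : HH) ^ (i : ℕ)) : G) * SemidirectProduct.inl w * (SemidirectProduct.inr ((⟨Mf, hMH⟩ : HH) ^ (i : ℕ)))⁻¹
          = SemidirectProduct.inl (Multiplicative.ofAdd ((1, 0) : ZMod 3 × ZMod 3)) := by
        rw [← map_inv, ← SemidirectProduct.inl_aut, ← hi]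
        rfl
      rw [e1]
      have e2 : a * SemidirectProduct.inl (Multiplicative.ofAdd ((1, 0) : ZMod 3 × ZMod 3)) * a⁻¹ = 
          SemidirectProduct.inl (Multiplicative.ofAdd ((1, 0) : ZMod 3 × ZMod 3)) := by
        change (SemidirectProduct.inr (⟨Rf, hRH⟩ : HH) : G) * SemidirectProduct.inl _ * (SemidirectProduct.inr (⟨Rf, hRH⟩ : HH))⁻¹ = _
        rw [← map_inv, ← SemidirectProduct.inl_aut]
        have : (HH.subtype ⟨Rf, hRH⟩) (Multiplicative.ofAdd ((1, 0) : ZMod 3 × ZMod 3)) = Multiplicative.ofAdd ((1, 0) : ZMod 3 × ZMod 3) := by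
          change Rf _ = _
          decide
        rw [this]
      exact (mul_inv_eq_iff_eq_mul.1 e2).symm
  · intro hle
    have haO : a ∈ Cfsg.pCore 2 G := hle (mem_zpowers a)
    obtain ⟨w, hw⟩ : ∃ w : VV, w = Multiplicative.ofAdd ((0, 1) : ZMod 3 × ZMod 3) := ⟨_, rfl⟩
    have h1 : a * SemidirectProduct.inl w * a⁻¹ = (SemidirectProduct.inl (φ := HH.subtype) w⁻¹ : G) := by
      change (SemidirectProduct.inr (⟨Rf, hRH⟩ : HH) : G) * SemidirectProduct.inl _ * (SemidirectProduct.inr (⟨Rf, hRH⟩ : HH))⁻¹ = _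
      rw [← map_inv, ← SemidirectProduct.inl_aut]
      have : (HH.subtype ⟨Rf, hRH⟩) w = w⁻¹ := by
        rw [hw]
        change Rf _ = _
        decide
      rw [this]
    -- the commutator is a nontrivial element of odd order in the 2-core
    have h2 : a * (SemidirectProduct.inl w * a⁻¹ * (SemidirectProduct.inl w)⁻¹) ∈ Cfsg.pCore 2 G := by
      refine Subgroup.mul_mem _ haO ?_
      exact (inferInstance : (Cfsg.pCore 2 G).Normal).conj_mem _ (Subgroup.inv_mem _ haO) _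
    have h3 : a * (SemidirectProduct.inl w * a⁻¹ * (SemidirectProduct.inl w)⁻¹) = (SemidirectProduct.inl (φ := HH.subtype) w : G) := by
      have e : a * (SemidirectProduct.inl w * a⁻¹ * (SemidirectProduct.inl w)⁻¹) = (a * SemidirectProduct.inl w * a⁻¹) * (SemidirectProduct.inl w)⁻¹ := by group
      rw [e, h1, ← map_inv, ← map_mul]
      congr 1
      rw [hw]; decide
    rw [h3] at h2
    have h4 : IsPGroup 2 (Cfsg.pCore 2 G) := CfsgH2.isPGroup_pCore 2
    obtain ⟨m, hm⟩ := h4 ⟨_, h2⟩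
    have h5 : (SemidirectProduct.inl (φ := HH.subtype) (w ^ 2 ^ m) : G) = 1 := by
      rw [map_pow]
      exact congrArg Subtype.val hm
    rw [← map_one (SemidirectProduct.inl (φ := HH.subtype))] at h5
    have h6 := SemidirectProduct.inl_injective h5
    have h7 : orderOf w ∣ 2 ^ m := orderOf_dvd_of_pow_eq_one h6
    have h8 : orderOf w = 3 := by
      haveI : Fact (Nat.Prime 3) := ⟨Nat.prime_three⟩
      apply orderOf_eq_prime
      · rw [hw]; decide
      · rw [hw]; decide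
    rw [h8] at h7
    have := (Nat.Prime.dvd_of_dvd_pow Nat.prime_three h7)
    omega

end Cfsg.Agent.S4331
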