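import Mathlib
import Cfsg.Agent.H2.Fitting
import Cfsg.Agent.H3.Inv
import Cfsg.Agent.H3.PBasic
import Cfsg.Statements.S4332

set_option autoImplicit false
open Pointwise
open Cfsg

namespace Cfsg.Agent.S4332

open Subgroup Equiv

theorem normal_perm_card {n : ℕ} (N : Subgroup (Equiv.Perm (Fin n))) (hn : N.Normal) (hN : N ≠ ⊥) (h2 : 2 ≤ n) : n ∣ Nat.card N := by
  haveI : Nonempty (Fin n) := ⟨⟨0, by omega⟩⟩
  have h1 : MulAction.IsPretransitive N (Fin n) := by
    apply MulAction.IsQuasiPreprimitive.isPretransitive_of_normal (G := Equiv.Perm (Fin n)) (X := Fin n)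
    intro h
    apply hN
    rw [eq_bot_iff]
    intro g hg
    rw [mem_bot]
    ext x
    have h3 : x ∈ MulAction.fixedPoints N (Fin n) := by rw [h]; trivial
    have h4 := h3 ⟨g, hg⟩
    exact congrArg Fin.val h4
  have h3 := MulAction.index_stabilizer_of_transitive N (⟨0, by omega⟩ : Fin n)
  rw [Nat.card_eq_fintype_card (α := Fin n), Fintype.card_fin] at h3
  exact (dvd_of_eq h3.symm).trans (Subgroup.index_dvd_card _)

set_option maxRecDepth 100000 in
theorem comm1 : ∀ a b d : Fin 8, (swap b a * swap a d) * (swap a b * swap b d) = (swap a b * swap b d) * (swap b a * swap a d) ∨ a = b ∨ b = d ∨ a = d := by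
  decide +kernel

set_option maxRecDepth 100000 in
theorem comm2 : ∀ a b d : Fin 8, (swap b d * swap d a) * (swap a b * swap b d) = (swap a b * swap b d) * (swap b d * swap d a) ∨ a = b ∨ b = d ∨ a = d := by
  decide +kernel

theorem comm3 (a b d a' b' d' : Fin 8) (h : ∀ x ∈ ({a, b, d} : Finset (Fin 8)), x ∉ ({a', b', d'} : Finset (Fin 8))) :
    (swap a' b' * swap b' d') * (swap a b * swap b d) = (swap a b * swap b d) * (swap a' b' * swap b' d') := by
  have h1 : Equiv.Perm.Disjoint (swap a' b' * swap b' d') (swap a b * swap b d) := by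
    intro x
    by_cases hx : x ∈ ({a, b, d} : Finset (Fin 8))
    · left
      have h2 := h x hx
      simp only [Finset.mem_insert, Finset.mem_singleton, not_or] at h2
      rw [Equiv.Perm.mul_apply, swap_apply_of_ne_of_ne h2.2.1 h2.2.2, swap_apply_of_ne_of_ne h2.1 h2.2.1]
    · right
      simp only [Finset.mem_insert, Finset.mem_singleton, not_or] at hx
      rw [Equiv.Perm.mul_apply, swap_apply_of_ne_of_ne hx.2.1 hx.2.2, swap_apply_of_ne_of_ne hx.1 hx.2.1]
  exact h1.commute.eq

theorem exT (c : Equiv.Perm (Fin 8)) : ∃ a b d : Fin 8, a ≠ b ∧ b ≠ d ∧ a ≠ d ∧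
    (swap (c a) (c b) * swap (c b) (c d)) * (swap a b * swap b d) = (swap a b * swap b d) * (swap (c a) (c b) * swap (c b) (c d)) := by
  classical
  set F := (Finset.univ : Finset (Fin 8)).filter (fun x => c x = x) with hF
  by_cases hA : 2 < F.card
  · obtain ⟨a, b, d, ha, hb, hd, hab, had, hbd⟩ := Finset.two_lt_card_iff.1 hA
    rw [hF, Finset.mem_filter] at ha hb hd
    exact ⟨a, b, d, hab, hbd, had, by rw [ha.2, hb.2, hd.2]⟩
  by_cases hB : ∃ x, c x ≠ x ∧ c (c x) = x
  · obtain ⟨x, hx, hx2⟩ := hB
    by_cases hf : ∃ f, c f = f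
    · obtain ⟨f, hf⟩ := hf
      have h1 : c x ≠ f := by
        rintro h
        apply hx
        rw [h, ← hx2, h, hf]
      have h2 : x ≠ f := by rintro rfl; exact hx hf
      refine ⟨x, c x, f, hx.symm, h1, h2, ?_⟩
      rw [hx2, hf]
      rcases comm1 x (c x) f with h | h | h | h
      · exact h
      · exact absurd h.symm hx
      · exact absurd h h1
      · exact absurd h h2
    · push Not at hf
      have h1 : (({x, c x} : Finset (Fin 8)))ᶜ.Nonempty := by
        rw [← Finset.card_pos, Finset.card_compl, Fintype.card_fin]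
        have := Finset.card_le_two (a := x) (b := c x)
        omega
      obtain ⟨y, hy⟩ := h1
      have h2 : (({x, c x, y, c y, c⁻¹ y} : Finset (Fin 8)))ᶜ.Nonempty := by
        rw [← Finset.card_pos, Finset.card_compl, Fintype.card_fin]
        have := Finset.card_le_five (a := x) (b := c x) (c := y) (d := c y) (e := c⁻¹ y)
        omega
      obtain ⟨z, hz⟩ := h2
      simp only [Finset.mem_compl, Finset.mem_insert, Finset.mem_singleton, not_or] at hy hz
      have hcy : c y ≠ x := by
        intro h
        apply hy.2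
        apply c.injective
        rw [h, hx2]
      have hcz : c z ≠ x := by
        intro h
        apply hz.2.1
        apply c.injective
        rw [h, hx2]
      have hczy : c z ≠ y := by
        intro h
        apply hz.2.2.2.2
        rw [← h]; exact (Equiv.Perm.inv_eq_iff_eq.2 rfl).symm
      refine ⟨x, y, z, Ne.symm hy.1, Ne.symm hz.2.2.1, Ne.symm hz.1, comm3 _ _ _ _ _ _ ?_⟩
      intro w hw hw'
      simp only [Finset.mem_insert, Finset.mem_singleton] at hw hw'
      rcases hw with rfl | rfl | rfl
      · rcases hw' with h | h | h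
        · exact hx h.symm
        · exact hcy h.symm
        · exact hcz h.symm
      · rcases hw' with h | h | h
        · exact hy.2 h
        · exact hf _ h.symm
        · exact hczy h.symm
      · rcases hw' with h | h | h
        · exact hz.2.1 h
        · exact hz.2.2.2.1 h
        · exact hf _ h.symm
  by_cases hC : ∃ x, c x ≠ x ∧ c (c (c x)) = x
  · obtain ⟨x, hx, hx3⟩ := hC
    have h1 : c x ≠ c (c x) := fun h => hx (c.injective h).symm
    have h2 : x ≠ c (c x) := by
      intro h
      apply hx
      conv_rhs => rw [← hx3, ← h]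
    refine ⟨x, c x, c (c x), hx.symm, h1, h2, ?_⟩
    rw [hx3]
    rcases comm2 x (c x) (c (c x)) with h | h | h | h
    · exact h
    · exact absurd h.symm hx
    · exact absurd h h1
    · exact absurd h h2
  push Not at hB hC
  obtain ⟨x, hx⟩ : ∃ x, c x ≠ x := by
    by_contra hcon
    push Not at hcon
    apply hA
    have : F = Finset.univ := by rw [hF, Finset.filter_true_of_mem (fun x _ => hcon x)]
    rw [this, Finset.card_univ, Fintype.card_fin]
    norm_num
  have h2 : ((F ∪ {x, c x, c⁻¹ x, c (c x), c (c (c x))} : Finset (Fin 8)))ᶜ.Nonempty := by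
    rw [← Finset.card_pos, Finset.card_compl, Fintype.card_fin]
    have h3 := Finset.card_le_five (a := x) (b := c x) (c := c⁻¹ x) (d := c (c x)) (e := c (c (c x)))
    have h4 := Finset.card_union_le F {x, c x, c⁻¹ x, c (c x), c (c (c x))}
    omega
  obtain ⟨z, hz⟩ := h2
  simp only [Finset.mem_compl, Finset.mem_union, Finset.mem_insert, Finset.mem_singleton, not_or, hF, Finset.mem_filter, Finset.mem_univ, true_and] at hz
  have hczx : c z ≠ x := by
    intro h
    apply hz.2.2.2.1
    rw [← h]; exact (Equiv.Perm.inv_eq_iff_eq.2 rfl).symm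
  refine ⟨x, c (c x), z, Ne.symm (hB x hx), Ne.symm hz.2.2.2.2.1, Ne.symm hz.2.1, comm3 _ _ _ _ _ _ ?_⟩
  intro w hw hw'
  simp only [Finset.mem_insert, Finset.mem_singleton] at hw hw'
  rcases hw with rfl | rfl | rfl
  · rcases hw' with h | h | h
    · exact hx h.symm
    · exact hC _ hx h.symm
    · exact hczx h.symm
  · rcases hw' with h | h | h
    · exact hx (c.injective h)
    · exact hx (c.injective (c.injective h)).symm
    · exact hz.2.2.1 (c.injective h.symm)
  · rcases hw' with h | h | h
    · exact hz.2.2.1 h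
    · exact hz.2.2.2.2.2 h
    · exact hz.1 h.symm

/-- In the symmetric group of degree 8, let A be the subgroup generated by a 3-cycle. Then every conjugacy class contains an element g for which A is subnormal in the subgroup generated by A and its conjugate by g, although O_3 of the symmetric group of degree 8 is trivial. -/
theorem result
    (σ : Equiv.Perm (Fin 8)) (hσ : σ.IsThreeCycle) :
    (∀ c : Equiv.Perm (Fin 8), ∃ g : Equiv.Perm (Fin 8), IsConj c g ∧
      ((Subgroup.zpowers σ).subgroupOf (Subgroup.zpowers σ ⊔ MulAut.conj g • Subgroup.zpowers σ)).IsSubnormal) ∧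
    Cfsg.pCore 3 (Equiv.Perm (Fin 8)) = ⊥ := by
  classical
  constructor
  · intro c
    obtain ⟨a, b, d, hab, hbd, had, hcomm⟩ := exT c
    have hτ : (swap a b * swap b d).IsThreeCycle := by
      have := Equiv.Perm.isThreeCycle_swap_mul_swap_same (a := b) (b := a) (c := d) hab.symm hbd had
      rwa [swap_comm b a] at this
    obtain ⟨h, hh⟩ : ∃ h : Equiv.Perm (Fin 8), h * (swap a b * swap b d) * h⁻¹ = σ := by
      have h1 : IsConj (swap a b * swap b d) σ := by
        rw [Equiv.Perm.isConj_iff_cycleType_eq]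
        rw [hτ.cycleType, hσ.cycleType]
      exact isConj_iff.1 h1
    refine ⟨h * c * h⁻¹, isConj_iff.2 ⟨h, rfl⟩, ?_⟩
    have hcτ : c * (swap a b * swap b d) * c⁻¹ = swap (c a) (c b) * swap (c b) (c d) := by
      rw [Equiv.swap_apply_apply c a b, Equiv.swap_apply_apply c b d]
      group
    have hcσ : ((h * c * h⁻¹) * σ * (h * c * h⁻¹)⁻¹) * σ = σ * ((h * c * h⁻¹) * σ * (h * c * h⁻¹)⁻¹) := by
      rw [← hh]
      calc ((h * c * h⁻¹) * (h * (swap a b * swap b d) * h⁻¹) * (h * c * h⁻¹)⁻¹) * (h * (swap a b * swap b d) * h⁻¹)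
          = h * ((c * (swap a b * swap b d) * c⁻¹) * (swap a b * swap b d)) * h⁻¹ := by group
        _ = h * ((swap a b * swap b d) * (c * (swap a b * swap b d) * c⁻¹)) * h⁻¹ := by rw [hcτ, hcomm]
        _ = _ := by group
    obtain ⟨g, hg⟩ : ∃ g, g = h * c * h⁻¹ := ⟨_, rfl⟩
    rw [← hg] at hcσ ⊢
    have hle : zpowers σ ⊔ MulAut.conj g • zpowers σ ≤ normalizer (zpowers σ : Set (Equiv.Perm (Fin 8))) := by
      refine sup_le le_normalizer ?_
      refine le_trans ?_ (Subgroup.centralizer_le_normalizer _)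
      intro x hx
      rw [CfsgH3.mem_conj_smul_iff] at hx
      obtain ⟨i, hi⟩ := mem_zpowers_iff.1 hx
      have hx' : x = (g * σ * g⁻¹) ^ i := by
        rw [conj_zpow, hi]; group
      rw [mem_centralizer_iff]
      intro y hy
      obtain ⟨j, rfl⟩ := mem_zpowers_iff.1 hy
      rw [hx']
      exact ((show Commute (g * σ * g⁻¹) σ from hcσ).zpow_zpow i j).eq.symm
    exact (Subgroup.normal_subgroupOf_of_le_normalizer hle).isSubnormal
  · by_contra hcon
    have h1 := normal_perm_card (Cfsg.pCore 3 (Equiv.Perm (Fin 8))) inferInstance hcon (by norm_num)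
    haveI : Fact (Nat.Prime 3) := ⟨Nat.prime_three⟩
    obtain ⟨k, hk⟩ := IsPGroup.iff_card.1 (CfsgH2.isPGroup_pCore (G := Equiv.Perm (Fin 8)) 3)
    rw [hk] at h1
    have h2 : 2 ∣ 3 ^ k := (by norm_num : 2 ∣ 8).trans h1
    have := Nat.Prime.dvd_of_dvd_pow Nat.prime_two h2
    omega

end Cfsg.Agent.S4332
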