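import Mathlib
import Cfsg.Agent.H1.Zipper
import Cfsg.Statements.S4333

set_option autoImplicit false
open Pointwise
open Cfsg

namespace Cfsg.Agent.S4333

open Subgroup CfsgH1
open scoped Pointwise commutatorElement
universe u
theorem aux (n : ℕ) : ∀ (G : Type u) [Group G] [Finite G], Nat.card G = n → ∀ A : Subgroup G,
    (∀ a ∈ A, ∀ g : G, (A.subgroupOf (A ⊔ MulAut.conj (g⁻¹ * a * g) • A)).IsSubnormal) → A.IsSubnormal := by
  induction n using Nat.strong_induction_on with
  | _ n ih =>
  intro G _ _ hn A h
  by_contra hns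
  have hsub : ∀ K : Subgroup G, K ≠ ⊤ → A ≤ K → (A.subgroupOf K).IsSubnormal := by
    intro K hK hAK
    apply ih (Nat.card K) (by rw [← hn]; exact card_lt_card_of_ne_top hK) K rfl
    intro a ha g
    have h1 := h a ha g
    set x : K := g⁻¹ * a * g with hx
    have hx' : (g : G)⁻¹ * a * g = x := rfl
    rw [hx'] at h1
    have hconj : MulAut.conj (x : G) • A ≤ K := by
      intro y hy
      rw [mem_conj_smul] at hy
      have : y = x * ((x : G)⁻¹ * y * x) * (x : G)⁻¹ := by group
      rw [this]
      exact K.mul_mem (K.mul_mem x.2 (hAK hy)) (K.inv_mem x.2)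
    -- transport
    have e1 : A.subgroupOf K ⊔ MulAut.conj x • A.subgroupOf K = (A ⊔ MulAut.conj (x : G) • A).subgroupOf K := by
      rw [subgroupOf_sup_eq hAK hconj, CfsgH1.conj_smul_subgroupOf]
    rw [e1]
    have h2 := IsSubnormal.comap ((K.subtype.comp ((A ⊔ MulAut.conj (x : G) • A).subgroupOf K).subtype).codRestrict 
      (A ⊔ MulAut.conj (x : G) • A) (fun x => x.2)) h1
    exact h2
  have hAt : A ≠ ⊤ := by
    rintro rfl
    exact hns IsSubnormal.top
  obtain ⟨M, hM, hAM⟩ := (eq_top_or_exists_le_coatom A).resolve_left hAt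
  have hz := zipper _ A rfl hsub hns
  have hMA : (A.subgroupOf M).IsSubnormal := hsub M hM.1 hAM
  have hMn : normalizer (M : Set G) = M := by
    have h1 : M ≤ normalizer (M : Set G) := le_normalizer
    rcases hM.le_iff.1 h1 with h2 | h2
    · exfalso
      apply hns
      exact IsSubnormal.trans (K := M) hAM hMA (normalizer_eq_top_iff.1 h2).isSubnormal
    · exact h2
  have h1 : ∀ a ∈ A, ∀ g : G, g⁻¹ * a * g ∈ M := by
    intro a ha g
    set x := g⁻¹ * a * g with hx
    have h2 : A ⊔ MulAut.conj x • A ≠ ⊤ := by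
      intro h3
      apply hns
      have h4 := h a ha g
      rw [← hx, h3] at h4
      have h5 := h4.trans' IsSubnormal.top
      rwa [map_subgroupOf_eq_of_le le_top] at h5
    obtain ⟨K, hK, hAK⟩ := (eq_top_or_exists_le_coatom _).resolve_left h2
    have h3 := hz M K hM hK hAM (le_sup_left.trans hAK)
    have h4 : MulAut.conj x • A ≤ M := by rw [h3]; exact le_sup_right.trans hAK
    have h5 : A ≤ MulAut.conj x⁻¹ • M := by
      intro y hy
      rw [mem_conj_smul, inv_inv]
      apply h4
      rw [mem_conj_smul]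
      have : x⁻¹ * (x * y * x⁻¹) * x = y := by group
      rw [this]; exact hy
    have h6 : MulAut.conj x⁻¹ • M ≠ ⊤ := by
      intro h7
      apply hM.1
      have h8 := card_conj_smul x⁻¹ M
      rw [h7] at h8
      exact (Subgroup.card_eq_iff_eq_top M).1 (by rw [← h8]; exact Subgroup.card_top)
    obtain ⟨K', hK', hAK'⟩ := (eq_top_or_exists_le_coatom _).resolve_left h6
    have h7 := hz M K' hM hK' hAM (h5.trans hAK')
    rw [← h7] at hAK'
    have h8 : MulAut.conj x⁻¹ • M = M := Subgroup.eq_of_le_of_card_ge hAK' (by rw [card_conj_smul])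
    rw [conj_smul_eq_self_iff, hMn] at h8
    have := M.inv_mem h8
    rwa [inv_inv] at this
  have h2 : normalClosure (A : Set G) ≤ M := by
    rw [normalClosure, closure_le]
    intro x hx
    obtain ⟨a, ha, hax⟩ := Group.mem_conjugatesOfSet_iff.1 hx
    obtain ⟨c, hc⟩ := isConj_iff.1 hax
    have := h1 a ha c⁻¹
    rw [inv_inv, hc] at this
    exact this
  apply hns
  refine IsSubnormal.trans (K := normalClosure (A : Set G)) le_normalClosure (hsub _ ?_ le_normalClosure) 
    (normalClosure_normal.isSubnormal)
  intro h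
  rw [h] at h2
  exact hM.1 (top_le_iff.1 h2)

/-- Let A be a subgroup of a finite group G. If A is subnormal in the subgroup generated by A and its conjugate by g⁻¹ a g, for every a ∈ A and every g ∈ G, then A is subnormal in G. (A sharpening of Wielandt's subnormality criterion: only conjugates of A by conjugates of elements of A are needed.) -/
theorem result {G : Type*} [Group G] [Finite G]
    (A : Subgroup G)
    (h : ∀ a ∈ A, ∀ g : G, (A.subgroupOf (A ⊔ MulAut.conj (g⁻¹ * a * g) • A)).IsSubnormal) :
    A.IsSubnormal := by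
  exact aux _ G rfl A h

end Cfsg.Agent.S4333
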