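import Mathlib
import Cfsg.Agent.H3.DPi
import Cfsg.Statements.S4334

set_option autoImplicit false
open Cfsg

namespace Cfsg.Agent.S4334

open Subgroup CfsgH3

open scoped Pointwise

/-- Let σ and τ be disjoint sets of primes with union π. Suppose a finite group G has a Hall π-subgroup H which is the direct product of a nilpotent σ-subgroup and a τ-subgroup (two elementwise-commuting subgroups generating H), and that the maximal τ-subgroups of G are pairwise conjugate. Then the maximal π-subgroups of G are pairwise conjugate. -/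
theorem result {G : Type*} [Group G] [Finite G]
    (σ τ π : Set ℕ) (hπ : π = σ ∪ τ) (hd : Disjoint σ τ) (H Hs Ht : Subgroup G) (hH : Cfsg.IsPiHall π H)
    (hs : Cfsg.IsPiSubgroup σ Hs) (ht : Cfsg.IsPiSubgroup τ Ht) (hsn : Group.IsNilpotent Hs)
    (hjoin : Hs ⊔ Ht = H) (hcomm : ∀ a ∈ Hs, ∀ b ∈ Ht, a * b = b * a) (hD : Cfsg.IsDPiGroup τ G) :
    Cfsg.IsDPiGroup π G := by
  have key := fun K : Subgroup G => dpi_key hπ hd hH hs ht hsn hjoin hcomm hD (Nat.card K) K rfl
  have hHc : ∀ x : G, Cfsg.IsPiSubgroup π (MulAut.conj x • H) := by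
    intro x p hp hpd
    rw [CfsgH1.card_conj_smul] at hpd
    exact hH.1 p hp hpd
  intro A B hA hB
  obtain ⟨x, hx⟩ := key A hA.1
  obtain ⟨y, hy⟩ := key B hB.1
  have hxA : A = MulAut.conj x • H := le_antisymm hx (hA.2 (hHc x) hx)
  have hyB : B = MulAut.conj y • H := le_antisymm hy (hB.2 (hHc y) hy)
  refine ⟨y * x⁻¹, ?_⟩
  show B = MulAut.conj (y * x⁻¹) • A
  rw [hxA, hyB, smul_smul, ← map_mul]
  congr 2
  group

end Cfsg.Agent.S4334
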