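import Mathlib
import Cfsg.Agent.S0144
import Cfsg.Statements.S4337

set_option autoImplicit false
open Cfsg

namespace Cfsg.Agent.S4337

open Subgroup Equiv

variable {n : ℕ}

/-- permutations supported on `X` -/
def KX (X : Finset (Fin n)) : Subgroup (Equiv.Perm (Fin n)) where
  carrier := {g | ∀ x, x ∉ X → g x = x}
  one_mem' := fun x _ => rfl
  mul_mem' := by
    intro a b ha hb x hx
    rw [Equiv.Perm.mul_apply, hb x hx, ha x hx]
  inv_mem' := by
    intro a ha x hx
    rw [Equiv.Perm.inv_eq_iff_eq]
    exact (ha x hx).symm

theorem card_KX (X : Finset (Fin n)) : Nat.card (KX X) = Nat.factorial X.card := by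
  classical
  have h1 : Nat.card (KX X) = Nat.card {f : Equiv.Perm (Fin n) // ∀ a, ¬ (a ∈ X) → f a = a} := rfl
  rw [h1, Nat.card_congr (Equiv.Perm.subtypeEquivSubtypePerm (fun a => a ∈ X)).symm]
  rw [Nat.card_eq_fintype_card, Fintype.card_perm, Fintype.card_coe]

theorem solv_of_card {G : Type*} [Group G] [Finite G] (h : Nat.card G ∣ 24) : Group.IsSolvable G := by
  obtain ⟨a, b, hab⟩ : ∃ a b : ℕ, Nat.card G = 2 ^ a * 3 ^ b := by
    have h1 : Nat.card G ≤ 24 := Nat.le_of_dvd (by norm_num) h
    obtain ⟨d, hd⟩ : ∃ d, d = Nat.card G := ⟨_, rfl⟩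
    rw [← hd] at h h1 ⊢
    have h0 : 0 < d := Nat.pos_of_dvd_of_pos h (by norm_num)
    interval_cases d
    · exact ⟨0, 0, rfl⟩
    · exact ⟨1, 0, rfl⟩
    · exact ⟨0, 1, rfl⟩
    · exact ⟨2, 0, rfl⟩
    · omega
    · exact ⟨1, 1, rfl⟩
    · omega
    · exact ⟨3, 0, rfl⟩
    · omega
    · omega
    · omega
    · exact ⟨2, 1, rfl⟩
    all_goals first | omega | exact ⟨3, 1, rfl⟩
  exact Cfsg.Agent.S0144.result 2 3 a b Nat.prime_two Nat.prime_three hab

theorem solv_of_le {X : Finset (Fin n)} (hX : X.card ≤ 4) {H : Subgroup (Equiv.Perm (Fin n))} (hH : H ≤ KX X) :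
    Group.IsSolvable H := by
  apply solv_of_card
  refine (Subgroup.card_dvd_of_le hH).trans ?_
  rw [card_KX]
  have : Nat.factorial X.card ∣ Nat.factorial 4 := Nat.factorial_dvd_factorial hX
  exact this

theorem swap_mem_KX {a : Equiv.Perm (Fin n)} {X : Finset (Fin n)} (h : a.support ⊆ X) : a ∈ KX X := by
  intro x hx
  by_contra hcon
  exact hx (h (Equiv.Perm.mem_support.2 hcon))

theorem main' (a b c : Equiv.Perm (Fin n)) (ha : a.IsSwap) (hb : b.IsSwap)
    (hac : Disjoint a.support c.support) (hbc : Disjoint b.support c.support) :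
    Group.IsSolvable (Subgroup.closure ({a, b, c} : Set (Equiv.Perm (Fin n)))) := by
  classical
  have hsa : a.support.card = 2 := Equiv.Perm.card_support_eq_two.2 ha
  have hsb : b.support.card = 2 := Equiv.Perm.card_support_eq_two.2 hb
  set H := Subgroup.closure ({a, b} : Set (Equiv.Perm (Fin n))) with hH
  have hHs : Group.IsSolvable H := by
    apply solv_of_le (X := a.support ∪ b.support)
    · refine (Finset.card_union_le _ _).trans (by omega)
    · rw [hH, closure_le]
      rintro g (rfl | hg)
      · exact swap_mem_KX Finset.subset_union_left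
      · rw [Set.mem_singleton_iff.1 hg]; exact swap_mem_KX Finset.subset_union_right
  set G := Subgroup.closure ({a, b, c} : Set (Equiv.Perm (Fin n))) with hG
  have hHG : H ≤ G := by
    apply Subgroup.closure_mono
    rintro g (rfl | hg)
    · simp
    · rw [Set.mem_singleton_iff.1 hg]; simp
  have hca : a * c = c * a := (Equiv.Perm.disjoint_iff_disjoint_support.2 hac).commute.eq
  have hcb : b * c = c * b := (Equiv.Perm.disjoint_iff_disjoint_support.2 hbc).commute.eq
  have hcH : ∀ h ∈ H, h * c = c * h := by
    have h1 : H ≤ centralizer ({c} : Set (Equiv.Perm (Fin n))) := by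
      rw [hH, closure_le]
      rintro g (rfl | hg)
      · exact mem_centralizer_singleton_iff.2 hca
      · rw [Set.mem_singleton_iff.1 hg]; exact mem_centralizer_singleton_iff.2 hcb
    intro h hh
    exact mem_centralizer_singleton_iff.1 (h1 hh)
  -- product of commuting subgroups
  let f : H × (zpowers c) →* Equiv.Perm (Fin n) := 
    { toFun := fun t => t.1 * t.2
      map_one' := by simp
      map_mul' := by
        rintro ⟨⟨h, hh⟩, ⟨x, hx⟩⟩ ⟨⟨h', hh'⟩, ⟨x', hx'⟩⟩
        obtain ⟨i, rfl⟩ := mem_zpowers_iff.1 hx
        have h1 : Commute h' (c ^ i) := (show Commute h' c from hcH h' hh').zpow_right i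
        change (h * h') * (c ^ i * x') = (h * c ^ i) * (h' * x')
        calc (h * h') * (c ^ i * x') = h * (h' * c ^ i) * x' := by group
          _ = h * (c ^ i * h') * x' := by rw [h1.eq]
          _ = _ := by group }
  have hGf : G ≤ f.range := by
    rw [hG, closure_le]
    rintro g (rfl | rfl | hg)
    · exact ⟨(⟨g, subset_closure (by simp)⟩, 1), by simp [f]⟩
    · exact ⟨(⟨g, subset_closure (by simp)⟩, 1), by simp [f]⟩
    · rw [Set.mem_singleton_iff.1 hg]
      exact ⟨(1, ⟨c, mem_zpowers c⟩), by simp [f]⟩
  haveI : Group.IsSolvable (zpowers c) := Group.isSolvable_of_comm (fun x y => by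
    rcases x with ⟨x, hx⟩
    rcases y with ⟨y, hy⟩
    obtain ⟨i, rfl⟩ := mem_zpowers_iff.1 hx
    obtain ⟨j, rfl⟩ := mem_zpowers_iff.1 hy
    exact Subtype.ext (zpow_mul_comm c i j))
  haveI : Group.IsSolvable (H × (zpowers c)) := inferInstance
  haveI : Group.IsSolvable f.range := Group.isSolvable_of_surjective f.rangeRestrict_surjective
  exact Group.isSolvable_of_isSolvable_injective (Subgroup.inclusion_injective hGf)

/-- In a finite symmetric group, any three transpositions generate a solvable subgroup. -/
theorem result (n : ℕ) (a b c : Equiv.Perm (Fin n))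
    (ha : a.IsSwap) (hb : b.IsSwap) (hc : c.IsSwap) :
    Group.IsSolvable (Subgroup.closure ({a, b, c} : Set (Equiv.Perm (Fin n)))) := by
  classical
  have hsa : a.support.card = 2 := Equiv.Perm.card_support_eq_two.2 ha
  have hsb : b.support.card = 2 := Equiv.Perm.card_support_eq_two.2 hb
  have hsc : c.support.card = 2 := Equiv.Perm.card_support_eq_two.2 hc
  by_cases h1 : Disjoint a.support c.support ∧ Disjoint b.support c.support
  · exact main' a b c ha hb h1.1 h1.2
  by_cases h2 : Disjoint a.support b.support ∧ Disjoint c.support b.support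
  · have e : ({a, b, c} : Set (Equiv.Perm (Fin n))) = {a, c, b} := by rw [Set.pair_comm b c]
    rw [e]
    exact main' a c b ha hc h2.1 h2.2
  by_cases h3 : Disjoint b.support a.support ∧ Disjoint c.support a.support
  · have e : ({a, b, c} : Set (Equiv.Perm (Fin n))) = {b, c, a} := by
      ext x; simp only [Set.mem_insert_iff, Set.mem_singleton_iff]; tauto
    rw [e]
    exact main' b c a hb hc h3.1 h3.2
  apply solv_of_le (X := a.support ∪ b.support ∪ c.support)
  · have key : ∀ A B : Finset (Fin n), ¬ Disjoint A B → B.card = 2 → (A ∪ B).card ≤ A.card + 1 := by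
      intro A B hAB hB
      have h4 := Finset.card_union_add_card_inter A B
      have h5 : 0 < (A ∩ B).card := by
        rw [Finset.card_pos, Finset.nonempty_iff_ne_empty]
        intro h6
        exact hAB (Finset.disjoint_iff_inter_eq_empty.2 h6)
      omega
    rw [not_and_or] at h1 h2 h3
    by_cases hab : Disjoint a.support b.support
    · have hac : ¬ Disjoint a.support c.support := by
        rcases h3 with h | h
        · exact absurd hab.symm h
        · exact fun h' => h h'.symm
      have hbc : ¬ Disjoint c.support b.support := by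
        rcases h2 with h | h
        · exact absurd hab h
        · exact h
      have e : a.support ∪ b.support ∪ c.support = (a.support ∪ c.support) ∪ b.support := by
        rw [Finset.union_assoc, Finset.union_comm b.support, ← Finset.union_assoc]
      rw [e]
      have h4 := key _ _ hac hsc
      have h5 := key (a.support ∪ c.support) b.support (fun h => hbc (Finset.disjoint_of_subset_left Finset.subset_union_right h)) hsb
      omega
    · have h4 := key _ _ hab hsb
      have h5 : ¬ Disjoint (a.support ∪ b.support) c.support := by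
        intro h
        rcases h1 with h6 | h6
        · exact h6 (Finset.disjoint_of_subset_left Finset.subset_union_left h)
        · exact h6 (Finset.disjoint_of_subset_left Finset.subset_union_right h)
      have h6 := key _ _ h5 hsc
      omega
  · rw [closure_le]
    rintro g (rfl | rfl | hg)
    · exact swap_mem_KX (Finset.subset_union_left.trans Finset.subset_union_left)
    · exact swap_mem_KX (Finset.subset_union_right.trans Finset.subset_union_left)
    · rw [Set.mem_singleton_iff.1 hg]
      exact swap_mem_KX Finset.subset_union_right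

end Cfsg.Agent.S4337
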