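import Mathlib
import Cfsg.Agent.S0060
import Cfsg.Agent.H3.Cores2
import Cfsg.Agent.H3.Rank2
import Cfsg.Statements.S4343

set_option autoImplicit false
open Cfsg

namespace Cfsg.Agent.S4343

open scoped commutatorElement Pointwise

/-- Let S be a finite non-abelian simple group and p a prime dividing its order. If S has fewer than p² Sylow p-subgroups, then its Sylow p-subgroups have order p. -/
theorem result {S : Type*} [Group S] [Finite S]
    [IsSimpleGroup S] (hS : ¬ IsMulCommutative S) (p : ℕ) [Fact p.Prime] (hp : p ∣ Nat.card S)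
    (hn : Nat.card (Sylow p S) < p ^ 2) (P : Sylow p S) : Nat.card P = p := by
  classical
  have hp0 : p.Prime := Fact.out
  have hidx : ∀ Q : Sylow p S, Q ≠ P → (Q : Subgroup S).relIndex P = p := by
    intro Q hQ
    have h1 : MulAction.stabilizer (P : Subgroup S) Q = (Q : Subgroup S).subgroupOf (P : Subgroup S) := by
      ext x
      rw [MulAction.mem_stabilizer_iff, Subgroup.mem_subgroupOf]
      have h2 : x • Q = (x : S) • Q := rfl
      rw [h2, Sylow.smul_eq_iff_mem_normalizer]
      constructor
      · intro h3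
        have h4 : (x : S) ∈ (P : Subgroup S) ⊓ Subgroup.normalizer (Q : Set S) := ⟨x.2, h3⟩
        rw [IsPGroup.inf_normalizer_sylow P.2 Q] at h4
        exact h4.2
      · intro h3
        exact Subgroup.le_normalizer h3
    have h2 : (Q : Subgroup S).relIndex P = (MulAction.orbit (P : Subgroup S) Q).ncard := by
      rw [← MulAction.index_stabilizer, h1]; rfl
    have h3 : (Q : Subgroup S).relIndex P < p ^ 2 := by
      rw [h2]
      refine lt_of_le_of_lt ?_ hn
      rw [← Set.ncard_univ]
      exact Set.ncard_le_ncard (Set.subset_univ _) (Set.toFinite _)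
    obtain ⟨k, hk⟩ : ∃ k, (Q : Subgroup S).relIndex P = p ^ k := by
      obtain ⟨n, hn'⟩ := IsPGroup.iff_card.1 P.2
      have h4 : (Q : Subgroup S).relIndex P ∣ p ^ n := by
        rw [← hn']; exact Subgroup.relIndex_dvd_card _ _
      obtain ⟨k, _, hk⟩ := (Nat.dvd_prime_pow hp0).1 h4
      exact ⟨k, hk⟩
    rw [hk] at h3 ⊢
    have h5 : k < 2 := (Nat.pow_lt_pow_iff_right hp0.one_lt).1 h3
    have h6 : k ≠ 0 := by
      rintro rfl
      rw [pow_zero, Subgroup.relIndex_eq_one] at hk
      apply hQ
      exact (Sylow.ext (le_antisymm hk (by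
        have := Subgroup.eq_of_le_of_card_ge hk (by
          rw [Sylow.card_eq_multiplicity, Sylow.card_eq_multiplicity])
        exact this.ge))).symm
    have h7 : k = 1 := by omega
    rw [h7, pow_one]
  -- core trivial
  have hcore : Cfsg.pCore p S = ⊥ := by
    rcases (inferInstance : (Cfsg.pCore p S).Normal).eq_bot_or_eq_top with h | h
    · exact h
    · exfalso
      have h1 : IsPGroup p (⊤ : Subgroup S) := by
        rw [← h]; exact CfsgH2.isPGroup_pCore p
      have h2 : IsPGroup p S := by
        intro x
        obtain ⟨k, hk⟩ := h1 ⟨x, trivial⟩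
        exact ⟨k, congrArg Subtype.val hk⟩
      haveI := h2.isNilpotent
      haveI : Group.IsSolvable S := inferInstance
      exact hS ⟨⟨fun a b => (IsSimpleGroup.comm_iff_isSolvable.2 inferInstance) a b⟩⟩
  have hcomm : ⁅(P : Subgroup S), (P : Subgroup S)⁆ = ⊥ := by
    rw [eq_bot_iff, ← hcore]
    intro x hx
    apply CfsgH3.mem_pCore_of_forall
    intro Q
    by_cases hQ : Q = P
    · rw [hQ]; exact Subgroup.commutator_le_self _ hx
    · have h1 : ((Q : Subgroup S).subgroupOf (P : Subgroup S)).index = p := hidx Q hQ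
      have h2 := CfsgH3.isCoatom_of_index h1
      have h3 := CfsgH3.commutator_le_frattini (P := (P : Subgroup S)) P.2
      have h4 : frattini (P : Subgroup S) ≤ (Q : Subgroup S).subgroupOf (P : Subgroup S) := by
        intro y hy
        exact CfsgH3.mem_frattini_iff.1 hy _ h2
      have h5 : x ∈ (commutator (P : Subgroup S)).map (P : Subgroup S).subtype := by
        rw [Subgroup.map_subtype_commutator]
        exact hx
      obtain ⟨y, hy, rfl⟩ := h5
      exact h4 (h3 hy)
  have hab : IsMulCommutative P := by
    refine ⟨⟨fun a b => ?_⟩⟩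
    apply Subtype.ext
    have h1 : ⁅(a : S), (b : S)⁆ ∈ (⊥ : Subgroup S) := by
      rw [← hcomm]; exact Subgroup.commutator_mem_commutator a.2 b.2
    exact commutatorElement_eq_one_iff_mul_comm.1 (Subgroup.mem_bot.1 h1)
  obtain ⟨g, hg⟩ := Cfsg.Agent.S0060.result p P hab hcore
  have hne : g • P ≠ P := by
    intro h
    have h1 : MulAut.conj g • (P : Subgroup S) = (P : Subgroup S) := congrArg Sylow.toSubgroup h
    rw [h1, inf_idem] at hg
    have h2 := P.card_eq_multiplicity
    rw [hg, Subgroup.card_bot] at h2
    have h3 : 0 < (Nat.card S).factorization p := hp0.factorization_pos_of_dvd Nat.card_pos.ne' hp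
    have h4 := Nat.one_lt_pow h3.ne' hp0.one_lt
    omega
  have h1 := hidx _ hne
  have h2 : (MulAut.conj g • (P : Subgroup S)).relIndex P = p := h1
  rw [← Subgroup.inf_relIndex_right, inf_comm, hg, Subgroup.relIndex_bot_left] at h2
  exact h2

end Cfsg.Agent.S4343
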