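import Mathlib
import Cfsg.Agent.H3.SylNum
import Cfsg.Statements.S4344

set_option autoImplicit false
open Cfsg

namespace Cfsg.Agent.S4344

open scoped Pointwise

/-- Let S be a finite non-abelian simple group, M a maximal subgroup of S and C a cyclic normal subgroup of M. If a Sylow p-subgroup P of S (for a prime p dividing the order of S) is contained in C, then the number of Sylow p-subgroups of S equals the index of M. -/
theorem result {S : Type*} [Group S] [Finite S]
    [IsSimpleGroup S] (hS : ¬ IsMulCommutative S) (p : ℕ) [Fact p.Prime] (hp : p ∣ Nat.card S)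
    (M : Subgroup S) (hM : IsCoatom M) (C : Subgroup S) (hCM : C ≤ M) (hCn : (C.subgroupOf M).Normal)
    (hC : IsCyclic C) (P : Sylow p S) (hP : (P : Subgroup S) ≤ C) :
    Nat.card (Sylow p S) = M.index := by
  haveI := hC
  have hcomm : ∀ a ∈ C, ∀ b ∈ C, a * b = b * a := by
    intro a ha b hb
    have := IsCyclic.commGroup (α := C)
    have h1 : (⟨a, ha⟩ : C) * ⟨b, hb⟩ = ⟨b, hb⟩ * ⟨a, ha⟩ := IsMulCommutative.is_comm.comm _ _
    exact congrArg Subtype.val h1
  have hPM : M ≤ Subgroup.normalizer ((P : Subgroup S) : Set S) := by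
    intro m hm
    refine Sylow.smul_eq_iff_mem_normalizer.1 ?_
    symm
    apply CfsgH3.eq_of_le_normalizer
    have hle : ((m • P : Sylow p S) : Subgroup S) ≤ C := by
      intro y hy
      rw [CfsgH3.mem_smul_sylow_iff'] at hy
      have h1 := hCn.conj_mem ⟨m⁻¹ * y * m, hCM (hP hy)⟩ (hP hy) ⟨m, hm⟩
      have h2 : m * (m⁻¹ * y * m) * m⁻¹ ∈ C := h1
      have h3 : m * (m⁻¹ * y * m) * m⁻¹ = y := by group
      rwa [h3] at h2
    intro x hx
    rw [Subgroup.mem_normalizer_iff]
    intro y
    constructor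
    · intro hy
      have h1 : x * y * x⁻¹ = y := by rw [hcomm x (hP hx) y (hle hy), mul_inv_cancel_right]
      rwa [h1]
    · intro hy
      have h1 : x * (x * y * x⁻¹) = x * y * x⁻¹ * x := hcomm x (hP hx) _ (hle hy)
      have h2 : y = x * y * x⁻¹ := by
        calc y = x⁻¹ * (x * y * x⁻¹ * x) := by group
          _ = x⁻¹ * (x * (x * y * x⁻¹)) := by rw [← h1]
          _ = x * y * x⁻¹ := by group
      rw [h2]
      exact hy
  have hne : Subgroup.normalizer ((P : Subgroup S) : Set S) ≠ ⊤ := by
    intro h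
    rw [Subgroup.normalizer_eq_top_iff] at h
    rcases h.eq_bot_or_eq_top with h1 | h1
    · exact P.ne_bot_of_dvd_card hp h1
    · apply hS
      refine ⟨⟨fun a b => hcomm a (hP ?_) b (hP ?_)⟩⟩
      · rw [h1]; trivial
      · rw [h1]; trivial
  rw [Sylow.card_eq_index_normalizer P]
  congr 1
  rcases hM.le_iff.1 hPM with h | h
  · exact absurd h hne
  · exact h

end Cfsg.Agent.S4344
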