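import Mathlib
import Cfsg.Agent.H3.SylNum2
import Cfsg.Agent.H1.MinNormal
import Cfsg.Statements.S4345

set_option autoImplicit false
open Cfsg

namespace Cfsg.Agent.S4345

open Subgroup CfsgH3

universe w

theorem card_quot_lt {G : Type w} [Group G] [Finite G] {N : Subgroup G} (hN : N ≠ ⊥) : Nat.card (G ⧸ N) < Nat.card G := by
  rw [← Subgroup.card_mul_index N]
  have h1 : Nat.card (G ⧸ N) = N.index := rfl
  rw [h1]
  apply lt_mul_of_one_lt_left
  · exact Nat.pos_of_ne_zero Subgroup.FiniteIndex.index_ne_zero
  · rw [Finite.one_lt_card_iff_nontrivial, Subgroup.nontrivial_iff_ne_bot]; exact hN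

theorem main {ℓ p : ℕ} [hp : Fact p.Prime] (hℓ : ℓ.Prime) (n : ℕ) : ∀ {G : Type w} [Group G] [Finite G], Nat.card G ≤ n → 
    Group.IsSolvable G → ℓ ^ (Nat.card (Sylow p G)).factorization ℓ ≡ 1 [MOD p] := by
  induction n with
  | zero =>
    intro G _ _ hc
    exact absurd hc (by have : 0 < Nat.card G := Nat.card_pos; omega)
  | succ n ih =>
    intro G _ _ hcard hG
    by_cases hnt : Nontrivial G
    swap
    · rw [not_nontrivial_iff_subsingleton] at hnt
      have h1 : Nat.card (Sylow p G) = 1 := by
        have h2 := card_sylow_index (default : Sylow p G)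
        rw [h2]
        have h3 : normalizer (((default : Sylow p G) : Subgroup G) : Set G) = ⊤ := Subsingleton.elim _ _
        rw [h3, Subgroup.index_top]
      rw [h1, Nat.factorization_one, Finsupp.zero_apply, pow_zero]
    obtain ⟨M, hMn, hM, -, -, r, hr, -, hMr⟩ := CfsgH1.exists_minNormal_pgroup (G := G)
    have hQ := ih (G := G ⧸ M) (by have := card_quot_lt hM; omega) inferInstance
    by_cases hrp : r = p
    · subst hrp
      rw [← card_sylow_quot_pgroup M hMr]
      exact hQ
    · obtain ⟨X, hX⟩ : ∃ X, X = ((default : Sylow p G) : Subgroup G) ⊔ M := ⟨_, rfl⟩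
      have h1 := card_sylow_quot_mul M (default : Sylow p G)
      rw [← hX] at h1
      have hPX : ((default : Sylow p G) : Subgroup G) ≤ X := by rw [hX]; exact le_sup_left
      have hMX : M ≤ X := by rw [hX]; exact le_sup_right
      have h2 : ℓ ^ (Nat.card (Sylow p X)).factorization ℓ ≡ 1 [MOD p] := by
        apply ell_part hℓ (M.subgroupOf X) ((default : Sylow p G).subtype hPX)
        · rw [Sylow.coe_subtype, ← Subgroup.subgroupOf_sup hPX hMX, ← hX, Subgroup.subgroupOf_self]
        · rw [Nat.card_congr (Subgroup.subgroupOfEquivOfLe hMX).toEquiv]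
          obtain ⟨k, hk⟩ := (haveI := Fact.mk hr; IsPGroup.iff_card.1 hMr)
          rw [hk]
          intro h
          exact hrp ((Nat.prime_dvd_prime_iff_eq hp.out hr).1 (hp.out.dvd_of_dvd_pow h)).symm
      rw [h1, Nat.factorization_mul Nat.card_pos.ne' Nat.card_pos.ne', Finsupp.add_apply, pow_add]
      exact hQ.mul h2

/-- Let G be a finite solvable group and p, ℓ primes. Then the largest power of ℓ dividing the number of Sylow p-subgroups of G is congruent to 1 modulo p. -/
theorem result {G : Type*} [Group G] [Finite G]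
    (hG : Group.IsSolvable G) (p ℓ : ℕ) [Fact p.Prime] (hℓ : ℓ.Prime) :
    ℓ ^ (Nat.card (Sylow p G)).factorization ℓ ≡ 1 [MOD p] := by
  exact main hℓ _ le_rfl hG

end Cfsg.Agent.S4345
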