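import Mathlib
import Cfsg.Agent.H3.PCentral
import Cfsg.Statements.S4354

set_option autoImplicit false
open Cfsg

namespace Cfsg.Agent.S4354

/-- Let G be a finite group and p a prime such that the Sylow p-subgroups of G are non-abelian while every element of p-power order has conjugacy class size prime to p, and suppose no nontrivial proper normal subgroup N of G has this property and no quotient G/N by such an N has it. Then G is simple. -/
theorem result {G : Type*} [Group G] [Finite G]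
    (p : ℕ) [Fact p.Prime] (h : ((∃ P : Sylow p G, ¬ IsMulCommutative P) ∧ ∀ x : G, (∃ k : ℕ, orderOf x = p ^ k) → ¬ p ∣ (Subgroup.centralizer ({x} : Set G)).index))
    (hmin : ∀ (N : Subgroup G) [N.Normal], N ≠ ⊥ → N ≠ ⊤ →
      ¬ ((∃ P : Sylow p N, ¬ IsMulCommutative P) ∧ ∀ x : N, (∃ k : ℕ, orderOf x = p ^ k) → ¬ p ∣ (Subgroup.centralizer ({x} : Set N)).index) ∧
      ¬ ((∃ P : Sylow p (G ⧸ N), ¬ IsMulCommutative P) ∧ ∀ x : (G ⧸ N), (∃ k : ℕ, orderOf x = p ^ k) → ¬ p ∣ (Subgroup.centralizer ({x} : Set (G ⧸ N))).index)) :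
    IsSimpleGroup G := by
  obtain ⟨⟨P, hP⟩, hc⟩ := h
  have hnt : Nontrivial G := by
    by_contra hnt
    rw [not_nontrivial_iff_subsingleton] at hnt
    apply hP
    exact ⟨⟨fun a b => Subsingleton.elim _ _⟩⟩
  refine ⟨fun N hN => ?_⟩
  by_contra hcon
  rw [not_or] at hcon
  obtain ⟨hN1, hN2⟩ := hcon
  haveI := hN
  obtain ⟨h1, h2⟩ := hmin N hN1 hN2
  have hNcent : ∀ x : N, (∃ k : ℕ, orderOf x = p ^ k) → ¬ p ∣ (Subgroup.centralizer ({x} : Set N)).index := by
    intro x hx hd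
    have e : Subgroup.centralizer ({x} : Set N) = (Subgroup.centralizer ({(x : G)} : Set G)).subgroupOf N := by
      ext y
      rw [Subgroup.mem_subgroupOf, Subgroup.mem_centralizer_iff, Subgroup.mem_centralizer_iff]
      constructor
      · intro h3 z hz
        rw [Set.mem_singleton_iff] at hz
        rw [hz]
        exact congrArg Subtype.val (h3 x rfl)
      · intro h3 z hz
        rw [Set.mem_singleton_iff] at hz
        rw [hz]
        exact Subtype.ext (h3 x rfl)
    rw [e] at hd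
    have h3 : p ∣ (Subgroup.centralizer ({(x : G)} : Set G)).relIndex N := hd
    apply hc (x : G) (by rw [Subgroup.orderOf_coe]; exact hx)
    exact h3.trans (CfsgH3.relIndex_dvd_index_of_normal_right _ N)
  have hQcent : ∀ x : G ⧸ N, (∃ k : ℕ, orderOf x = p ^ k) → ¬ p ∣ (Subgroup.centralizer ({x} : Set (G ⧸ N))).index := by
    intro x hx hd
    obtain ⟨g, rfl⟩ := QuotientGroup.mk_surjective x
    obtain ⟨a, ha, b, hb, hab, hcop, k, hk⟩ := CfsgH3.exists_pPart (p := p) g (orderOf_pos g).ne'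
    obtain ⟨k', hk'⟩ := hx
    have ha1 : ((a : G) : G ⧸ N) = 1 := by
      rw [← orderOf_eq_one_iff]
      refine Nat.Coprime.eq_one_of_dvd (m := orderOf a) ?_ ?_
      · apply Nat.Coprime.coprime_dvd_left _ (Nat.Coprime.pow_left k' hcop.symm)
        obtain ⟨j, rfl⟩ := Subgroup.mem_zpowers_iff.1 ha
        rw [← hk']
        rw [QuotientGroup.mk_zpow]
        exact orderOf_dvd_of_mem_zpowers ⟨j, rfl⟩
      · apply orderOf_dvd_of_pow_eq_one
        rw [← QuotientGroup.mk_pow, pow_orderOf_eq_one, QuotientGroup.mk_one]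
    have hgb : ((g : G) : G ⧸ N) = (b : G ⧸ N) := by
      rw [hab, QuotientGroup.mk_mul, ha1, one_mul]
    rw [hgb] at hd
    have hb' : ∃ k : ℕ, orderOf b = p ^ k := by
      obtain ⟨i, -, hi⟩ := (Nat.dvd_prime_pow Fact.out).1 (orderOf_dvd_of_pow_eq_one hk)
      exact ⟨i, hi⟩
    apply hc b hb'
    refine hd.trans ?_
    have hle : (Subgroup.centralizer ({b} : Set G)).map (QuotientGroup.mk' N) ≤ Subgroup.centralizer ({(b : G ⧸ N)} : Set (G ⧸ N)) := by
      rintro _ ⟨y, hy, rfl⟩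
      rw [Subgroup.mem_centralizer_iff]
      rintro _ rfl
      have h3 := (Subgroup.mem_centralizer_iff.1 hy) b rfl
      exact congrArg (QuotientGroup.mk' N) h3
    exact (Subgroup.index_dvd_of_le hle).trans (Subgroup.index_map_dvd _ (QuotientGroup.mk'_surjective N))
  have hNab : ∀ P : Sylow p N, ∀ a ∈ (P : Subgroup N), ∀ b ∈ (P : Subgroup N), a * b = b * a := by
    intro R a ha b hb
    by_contra hne
    apply h1
    refine ⟨⟨R, fun hcomm => hne ?_⟩, hNcent⟩
    exact congrArg Subtype.val (hcomm.is_comm.comm ⟨a, ha⟩ ⟨b, hb⟩)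
  apply hP
  refine ⟨⟨fun a b => Subtype.ext ?_⟩⟩
  refine CfsgH3.pcentral_comm N hNab hc P ?_ a a.2 b b.2
  intro a ha b hb
  by_contra hne
  apply h2
  have hPq : IsPGroup p ((P : Subgroup G).map (QuotientGroup.mk' N)) := P.2.map _
  obtain ⟨S, hS⟩ := hPq.exists_le_sylow
  refine ⟨⟨S, fun hcomm => hne ?_⟩, hQcent⟩
  have h3 := congrArg Subtype.val (hcomm.is_comm.comm ⟨_, hS ⟨a, ha, rfl⟩⟩ ⟨_, hS ⟨b, hb, rfl⟩⟩)
  have h4 : ((a : G) : G ⧸ N) * b = b * a := h3
  rw [← QuotientGroup.eq_one_iff]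
  rw [QuotientGroup.mk_mul, QuotientGroup.mk_mul, QuotientGroup.mk_mul, h4, QuotientGroup.mk_inv, QuotientGroup.mk_inv,
    mul_inv_cancel_right, mul_inv_cancel]

end Cfsg.Agent.S4354
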