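import Mathlib
import Cfsg.Agent.H1.PUnique
import Cfsg.Agent.H4.BrauerC
import Cfsg.Agent.H1.Coprime
import Cfsg.Agent.H3.PGroup
import Cfsg.Agent.H3.FitHall
import Cfsg.Agent.H1.PGrp2
import Cfsg.Statements.S4370

set_option autoImplicit false
open Cfsg

namespace Cfsg.Agent.S4370

open Subgroup

theorem two_mul_zero {n : ℕ} (hn : 0 < n) (i : ZMod (2 * n)) (h : i + i = 0) : i = 0 ∨ i = (n : ZMod (2 * n)) := by
  haveI : NeZero (2 * n) := ⟨by omega⟩
  have h1 : ((i.val + i.val : ℕ) : ZMod (2 * n)) = 0 := by
    push_cast
    rw [ZMod.natCast_zmod_val]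
    exact h
  rw [ZMod.natCast_eq_zero_iff] at h1
  have h2 := i.val_lt
  obtain ⟨c, hc⟩ := h1
  have h3 : i.val = n * c := by
    have : 2 * i.val = 2 * (n * c) := by rw [← mul_assoc, ← hc]; ring
    omega
  have h4 : c = 0 ∨ c = 1 := by
    have : c < 2 := by
      by_contra hcon
      push Not at hcon
      have : n * 2 ≤ n * c := Nat.mul_le_mul_left n hcon
      omega
    omega
  rcases h4 with rfl | rfl
  · left
    rw [mul_zero] at h3
    rw [← ZMod.natCast_zmod_val i, h3, Nat.cast_zero]
  · right
    rw [mul_one] at h3
    rw [← ZMod.natCast_zmod_val i, h3]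

theorem nn {n : ℕ} : (n : ZMod (2 * n)) + (n : ZMod (2 * n)) = 0 := by
  have : ((2 * n : ℕ) : ZMod (2 * n)) = 0 := ZMod.natCast_self _
  push_cast at this
  rw [← two_mul]; exact this

theorem cyc_of_eq {G : Type*} [Group G] {C : Subgroup G} (g : G) (h : zpowers g = C) : IsCyclic C := by
  rw [← h]; infer_instance

theorem quat_cent {n : ℕ} (hn : 0 < n) (q : QuaternionGroup n) (hq : q ∉ Subgroup.center (QuaternionGroup n)) :
    IsCyclic (centralizer ({q} : Set (QuaternionGroup n))) := by
  haveI : NeZero (2 * n) := ⟨by omega⟩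
  cases q with
  | a i =>
    have hi : i + i ≠ 0 := by
      intro h
      apply hq
      rw [mem_center_iff]
      rintro (j | j)
      · rw [QuaternionGroup.a_mul_a, QuaternionGroup.a_mul_a, add_comm]
      · rw [QuaternionGroup.a_mul_xa, QuaternionGroup.xa_mul_a]
        congr 1
        rw [sub_eq_add_neg]
        congr 1
        exact eq_neg_of_add_eq_zero_left h
    apply cyc_of_eq (QuaternionGroup.a 1)
    ext x
    rw [mem_centralizer_singleton_iff, mem_zpowers_iff]
    constructor
    · rintro ⟨k, rfl⟩
      have : QuaternionGroup.a (1 : ZMod (2 * n)) ^ k * QuaternionGroup.a i = QuaternionGroup.a i * QuaternionGroup.a 1 ^ k := by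
        have h1 : Commute (QuaternionGroup.a (1 : ZMod (2 * n))) (QuaternionGroup.a i) := by
          change _ * _ = _ * _
          rw [QuaternionGroup.a_mul_a, QuaternionGroup.a_mul_a, add_comm]
        exact (h1.zpow_left k).eq
      exact this
    · intro h
      cases x with
      | a j =>
        refine ⟨(j.val : ℤ), ?_⟩
        rw [zpow_natCast, QuaternionGroup.a_one_pow, ZMod.natCast_zmod_val]
      | xa j =>
        exfalso
        rw [QuaternionGroup.a_mul_xa, QuaternionGroup.xa_mul_a] at h
        have h1 := QuaternionGroup.xa.inj h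
        apply hi
        have : j + i = j - i := h1
        have h2 : i = -i := by
          have h3 : j + i = j + (-i) := by rw [this, sub_eq_add_neg]
          exact add_left_cancel h3
        calc i + i = i + (-i) := by rw [← h2]
          _ = 0 := add_neg_cancel i
  | xa i =>
    apply cyc_of_eq (QuaternionGroup.xa i)
    have hsq : QuaternionGroup.xa i * QuaternionGroup.xa i = QuaternionGroup.a (n : ZMod (2 * n)) := by
      rw [QuaternionGroup.xa_mul_xa, add_sub_cancel_right]
    have hcube : QuaternionGroup.xa i ^ 3 = QuaternionGroup.xa (i + (n : ZMod (2 * n))) := by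
      rw [pow_succ', pow_two, hsq, QuaternionGroup.xa_mul_a]
    ext x
    rw [mem_centralizer_singleton_iff, mem_zpowers_iff]
    constructor
    · rintro ⟨k, rfl⟩
      exact ((Commute.refl (QuaternionGroup.xa i)).zpow_left k).eq
    · intro h
      cases x with
      | a j =>
        rw [QuaternionGroup.a_mul_xa, QuaternionGroup.xa_mul_a] at h
        have h1 := QuaternionGroup.xa.inj h
        have h2 : j + j = 0 := by
          have h3 : i + j = i + (-j) := by rw [← h1, sub_eq_add_neg]
          have h4 : j = -j := add_left_cancel h3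
          calc j + j = j + (-j) := by rw [← h4]
            _ = 0 := add_neg_cancel j
        rcases two_mul_zero hn j h2 with h3 | h3
        · exact ⟨0, by rw [zpow_zero, h3]; rfl⟩
        · refine ⟨2, ?_⟩
          rw [h3, ← hsq]
          exact zpow_two _
      | xa j =>
        rw [QuaternionGroup.xa_mul_xa, QuaternionGroup.xa_mul_xa] at h
        have h1 := QuaternionGroup.a.inj h
        have h2 : (j - i) + (j - i) = 0 := by
          have h3 : (n : ZMod (2 * n)) + (i - j) = (n : ZMod (2 * n)) + (j - i) := by
            rw [← add_sub_assoc, ← add_sub_assoc]; exact h1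
          have h4 := add_left_cancel h3
          calc (j - i) + (j - i) = (j - i) + (i - j) := by rw [h4]
            _ = 0 := by ring
        rcases two_mul_zero hn _ h2 with h3 | h3
        · refine ⟨1, ?_⟩
          rw [zpow_one]
          congr 1
          exact (sub_eq_zero.1 h3).symm
        · refine ⟨3, ?_⟩
          have : QuaternionGroup.xa i ^ (3 : ℤ) = QuaternionGroup.xa i ^ 3 := by norm_cast
          rw [this, hcube]
          congr 1
          rw [← h3]; ring

theorem cyc_of_equiv {G H : Type*} [Group G] [Group H] (e : G ≃* H) 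
    (h : ∀ x : H, x ∉ Subgroup.center H → IsCyclic (centralizer ({x} : Set H))) :
    ∀ x : G, x ∉ Subgroup.center G → IsCyclic (centralizer ({x} : Set G)) := by
  intro x hx
  have h1 : e x ∉ Subgroup.center H := by
    intro h2
    apply hx
    rw [mem_center_iff] at h2 ⊢
    intro g
    apply e.injective
    rw [map_mul, map_mul, h2]
  have h2 := h _ h1
  let f : centralizer ({x} : Set G) →* centralizer ({e x} : Set H) := 
    { toFun := fun y => ⟨e (y : G), by
        rw [mem_centralizer_singleton_iff, ← map_mul, ← map_mul, mem_centralizer_singleton_iff.1 y.2]⟩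
      map_one' := Subtype.ext (map_one e)
      map_mul' := fun a b => Subtype.ext (map_mul e (a : G) (b : G)) }
  have hf : Function.Injective f := by
    intro a b hab
    exact Subtype.ext (e.injective (congrArg Subtype.val hab))
  exact isCyclic_of_injective f hf

theorem backward (k m : ℕ) (hm : Odd m) : ∀ x : QuaternionGroup (2 ^ k) × Multiplicative (ZMod m), 
    x ∉ Subgroup.center (QuaternionGroup (2 ^ k) × Multiplicative (ZMod m)) → 
    IsCyclic (centralizer ({x} : Set (QuaternionGroup (2 ^ k) × Multiplicative (ZMod m)))) := by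
  haveI : NeZero m := ⟨by rintro rfl; revert hm; decide⟩
  haveI : NeZero (2 * 2 ^ k) := ⟨by positivity⟩
  haveI : NeZero (2 ^ k) := ⟨by positivity⟩
  rintro ⟨q, c⟩ hx
  have hq : q ∉ Subgroup.center (QuaternionGroup (2 ^ k)) := by
    intro h
    apply hx
    rw [mem_center_iff] at h ⊢
    rintro ⟨g, d⟩
    exact Prod.ext (h g) (mul_comm d c)
  have hcyc := quat_cent (by positivity) q hq
  have hcard : (Nat.card (centralizer ({q} : Set (QuaternionGroup (2 ^ k))))).Coprime (Nat.card (Multiplicative (ZMod m))) := by
    have h1 : Nat.card (centralizer ({q} : Set (QuaternionGroup (2 ^ k)))) ∣ 2 ^ (k + 2) := by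
      refine (Subgroup.card_subgroup_dvd_card _).trans ?_
      rw [Nat.card_eq_fintype_card, QuaternionGroup.card]
      exact dvd_of_eq (by ring)
    refine Nat.Coprime.coprime_dvd_left h1 ?_
    have h2 : Nat.card (Multiplicative (ZMod m)) = m := by
      rw [Nat.card_congr Multiplicative.toAdd]; exact Nat.card_zmod m
    rw [h2]
    exact Nat.Coprime.pow_left _ (Nat.coprime_two_left.2 hm)
  have hcyc2 : IsCyclic (centralizer ({q} : Set (QuaternionGroup (2 ^ k))) × Multiplicative (ZMod m)) := by
    rw [Group.isCyclic_prod_iff]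
    exact ⟨hcyc, inferInstance, hcard⟩
  let f : centralizer ({((q, c) : QuaternionGroup (2 ^ k) × Multiplicative (ZMod m))} : Set _) →* 
      centralizer ({q} : Set (QuaternionGroup (2 ^ k))) × Multiplicative (ZMod m) := 
    { toFun := fun y => (⟨y.1.1, by
        have := mem_centralizer_singleton_iff.1 y.2
        rw [mem_centralizer_singleton_iff]
        exact congrArg Prod.fst this⟩, y.1.2)
      map_one' := rfl
      map_mul' := fun a b => rfl }
  have hf : Function.Injective f := by
    intro a b hab
    apply Subtype.ext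
    have h1 : (f a).1 = (f b).1 := by rw [hab]
    have h2 : (f a).2 = (f b).2 := by rw [hab]
    exact Prod.ext (congrArg Subtype.val h1) h2
  exact isCyclic_of_injective f hf

/-- Let G be a finite non-abelian nilpotent group. Then the centralizer of every non-central element of G is cyclic if and only if G is isomorphic to the direct product of a generalized quaternion group and a cyclic group of odd order. -/
theorem result {G : Type*} [Group G] [Finite G] (hG : Group.IsNilpotent G)
    (hna : ¬ IsMulCommutative G) :
    (∀ x : G, x ∉ Subgroup.center G → IsCyclic (Subgroup.centralizer ({x} : Set G))) ↔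
      ∃ (k m : ℕ), 1 ≤ k ∧ Odd m ∧ Nonempty (G ≃* QuaternionGroup (2 ^ k) × Multiplicative (ZMod m)) := by
  constructor
  · intro h
    haveI : Fact (Nat.Prime 2) := ⟨Nat.prime_two⟩
    obtain ⟨x0, hx0⟩ : ∃ x : G, x ∉ Subgroup.center G := by
      by_contra hcon
      push Not at hcon
      exact hna ⟨⟨fun a b => (mem_center_iff.1 (hcon a) b).symm⟩⟩
    have huniq : ∀ p : ℕ, p.Prime → ∀ H K : Subgroup G, Nat.card H = p → Nat.card K = p → H = K := by
      intro p hp
      haveI := Fact.mk hp
      -- a central element of order p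
      have hz : p ∣ Nat.card G → ∃ z : G, z ∈ Subgroup.center G ∧ orderOf z = p := by
        intro hpG
        have hn : ∀ (q : ℕ) (_ : Fact q.Prime) (P : Sylow q G), (P : Subgroup G).Normal :=
          ((Group.isNilpotent_of_finite_tfae (G := G)).out 0 3).1 hG
        let P : Sylow p G := default
        have hPne : (P : Subgroup G) ≠ ⊥ := by
          intro hb
          have := P.dvd_card_of_dvd_card hpG
          rw [hb, Subgroup.card_bot] at this
          exact hp.one_lt.ne' (Nat.dvd_one.1 this)
        haveI hPn := hn p inferInstance P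
        have h1 := CfsgH1.nilpotent_normal_inf_center_ne_bot hPne
        have h2 : IsPGroup p ↥((P : Subgroup G) ⊓ Subgroup.center G) := P.2.to_le inf_le_left
        obtain ⟨n, hn⟩ := IsPGroup.iff_card.1 h2
        have h3 : n ≠ 0 := by
          rintro rfl
          rw [pow_zero] at hn
          exact h1 (Subgroup.card_eq_one.1 hn)
        obtain ⟨z, hz⟩ := exists_prime_orderOf_dvd_card' (G := ↥((P : Subgroup G) ⊓ Subgroup.center G)) p (by
          rw [hn]; exact dvd_pow_self p h3)
        exact ⟨z, (mem_inf.1 z.2).2, by rw [Subgroup.orderOf_coe]; exact hz⟩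
      have key : ∀ z : G, z ∈ Subgroup.center G → orderOf z = p → ∀ H : Subgroup G, Nat.card H = p → H = zpowers z := by
        intro z hz hzp H hH
        obtain ⟨y, hy⟩ : ∃ y : G, zpowers y = H := by
          obtain ⟨y, hy⟩ := exists_prime_orderOf_dvd_card' (G := H) p (by rw [hH])
          refine ⟨y, ?_⟩
          apply Subgroup.eq_of_le_of_card_ge
          · rw [zpowers_le]; exact y.2
          · rw [Nat.card_zpowers, Subgroup.orderOf_coe, hy, hH]
        have hyp : orderOf y = p := by rw [← Nat.card_zpowers, hy, hH]
        -- a cyclic subgroup containing both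
        obtain ⟨C, hC, hyC, hzC⟩ : ∃ C : Subgroup G, IsCyclic C ∧ y ∈ C ∧ z ∈ C := by
          by_cases hyZ : y ∈ Subgroup.center G
          · refine ⟨_, h x0 hx0, ?_, ?_⟩
            · rw [mem_centralizer_singleton_iff]
              exact (mem_center_iff.1 hyZ x0).symm
            · rw [mem_centralizer_singleton_iff]
              exact (mem_center_iff.1 hz x0).symm
          · refine ⟨_, h y hyZ, mem_centralizer_singleton_iff.2 rfl, ?_⟩
            rw [mem_centralizer_singleton_iff]
            exact (mem_center_iff.1 hz y).symm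
        have h1 : zpowers (⟨y, hyC⟩ : C) = zpowers (⟨z, hzC⟩ : C) := by
          apply CfsgH3.cyclic_subgroup_eq
          rw [Nat.card_zpowers, Nat.card_zpowers, Subgroup.orderOf_mk, Subgroup.orderOf_mk, hyp, hzp]
        rw [← hy]
        have h2 := congrArg (Subgroup.map C.subtype) h1
        rw [MonoidHom.map_zpowers, MonoidHom.map_zpowers] at h2
        exact h2
      intro H K hH hK
      obtain ⟨z, hz1, hz2⟩ := hz (by rw [← hH]; exact Subgroup.card_subgroup_dvd_card H)
      rw [key z hz1 hz2 H hH, key z hz1 hz2 K hK]
    have huniq' : ∀ (p : ℕ) (_ : p.Prime) (L : Subgroup G) (H K : Subgroup L), Nat.card H = p → Nat.card K = p → H = K := by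
      intro p hp L H K hH hK
      have h1 := huniq p hp (H.map L.subtype) (K.map L.subtype) 
        (by rw [← hH]; exact (Nat.card_congr (H.equivMapOfInjective _ L.subtype_injective).toEquiv).symm)
        (by rw [← hK]; exact (Nat.card_congr (K.equivMapOfInjective _ L.subtype_injective).toEquiv).symm)
      exact Subgroup.map_injective L.subtype_injective h1
    have hn : ∀ (q : ℕ) (_ : Fact q.Prime) (P : Sylow q G), (P : Subgroup G).Normal :=
      ((Group.isNilpotent_of_finite_tfae (G := G)).out 0 3).1 hG
    let P : Sylow 2 G := default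
    haveI hPn := hn 2 inferInstance P
    obtain ⟨O, hOn, -, j, hj, hO2⟩ := CfsgH4.exists_pprime_kernel (A := G) Nat.prime_two
    have hcop : (Nat.card (P : Subgroup G)).Coprime (Nat.card O) := by
      obtain ⟨i, hi⟩ := IsPGroup.iff_card.1 P.2
      rw [hi]; exact Nat.Coprime.pow_left i ((Nat.Prime.coprime_iff_not_dvd Nat.prime_two).2 hO2)
    have hinf : (P : Subgroup G) ⊓ O = ⊥ := CfsgH1.inf_eq_bot_of_coprime hcop
    have hdisj : Disjoint (P : Subgroup G) O := disjoint_iff.2 hinf
    have hPO : ∀ (a : (P : Subgroup G)) (b : O), Commute (a : G) (b : G) := fun a b => 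
      Subgroup.commute_of_normal_of_disjoint _ _ hPn hOn hdisj a b a.2 b.2
    have hsup : (P : Subgroup G) ⊔ O = ⊤ := by
      rw [← Subgroup.index_eq_one]
      have h1 : ((P : Subgroup G) ⊔ O).index ∣ (P : Subgroup G).index := Subgroup.index_dvd_of_le le_sup_left
      have h2 : ((P : Subgroup G) ⊔ O).index ∣ 2 ^ j := by rw [← hj]; exact Subgroup.index_dvd_of_le le_sup_right
      have h3 : ((P : Subgroup G).index).Coprime (2 ^ j) := 
        (Nat.Coprime.pow_left j ((Nat.Prime.coprime_iff_not_dvd Nat.prime_two).2 P.not_dvd_index)).symm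
      exact Nat.eq_one_of_dvd_coprimes h3 h1 h2
    have e : ↥(P : Subgroup G) × ↥O ≃* G := by
      refine MulEquiv.ofBijective (MonoidHom.noncommCoprod (P : Subgroup G).subtype O.subtype hPO) ⟨?_, ?_⟩
      · rintro ⟨a, b⟩ ⟨c, d⟩ h1
        change (a : G) * b = c * d at h1
        have h2 : (c : G)⁻¹ * a = d * (b : G)⁻¹ := by
          calc (c : G)⁻¹ * a = (c : G)⁻¹ * (a * b) * (b : G)⁻¹ := by group
            _ = (c : G)⁻¹ * (c * d) * (b : G)⁻¹ := by rw [h1]
            _ = d * (b : G)⁻¹ := by group
        have h3 : (c : G)⁻¹ * a ∈ (P : Subgroup G) ⊓ O := by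
          refine mem_inf.2 ⟨Subgroup.mul_mem _ (Subgroup.inv_mem _ c.2) a.2, ?_⟩
          rw [h2]; exact Subgroup.mul_mem _ d.2 (Subgroup.inv_mem _ b.2)
        rw [hinf, mem_bot] at h3
        have h4 : (a : G) = c := (inv_mul_eq_one.1 h3).symm
        rw [h3] at h2
        have h5 : (b : G) = d := (mul_inv_eq_one.1 h2.symm).symm
        exact Prod.ext (Subtype.ext h4) (Subtype.ext h5)
      · intro g
        have h1 : g ∈ (P : Subgroup G) ⊔ O := by rw [hsup]; trivial
        obtain ⟨a, ha, b, hb, rfl⟩ := Subgroup.mem_sup_of_normal_right.1 h1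
        exact ⟨(⟨a, ha⟩, ⟨b, hb⟩), rfl⟩
    have hOcyc : IsCyclic O := by
      haveI : Group.IsNilpotent O := inferInstance
      haveI : IsZGroup O := by
        rw [isZGroup_iff]
        intro q hq Q
        haveI := Fact.mk hq
        rcases CfsgH1.punique_classification Q.2 (fun H K hH hK => by
          have h1 := huniq' q hq O (H.map (Q : Subgroup O).subtype) (K.map (Q : Subgroup O).subtype)
            ((Nat.card_congr (H.equivMapOfInjective _ (Q : Subgroup O).subtype_injective).toEquiv).symm.trans hH)
            ((Nat.card_congr (K.equivMapOfInjective _ (Q : Subgroup O).subtype_injective).toEquiv).symm.trans hK)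
          exact Subgroup.map_injective (Q : Subgroup O).subtype_injective h1) with h1 | ⟨h1, n, ⟨e1⟩⟩
        · exact h1
        · exfalso
          apply hO2
          have h2 : 2 ∣ Nat.card (Q : Subgroup O) := by
            haveI : NeZero (2 ^ n) := ⟨by positivity⟩
            rw [Nat.card_congr e1.toEquiv, Nat.card_eq_fintype_card, QuaternionGroup.card]
            exact ⟨2 * 2 ^ n, by ring⟩
          exact h2.trans (Subgroup.card_subgroup_dvd_card _)
      infer_instance
    rcases CfsgH1.punique_classification P.2 (fun H K hH hK => huniq' 2 Nat.prime_two _ H K hH hK) with h1 | ⟨-, n, ⟨e1⟩⟩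
    · exfalso
      apply hna
      letI := h1.commGroup
      letI := hOcyc.commGroup
      refine ⟨⟨fun a b => ?_⟩⟩
      apply e.symm.injective
      rw [map_mul, map_mul]
      exact Prod.ext (mul_comm _ _) (mul_comm _ _)
    · refine ⟨n, Nat.card O, ?_, ?_, ⟨?_⟩⟩
      · by_contra hcon
        have hn0 : n = 0 := by omega
        subst hn0
        apply hna
        letI := hOcyc.commGroup
        refine ⟨⟨fun a b => ?_⟩⟩
        apply e.symm.injective
        rw [map_mul, map_mul]
        refine Prod.ext ?_ (mul_comm _ _)
        apply e1.injective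
        change e1 (_ * _) = e1 (_ * _)
        rw [map_mul, map_mul]
        have h2 : ∀ a b : QuaternionGroup (2 ^ 0), a * b = b * a := by decide
        exact h2 _ _
      · rw [← Nat.not_even_iff_odd, even_iff_two_dvd]; exact hO2
      · exact e.symm.trans (MulEquiv.prodCongr e1 (zmodCyclicMulEquiv hOcyc).symm)
  · rintro ⟨k, m, -, hm, ⟨e⟩⟩
    exact cyc_of_equiv e (backward k m hm)

end Cfsg.Agent.S4370
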