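import Mathlib
import Cfsg.Statements.S4377

set_option autoImplicit false
open Cfsg

namespace Cfsg.Agent.S4377

theorem key (K : Type*) [Group K] [Finite K] (n : ℕ) (hn : n ≠ 0) :
    Nat.card {g : K // g ^ n = 1} = ∑ d ∈ n.divisors, Nat.card {g : K // orderOf g = d} := by
  classical
  haveI : Fintype K := Fintype.ofFinite K
  have h1 := Finset.card_eq_sum_card_fiberwise (s := Finset.univ.filter (fun g : K => g ^ n = 1))
    (t := n.divisors) (f := fun g => orderOf g) (by
      intro g hg
      have hg' : g ^ n = 1 := by simpa using hg
      exact Finset.mem_coe.2 (Nat.mem_divisors.2 ⟨orderOf_dvd_of_pow_eq_one hg', hn⟩))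
  rw [Nat.card_eq_fintype_card, Fintype.card_subtype, h1]
  refine Finset.sum_congr rfl fun d hd => ?_
  rw [Nat.card_eq_fintype_card, Fintype.card_subtype]
  congr 1
  ext g
  simp only [Finset.mem_filter, Finset.mem_univ, true_and]
  constructor
  · exact fun h => h.2
  · intro h
    refine ⟨?_, h⟩
    rw [← orderOf_dvd_iff_pow_eq_one, h]
    exact (Nat.mem_divisors.1 hd).1
theorem key2 (K : Type*) [Group K] [Finite K] (n : ℕ) (hn : n ≠ 0) :
    Nat.card {g : K // g ^ n = 1} = ∑ d ∈ n.properDivisors, Nat.card {g : K // orderOf g = d} + Nat.card {g : K // orderOf g = n} := by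
  rw [key K n hn, ← Nat.insert_self_properDivisors hn, Finset.sum_insert (by simp), add_comm]
theorem key0 (K : Type*) [Group K] [Finite K] : Nat.card {g : K // orderOf g = 0} = 0 := by
  haveI : IsEmpty {g : K // orderOf g = 0} := ⟨fun g => (orderOf_pos g.1).ne' g.2⟩
  exact Nat.card_of_isEmpty

/-- Two finite groups have the same number of elements of each order if and only if, for every n, they have the same number of elements g with gⁿ = 1. -/
theorem result {G H : Type*} [Group G] [Finite G] [Group H] [Finite H] :
    (∀ n : ℕ, Nat.card {g : G // orderOf g = n} = Nat.card {h : H // orderOf h = n}) ↔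
      ∀ n : ℕ, Nat.card {g : G // g ^ n = 1} = Nat.card {h : H // h ^ n = 1} := by
  classical
  haveI : Fintype G := Fintype.ofFinite G
  haveI : Fintype H := Fintype.ofFinite H
  constructor
  · intro h n
    by_cases hn : n = 0
    · subst hn
      have hN : Nat.card G * Nat.card H ≠ 0 := mul_ne_zero Nat.card_pos.ne' Nat.card_pos.ne'
      have h1 : Nat.card {g : G // g ^ 0 = 1} = Nat.card {g : G // g ^ (Nat.card G * Nat.card H) = 1} := by
        refine Nat.card_congr (Equiv.subtypeEquivRight fun g => ?_)
        simp [pow_mul, pow_card_eq_one']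
      have h2 : Nat.card {g : H // g ^ 0 = 1} = Nat.card {g : H // g ^ (Nat.card G * Nat.card H) = 1} := by
        refine Nat.card_congr (Equiv.subtypeEquivRight fun g => ?_)
        rw [mul_comm]
        simp [pow_mul, pow_card_eq_one']
      rw [h1, h2, key G _ hN, key H _ hN]
      exact Finset.sum_congr rfl fun d _ => h d
    · rw [key G n hn, key H n hn]
      exact Finset.sum_congr rfl fun d _ => h d
  · intro h n
    induction n using Nat.strong_induction_on with
    | _ n ih =>
      by_cases hn : n = 0
      · subst hn
        rw [key0 G, key0 H]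
      · have h1 := key2 G n hn
        have h2 := key2 H n hn
        have h3 := h n
        have h4 : ∑ d ∈ n.properDivisors, Nat.card {g : G // orderOf g = d} =
            ∑ d ∈ n.properDivisors, Nat.card {g : H // orderOf g = d} :=
          Finset.sum_congr rfl fun d hd => ih d (Nat.mem_properDivisors.1 hd).2
        omega

end Cfsg.Agent.S4377
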