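import Mathlib
import Cfsg.Agent.H1.CoprimeSylow
import Cfsg.Agent.H1.Maschke
import Cfsg.Agent.H1.Frat
import Cfsg.Agent.H1.FF
import Cfsg.Agent.H3.PGroup
import Cfsg.Statements.S4381

set_option autoImplicit false
open Pointwise
open Cfsg

namespace Cfsg.Agent.S4381

open Subgroup CfsgH3
open scoped commutatorElement

theorem inv_sylow {A G : Type*} [Group A] [Finite A] [Group G] [Finite G] [MulDistribMulAction A G] (hcop : (Nat.card A).Coprime (Nat.card G)) 
    (hsol : Group.IsSolvable A ∨ Group.IsSolvable G) (p : ℕ) [Fact p.Prime] : ∃ P : Sylow p G, ∀ a : A, ∀ x ∈ P, a • x ∈ P := by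
  classical
  let φ : A →* MulAut G := MulDistribMulAction.toMulAut A G
  let Γ := G ⋊[φ] A
  haveI : Finite Γ := Finite.of_equiv (G × A) SemidirectProduct.equivProd.symm
  set K : Subgroup Γ := (SemidirectProduct.inl : G →* Γ).range with hK
  set A' : Subgroup Γ := (SemidirectProduct.inr : A →* Γ).range with hA'
  haveI : K.Normal := by
    rw [hK, SemidirectProduct.range_inl_eq_ker_rightHom]; infer_instance
  have hinl : Function.Injective (SemidirectProduct.inl : G →* Γ) := SemidirectProduct.inl_injective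
  have hKc : Nat.card K = Nat.card G := Nat.card_congr (MonoidHom.ofInjective hinl).toEquiv.symm
  have hAc : Nat.card A' = Nat.card A := Nat.card_congr (MonoidHom.ofInjective (SemidirectProduct.inr_injective : Function.Injective (SemidirectProduct.inr : A →* Γ))).toEquiv.symm
  have hsol' : Group.IsSolvable A' ∨ Group.IsSolvable K := by
    rcases hsol with h | h
    · left; exact solvable_of_surjective (MonoidHom.rangeRestrict_surjective (SemidirectProduct.inr : A →* Γ))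
    · right; exact solvable_of_surjective (MonoidHom.rangeRestrict_surjective (SemidirectProduct.inl : G →* Γ))
  obtain ⟨⟨P, hP, hPA⟩, -⟩ := CfsgH1.coprime_sylow (A := A') (K := K) (CfsgH1.le_normalizer_of_normal _ _) (by rw [hKc, hAc]; exact hcop) hsol' p
  rw [CfsgH1.isSylowOf_iff] at hP
  obtain ⟨hPK, hPp, hPi⟩ := hP
  have hPg : IsPGroup p (P.comap (SemidirectProduct.inl : G →* Γ)) := IsPGroup.comap_of_injective hPp _ hinl
  have hind : ¬ p ∣ (P.comap (SemidirectProduct.inl : G →* Γ)).index := by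
    rw [Subgroup.index_comap]; exact hPi
  refine ⟨hPg.toSylow hind, ?_⟩
  intro a x hx
  have hx' : (SemidirectProduct.inl x : Γ) ∈ P := hx
  show (SemidirectProduct.inl (a • x) : Γ) ∈ P
  have h1 : (SemidirectProduct.inl (a • x) : Γ) = SemidirectProduct.inr a * SemidirectProduct.inl x * SemidirectProduct.inr a⁻¹ := 
    SemidirectProduct.inl_aut (φ := φ) a x
  rw [h1, map_inv]
  exact (mem_normalizer_iff.1 (hPA ⟨a, rfl⟩) _).1 hx'

theorem key {A G : Type*} [Group A] [Finite A] [Group G] [Finite G] [MulDistribMulAction A G] (hcop : (Nat.card A).Coprime (Nat.card G)) 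
    {p : ℕ} [hp : Fact p.Prime] (hG : IsPGroup p G) (L : Subgroup G) (hL : frattini G ≤ L) (hLA : ∀ a : A, ∀ x ∈ L, a • x ∈ L) : 
    ∃ N : Subgroup G, frattini G ≤ N ∧ (∀ a : A, ∀ x ∈ N, a • x ∈ N) ∧ L ⊓ N = frattini G ∧ L ⊔ N = ⊤ := by
  classical
  set Φ := frattini G with hΦ
  haveI : Φ.Characteristic := by rw [hΦ]; infer_instance
  let V := G ⧸ Φ
  letI : CommGroup V := { (inferInstance : Group V) with 
    mul_comm := by
      intro a b
      obtain ⟨x, rfl⟩ := QuotientGroup.mk_surjective a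
      obtain ⟨y, rfl⟩ := QuotientGroup.mk_surjective b
      rw [← QuotientGroup.mk_mul, ← QuotientGroup.mk_mul, QuotientGroup.eq]
      have h1 : ⁅y⁻¹, x⁻¹⁆ ∈ Φ := commutator_le_frattini hG (commutator_mem_commutator (mem_top _) (mem_top _))
      rw [commutatorElement_def] at h1
      have e : (x * y)⁻¹ * (y * x) = y⁻¹ * x⁻¹ * y⁻¹⁻¹ * x⁻¹⁻¹ := by group
      rw [e]; exact h1 }
  let f : A →* MulAut V := 
    { toFun := fun a => QuotientGroup.congr Φ Φ (MulDistribMulAction.toMulAut A G a) (Subgroup.characteristic_iff_map_eq.1 inferInstance _)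
      map_one' := by
        ext v
        obtain ⟨x, rfl⟩ := QuotientGroup.mk_surjective v
        show ((MulDistribMulAction.toMulAut A G 1 x : G) : V) = x
        rw [map_one]; rfl
      map_mul' := by
        intro a b
        ext v
        obtain ⟨x, rfl⟩ := QuotientGroup.mk_surjective v
        show ((MulDistribMulAction.toMulAut A G (a * b) x : G) : V) = _
        rw [map_mul]; rfl }
  letI : MulDistribMulAction A V := MulDistribMulAction.compHom V f
  have hact : ∀ (a : A) (x : G), a • (x : V) = ((a • x : G) : V) := fun a x => rfl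
  obtain ⟨W, hW1, hW2⟩ : ∃ W : Subgroup V, L.map (QuotientGroup.mk' Φ) ⊓ W = ⊥ ∧ L.map (QuotientGroup.mk' Φ) ⊔ W = ⊤ := by
    obtain ⟨C, hC1, hC2, hC3⟩ := CfsgH1.elem_compl (p := p) (A := (⊤ : Subgroup V)) (D := L.map (QuotientGroup.mk' Φ)) ⟨fun x _ y _ => mul_comm x y, fun x _ => by
      obtain ⟨y, rfl⟩ := QuotientGroup.mk_surjective x
      rw [← QuotientGroup.mk_pow, QuotientGroup.eq_one_iff]; exact pow_mem_frattini hG y⟩ le_top
    exact ⟨C, by rw [inf_comm]; exact hC2, by rw [sup_comm]; exact hC3⟩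
  obtain ⟨W', h1, h2, h3⟩ := CfsgH1.maschke_abs (A := A) (V := V) (Nat.Coprime.coprime_dvd_right (Subgroup.card_quotient_dvd_card _) hcop) 
    (L.map (QuotientGroup.mk' Φ)) W (by
      rintro a _ ⟨x, hx, rfl⟩
      exact ⟨a • x, hLA a x hx, rfl⟩) hW1 hW2
  refine ⟨W'.comap (QuotientGroup.mk' Φ), ?_, ?_, ?_, ?_⟩
  · intro x hx
    rw [mem_comap]
    have : QuotientGroup.mk' Φ x = 1 := (QuotientGroup.eq_one_iff x).2 hx
    rw [this]; exact W'.one_mem
  · intro a x hx
    exact h1 a _ hx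
  · apply le_antisymm
    · rintro x ⟨hx1, hx2⟩
      have : QuotientGroup.mk' Φ x ∈ L.map (QuotientGroup.mk' Φ) ⊓ W' := ⟨⟨x, hx1, rfl⟩, hx2⟩
      rw [h2, mem_bot] at this
      exact (QuotientGroup.eq_one_iff x).1 this
    · refine le_inf hL ?_
      intro x hx
      rw [mem_comap]
      have : QuotientGroup.mk' Φ x = 1 := (QuotientGroup.eq_one_iff x).2 hx
      rw [this]; exact W'.one_mem
  · have h4 : (L.map (QuotientGroup.mk' Φ)).comap (QuotientGroup.mk' Φ) = L := by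
      rw [Subgroup.comap_map_eq, QuotientGroup.ker_mk', sup_eq_left]; exact hL
    have h5 := congrArg (Subgroup.comap (QuotientGroup.mk' Φ)) h3
    rw [← Subgroup.comap_sup_eq _ _ _ (QuotientGroup.mk'_surjective Φ), h4, Subgroup.comap_top] at h5
    exact h5

/-- Let the finite group A act by automorphisms on the finite group G with the orders of A and G coprime, and assume that A or G is solvable. Call a proper A-invariant subgroup of G maximal A-invariant when no A-invariant subgroup lies strictly between it and G. Then all maximal A-invariant subgroups of G are conjugate under elements of the fixed-point subgroup C_G(A) if and only if G is a p-group for some prime p and A leaves invariant no subgroup strictly between the Frattini subgroup of G and G. In that case, if G is nontrivial, the Frattini subgroup is the only maximal A-invariant subgroup (a trivial G has none). -/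
theorem result {A G : Type*} [Group A] [Finite A]
    [Group G] [Finite G] [MulDistribMulAction A G] (hcop : (Nat.card A).Coprime (Nat.card G)) (hsol : Group.IsSolvable A ∨ Group.IsSolvable G) :
    ((∀ M N : Subgroup G, (M ≠ ⊤ ∧ (∀ a : A, ∀ x ∈ M, a • x ∈ M) ∧ ∀ L : Subgroup G, M < L → (∀ a : A, ∀ x ∈ L, a • x ∈ L) → L = ⊤) → (N ≠ ⊤ ∧ (∀ a : A, ∀ x ∈ N, a • x ∈ N) ∧ ∀ L : Subgroup G, N < L → (∀ a : A, ∀ x ∈ L, a • x ∈ L) → L = ⊤) →
        ∃ c : G, (∀ a : A, a • c = c) ∧ N = MulAut.conj c • M) ↔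
      ((∃ p : ℕ, p.Prime ∧ IsPGroup p G) ∧ ∀ L : Subgroup G, frattini G < L → (∀ a : A, ∀ x ∈ L, a • x ∈ L) → L = ⊤)) ∧
    (((∃ p : ℕ, p.Prime ∧ IsPGroup p G) ∧ ∀ L : Subgroup G, frattini G < L → (∀ a : A, ∀ x ∈ L, a • x ∈ L) → L = ⊤) →
      ∀ M : Subgroup G, (M ≠ ⊤ ∧ (∀ a : A, ∀ x ∈ M, a • x ∈ M) ∧ ∀ L : Subgroup G, M < L → (∀ a : A, ∀ x ∈ L, a • x ∈ L) → L = ⊤) ↔ (M = frattini G ∧ M ≠ ⊤)) := by
  classical
  have hΦinv : ∀ a : A, ∀ x ∈ frattini G, a • x ∈ frattini G := by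
    intro a x hx
    have h1 := Subgroup.characteristic_iff_map_eq.1 (inferInstance : (frattini G).Characteristic) (MulDistribMulAction.toMulAut A G a)
    rw [← h1]
    exact ⟨x, hx, rfl⟩
  have hsupinv : ∀ L N : Subgroup G, (∀ a : A, ∀ x ∈ L, a • x ∈ L) → (∀ a : A, ∀ x ∈ N, a • x ∈ N) → ∀ a : A, ∀ x ∈ L ⊔ N, a • x ∈ L ⊔ N := by
    intro L N hL hN a
    have h1 : (L ⊔ N).map (MulDistribMulAction.toMonoidHom G a) ≤ L ⊔ N := by
      rw [Subgroup.map_sup]
      refine sup_le_sup ?_ ?_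
      · rintro _ ⟨x, hx, rfl⟩; exact hL a x hx
      · rintro _ ⟨x, hx, rfl⟩; exact hN a x hx
    intro x hx
    exact h1 ⟨x, hx, rfl⟩
  have hexmax : ∀ L : Subgroup G, L ≠ ⊤ → (∀ a : A, ∀ x ∈ L, a • x ∈ L) → ∃ M : Subgroup G, L ≤ M ∧ 
      (M ≠ ⊤ ∧ (∀ a : A, ∀ x ∈ M, a • x ∈ M) ∧ ∀ L : Subgroup G, M < L → (∀ a : A, ∀ x ∈ L, a • x ∈ L) → L = ⊤) := by
    intro L hL hLA
    have hs : {M : Subgroup G | M ≠ ⊤ ∧ ∀ a : A, ∀ x ∈ M, a • x ∈ M}.Finite := Set.toFinite _
    obtain ⟨M, hLM, hM⟩ := hs.exists_le_maximal (a := L) ⟨hL, hLA⟩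
    refine ⟨M, hLM, hM.prop.1, hM.prop.2, ?_⟩
    intro N hMN hN
    by_contra h
    exact hMN.not_ge (hM.2 ⟨h, hN⟩ hMN.le)
  have hmaxle : ∀ M : Subgroup G, (M ≠ ⊤ ∧ (∀ a : A, ∀ x ∈ M, a • x ∈ M) ∧ ∀ L : Subgroup G, M < L → (∀ a : A, ∀ x ∈ L, a • x ∈ L) → L = ⊤) → frattini G ≤ M := by
    rintro M ⟨h1, h2, h3⟩
    by_contra h
    have h4 : M < M ⊔ frattini G := lt_of_le_of_ne le_sup_left (fun he => h (by rw [he]; exact le_sup_right))
    have h5 := h3 _ h4 (hsupinv _ _ h2 hΦinv)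
    exact h1 (CfsgH1.eq_top_of_sup_frattini le_rfl h5)
  have hB : (((∃ p : ℕ, p.Prime ∧ IsPGroup p G) ∧ ∀ L : Subgroup G, frattini G < L → (∀ a : A, ∀ x ∈ L, a • x ∈ L) → L = ⊤) →
      ∀ M : Subgroup G, (M ≠ ⊤ ∧ (∀ a : A, ∀ x ∈ M, a • x ∈ M) ∧ ∀ L : Subgroup G, M < L → (∀ a : A, ∀ x ∈ L, a • x ∈ L) → L = ⊤) ↔ (M = frattini G ∧ M ≠ ⊤)) := by
    rintro ⟨-, h⟩ M
    constructor
    · intro hM
      have h1 := hmaxle M hM
      refine ⟨?_, hM.1⟩
      by_contra hne
      exact hM.1 (h M (lt_of_le_of_ne h1 (Ne.symm hne)) hM.2.1)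
    · rintro ⟨rfl, hne⟩
      exact ⟨hne, hΦinv, h⟩
  refine ⟨⟨?_, ?_⟩, hB⟩
  · intro hconj
    have hpg : ∃ p : ℕ, p.Prime ∧ IsPGroup p G := by
      by_contra hno
      push Not at hno
      have hS : ∀ q : ℕ, (hq : q.Prime) → haveI := Fact.mk hq; ∃ (Q : Sylow q G) (M : Subgroup G), (Q : Subgroup G) ≤ M ∧ 
          (M ≠ ⊤ ∧ (∀ a : A, ∀ x ∈ M, a • x ∈ M) ∧ ∀ L : Subgroup G, M < L → (∀ a : A, ∀ x ∈ L, a • x ∈ L) → L = ⊤) := by
        intro q hq
        haveI := Fact.mk hq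
        obtain ⟨Q, hQ⟩ := inv_sylow hcop hsol q
        obtain ⟨M, h1, h2⟩ := hexmax Q (fun h => hno q hq (by
          have := Q.2
          rw [h] at this
          exact this.of_surjective (Subgroup.topEquiv (G := G)).toMonoidHom Subgroup.topEquiv.surjective)) hQ
        exact ⟨Q, M, h1, h2⟩
      obtain ⟨Q2, M2, h21, h22⟩ := hS 2 Nat.prime_two
      apply h22.1
      apply Subgroup.eq_top_of_card_eq
      apply Nat.dvd_antisymm (Subgroup.card_subgroup_dvd_card _)
      rw [Nat.dvd_iff_prime_pow_dvd_dvd]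
      intro q k hq hk
      haveI := Fact.mk hq
      obtain ⟨Q, M, h1, h2⟩ := hS q hq
      obtain ⟨c, hc, hcM⟩ := hconj M2 M h22 h2
      have h3 : Nat.card M = Nat.card M2 := by rw [hcM, CfsgH1.card_conj_smul]
      rw [← h3]
      have h4 : q ^ k ∣ Nat.card Q := by
        rw [Q.card_eq_multiplicity]
        exact pow_dvd_pow _ ((hq.pow_dvd_iff_le_factorization Nat.card_pos.ne').1 hk)
      exact h4.trans (Subgroup.card_dvd_of_le h1)
    refine ⟨hpg, ?_⟩
    obtain ⟨p, hp, hG⟩ := hpg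
    haveI := Fact.mk hp
    have huniq : ∀ M N : Subgroup G, (M ≠ ⊤ ∧ (∀ a : A, ∀ x ∈ M, a • x ∈ M) ∧ ∀ L : Subgroup G, M < L → (∀ a : A, ∀ x ∈ L, a • x ∈ L) → L = ⊤) → (N ≠ ⊤ ∧ (∀ a : A, ∀ x ∈ N, a • x ∈ N) ∧ ∀ L : Subgroup G, N < L → (∀ a : A, ∀ x ∈ L, a • x ∈ L) → L = ⊤) → 
        M = N := by
      intro M N hM hN
      obtain ⟨c, -, hc⟩ := hconj M N hM hN
      have : M.Normal := by
        have h1 : commutator G ≤ M := (commutator_le_frattini hG).trans (hmaxle M hM)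
        exact Subgroup.Normal.of_commutator_le _ h1
      rw [hc, CfsgH1.conj_smul_of_normal]
    intro L hL hLA
    by_contra hLt
    obtain ⟨N, hN1, hN2, hN3, hN4⟩ := key hcop hG L hL.le hLA
    obtain ⟨M1, h1, h2⟩ := hexmax L hLt hLA
    by_cases hNt : N = ⊤
    · rw [hNt, inf_top_eq] at hN3
      exact hL.ne' hN3
    obtain ⟨M2, h3, h4⟩ := hexmax N hNt hN2
    have h5 := huniq M1 M2 h2 h4
    rw [← h5] at h3
    apply h2.1
    rw [eq_top_iff, ← hN4]
    exact sup_le h1 h3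
  · intro h M N hM hN
    have h1 := (hB h M).1 hM
    have h2 := (hB h N).1 hN
    refine ⟨1, fun a => smul_one a, ?_⟩
    rw [map_one, one_smul, h1.1, h2.1]

end Cfsg.Agent.S4381
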