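import Mathlib
import Cfsg.Agent.H3.PBasic
import Cfsg.Agent.H2.SqFree2
import Cfsg.Statements.S4387

set_option autoImplicit false
open Pointwise
open Cfsg

namespace Cfsg.Agent.S4387

open scoped Pointwise

/-- Let G be a non-trivial finite group in which any two maximal subgroups are conjugate. Then G is cyclic of prime-power order. -/
theorem result {G : Type*} [Group G] [Finite G] [Nontrivial G]
    (h : ∀ M N : Subgroup G, IsCoatom M → IsCoatom N → ∃ g : G, N = MulAut.conj g • M) :
    IsCyclic G ∧ IsPrimePow (Nat.card G) := by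
  classical
  obtain ⟨M, hM⟩ : ∃ M : Subgroup G, IsCoatom M := by
    rcases eq_top_or_exists_le_coatom (⊥ : Subgroup G) with h1 | ⟨M, hM, -⟩
    · exact absurd h1 bot_ne_top
    · exact ⟨M, hM⟩
  have hcyc : IsCyclic G := by
    by_contra hnc
    apply hM.1
    apply CfsgH2.eq_top_of_conj_cover
    intro y
    rcases eq_top_or_exists_le_coatom (Subgroup.zpowers y) with h1 | ⟨N, hN, hle⟩
    · exfalso
      apply hnc
      refine ⟨y, fun z => ?_⟩
      have h3 : z ∈ Subgroup.zpowers y := by rw [h1]; trivial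
      exact Subgroup.mem_zpowers_iff.1 h3
    · obtain ⟨g, hg⟩ := h M N hM hN
      refine ⟨g, ?_⟩
      have h2 : y ∈ N := hle (Subgroup.mem_zpowers y)
      rw [hg] at h2
      exact CfsgH3.mem_conj_smul_iff.1 h2
  haveI := hcyc
  refine ⟨hcyc, ?_⟩
  have hc : ∀ a b : G, a * b = b * a := by
    intro a b
    exact IsMulCommutative.is_comm.comm _ _
  have huniq : ∀ N : Subgroup G, IsCoatom N → N = M := by
    intro N hN
    obtain ⟨g, hg⟩ := h M N hM hN
    rw [hg]
    ext x
    rw [CfsgH3.mem_conj_smul_iff, hc g⁻¹ x, inv_mul_cancel_right]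
  have hidx : M.index ≠ 1 := fun h => hM.1 (Subgroup.index_eq_one.1 h)
  let r := M.index.minFac
  have hr : r.Prime := Nat.minFac_prime hidx
  haveI : Fact r.Prime := ⟨hr⟩
  obtain ⟨P⟩ := (inferInstance : Nonempty (Sylow r G))
  have hPtop : (P : Subgroup G) = ⊤ := by
    rcases eq_top_or_exists_le_coatom (P : Subgroup G) with h1 | ⟨N, hN, hle⟩
    · exact h1
    · exfalso
      rw [huniq N hN] at hle
      exact P.not_dvd_index ((Nat.minFac_dvd _).trans (Subgroup.index_dvd_of_le hle))
  obtain ⟨k, hk⟩ := IsPGroup.iff_card.1 P.2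
  rw [hPtop, Subgroup.card_top] at hk
  rw [hk]
  have hk0 : k ≠ 0 := by
    rintro rfl
    rw [pow_zero] at hk
    exact (Finite.one_lt_card (α := G)).ne' hk
  exact hr.isPrimePow.pow hk0

end Cfsg.Agent.S4387
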