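import Mathlib
import Cfsg.Agent.H3.SectRank3
import Cfsg.Statements.S4398

set_option autoImplicit false
open Cfsg

namespace Cfsg.Agent.S4398

/-- Let S be a finite 2-group of sectional 2-rank at most 2 that contains a subgroup isomorphic to the dihedral group of order 8 or to the quaternion group of order 8. Then S is dihedral of order at least 8, semidihedral of order at least 16 (order 2^(k+4) with an element a of order 2^(k+3) and an involution b with b a b⁻¹ = a^(2^(k+2)−1)), or generalized quaternion of order at least 8. -/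
theorem result {S : Type*} [Group S] [Finite S] (h2 : IsPGroup 2 S) (hr : Cfsg.SectionalPRankLE 2 2 S)
    (hsub : ∃ H : Subgroup S, Nonempty (↥H ≃* DihedralGroup 4) ∨ Nonempty (↥H ≃* QuaternionGroup 2)) :
    ((∃ k : ℕ, Nonempty (S ≃* DihedralGroup (2 ^ (k + 2)))) ∨
      (∃ k : ℕ, Nat.card S = 2 ^ (k + 4) ∧ ∃ a b : S, orderOf a = 2 ^ (k + 3) ∧ orderOf b = 2 ∧ b * a * b⁻¹ = a ^ (2 ^ (k + 2) - 1)) ∨
      (∃ k : ℕ, Nonempty (S ≃* QuaternionGroup (2 ^ (k + 1))))) := by
  have h8 : ∃ T : Subgroup S, Nat.card T = 8 ∧ ¬ IsMulCommutative T := by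
    obtain ⟨H, hH⟩ := hsub
    refine ⟨H, ?_⟩
    rcases hH with ⟨⟨e⟩⟩ | ⟨⟨e⟩⟩
    · refine ⟨by rw [Nat.card_congr e.toEquiv, DihedralGroup.nat_card], ?_⟩
      intro hc
      have h1 : (DihedralGroup.r 1 : DihedralGroup 4) * DihedralGroup.sr 0 = DihedralGroup.sr 0 * DihedralGroup.r 1 := by
        have h2 := hc.is_comm.comm (e.symm (DihedralGroup.r 1)) (e.symm (DihedralGroup.sr 0))
        have h3 := congrArg e h2
        rwa [map_mul, map_mul, e.apply_symm_apply, e.apply_symm_apply] at h3
      revert h1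
      decide
    · refine ⟨by rw [Nat.card_congr e.toEquiv, Nat.card_eq_fintype_card, QuaternionGroup.card], ?_⟩
      intro hc
      have h1 : (QuaternionGroup.a 1 : QuaternionGroup 2) * QuaternionGroup.xa 0 = QuaternionGroup.xa 0 * QuaternionGroup.a 1 := by
        have h2 := hc.is_comm.comm (e.symm (QuaternionGroup.a 1)) (e.symm (QuaternionGroup.xa 0))
        have h3 := congrArg e h2
        rwa [map_mul, map_mul, e.apply_symm_apply, e.apply_symm_apply] at h3
      revert h1
      decide
  have h1 := CfsgH3.maxcl_of_rank_two h2 hr h8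
  exact CfsgH3.maxcl_iso h2 h1.1 (by omega)

end Cfsg.Agent.S4398
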