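import Mathlib
import Cfsg.Agent.H3.SectRank2
import Cfsg.Statements.S4400

set_option autoImplicit false
open Cfsg

namespace Cfsg.Agent.S4400

open Subgroup CfsgH3

/-- Let S be a finite 2-group of sectional 2-rank at most 4, and let P and Q be normal non-abelian subgroups of S whose centres have order 2 and are different. Then P and Q commute elementwise and intersect trivially, and PQ contains its own centralizer in S. -/
theorem result {S : Type*} [Group S] [Finite S] (h2 : IsPGroup 2 S) (hr : Cfsg.SectionalPRankLE 2 4 S)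
    (P Q : Subgroup S) [P.Normal] [Q.Normal] (hP : ¬ IsMulCommutative ↥P) (hQ : ¬ IsMulCommutative ↥Q)
    (hZP : Nat.card ↥(Subgroup.center ↥P) = 2) (hZQ : Nat.card ↥(Subgroup.center ↥Q) = 2)
    (hne : (Subgroup.center ↥P).map P.subtype ≠ (Subgroup.center ↥Q).map Q.subtype) :
    ⁅P, Q⁆ = ⊥ ∧ P ⊓ Q = ⊥ ∧ Subgroup.centralizer ((P ⊔ Q : Subgroup S) : Set S) ≤ P ⊔ Q := by
  haveI : Fact (Nat.Prime 2) := ⟨Nat.prime_two⟩
  have htop : ∀ R : Subgroup S, R.Normal → (⊤ : Subgroup S) ≤ normalizer (R : Set S) := fun R hR => 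
    (Subgroup.normalizer_eq_top_iff.2 hR).ge
  have h1 : P ⊓ Q = ⊥ := inf_eq_bot_of_center (p := 2) h2 (T := ⊤) le_top le_top (htop P inferInstance) (htop Q inferInstance) hZP hZQ hne
  have h3 := commute_of_inf_bot (le_top.trans (htop Q inferInstance)) (le_top.trans (htop P inferInstance)) h1
  refine ⟨?_, h1, cent_sup_le h2 hr hP hQ hZP hZQ h1 h3⟩
  rw [Subgroup.commutator_eq_bot_iff_le_centralizer]
  intro a ha
  rw [mem_centralizer_iff]
  intro b hb
  exact (h3 a ha b hb).symm

end Cfsg.Agent.S4400
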