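import Mathlib
import Cfsg.Agent.H3.SectRank4
import Cfsg.Statements.S4401

set_option autoImplicit false
open Cfsg

namespace Cfsg.Agent.S4401

open Subgroup CfsgH3

/-- Let S be a finite 2-group of sectional 2-rank at most 4 and P a proper non-abelian subgroup whose centre has order 2. Let S₀ be the centralizer in S of Z(P) and suppose P is normal in S₀. Then either S₀ = S, or P has sectional 2-rank at most 2 and S₀ has index 2 in S. -/
theorem result {S : Type*} [Group S] [Finite S] (h2 : IsPGroup 2 S) (hr : Cfsg.SectionalPRankLE 2 4 S)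
    (P : Subgroup S) (hPlt : P ≠ ⊤) (hP : ¬ IsMulCommutative ↥P) (hZP : Nat.card ↥(Subgroup.center ↥P) = 2)
    (S₀ : Subgroup S) (hS₀ : S₀ = Subgroup.centralizer (((Subgroup.center ↥P).map P.subtype : Subgroup S) : Set S))
    (hPn : ∀ s ∈ S₀, ∀ x ∈ P, s * x * s⁻¹ ∈ P) :
    S₀ = ⊤ ∨ (Cfsg.SectionalPRankLE 2 2 ↥P ∧ S₀.index = 2) := by
  haveI : Fact (Nat.Prime 2) := ⟨Nat.prime_two⟩
  by_cases hne : S₀ = ⊤
  · exact Or.inl hne
  right
  obtain ⟨z, hz⟩ := exists_prime_orderOf_dvd_card' (G := Subgroup.center P) 2 (by rw [hZP])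
  have hz2 : orderOf ((z : P) : S) = 2 := by
    rw [Subgroup.orderOf_coe, Subgroup.orderOf_coe]; exact hz
  have hzc : ∀ a ∈ P, a * ((z : P) : S) = ((z : P) : S) * a := by
    intro a ha
    have h1 := Subgroup.mem_center_iff.1 z.2 ⟨a, ha⟩
    exact congrArg (Subtype.val : P → S) h1
  have hcm := center_map_eq (z : P).2 hzc hz2 hZP
  refine rank_four_main h2 hr P hP hZP (z : P).2 hzc hz2 S₀ ?_ hPn hne
  rw [hS₀, hcm]
  ext g
  rw [mem_centralizer_singleton_iff, mem_centralizer_iff]
  constructor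
  · intro h
    exact (h _ (mem_zpowers _)).symm
  · intro h w hw
    obtain ⟨k, rfl⟩ := mem_zpowers_iff.1 hw
    exact ((show Commute g _ from h).zpow_right k).eq.symm

end Cfsg.Agent.S4401
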