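import Mathlib
import Cfsg.Agent.H3.AbPrimes
import Cfsg.Agent.H1.Fit
import Cfsg.Agent.H3.FusInd
import Cfsg.Statements.S4408

set_option autoImplicit false
open Cfsg

namespace Cfsg.Agent.S4408

open Subgroup CfsgH3

open scoped Pointwise commutatorElement

theorem half {G : Type*} [Group G] [Finite G] {J A : Subgroup G} (hJ2 : ∀ x ∈ J, x * x = 1) (hJA : J ≤ normalizer (A : Set G))
    (hA : (Nat.card A).Prime) (hn : ¬ J ≤ centralizer (A : Set G)) :
    (J ⊓ centralizer (A : Set G)).relIndex J = 2 := by
  obtain ⟨u, hu⟩ : ∃ u : G, A = zpowers u ∧ u ≠ 1 := by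
    haveI := Fact.mk hA
    obtain ⟨x, hx1⟩ : ∃ x : A, x ≠ 1 := by
      by_contra h
      push Not at h
      have : Nat.card A = 1 := by
        rw [Nat.card_eq_one_iff_unique]
        exact ⟨⟨fun a b => by rw [h a, h b]⟩, ⟨1⟩⟩
      exact hA.one_lt.ne' this
    refine ⟨x, ?_, fun h => hx1 (Subtype.ext h)⟩
    have h1 : zpowers (x : G) ≤ A := by rw [zpowers_le]; exact x.2
    have h2 := (Nat.dvd_prime hA).1 (Subgroup.card_dvd_of_le h1)
    rcases h2 with h2 | h2
    · exfalso
      rw [Subgroup.card_eq_one, zpowers_eq_bot] at h2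
      exact hx1 (Subtype.ext h2)
    · exact (Subgroup.eq_of_le_of_card_ge h1 h2.ge).symm
  obtain ⟨hAu, hu1⟩ := hu
  have hcent : ∀ g : G, g ∈ centralizer (A : Set G) ↔ g * u * g⁻¹ = u := by
    intro g
    rw [hAu, zpowers_eq_closure, centralizer_closure, mem_centralizer_singleton_iff]
    constructor
    · intro h; rw [h]; group
    · intro h
      calc g * u = g * u * g⁻¹ * g := by group
        _ = _ := by rw [h]
  have hord : orderOf u = Nat.card A := by rw [hAu, Nat.card_zpowers]
  have key : ∀ j ∈ J, j * u * j⁻¹ = u ∨ j * u * j⁻¹ = u⁻¹ := by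
    intro j hj
    have h1 : j * u * j⁻¹ ∈ A := (mem_normalizer_iff.1 (hJA hj) u).1 (by rw [hAu]; exact mem_zpowers u)
    rw [hAu] at h1
    obtain ⟨m, hm⟩ := h1
    have hm' : j * u * j⁻¹ = u ^ m := hm.symm
    have h2 : u ^ (m * m) = u := by
      rw [zpow_mul, ← hm', conj_zpow, ← hm']
      have e : j * (j * u * j⁻¹) * j⁻¹ = (j * j) * u * (j * j)⁻¹ := by group
      rw [e, hJ2 j hj]; group
    have h3 : (orderOf u : ℤ) ∣ m * m - 1 := by
      rw [orderOf_dvd_iff_zpow_eq_one, zpow_sub, h2, zpow_one, mul_inv_cancel]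
    have h4 : (m * m - 1 : ℤ) = (m - 1) * (m + 1) := by ring
    rw [h4, hord] at h3
    rcases (Nat.prime_iff_prime_int.1 hA).dvd_or_dvd h3 with h5 | h5
    · left
      rw [← hord, orderOf_dvd_iff_zpow_eq_one, zpow_sub, zpow_one, mul_inv_eq_one] at h5
      rw [hm', h5]
    · right
      rw [← hord, orderOf_dvd_iff_zpow_eq_one, zpow_add, zpow_one, mul_eq_one_iff_eq_inv] at h5
      rw [hm', h5]
  rw [relIndex_eq_two_iff_exists_notMem_and]
  obtain ⟨a, haJ, haA⟩ := SetLike.not_le_iff_exists.1 hn
  refine ⟨a, haJ, fun h => haA h.2, ?_⟩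
  intro b hb
  have ha := (key a haJ).resolve_left (fun h => haA ((hcent a).2 h))
  rcases key b hb with h1 | h1
  · right; exact ⟨hb, (hcent b).2 h1⟩
  · left
    refine ⟨J.mul_mem hb haJ, (hcent _).2 ?_⟩
    have e : b * a * u * (b * a)⁻¹ = b * (a * u * a⁻¹) * b⁻¹ := by group
    rw [e, ha]
    have e2 : b * u⁻¹ * b⁻¹ = (b * u * b⁻¹)⁻¹ := by group
    rw [e2, h1, inv_inv]

/-- Let S be a finite solvable group whose Fitting subgroup F(S) has odd order, and let I be an elementary abelian 2-subgroup of S of order 2ⁿ with n ≥ 1. Then F(S) contains subgroups A₁, …, Aₙ of prime order, each normalized by I, pairwise commuting and generating a subgroup A of order |A₁|⋯|Aₙ| (their internal direct product), such that no non-identity element of I centralizes A. -/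
theorem result {S : Type*} [Group S] [Finite S]
    [Group.IsSolvable S] (hF : Odd (Nat.card ↥(Cfsg.fittingSubgroup S)))
    (I : Subgroup S) (hI : Cfsg.IsElementaryAbelian 2 I) (n : ℕ) (hn : 1 ≤ n) (hIn : Nat.card ↥I = 2 ^ n) :
    ∃ f : Fin n → Subgroup S, (∀ i, (Nat.card ↥(f i)).Prime) ∧ (∀ i, f i ≤ Cfsg.fittingSubgroup S) ∧
      (∀ i, I ≤ Subgroup.normalizer ((f i) : Set S)) ∧ (∀ i j, i ≠ j → ∀ a ∈ f i, ∀ b ∈ f j, a * b = b * a) ∧
      Nat.card ↥(⨆ i, f i) = ∏ i, Nat.card ↥(f i) ∧ I ⊓ Subgroup.centralizer ((⨆ i, f i : Subgroup S) : Set S) = ⊥ := by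
  classical
  have hI2 : ∀ x ∈ I, x * x = 1 := fun x hx => by rw [← pow_two]; exact hI.2 x hx
  have hIc : ∀ x ∈ I, ∀ y ∈ I, x * y = y * x := fun x hx y hy => congrArg Subtype.val (hI.1.is_comm.comm (⟨x, hx⟩ : I) ⟨y, hy⟩)
  set F := Cfsg.fittingSubgroup S with hFdef
  have hFnorm : ∀ H : Subgroup S, H ≤ normalizer (F : Set S) := fun H => CfsgH1.le_normalizer_of_normal H F
  have main : ∀ k : ℕ, k ≤ n → ∃ f : Fin k → Subgroup S, (∀ i, (Nat.card ↥(f i)).Prime) ∧ (∀ i, f i ≤ F) ∧
      (∀ i, I ≤ Subgroup.normalizer ((f i) : Set S)) ∧ (∀ i j, i ≠ j → ∀ a ∈ f i, ∀ b ∈ f j, a * b = b * a) ∧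
      Nat.card ↥(⨆ i, f i) = ∏ i, Nat.card ↥(f i) ∧ Nat.card ↥(I ⊓ Subgroup.centralizer ((⨆ i, f i : Subgroup S) : Set S)) = 2 ^ (n - k) := by
    intro k
    induction k with
    | zero =>
      intro _
      refine ⟨fun i => i.elim0, fun i => i.elim0, fun i => i.elim0, fun i => i.elim0, fun i => i.elim0, ?_, ?_⟩
      · rw [iSup_of_empty, Subgroup.card_bot]; simp
      · have : I ⊓ centralizer ((⨆ i : Fin 0, (i.elim0 : Subgroup S) : Subgroup S) : Set S) = I := by
          rw [iSup_of_empty, inf_eq_left]
          intro x _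
          rw [mem_centralizer_iff]
          intro y hy
          rw [SetLike.mem_coe, mem_bot] at hy
          rw [hy, one_mul, mul_one]
        rw [this, hIn]; rfl
    | succ k ih =>
      intro hk
      obtain ⟨f, hfp, hfF, hfI, hfc, hfcard, hfind⟩ := ih (by omega)
      set B := ⨆ i, f i with hB
      have hBF : B ≤ F := iSup_le hfF
      have hBB : B ≤ centralizer (B : Set S) := by
        rw [hB]
        refine iSup_le fun i => ?_
        rw [le_centralizer_iff]
        refine iSup_le fun j => ?_
        intro b hb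
        rw [mem_centralizer_iff]
        intro a ha
        by_cases hij : i = j
        · subst hij
          haveI := Fact.mk (hfp i)
          haveI : IsCyclic (f i) := isCyclic_of_prime_card (p := Nat.card (f i)) rfl
          letI := IsCyclic.commGroup (α := f i)
          have := mul_comm (⟨a, ha⟩ : f i) ⟨b, hb⟩
          exact congrArg Subtype.val this
        · exact hfc i j hij a ha b hb
      have hIB : I ≤ normalizer (B : Set S) := by
        rw [CfsgH1.le_normalizer_iff_conj]
        intro x hx y hy
        have h1 : MulAut.conj x • B ≤ B := by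
          show (⨆ i, f i).map (MulAut.conj x).toMonoidHom ≤ B
          rw [Subgroup.map_iSup]
          refine iSup_le fun i => ?_
          show MulAut.conj x • f i ≤ B
          rw [CfsgH1.conj_smul_eq_self_iff.2 (hfI i hx)]
          exact le_iSup f i
        apply h1
        rw [CfsgH1.mem_conj_smul]
        have e : x⁻¹ * (x * y * x⁻¹) * x = y := by group
        rw [e]; exact hy
      set R := F ⊓ centralizer (B : Set S) with hR
      set J := I ⊓ centralizer (B : Set S) with hJ
      have hFn : Group.IsNilpotent F := CfsgH2.isNilpotent_fittingSubgroup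
      have hIR : I ≤ normalizer (R : Set S) := by
        apply CfsgH1.le_normalizer_inf (hFnorm I)
        exact hIB.trans (normalizer_le_normalizer_centralizer B)
      have hJn : ¬ J ≤ centralizer (R : Set S) := by
        intro h
        have hJcard : Nat.card J = 2 ^ (n - k) := hfind
        have h1 : J ≤ centralizer (F : Set S) := by
          apply coprime_centralizes_of_selfcent (hFnorm J) hFn _ _ R rfl inf_le_left _ h
          · rw [hJcard]
            exact Nat.Coprime.pow_left _ (Nat.coprime_two_left.2 hF)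
          · refine le_inf inf_le_left (inf_le_right.trans (centralizer_le ?_))
            exact le_inf hBF hBB
        have h2 : J ≤ F := h1.trans CfsgH1.centralizer_fitting_le
        have h3 := Odd.of_dvd_nat hF (Subgroup.card_dvd_of_le h2)
        rw [hJcard, Nat.odd_pow_iff (by omega)] at h3
        exact absurd h3 (by decide)
      obtain ⟨A, hAR, hAp, hAI, hAJ⟩ := exists_inv_prime hIc hI2 hIR (CfsgH1.isNilpotent_of_le hFn inf_le_left)
        (Odd.of_dvd_nat hF (Subgroup.card_dvd_of_le inf_le_left)) (J := J) inf_le_left hJn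
      have hAB : A ⊓ B = ⊥ := by
        have h1 := (Nat.dvd_prime hAp).1 (Subgroup.card_dvd_of_le (inf_le_left : A ⊓ B ≤ A))
        rcases h1 with h1 | h1
        · exact Subgroup.card_eq_one.1 h1
        · exfalso
          have h2 : A ⊓ B = A := Subgroup.eq_of_le_of_card_ge inf_le_left h1.ge
          have h3 : A ≤ B := by rw [← h2]; exact inf_le_right
          exact hAJ (inf_le_right.trans (centralizer_le h3))
      have hAcB : A ≤ centralizer (B : Set S) := hAR.trans inf_le_right
      have hsup : ⨆ i, (Fin.snoc f A : Fin (k+1) → Subgroup S) i = B ⊔ A := by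
        apply le_antisymm
        · refine iSup_le fun i => ?_
          refine Fin.lastCases ?_ (fun j => ?_) i
          · rw [Fin.snoc_last]; exact le_sup_right
          · rw [Fin.snoc_castSucc]; exact (le_iSup f j).trans le_sup_left
        · refine sup_le ?_ ?_
          · rw [hB]
            refine iSup_le fun j => ?_
            have := le_iSup (Fin.snoc f A : Fin (k+1) → Subgroup S) (Fin.castSucc j)
            rwa [Fin.snoc_castSucc] at this
          · have := le_iSup (Fin.snoc f A : Fin (k+1) → Subgroup S) (Fin.last k)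
            rwa [Fin.snoc_last] at this
      refine ⟨Fin.snoc f A, ?_, ?_, ?_, ?_, ?_, ?_⟩
      · intro i
        refine Fin.lastCases ?_ (fun j => ?_) i
        · rw [Fin.snoc_last]; exact hAp
        · rw [Fin.snoc_castSucc]; exact hfp j
      · intro i
        refine Fin.lastCases ?_ (fun j => ?_) i
        · rw [Fin.snoc_last]; exact hAR.trans inf_le_left
        · rw [Fin.snoc_castSucc]; exact hfF j
      · intro i
        refine Fin.lastCases ?_ (fun j => ?_) i
        · rw [Fin.snoc_last]; exact hAI
        · rw [Fin.snoc_castSucc]; exact hfI j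
      · intro i j
        refine Fin.lastCases ?_ (fun i' => ?_) i
        · refine Fin.lastCases ?_ (fun j' => ?_) j
          · intro h; exact absurd rfl h
          · intro _
            rw [Fin.snoc_last, Fin.snoc_castSucc]
            intro a ha b hb
            exact ((mem_centralizer_iff.1 (hAcB ha)) b (le_iSup f j' hb)).symm
        · refine Fin.lastCases ?_ (fun j' => ?_) j
          · intro _
            rw [Fin.snoc_last, Fin.snoc_castSucc]
            intro a ha b hb
            exact ((mem_centralizer_iff.1 (hAcB hb)) a (le_iSup f i' ha))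
          · intro h
            rw [Fin.snoc_castSucc, Fin.snoc_castSucc]
            exact hfc i' j' (fun h' => h (by rw [h']))
      · rw [hsup, sup_comm, CfsgH1.card_sup_of_disjoint (hAcB.trans (centralizer_le_normalizer _)) hAB, Fin.prod_univ_castSucc, Fin.snoc_last, hfcard, mul_comm]
        congr 1
        apply Finset.prod_congr rfl
        intro i _
        rw [Fin.snoc_castSucc]
      · rw [hsup]
        have h1 : I ⊓ centralizer ((B ⊔ A : Subgroup S) : Set S) = J ⊓ centralizer (A : Set S) := by
          have : centralizer ((B ⊔ A : Subgroup S) : Set S) = centralizer (B : Set S) ⊓ centralizer (A : Set S) := by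
            apply le_antisymm
            · exact le_inf (centralizer_le (show (B : Set S) ⊆ (B ⊔ A : Subgroup S) from le_sup_left (a := B))) (centralizer_le (show (A : Set S) ⊆ (B ⊔ A : Subgroup S) from le_sup_right (a := B) (b := A)))
            · rw [le_centralizer_iff]
              refine sup_le ?_ ?_
              · rw [le_centralizer_iff]; exact inf_le_left
              · rw [le_centralizer_iff]; exact inf_le_right
          rw [this, hJ, inf_assoc]
        rw [h1]
        have h2 := half (J := J) (A := A) (fun x hx => hI2 x hx.1) (inf_le_left.trans hAI) hAp hAJ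
        have h3 := Subgroup.relIndex_mul_relIndex (⊥ : Subgroup S) (J ⊓ centralizer (A : Set S)) J bot_le inf_le_left
        rw [Subgroup.relIndex_bot_left, Subgroup.relIndex_bot_left, h2, hfind] at h3
        have h4 : 2 ^ (n - k) = 2 ^ (n - (k + 1)) * 2 := by rw [← pow_succ]; congr 1; omega
        rw [h4] at h3
        exact Nat.eq_of_mul_eq_mul_right (by norm_num) h3
  obtain ⟨f, h1, h2, h3, h4, h5, h6⟩ := main n le_rfl
  refine ⟨f, h1, h2, h3, h4, h5, ?_⟩
  rw [Nat.sub_self, pow_zero] at h6
  exact Subgroup.card_eq_one.1 h6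

end Cfsg.Agent.S4408
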