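import Mathlib
import Cfsg.Agent.H3.QuadFour
import Cfsg.Agent.H1.Fit
import Cfsg.Statements.S4410

set_option autoImplicit false
open Cfsg

namespace Cfsg.Agent.S4410

open Subgroup CfsgH3 

open scoped Pointwise commutatorElement

theorem exists_v0 {V : Type*} [AddCommGroup V] [Module (ZMod 2) V] [Finite V] (W : Submodule (ZMod 2) V) (h : Nat.card W < 4) : ∃ v₀, ∀ w ∈ W, w = 0 ∨ w = v₀ := by
  by_cases hW : ∃ v₀ ∈ W, v₀ ≠ 0
  · obtain ⟨v₀, hv, hv0⟩ := hW
    refine ⟨v₀, fun w hw => ?_⟩
    by_contra hc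
    push Not at hc
    obtain ⟨hw0, hwv⟩ := hc
    let f : ZMod 2 × ZMod 2 → W := fun a => ⟨a.1 • v₀ + a.2 • w, W.add_mem (W.smul_mem _ hv) (W.smul_mem _ hw)⟩
    have hz2 : ∀ a : ZMod 2, a = 0 ∨ a = 1 := by decide
    have hf : Function.Injective f := by
      rintro ⟨a, b⟩ ⟨c, d⟩ hab
      have h1 : a • v₀ + b • w = c • v₀ + d • w := congrArg Subtype.val hab
      have h2 : ¬ v₀ + w = 0 := fun h => hwv (eq_of_add_zero h).symm
      rcases hz2 a with ha | ha <;> rcases hz2 b with hb | hb <;> rcases hz2 c with hc | hc <;> rcases hz2 d with hd | hd <;> 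
        subst ha <;> subst hb <;> subst hc <;> subst hd <;> simp only [zero_smul, one_smul, zero_add, add_zero] at h1 <;> first | rfl | exfalso
      · exact hw0 h1.symm
      · exact hv0 h1.symm
      · exact h2 h1.symm
      · exact hw0 h1
      · exact hwv h1
      · exact hv0 (right_eq_add.1 h1)
      · exact hv0 h1
      · exact hwv h1.symm
      · exact hw0 (left_eq_add.1 h1)
      · exact h2 h1
      · exact hv0 (add_eq_right.1 h1)
      · exact hw0 (add_eq_left.1 h1)
    have h1 := Nat.card_le_card_of_injective f hf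
    have h2 : Nat.card (ZMod 2 × ZMod 2) = 4 := by simp [Nat.card_eq_fintype_card, ZMod.card]
    omega
  · push Not at hW
    exact ⟨0, fun w hw => Or.inl (hW w hw)⟩

/-- Let V be a finite-dimensional vector space over the field with two elements and S a solvable group of linear automorphisms of V with O₂(S) = 1. If P ∈ S has order 4 and (P − 1)³ = 0 on V, then the image of (P − 1)² has at least 4 elements; equivalently, in the decomposition of V into indecomposable modules for the cyclic group generated by P, at least two summands have dimension 3. -/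
theorem result
    {V : Type*} [AddCommGroup V] [Module (ZMod 2) V] [Finite V]
    (S : Subgroup (V ≃ₗ[ZMod 2] V)) (hS : Group.IsSolvable ↥S) (hO2 : Cfsg.pCore 2 ↥S = ⊥)
    (P : V ≃ₗ[ZMod 2] V) (hPS : P ∈ S) (hP4 : orderOf P = 4)
    (hcub : ((P : V →ₗ[ZMod 2] V) - LinearMap.id) ^ 3 = 0) :
    4 ≤ Nat.card ↥(LinearMap.range (((P : V →ₗ[ZMod 2] V) - LinearMap.id) ^ 2)) := by
  classical
  haveI : Finite (V ≃ₗ[ZMod 2] V) := Finite.of_injective (fun f => (f : V → V)) DFunLike.coe_injective
  by_contra hlt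
  rw [not_le] at hlt
  set t := P * P with ht
  have hsq : ∀ z, ((((P : V →ₗ[ZMod 2] V) - LinearMap.id) ^ 2 : Module.End (ZMod 2) V) z) = t z + z := by
    intro z
    rw [pow_two]
    show (P (P z - z)) - (P z - z) = P (P z) + z
    rw [map_sub]
    have h1 := dbl (P z)
    have h2 := dbl z
    calc P (P z) - P z - (P z - z) = P (P z) + z - (P z + P z) := by abel
      _ = _ := by rw [h1, sub_zero]
  obtain ⟨v₀, hv₀⟩ := exists_v0 _ hlt
  have hv : ∀ z, t z = z ∨ t z = z + v₀ := by
    intro z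
    rcases hv₀ _ ⟨z, rfl⟩ with h | h
    · left; rw [hsq] at h; exact eq_of_add_zero h
    · right
      rw [hsq] at h
      have h1 := congrArg (fun w => w + z) h
      change t z + z + z = v₀ + z at h1
      rw [add_assoc, dbl, add_zero] at h1
      rw [h1, add_comm]
  have ht2 : t * t = 1 := by
    rw [ht]
    have h1 := pow_orderOf_eq_one P
    rw [hP4] at h1
    rw [← h1, pow_succ, pow_succ, pow_two, mul_assoc (P * P)]
  have ht1 : t ≠ 1 := by
    intro h
    have h1 : P ^ 2 = 1 := by rw [pow_two]; exact h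
    have h2 := orderOf_dvd_of_pow_eq_one h1
    rw [hP4] at h2
    exact absurd h2 (by decide)
  have htS : t ∈ S := S.mul_mem hPS hPS
  let t' : S := ⟨t, htS⟩
  have ht'2 : t' * t' = 1 := Subtype.ext ht2
  have ht'1 : t' ≠ 1 := fun h => ht1 (congrArg Subtype.val h)
  obtain ⟨r, hr, hrt⟩ : ∃ r : ℕ, r.Prime ∧ t' ∉ centralizer (Cfsg.pCore r S : Set S) := by
    by_contra hcon
    push Not at hcon
    have h1 : Cfsg.fittingSubgroup S ≤ centralizer ({t'} : Set S) := by
      rw [CfsgH2.fittingSubgroup_eq_iSup_pCore]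
      refine iSup_le fun p => ?_
      intro y hy
      rw [mem_centralizer_singleton_iff]
      exact (mem_centralizer_iff.1 (hcon p (Nat.prime_of_mem_primeFactors p.2))) y hy
    have h2 : t' ∈ centralizer (Cfsg.fittingSubgroup S : Set S) := by
      rw [mem_centralizer_iff]
      intro y hy
      exact mem_centralizer_singleton_iff.1 (h1 hy)
    haveI := hS
    have h3 : t' ∈ Cfsg.fittingSubgroup S := CfsgH1.centralizer_fitting_le h2
    let N : Subgroup S := 
      { carrier := {z | z ∈ Cfsg.fittingSubgroup S ∧ (∀ y ∈ Cfsg.fittingSubgroup S, y * z = z * y) ∧ z * z = 1}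
        one_mem' := ⟨one_mem _, fun y _ => by rw [mul_one, one_mul], mul_one 1⟩
        mul_mem' := by
          rintro a b ⟨ha1, ha2, ha3⟩ ⟨hb1, hb2, hb3⟩
          refine ⟨mul_mem ha1 hb1, fun y hy => ?_, ?_⟩
          · rw [← mul_assoc, ha2 y hy, mul_assoc, hb2 y hy, mul_assoc]
          · calc a * b * (a * b) = a * (b * a) * b := by group
              _ = a * (a * b) * b := by rw [ha2 b hb1]
              _ = (a * a) * (b * b) := by group
              _ = 1 := by rw [ha3, hb3, one_mul]
        inv_mem' := by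
          rintro a ⟨ha1, ha2, ha3⟩
          have : a⁻¹ = a := inv_eq_of_mul_eq_one_left ha3
          rw [this]; exact ⟨ha1, ha2, ha3⟩ }
    have hNn : N.Normal := by
      constructor
      rintro z ⟨hz1, hz2, hz3⟩ g
      have hFn : (Cfsg.fittingSubgroup S).Normal := inferInstance
      refine ⟨hFn.conj_mem z hz1 g, fun y hy => ?_, ?_⟩
      · have h4 := hz2 (g⁻¹ * y * g) (by have := hFn.conj_mem y hy g⁻¹; rwa [inv_inv] at this)
        calc y * (g * z * g⁻¹) = g * ((g⁻¹ * y * g) * z) * g⁻¹ := by group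
          _ = g * (z * (g⁻¹ * y * g)) * g⁻¹ := by rw [h4]
          _ = _ := by group
      · calc g * z * g⁻¹ * (g * z * g⁻¹) = g * (z * z) * g⁻¹ := by group
          _ = 1 := by rw [hz3]; group
    have hNp : IsPGroup 2 N := by
      intro z
      refine ⟨1, ?_⟩
      rw [pow_one, pow_two]
      exact Subtype.ext z.2.2.2
    have h4 : N ≤ Cfsg.pCore 2 S := CfsgH2.le_pCore hNn hNp
    rw [hO2, le_bot_iff] at h4
    have h5 : t' ∈ N := ⟨h3, fun y hy => (mem_centralizer_iff.1 h2) y hy, ht'2⟩
    rw [h4, mem_bot] at h5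
    exact ht'1 h5
  haveI := Fact.mk hr
  have hr2 : r ≠ 2 := by
    rintro rfl
    apply hrt
    rw [hO2, mem_centralizer_iff]
    intro y hy
    rw [SetLike.mem_coe, mem_bot] at hy
    rw [hy, one_mul, mul_one]
  obtain ⟨g, hg, hgt⟩ : ∃ g ∈ Cfsg.pCore r S, ¬ g * t' = t' * g := by
    by_contra hcon
    push Not at hcon
    exact hrt (mem_centralizer_iff.2 hcon)
  refine quad_four (R := (Cfsg.pCore r S).map S.subtype) hr2 ((CfsgH2.isPGroup_pCore (G := S) r).map _) (t := t) (P := P) (g := (g : V ≃ₗ[ZMod 2] V)) ht.symm ht2 ht1 ?_ ⟨g, hg, rfl⟩ ?_ hv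
  · rintro _ ⟨y, hy, rfl⟩
    exact ⟨⟨P, hPS⟩ * y * ⟨P, hPS⟩⁻¹, (inferInstance : (Cfsg.pCore r S).Normal).conj_mem y hy _, rfl⟩
  · intro h
    exact hgt (Subtype.ext h.symm)

end Cfsg.Agent.S4410
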