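import Mathlib
import Cfsg.Agent.H3.PBasic
import Cfsg.Agent.H3.PGroup
import Cfsg.Statements.S4420

set_option autoImplicit false
open Cfsg

namespace Cfsg.Agent.S4420

/-- Structure of groups in which every element outside some proper subgroup has square 1. Let H be a finite group with a proper subgroup A such that every element outside A has square 1. Then H has an abelian normal subgroup B of index 2 such that every element outside B is an involution inverting every element of B; and if H is not an elementary abelian 2-group, B is the only abelian normal subgroup of index 2 with this property. -/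
theorem result {H : Type*} [Group H] [Finite H] (A : Subgroup H) (hA : A ≠ ⊤) (hD : ∀ x : H, x ∉ A → x ^ 2 = 1) :
    ∃ B : Subgroup H, B.Normal ∧ IsMulCommutative ↥B ∧ B.index = 2 ∧
      (∀ x : H, x ∉ B → x ^ 2 = 1 ∧ ∀ b ∈ B, x * b * x⁻¹ = b⁻¹) ∧
      (¬ (IsMulCommutative H ∧ ∀ x : H, x ^ 2 = 1) →
        ∀ B' : Subgroup H, B'.Normal → IsMulCommutative ↥B' → B'.index = 2 →
          (∀ x : H, x ∉ B' → x ^ 2 = 1 ∧ ∀ b ∈ B', x * b * x⁻¹ = b⁻¹) → B' = B) := by
  classical
  obtain ⟨t, ht⟩ : ∃ t : H, t ∉ A := by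
    by_contra hcon
    push Not at hcon
    exact hA (eq_top_iff.2 fun x _ => hcon x)
  -- elements of A are inverted by elements outside
  have hinv : ∀ a ∈ A, ∀ x : H, x ∉ A → x * a * x⁻¹ = a⁻¹ := by
    intro a ha x hx
    have h1 : x * a ∉ A := fun h => hx (by have := A.mul_mem h (A.inv_mem ha); rwa [mul_inv_cancel_right] at this)
    have h2 := hD _ h1
    have h3 := hD _ hx
    have h4 : x⁻¹ = x := by rw [inv_eq_iff_mul_eq_one, ← pow_two, h3]
    rw [h4]
    rw [pow_two] at h2
    have h5 : x * a * x * a = 1 := by rw [← h2]; group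
    exact eq_inv_of_mul_eq_one_left h5
  have hAc : ∀ a ∈ A, ∀ b ∈ A, a * b = b * a := by
    intro a ha b hb
    have h1 := hinv (a * b) (A.mul_mem ha hb) t ht
    have h2 := hinv a ha t ht
    have h3 := hinv b hb t ht
    have h4 : t * (a * b) * t⁻¹ = (t * a * t⁻¹) * (t * b * t⁻¹) := by group
    rw [h4, h2, h3] at h1
    have h5 := congrArg (fun z => z⁻¹) h1
    simp only [mul_inv_rev, inv_inv] at h5
    exact h5.symm
  by_cases hel : ∃ a ∈ A, a ^ 2 ≠ 1
  · obtain ⟨a, ha, ha2⟩ := hel
    have hprod : ∀ x y : H, x ∉ A → y ∉ A → x * y ∈ A := by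
      intro x y hx hy
      by_contra hxy
      have h1 := hinv a ha _ hxy
      have h2 := hinv a ha y hy
      have h3 := hinv a⁻¹ (A.inv_mem ha) x hx
      have h4 : x * y * a * (x * y)⁻¹ = x * (y * a * y⁻¹) * x⁻¹ := by group
      rw [h4, h2, h3, inv_inv] at h1
      apply ha2
      rw [pow_two]
      nth_rewrite 2 [h1]
      exact mul_inv_cancel a
    have hidx : A.index = 2 := by
      rw [Subgroup.index_eq_two_iff]
      refine ⟨t, fun b => ?_⟩
      by_cases hb : b ∈ A
      · right
        refine ⟨hb, fun h => ht ?_⟩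
        have := A.mul_mem (A.inv_mem hb) h
        rwa [inv_mul_cancel_left] at this
      · left
        exact ⟨hprod b t hb ht, hb⟩
    refine ⟨A, Subgroup.normal_of_index_eq_two hidx, ⟨⟨fun x y => Subtype.ext (hAc x x.2 y y.2)⟩⟩, hidx,
      fun x hx => ⟨hD x hx, fun b hb => hinv b hb x hx⟩, ?_⟩
    intro _ B' hB'n hB'c hB'i hB'
    have haB : a ∈ B' := by
      by_contra h
      exact ha2 (hB' a h).1
    have hle : B' ≤ A := by
      intro x hx
      by_contra hxA
      have h1 := hinv a ha x hxA
      have h2 : (⟨x, hx⟩ : B') * ⟨a, haB⟩ = ⟨a, haB⟩ * ⟨x, hx⟩ := hB'c.is_comm.comm _ _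
      have h3 : x * a = a * x := congrArg Subtype.val h2
      rw [h3, mul_inv_cancel_right] at h1
      apply ha2
      rw [pow_two]
      nth_rewrite 2 [h1]
      exact mul_inv_cancel a
    have h1 := Subgroup.relIndex_mul_index hle
    rw [hidx, hB'i] at h1
    have h2 : B'.relIndex A = 1 := by omega
    exact le_antisymm hle (Subgroup.relIndex_eq_one.1 h2)
  · push Not at hel
    have hall : ∀ x : H, x ^ 2 = 1 := by
      intro x
      by_cases hx : x ∈ A
      · exact hel x hx
      · exact hD x hx
    have hcomm : ∀ x y : H, x * y = y * x := by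
      intro x y
      have h3 : x * x = 1 := by rw [← pow_two]; exact hall x
      have h4 : y * y = 1 := by rw [← pow_two]; exact hall y
      have h5 : (x * y) * (x * y) = 1 := by rw [← pow_two]; exact hall _
      calc x * y = x * (x * y * (x * y)) * y := by rw [h5, mul_one]
        _ = (x * x) * (y * x) * (y * y) := by group
        _ = y * x := by rw [h3, h4, one_mul, mul_one]
    have hP : IsPGroup 2 H := fun x => ⟨1, by rw [pow_one]; exact hall x⟩
    haveI : Nontrivial H := ⟨t, 1, fun h => ht (by rw [h]; exact A.one_mem)⟩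
    obtain ⟨M, hM⟩ : ∃ M : Subgroup H, IsCoatom M := by
      rcases eq_top_or_exists_le_coatom (⊥ : Subgroup H) with h1 | ⟨M, hM, -⟩
      · exact absurd h1 bot_ne_top
      · exact ⟨M, hM⟩
    refine ⟨M, CfsgH3.coatom_normal hP hM, ⟨⟨fun x y => Subtype.ext (hcomm _ _)⟩⟩, CfsgH3.coatom_index hP hM, ?_, ?_⟩
    · intro x hx
      refine ⟨hall x, fun b hb => ?_⟩
      rw [hcomm x b, mul_inv_cancel_right]
      exact eq_inv_of_mul_eq_one_left (by rw [← pow_two]; exact hall b)
    · intro h
      exact absurd ⟨⟨⟨hcomm⟩⟩, hall⟩ h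

end Cfsg.Agent.S4420
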