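import Cfsg.Statements.S4520
import Cfsg.Agent.H4.RealB
import Cfsg.Agent.H4.Galois

set_option autoImplicit false
open Cfsg

namespace Cfsg.Agent.S4520

/-- Let N be a normal subgroup of odd index in the finite group G, M a maximal ideal of the algebraic integers containing 2, and k coprime to the order of G with k ^ (2 ^ e) ≡ 1 modulo the order of G for some e and g ^ k = g⁻¹ for every element g of odd order. Let θ be an irreducible character of N and χ an irreducible character of G over θ, both unchanged by composing with g ↦ g ^ k. Then χ lies in the principal 2-block of G if and only if θ lies in the principal 2-block of N. -/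
theorem result {G : Type*} [Group G] [Fintype G] (M : Ideal Cfsg.AlgInt) (hM : Cfsg.IsPModular 2 M) (N : Subgroup G) [N.Normal] [Fintype N] (hidx : Odd N.index) (k e : ℕ) (hk : Nat.Coprime k (Nat.card G)) (hke : k ^ (2 ^ e) ≡ 1 [MOD Nat.card G]) (hk₂ : ∀ g : G, Odd (orderOf g) → g ^ k = g⁻¹) (θ : Cfsg.IrrCharacter N) (hθ : ∀ n : N, (θ : N → ℂ) (n ^ k) = (θ : N → ℂ) n) (χ : Cfsg.IrrCharacter G) (hχ : ∀ g : G, (χ : G → ℂ) (g ^ k) = (χ : G → ℂ) g) (hover : Cfsg.classInner (fun n : N => (χ : G → ℂ) n) (θ : N → ℂ) ≠ 0) : χ ∈ Cfsg.principalBlock M G ↔ θ ∈ Cfsg.principalBlock M N := by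
  classical
  haveI : M.IsPrime := hM.2.1.isPrime
  haveI : Fact (Nat.Prime 2) := ⟨Nat.prime_two⟩
  set B := Cfsg.blockOf M (χ : G → ℂ) with hBdef
  set b := Cfsg.blockOf M (θ : N → ℂ) with hbdef
  have hB : Cfsg.IsPBlock M B := ⟨χ, rfl⟩
  have hb : Cfsg.IsPBlock M b := ⟨θ, rfl⟩
  have hχB : χ ∈ B := CfsgH5.mem_blockOf_self χ
  have hθb : θ ∈ b := CfsgH5.mem_blockOf_self θ
  have hcov : CfsgH4.idB M B * CfsgH4.idH M N b ≠ 0 :=
    (CfsgH4.cover_iff hB hb).1 ⟨χ, hχB, θ, hθb, hover⟩
  constructor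
  · intro hp
    have hBp : B = Cfsg.principalBlock M G :=
      CfsgH5.IsPBlock.eq_of_mem hB CfsgH5.isPBlock_principal hχB hp
    have hcov' : CfsgH4.idB M B * CfsgH4.idH M N (Cfsg.principalBlock M N) ≠ 0 := by
      rw [← CfsgH4.cover_iff hB CfsgH5.isPBlock_principal]
      refine ⟨CfsgH5.irrOne G, hBp ▸ CfsgH5.irrOne_mem, CfsgH5.irrOne N, CfsgH5.irrOne_mem, ?_⟩
      have h1 : Cfsg.classInner (fun n : N => ((CfsgH5.irrOne G : Cfsg.IrrCharacter G) : G → ℂ) n)
          ((CfsgH5.irrOne N : Cfsg.IrrCharacter N) : N → ℂ) =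
          Cfsg.classInner ((CfsgH5.irrOne N : Cfsg.IrrCharacter N) : N → ℂ)
          ((CfsgH5.irrOne N : Cfsg.IrrCharacter N) : N → ℂ) := rfl
      rw [h1, CfsgH4.classInner_irr_self (CfsgH5.irrOne N).2]
      exact one_ne_zero
    obtain ⟨x, hx⟩ := CfsgH4.cover_conj (CfsgH4.isBl_top hB) (CfsgH4.isBl_pr N)
      (CfsgH4.isBl_idH hb) hcov' hcov
    rw [CfsgH4.ca_pr, CfsgH4.cj_normal] at hx
    have h2 := CfsgH4.idH_injective hb CfsgH5.isPBlock_principal hx
    rw [← h2]; exact hθb
  · intro hp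
    have hbp : b = Cfsg.principalBlock M N :=
      CfsgH5.IsPBlock.eq_of_mem hb CfsgH5.isPBlock_principal hθb hp
    rw [← CfsgH4.stab_principal hM hk hk₂ hB ?_ ?_]
    · exact hχB
    · obtain ⟨Q, hQ, -⟩ := CfsgH4.exists_DG_ge (p := 2) (H := N) (z := CfsgH4.idH M N b)
        (R := ⊥) bot_le IsPGroup.of_bot (by
          intro h0
          apply (CfsgH4.isBl_idH (M := M) hb).ne
          have h1 : CfsgH4.br (⊥ : Subgroup G) (CfsgH4.idH M N b) = CfsgH4.idH M N b := by
            apply CfsgH4.br_of_sup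
            intro g hg
            exact absurd (Subgroup.mem_centralizer_iff.2 (fun y hy => by
              rw [Subgroup.coe_bot, Set.mem_singleton_iff] at hy
              rw [hy, one_mul, mul_one])) hg
          rw [← h1, h0])
      obtain ⟨P, hP, hPN⟩ := CfsgH4.knorr hM (CfsgH4.isBl_top hB) (CfsgH4.isBl_idH hb) hcov hQ
      have hQN : ∃ D : Subgroup N, Cfsg.IsDefectGroup 2 M b D ∧ D.map N.subtype = Q := by
        refine ⟨Q.subgroupOf N, (CfsgH4.isDefectGroup_iff_DG' hM hb hQ.le).2 hQ, ?_⟩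
        exact CfsgH4.map_subgroupOf_of_le hQ.le
      obtain ⟨D, hD, hDQ⟩ := hQN
      have h1 : Nat.card D = 2 ^ (Nat.card N).factorization 2 := by
        rw [hbp] at hD
        have h2 := (CfsgH4.isDefectGroup_iff_DG hM CfsgH5.isPBlock_principal).1 hD
        rw [CfsgH4.idB_principal, CfsgH4.DG_pr_iff hM] at h2
        obtain ⟨S, hS⟩ := h2
        rw [← hS, S.card_eq_multiplicity]
      have h2 : Nat.card Q = 2 ^ (Nat.card G).factorization 2 := by
        rw [← hDQ, Nat.card_congr (Subgroup.equivMapOfInjective D N.subtype N.subtype_injective).toEquiv.symm, h1]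
        have h3 := N.card_mul_index
        rw [← h3, Nat.factorization_mul Nat.card_pos.ne' (Subgroup.index_ne_zero_of_finite),
          Finsupp.add_apply, Nat.factorization_eq_zero_of_not_dvd (n := N.index) (by
            rw [Nat.odd_iff] at hidx; omega), add_zero]
      have h3 : Nat.card Q ≤ Nat.card P := by
        rw [← hPN]
        exact Nat.card_le_card_of_injective (Subgroup.inclusion inf_le_left)
          (Subgroup.inclusion_injective inf_le_left)
      have h4 := CfsgH5.defectGroup_card hM hB ((CfsgH4.isDefectGroup_iff_DG hM hB).2 hP)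
      rw [h2, h4] at h3
      have h5 := (Nat.pow_le_pow_iff_right (by norm_num)).1 h3
      have h6 : Cfsg.blockDefect 2 B ≤ (Nat.card G).factorization 2 := Nat.sub_le _ _
      omega
    · intro ψ hψ
      obtain ⟨ψ', hψ'⟩ : ∃ ψ' : Cfsg.IrrCharacter G, ∀ g, (ψ' : G → ℂ) g = (ψ : G → ℂ) (g ^ k) :=
        ⟨⟨_, CfsgH4.isIrrCharacter_pow_arg hk ψ.2⟩, fun g => rfl⟩
      refine ⟨ψ', ?_, hψ'⟩
      exact CfsgH4.sameBlock_pow hk hψ (fun g => (hχ g).symm) hψ'

end Cfsg.Agent.S4520
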