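import Cfsg.Statements.S4540
import Cfsg.Agent.H4.Sub9
import Cfsg.Agent.H5.CentP

set_option autoImplicit false
open Cfsg

namespace Cfsg.Agent.S4540

open Cfsg CfsgSub

theorem numeric {α : Type*} [DecidableEq α] (T T0 T1 : Finset α) (h : α → ℕ) (h0 : ∀ a ∈ T0, h a = 0) (h1 : ∀ a ∈ T1, 1 ≤ h a) (hT : T = T0 ∪ T1)
    (hdis : Disjoint T0 T1) : 3 * T.card ≤ 3 * T0.card + 2 * ∑ a ∈ T1, 2 ^ h a := by
  rw [hT, Finset.card_union_of_disjoint hdis, mul_add]
  refine Nat.add_le_add_left ?_ _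
  have h2 : T1.card * 2 ≤ ∑ a ∈ T1, 2 ^ h a := by
    rw [← smul_eq_mul, ← Finset.sum_const]
    refine Finset.sum_le_sum fun a ha => ?_
    calc 2 = 2 ^ 1 := rfl
      _ ≤ 2 ^ h a := Nat.pow_le_pow_right (by norm_num) (h1 a ha)
  omega

/-- Let B be a 2-block of the finite group G (relative to a maximal ideal M of the algebraic integers containing 2) of defect d with defect group D. Let z be an element of D commuting with every element of D, and let b be a block of the centralizer C of z with defect group D that induces B (a major subsection (z, b)). If b has 2-regular rank at most three, then 3·k(B) ≤ 3·k₀(B) + 2·Σ 2 ^ h(χ), where k(B) is the number of members of B, k₀(B) the number of members of height zero, and the sum runs over the members χ of B of positive height h(χ); this bound is at most 3·2 ^ d, so in particular B contains at most 2 ^ d irreducible characters. -/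
theorem result {G : Type*} [Group G] [Finite G] (M : Ideal Cfsg.AlgInt) (hM : Cfsg.IsPModular 2 M) (B : Set (Cfsg.IrrCharacter G)) (hB : Cfsg.IsPBlock M B) (D : Subgroup G) (hD : Cfsg.IsDefectGroup 2 M B D) (z : G) (hzD : z ∈ D) (hzc : ∀ d ∈ D, d * z = z * d) (b : Set (Cfsg.IrrCharacter ↥(Subgroup.centralizer ({z} : Set G)))) (hb : Cfsg.IsInducedBlock M (Subgroup.centralizer ({z} : Set G)) b B) (hbD : Cfsg.IsDefectGroup 2 M b (D.subgroupOf (Subgroup.centralizer ({z} : Set G)))) (hl : Cfsg.blockRank 2 b ≤ 3) : 3 * Nat.card B ≤ 3 * Nat.card {χ : Cfsg.IrrCharacter G // χ ∈ B ∧ Cfsg.blockHeight 2 B (χ : G → ℂ) = 0} + 2 * (∑ᶠ χ ∈ {χ : Cfsg.IrrCharacter G | χ ∈ B ∧ 1 ≤ Cfsg.blockHeight 2 B (χ : G → ℂ)}, 2 ^ Cfsg.blockHeight 2 B (χ : G → ℂ)) ∧ 3 * Nat.card {χ : Cfsg.IrrCharacter G // χ ∈ B ∧ Cfsg.blockHeight 2 B (χ : G → ℂ) = 0} + 2 * (∑ᶠ χ ∈ {χ : Cfsg.IrrCharacter G | χ ∈ B ∧ 1 ≤ Cfsg.blockHeight 2 B (χ :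 G → ℂ)}, 2 ^ Cfsg.blockHeight 2 B (χ : G → ℂ)) ≤ 3 * 2 ^ Cfsg.blockDefect 2 B := by
  classical
  haveI : Fact (Nat.Prime 2) := ⟨Nat.prime_two⟩
  haveI := CfsgH5.IsPModular.isPrime hM
  haveI := Fintype.ofFinite (Subgroup.centralizer ({z} : Set G))
  set u' : Subgroup.centralizer ({z} : Set G) := ⟨z, Subgroup.mem_centralizer_singleton_iff.2 rfl⟩ with hu'
  have hup : ∃ k, orderOf (u' : G) = 2 ^ k := CfsgH5.orderOf_of_mem_pgroup (CfsgH5.IsDefectGroup.isPGroup hD) hzD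
  have hC : (Subgroup.centralizer ({z} : Set G)) = Subgroup.centralizer ({(u' : G)} : Set G) := rfl
  have hd := major_defect hM hB hD hzc hb.1 hbD
  obtain ⟨e, he⟩ := exists_e (C := Subgroup.centralizer ({z} : Set G)) hup
  set T : Finset (Cfsg.IrrCharacter G) := Finset.univ.filter (fun χ => χ ∈ B) with hT
  set T0 : Finset (Cfsg.IrrCharacter G) := Finset.univ.filter (fun χ => χ ∈ B ∧ Cfsg.blockHeight 2 B (χ : G → ℂ) = 0) with hT0
  set T1 : Finset (Cfsg.IrrCharacter G) := Finset.univ.filter (fun χ => χ ∈ B ∧ 1 ≤ Cfsg.blockHeight 2 B (χ : G → ℂ)) with hT1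
  have hcB : Nat.card B = T.card := by
    rw [hT, ← Fintype.card_subtype, ← Nat.card_eq_fintype_card]
  have hc0 : Nat.card {χ : Cfsg.IrrCharacter G // χ ∈ B ∧ Cfsg.blockHeight 2 B (χ : G → ℂ) = 0} = T0.card := by
    rw [hT0, ← Fintype.card_subtype, ← Nat.card_eq_fintype_card]
  have hset : {χ : Cfsg.IrrCharacter G | χ ∈ B ∧ 1 ≤ Cfsg.blockHeight 2 B (χ : G → ℂ)} = (T1 : Set (Cfsg.IrrCharacter G)) := by
    ext χ; simp [hT1]
  have hsum : (∑ᶠ χ ∈ {χ : Cfsg.IrrCharacter G | χ ∈ B ∧ 1 ≤ Cfsg.blockHeight 2 B (χ : G → ℂ)}, 2 ^ Cfsg.blockHeight 2 B (χ : G → ℂ)) =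
      ∑ χ ∈ T1, 2 ^ Cfsg.blockHeight 2 B (χ : G → ℂ) := by
    rw [hset, finsum_mem_coe_finset]
  have hunion : T = T0 ∪ T1 := by
    ext χ
    simp only [hT, hT0, hT1, Finset.mem_union, Finset.mem_filter, Finset.mem_univ, true_and]
    constructor
    · intro h
      by_cases h0 : Cfsg.blockHeight 2 B (χ : G → ℂ) = 0
      · exact Or.inl ⟨h, h0⟩
      · exact Or.inr ⟨h, by omega⟩
    · rintro (h | h)
      · exact h.1
      · exact h.1
  have hdis : Disjoint T0 T1 := by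
    rw [Finset.disjoint_left]
    intro χ h1 h2
    rw [hT0, Finset.mem_filter] at h1
    rw [hT1, Finset.mem_filter] at h2
    have := h1.2.2
    have := h2.2.2
    omega
  rw [hcB, hc0, hsum]
  refine ⟨numeric T T0 T1 (fun χ => Cfsg.blockHeight 2 B (χ : G → ℂ)) (fun χ h => (Finset.mem_filter.1 h).2.2) (fun χ h => (Finset.mem_filter.1 h).2.2) hunion hdis, ?_⟩
  obtain ⟨χ₀, hχ₀, h00⟩ := CfsgH5.exists_height_zero 2 (B := B) (CfsgH5.IsPBlock.nonempty hb.2.1)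
  obtain ⟨x, t, hx, hxt, hpt, hmin⟩ := exists_min hM hb.1 (mz_not_mem hM hb hχ₀ h00)
  have hbd : ∃ τ : Cfsg.IrrCharacter G → ℤ, (∀ χ ∈ T0, 3 ≤ 3 * τ χ) ∧ True := ⟨fun _ => 1, fun _ _ => by norm_num, trivial⟩
  by_cases ht1 : t = 1
  · have h1 := aF_bound' hM hC he hb.1 x T (fun χ => (4 : ℤ) ^ Cfsg.blockHeight 2 B (χ : G → ℂ)) (by
      intro χ hχ
      exact two_case_one hM hC hup he hb hd (Finset.mem_filter.1 hχ).2 hx)
    rw [hxt, ht1, hd, hunion, Finset.sum_union hdis] at h1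
    have h2 : ∑ χ ∈ T0, (4 : ℤ) ^ Cfsg.blockHeight 2 B (χ : G → ℂ) = T0.card := by
      rw [Finset.sum_congr rfl fun χ hχ => by rw [(Finset.mem_filter.1 hχ).2.2, pow_zero], Finset.sum_const]
      simp
    have h3 : (2 : ℤ) * ∑ χ ∈ T1, (2 : ℤ) ^ Cfsg.blockHeight 2 B (χ : G → ℂ) ≤ 3 * ∑ χ ∈ T1, (4 : ℤ) ^ Cfsg.blockHeight 2 B (χ : G → ℂ) := by
      rw [Finset.mul_sum, Finset.mul_sum]
      refine Finset.sum_le_sum fun χ _ => ?_
      have h4 : (2 : ℤ) ^ Cfsg.blockHeight 2 B (χ : G → ℂ) ≤ (4 : ℤ) ^ Cfsg.blockHeight 2 B (χ : G → ℂ) := pow_le_pow_left₀ (by norm_num) (by norm_num) _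
      have h5 : (0 : ℤ) < (4 : ℤ) ^ Cfsg.blockHeight 2 B (χ : G → ℂ) := by positivity
      linarith
    have h6 : ((3 * T0.card + 2 * ∑ χ ∈ T1, 2 ^ Cfsg.blockHeight 2 B (χ : G → ℂ) : ℕ) : ℤ) ≤ ((3 * 2 ^ Cfsg.blockDefect 2 B : ℕ) : ℤ) := by
      push_cast
      rw [h2] at h1
      push_cast at h1
      linarith
    exact_mod_cast h6
  · have ht3 : 3 ≤ t := by
      have h1 : t ≠ 0 := by intro h; apply hpt; rw [h]; exact dvd_zero 2
      have h2 : t ≠ 2 := by intro h; apply hpt; rw [h]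
      omega
    have h1 := trace_bound' hM hC he hb.1 T (fun χ => if Cfsg.blockHeight 2 B (χ : G → ℂ) = 0 then (3 : ℤ) else 2 * 2 ^ Cfsg.blockHeight 2 B (χ : G → ℂ)) (by
      intro χ hχ
      have hχB := (Finset.mem_filter.1 hχ).2
      by_cases h0 : Cfsg.blockHeight 2 B (χ : G → ℂ) = 0
      · simp only [if_pos h0]
        exact avg_lower_v Nat.prime_two (isBil_cA hM hb.1) (CfsgH5.wt u') (wt_root (CfsgH5.mem_center_of_eq hC) he) (mz _ (χ : G → ℂ)) (Sv hM b) (smul_mem_Sv hM b)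
          (by norm_num) (fun y hy => le_trans (by exact_mod_cast ht3) (hmin y hy)) (mz_not_mem hM hb hχB h0)
      · simp only [if_neg h0]
        exact two_case_three hM hC hup he hb hd hχB hx h0)
    rw [hd, hunion, Finset.sum_union hdis] at h1
    have h2 : ∑ χ ∈ T0, (if Cfsg.blockHeight 2 B (χ : G → ℂ) = 0 then (3 : ℤ) else 2 * 2 ^ Cfsg.blockHeight 2 B (χ : G → ℂ)) = 3 * T0.card := by
      rw [Finset.sum_congr rfl fun χ hχ => if_pos (Finset.mem_filter.1 hχ).2.2, Finset.sum_const]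
      simp [mul_comm]
    have h3 : ∑ χ ∈ T1, (if Cfsg.blockHeight 2 B (χ : G → ℂ) = 0 then (3 : ℤ) else 2 * 2 ^ Cfsg.blockHeight 2 B (χ : G → ℂ)) =
        2 * ∑ χ ∈ T1, (2 : ℤ) ^ Cfsg.blockHeight 2 B (χ : G → ℂ) := by
      rw [Finset.mul_sum]
      refine Finset.sum_congr rfl fun χ hχ => if_neg ?_
      have := (Finset.mem_filter.1 hχ).2.2
      omega
    rw [h2, h3] at h1
    have h4 : (Cfsg.blockRank 2 b : ℤ) ≤ 3 := by exact_mod_cast hl
    have h5 : (0 : ℤ) < 2 ^ Cfsg.blockDefect 2 B := by positivity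
    have h6 : ((3 * T0.card + 2 * ∑ χ ∈ T1, 2 ^ Cfsg.blockHeight 2 B (χ : G → ℂ) : ℕ) : ℤ) ≤ ((3 * 2 ^ Cfsg.blockDefect 2 B : ℕ) : ℤ) := by
      push_cast
      push_cast at h1
      nlinarith
    exact_mod_cast h6

end Cfsg.Agent.S4540
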