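import Cfsg.Statements.S4558
import Cfsg.Agent.H4.BrauerA

set_option autoImplicit false
open Cfsg

namespace Cfsg.Agent.S4558

/-- Let χ be a character of the finite group G and g an element of p-power order for the prime p. If χ g = 0, then p divides the degree of χ. -/
theorem result {G : Type*} [Group G] [Finite G] (p : ℕ) [Fact p.Prime] (χ : G → ℂ) (hχ : Cfsg.IsCharacter G χ) (g : G) (hg : ∃ j : ℕ, orderOf g = p ^ j) (h0 : χ g = 0) : p ∣ Cfsg.charDegree χ := by
  obtain ⟨j, hj⟩ := hg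
  have h1 : χ 1 = ((Cfsg.charDegree χ : ℤ) : ℂ) := by
    obtain ⟨n, hn⟩ := CfsgH4.IsCharacter.one_nat hχ
    unfold Cfsg.charDegree
    rw [hn]; simp
  have h2 : χ (g ^ p ^ j) = ((Cfsg.charDegree χ : ℤ) : ℂ) := by
    rw [← hj, pow_orderOf_eq_one, h1]
  have h3 := CfsgH4.char_int_congr (Fact.out : p.Prime) j hχ g (a := 0) (by rw [h0]; simp) h2
  rw [zero_sub, dvd_neg] at h3
  exact_mod_cast h3

end Cfsg.Agent.S4558
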