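import Cfsg.Statements.S4566
import Cfsg.Agent.H4.Extend
import Cfsg.Agent.H4.Orth

set_option autoImplicit false
open Cfsg

namespace Cfsg.Agent.S4566

/-- Let N be a central subgroup of the finite group G, ψ a faithful irreducible (hence degree-one) character of N, and χ an irreducible character of G whose restriction to N contains ψ. If g ∈ G and some x ∈ G has commutator x⁻¹ g⁻¹ x g in N but different from 1, then χ g = 0. -/
theorem result {G : Type*} [Group G] [Fintype G] (N : Subgroup G) [Fintype N] (hN : N ≤ Subgroup.center G) (ψ : Cfsg.IrrCharacter ↥N) (hfaith : ∀ n : ↥N, (ψ : ↥N → ℂ) n = (ψ : ↥N → ℂ) 1 → n = 1) (χ : Cfsg.IrrCharacter G) (hover : Cfsg.classInner (fun n : ↥N => (χ : G → ℂ) n) (ψ : ↥N → ℂ) ≠ 0) (g x : G) (hcomm : x⁻¹ * g⁻¹ * x * g ∈ N) (hne : x⁻¹ * g⁻¹ * x * g ≠ 1) : (χ : G → ℂ) g = 0 := by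
  classical
  obtain ⟨lam, hlam⟩ := CfsgH4.exists_central_char χ.2 N hN
  have hres : ∀ n : N, (χ : G → ℂ) n = lam n * (χ : G → ℂ) 1 := by
    intro n
    have := hlam n 1
    rwa [one_mul] at this
  obtain ⟨mu, hmu⟩ := CfsgH4.exists_central_char ψ.2 (⊤ : Subgroup N) (by
    intro n _
    rw [Subgroup.mem_center_iff]
    intro m
    apply Subtype.ext
    exact (Subgroup.mem_center_iff.1 (hN n.2) m))
  have hψ : ∀ n : N, (ψ : N → ℂ) n = mu ⟨n, trivial⟩ * (ψ : N → ℂ) 1 := by
    intro n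
    have := hmu ⟨n, trivial⟩ 1
    rwa [one_mul] at this
  -- orthogonality of linear characters
  let nu : N →* ℂˣ := mu.comp (Subgroup.topEquiv.symm.toMonoidHom)
  have hnu : ∀ n : N, nu n = mu ⟨n, trivial⟩ := fun n => rfl
  have hlin : lam = nu := by
    by_contra hne2
    apply hover
    have h1 : ∀ n : N, (χ : G → ℂ) n * starRingEnd ℂ ((ψ : N → ℂ) n) =
        ((χ : G → ℂ) 1 * starRingEnd ℂ ((ψ : N → ℂ) 1)) * ((lam n : ℂ) * starRingEnd ℂ (nu n : ℂ)) := by
      intro n
      rw [hres, hψ, hnu, map_mul]; ring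
    unfold Cfsg.classInner
    rw [Finset.sum_congr rfl fun n _ => h1 n, ← Finset.mul_sum]
    -- sum zero
    obtain ⟨m, hm⟩ : ∃ m : N, lam m ≠ nu m := by
      by_contra hcon
      push Not at hcon
      exact hne2 (MonoidHom.ext hcon)
    have hnorm : ∀ n : N, (nu n : ℂ) * starRingEnd ℂ (nu n : ℂ) = 1 := by
      intro n
      have h5 : ((nu n : ℂˣ) : ℂ) ^ Nat.card N = 1 := by
        rw [← Units.val_pow_eq_pow_val, ← map_pow, pow_card_eq_one', map_one, Units.val_one]
      have h6 : ‖((nu n : ℂˣ) : ℂ)‖ = 1 := by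
        have := congrArg norm h5
        rw [norm_pow, norm_one] at this
        exact (pow_eq_one_iff_of_nonneg (norm_nonneg _) Nat.card_pos.ne').1 this
      rw [Complex.mul_conj, Complex.normSq_eq_norm_sq, h6]; norm_num
    have hsum : ∑ n : N, (lam n : ℂ) * starRingEnd ℂ (nu n : ℂ) = 0 := by
      set S := ∑ n : N, (lam n : ℂ) * starRingEnd ℂ (nu n : ℂ) with hS
      have h2 : ((lam m : ℂ) * starRingEnd ℂ (nu m : ℂ)) * S = S := by
        rw [hS, Finset.mul_sum]
        refine Fintype.sum_equiv (Equiv.mulLeft m) _ _ (fun n => ?_)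
        simp only [Equiv.coe_mulLeft, map_mul, Units.val_mul]
        ring
      have h3 : (lam m : ℂ) * starRingEnd ℂ (nu m : ℂ) ≠ 1 := by
        intro h4
        apply hm
        apply Units.ext
        have := hnorm m
        have h5 : (lam m : ℂ) * (starRingEnd ℂ (nu m : ℂ) * nu m) = nu m := by
          rw [← mul_assoc, h4, one_mul]
        rw [mul_comm (starRingEnd ℂ _), this, mul_one] at h5
        exact h5
      have h4 : ((lam m : ℂ) * starRingEnd ℂ (nu m : ℂ) - 1) * S = 0 := by linear_combination h2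
      rcases mul_eq_zero.1 h4 with h5 | h5
      · exact absurd (sub_eq_zero.1 h5) h3
      · exact h5
    rw [hsum]; simp
  set z : N := ⟨x⁻¹ * g⁻¹ * x * g, hcomm⟩ with hz
  have h1 : (χ : G → ℂ) g = (χ : G → ℂ) (x⁻¹ * g * x) := by
    have := CfsgH4.IsCharacter.conj_eq (CfsgH4.IsIrr.isCharacter χ.2) g (x⁻¹)
    rw [inv_inv] at this
    exact this.symm
  have hzc : ((z : N) : G) ∈ Subgroup.center G := hN z.2
  have h2 : x⁻¹ * g * x = g * ((z⁻¹ : N) : G) := by
    have e1 : x⁻¹ * g⁻¹ * x * g = (z : G) := rfl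
    have e3 : ((z⁻¹ : N) : G) = (x⁻¹ * g⁻¹ * x * g)⁻¹ := rfl
    have e4 : g * ((z⁻¹ : N) : G) = g * (g⁻¹ * x⁻¹ * g * x) := by
      rw [e3]; group
    rw [e4]; group
  rw [h2, hlam] at h1
  have h3 : lam z⁻¹ ≠ 1 := by
    intro h4
    rw [map_inv, inv_eq_one] at h4
    have h5 : (ψ : N → ℂ) z = (ψ : N → ℂ) 1 := by
      rw [hψ z, ← hnu, ← hlin, h4]; simp
    have h6 := hfaith z h5
    apply hne
    have := congrArg Subtype.val h6
    exact this
  have h4 : ((lam z⁻¹ : ℂ) - 1) * (χ : G → ℂ) g = 0 := by linear_combination -h1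
  rcases mul_eq_zero.1 h4 with h5 | h5
  · exfalso; apply h3; apply Units.ext; rw [sub_eq_zero.1 h5]; rfl
  · exact h5

end Cfsg.Agent.S4566
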