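import Cfsg.Statements.S4580
import Cfsg.Agent.H4.RealB
import Cfsg.Agent.H4.Gallagher
import Cfsg.Agent.H4.Extend2
import Cfsg.Agent.H5.Cover

set_option autoImplicit false
open Cfsg

namespace Cfsg.Agent.S4580

/-- Let N be a normal subgroup of the finite group G, M a maximal ideal of the algebraic integers containing 2, and θ a real-valued irreducible character of N of odd degree that extends to G (some irreducible character of G restricts to θ). Then θ has an extension to G lying in the principal 2-block of G. -/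
theorem result {G : Type*} [Group G] [Finite G] (N : Subgroup G) [N.Normal] (M : Ideal Cfsg.AlgInt) (hM : Cfsg.IsPModular 2 M) (θ : Cfsg.IrrCharacter N) (hreal : ∀ n : N, ((θ : N → ℂ) n).im = 0) (hodd : Odd (Cfsg.charDegree (θ : N → ℂ))) (hext : ∃ η : Cfsg.IrrCharacter G, ∀ n : N, (η : G → ℂ) n = (θ : N → ℂ) n) :
    ∃ η : Cfsg.IrrCharacter G, (∀ n : N, (η : G → ℂ) n = (θ : N → ℂ) n) ∧ η ∈ Cfsg.principalBlock M G := by
  classical
  haveI := Fintype.ofFinite G
  haveI := Fintype.ofFinite N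
  haveI : Fact (Nat.Prime 2) := ⟨Nat.prime_two⟩
  haveI : M.IsPrime := hM.2.1.isPrime
  obtain ⟨η₀, hη₀⟩ := hext
  -- the complex conjugate
  have hcN : ∀ n : N, (CfsgH4.irrConj η₀ : G → ℂ) n = (θ : N → ℂ) n := by
    intro n
    show (starRingEnd ℂ) ((η₀ : G → ℂ) n) = _
    rw [hη₀ n]
    exact Complex.conj_eq_iff_im.2 (hreal n)
  have hθf : (fun n : N => (η₀ : G → ℂ) n) = (θ : N → ℂ) := funext hη₀
  have hθf' : (fun n : N => (CfsgH4.irrConj η₀ : G → ℂ) n) = (θ : N → ℂ) := funext hcN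
  obtain ⟨β, hβ, hβN, hβη⟩ := (CfsgH4.gallagher N (CfsgH4.IsIrr.isCharacter η₀.2) (by rw [hθf]; exact θ.2)).2.2
    (CfsgH4.irrConj η₀ : G → ℂ) (CfsgH4.irrConj η₀).2 (by
      rw [hθf, hθf', CfsgH4.classInner_irr_self θ.2]; exact one_ne_zero)
  have h1 : β 1 = 1 := by
    have h2 := congrFun hβη 1
    have h3 : (CfsgH4.irrConj η₀ : G → ℂ) 1 = (η₀ : G → ℂ) 1 := CfsgH4.one_conj η₀
    rw [h3, Pi.mul_apply] at h2
    have h4 : (η₀ : G → ℂ) 1 ≠ 0 := CfsgH4.IsIrr.one_ne_zero η₀.2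
    exact mul_right_cancel₀ h4 (by rw [one_mul]; exact h2.symm)
  obtain ⟨f, hf⟩ := CfsgH4.linear_iff.1 ⟨hβ, h1⟩
  have hfN : ∀ n ∈ N, f n = 1 := by
    intro n hn
    have h2 := hβN n hn
    rw [h1, hf] at h2
    exact Units.ext h2
  obtain ⟨a, m, hm, hnm⟩ := Nat.exists_eq_two_pow_mul_odd (n := Nat.card G) Nat.card_pos.ne'
  obtain ⟨j, hj⟩ := hm
  have hfc : ∀ g, f g ^ Nat.card G = 1 := by
    intro g
    rw [← map_pow, pow_card_eq_one', map_one]
  let μ : G →* ℂˣ := f ^ (j + 1)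
  let η : IrrCharacter G := ⟨fun g => (μ g : ℂ) * (η₀ : G → ℂ) g, CfsgH4.linear_mul_irr μ η₀.2⟩
  have hμN : ∀ n : N, μ n = 1 := fun n => by
    show (f ^ (j + 1)) (n : G) = 1
    rw [MonoidHom.pow_apply, hfN n n.2, one_pow]
  have hηN : ∀ n : N, (η : G → ℂ) n = (θ : N → ℂ) n := by
    intro n
    show (μ n : ℂ) * (η₀ : G → ℂ) n = _
    rw [hμN n, hη₀ n, Units.val_one, one_mul]
  refine ⟨η, hηN, ?_⟩
  -- `η` is real on elements of odd order
  have hreg : ∀ g : G, ¬ 2 ∣ orderOf g → (CfsgH4.irrConj η : G → ℂ) g = (η : G → ℂ) g := by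
    intro g hg
    have h2 : f g ^ m = 1 := by
      have h3 : (f g ^ m) ^ (2 ^ a) = 1 := by
        rw [← pow_mul, mul_comm m, ← hnm]; exact hfc g
      have h4 : orderOf (f g ^ m) ∣ 2 ^ a := orderOf_dvd_of_pow_eq_one h3
      have h5 : orderOf (f g ^ m) ∣ orderOf g := (orderOf_pow_dvd m).trans (orderOf_map_dvd f g)
      have h6 : orderOf (f g ^ m) = 1 := by
        obtain ⟨i, hi, hi2⟩ := (Nat.dvd_prime_pow Nat.prime_two).1 h4
        rcases Nat.eq_zero_or_pos i with rfl | hi0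
        · simpa using hi2
        · exact absurd ((dvd_pow_self 2 hi0.ne').trans (hi2 ▸ h5)) hg
      exact orderOf_eq_one_iff.1 h6
    have h3 : (CfsgH4.irrConj η₀ : G → ℂ) g = (f g : ℂ) * (η₀ : G → ℂ) g := by
      rw [hβη, hf]; rfl
    have h4 : (starRingEnd ℂ) (μ g : ℂ) * (μ g : ℂ) = 1 := by
      rw [mul_comm, Complex.mul_conj, Complex.normSq_eq_norm_sq, CfsgH4.norm_unit_of_finite]
      norm_num
    have h5 : (μ g : ℂ) ^ 2 = (f g : ℂ) := by
      have h6 : μ g ^ 2 = f g := by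
        show ((f ^ (j + 1)) g) ^ 2 = f g
        rw [MonoidHom.pow_apply, ← pow_mul, show (j + 1) * 2 = m + 1 by omega, pow_succ, h2, one_mul]
      rw [← Units.val_pow_eq_pow_val, h6]
    show (starRingEnd ℂ) ((μ g : ℂ) * (η₀ : G → ℂ) g) = (μ g : ℂ) * (η₀ : G → ℂ) g
    rw [map_mul]
    have h7 : (starRingEnd ℂ) ((η₀ : G → ℂ) g) = (f g : ℂ) * (η₀ : G → ℂ) g := h3
    rw [h7, ← h5]
    linear_combination ((μ g : ℂ) * (η₀ : G → ℂ) g) * h4
  have hsame : SameBlock M (η : G → ℂ) (CfsgH4.irrConj η : G → ℂ) := by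
    apply CfsgH5.sameBlock_of_regular hM (χ := η) (ψ := CfsgH4.irrConj η)
    intro g hg
    rw [Cfsg.centralChar, Cfsg.centralChar, hreg g hg, hreg 1 (by simp), sub_self]
    exact CfsgH5.memLocalIdeal_zero
  have hB := CfsgH5.isPBlock_blockOf (M := M) η
  have hodd' : ¬ 2 ∣ charDegree (η : G → ℂ) := by
    have h2 : charDegree (η : G → ℂ) = charDegree (θ : N → ℂ) := by
      rw [charDegree, charDegree]
      have h3 := hηN 1
      rw [Subgroup.coe_one] at h3
      rw [h3]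
    rw [h2]
    obtain ⟨c, hc⟩ := hodd
    omega
  have hfac : (charDegree (η : G → ℂ)).factorization 2 = 0 := Nat.factorization_eq_zero_of_not_dvd hodd'
  have hdef : blockDefect 2 (blockOf M (η : G → ℂ)) = (Nat.card G).factorization 2 := by
    rw [blockDefect]
    have h2 : sInf ((fun χ : IrrCharacter G => (charDegree (χ : G → ℂ)).factorization 2) '' (blockOf M (η : G → ℂ))) = 0 := by
      apply Nat.sInf_eq_zero.2
      left
      exact ⟨η, CfsgH5.mem_blockOf_self η, hfac⟩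
    rw [h2, Nat.sub_zero]
  have hcardpos : 0 < Nat.card G := Nat.card_pos
  have hpow : ∀ g : G, g ^ (Nat.card G - 1) = g⁻¹ := by
    intro g
    rw [eq_inv_iff_mul_eq_one, ← pow_succ, Nat.sub_add_cancel hcardpos, pow_card_eq_one']
  have hcop : Nat.Coprime (Nat.card G - 1) (Nat.card G) := by
    have h2 : Nat.Coprime (Nat.card G - 1) (Nat.card G - 1 + 1) := by simp
    rwa [Nat.sub_add_cancel hcardpos] at h2
  have hconj : ∀ (χ : IrrCharacter G) (g : G), (CfsgH4.irrConj χ : G → ℂ) g = (χ : G → ℂ) (g ^ (Nat.card G - 1)) := by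
    intro χ g
    rw [hpow, CfsgH4.IsCharacter.inv_eq (CfsgH4.IsIrr.isCharacter χ.2)]
    rfl
  have hfin := CfsgH4.stab_principal hM hcop (fun g _ => hpow g) hB hdef (by
    intro χ hχ
    refine ⟨CfsgH4.irrConj χ, ?_, hconj χ⟩
    have h2 : SameBlock M (CfsgH4.irrConj η : G → ℂ) (CfsgH4.irrConj χ : G → ℂ) :=
      CfsgH4.sameBlock_pow hcop (χ := (η : G → ℂ)) (ψ := (χ : G → ℂ)) hχ (hconj η) (hconj χ)
    exact CfsgH5.sameBlock_trans hsame h2)
  rw [← hfin]
  exact CfsgH5.mem_blockOf_self η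

end Cfsg.Agent.S4580
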