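import Cfsg.Statements.S4588
import Cfsg.Agent.H4.Do8

set_option autoImplicit false
open Cfsg

namespace Cfsg.Agent.S4588

open CfsgH4 CfsgDo CfsgSub
open CfsgH5 hiding regInner_symm

/-- Let G be a finite group, p a prime and M a maximal ideal of the algebraic integers containing p. If some p-element x of G (possibly x = 1) has centralizer whose order has p-part at most p², then the principal p-block of G contains at most p² irreducible characters of degree prime to p. -/
theorem result {G : Type*} [Group G] [Finite G] (p : ℕ) [Fact p.Prime] (M : Ideal Cfsg.AlgInt) (hM : Cfsg.IsPModular p M)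
    (hx : ∃ x : G, (∃ k : ℕ, orderOf x = p ^ k) ∧ (Nat.card (Subgroup.centralizer ({x} : Set G))).factorization p ≤ 2) :
    Nat.card {χ : Cfsg.IrrCharacter G // χ ∈ Cfsg.principalBlock M G ∧ ¬ p ∣ Cfsg.charDegree (χ : G → ℂ)} ≤ p ^ 2 := by
  classical
  haveI := CfsgH5.IsPModular.isPrime hM
  haveI := Fintype.ofFinite G
  obtain ⟨x, hxp, hxc⟩ := hx
  have hB0 : IsPBlock M (principalBlock M G) := isPBlock_principal
  have hone : irrOne G ∈ principalBlock M G := irrOne_mem
  have hdle : ∀ (K : Type _) [Group K] (A : Set (IrrCharacter K)), blockDefect p A ≤ (Nat.card K).factorization p := by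
    intro K _ A
    rw [blockDefect]
    exact Nat.sub_le _ _
  have hht : ∀ χ : IrrCharacter G, χ ∈ principalBlock M G → (¬ p ∣ charDegree (χ : G → ℂ) ↔
      blockHeight p (principalBlock M G) (χ : G → ℂ) = 0) := by
    intro χ hχ
    have e1 := degree_eq (p := p) hχ
    have e2 := degree_eq (p := p) hone
    have e3 : blockHeight p (principalBlock M G) (irrOne G : G → ℂ) = 0 := height_principal _
    have e4 : charDegree (irrOne G : G → ℂ) = 1 := charDegree_one
    rw [e3, e4, Nat.factorization_one] at e2
    have e5 : (0 : ℕ →₀ ℕ) p = 0 := rfl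
    rw [e5] at e2
    have e6 : (charDegree (χ : G → ℂ)).factorization p = blockHeight p (principalBlock M G) (χ : G → ℂ) := by omega
    rw [← e6]
    constructor
    · intro h; exact Nat.factorization_eq_zero_of_not_dvd h
    · intro h hd
      have := (Nat.Prime.dvd_iff_one_le_factorization (Fact.out : p.Prime) (charDegree_ne_zero χ)).1 hd
      omega
  have hcard : Nat.card {χ : IrrCharacter G // χ ∈ principalBlock M G ∧ ¬ p ∣ charDegree (χ : G → ℂ)} =
      Nat.card {χ : IrrCharacter G // χ ∈ principalBlock M G ∧ blockHeight p (principalBlock M G) (χ : G → ℂ) = 0} :=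
    Nat.card_congr (Equiv.subtypeEquivRight fun χ => ⟨fun h => ⟨h.1, (hht χ h.1).1 h.2⟩, fun h => ⟨h.1, (hht χ h.1).2 h.2⟩⟩)
  have hpp : 0 < p := (Fact.out : p.Prime).pos
  by_cases hx1 : x = 1
  · subst hx1
    have h1 : Subgroup.centralizer ({(1 : G)} : Set G) = ⊤ := by
      rw [eq_top_iff]
      intro g _
      rw [Subgroup.mem_centralizer_iff]
      intro h hh
      rw [Set.mem_singleton_iff.1 hh, one_mul, mul_one]
    rw [h1, Subgroup.card_top] at hxc
    have h2 : blockDefect p (principalBlock M G) ≤ 2 := (hdle G _).trans hxc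
    have h3 := card_le_two hM hB0 h2
    have h4 : Nat.card {χ : IrrCharacter G // χ ∈ principalBlock M G ∧ ¬ p ∣ charDegree (χ : G → ℂ)} ≤
        Nat.card (principalBlock M G) :=
      Nat.card_le_card_of_injective (fun χ => (⟨χ.1, χ.2.1⟩ : principalBlock M G)) (fun χ ψ h =>
        Subtype.ext (congrArg (fun z : principalBlock M G => (z : IrrCharacter G)) h))
    exact h4.trans (h3.trans (Nat.pow_le_pow_right hpp h2))
  · haveI := Fintype.ofFinite (cz (Subgroup.zpowers x))
    have hb : IsPBlock M (principalBlock M (cz (Subgroup.zpowers x))) := isPBlock_principal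
    obtain ⟨B', -, hB'⟩ := exists_ind hM hxp hb
    have hind : IsInducedBlock M (cz (Subgroup.zpowers x)) (principalBlock M (cz (Subgroup.zpowers x))) (principalBlock M G) :=
      (third_main hM ⟨B', hB'⟩).2 rfl
    have hd2 : blockDefect p (principalBlock M (cz (Subgroup.zpowers x))) ≤ 2 := by
      refine (hdle _ _).trans ?_
      rw [card_cz_zp]; exact hxc
    have hZp : IsPGroup p (Subgroup.zpowers (uc x)) := CfsgH5.isPGroup_zpowers (by rw [zp_order]; exact hxp)
    have hZ1 : Subgroup.zpowers (uc x) ≠ ⊥ := by
      rw [Ne, Subgroup.zpowers_eq_bot]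
      intro h; exact hx1 (congrArg Subtype.val h)
    have h1 := card_height_zero_mul_le (u := uc x) hM (cz_zpowers_eq x) hxp hind
      (τ := (blockRank p (principalBlock M (cz (Subgroup.zpowers x))) : ℤ)) (Int.natCast_nonneg _) (fun y hy =>
      central_bound hM (zp_center x) hZp hZ1 hb hd2 y (fun h => hy ((mem_Sv_iff_dvd hM hb).2 (by rw [h]; exact dvd_zero _))))
    have h2 : 0 < blockRank p (principalBlock M (cz (Subgroup.zpowers x))) := Nat.pos_of_ne_zero (blockRank_ne_zero hM hb)
    rw [hcard]
    have h3 : Nat.card {χ : IrrCharacter G // χ ∈ principalBlock M G ∧ blockHeight p (principalBlock M G) (χ : G → ℂ) = 0} *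
        blockRank p (principalBlock M (cz (Subgroup.zpowers x))) ≤
        blockRank p (principalBlock M (cz (Subgroup.zpowers x))) * p ^ blockDefect p (principalBlock M (cz (Subgroup.zpowers x))) := by
      exact_mod_cast h1
    rw [mul_comm] at h3
    exact (Nat.le_of_mul_le_mul_left h3 h2).trans (Nat.pow_le_pow_right hpp hd2)

end Cfsg.Agent.S4588
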