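import Cfsg.Statements.S4742
import Cfsg.Agent.H5.Wada

set_option autoImplicit false
open Cfsg

namespace Cfsg.Agent.S4742

open CfsgH5

/-- Let p ≠ q be primes dividing the order of the finite group G, and suppose the centralizer of every non-identity p-element of G has order prime to q. Then either G has an irreducible character of p-defect zero, or for every non-identity q-element z of G there are conjugates g, h of z such that g h⁻¹ is a non-identity p-element. -/
theorem result {G : Type*} [Group G] [Finite G] (p q : ℕ) [Fact p.Prime] [Fact q.Prime] (hppq : p ≠ q) (hpG : p ∣ Nat.card G) (hqG : q ∣ Nat.card G) (hC : ∀ g : G, g ≠ 1 → (∃ k : ℕ, orderOf g = p ^ k) → ¬ q ∣ Nat.card ↥(Subgroup.centralizer ({g} : Set G))) : (∃ χ : Cfsg.IrrCharacter G, (Cfsg.charDegree (χ : G → ℂ)).factorization p = (Nat.card G).factorization p) ∨ ∀ z : G, z ≠ 1 → (∃ k : ℕ, orderOf z = q ^ k) → ∃ g h : G, IsConj z g ∧ IsConj z h ∧ g * h⁻¹ ≠ 1 ∧ ∃ k : ℕ, orderOf (g * h⁻¹) = p ^ k := by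
  by_cases hno : ∃ χ : Cfsg.IrrCharacter G, (Cfsg.charDegree (χ : G → ℂ)).factorization p = (Nat.card G).factorization p
  · exact Or.inl hno
  right
  intro z hz1 hz
  obtain ⟨P⟩ : Nonempty (Sylow p G) := inferInstance
  have hzC : ¬ p ∣ Nat.card (Subgroup.centralizer ({z} : Set G)) := by
    intro hdvd
    obtain ⟨u, hu⟩ := exists_prime_orderOf_dvd_card' (G := Subgroup.centralizer ({z} : Set G)) p hdvd
    have hu' : orderOf (u : G) = p := by rw [Subgroup.orderOf_coe, hu]
    have hu1 : (u : G) ≠ 1 := by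
      intro h
      rw [h, orderOf_one] at hu'
      exact (Fact.out : p.Prime).one_lt.ne hu'
    apply hC u hu1 ⟨1, by rw [hu', pow_one]⟩
    obtain ⟨k, hk⟩ := hz
    have h1 : z ∈ Subgroup.centralizer ({(u : G)} : Set G) := by
      rw [Subgroup.mem_centralizer_singleton_iff]
      exact (Subgroup.mem_centralizer_singleton_iff.1 u.2).symm
    have h2 : orderOf z ∣ Nat.card (Subgroup.centralizer ({(u : G)} : Set G)) := Subgroup.orderOf_dvd_natCard _ h1
    refine (dvd_trans ?_ h2)
    rw [hk]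
    apply dvd_pow_self
    rintro rfl
    rw [pow_zero, orderOf_eq_one_iff] at hk
    exact hz1 hk
  obtain ⟨g, h, hg, hh, hgh, hne⟩ := exists_quot hno hzC P
  refine ⟨g, h, hg, hh, hne, ?_⟩
  obtain ⟨k, hk⟩ := (IsPGroup.iff_orderOf.1 P.isPGroup') ⟨_, hgh⟩
  rw [Subgroup.orderOf_mk] at hk
  exact ⟨k, hk⟩

end Cfsg.Agent.S4742
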