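import Cfsg.Statements.S4743
import Cfsg.Agent.H5.Wada

set_option autoImplicit false
open Cfsg

namespace Cfsg.Agent.S4743

open CfsgH5
theorem normal_case {G : Type*} [Group G] [Finite G] (p q : ℕ) [Fact p.Prime] [Fact q.Prime]
    (hC : ∀ g : G, g ≠ 1 → (∃ k : ℕ, orderOf g = p ^ k) → ¬ q ∣ Nat.card ↥(Subgroup.centralizer ({g} : Set G)))
    (N : Subgroup G) [hN : N.Normal] (hpN : ¬ p ∣ Nat.card N) (hqN : q ∣ Nat.card N) :
    ∃ χ : Cfsg.IrrCharacter G, (Cfsg.charDegree (χ : G → ℂ)).factorization p = (Nat.card G).factorization p := by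
  by_contra hno
  obtain ⟨z, hz⟩ := exists_prime_orderOf_dvd_card' (G := N) q hqN
  have hz' : orderOf (z : G) = q := by rw [Subgroup.orderOf_coe, hz]
  obtain ⟨P⟩ : Nonempty (Sylow p G) := inferInstance
  have hzC : ¬ p ∣ Nat.card (Subgroup.centralizer ({(z : G)} : Set G)) := by
    intro hdvd
    obtain ⟨u, hu⟩ := exists_prime_orderOf_dvd_card' (G := Subgroup.centralizer ({(z : G)} : Set G)) p hdvd
    have hu' : orderOf (u : G) = p := by rw [Subgroup.orderOf_coe, hu]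
    have hu1 : (u : G) ≠ 1 := by
      intro h
      rw [h, orderOf_one] at hu'
      exact (Fact.out : p.Prime).one_lt.ne hu'
    apply hC u hu1 ⟨1, by rw [hu', pow_one]⟩
    have h1 : (z : G) ∈ Subgroup.centralizer ({(u : G)} : Set G) := by
      rw [Subgroup.mem_centralizer_singleton_iff]
      exact (Subgroup.mem_centralizer_singleton_iff.1 u.2).symm
    have h2 : orderOf (z : G) ∣ Nat.card (Subgroup.centralizer ({(u : G)} : Set G)) := Subgroup.orderOf_dvd_natCard _ h1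
    rw [hz'] at h2
    exact h2
  obtain ⟨g, h, hg, hh, hgh, hne⟩ := exists_quot hno hzC P
  have hconj : ∀ g, IsConj (z : G) g → g ∈ N := by
    intro g hg
    obtain ⟨c, rfl⟩ := isConj_iff.1 hg
    exact hN.conj_mem _ z.2 c
  have h1 : g * h⁻¹ ∈ N := N.mul_mem (hconj g hg) (N.inv_mem (hconj h hh))
  obtain ⟨k, hk⟩ := (IsPGroup.iff_orderOf.1 P.isPGroup') ⟨_, hgh⟩
  rw [Subgroup.orderOf_mk] at hk
  apply hpN
  refine dvd_trans ?_ (Subgroup.orderOf_dvd_natCard N h1)
  rw [hk]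
  apply dvd_pow_self
  rintro rfl
  rw [pow_zero, orderOf_eq_one_iff] at hk
  exact hne hk

theorem comm_case {G : Type*} [Group G] [Finite G] (p q : ℕ) [Fact p.Prime] [Fact q.Prime]
    (hC : ∀ g : G, g ≠ 1 → (∃ k : ℕ, orderOf g = p ^ k) → ¬ q ∣ Nat.card ↥(Subgroup.centralizer ({g} : Set G))) :
    ∀ g : G, g ≠ 1 → (∃ k : ℕ, orderOf g = q ^ k) → ¬ p ∣ Nat.card ↥(Subgroup.centralizer ({g} : Set G)) := by
  rintro z hz1 ⟨k, hk⟩ hdvd
  obtain ⟨u, hu⟩ := exists_prime_orderOf_dvd_card' (G := Subgroup.centralizer ({(z : G)} : Set G)) p hdvd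
  have hu' : orderOf (u : G) = p := by rw [Subgroup.orderOf_coe, hu]
  have hu1 : (u : G) ≠ 1 := by
    intro h
    rw [h, orderOf_one] at hu'
    exact (Fact.out : p.Prime).one_lt.ne hu'
  apply hC u hu1 ⟨1, by rw [hu', pow_one]⟩
  have h1 : (z : G) ∈ Subgroup.centralizer ({(u : G)} : Set G) := by
    rw [Subgroup.mem_centralizer_singleton_iff]
    exact (Subgroup.mem_centralizer_singleton_iff.1 u.2).symm
  have h2 : orderOf (z : G) ∣ Nat.card (Subgroup.centralizer ({(u : G)} : Set G)) := Subgroup.orderOf_dvd_natCard _ h1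
  refine dvd_trans ?_ h2
  rw [hk]
  apply dvd_pow_self
  rintro rfl
  rw [pow_zero, orderOf_eq_one_iff] at hk
  exact hz1 hk

theorem solv_case {G : Type*} [Group G] [Finite G] (p q : ℕ) [Fact p.Prime] [Fact q.Prime] (hppq : p ≠ q)
    (hpG : p ∣ Nat.card G) (h : Cfsg.IsPSolvable p G) :
    ∃ N : Subgroup G, N.Normal ∧ ((p ∣ Nat.card N ∧ ¬ q ∣ Nat.card N) ∨ (¬ p ∣ Nat.card N ∧ q ∣ Nat.card N)) := by
  obtain ⟨n, H, h0, hn, hmono, hnorm, hfac⟩ := h
  have hp : p.Prime := Fact.out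
  have hq : q.Prime := Fact.out
  by_contra hcon
  push Not at hcon
  -- every `H i` has order prime to `p q`
  have key : ∀ i : ℕ, ∀ hi : i < n + 1, ¬ p ∣ Nat.card (H ⟨i, hi⟩) ∧ ¬ q ∣ Nat.card (H ⟨i, hi⟩) := by
    intro i
    induction i with
    | zero =>
      intro hi
      have : H ⟨0, hi⟩ = ⊥ := h0
      rw [this, Subgroup.card_bot]
      exact ⟨hp.one_lt.ne' ∘ Nat.dvd_one.1, hq.one_lt.ne' ∘ Nat.dvd_one.1⟩
    | succ i ih =>
      intro hi
      have hi' : i < n := by omega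
      obtain ⟨ih1, ih2⟩ := ih (by omega)
      have hle : H ⟨i, by omega⟩ ≤ H ⟨i + 1, hi⟩ := hmono (by simp [Fin.le_def])
      have hcard : Nat.card (H ⟨i + 1, hi⟩) = Nat.card (H ⟨i, by omega⟩) * (H ⟨i, by omega⟩).relIndex (H ⟨i + 1, hi⟩) := by
        rw [← Subgroup.card_mul_index ((H ⟨i, by omega⟩).subgroupOf (H ⟨i + 1, hi⟩)), Subgroup.relIndex,
          Nat.card_congr (Subgroup.subgroupOfEquivOfLe hle).toEquiv]
      have hc := hcon (H ⟨i + 1, hi⟩) (hnorm _)
      rcases hfac ⟨i, hi'⟩ with ⟨m, hm⟩ | hcop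
      · have hm' : (H ⟨i, by omega⟩).relIndex (H ⟨i + 1, hi⟩) = p ^ m := hm
        have h1 : ¬ q ∣ Nat.card (H ⟨i + 1, hi⟩) := by
          rw [hcard, hm', hq.dvd_mul]
          rintro (h | h)
          · exact ih2 h
          · exact hppq ((Nat.prime_dvd_prime_iff_eq hq hp).1 (hq.dvd_of_dvd_pow h)).symm
        exact ⟨fun h => h1 (hc.1 h), h1⟩
      · have hcop' : ((H ⟨i, by omega⟩).relIndex (H ⟨i + 1, hi⟩)).Coprime p := hcop
        have h1 : ¬ p ∣ Nat.card (H ⟨i + 1, hi⟩) := by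
          rw [hcard, hp.dvd_mul]
          rintro (h | h)
          · exact ih1 h
          · exact hp.one_lt.ne' (Nat.dvd_one.1 ((hcop' : Nat.gcd _ _ = 1) ▸ Nat.dvd_gcd h dvd_rfl))
        exact ⟨h1, hc.2 h1⟩
  have h1 := (key n (by omega)).1
  have h2 : H ⟨n, by omega⟩ = ⊤ := hn
  rw [h2, Subgroup.card_top] at h1
  exact h1 hpG


/-- Let p ≠ q be primes dividing the order of the finite group G, suppose the centralizer of every non-identity p-element has order prime to q, and suppose G is p-solvable or q-solvable. Then G has an irreducible character of p-defect zero or an irreducible character of q-defect zero. -/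
theorem result {G : Type*} [Group G] [Finite G] (p q : ℕ) [Fact p.Prime] [Fact q.Prime] (hppq : p ≠ q) (hpG : p ∣ Nat.card G) (hqG : q ∣ Nat.card G) (hC : ∀ g : G, g ≠ 1 → (∃ k : ℕ, orderOf g = p ^ k) → ¬ q ∣ Nat.card ↥(Subgroup.centralizer ({g} : Set G))) (hsolv : Cfsg.IsPSolvable p G ∨ Cfsg.IsPSolvable q G) : (∃ χ : Cfsg.IrrCharacter G, (Cfsg.charDegree (χ : G → ℂ)).factorization p = (Nat.card G).factorization p) ∨ (∃ χ : Cfsg.IrrCharacter G, (Cfsg.charDegree (χ : G → ℂ)).factorization q = (Nat.card G).factorization q) := by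
  obtain ⟨N, hN, h⟩ : ∃ N : Subgroup G, N.Normal ∧ ((p ∣ Nat.card N ∧ ¬ q ∣ Nat.card N) ∨ (¬ p ∣ Nat.card N ∧ q ∣ Nat.card N)) := by
    rcases hsolv with h | h
    · exact solv_case p q hppq hpG h
    · obtain ⟨N, hN, h⟩ := solv_case q p hppq.symm hqG h
      exact ⟨N, hN, h.symm.imp And.symm And.symm⟩
  haveI := hN
  rcases h with ⟨h1, h2⟩ | ⟨h1, h2⟩
  · right
    exact normal_case q p (comm_case p q hC) N h2 h1
  · left
    exact normal_case p q hC N h1 h2

end Cfsg.Agent.S4743
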