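import Cfsg.Statements.S4744
import Cfsg.Agent.H5.NoTwoP

set_option autoImplicit false
open Cfsg

namespace Cfsg.Agent.S4744

open CfsgH5

/-- Let p be an odd prime and G a finite group of even order divisible by p in which the centralizer of every non-identity p-element has odd order. Then either G has an irreducible character of p-defect zero, or the normalizer of every Sylow p-subgroup P of G has even order and P is abelian. -/
theorem result {G : Type*} [Group G] [Finite G] (p : ℕ) [Fact p.Prime] (hp2 : p ≠ 2) (hpG : p ∣ Nat.card G) (h2G : 2 ∣ Nat.card G) (hC : ∀ g : G, g ≠ 1 → (∃ k : ℕ, orderOf g = p ^ k) → Odd (Nat.card ↥(Subgroup.centralizer ({g} : Set G)))) : (∃ χ : Cfsg.IrrCharacter G, (Cfsg.charDegree (χ : G → ℂ)).factorization p = (Nat.card G).factorization p) ∨ ∀ P : Sylow p G, Even (Nat.card ↥(Subgroup.normalizer ((P : Subgroup G) : Set G))) ∧ IsMulCommutative ↥(P : Subgroup G) := by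
  by_cases hno : ∃ χ : Cfsg.IrrCharacter G, (Cfsg.charDegree (χ : G → ℂ)).factorization p = (Nat.card G).factorization p
  · exact Or.inl hno
  right
  intro P
  haveI : Fact (Nat.Prime 2) := ⟨Nat.prime_two⟩
  obtain ⟨s, hs⟩ := exists_prime_orderOf_dvd_card' (G := G) 2 h2G
  obtain ⟨t, hst, ht, htP⟩ := noTwoP_main hC hno hs P
  have ht1 : t ≠ 1 := by
    rintro rfl
    have := isConj_one_left.1 hst
    rw [this, orderOf_one] at hs
    norm_num at hs
  have hto : orderOf t = 2 := orderOf_eq_prime (by rw [pow_two]; exact ht) ht1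
  refine ⟨?_, ?_⟩
  · have htN : t ∈ Subgroup.normalizer ((P : Subgroup G) : Set G) := by
      rw [Subgroup.mem_normalizer_iff]
      intro x
      constructor
      · intro hx; rw [htP x hx]; exact P.inv_mem hx
      · intro hx
        have := htP _ hx
        have e : t * (t * x * t⁻¹) * t⁻¹ = x := by
          have ht' : t⁻¹ = t := inv_eq_of_mul_eq_one_left ht
          calc t * (t * x * t⁻¹) * t⁻¹ = (t * t) * x * (t⁻¹ * t⁻¹) := by group
            _ = x := by rw [ht, ht', ht]; group
        rw [e] at this
        rw [this]; exact P.inv_mem hx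
    have := Subgroup.orderOf_dvd_natCard _ htN
    rw [hto] at this
    exact even_iff_two_dvd.2 this
  · refine ⟨⟨fun x y => ?_⟩⟩
    apply Subtype.ext
    show (x : G) * y = y * x
    have h1 := htP _ (P.mul_mem x.2 y.2)
    have h2 := htP _ x.2
    have h3 := htP _ y.2
    have h4 : t * ((x : G) * y) * t⁻¹ = (x : G)⁻¹ * (y : G)⁻¹ := by
      rw [← h2, ← h3]; group
    have h6 : (x : G)⁻¹ * (y : G)⁻¹ = ((x : G) * y)⁻¹ := h4.symm.trans h1
    have h5 := congrArg (fun z => z⁻¹) h6
    simp only [mul_inv_rev, inv_inv] at h5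
    exact h5.symm

end Cfsg.Agent.S4744
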