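import Cfsg.Statements.S4755
import Cfsg.Agent.H5.Quick4

set_option autoImplicit false
open Cfsg

namespace Cfsg.Agent.S4755

open CfsgH4 CfsgH5

/-- Let x, y be non-identity elements of the finite group G such that χ(x' y') = χ(x') χ(y') for all conjugates x' of x, y' of y and every irreducible character χ. Then the conjugacy class of x y is the set of all products of a conjugate of x with a conjugate of y; every irreducible character of degree greater than 1 vanishes at x y; and the conjugacy class of x y is the coset of the commutator subgroup containing x y. -/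
theorem result {G : Type*} [Group G] [Finite G] (x y : G) (hx : x ≠ 1) (hy : y ≠ 1) (h : ∀ (a b : G) (χ : Cfsg.IrrCharacter G), (χ : G → ℂ) (a * x * a⁻¹ * (b * y * b⁻¹)) = (χ : G → ℂ) (a * x * a⁻¹) * (χ : G → ℂ) (b * y * b⁻¹)) : (∀ z : G, IsConj (x * y) z ↔ ∃ a b : G, z = a * x * a⁻¹ * (b * y * b⁻¹)) ∧ (∀ χ : Cfsg.IrrCharacter G, (χ : G → ℂ) 1 ≠ 1 → (χ : G → ℂ) (x * y) = 0) ∧ (∀ z : G, IsConj (x * y) z ↔ (x * y)⁻¹ * z ∈ commutator G) := by
  have hcl : ∀ (χ : IrrCharacter G) (a g : G), (χ : G → ℂ) (a * g * a⁻¹) = (χ : G → ℂ) g := fun χ a g =>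
    IsIrr.isClassFunction χ.2 g a
  have h' : ∀ (a b : G) (χ : IrrCharacter G), (χ : G → ℂ) (a * x * a⁻¹ * (b * y * b⁻¹)) =
      (χ : G → ℂ) x * (χ : G → ℂ) y := fun a b χ => by rw [h, hcl, hcl]
  have h1 : ∀ z : G, IsConj (x * y) z ↔ ∃ a b : G, z = a * x * a⁻¹ * (b * y * b⁻¹) := by
    haveI := Fintype.ofFinite G
    intro z
    constructor
    · intro hz
      obtain ⟨c, hc⟩ := isConj_iff.1 hz
      exact ⟨c, c, by rw [← hc]; group⟩
    · rintro ⟨a, b, rfl⟩
      rw [isConj_iff_irr]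
      intro χ
      have h2 := h' 1 1 χ
      rw [one_mul, inv_one, mul_one, one_mul, mul_one] at h2
      rw [h2, h']
  have h2 := (class_prod_iff x y).1 h1
  have h3 : ∀ χ : IrrCharacter G, (χ : G → ℂ) 1 ≠ 1 → (χ : G → ℂ) (x * y) = 0 := by
    intro χ hχ
    have h4 := h2 1 1 χ
    have h5 := h' 1 1 χ
    rw [one_mul, inv_one, mul_one, one_mul, mul_one] at h4 h5
    rw [← h5] at h4
    have h6 : ((χ : G → ℂ) 1 - 1) * (χ : G → ℂ) (x * y) = 0 := by rw [sub_mul, h4, one_mul, sub_self]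
    exact (mul_eq_zero.1 h6).resolve_left (sub_ne_zero.2 hχ)
  exact ⟨h1, h3, fun z => class_coset h3 z⟩

end Cfsg.Agent.S4755
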