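import Cfsg.Statements.S4763
import Cfsg.Agent.H5.NpcOne

set_option autoImplicit false
open Cfsg

namespace Cfsg.Agent.S4763

open CfsgH5 CfsgH4



/-- Let p be a prime and G a finite group that is not nilpotent and has a normal p-complement (a normal subgroup of order prime to p and index a power of p). If G has exactly one irreducible complex character of degree divisible by p, then G has exactly one conjugacy class whose size is divisible by p. -/
theorem result {G : Type*} [Group G] [Finite G] (p : ℕ) [Fact p.Prime] (hnil : ¬ Group.IsNilpotent G) (N : Subgroup G) [N.Normal] (hN : (Nat.card N).Coprime p) (hidx : ∃ k : ℕ, N.index = p ^ k) (hone : Nat.card {χ : Cfsg.IrrCharacter G // p ∣ Cfsg.charDegree (χ : G → ℂ)} = 1) : Nat.card {C : ConjClasses G // p ∣ Nat.card C.carrier} = 1 := by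
  classical
  haveI : Fintype G := Fintype.ofFinite G
  have hpN : ¬ p ∣ Nat.card N := by
    intro h
    have := Nat.Coprime.eq_one_of_dvd hN.symm h
    exact (Fact.out : p.Prime).one_lt.ne' this
  have hNb : N ≠ ⊥ := by
    rintro rfl
    apply hnil
    obtain ⟨k, hk⟩ := hidx
    rw [Subgroup.index_bot] at hk
    exact (IsPGroup.of_card hk).isNilpotent
  have hab := ab_of_one N hNb hpN hidx hone
  obtain ⟨P⟩ : Nonempty (Sylow p G) := inferInstance
  obtain ⟨k, hk⟩ := hidx
  obtain ⟨n, hn⟩ := IsPGroup.iff_card.1 P.isPGroup'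
  have hcop : (Nat.card N).Coprime (Nat.card (P : Subgroup G)) := by
    rw [hn]; exact (Nat.Coprime.pow_left n ((Nat.Prime.coprime_iff_not_dvd Fact.out).2 hpN)).symm
  have hNP : N ⊔ (P : Subgroup G) = ⊤ := by
    apply Subgroup.eq_top_of_card_eq
    have h1 : Nat.card N ∣ Nat.card ↥(N ⊔ (P : Subgroup G)) := Subgroup.card_dvd_of_le le_sup_left
    have h2 : Nat.card (P : Subgroup G) ∣ Nat.card ↥(N ⊔ (P : Subgroup G)) := Subgroup.card_dvd_of_le le_sup_right
    have h3 := Nat.Coprime.mul_dvd_of_dvd_of_dvd hcop h1 h2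
    have h4 : Nat.card N * Nat.card (P : Subgroup G) = Nat.card G := by
      have h5 : Nat.card G = p ^ k * Nat.card N := by rw [← hk, Subgroup.index_mul_card]
      rw [CfsgH3.Simp.card_syl h5 hpN P, h5, mul_comm]
    rw [h4] at h3
    exact Nat.dvd_antisymm (Subgroup.card_subgroup_dvd_card _) h3
  have habP : ∀ x ∈ (P : Subgroup G), ∀ y ∈ (P : Subgroup G), x * y = y * x := by
    intro x hx y hy
    have h1 := hab (x : G ⧸ N) (y : G ⧸ N)
    rw [← QuotientGroup.mk_mul, ← QuotientGroup.mk_mul, QuotientGroup.eq] at h1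
    have h2 : (x * y)⁻¹ * (y * x) ∈ N ⊓ (P : Subgroup G) :=
      Subgroup.mem_inf.2 ⟨h1, (P : Subgroup G).mul_mem ((P : Subgroup G).inv_mem ((P : Subgroup G).mul_mem hx hy)) ((P : Subgroup G).mul_mem hy hx)⟩
    rw [disjoint_iff.1 (Subgroup.disjoint_of_coprime_natCard hcop), Subgroup.mem_bot, inv_mul_eq_one] at h2
    exact h2
  have h1 := card_pclass P (norm_le_cent N hpN P hNP habP)
  have h2 := card_pchar N hpN P hNP habP
  have h3 : Nat.card {χ : IrrCharacter G // p ∣ charDegree (χ : G → ℂ)} + Nat.card {χ : IrrCharacter G // ¬ p ∣ charDegree (χ : G → ℂ)} =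
      Nat.card (IrrCharacter G) := by
    rw [← Nat.card_sum]
    exact Nat.card_congr (Equiv.sumCompl (fun χ : IrrCharacter G => p ∣ charDegree (χ : G → ℂ)))
  have h4 : Nat.card {C : ConjClasses G // p ∣ Nat.card C.carrier} + Nat.card {C : ConjClasses G // ¬ p ∣ Nat.card C.carrier} =
      Nat.card (ConjClasses G) := by
    rw [← Nat.card_sum]
    exact Nat.card_congr (Equiv.sumCompl (fun C : ConjClasses G => p ∣ Nat.card C.carrier))
  rw [hone, h2] at h3
  rw [h1] at h4
  have h5 : Nat.card (IrrCharacter G) = Nat.card (ConjClasses G) := card_irr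
  omega

end Cfsg.Agent.S4763
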