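import Cfsg.Statements.S4801
import Cfsg.Agent.H5.Quick5

set_option autoImplicit false
open Cfsg

namespace Cfsg.Agent.S4801

open CfsgH4 CfsgH5

/-- The codegree of an irreducible complex character χ of a finite group G is [G : ker χ] / χ(1), where ker χ is the set of elements at which χ takes the value χ(1). Let S be a finite simple group and G a finite group such that every codegree of an irreducible character of S is a codegree of an irreducible character of G. Then the order of S divides the order of G. -/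
theorem result {S : Type*} [Group S] [Finite S] (hS : IsSimpleGroup S) {G : Type*} [Group G] [Finite G] (hsub : ∀ χ : Cfsg.IrrCharacter S, ∃ ψ : Cfsg.IrrCharacter G, (Nat.card S / (Nat.card {g : S // (χ : S → ℂ) g = (χ : S → ℂ) 1} * Cfsg.charDegree (χ : S → ℂ))) = (Nat.card G / (Nat.card {g : G // (ψ : G → ℂ) g = (ψ : G → ℂ) 1} * Cfsg.charDegree (ψ : G → ℂ)))) : Nat.card S ∣ Nat.card G := by
  classical
  haveI := hS
  haveI : Nontrivial S := hS.toNontrivial
  rw [Nat.dvd_iff_prime_pow_dvd_dvd]
  intro p k hp hk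
  rcases Nat.eq_zero_or_pos k with rfl | hk0
  · rw [pow_zero]; exact one_dvd _
  obtain ⟨χ, hχ1, hχp⟩ := exists_coprime_degree hp ((dvd_pow_self p hk0.ne').trans hk)
  obtain ⟨K, hKn, hK, hidx⟩ := codeg_spec χ
  have hKb : K = ⊥ := by
    rcases hS.eq_bot_or_eq_top_of_normal K hKn with h | h
    · exact h
    · exfalso
      apply hχ1
      haveI := Fintype.ofFinite S
      have h1 : ∀ g : S, (χ : S → ℂ) g = (χ : S → ℂ) 1 := fun g => (hK g).1 (by rw [h]; trivial)
      have h2 := classInner_irr' χ (irrOne S)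
      by_contra hne
      rw [if_neg hne, classInner_def] at h2
      have h3 : ∑ g : S, (χ : S → ℂ) g * (starRingEnd ℂ) (((irrOne S : IrrCharacter S) : S → ℂ) g) =
          (Nat.card S : ℂ) * (χ : S → ℂ) 1 := by
        rw [Finset.sum_congr rfl (g := fun _ => (χ : S → ℂ) 1) fun g _ => ?_, Finset.sum_const,
          Finset.card_univ, nsmul_eq_mul, Nat.card_eq_fintype_card]
        rw [h1 g]
        show (χ : S → ℂ) 1 * (starRingEnd ℂ) (1 : ℂ) = _
        rw [map_one, mul_one]
      rw [h3, ← mul_assoc, inv_mul_cancel₀ (card_ne_zero S), one_mul] at h2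
      exact IsIrr.one_ne_zero χ.2 h2
  rw [hKb, Subgroup.index_bot] at hidx
  have h1 : p ^ k ∣ codeg χ := by
    rw [hidx] at hk
    exact (Nat.Coprime.pow_left k ((hp.coprime_iff_not_dvd).2 hχp)).dvd_of_dvd_mul_right hk
  obtain ⟨ψ, hψ⟩ := hsub χ
  have h2 : codeg χ = codeg ψ := hψ
  rw [h2] at h1
  exact h1.trans (codeg_dvd ψ)

end Cfsg.Agent.S4801
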