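import Cfsg.Statements.S4873
import Cfsg.Agent.H5.RealOdd

set_option autoImplicit false
open Cfsg

namespace Cfsg.Agent.S4873

open CfsgH5 CfsgH4

/-- Let N be a normal subgroup of odd index in the finite group G. Then every irreducible complex character of N with Frobenius–Schur indicator +1 lies under exactly one irreducible character of G with Frobenius–Schur indicator +1. -/
theorem result {G : Type*} [Group G] [Finite G] (N : Subgroup G) [N.Normal] (hodd : Odd N.index) (φ : Cfsg.IrrCharacter ↥N) (hφ : (Nat.card ↥N : ℂ)⁻¹ * ∑ᶠ g : ↥N, (φ : ↥N → ℂ) (g * g) = 1) : ∃! χ : Cfsg.IrrCharacter G, (Nat.card G : ℂ)⁻¹ * ∑ᶠ g : G, (χ : G → ℂ) (g * g) = 1 ∧ (∑ᶠ n : ↥N, (χ : G → ℂ) n * (starRingEnd ℂ) ((φ : ↥N → ℂ) n)) ≠ 0 := by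
  haveI := Fintype.ofFinite G
  haveI := Fintype.ofFinite N
  have h1 : fs (φ : N → ℂ) = 1 := by
    rw [finsum_eq_sum_of_fintype] at hφ
    exact hφ
  obtain ⟨χ, hχ, hu⟩ := fs_unique_over N hodd φ.2 h1
  have hcard : (Nat.card N : ℂ)⁻¹ ≠ 0 := inv_ne_zero (card_ne_zero N)
  have key : ∀ χ : IrrCharacter G, ((Nat.card G : ℂ)⁻¹ * ∑ᶠ g : G, (χ : G → ℂ) (g * g) = 1 ∧
      (∑ᶠ n : ↥N, (χ : G → ℂ) n * (starRingEnd ℂ) ((φ : ↥N → ℂ) n)) ≠ 0) ↔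
      (fs (χ : G → ℂ) = 1 ∧ classInner (fun n : N => (χ : G → ℂ) n) (φ : N → ℂ) ≠ 0) := by
    intro χ
    rw [finsum_eq_sum_of_fintype, finsum_eq_sum_of_fintype, fs, classInner, mul_ne_zero_iff]
    exact ⟨fun h => ⟨h.1, hcard, h.2⟩, fun h => ⟨h.1, h.2.2⟩⟩
  exact ⟨χ, (key χ).2 hχ, fun ψ hψ => hu ψ ((key ψ).1 hψ)⟩

end Cfsg.Agent.S4873
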