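import Cfsg.Statements.S4911
import Cfsg.Agent.H5.GlReal

set_option autoImplicit false
open Cfsg

namespace Cfsg.Agent.S4911

open CfsgH5 CfsgH4

/-- Let P and K be subgroups of a finite group with P a p-group normalizing K and K of order prime to p. Then the number of P-invariant real-valued irreducible complex characters of K equals the number of conjugacy classes of K that are real (closed under inversion) and P-invariant. Moreover, if every real-valued irreducible character of K is P-invariant, then every real element of K (one conjugate in K to its inverse) is conjugate in K to an element centralized by P. -/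
theorem result {G : Type*} [Group G] [Finite G] (p : ℕ) [Fact p.Prime] (P K : Subgroup G) (hP : IsPGroup p ↥P) (hK : ¬ p ∣ Nat.card ↥K) (hPK : P ≤ Subgroup.normalizer (K : Set G)) : Nat.card {θ : Cfsg.IrrCharacter ↥K // (∀ k : ↥K, ((θ : ↥K → ℂ) k).im = 0) ∧ (∀ x ∈ P, ∀ k k' : ↥K, (k' : G) = x * (k : G) * x⁻¹ → (θ : ↥K → ℂ) k' = (θ : ↥K → ℂ) k)} = Nat.card {c : ConjClasses ↥K // (∀ k : ↥K, ConjClasses.mk k = c → IsConj k k⁻¹) ∧ ∀ k : ↥K, ConjClasses.mk k = c → ∀ x ∈ P, ∀ k' : ↥K, (k' : G) = x * (k : G) * x⁻¹ → ConjClasses.mk k' = c} ∧ ((∀ θ : Cfsg.IrrCharacter ↥K, (∀ k : ↥K, ((θ : ↥K → ℂ) k).im = 0) → (∀ x ∈ P, ∀ k k' : ↥K, (k' : G) = x * (k : G) * x⁻¹ → (θ : ↥K → ℂ) k' = (θ : ↥K → ℂ) k)) → ∀ k : ↥K, IsConj k k⁻¹ → ∃ k' : ↥K, IsConj k k' ∧ ∀ x ∈ P, x * (k' : G) * x⁻¹ = (k' : G)) := by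
  classical
  have hPK' : ∀ s ∈ P, ∀ g ∈ K, s * g * s⁻¹ ∈ K := fun s hs g hg =>
    (Subgroup.mem_normalizer_iff.1 (hPK hs) g).1 hg
  let φ : P →* MulAut K := conjS K P hPK'
  haveI : Fintype (fixS φ) := Fintype.ofFinite _
  have hφ : ∀ (s : P) (k : K), ((φ s k : K) : G) = s * k * (s : G)⁻¹ := fun s k => rfl
  refine ⟨?_, ?_⟩
  · have h1 := real_inv_main (p := p) φ hK hP
    refine Eq.trans (Nat.card_congr (Equiv.subtypeEquivRight fun θ => ?_)) (h1.trans
      (Nat.card_congr (Equiv.subtypeEquivRight fun c => ?_)))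
    · rw [invF_conjS]
      exact and_comm
    · refine and_congr_right fun _ => ?_
      constructor
      · intro h k hk x hx k' hk'
        have : k' = φ ⟨x, hx⟩ k := Subtype.ext hk'
        rw [this]
        exact h k hk ⟨x, hx⟩
      · intro h k hk s
        exact h k hk s s.2 (φ s k) rfl
  · intro h k hk
    obtain ⟨c, hc⟩ := real_inv_fix (p := p) φ hK hP (fun χ hχ => (invF_conjS hPK' (χ : K → ℂ)).2 (h χ hχ)) k hk
    exact ⟨c, hc, fun x hx => congrArg Subtype.val (c.2 ⟨x, hx⟩)⟩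

end Cfsg.Agent.S4911
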