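import Cfsg.Statements.S4914
import Cfsg.Agent.H5.GlNS3

set_option autoImplicit false
open Cfsg

namespace Cfsg.Agent.S4914

open CfsgH5 CfsgH4

/-- Let P and K be subgroups of a finite group G with P a p-group normalizing K, and suppose K has a normal Sylow p-subgroup Q. Let C be the subgroup of those k ∈ K whose commutator with every element of P lies in Q (so that C/Q is the fixed-point subgroup of P on K/Q). Then there is a bijection f from the P-invariant irreducible complex characters of K onto the P-invariant irreducible complex characters of C such that, for every P-invariant irreducible character χ of K, the multiplicity of f(χ) in the restriction of χ to C is a natural number congruent to 1 or to −1 modulo p, every other P-invariant irreducible character of C occurs in that restriction with multiplicity divisible by p, and the degrees of χ and f(χ) are congruent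 modulo p up to sign. -/
theorem result {G : Type*} [Group G] [Finite G] (p : ℕ) [Fact p.Prime] (P K Q C : Subgroup G) (hP : IsPGroup p ↥P) (hPK : P ≤ Subgroup.normalizer (K : Set G)) (hQK : Q ≤ K) (hQn : ∀ k ∈ K, ∀ q ∈ Q, k * q * k⁻¹ ∈ Q) (hQp : ∃ a : ℕ, Nat.card ↥Q = p ^ a) (hQsyl : ¬ p ∣ Q.relIndex K) (hCK : C ≤ K) (hC : ∀ k : G, k ∈ C ↔ (k ∈ K ∧ ∀ x ∈ P, x * k * x⁻¹ * k⁻¹ ∈ Q)) : ∃ f : {χ : Cfsg.IrrCharacter ↥K // (∀ x ∈ P, ∀ k k' : ↥K, (k' : G) = x * (k : G) * x⁻¹ → (χ : ↥K → ℂ) k' = (χ : ↥K → ℂ) k)} → {ξ : Cfsg.IrrCharacter ↥C // (∀ x ∈ P, ∀ k k' : ↥C, (k' : G) = x * (k : G) * x⁻¹ → (ξ : ↥C → ℂ) k' = (ξ : ↥C → ℂ) k)}, Function.Bijective f ∧ ∀ χ, (∀ ξ : {ξ : Cfsg.IrrCharacter ↥C // (∀ x ∈ P, ∀ k k' : ↥C, (k' : G) = x * (k : G) * x⁻¹ → (ξ : ↥C → ℂ) k' = (ξ : ↥C → ℂ) k)}, ∃ m : ℕ, (Nat.card ↥C : ℂ)⁻¹ * ∑ᶠ c : ↥C, (χ.1 : ↥K → ℂ) (Subgroup.inclusion hCK c) * (starRingEnd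 ℂ) ((ξ.1 : ↥C → ℂ) c) = (m : ℂ) ∧ (ξ = f χ → ((m : ZMod p) = 1 ∨ (m : ZMod p) = -1)) ∧ (ξ ≠ f χ → p ∣ m)) ∧ ((Cfsg.charDegree ((f χ).1 : ↥C → ℂ) : ZMod p) = (Cfsg.charDegree (χ.1 : ↥K → ℂ) : ZMod p) ∨ (Cfsg.charDegree ((f χ).1 : ↥C → ℂ) : ZMod p) = -(Cfsg.charDegree (χ.1 : ↥K → ℂ) : ZMod p)) := by
  classical
  haveI := Fintype.ofFinite G
  haveI := Fintype.ofFinite K
  haveI := Fintype.ofFinite Q
  haveI := Fintype.ofFinite C
  haveI : Fintype (Q.subgroupOf K) := Fintype.ofFinite _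
  haveI : Fintype (C.subgroupOf K) := Fintype.ofFinite _
  have hp : p.Prime := Fact.out
  have hPK' : ∀ s ∈ P, ∀ g ∈ K, s * g * s⁻¹ ∈ K := fun s hs g hg =>
    (Subgroup.mem_normalizer_iff.1 (hPK hs) g).1 hg
  haveI hQn' : (Q.subgroupOf K).Normal := ⟨fun n hn g => by
    rw [Subgroup.mem_subgroupOf] at hn ⊢
    exact hQn g g.2 n hn⟩
  obtain ⟨a, ha⟩ := hQp
  have hQpg : IsPGroup p Q := IsPGroup.of_card ha
  have hQp' : IsPGroup p (Q.subgroupOf K) := hQpg.of_equiv (Subgroup.subgroupOfEquivOfLe hQK).symm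
  -- elements of p-power order of K lie in Q
  have hel : ∀ k ∈ K, (∃ n : ℕ, k ^ p ^ n = 1) → k ∈ Q := by
    intro k hk ⟨n, hn⟩
    have h1 : ((⟨k, hk⟩ : K) : K ⧸ Q.subgroupOf K) ^ p ^ n = 1 := by
      rw [← QuotientGroup.mk_pow]
      have : (⟨k, hk⟩ : K) ^ p ^ n = 1 := Subtype.ext hn
      rw [this]; rfl
    have h2 : ((⟨k, hk⟩ : K) : K ⧸ Q.subgroupOf K) ^ (Q.relIndex K) = 1 := by
      exact pow_card_eq_one'
    have h3 : Nat.Coprime (p ^ n) (Q.relIndex K) :=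
      Nat.Coprime.pow_left n ((hp.coprime_iff_not_dvd).2 hQsyl)
    have h4 : orderOf ((⟨k, hk⟩ : K) : K ⧸ Q.subgroupOf K) ∣ 1 := by
      rw [← h3]
      exact Nat.dvd_gcd (orderOf_dvd_of_pow_eq_one h1) (orderOf_dvd_of_pow_eq_one h2)
    have h5 := orderOf_eq_one_iff.1 (Nat.dvd_one.1 h4)
    exact Subgroup.mem_subgroupOf.1 ((QuotientGroup.eq_one_iff _).1 h5)
  have hPQ : ∀ s ∈ P, ∀ q ∈ Q, s * q * s⁻¹ ∈ Q := by
    intro s hs q hq
    refine hel _ (hPK' s hs q (hQK hq)) ⟨a, ?_⟩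
    have h1 : (⟨q, hq⟩ : Q) ^ p ^ a = 1 := by rw [← ha]; exact pow_card_eq_one'
    have h2 : q ^ p ^ a = 1 := congrArg Subtype.val h1
    rw [conj_pow, h2, mul_one, mul_inv_cancel]
  have hQC : Q ≤ C := by
    intro q hq
    rw [hC]
    exact ⟨hQK hq, fun x hx => Q.mul_mem (hPQ x hx q hq) (Q.inv_mem hq)⟩
  have hQC' : Q.subgroupOf K ≤ C.subgroupOf K := fun x hx => by
    rw [Subgroup.mem_subgroupOf] at hx ⊢
    exact hQC hx
  have hCc : ∀ s ∈ P, ∀ c ∈ C, s * c * s⁻¹ ∈ C := by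
    intro s hs c hc
    rw [hC] at hc ⊢
    refine ⟨hPK' s hs c hc.1, fun x hx => ?_⟩
    have h1 := hc.2 (s⁻¹ * x * s) (P.mul_mem (P.mul_mem (P.inv_mem hs) hx) hs)
    have h2 := hPQ s hs _ h1
    have h3 : s * (s⁻¹ * x * s * c * (s⁻¹ * x * s)⁻¹ * c⁻¹) * s⁻¹ =
        x * (s * c * s⁻¹) * x⁻¹ * (s * c * s⁻¹)⁻¹ := by group
    rwa [h3] at h2
  let φ : P →* MulAut K := conjS K P hPK'
  have hφ : ∀ (s : P) (k : K), ((φ s k : K) : G) = s * k * (s : G)⁻¹ := fun s k => rfl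
  have hQφ : ∀ s, ∀ q ∈ Q.subgroupOf K, φ s q ∈ Q.subgroupOf K := fun s q hq => by
    rw [Subgroup.mem_subgroupOf] at hq ⊢
    exact hPQ s s.2 q hq
  have hC' : ∀ k, k ∈ C.subgroupOf K ↔ ∀ s, φ s k * k⁻¹ ∈ Q.subgroupOf K := by
    intro k
    rw [Subgroup.mem_subgroupOf, hC]
    constructor
    · intro h s
      rw [Subgroup.mem_subgroupOf]
      exact h.2 s s.2
    · intro h
      exact ⟨k.2, fun x hx => Subgroup.mem_subgroupOf.1 (h ⟨x, hx⟩)⟩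
  have hCφ : ∀ s, ∀ c ∈ C.subgroupOf K, φ s c ∈ C.subgroupOf K := fun s c hc => by
    rw [Subgroup.mem_subgroupOf] at hc ⊢
    exact hCc s s.2 c hc
  obtain ⟨m1, m2, m3, m4, m5⟩ := ns_main (p := p) φ (Q.subgroupOf K) (C.subgroupOf K) hP hQp' hQsyl
    hQφ hC' hCφ hQC'
  let e : C.subgroupOf K ≃* C := Subgroup.subgroupOfEquivOfLe hCK
  have hinvK : ∀ χ : IrrCharacter K, (∀ x ∈ P, ∀ k k' : ↥K, (k' : G) = x * (k : G) * x⁻¹ →
      (χ : ↥K → ℂ) k' = (χ : ↥K → ℂ) k) ↔ InvF φ (χ : K → ℂ) := by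
    intro χ
    exact (invF_conjS hPK' (χ : K → ℂ)).symm
  have hinvC : ∀ ξ : IrrCharacter C, (∀ x ∈ P, ∀ k k' : ↥C, (k' : G) = x * (k : G) * x⁻¹ →
      (ξ : ↥C → ℂ) k' = (ξ : ↥C → ℂ) k) ↔
      InvF (resAct φ (C.subgroupOf K) hCφ) (irrE e.symm ξ : C.subgroupOf K → ℂ) := by
    intro ξ
    constructor
    · intro h s g
      exact h s s.2 (e g) (e (resAct φ (C.subgroupOf K) hCφ s g)) rfl
    · intro h x hx k k' hk
      have h1 := h ⟨x, hx⟩ (e.symm k)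
      have h2 : e (resAct φ (C.subgroupOf K) hCφ ⟨x, hx⟩ (e.symm k)) = k' := Subtype.ext hk.symm
      have h3 : (ξ : C → ℂ) (e (resAct φ (C.subgroupOf K) hCφ ⟨x, hx⟩ (e.symm k))) =
        (ξ : C → ℂ) (e (e.symm k)) := h1
      rw [h2, e.apply_symm_apply] at h3
      exact h3
  have hes : ∀ ξ : IrrCharacter C, irrE e (irrE e.symm ξ) = ξ := by
    intro ξ
    apply Subtype.ext
    funext c
    show (ξ : C → ℂ) (e (e.symm c)) = _
    rw [e.apply_symm_apply]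
  have hes' : ∀ ξ : IrrCharacter (C.subgroupOf K), irrE e.symm (irrE e ξ) = ξ := by
    intro ξ
    apply Subtype.ext
    funext c
    show (ξ : C.subgroupOf K → ℂ) (e.symm (e c)) = _
    rw [e.symm_apply_apply]
  choose F hF1 hF2 using m1
  let f : {χ : IrrCharacter ↥K // (∀ x ∈ P, ∀ k k' : ↥K, (k' : G) = x * (k : G) * x⁻¹ → (χ : ↥K → ℂ) k' = (χ : ↥K → ℂ) k)} → {ξ : IrrCharacter ↥C // (∀ x ∈ P, ∀ k k' : ↥C, (k' : G) = x * (k : G) * x⁻¹ → (ξ : ↥C → ℂ) k' = (ξ : ↥C → ℂ) k)} :=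
    fun χ => ⟨irrE e (F χ.1 ((hinvK χ.1).1 χ.2)), (hinvC _).2 (by
      rw [hes']
      exact hF1 χ.1 ((hinvK χ.1).1 χ.2))⟩
  have hfR : ∀ χ, NsR p χ.1 (irrE e.symm (f χ).1) := by
    intro χ
    show NsR p χ.1 (irrE e.symm (irrE e (F χ.1 ((hinvK χ.1).1 χ.2))))
    rw [hes']
    exact hF2 χ.1 ((hinvK χ.1).1 χ.2)
  have hinj : ∀ ξ ξ' : IrrCharacter C, irrE e.symm ξ = irrE e.symm ξ' → ξ = ξ' := by
    intro ξ ξ' h
    rw [← hes ξ, h, hes ξ']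
  refine ⟨f, ⟨?_, ?_⟩, ?_⟩
  · intro χ χ' h
    have h1 := hfR χ
    have h2 := hfR χ'
    rw [← h] at h2
    exact Subtype.ext (m4 χ.1 χ'.1 ((hinvK χ.1).1 χ.2) ((hinvK χ'.1).1 χ'.2)
      (irrE e.symm (f χ).1) ((hinvC _).1 (f χ).2) h1 h2)
  · intro ξ
    obtain ⟨χ, hχ, hR⟩ := m2 (irrE e.symm ξ.1) ((hinvC ξ.1).1 ξ.2)
    refine ⟨⟨χ, (hinvK χ).2 hχ⟩, Subtype.ext (hinj _ _ ?_)⟩
    exact m3 χ hχ _ _ ((hinvC _).1 (f ⟨χ, (hinvK χ).2 hχ⟩).2) ((hinvC ξ.1).1 ξ.2)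
      (hfR ⟨χ, (hinvK χ).2 hχ⟩) hR
  · intro χ
    have hsum : ∀ ξ : IrrCharacter C, (Nat.card ↥C : ℂ)⁻¹ * ∑ᶠ c : ↥C, (χ.1 : ↥K → ℂ)
        (Subgroup.inclusion hCK c) * (starRingEnd ℂ) ((ξ : ↥C → ℂ) c) =
        classInner (fun c : C.subgroupOf K => (χ.1 : K → ℂ) c) (irrE e.symm ξ : C.subgroupOf K → ℂ) := by
      intro ξ
      rw [finsum_eq_sum_of_fintype]
      have h1 := classInner_comp_equiv e (fun c : C => (χ.1 : K → ℂ) (Subgroup.inclusion hCK c)) (ξ : C → ℂ)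
      rw [← classInner_def, ← h1]
      rfl
    refine ⟨fun ξ => ?_, ?_⟩
    · obtain ⟨m, hm⟩ := IsCharacter.inner_irr_nat
        (isCharacter_restrict (C.subgroupOf K) (IsIrr.isCharacter χ.1.2)) (irrE e.symm ξ.1).2
      refine ⟨m, (hsum ξ.1).trans hm, ?_, ?_⟩
      · intro h
        subst h
        have h1 : ¬ p ∣ m := by
          obtain ⟨m', hm', hpm'⟩ := hfR χ
          have : (m' : ℂ) = m := hm'.symm.trans hm
          have : m' = m := by exact_mod_cast this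
          exact this ▸ hpm'
        exact m5 χ.1 ((hinvK χ.1).1 χ.2) _ ((hinvC _).1 (f χ).2) m hm h1
      · intro h
        by_contra h1
        apply h
        exact Subtype.ext (hinj _ _ (m3 χ.1 ((hinvK χ.1).1 χ.2) _ _ ((hinvC ξ.1).1 ξ.2)
          ((hinvC _).1 (f χ).2) ⟨m, hm, h1⟩ (hfR χ)))
    · obtain ⟨m, hm, hpm⟩ := hfR χ
      have h1 := ns_degree (p := p) φ (C.subgroupOf K) hP hCφ ((hinvK χ.1).1 χ.2) ((hinvC _).1 (f χ).2) hm
        (fun ξ' hξ' hne' hR' => hne' (m3 χ.1 ((hinvK χ.1).1 χ.2) _ _ hξ' ((hinvC _).1 (f χ).2) hR' (hfR χ)))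
        (IsIrr.one_eq χ.1.2).1 (e := charDegree ((f χ).1 : C → ℂ)) (by
          show ((f χ).1 : C → ℂ) (e 1) = _
          rw [map_one]
          exact (IsIrr.one_eq (f χ).1.2).1)
      rcases m5 χ.1 ((hinvK χ.1).1 χ.2) _ ((hinvC _).1 (f χ).2) m hm hpm with h2 | h2
      · left
        rw [h1, h2, one_mul]
      · right
        rw [h1, h2]
        ring

end Cfsg.Agent.S4914
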