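import Cfsg.Statements.S4916
import Cfsg.Agent.H5.Princ2
import Cfsg.Agent.H5.Weak
import Cfsg.Agent.H5.Third

set_option autoImplicit false
open Cfsg

namespace Cfsg.Agent.S4916

open CfsgH5 CfsgH4

/-- Let G be a finite group, p a prime and M a maximal ideal of the algebraic integers containing p. Then the principal character is the only irreducible character of degree prime to p in the principal p-block of G if and only if p does not divide the order of G. -/
theorem result {G : Type*} [Group G] [Finite G] (p : ℕ) [Fact p.Prime] (M : Ideal Cfsg.AlgInt) (hM : Cfsg.IsPModular p M) : (∀ χ : Cfsg.IrrCharacter G, χ ∈ Cfsg.principalBlock M G → ¬ p ∣ Cfsg.charDegree (χ : G → ℂ) → (χ : G → ℂ) = fun _ => (1 : ℂ)) ↔ ¬ p ∣ Nat.card G := by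
  classical
  haveI := Fintype.ofFinite G
  haveI := CfsgH5.IsPModular.isPrime hM
  have hpp : p.Prime := Fact.out
  constructor
  · intro h hdvd
    obtain ⟨y, hy⟩ := exists_prime_orderOf_dvd_card' (G := G) p hdvd
    have h1 := weak_orth hM (inS_eSet (isPBlock_principal (M := M) (G := G))) (x := 1) (y := y)
      (by rw [orderOf_one]; exact hpp.one_lt.ne' ∘ Nat.dvd_one.1) (by rw [hy])
    have h2 : MemLocalIdeal M (∑ χ : IrrCharacter G, ((if χ ∈ principalBlock M G then (χ : G → ℂ) 1 * (χ : G → ℂ) y⁻¹ else 0) -
        (if χ = irrOne G then (1 : ℂ) else 0))) := by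
      apply memLocalIdeal_sum
      intro χ _
      by_cases h3 : χ = irrOne G
      · subst h3
        rw [if_pos irrOne_mem, if_pos rfl]
        have h4 : ((irrOne G : IrrCharacter G) : G → ℂ) 1 * ((irrOne G : IrrCharacter G) : G → ℂ) y⁻¹ - 1 = 0 := by
          show (1 : ℂ) * 1 - 1 = 0
          ring
        rw [h4]
        exact memLocalIdeal_zero
      · rw [if_neg h3, sub_zero]
        split_ifs with h4
        · have h5 : p ∣ charDegree (χ : G → ℂ) := by
            by_contra h6
            exact h3 (Subtype.ext (h χ h4 h6))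
          rw [(CfsgH5.IsIrr.one_eq χ.2).1]
          exact CfsgH5.MemLocalIdeal.mul_right ((memLocalIdeal_natCast_iff hM _).2 h5) (memLocalRing_char (CfsgH4.IsIrr.isCharacter χ.2) _)
        · exact memLocalIdeal_zero
    rw [Finset.sum_sub_distrib, h1, Finset.sum_ite_eq' Finset.univ (irrOne G), if_pos (Finset.mem_univ _), zero_sub] at h2
    have h3 := CfsgH5.MemLocalIdeal.neg h2
    rw [neg_neg] at h3
    exact not_memLocalIdeal_one h3
  · intro hnd χ hχ _
    have h1 : ∀ g : G, (χ : G → ℂ) g = (χ : G → ℂ) 1 := by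
      intro g
      apply principal_ker hM hχ
      have h2 : (⊤ : Subgroup G) ≤ pPrimeCore p G := by
        rw [pPrimeCore]
        apply le_sSup
        refine ⟨inferInstance, ?_⟩
        rw [Subgroup.card_top]
        exact (Nat.Prime.coprime_iff_not_dvd Fact.out).2 hnd |>.symm
      exact h2 trivial
    have h2 := classInner_irr_self χ.2
    by_contra hne
    have h3 := classInner_irr_ne χ.2 (isIrrCharacter_one (G := G)) hne
    rw [classInner] at h3
    have h4 : ∑ g : G, (χ : G → ℂ) g * (starRingEnd ℂ) (1 : ℂ) = (Nat.card G : ℂ) * (χ : G → ℂ) 1 := by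
      rw [Finset.sum_congr rfl fun g _ => by rw [h1 g, map_one, mul_one]]
      rw [Finset.sum_const, Finset.card_univ, nsmul_eq_mul, ← Nat.card_eq_fintype_card]
    rw [h4] at h3
    have h5 := card_ne_zero G
    rw [← mul_assoc, inv_mul_cancel₀ h5, one_mul] at h3
    exact IsIrr.one_ne_zero χ.2 h3

end Cfsg.Agent.S4916
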