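import Cfsg.Statements.S4969
import Cfsg.Agent.H5.Quick1

set_option autoImplicit false
open Cfsg

namespace Cfsg.Agent.S4969

open CfsgH5

/-- Let G be a finite group with k conjugacy classes, g ∈ G, and N > 0. Then the sum over the irreducible complex characters χ of G with χ(1) ≥ N of |χ(g)|/χ(1) is at most √(k · #C_G(g)) / N. -/
theorem result {G : Type*} [Group G] [Finite G] (g : G) (N : ℝ) (hN : 0 < N) :
    ∑ᶠ χ : Cfsg.IrrCharacter G, (if N ≤ ‖(χ : G → ℂ) 1‖ then ‖(χ : G → ℂ) g‖ / ‖(χ : G → ℂ) 1‖ else 0) ≤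
      Real.sqrt ((Nat.card (ConjClasses G) : ℝ) * (Nat.card ↥(Subgroup.centralizer ({g} : Set G)) : ℝ)) / N := by
  haveI := Fintype.ofFinite G
  rw [finsum_eq_sum_of_fintype]
  exact sum_norm_le g N hN

end Cfsg.Agent.S4969
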