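import Cfsg.Statements.S5011

set_option autoImplicit false
open Cfsg

namespace Cfsg.Agent.S5011


/-- Let G be a finite non-abelian simple group and ρ an irreducible complex representation of G on a space of dimension greater than one (irreducible in the sense that the only subspaces invariant under every ρ(x) are 0 and the whole space). Then for every non-identity element g of G, the centralizer of g does not act irreducibly: there is a non-zero proper subspace invariant under ρ(c) for every c commuting with g. -/
theorem result {G : Type*} [Group G] [Finite G] [IsSimpleGroup G]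
    (hG : ¬ IsMulCommutative G) {V : Type*} [AddCommGroup V] [Module ℂ V] [FiniteDimensional ℂ V]
    (ρ : Representation ℂ G V)
    (hirr : ∀ W : Submodule ℂ V, (∀ x : G, ∀ v ∈ W, ρ x v ∈ W) → W = ⊥ ∨ W = ⊤)
    (hdim : 1 < Module.finrank ℂ V) (g : G) (hg : g ≠ 1) :
    ∃ W : Submodule ℂ V, W ≠ ⊥ ∧ W ≠ ⊤ ∧ ∀ c ∈ Subgroup.centralizer ({g} : Set G), ∀ v ∈ W, ρ c v ∈ W := by
  classical
  by_contra hcon
  push Not at hcon
  have hirrC : ∀ W : Submodule ℂ V, (∀ c ∈ Subgroup.centralizer ({g} : Set G), ∀ v ∈ W, ρ c v ∈ W) → W = ⊥ ∨ W = ⊤ := by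
    intro W hW
    by_contra h
    push Not at h
    obtain ⟨c, hc, v, hv, hn⟩ := hcon W h.1 h.2
    exact hn (hW c hc v hv)
  haveI : Nontrivial V := Module.nontrivial_of_finrank_pos (R := ℂ) (by omega)
  obtain ⟨μ, hμ⟩ := Module.End.exists_eigenvalue (ρ g)
  have hE : Module.End.eigenspace (ρ g) μ = ⊤ := by
    have hinv : ∀ c ∈ Subgroup.centralizer ({g} : Set G), ∀ v ∈ Module.End.eigenspace (ρ g) μ, ρ c v ∈ Module.End.eigenspace (ρ g) μ := by
      intro c hc v hv
      rw [Module.End.mem_eigenspace_iff] at hv ⊢
      have h1 : g * c = c * g := (Subgroup.mem_centralizer_singleton_iff.1 hc).symm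
      have h2 : ρ g (ρ c v) = ρ c (ρ g v) := by
        have h3 : ρ (g * c) v = ρ (c * g) v := by rw [h1]
        rw [map_mul, map_mul] at h3
        exact h3
      rw [h2, hv, map_smul]
    rcases hirrC (Module.End.eigenspace (ρ g) μ) hinv with h | h
    · exact absurd h hμ
    · exact h
  have hsc : ∀ v : V, ρ g v = μ • v := fun v => by
    have h1 : v ∈ Module.End.eigenspace (ρ g) μ := by rw [hE]; trivial
    exact Module.End.mem_eigenspace_iff.1 h1
  -- the kernel
  rcases (IsSimpleGroup.eq_bot_or_eq_top_of_normal (MonoidHom.ker ρ) inferInstance) with hker | hker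
  · have hcen : g ∈ Subgroup.center G := by
      rw [Subgroup.mem_center_iff]
      intro x
      have h1 : ρ (x * g) = ρ (g * x) := by
        rw [map_mul, map_mul]
        apply LinearMap.ext
        intro v
        show ρ x (ρ g v) = ρ g (ρ x v)
        rw [hsc, hsc, map_smul]
      have h2 : Function.Injective ρ := (MonoidHom.ker_eq_bot_iff (f := (ρ : G →* (V →ₗ[ℂ] V)))).1 hker
      exact h2 h1
    rcases (IsSimpleGroup.eq_bot_or_eq_top_of_normal (Subgroup.center G) inferInstance) with h | h
    · rw [h] at hcen
      exact hg (Subgroup.mem_bot.1 hcen)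
    · apply hG
      exact ⟨⟨fun a b => by
        have h3 : b ∈ Subgroup.center G := by rw [h]; trivial
        exact (Subgroup.mem_center_iff.1 h3 a)⟩⟩
  · have hone : ∀ x : G, ρ x = 1 := fun x => by
      have h1 : x ∈ MonoidHom.ker ρ := by rw [hker]; trivial
      exact h1
    obtain ⟨v, hv⟩ := exists_ne (0 : V)
    rcases hirr (Submodule.span ℂ {v}) (fun x w hw => by rw [hone x]; exact hw) with h | h
    · rw [Submodule.span_singleton_eq_bot] at h
      exact hv h
    · have h1 : Module.finrank ℂ V ≤ 1 := by
        rw [← finrank_top (R := ℂ) (M := V), ← h]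
        exact (finrank_span_singleton hv).le
      omega

end Cfsg.Agent.S5011
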