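import Cfsg.Statements.S5131
import Cfsg.Agent.H8.FusFac3

set_option autoImplicit false
open Cfsg

namespace Cfsg.Agent.S5131

/-- Let F be a fusion system over a finite p-group S and F' a fusion system over S'. If α : S → S' is a morphism of fusion systems from F to F' (every map of F induces along α a map of F'), then the kernel of α is strongly closed in S with respect to F. -/
theorem result {Ω : Type*} [Group Ω] {S : Subgroup Ω} [Finite S] (p : ℕ) [Fact p.Prime] (hS : IsPGroup p S) (F : Cfsg.FusionSystem S) {Ω' : Type*} [Group Ω'] {S' : Subgroup Ω'} (F' : Cfsg.FusionSystem S') (α : S →* Ω') (hα : F.IsMorphism F' α) : F.StronglyClosed ((α.ker).map S.subtype) := by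
    have h := CfsgH8.isMorphism_iff.1 hα
    refine CfsgH8.morphTo_ker h (CfsgH8.mulOn_extF α) (fun s hs => ?_) (Subgroup.map_subtype_le _)
    rw [CfsgH8.extF_of_mem _ hs]
    constructor
    · intro h5; exact ⟨⟨s, hs⟩, h5, rfl⟩
    · rintro ⟨x, hx, rfl⟩; exact hx

end Cfsg.Agent.S5131
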