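import Cfsg.Statements.S5193
import Cfsg.Agent.H8.JCen
import Cfsg.Agent.H8.FunThm3

set_option autoImplicit false
open Cfsg

namespace Cfsg.Agent.S5193

/-- Glauberman's Theorem for fusion systems. Let F be a saturated fusion system over a finite p-group S, let J(S) be the subgroup generated by the abelian subgroups of S of largest order, and let N be the normalizer fusion system of J(S) in F (a fusion system over N_S(J(S)) = S). Then every p-th power of an element of Z(S) that lies in the centre of N lies in the centre of F; and if p is odd, or if the symmetric group of degree 4 is not involved in any model of the normalizer system of a fully normalized F-centric subgroup (F is S₄-free), then the centre of N equals the centre of F. -/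
theorem result {Ω : Type*} [Group Ω] {S : Subgroup Ω} [Finite S] (p : ℕ) [Fact p.Prime] (hS : IsPGroup p S) (F : Cfsg.FusionSystem S) (hF : F.IsSaturated p) (N : Cfsg.FusionSystem (Cfsg.FusionSystem.normalizerIn S (Cfsg.thompsonSubgroupAOf S))) (hN : F.IsNormalizerSystem (Cfsg.thompsonSubgroupAOf S) N) : Subgroup.closure ((fun z : Ω => z ^ p) '' ((S ⊓ Subgroup.centralizer (S : Set Ω) : Subgroup Ω) : Set Ω)) ⊓ N.center ≤ F.center ∧ (p ≠ 2 ∨ F.IsSectionFree p (Equiv.Perm (Fin 4)) → N.center = F.center) := by
  refine ⟨CfsgH8.cen_pth CfsgH8.JF CfsgH8.JF_ne_bot CfsgH8.JF_iso (fun Q _ _ hQ => CfsgH8.center_le_JF Q hQ)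
    (fun G _ _ P hP => CfsgH8.J_quad G P hP) hS F hF N hN, fun hp => le_antisymm ?_ ?_⟩
  · exact CfsgH8.J_cen_fus hS F hF (CfsgH8.clS4_of_free hS hF hp) N hN
  · intro z hz
    haveI : Finite (Cfsg.FusionSystem.normalizerIn S (Cfsg.thompsonSubgroupAOf S)) := CfsgH8.finite_of_le inf_le_left
    have e : Cfsg.FusionSystem.normalizerIn S (Cfsg.thompsonSubgroupAOf S) = S :=
      inf_eq_left.2 (CfsgH8.le_normalizer_WS CfsgH8.JF CfsgH8.JF_iso hS)
    have hNs : N.IsSaturated p := by
      apply CfsgH8.normalizerSystem_saturated hS hF _ N hN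
      refine ⟨CfsgH8.WS_le CfsgH8.JF S, fun R hR => ?_⟩
      rw [e]
      exact Subgroup.card_le_of_le inf_le_left
    have hRp : IsPGroup p (Cfsg.FusionSystem.normalizerIn S (Cfsg.thompsonSubgroupAOf S)) := hS.to_le inf_le_left
    rw [CfsgH8.mem_center_iff' hRp hNs]
    obtain ⟨h1, h2⟩ := (CfsgH8.mem_center_iff' hS hF).1 hz
    exact ⟨by rw [e]; exact h1, fun P f hf hzP => h2 P f ((CfsgH8.mor_isNormalizerSystem hN).1 hf).mor hzP⟩

end Cfsg.Agent.S5193
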