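import Cfsg.Statements.S5194
import Cfsg.Agent.H8.FunThm4

set_option autoImplicit false
open Cfsg

namespace Cfsg.Agent.S5194

/-- Thompson's normal p-complement Theorem for fusion systems. Let F be a saturated fusion system over a finite p-group S such that p is odd or F is S₄-free (the symmetric group of degree 4 is not involved in any model of the normalizer system of a fully normalized F-centric subgroup), and let J(S) be the subgroup generated by the abelian subgroups of S of largest order. If the centralizer fusion system of Z(S) in F is the inner fusion system of C_S(Z(S)) = S and the normalizer fusion system of J(S) in F is the inner fusion system of N_S(J(S)) = S, then F is the inner fusion system of S. -/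
theorem result {Ω : Type*} [Group Ω] {S : Subgroup Ω} [Finite S] (p : ℕ) [Fact p.Prime] (hS : IsPGroup p S) (F : Cfsg.FusionSystem S) (hF : F.IsSaturated p) (hp : p ≠ 2 ∨ F.IsSectionFree p (Equiv.Perm (Fin 4))) (hC : ∀ C : Cfsg.FusionSystem (Cfsg.FusionSystem.centralizerIn S (S ⊓ Subgroup.centralizer (S : Set Ω))), F.IsCentralizerSystem (S ⊓ Subgroup.centralizer (S : Set Ω)) C → ∀ P : Subgroup Ω, C.Hom P = (Cfsg.innerFusionSystem (Cfsg.FusionSystem.centralizerIn S (S ⊓ Subgroup.centralizer (S : Set Ω)))).Hom P) (hN : ∀ N : Cfsg.FusionSystem (Cfsg.FusionSystem.normalizerIn S (Cfsg.thompsonSubgroupAOf S)), F.IsNormalizerSystem (Cfsg.thompsonSubgroupAOf S) N → ∀ P : Subgroup Ω, N.Hom P = (Cfsg.innerFusionSystem (Cfsg.FusionSystem.normalizerIn S (Cfsg.thompsonSubgroupAOf S))).Hom P) : ∀ P : Subgroup Ω, F.Hom P = (Cfsg.innerFusionSystem S).Hom P := by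
  have hCl := CfsgH8.clS4_of_free hS hF hp
  have hNK : CfsgH8.PN p F (Cfsg.thompsonSubgroupAOf S) := CfsgH8.PN_of_normalizer hS (Subgroup.map_subtype_le _) hN
  have hW2 : ∀ i, ∀ (Q R : Type _) [Group Q] [Group R] [Finite Q], IsPGroup p Q → ∀ φ : Q ≃* R,
      (CfsgH8.ZJfam i Q).map φ.toMonoidHom = CfsgH8.ZJfam i R := fun i Q R _ _ _ _ φ => CfsgH8.ZJfam_iso i Q R φ
  have h0 := CfsgH8.aut_top_inner CfsgH8.ZJfam hW2 hS hF (i := false) hNK
  rw [CfsgH8.eqInner_iff hS hF]
  refine CfsgH8.thompson_PA F hS hCl hF ?_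
  rintro (_ | _)
  · exact hNK
  · rw [CfsgH8.WS_center]
    exact CfsgH8.PN_center_of_centralizer hS hF h0 hC

end Cfsg.Agent.S5194
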