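import Cfsg.Statements.S5196
import Cfsg.Agent.H8.LocModel

set_option autoImplicit false
universe u
open Cfsg

namespace Cfsg.Agent.S5196
open CfsgH8 in
theorem main {p : ℕ} [Fact p.Prime] (W : ∀ (Q : Type u) [Group Q], Subgroup Q)
    (hW2 : ∀ (Q R : Type u) [Group Q] [Group R] [Finite Q], IsPGroup p Q → ∀ φ : Q ≃* R, (W Q).map φ.toMonoidHom = W R)
    (hWZ : ∀ (Q : Type u) [Group Q] [Finite Q], IsPGroup p Q → Subgroup.center Q ≤ W Q)
    (hC : ∀ (G : Type u) [Group G] [Finite G] (P : Sylow p G), Cfsg.pCore p G ⊓ Subgroup.center G = Cfsg.pCore p G ⊓ (Subgroup.center ↥(Subgroup.normalizer (((W ↥(P : Subgroup G)).map (P : Subgroup G).subtype : Subgroup G) : Set G))).map (Subgroup.normalizer (((W ↥(P : Subgroup G)).map (P : Subgroup G).subtype : Subgroup G) : Set G)).subtype)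
    {Ω : Type u} [Group Ω] {S : Subgroup Ω} [Finite S] (hS : IsPGroup p S) (F : Cfsg.FusionSystem S)
    (hF : F.IsSaturated p) (N : Cfsg.FusionSystem (Cfsg.FusionSystem.normalizerIn S (WS W S)))
    (hN : F.IsNormalizerSystem (WS W S) N) : N.center = F.center := by
  have hUS : WS W S ≤ S := WS_le W S
  have hSn : S ≤ Subgroup.normalizer (WS W S : Set Ω) := fun s hs =>
    WS_normalizer W hW2 hS (Subgroup.le_normalizer hs)
  have hNS : Cfsg.FusionSystem.normalizerIn S (WS W S) = S := inf_eq_left.2 hSn
  have hfn : F.IsFullyNormalized (WS W S) := by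
    refine ⟨hUS, fun Q hQ => ?_⟩
    rw [hNS]
    exact Subgroup.card_le_of_le inf_le_left
  haveI : Finite ↥(Cfsg.FusionSystem.normalizerIn S (WS W S)) := finite_of_le inf_le_left
  have hNp : IsPGroup p ↥(Cfsg.FusionSystem.normalizerIn S (WS W S)) := hS.to_le inf_le_left
  have hNsat := normalizerSystem_saturated hS hF hfn N hN
  ext x
  rw [mem_center_iff' hNp hNsat]
  constructor
  swap
  · intro hx
    refine ⟨by rw [hNS]; exact ((mem_center_iff' hS hF).1 hx).1, fun P f hf hxP => ?_⟩
    exact fixed_of_mem_center hx (mor_of_norm hN hf) hxP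
  rintro ⟨hxS, hx⟩
  rw [hNS] at hxS
  -- maps of `N`
  have hNmor : ∀ (P : Subgroup Ω) (f : Ω → Ω), Mor F P f → WS W S ≤ P → img f (WS W S) = WS W S → Mor N P f := by
    intro P f hf hle himg
    refine (mor_isNormalizerSystem hN).2 ⟨by rw [NK_top, hNS]; exact hf.le, f, ?_, fun _ _ => rfl,
      autOf (hf.mono hle).mulOn (hf.mono hle).injOn himg, trivial, fun y hy => (av_autOf _ _ _ hy).symm⟩
    rwa [sup_eq_left.2 hle]
  have hxc : ∀ s ∈ S, s * x = x * s := by
    intro s hs
    have := hx S (cj s) (hNmor S (cj s) (mor_cj le_rfl hs) hUS (mem_normalizer_iff_img.1 (hSn hs))) hxS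
    simp only [cj] at this
    rwa [mul_inv_eq_iff_eq_mul] at this
  rw [mem_center_iff' hS hF]
  refine ⟨hxS, ?_⟩
  -- the system fixing `x`
  let D : FSData S :=
    { M := fun P f => Mor F P f ∧ ∀ y ∈ P, f y = x ↔ y = x
      congr := fun h hfg => ⟨h.1.congr hfg, fun y hy => by rw [← hfg y hy]; exact h.2 y hy⟩
      le := fun h => h.1.le
      mem := fun h x hx => h.1.mem_S hx
      mul := fun h => h.1.mulOn
      inj := fun h => h.1.injOn
      conj := fun hP hg => ⟨mor_cj hP hg, fun y hy => by
        simp only [cj]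
        rw [mul_inv_eq_iff_eq_mul, ← hxc _ hg, mul_right_inj]⟩
      comp := by
        intro P Q f g hf hg hPQ
        exact ⟨hg.1.comp hf.1 hPQ, fun y hy => (hg.2 _ (hPQ y hy)).trans (hf.2 y hy)⟩
      inv := by
        intro P f h
        refine ⟨h.1.inv, fun y hy => ?_⟩
        obtain ⟨z, hz, rfl⟩ := (mem_img h.1.mulOn).1 hy
        rw [h.1.invF_f hz]
        exact (h.2 z hz).symm }
  have hD : ∀ P f, Mor D.fs P f ↔ Mor F P f ∧ ∀ y ∈ P, f y = x ↔ y = x := fun P f => FSData.mor_fs D
  have hDx : ∀ P f, Mor F P f → x ∈ P → f x = x → Mor D.fs P f := by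
    intro P f hf hxP hfx
    refine (hD P f).2 ⟨hf, fun y hy => ⟨fun h => hf.injOn hy hxP (h.trans hfx.symm), fun h => by rw [h, hfx]⟩⟩
  have hmain : F ≤ D.fs := by
    apply wp_induction hS hF D.fs
    · intro α hα
      have hα' := (mem_autGroup le_rfl).1 hα
      apply hDx _ _ hα' hxS
      apply hx S _ (hNmor _ _ hα' hUS ?_) hxS
      rw [← WS_img W hW2 hS (mulOn_av α) (injOn_av α), img_av]
    · intro V hV hVc h1 h2 α hα
      have hVS := hV.1
      have hxV : x ∈ V := hVc.2 V (isConj_refl F hVS) (mem_centralizerIn.2 ⟨hxS, fun y hy => (hxc y (hVS hy)).symm⟩)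
      apply hDx _ _ ((mem_autGroup hVS).1 hα) hxV
      haveI : Finite ↥(Cfsg.FusionSystem.normalizerIn S V) := finite_of_le inf_le_left
      have hRp : IsPGroup p ↥(Cfsg.FusionSystem.normalizerIn S V) := hS.to_le inf_le_left
      obtain ⟨L, _, _, j, hL⟩ := exists_locM hS hF hV hVc
      obtain ⟨T, hT⟩ := sylow_of_isSyl_top hL.syl
      obtain ⟨g, hg⟩ := hL.realAut hVS hα
      have hxR : x ∈ Cfsg.FusionSystem.normalizerIn S V := hL.le hxV
      have hWT : WS W (T : Subgroup L) = img j (WS W (Cfsg.FusionSystem.normalizerIn S V)) := by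
        rw [hT, WS_img W hW2 hRp hL.mul hL.inj]
      have hUR := WS_le W (Cfsg.FusionSystem.normalizerIn S V)
      have hxU : x ∈ WS W (Cfsg.FusionSystem.normalizerIn S V) := by
        refine ⟨⟨x, hxR⟩, hWZ _ hRp ?_, rfl⟩
        rw [Subgroup.mem_center_iff]
        rintro ⟨y, hy⟩
        exact Subtype.ext (hxc y (hL.leS hy))
      have hcen : j x ∈ Subgroup.center L := by
        have h3 := hC L T
        have h4 : j x ∈ Cfsg.pCore p L ⊓ Subgroup.center L := by
          rw [h3]
          have hxn : j x ∈ Subgroup.normalizer (WS W (T : Subgroup L) : Set L) := by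
            apply WS_normalizer W hW2 T.isPGroup'
            apply Subgroup.le_normalizer
            rw [hT]
            exact mem_img_of_mem j hxR
          refine ⟨hL.leO (mem_img_of_mem j hxV), ⟨j x, hxn⟩, ?_, rfl⟩
          show _ ∈ Subgroup.center _
          rw [Subgroup.mem_center_iff]
          rintro ⟨m, hm⟩
          apply Subtype.ext
          show m * j x = j x * m
          have hm' : m ∈ Subgroup.normalizer (WS W (T : Subgroup L) : Set L) := hm
          rw [mem_normalizer_iff_img, hWT] at hm'
          obtain ⟨f, hf, hfV, hfU, hff⟩ := hL.indN hUR hm'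
          have hfx : f x = x := by
            rcases eq_or_lt_of_le hL.leS with hRe | hRl
            · rw [hRe] at hf hfU hUR
              exact hx _ f (hNmor _ f (hf.mono le_sup_left) le_rfl hfU) (by rw [← hRe]; exact hxU)
            · have h6 : Cfsg.FusionSystem.normalizerIn S V < Cfsg.FusionSystem.normalizerIn S (Cfsg.FusionSystem.normalizerIn S V) :=
                lt_normalizer_inf hS hRl
              have h7 : Cfsg.FusionSystem.normalizerIn S (Cfsg.FusionSystem.normalizerIn S V) ≤ Cfsg.FusionSystem.normalizerIn S (WS W (Cfsg.FusionSystem.normalizerIn S V)) := by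
                intro y hy
                exact ⟨hy.1, WS_normalizer W hW2 hRp hy.2⟩
              have h8 : Nat.card ↥(Cfsg.FusionSystem.normalizerIn S V) < Nat.card ↥(Cfsg.FusionSystem.normalizerIn S (WS W (Cfsg.FusionSystem.normalizerIn S V))) := by
                haveI : Finite ↥(Cfsg.FusionSystem.normalizerIn S (WS W (Cfsg.FusionSystem.normalizerIn S V))) := finite_of_le inf_le_left
                have h9 := h6.trans_le h7
                refine lt_of_le_of_ne (Subgroup.card_le_of_le h9.le) (fun h10 => ?_)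
                exact h9.ne (Subgroup.eq_of_le_of_card_ge h9.le h10.ge)
              have hfF := hf.mono (Q := WS W (Cfsg.FusionSystem.normalizerIn S V)) le_sup_left
              have h9 := h2 _ (hUR.trans hL.leS) h8 _ (autOf_mem hfF hfU)
              have h10 := ((hD _ _).1 h9).2 x hxU
              rw [av_autOf _ _ _ hxU] at h10
              exact h10.2 rfl
          have := (hff x (Subgroup.mem_sup_left hxU)).1
          rw [hfx] at this
          rw [← mul_inv_eq_iff_eq_mul]
          exact this.symm
        exact h4.2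
      have h3 := hg x hxV
      rw [Subgroup.mem_center_iff.1 hcen g, mul_inv_cancel_right] at h3
      exact hL.inj (hL.le (av_mem α hxV)) hxR h3
  intro P f hf hxP
  exact (((hD P f).1 ((le_iff.1 hmain) P f hf)).2 x hxP).2 rfl


/-- Let p be an odd prime and W a positive characteristic p-functor: W assigns to every finite p-group Q (in a fixed universe) a subgroup W(Q), nontrivial when Q is, carried to W(R) by every isomorphism Q ≅ R; assume also Z(Q) ≤ W(Q) for every finite p-group Q. Suppose W satisfies the local condition: for every finite group G with Sylow p-subgroup P, O_p(G) ∩ Z(G) = O_p(G) ∩ Z(N_G(W(P))). Then W controls weak closure of elements in every saturated fusion system F over a finite p-group S: the centre of the normalizer fusion system of W(S) in F equals the centre of F. (For p = 2 no functor satisfies the local condition, so p is taken odd.) -/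
theorem result {p : ℕ} [Fact p.Prime] (hp : p ≠ 2) (W : ∀ (Q : Type u) [Group Q], Subgroup Q) (hW1 : ∀ (Q : Type u) [Group Q] [Finite Q], IsPGroup p Q → Nontrivial Q → W Q ≠ ⊥) (hW2 : ∀ (Q R : Type u) [Group Q] [Group R] [Finite Q], IsPGroup p Q → ∀ φ : Q ≃* R, (W Q).map φ.toMonoidHom = W R) (hWZ : ∀ (Q : Type u) [Group Q] [Finite Q], IsPGroup p Q → Subgroup.center Q ≤ W Q) (hC : ∀ (G : Type u) [Group G] [Finite G] (P : Sylow p G), Cfsg.pCore p G ⊓ Subgroup.center G = Cfsg.pCore p G ⊓ (Subgroup.center ↥(Subgroup.normalizer (((W ↥(P : Subgroup G)).map (P : Subgroup G).subtype : Subgroup G) : Set G))).map (Subgroup.normalizer (((W ↥(P : Subgroup G)).map (P : Subgroup G).subtype : Subgroup G) : Set G)).subtype) {Ω : Type u} [Group Ω] {S : Subgroup Ω} [Finite S] (hS : IsPGroup p S) (F : Cfsg.FusionSystem S) (hF : F.IsSaturated p) (N : Cfsg.FusionSystem (Cfsg.FusionSystem.normalizerIn S ((W ↥S).map S.subtype))) (hN : F.IsNormalizerSystem ((W ↥S).map S.subtype) N) : N.center = F.center := by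
  exact main W hW2 hWZ hC hS F hF N hN

end Cfsg.Agent.S5196
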