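import Cfsg.Statements.S5206
import Cfsg.Agent.H8.QdFus

set_option autoImplicit false
universe u
open Cfsg

namespace Cfsg.Agent.S5206

/-- Let p be an odd prime, G a finite group and P a Sylow p-subgroup of G. Then the fusion system of G on P is Qd(p)-free (Qd(p), the natural semidirect product of an elementary abelian group of order p² by SL₂(p), is not involved in any model of the normalizer system of a fully normalized centric subgroup) if and only if Qd(p) is not involved in G. -/
theorem result {G : Type u} [Group G] [Finite G] {p : ℕ} [Fact p.Prime] (hp : p ≠ 2) (P : Sylow p G) : (Cfsg.groupFusionSystem (P : Subgroup G)).IsSectionFree p ↥(Cfsg.qd p) ↔ ¬ Cfsg.Involves ↥(Cfsg.qd p) G := by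
    have hPp : IsPGroup p (P : Subgroup G) := P.isPGroup'
    rw [CfsgH8.Qd.sectionFree_iff hPp (CfsgH8.sylow_saturated P)]
    apply not_congr
    constructor
    · rintro ⟨R, Q, f, h⟩
      have : CfsgH8.Qd.QdG Q f := by
        refine ⟨h.add, h.surj, fun A => ?_⟩
        obtain ⟨g, hg, -, hgQ, hgA⟩ := h.act A
        obtain ⟨-, -, l, hl⟩ := CfsgH8.mor_group.1 hg
        refine ⟨l, ?_, ?_⟩
        · rw [CfsgH8.mem_normalizer_iff_img, ← hgQ]
          conv_rhs => rw [hgQ]
          rw [hgQ]
          conv_rhs => rw [← hgQ]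
          exact CfsgH8.img_congr fun x hx => (hl x (h.leP hx)).symm
        · intro x hx
          rw [← hl x (h.leP hx)]
          exact hgA x hx
      exact this.involves
    · intro h
      obtain ⟨R, f, hf⟩ := CfsgH8.Qd.exists_QdF (F := Cfsg.groupFusionSystem (P : Subgroup G))
        (ι := (P : Subgroup G).subtype) ⟨Subtype.val_injective, fun R hR φ hφ => ⟨fun h => h.2.2, fun h => ⟨hR, hφ, h⟩⟩⟩
        ⟨P, by rw [Subgroup.range_subtype]⟩ h
      exact ⟨R, R, f, hf⟩

end Cfsg.Agent.S5206
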