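import Cfsg.Statements.S5219
import Cfsg.Agent.H8.Agemo

set_option autoImplicit false
open Cfsg

namespace Cfsg.Agent.S5219

/-- Let p be a prime, n a natural number, S a nontrivial finite p-group of nilpotence class at most n(p−1)+1, and F a saturated fusion system over S with no nontrivial normal subgroup (O_p(F) = 1). Then S has exponent dividing p^(n²(p−1)+n). -/
theorem result {Ω : Type*} [Group Ω] {S : Subgroup Ω} [Finite S] (p : ℕ) [Fact p.Prime] (hS : IsPGroup p S) (F : Cfsg.FusionSystem S) (hF : F.IsSaturated p) (n : ℕ) (hS1 : S ≠ ⊥) (hcl : Subgroup.lowerCentralSeries S (n * (p - 1) + 1) = ⊥) (hcore : F.core = ⊥) : Monoid.exponent ↥S ∣ p ^ (n ^ 2 * (p - 1) + n) := by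
  have h1 := CfsgH8.agemo_center_normal hS hF n hcl
  have h2 := CfsgH8.IsNormal.le_core h1
  rw [hcore, le_bot_iff] at h2
  have h3 : ∀ z ∈ Subgroup.center ↥S, z ^ (p ^ n) = 1 := by
    intro z hz
    have hz' : (z : Ω) ∈ S ⊓ Subgroup.centralizer (S : Set Ω) :=
      ⟨z.2, Subgroup.mem_centralizer_iff.2 fun s hs => congrArg Subtype.val ((Subgroup.mem_center_iff.1 hz) ⟨s, hs⟩)⟩
    have h4 : (z : Ω) ^ (p ^ n) ∈ Cfsg.powerClosure p n (S ⊓ Subgroup.centralizer (S : Set Ω)) :=
      Subgroup.subset_closure ⟨z, hz', rfl⟩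
    rw [h2, Subgroup.mem_bot] at h4
    exact Subtype.ext h4
  have h5 : Subgroup.upperCentralSeries ↥S (n * (p - 1) + 1) = ⊤ := by
    rw [← Subgroup.lowerCentralSeries_eq_bot_iff_upperCentralSeries_eq_top]
    rw [← Subgroup.map_eq_bot_iff_of_injective _ (Subgroup.subtype_injective S),
      Subgroup.top_subtype_lowerCentralSeries]
    exact hcl
  have h6 := CfsgH8.exponent_dvd_of_center h3 h5
  have h7 : (p ^ n) ^ (n * (p - 1) + 1) = p ^ (n ^ 2 * (p - 1) + n) := by
    rw [← pow_mul]; congr 1; ring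
  rwa [h7] at h6

end Cfsg.Agent.S5219
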