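import Cfsg.Statements.S5222
import Cfsg.Agent.H8.FratInner
import Cfsg.Agent.H1.Frat
import Cfsg.Agent.H8.FunThm2

set_option autoImplicit false
open Cfsg

namespace Cfsg.Agent.S5222
open scoped commutatorElement

/-- Let F be a saturated fusion system over a finite p-group S whose normalizer fusion system of S is the inner fusion system of S (Aut_F(S) is a p-group). Then for every subgroup Q of S with [S, S] ≤ Q ≤ Φ(S), the normalizer fusion system of Q in F is the inner fusion system of N_S(Q) = S. -/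
theorem result {Ω : Type*} [Group Ω] {S : Subgroup Ω} [Finite S] (p : ℕ) [Fact p.Prime] (hS : IsPGroup p S) (F : Cfsg.FusionSystem S) (hF : F.IsSaturated p) (hN : ∀ N : Cfsg.FusionSystem (Cfsg.FusionSystem.normalizerIn S S), F.IsNormalizerSystem S N → ∀ P : Subgroup Ω, N.Hom P = (Cfsg.innerFusionSystem (Cfsg.FusionSystem.normalizerIn S S)).Hom P) (Q : Subgroup Ω) (h1 : (commutator ↥S).map S.subtype ≤ Q) (h2 : Q ≤ (frattini ↥S).map S.subtype) : ∀ N : Cfsg.FusionSystem (Cfsg.FusionSystem.normalizerIn S Q), F.IsNormalizerSystem Q N → ∀ P : Subgroup Ω, N.Hom P = (Cfsg.innerFusionSystem (Cfsg.FusionSystem.normalizerIn S Q)).Hom P := by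
  intro N hNsys P
  have hQS : Q ≤ S := h2.trans (Subgroup.map_subtype_le _)
  have hc : ∀ s ∈ S, ∀ t ∈ S, ⁅s, t⁆ ∈ Q := by
    intro s hs t ht
    apply h1
    exact ⟨⁅(⟨s, hs⟩ : ↥S), ⟨t, ht⟩⁆, Subgroup.commutator_mem_commutator trivial trivial, rfl⟩
  have hQn : S ≤ Subgroup.normalizer (Q : Set Ω) := by
    intro s hs
    rw [CfsgH8.mem_normalizer_iff_img]
    haveI : Finite Q := CfsgH8.finite_of_le hQS
    refine CfsgH8.eq_img_of_card_le (CfsgH8.cj s) (CfsgH8.mulOn_cj _ _) (fun y hy => ?_) (CfsgH8.injOn_cj _ _) le_rfl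
    have h3 := Q.mul_mem (hc s hs y (hQS hy)) hy
    have h4 : ⁅s, y⁆ * y = s * y * s⁻¹ := by rw [commutatorElement_def]; group
    rw [h4] at h3
    exact h3
  have e : Cfsg.FusionSystem.normalizerIn S Q = S := inf_eq_left.2 hQn
  haveI : Finite (Cfsg.FusionSystem.normalizerIn S Q) := CfsgH8.finite_of_le inf_le_left
  have hfn : F.IsFullyNormalized Q := by
    refine ⟨hQS, fun U hU => ?_⟩
    rw [e]
    exact Subgroup.card_le_of_le inf_le_left
  have hNs := CfsgH8.normalizerSystem_saturated hS hF hfn N hNsys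
  have hT : IsPGroup p (Cfsg.FusionSystem.normalizerIn S Q) := hS.to_le inf_le_left
  have hPA : CfsgH8.PA p N := by
    refine CfsgH8.frat_PA (Q := Q) hT N hNs ?_ ?_ ?_ ?_
    · rw [CfsgH8.isNormal_iff]
      refine ⟨CfsgH8.le_normalizerIn hQS, fun P f hf => ?_⟩
      obtain ⟨h1, g, hg, hgf, κ, -, hκ⟩ := (CfsgH8.mor_isNormalizerSystem hNsys).1 hf
      have himg : CfsgH8.img g Q = Q := by rw [CfsgH8.img_congr hκ, CfsgH8.img_av]
      refine ⟨g, (CfsgH8.mor_isNormalizerSystem hNsys).2 ⟨?_, g, ?_, fun x _ => rfl, κ, trivial, hκ⟩, hgf, himg⟩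
      · rw [CfsgH8.NK_top] at h1 ⊢
        exact sup_le h1 (CfsgH8.le_normalizerIn hQS)
      · rwa [sup_assoc, sup_idem]
    · intro s hs t ht
      exact hc s hs.1 t ht.1
    · intro H hH hHQ
      rw [e] at hH hHQ ⊢
      have h3 : H.subgroupOf S ⊔ Q.subgroupOf S = ⊤ := by
        rw [eq_top_iff]
        rintro ⟨x, hx⟩ -
        have h4 : x ∈ H ⊔ Q := by rw [hHQ]; exact hx
        have hQS' : H ≤ Subgroup.normalizer (Q : Set Ω) := hH.trans hQn
        obtain ⟨a, ha, b, hb, rfl⟩ := (CfsgH1.mem_sup_of_le_normalizer hQS').1 h4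
        have h5 : (⟨a * b, hx⟩ : ↥S) = ⟨a, hH ha⟩ * ⟨b, hQS hb⟩ := rfl
        rw [h5]
        exact Subgroup.mul_mem_sup ha hb
      have h6 : Q.subgroupOf S ≤ frattini ↥S := by
        intro x hx
        obtain ⟨y, hy, hyx⟩ := h2 hx
        have : y = x := Subtype.ext hyx
        rwa [← this]
      have h7 := CfsgH1.eq_top_of_sup_frattini h6 h3
      exact le_antisymm hH (Subgroup.subgroupOf_eq_top.1 h7)
    · intro α hα
      have hPN := CfsgH8.PN_of_normalizer (X := S) hS le_rfl hN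
      apply hPN (Cfsg.FusionSystem.normalizerIn S Q) α
      have hαF : CfsgH8.Mor F (Cfsg.FusionSystem.normalizerIn S Q) (CfsgH8.av α) := CfsgH8.mor_of_norm hNsys hα
      refine CfsgH8.nkmor_of_stab le_rfl Subgroup.le_normalizer ?_ ?_
      · rwa [sup_eq_left.2 e.ge]
      · have h3 := CfsgH8.img_av α
        generalize CfsgH8.av α = g at h3
        rwa [e] at h3
  have h3 := CfsgH8.eq_inner_of_pgroups hT hNs (fun P hP => hPA.isPGroup hP)
  rw [h3]

end Cfsg.Agent.S5222
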