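import Cfsg.Statements.S5255
import Cfsg.Agent.H8.FusMod
import Cfsg.Agent.H8.WellPl
import Cfsg.Agent.H1.Basic

set_option autoImplicit false
open Cfsg

namespace Cfsg.Agent.S5255

/-- Let F be a saturated fusion system over a finite p-group S and T a subgroup of S strongly closed in F. Then T·C_S(T) is strongly closed in F. -/
theorem result {Ω : Type*} [Group Ω] {S : Subgroup Ω} [Finite S] (p : ℕ) [Fact p.Prime] (hS : IsPGroup p S) (F : Cfsg.FusionSystem S) (hF : F.IsSaturated p) (T : Subgroup Ω) (hT : F.StronglyClosed T) : F.StronglyClosed (T ⊔ Cfsg.FusionSystem.centralizerIn S T) := by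
  have hTS := hT.1
  have hTn := CfsgH8.stronglyClosed_le_normalizer hT
  have hCn : T ⊔ Cfsg.FusionSystem.centralizerIn S T ≤ S := sup_le hTS inf_le_left
  have hTC : Cfsg.FusionSystem.centralizerIn S T ≤ Subgroup.normalizer (T : Set Ω) :=
    (inf_le_left : Cfsg.FusionSystem.centralizerIn S T ≤ S).trans hTn
  rw [CfsgH8.stronglyClosed_iff]
  refine ⟨hCn, fun R f hf x hxR hx => ?_⟩
  obtain ⟨-, g, hg, h1⟩ := CfsgH8.modMor_of_mor hS hF hT R f hf
  have hgT : ∀ y ∈ T, g y ∈ T := fun y hy => (CfsgH8.stronglyClosed_iff.1 hT).2 _ g hg y (Subgroup.mem_sup_right hy) hy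
  have hxS : x ∈ S := hf.le hxR
  haveI : Finite T := CfsgH8.finite_of_le hTS
  -- x = t c
  have hdec : ∃ t ∈ T, t⁻¹ * x ∈ Cfsg.FusionSystem.centralizerIn S T := by
    have h2 : x ∈ Cfsg.FusionSystem.centralizerIn S T ⊔ T := by rwa [sup_comm]
    obtain ⟨c, hc, t, ht, rfl⟩ := (CfsgH1.mem_sup_of_le_normalizer hTC).1 h2
    refine ⟨t, ht, ?_⟩
    have h3 := (CfsgH8.mem_centralizerIn.1 hc).2 t ht
    rw [h3, inv_mul_cancel_left]
    exact hc
  obtain ⟨t, ht, hc⟩ := hdec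
  have hgx : g x ∈ S := hg.mem_S (Subgroup.mem_sup_left hxR)
  have himgT : CfsgH8.img g T = T := CfsgH8.stronglyClosed_img_eq hT le_sup_right hg
  have h4 : (g t)⁻¹ * g x ∈ Cfsg.FusionSystem.centralizerIn S T := by
    refine CfsgH8.mem_centralizerIn.2 ⟨S.mul_mem (S.inv_mem (hTS (hgT t ht))) hgx, fun y hy => ?_⟩
    rw [← himgT] at hy
    obtain ⟨z, hz, rfl⟩ := (CfsgH8.mem_img (hg.mulOn.mono le_sup_right)).1 hy
    have h5 := (CfsgH8.mem_centralizerIn.1 hc).2 z hz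
    have m1 : t ∈ R ⊔ T := Subgroup.mem_sup_right ht
    have m2 : x ∈ R ⊔ T := Subgroup.mem_sup_left hxR
    have m3 : z ∈ R ⊔ T := Subgroup.mem_sup_right hz
    have e1 : g (t⁻¹ * x * z) = (g t)⁻¹ * g x * g z := by
      rw [hg.mulOn _ (Subgroup.mul_mem _ (Subgroup.inv_mem _ m1) m2) _ m3, hg.mulOn _ (Subgroup.inv_mem _ m1) _ m2, hg.mulOn.map_inv m1]
    have e2 : g (z * (t⁻¹ * x)) = g z * ((g t)⁻¹ * g x) := by
      rw [hg.mulOn _ m3 _ (Subgroup.mul_mem _ (Subgroup.inv_mem _ m1) m2), hg.mulOn _ (Subgroup.inv_mem _ m1) _ m2, hg.mulOn.map_inv m1]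
    rw [← e1, h5, e2]
  have h6 : f x = g t * ((g t)⁻¹ * g x) * ((f x)⁻¹ * g x)⁻¹ := by group
  rw [h6]
  exact Subgroup.mul_mem _ (Subgroup.mul_mem _ (Subgroup.mem_sup_left (hgT t ht)) (Subgroup.mem_sup_right h4))
    (Subgroup.inv_mem _ (Subgroup.mem_sup_left (h1 x hxR)))

end Cfsg.Agent.S5255
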