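import Cfsg.Statements.S5256
import Cfsg.Agent.H8.HypFac

set_option autoImplicit false
open Cfsg

namespace Cfsg.Agent.S5256

/-- Let F be a saturated fusion system over a finite p-group S, T a subgroup of S strongly closed in F, and E a factor system F/T realised along a homomorphism θ of S with kernel T. Then the hyperfocal subgroup of E is the image under θ of the hyperfocal subgroup of F (hyp(F/T) = T·hyp(F)/T). -/
theorem result {Ω : Type*} [Group Ω] {S : Subgroup Ω} [Finite S] (p : ℕ) [Fact p.Prime] (hS : IsPGroup p S) (F : Cfsg.FusionSystem S) (hF : F.IsSaturated p) (T : Subgroup Ω) (hT : F.StronglyClosed T) {Ω' : Type*} [Group Ω'] {S' : Subgroup Ω'} (θ : ↥S →* Ω') (E : Cfsg.FusionSystem S') (hE : F.IsFactorSystem T θ E) : E.hyperfocalSubgroup p = ((F.hyperfocalSubgroup p).subgroupOf S).map θ := by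
  have h := CfsgH8.isFactorSystem_iff.1 hE
  rw [CfsgH8.hyp_fac hS hF hT h]
  have h1 : F.hyperfocalSubgroup p ≤ S := CfsgH8.hyp_le
  apply le_antisymm
  · refine CfsgH8.img_le.2 fun x hx => ?_
    rw [CfsgH8.extF_of_mem _ (h1 hx)]
    exact ⟨⟨x, h1 hx⟩, hx, rfl⟩
  · rintro _ ⟨x, hx, rfl⟩
    have h2 := CfsgH8.mem_img_of_mem (CfsgH8.extF θ) (show (x : Ω) ∈ F.hyperfocalSubgroup p from hx)
    rwa [CfsgH8.extF_coe] at h2

end Cfsg.Agent.S5256
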