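import Cfsg.Statements.S5276
import Cfsg.Agent.H8.FratStrong

set_option autoImplicit false
open Cfsg

namespace Cfsg.Agent.S5276

/-- Let p be a prime and F a saturated fusion system over a finite p-group S. Then F is the inner fusion system of S if and only if the normalizer fusion system of S itself in F is the inner fusion system (equivalently, Aut_F(S) is induced by S) and the Frattini subgroup Φ(S) is strongly closed in F. -/
theorem result {Ω : Type*} [Group Ω] {S : Subgroup Ω} [Finite S] (p : ℕ) [Fact p.Prime] (hS : IsPGroup p ↥S) (F : Cfsg.FusionSystem S) (hF : F.IsSaturated p) : (∀ P : Subgroup Ω, F.Hom P = (Cfsg.innerFusionSystem S).Hom P) ↔ (∀ N : Cfsg.FusionSystem (Cfsg.FusionSystem.normalizerIn S S), F.IsNormalizerSystem S N → ∀ P : Subgroup Ω, N.Hom P = (Cfsg.innerFusionSystem (Cfsg.FusionSystem.normalizerIn S S)).Hom P) ∧ F.StronglyClosed ((frattini ↥S).map S.subtype) := by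
  constructor
  · intro h
    have hPA := (CfsgH8.eqInner_iff hS hF).1 h
    refine ⟨CfsgH8.normalizer_inner_of_PA hS hF Subgroup.le_normalizer hPA, ?_⟩
    rw [CfsgH8.stronglyClosed_iff]
    refine ⟨Subgroup.map_subtype_le _, fun R f hf x hx hxK => ?_⟩
    obtain ⟨y, hy, rfl⟩ := hxK
    obtain ⟨-, g, hg, hfg⟩ := CfsgH8.mor_inner.1 (CfsgH8.inner_of_PA hS hF hPA R f hf)
    rw [hfg _ hx]
    exact ⟨⟨g, hg⟩ * y * ⟨g, hg⟩⁻¹, (inferInstance : (frattini ↥S).Normal).conj_mem y hy ⟨g, hg⟩, rfl⟩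
  · rintro ⟨h1, h2⟩
    apply (CfsgH8.eqInner_iff hS hF).2
    apply CfsgH8.PA_of_foc_le_frattini hS hF
    apply CfsgH8.foc_le_of_frattini_closed hS hF h2
    have hPN := CfsgH8.PN_of_normalizer (X := S) hS le_rfl h1
    have hp : IsPGroup p (F.autGroup S) := by
      rintro ⟨α, hα⟩
      have hα' := (CfsgH8.mem_autGroup le_rfl).1 hα
      obtain ⟨k, hk⟩ := hPN S α (CfsgH8.nkmor_of_stab le_rfl Subgroup.le_normalizer (by rwa [sup_idem]) (by
        have h3 := CfsgH8.img_av α
        exact h3))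
      exact ⟨k, Subtype.ext hk⟩
    haveI := CfsgH8.finite_autGroup F S
    obtain ⟨-, hs⟩ := CfsgH8.fullyAutomized_iff.1 (CfsgH8.saturated_fn hS hF (CfsgH8.fullyNormalized_top F)).2.1
    exact (hs.eq_of_le le_rfl hp hs.1).ge

end Cfsg.Agent.S5276
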