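import Cfsg.Statements.S5301
import Cfsg.Agent.H8.Easy2

set_option autoImplicit false
universe u
open Cfsg

namespace Cfsg.Agent.S5301

/-- Let F be a saturated fusion system over a finite p-group S. If for every subgroup P of S that is fully normalized, centric and radical in F the automorphism group that F induces on P has a normal Sylow p-subgroup, then S is normal in F. -/
theorem result {Ω : Type u} [Group Ω] {S : Subgroup Ω} [Finite S] (p : ℕ) [Fact p.Prime] (hS : IsPGroup p S)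
    (F : Cfsg.FusionSystem S) (hF : F.IsSaturated p)
    (hcl : ∀ P : Subgroup Ω, F.IsFullyNormalized P → F.IsCentric P → F.IsRadical p P →
      ∃ R : Sylow p ↥(F.autGroup P), (R : Subgroup ↥(F.autGroup P)).Normal) :
    F.IsNormal S := by
  refine CfsgH8.top_normal_of_closed hS hF (fun P hfn hc hr => ?_)
  obtain ⟨R, hR⟩ := hcl P hfn hc hr
  haveI := hR
  have hPS : P ≤ S := hfn.1
  haveI := CfsgH8.finite_autGroup F P
  have h1 := (CfsgH8.fullyAutomized_iff.1 (CfsgH8.saturated_fn hS hF hfn).2.1).2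
  have hRsyl : CfsgH8.IsSyl p ((R : Subgroup ↥(F.autGroup P)).map (F.autGroup P).subtype) (F.autGroup P) := by
    rw [CfsgH8.isSyl_iff_sylow]
    refine ⟨Subgroup.map_subtype_le _, R, ?_⟩
    rw [Subgroup.subgroupOf, Subgroup.comap_map_eq_self_of_injective (Subgroup.subtype_injective _)]
  obtain ⟨a, ha, hax⟩ := hRsyl.exists_conj_le (L := Cfsg.autInducedBy S P) h1.le h1.isPGroup
  intro x hx
  have h2 := hax x hx
  obtain ⟨r, hr, hr2⟩ := h2
  have hle : (R : Subgroup ↥(F.autGroup P)) ≤ Cfsg.pCore p ↥(F.autGroup P) := CfsgH8.le_pCore hR R.isPGroup'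
  have h3 : (⟨a, ha⟩ : ↥(F.autGroup P))⁻¹ * r * (⟨a, ha⟩ : ↥(F.autGroup P)) ∈ (R : Subgroup ↥(F.autGroup P)) := by
    have := hR.conj_mem r hr (⟨a, ha⟩ : ↥(F.autGroup P))⁻¹
    rwa [inv_inv] at this
  refine ⟨_, hle h3, ?_⟩
  rw [map_mul, map_mul, hr2, map_inv]
  show a⁻¹ * (a * x * a⁻¹) * a = x
  group

end Cfsg.Agent.S5301
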