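import Cfsg.Statements.S5560
import Cfsg.Agent.H5.FischerP

set_option autoImplicit false
open Cfsg

namespace Cfsg.Agent.S5560

open CfsgH5

/-- A Z*-type result for an odd prime p. Let G be a finite group and d an involution of G such that the product of any two conjugates of d has order a power of p. Then the product of any two conjugates of d lies in the largest normal p-subgroup O_p(G); in other words the conjugacy class of d lies in the coset O_p(G)d, and d is central modulo O_p(G). -/
theorem result {G : Type*} [Group G] [Finite G] {p : ℕ} (hp : p.Prime) (hp2 : p ≠ 2)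
    (d : G) (hd : orderOf d = 2)
    (hprod : ∀ a ∈ conjugatesOf d, ∀ b ∈ conjugatesOf d, ∃ k : ℕ, orderOf (a * b) = p ^ k) :
    ∀ a ∈ conjugatesOf d, ∀ b ∈ conjugatesOf d, a * b ∈ Cfsg.pCore p G := by
  intro a ha b hb
  obtain ⟨u, rfl⟩ := isConj_iff.1 (show IsConj d a from ha)
  obtain ⟨v, rfl⟩ := isConj_iff.1 (show IsConj d b from hb)
  have h1 : ∀ g : G, ∃ k : ℕ, orderOf ((u * d * u⁻¹) * (g * (u * d * u⁻¹) * g⁻¹)) = p ^ k := by
    intro g
    apply hprod _ ha
    exact isConj_iff.2 ⟨g * u, by group⟩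
  have h2 := tt68 hp hp2 (d := u * d * u⁻¹) (by rw [CfsgH3.orderOf_conj, hd]) h1 (v * u⁻¹)
  have h3 : v * u⁻¹ * (u * d * u⁻¹) * (v * u⁻¹)⁻¹ = v * d * v⁻¹ := by group
  rwa [h3] at h2

end Cfsg.Agent.S5560
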