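import Mathlib
import Cfsg.Statements.S5562

set_option autoImplicit false
open Cfsg

namespace Cfsg.Agent.S5562

/-- Let G be a finite group, d an involution of G whose conjugates pairwise have products of odd order, and x any involution of G. Then the conjugacy class of d is the disjoint union, over the conjugates a of d commuting with x, of the sets of conjugates of d commuting with ax: every conjugate of d commutes with ax for exactly one conjugate a of d that commutes with x. -/
theorem result {G : Type*} [Group G] [Finite G] (d : G) (hd : orderOf d = 2)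
    (hodd : ∀ a ∈ conjugatesOf d, ∀ b ∈ conjugatesOf d, Odd (orderOf (a * b)))
    (x : G) (hx : orderOf x = 2) :
    ∀ e ∈ conjugatesOf d,
      ∃! a : G, a ∈ conjugatesOf d ∧ Commute a x ∧ Commute e (a * x) := by
  classical
  have hsq : ∀ e ∈ conjugatesOf d, e * e = 1 := by
    intro e he
    obtain ⟨c, hc⟩ := isConj_iff.1 he
    rw [← hc]
    have h1 : d * d = 1 := by
      have := pow_orderOf_eq_one d
      rwa [hd, pow_two] at this
    calc c * d * c⁻¹ * (c * d * c⁻¹) = c * (d * d) * c⁻¹ := by group
      _ = 1 := by rw [h1]; group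
  have hiv : ∀ e ∈ conjugatesOf d, e⁻¹ = e := fun e he => inv_eq_of_mul_eq_one_left (hsq e he)
  have hcj : ∀ e ∈ conjugatesOf d, ∀ g : G, g * e * g⁻¹ ∈ conjugatesOf d := by
    intro e he g
    exact IsConj.trans he (isConj_iff.2 ⟨g, rfl⟩)
  have hxx : x * x = 1 := by
    have := pow_orderOf_eq_one x
    rwa [hx, pow_two] at this
  have hxi : x⁻¹ = x := inv_eq_of_mul_eq_one_left hxx
  intro e he
  have hee := hsq e he
  have hei := hiv e he
  -- the key relation
  have hrel : ∀ a ∈ conjugatesOf d, Commute a x → Commute e (a * x) → a * e * a = x * e * x := by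
    intro a ha hax hea
    have h1 : e * (a * x) = a * x * e := hea
    have h2 : a * x = x * a := hax
    calc a * e * a = a * (e * (a * x)) * x := by
          have : a * (e * (a * x)) * x = a * e * a * (x * x) := by group
          rw [this, hxx, mul_one]
      _ = a * (a * x * e) * x := by rw [h1]
      _ = (a * a) * x * e * x := by group
      _ = x * e * x := by rw [hsq a ha, one_mul]
  have huniq : ∀ a₁ a₂ : G, (a₁ ∈ conjugatesOf d ∧ Commute a₁ x ∧ Commute e (a₁ * x)) → (a₂ ∈ conjugatesOf d ∧ Commute a₂ x ∧ Commute e (a₂ * x)) → a₁ = a₂ := by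
    rintro a₁ a₂ ⟨h1, h1x, h1e⟩ ⟨h2, h2x, h2e⟩
    have r1 := hrel a₁ h1 h1x h1e
    have r2 := hrel a₂ h2 h2x h2e
    have s1 := hsq a₁ h1
    have s2 := hsq a₂ h2
    have h2x' : a₂ * x = x * a₂ := h2x
    set u := a₂ * a₁ with hu
    have hui : u⁻¹ = a₁ * a₂ := by rw [hu, mul_inv_rev, hiv a₁ h1, hiv a₂ h2]
    have hue : e * u = u * e := by
      have h3 : u * e * u⁻¹ = e := by
        rw [hui]
        calc u * e * (a₁ * a₂) = a₂ * (a₁ * e * a₁) * a₂ := by rw [hu]; group
          _ = a₂ * (x * e * x) * a₂ := by rw [r1]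
          _ = (a₂ * x) * e * (x * a₂) := by group
          _ = (x * a₂) * e * (a₂ * x) := by rw [h2x']
          _ = x * (a₂ * e * a₂) * x := by group
          _ = x * (x * e * x) * x := by rw [r2]
          _ = (x * x) * e * (x * x) := by group
          _ = e := by rw [hxx, one_mul, mul_one]
      exact (mul_inv_eq_iff_eq_mul.1 h3).symm
    have hs : SemiconjBy (e * a₂) u u⁻¹ := by
      change e * a₂ * u = u⁻¹ * (e * a₂)
      have h3 : u⁻¹ * e = e * u⁻¹ := by
        calc u⁻¹ * e = u⁻¹ * (e * u) * u⁻¹ := by group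
          _ = u⁻¹ * (u * e) * u⁻¹ := by rw [hue]
          _ = e * u⁻¹ := by group
      calc e * a₂ * u = e * (a₂ * a₂) * a₁ := by rw [hu]; group
        _ = e * a₁ := by rw [s2, mul_one]
        _ = e * (a₁ * a₂) * a₂ := by
          have : e * (a₁ * a₂) * a₂ = e * a₁ * (a₂ * a₂) := by group
          rw [this, s2, mul_one]
        _ = e * u⁻¹ * a₂ := by rw [hui]
        _ = u⁻¹ * (e * a₂) := by rw [← h3]; group
    have hs2 : Commute ((e * a₂) ^ 2) u := by
      have h3 : SemiconjBy (e * a₂) u⁻¹ u := by
        have := hs.inv_right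
        rwa [inv_inv] at this
      have h4 := h3.mul_left hs
      rw [← pow_two] at h4
      exact h4
    obtain ⟨m, hm⟩ := hodd e he a₂ h2
    have h3 : (e * a₂) ^ (2 * m + 1) = 1 := by rw [← hm, pow_orderOf_eq_one]
    have h4 : SemiconjBy ((e * a₂) ^ (2 * m + 1)) u u⁻¹ := by
      rw [pow_succ', pow_mul]
      have h5 : SemiconjBy (((e * a₂) ^ 2) ^ m) u u := hs2.pow_left m
      exact hs.mul_left h5
    rw [h3] at h4
    have h5 : u = u⁻¹ := by
      have : 1 * u = u⁻¹ * 1 := h4
      rwa [one_mul, mul_one] at this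
    have h6 : u ^ 2 = 1 := by
      rw [pow_two]
      nth_rewrite 2 [h5]
      exact mul_inv_cancel u
    have h7 := hodd a₂ h2 a₁ h1
    have h8 := orderOf_dvd_of_pow_eq_one h6
    have h9 : orderOf u = 1 := by
      rcases (Nat.dvd_prime Nat.prime_two).1 h8 with h | h
      · exact h
      · rw [← hu, h] at h7; exact absurd h7 (by decide)
    rw [orderOf_eq_one_iff, hu] at h9
    have := eq_inv_of_mul_eq_one_left h9
    rw [hiv a₁ h1] at this
    exact this.symm
  -- existence
  set f := x * e * x with hf
  have hfD : f ∈ conjugatesOf d := by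
    have := hcj e he x
    rwa [hxi] at this
  have hff := hsq f hfD
  set w := e * f with hw
  obtain ⟨m, hm⟩ := hodd e he f hfD
  have hwm : w ^ (2 * m + 1) = 1 := by rw [← hm, pow_orderOf_eq_one]
  have hwi : w⁻¹ = f * e := by rw [hw, mul_inv_rev, hei, hiv f hfD]
  have hew : SemiconjBy e w w⁻¹ := by
    change e * w = w⁻¹ * e
    rw [hwi, hw]
    calc e * (e * f) = (e * e) * f := by group
      _ = f := by rw [hee, one_mul]
      _ = f * e * e := by rw [mul_assoc, hee, mul_one]
  have hxe : x * e = f * x := by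
    rw [hf, mul_assoc (x * e), hxx, mul_one]
  have hxf : x * f = e * x := by
    rw [hf]
    calc x * (x * e * x) = (x * x) * e * x := by group
      _ = e * x := by rw [hxx, one_mul]
  have hxw : SemiconjBy x w w⁻¹ := by
    change x * w = w⁻¹ * x
    rw [hwi, hw]
    calc x * (e * f) = (x * e) * f := by group
      _ = f * (x * f) := by rw [hxe]; group
      _ = f * e * x := by rw [hxf]; group
  -- a = w ^ m * e   (w^m = w^{-(m+1)})
  have hwm1 : w ^ m * w ^ m * w = 1 := by
    rw [← pow_add, ← pow_succ, ← hwm]; congr 1; omega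
  have hef : f = w⁻¹ * e := by rw [hwi, mul_assoc, hee, mul_one]
  have hewm : e * w ^ m = (w ^ m)⁻¹ * e := by
    have := hew.pow_right m
    rw [inv_pow] at this
    exact this
  have hxwm : x * w ^ m = (w ^ m)⁻¹ * x := by
    have := hxw.pow_right m
    rw [inv_pow] at this
    exact this
  have hinvm : (w ^ m)⁻¹ = w ^ m * w := by
    rw [inv_eq_iff_mul_eq_one, ← mul_assoc]; exact hwm1
  have haD : w ^ m * e ∈ conjugatesOf d := by
    -- conjugate of e by a power of w
    have h1 : ∀ l : ℕ, w ^ l * e * (w ^ l)⁻¹ = w ^ (2 * l) * e := by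
      intro l
      have h2 : e * (w ^ l)⁻¹ = w ^ l * e := by
        have h3 := (hew.pow_right l).inv_right
        rw [inv_pow, inv_inv] at h3
        exact h3
      rw [mul_assoc, h2, two_mul, pow_add]; group
    have h2 := hcj e he (w ^ (m * (m + 1)))
    rw [h1] at h2
    have h3 : w ^ (2 * (m * (m + 1))) = w ^ m := by
      have h4 : 2 * (m * (m + 1)) = (2 * m + 1) * m + m := by ring
      rw [h4, pow_add, pow_mul, hwm, one_pow, one_mul]
    rwa [h3] at h2
  have hcomm_w : w * w ^ m = w ^ m * w := (pow_succ' w m).symm.trans (pow_succ w m)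
  refine ⟨w ^ m * e, ⟨haD, ?_, ?_⟩, fun b hb => huniq b _ hb ⟨haD, ?_, ?_⟩⟩
  all_goals first
    | (change w ^ m * e * x = x * (w ^ m * e)
       calc w ^ m * e * x = (w ^ m * w) * (w⁻¹ * e) * x := by group
         _ = (w ^ m)⁻¹ * f * x := by rw [← hinvm, ← hef]
         _ = (w ^ m)⁻¹ * (x * e) := by rw [hxe]; group
         _ = ((w ^ m)⁻¹ * x) * e := by group
         _ = x * (w ^ m * e) := by rw [← hxwm]; group)
    | (change e * (w ^ m * e * x) = w ^ m * e * x * e
       calc e * (w ^ m * e * x) = (e * w ^ m) * e * x := by group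
         _ = (w ^ m)⁻¹ * (e * e) * x := by rw [hewm]; group
         _ = (w ^ m * w) * x := by rw [hee, mul_one, hinvm]
         _ = w ^ m * (e * f) * x := by rw [hw]
         _ = w ^ m * e * (f * x) := by group
         _ = w ^ m * e * x * e := by rw [← hxe]; group)

end Cfsg.Agent.S5562
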