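import Cfsg.Statements.S5729
import Mathlib

set_option autoImplicit false
open Cfsg

namespace Cfsg.Agent.S5729

/-- Let a finite group G act faithfully and transitively on a set with n ≥ 3 points. Then either G is a Frobenius permutation group (Frobenius as a permutation group: transitive, some non-identity element fixes a point, and no non-identity element fixes two points) of order n(n − 1) and exactly |G|/n of its elements are derangements (fix no point), or the number of derangements is greater than |G|/n. -/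
theorem result {G Ω : Type*} [Group G] [Finite G] [MulAction G Ω] [FaithfulSMul G Ω] [Fintype Ω] (htr : MulAction.IsPretransitive G Ω) (hn : 3 ≤ Fintype.card Ω) :
    ((MulAction.IsPretransitive G Ω ∧ (∃ g : G, g ≠ 1 ∧ ∃ ω : Ω, g • ω = ω) ∧ ∀ g : G, g ≠ 1 → Nat.card (MulAction.fixedBy Ω g) ≤ 1) ∧ Nat.card G = Fintype.card Ω * (Fintype.card Ω - 1) ∧ Fintype.card Ω * Nat.card {g : G // ∀ ω : Ω, g • ω ≠ ω} = Nat.card G) ∨
    Nat.card G < Fintype.card Ω * Nat.card {g : G // ∀ ω : Ω, g • ω ≠ ω} := by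
  classical
  cases nonempty_fintype G
  set n : ℤ := (Fintype.card Ω : ℤ) with hnZ
  have hπ : ∀ g : G, Nat.card (MulAction.fixedBy Ω g) = Fintype.card (MulAction.fixedBy Ω g) := fun g => Nat.card_eq_fintype_card
  have hne : Nonempty Ω := Fintype.card_pos_iff.1 (by omega)
  -- Burnside
  have hB1 := MulAction.sum_card_fixedBy_eq_card_orbits_mul_card_group G Ω
  have hB2 := MulAction.sum_card_fixedBy_eq_card_orbits_mul_card_group G (Ω × Ω)
  have horb1 : Fintype.card (Quotient (MulAction.orbitRel G Ω)) = 1 := by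
    rw [Fintype.card_eq_one_iff_nonempty_unique]
    have h1 : Subsingleton (Quotient (MulAction.orbitRel G Ω)) :=
      (MulAction.pretransitive_iff_subsingleton_quotient G Ω).1 htr
    obtain ⟨ω⟩ := hne
    exact ⟨⟨⟨Quotient.mk _ ω⟩, fun a => Subsingleton.elim _ _⟩⟩
  set r := Fintype.card (Quotient (MulAction.orbitRel G (Ω × Ω))) with hr
  have hr2 : 2 ≤ r := by
    obtain ⟨a, b, hab⟩ := Fintype.exists_pair_of_one_lt_card (α := Ω) (by omega)
    apply Fintype.one_lt_card_iff.2
    refine ⟨Quotient.mk _ (a, a), Quotient.mk _ (a, b), fun h => ?_⟩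
    have h1 := Quotient.exact h
    obtain ⟨g, hg⟩ := h1
    have h2 := Prod.ext_iff.1 hg
    exact hab (MulAction.injective g (h2.1.trans h2.2.symm))
  have hsq : ∀ g : G, Fintype.card (MulAction.fixedBy (Ω × Ω) g) = Fintype.card (MulAction.fixedBy Ω g) ^ 2 := by
    intro g
    rw [sq, ← Fintype.card_prod]
    apply Fintype.card_congr
    exact
      { toFun := fun x => (⟨x.1.1, (Prod.ext_iff.1 x.2).1⟩, ⟨x.1.2, (Prod.ext_iff.1 x.2).2⟩)
        invFun := fun y => ⟨(y.1.1, y.2.1), Prod.ext y.1.2 y.2.2⟩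
        left_inv := fun x => rfl
        right_inv := fun y => rfl }
  rw [horb1, one_mul] at hB1
  simp_rw [hsq] at hB2
  set π : G → ℤ := fun g => (Fintype.card (MulAction.fixedBy Ω g) : ℤ) with hπdef
  have hS1 : ∑ g : G, π g = Fintype.card G := by
    rw [hπdef]; rw [← Nat.cast_sum, hB1]
  have hS2 : ∑ g : G, π g ^ 2 = r * Fintype.card G := by
    have : ∑ g : G, π g ^ 2 = ((∑ g : G, Fintype.card (MulAction.fixedBy Ω g) ^ 2 : ℕ) : ℤ) := by
      rw [Nat.cast_sum]; apply Finset.sum_congr rfl; intro g _; rw [Nat.cast_pow]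
    rw [this, hB2, Nat.cast_mul]
  have hS : ∑ g : G, (π g - 1) * (π g - n) = (r - 1) * Fintype.card G := by
    have : ∀ g : G, (π g - 1) * (π g - n) = π g ^ 2 - (n + 1) * π g + n := fun g => by ring
    simp_rw [this]
    rw [Finset.sum_add_distrib, Finset.sum_sub_distrib, ← Finset.mul_sum, hS1, hS2, Finset.sum_const, Finset.card_univ]
    simp only [nsmul_eq_mul]
    ring
  have hπ0 : ∀ g, 0 ≤ π g := fun g => Nat.cast_nonneg _
  have hπn : ∀ g, π g ≤ n := fun g => by
    rw [hπdef, hnZ]; simp only [Nat.cast_le]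
    exact Fintype.card_subtype_le _
  have hderiff : ∀ g : G, (∀ ω : Ω, g • ω ≠ ω) ↔ π g = 0 := by
    intro g
    rw [hπdef]; simp only [Nat.cast_eq_zero]
    rw [Fintype.card_eq_zero_iff]
    constructor
    · intro h; exact ⟨fun x => h x.1 x.2⟩
    · intro h ω hω; exact h.false ⟨ω, hω⟩
  have hterm : ∀ g : G, (π g - 1) * (π g - n) ≤ if (∀ ω : Ω, g • ω ≠ ω) then n else 0 := by
    intro g
    have h0 := hπ0 g
    have hn' := hπn g
    by_cases h : ∀ ω : Ω, g • ω ≠ ω
    · rw [if_pos h, (hderiff g).1 h]; linarith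
    · rw [if_neg h]
      rw [hderiff] at h
      have h1 : 1 ≤ π g := by omega
      nlinarith
  have hD : Nat.card {g : G // ∀ ω : Ω, g • ω ≠ ω} = (Finset.univ.filter (fun g : G => ∀ ω : Ω, g • ω ≠ ω)).card := by
    rw [Nat.card_eq_fintype_card, Fintype.card_subtype]
  have hsumD : ∑ g : G, (if (∀ ω : Ω, g • ω ≠ ω) then n else 0) = n * Nat.card {g : G // ∀ ω : Ω, g • ω ≠ ω} := by
    rw [← Finset.sum_filter, Finset.sum_const, nsmul_eq_mul, hD, mul_comm]
  have hle := Finset.sum_le_sum (fun g (_ : g ∈ Finset.univ) => hterm g)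
  rw [hS, hsumD] at hle
  have hGpos : (0 : ℤ) < Fintype.card G := by exact_mod_cast Fintype.card_pos
  have hrz : (2 : ℤ) ≤ r := by exact_mod_cast hr2
  by_cases hlt : Nat.card G < Fintype.card Ω * Nat.card {g : G // ∀ ω : Ω, g • ω ≠ ω}
  · exact Or.inr hlt
  left
  push Not at hlt
  have hlt' : n * Nat.card {g : G // ∀ ω : Ω, g • ω ≠ ω} ≤ Fintype.card G := by
    rw [Nat.card_eq_fintype_card (α := G)] at hlt
    have h9 : ((Fintype.card Ω * Nat.card {g : G // ∀ ω : Ω, g • ω ≠ ω} : ℕ) : ℤ) ≤ ((Fintype.card G : ℕ) : ℤ) := Nat.cast_le.2 hlt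
    rw [Nat.cast_mul] at h9
    exact h9
  have hr1 : (r : ℤ) = 2 := by nlinarith
  have heq : n * Nat.card {g : G // ∀ ω : Ω, g • ω ≠ ω} = Fintype.card G := by
    apply le_antisymm hlt'
    rw [hr1] at hle; linarith
  have hteq : ∀ g : G, (π g - 1) * (π g - n) = if (∀ ω : Ω, g • ω ≠ ω) then n else 0 := by
    have h1 : ∑ g : G, (π g - 1) * (π g - n) = ∑ g : G, (if (∀ ω : Ω, g • ω ≠ ω) then n else 0) := by
      rw [hS, hsumD, heq, hr1]; ring
    have h2 := (Finset.sum_eq_sum_iff_of_le (fun g (_ : g ∈ Finset.univ) => hterm g)).1 h1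
    intro g; exact h2 g (Finset.mem_univ g)
  have hle1 : ∀ g : G, g ≠ 1 → π g ≤ 1 := by
    intro g hg
    by_contra hcon
    push Not at hcon
    have h1 := hteq g
    rw [if_neg (by rw [hderiff]; omega)] at h1
    rcases mul_eq_zero.1 h1 with h2 | h2
    · omega
    · apply hg
      have h3 : Fintype.card (MulAction.fixedBy Ω g) = Fintype.card Ω := by
        have h9 : ((Fintype.card (MulAction.fixedBy Ω g) : ℕ) : ℤ) = ((Fintype.card Ω : ℕ) : ℤ) := by
          have : π g = n := by linarith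
          exact this
        exact Nat.cast_inj.1 h9
      have h4 : MulAction.fixedBy Ω g = Set.univ := by
        rw [← set_fintype_card_eq_univ_iff]; exact h3
      apply eq_of_smul_eq_smul (α := Ω)
      intro ω
      have : ω ∈ MulAction.fixedBy Ω g := by rw [h4]; trivial
      rw [one_smul]; exact this
  have hone : π 1 = n := by
    rw [hπdef]
    simp only [hnZ, Nat.cast_inj]
    rw [← Fintype.card_congr (Equiv.Set.univ Ω)]
    apply Fintype.card_congr
    apply Equiv.setCongr
    ext ω; simp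
  have hcardG : (Fintype.card G : ℤ) = n * (n - 1) := by
    have h1 : ∑ g : G, (π g ^ 2 - π g) = Fintype.card G := by
      rw [Finset.sum_sub_distrib, hS1, hS2, hr1]; ring
    rw [← h1, Finset.sum_eq_single (1 : G)]
    · rw [hone]; ring
    · intro g _ hg
      have h2 := hle1 g hg
      have h3 := hπ0 g
      have : π g = 0 ∨ π g = 1 := by omega
      rcases this with h | h <;> rw [h] <;> norm_num
    · intro h; exact absurd (Finset.mem_univ _) h
  have hn3 : (3 : ℤ) ≤ n := by rw [hnZ]; exact_mod_cast hn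
  refine ⟨⟨htr, ?_, ?_⟩, ?_, ?_⟩
  · by_contra hcon
    push Not at hcon
    have h1 : ∑ g : G, π g = n := by
      rw [Finset.sum_eq_single (1 : G), hone]
      · intro g _ hg
        exact (hderiff g).1 (fun ω => hcon g hg ω)
      · intro h; exact absurd (Finset.mem_univ _) h
    rw [hS1, hcardG] at h1
    nlinarith
  · intro g hg
    rw [hπ]
    have h9 : ((Fintype.card (MulAction.fixedBy Ω g) : ℕ) : ℤ) ≤ ((1 : ℕ) : ℤ) := by
      rw [Nat.cast_one]; exact hle1 g hg
    exact Nat.cast_le.1 h9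
  · rw [Nat.card_eq_fintype_card]
    zify [show 1 ≤ Fintype.card Ω by omega]
    exact hcardG
  · rw [Nat.card_eq_fintype_card (α := G)]
    have h9 : ((Fintype.card Ω * Nat.card {g : G // ∀ ω : Ω, g • ω ≠ ω} : ℕ) : ℤ) = ((Fintype.card G : ℕ) : ℤ) := by
      rw [Nat.cast_mul]; exact heq
    exact Nat.cast_inj.1 h9

end Cfsg.Agent.S5729
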