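import Cfsg.Statements.S5747
import Mathlib

set_option autoImplicit false
open Cfsg

namespace Cfsg.Agent.S5747

section
variable {G Ω : Type*} [Group G] [MulAction G Ω]

/-- irredundance for reversed lists -/
def R (G : Type*) {Ω : Type*} [Group G] [MulAction G Ω] : List Ω → Prop
  | [] => True
  | x :: l => R G l ∧ ∃ g : G, (∀ y ∈ l, g • y = y) ∧ g • x ≠ x

def Bs (G : Type*) {Ω : Type*} [Group G] [MulAction G Ω] (l : List Ω) : Prop :=
  ∀ g : G, (∀ y ∈ l, g • y = y) → g = 1

def IrrF (G : Type*) {Ω : Type*} [Group G] [MulAction G Ω] {t : ℕ} (f : Fin t → Ω) : Prop :=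
  ∀ i : Fin t, ∃ g : G, (∀ j : Fin t, j < i → g • f j = f j) ∧ g • f i ≠ f i

def BsF (G : Type*) {Ω : Type*} [Group G] [MulAction G Ω] {t : ℕ} (f : Fin t → Ω) : Prop :=
  ∀ g : G, (∀ i : Fin t, g • f i = f i) → g = 1

theorem irrF_iff {t : ℕ} (f : Fin t → Ω) : IrrF G f ↔ R G (List.ofFn f).reverse := by
  induction t with
  | zero => simp [IrrF, R]
  | succ t ih =>
    rw [List.ofFn_succ', List.concat_eq_append, List.reverse_append, List.reverse_singleton, List.singleton_append]
    change _ ↔ R G _ ∧ _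
    rw [← ih]
    constructor
    · intro h
      refine ⟨fun i => ?_, ?_⟩
      · obtain ⟨g, h1, h2⟩ := h i.castSucc
        exact ⟨g, fun j hj => h1 j.castSucc (Fin.castSucc_lt_castSucc_iff.2 hj), h2⟩
      · obtain ⟨g, h1, h2⟩ := h (Fin.last t)
        refine ⟨g, fun y hy => ?_, h2⟩
        rw [List.mem_reverse, List.mem_ofFn] at hy
        obtain ⟨j, rfl⟩ := hy
        exact h1 _ (Fin.castSucc_lt_last j)
    · rintro ⟨h1, g0, h2, h3⟩ i
      refine Fin.lastCases ?_ (fun i => ?_) i
      · refine ⟨g0, fun j hj => ?_, h3⟩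
        obtain ⟨k, rfl⟩ := Fin.exists_castSucc_eq.2 hj.ne
        exact h2 _ (List.mem_reverse.2 (List.mem_ofFn.2 ⟨k, rfl⟩))
      · obtain ⟨g, h4, h5⟩ := h1 i
        refine ⟨g, fun j hj => ?_, h5⟩
        obtain ⟨k, rfl⟩ := Fin.exists_castSucc_eq.2 (hj.trans (Fin.castSucc_lt_last i)).ne
        exact h4 k (Fin.castSucc_lt_castSucc_iff.1 hj)

theorem bsF_iff {t : ℕ} (f : Fin t → Ω) : BsF G f ↔ Bs G (List.ofFn f).reverse := by
  constructor
  · intro h g hg
    exact h g (fun i => hg _ (List.mem_reverse.2 (List.mem_ofFn.2 ⟨i, rfl⟩)))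
  · intro h g hg
    apply h g
    intro y hy
    rw [List.mem_reverse, List.mem_ofFn] at hy
    obtain ⟨i, rfl⟩ := hy
    exact hg i

theorem reduce (u : List Ω) (hu : R G u) (v : List Ω) :
    ∃ w, w.Sublist v ∧ R G (w ++ u) ∧ ∀ g : G, (∀ x ∈ w ++ u, g • x = x) → ∀ x ∈ v ++ u, g • x = x := by
  induction v with
  | nil => exact ⟨[], List.Sublist.refl _, hu, fun g h => h⟩
  | cons x v ih =>
    obtain ⟨w, h1, h2, h3⟩ := ih
    by_cases hx : ∃ g : G, (∀ y ∈ w ++ u, g • y = y) ∧ g • x ≠ x
    · refine ⟨x :: w, h1.cons_cons x, ⟨h2, hx⟩, fun g hg y hy => ?_⟩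
      rw [List.cons_append, List.mem_cons] at hy
      rcases hy with rfl | hy
      · exact hg _ (by simp)
      · exact h3 g (fun z hz => hg z (by rw [List.cons_append]; exact List.mem_cons_of_mem _ hz)) y hy
    · push Not at hx
      refine ⟨w, h1.cons x, h2, fun g hg y hy => ?_⟩
      rw [List.cons_append, List.mem_cons] at hy
      rcases hy with rfl | hy
      · exact hx g hg
      · exact h3 g hg y hy

theorem R.nodup {l : List Ω} (h : R G l) : l.Nodup := by
  induction l with
  | nil => exact List.nodup_nil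
  | cons x l ih =>
    obtain ⟨h1, g, h2, h3⟩ := h
    exact List.nodup_cons.2 ⟨fun hx => h3 (h2 x hx), ih h1⟩

theorem R.tail {l u : List Ω} (h : R G (l ++ u)) : R G u := by
  induction l with
  | nil => exact h
  | cons x l ih => exact ih h.1

/-- permuted lists come from reorderings of functions -/
theorem perm_of (hP : ∀ (t : ℕ) (f : Fin t → Ω) (σ : Equiv.Perm (Fin t)), BsF G f → IrrF G f → IrrF G (f ∘ σ))
    {l l' : List Ω} (hR : R G l) (hB : Bs G l) (hp : l.Perm l') : R G l' := by
  have hnd := hR.nodup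
  have hnd' : l'.Nodup := hp.nodup_iff.1 hnd
  have hlen : l'.length = l.length := hp.length_eq.symm
  let f : Fin l.reverse.length → Ω := l.reverse.get
  have hof : List.ofFn f = l.reverse := List.ofFn_get _
  have hc : l.reverse.length = l'.reverse.length := by rw [List.length_reverse, List.length_reverse, hlen]
  let f' : Fin l.reverse.length → Ω := fun i => l'.reverse.get (Fin.cast hc i)
  have hof' : List.ofFn f' = l'.reverse := by
    have : f' = l'.reverse.get ∘ Fin.cast hc := rfl
    rw [this]
    have h2 := List.ofFn_congr hc.symm l'.reverse.get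
    rw [List.ofFn_get] at h2
    exact h2.symm
  have hf : Function.Injective f := List.nodup_iff_injective_get.1 (List.nodup_reverse.2 hnd)
  have hf' : Function.Injective f' := fun i j hij => by
    have := List.nodup_iff_injective_get.1 (List.nodup_reverse.2 hnd') hij
    exact Fin.cast_injective _ this
  have hr : Set.range f' = Set.range f := by
    ext x
    have h1 : x ∈ Set.range f' ↔ x ∈ List.ofFn f' := by rw [List.mem_ofFn]; rfl
    have h2 : x ∈ Set.range f ↔ x ∈ List.ofFn f := by rw [List.mem_ofFn]; rfl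
    rw [h1, h2, hof, hof', List.mem_reverse, List.mem_reverse, hp.mem_iff]
  let σ : Equiv.Perm (Fin l.reverse.length) :=
    (Equiv.ofInjective f' hf').trans ((Equiv.setCongr hr).trans (Equiv.ofInjective f hf).symm)
  have hσ : f ∘ σ = f' := by
    funext i
    change f ((Equiv.ofInjective f hf).symm ⟨f' i, _⟩) = f' i
    exact Equiv.apply_ofInjective_symm hf _
  have h1 := hP _ f σ ((bsF_iff f).2 (by rw [hof, List.reverse_reverse]; exact hB))
    ((irrF_iff f).2 (by rw [hof, List.reverse_reverse]; exact hR))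
  rw [hσ, irrF_iff, hof', List.reverse_reverse] at h1
  exact h1

theorem exchange (hP : ∀ (t : ℕ) (f : Fin t → Ω) (σ : Equiv.Perm (Fin t)), BsF G f → IrrF G f → IrrF G (f ∘ σ))
    {B C : List Ω} (hB : R G B) (hB' : Bs G B) (hC : R G C) : C.length ≤ B.length := by
  have key : ∀ c : List Ω, R G c → ∃ w, R G (w ++ c) ∧ Bs G (w ++ c) ∧ (w ++ c).length ≤ B.length := by
    intro c
    induction c with
    | nil => intro _; exact ⟨B, by simpa using hB, by simpa using hB', by simp⟩
    | cons x c ih =>
      intro hc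
      obtain ⟨w, h1, h2, h3⟩ := ih hc.1
      obtain ⟨w', h4, h5, h6⟩ := reduce (x :: c) hc w
      have hbase : Bs G (w' ++ x :: c) := by
        intro g hg
        apply h2 g
        intro y hy
        apply h6 g hg
        rw [List.mem_append] at hy ⊢
        rcases hy with hy | hy
        · exact Or.inl hy
        · exact Or.inr (List.mem_cons_of_mem _ hy)
      refine ⟨w', h5, hbase, ?_⟩
      have hne : w' ≠ w := by
        rintro rfl
        have h7 : (w' ++ x :: c).Perm (x :: (w' ++ c)) := List.perm_middle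
        obtain ⟨-, g, h8, h9⟩ := perm_of hP h5 hbase h7
        exact h9 (by rw [h2 g h8, one_smul])
      have hlt : w'.length < w.length := by
        rcases h4.length_le.lt_or_eq with h | h
        · exact h
        · exact absurd (h4.eq_of_length h) hne
      rw [List.length_append, List.length_cons]
      rw [List.length_append] at h3
      omega
  obtain ⟨w, -, -, h⟩ := key C hC
  rw [List.length_append] at h
  omega

end

/-- Let a finite group G act on a finite set Ω. An irredundant base is a sequence of points ω₁, …, ω_t whose pointwise stabiliser is trivial and in which each ω_i is moved by some element fixing ω₁, …, ω_{i−1}. Then all irredundant bases have the same length if and only if every reordering of an irredundant base is again an irredundant base. -/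
theorem result {G Ω : Type*} [Group G] [Finite G] [MulAction G Ω] [Fintype Ω] :
    (∀ (t t' : ℕ) (f : Fin t → Ω) (f' : Fin t' → Ω), ((∀ g : G, (∀ i : Fin t, g • f i = f i) → g = 1) ∧ ∀ i : Fin t, ∃ g : G, (∀ j : Fin t, j < i → g • f j = f j) ∧ g • f i ≠ f i) → ((∀ g : G, (∀ i : Fin t', g • f' i = f' i) → g = 1) ∧ ∀ i : Fin t', ∃ g : G, (∀ j : Fin t', j < i → g • f' j = f' j) ∧ g • f' i ≠ f' i) → t = t') ↔
    (∀ (t : ℕ) (f : Fin t → Ω) (σ : Equiv.Perm (Fin t)), ((∀ g : G, (∀ i : Fin t, g • f i = f i) → g = 1) ∧ ∀ i : Fin t, ∃ g : G, (∀ j : Fin t, j < i → g • f j = f j) ∧ g • f i ≠ f i) → ((∀ g : G, (∀ i : Fin t, g • (f ∘ σ) i = (f ∘ σ) i) → g = 1) ∧ ∀ i : Fin t, ∃ g : G, (∀ j : Fin t, j < i → g • (f ∘ σ) j = (f ∘ σ) j) ∧ g • (f ∘ σ) i ≠ (f ∘ σ) i)) := by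
  constructor
  · intro h t f σ hf
    have hf1 : Bs G (List.ofFn f).reverse := (bsF_iff f).1 hf.1
    have hbase : BsF G (f ∘ σ) := by
      intro g hg
      apply hf.1 g
      intro i
      have := hg (σ.symm i)
      simpa using this
    refine ⟨hbase, ?_⟩
    change IrrF G (f ∘ σ)
    rw [irrF_iff]
    obtain ⟨w, h1, h2, h3⟩ := reduce (G := G) [] trivial (List.ofFn (f ∘ σ)).reverse
    rw [List.append_nil] at h2
    have hwb : Bs G w := by
      intro g hg
      apply (bsF_iff (f ∘ σ)).1 hbase g
      intro y hy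
      exact h3 g (by rwa [List.append_nil]) y (by rwa [List.append_nil])
    have hof : List.ofFn w.reverse.get = w.reverse := List.ofFn_get _
    have h4 := h t w.reverse.length f w.reverse.get hf
      ⟨(bsF_iff w.reverse.get).2 (by rw [hof, List.reverse_reverse]; exact hwb),
       (irrF_iff w.reverse.get).2 (by rw [hof, List.reverse_reverse]; exact h2)⟩
    have h5 : w = (List.ofFn (f ∘ σ)).reverse := by
      apply h1.eq_of_length
      rw [List.length_reverse, List.length_ofFn, ← List.length_reverse, ← h4]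
    rw [← h5]; exact h2
  · intro hP t t' f f' hf hf'
    have hP' : ∀ (t : ℕ) (f : Fin t → Ω) (σ : Equiv.Perm (Fin t)), BsF G f → IrrF G f → IrrF G (f ∘ σ) :=
      fun t f σ h1 h2 => (hP t f σ ⟨h1, h2⟩).2
    have h1 := exchange hP' ((irrF_iff f).1 hf.2) ((bsF_iff f).1 hf.1) ((irrF_iff f').1 hf'.2)
    have h2 := exchange hP' ((irrF_iff f').1 hf'.2) ((bsF_iff f').1 hf'.1) ((irrF_iff f).1 hf.2)
    simp only [List.length_reverse, List.length_ofFn] at h1 h2
    omega

end Cfsg.Agent.S5747
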