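import Cfsg.Statements.S5754

set_option autoImplicit false
open Cfsg

namespace Cfsg.Agent.S5754

theorem refl_exists {F V : Type*} [Field F] [AddCommGroup V] [Module F V] (Q : QuadraticForm F V) (d : V) (hd : Q d ≠ 0) :
    ∃ r : Q.IsometryEquiv Q, ∀ x, r x = x - ((Q d)⁻¹ * QuadraticMap.polar Q x d) • d := by
  let f : V →ₗ[F] V :=
    { toFun := fun x => x - ((Q d)⁻¹ * QuadraticMap.polar Q x d) • d
      map_add' := fun x y => by
        rw [QuadraticMap.polar_add_left]
        module
      map_smul' := fun c x => by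
        rw [QuadraticMap.polar_smul_left, smul_eq_mul, RingHom.id_apply]
        module }
  have hdd : QuadraticMap.polar Q d d = 2 * Q d := by
    rw [QuadraticMap.polar_self, two_smul]; ring
  have hf : Function.Involutive f := by
    intro x
    change (x - ((Q d)⁻¹ * QuadraticMap.polar Q x d) • d) - ((Q d)⁻¹ * QuadraticMap.polar Q (x - ((Q d)⁻¹ * QuadraticMap.polar Q x d) • d) d) • d = x
    rw [QuadraticMap.polar_sub_left, QuadraticMap.polar_smul_left, hdd, smul_eq_mul]
    have e : (Q d)⁻¹ * (QuadraticMap.polar Q x d - (Q d)⁻¹ * QuadraticMap.polar Q x d * (2 * Q d)) = - ((Q d)⁻¹ * QuadraticMap.polar Q x d) := by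
      field_simp
      ring
    rw [e]
    module
  refine ⟨⟨LinearEquiv.ofInvolutive f hf, ?_⟩, fun x => rfl⟩
  intro x
  change Q (x - ((Q d)⁻¹ * QuadraticMap.polar Q x d) • d) = Q x
  rw [sub_eq_add_neg, ← neg_smul, QuadraticMap.map_add (⇑Q), QuadraticMap.map_smul, QuadraticMap.polar_smul_right, smul_eq_mul, smul_eq_mul]
  field_simp
  ring

theorem ext_isom {F V : Type*} [Field F] [AddCommGroup V] [Module F V] (Q : QuadraticForm F V) (hQ : Q.Anisotropic) (n : ℕ) (v w : Fin n → V)
    (h1 : ∀ i, Q (v i) = Q (w i)) (h2 : ∀ i j, QuadraticMap.polar Q (v i) (v j) = QuadraticMap.polar Q (w i) (w j)) :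
    ∀ k, k ≤ n → ∃ φ : Q.IsometryEquiv Q, ∀ i : Fin n, (i : ℕ) < k → φ (v i) = w i := by
  intro k
  induction k with
  | zero => exact fun _ => ⟨QuadraticMap.IsometryEquiv.refl Q, fun i hi => absurd hi (by omega)⟩
  | succ k ih =>
    intro hk
    obtain ⟨φ, hφ⟩ := ih (by omega)
    set K : Fin n := ⟨k, by omega⟩ with hK
    by_cases he : φ (v K) = w K
    · refine ⟨φ, fun i hi => ?_⟩
      by_cases hik : (i : ℕ) < k
      · exact hφ i hik
      · have : i = K := Fin.ext (by rw [hK]; simp only; omega)
        rw [this, he]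
    · have hd : Q (φ (v K) - w K) ≠ 0 := fun h => he (sub_eq_zero.1 (hQ _ h))
      obtain ⟨r, hr⟩ := refl_exists Q _ hd
      have hQa : Q (φ (v K)) = Q (w K) := by rw [QuadraticMap.IsometryEquiv.map_app]; exact h1 K
      refine ⟨φ.trans r, fun i hi => ?_⟩
      change r (φ (v i)) = w i
      rw [hr]
      by_cases hik : (i : ℕ) < k
      · have h3 : QuadraticMap.polar Q (φ (v i)) (φ (v K) - w K) = 0 := by
          rw [QuadraticMap.polar_sub_right]
          have h4 : QuadraticMap.polar Q (φ (v i)) (φ (v K)) = QuadraticMap.polar Q (v i) (v K) := by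
            simp only [QuadraticMap.polar, ← map_add, QuadraticMap.IsometryEquiv.map_app]
          rw [h4, h2, hφ i hik, sub_self]
        rw [h3, mul_zero, zero_smul, sub_zero, hφ i hik]
      · have hiK : i = K := Fin.ext (by rw [hK]; simp only; omega)
        rw [hiK]
        have h5 : Q (φ (v K) - w K) = QuadraticMap.polar Q (φ (v K)) (φ (v K) - w K) := by
          rw [QuadraticMap.polar_sub_right, QuadraticMap.polar_self]
          have h6 : Q (φ (v K) - w K) = Q (φ (v K)) + Q (w K) - QuadraticMap.polar Q (φ (v K)) (w K) := by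
            rw [sub_eq_add_neg, QuadraticMap.map_add (⇑Q), QuadraticMap.map_neg, QuadraticMap.polar_neg_right]; ring
          rw [h6, hQa, two_smul]
        rw [← h5, inv_mul_cancel₀ hd, one_smul]
        abel

/-- Let V be a finite-dimensional vector space over a finite field F carrying an anisotropic quadratic form Q (Q(v) = 0 only for v = 0). Then the group of all maps v ↦ φ(v) + c, with φ an isometry of Q and c ∈ V, acts on V as a binary permutation group: given n ≥ 2 and two n-tuples u, u' of vectors such that every pair of corresponding entries of u is carried to that of u' by such a map, one such map carries u to u'. -/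
theorem result {F V : Type*} [Field F] [Finite F] [AddCommGroup V] [Module F V] [Module.Finite F V]
    (Q : QuadraticForm F V) (hQ : Q.Anisotropic) (n : ℕ) (hn : 2 ≤ n) (u u' : Fin n → V)
    (h2 : ∀ i j : Fin n, i ≠ j → ∃ (φ : Q.IsometryEquiv Q) (c : V), φ (u i) + c = u' i ∧ φ (u j) + c = u' j) :
    ∃ (φ : Q.IsometryEquiv Q) (c : V), ∀ i, φ (u i) + c = u' i := by
  have hQd : ∀ i j, Q (u i - u j) = Q (u' i - u' j) := by
    intro i j
    by_cases hij : i = j
    · rw [hij, sub_self, sub_self]
    · obtain ⟨φ, c, h3, h4⟩ := h2 i j hij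
      have h5 : u' i - u' j = φ (u i - u j) := by
        rw [← h3, ← h4, map_sub]; abel
      rw [h5, QuadraticMap.IsometryEquiv.map_app]
  let z : Fin n := ⟨0, by omega⟩
  obtain ⟨φ, hφ⟩ := ext_isom Q hQ n (fun i => u i - u z) (fun i => u' i - u' z) (fun i => hQd i z) (by
    intro i j
    have key : ∀ a b : V, QuadraticMap.polar Q a b = Q a + Q b - Q (a - b) := by
      intro a b
      have h6 : Q (a - b) = Q a + Q b - QuadraticMap.polar Q a b := by
        rw [sub_eq_add_neg, QuadraticMap.map_add (⇑Q), QuadraticMap.map_neg, QuadraticMap.polar_neg_right]; ring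
      rw [h6]; ring
    rw [key, key]
    have e1 : u i - u z - (u j - u z) = u i - u j := by abel
    have e2 : u' i - u' z - (u' j - u' z) = u' i - u' j := by abel
    rw [e1, e2, hQd i j, hQd i z, hQd j z]) n le_rfl
  refine ⟨φ, u' z - φ (u z), fun i => ?_⟩
  have h := hφ i i.2
  rw [map_sub] at h
  have : φ (u i) + (u' z - φ (u z)) = (φ (u i) - φ (u z)) + u' z := by abel
  rw [this, h]
  abel

end Cfsg.Agent.S5754
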