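import Cfsg.Statements.S5763
import Mathlib

set_option autoImplicit false
open Cfsg

namespace Cfsg.Agent.S5763

open Equiv

def m : Fin 8 → Fin 8 := ![1, 0, 3, 2, 5, 4, 7, 6]
def e : Fin 8 → Fin 4 := ![0, 0, 1, 1, 2, 2, 3, 3]
def s : Fin 4 → Fin 8 := ![0, 2, 4, 6]
def c : Fin 4 → Fin 2 := ![0, 0, 1, 1]

theorem mm : ∀ x, m (m x) = x := by decide

def mP : Perm (Fin 8) := ⟨m, m, mm, mm⟩

/-- the tree stabiliser -/
def P0 : Subgroup (Perm (Fin 8)) where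
  carrier := {h | ∀ x y, (e x = e y ↔ e (h x) = e (h y)) ∧ (c (e x) = c (e y) ↔ c (e (h x)) = c (e (h y)))}
  mul_mem' := by
    intro g h hg hh x y
    exact ⟨(hh x y).1.trans (hg _ _).1, (hh x y).2.trans (hg _ _).2⟩
  one_mem' := fun x y => ⟨Iff.rfl, Iff.rfl⟩
  inv_mem' := by
    intro g hg x y
    have h1 := hg (g⁻¹ x) (g⁻¹ y)
    have h2 : ∀ z, g (g⁻¹ z) = z := fun z => g.apply_symm_apply z
    rw [h2, h2] at h1
    exact ⟨h1.1.symm, h1.2.symm⟩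

theorem e_iff : ∀ x y : Fin 8, e x = e y ↔ (y = x ∨ y = m x) := by decide
theorem e_s : ∀ i, e (s i) = i := by decide
theorem fn4 : ∀ a : Fin 4 → Fin 4, (∀ i, a i ≠ i) → (∀ i, a (a i) = i) →
    ∀ i j, c i = c j ↔ c (a i) = c (a j) := by decide +kernel

theorem memP0 (τ : Perm (Fin 8)) (h2 : ∀ x, τ (τ x) = x) (hm : ∀ x, τ (m x) = m (τ x))
    (hf : ∀ x, τ x ≠ x) (hf' : ∀ x, τ x ≠ m x) : τ ∈ P0 := by
  have h1 : ∀ x y, e x = e y ↔ e (τ x) = e (τ y) := by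
    intro x y
    rw [e_iff, e_iff, ← hm, τ.injective.eq_iff, τ.injective.eq_iff]
  have h3 : ∀ x, e (τ x) = e (τ (s (e x))) := fun x => (h1 _ _).1 (e_s (e x)).symm
  have h4 := fn4 (fun i => e (τ (s i))) (by
    intro i hi
    have h5 : e (s i) = e (τ (s i)) := by rw [e_s]; exact hi.symm
    rcases (e_iff _ _).1 h5 with h6 | h6
    · exact hf _ h6
    · exact hf' _ h6) (by
    intro i
    change e (τ (s (e (τ (s i))))) = i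
    rw [← h3, h2, e_s])
  intro x y
  refine ⟨h1 x y, ?_⟩
  rw [h3 x, h3 y]
  exact h4 (e x) (e y)

theorem f2 : ∀ A B C : Fin 2, (A = B ↔ B = C) → C = A := by decide
theorem f4 : ∀ A B C : Fin 4, (A = B ↔ B = C) → c B = c A → c C = c B → C = A := by decide
theorem f8 : ∀ A B C : Fin 8, (A = B ↔ B = C) → e B = e A → e C = e B → C = A := by decide +kernel

theorem pow8 {h : Perm (Fin 8)} (hh : h ∈ P0) : h ^ 8 = 1 := by
  have h1 : ∀ x, c (e ((h * h) x)) = c (e x) := fun x => f2 _ _ _ (hh x (h x)).2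
  have hk : h * h ∈ P0 := P0.mul_mem hh hh
  have h2 : ∀ x, e ((h * h * (h * h)) x) = e x := fun x => f4 _ _ _ (hk x ((h * h) x)).1 (h1 x) (h1 _)
  have h3 : ∀ x, (h * h * (h * h) * (h * h * (h * h))) x = x := fun x =>
    f8 _ _ _ ((h * h * (h * h)).injective.eq_iff).symm (h2 x) (h2 _)
  have h4 : h ^ 8 = h * h * (h * h) * (h * h * (h * h)) := by
    simp only [pow_succ, pow_zero, one_mul, mul_assoc]
  rw [h4]
  ext x
  rw [h3 x]; rfl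

theorem pgroup : IsPGroup 2 P0 := by
  intro g
  refine ⟨3, ?_⟩
  apply Subtype.ext
  exact pow8 g.2

def G1 (t W : Fin 8 → Fin 8) : Prop :=
  ∀ x, t (t x) = x ∧ t x ≠ x ∧ t x ≠ m x ∧ t x ≠ W x ∧ t (m x) = m (t x) ∧ t (W x) = W (t x)

instance (t W : Fin 8 → Fin 8) : Decidable (G1 t W) := by unfold G1; infer_instance

def K7 (a0 a1 a2 a3 a4 a5 a6 : Fin 8) : Prop :=
  ∀ a7 : Fin 8, (a7 ≠ 7 ∧ a7 ≠ m 7 ∧ (a0 = 7 ↔ a7 = 0) ∧ (a1 = 7 ↔ a7 = 1) ∧ (a2 = 7 ↔ a7 = 2) ∧ (a3 = 7 ↔ a7 = 3) ∧ (a4 = 7 ↔ a7 = 4) ∧ (a5 = 7 ↔ a7 = 5) ∧ (a6 = 7 ↔ a7 = 6)) →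
    (G1 (fun x => m (![a0, a1, a2, a3, a4, a5, a6, a7] x)) ![a0, a1, a2, a3, a4, a5, a6, a7] ∨ G1 (fun x => m (![a0, a1, a2, a3, a4, a5, a6, a7] (m (![a0, a1, a2, a3, a4, a5, a6, a7] x)))) ![a0, a1, a2, a3, a4, a5, a6, a7])

instance (a0 a1 a2 a3 a4 a5 a6 : Fin 8) : Decidable (K7 a0 a1 a2 a3 a4 a5 a6) := by unfold K7; infer_instance

def K6 (a0 a1 a2 a3 a4 a5 : Fin 8) : Prop :=
  ∀ a6 : Fin 8, (a6 ≠ 6 ∧ a6 ≠ m 6 ∧ (a0 = 6 ↔ a6 = 0) ∧ (a1 = 6 ↔ a6 = 1) ∧ (a2 = 6 ↔ a6 = 2) ∧ (a3 = 6 ↔ a6 = 3) ∧ (a4 = 6 ↔ a6 = 4) ∧ (a5 = 6 ↔ a6 = 5)) →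
    K7 a0 a1 a2 a3 a4 a5 a6

instance (a0 a1 a2 a3 a4 a5 : Fin 8) : Decidable (K6 a0 a1 a2 a3 a4 a5) := by unfold K6; infer_instance

def K5 (a0 a1 a2 a3 a4 : Fin 8) : Prop :=
  ∀ a5 : Fin 8, (a5 ≠ 5 ∧ a5 ≠ m 5 ∧ (a0 = 5 ↔ a5 = 0) ∧ (a1 = 5 ↔ a5 = 1) ∧ (a2 = 5 ↔ a5 = 2) ∧ (a3 = 5 ↔ a5 = 3) ∧ (a4 = 5 ↔ a5 = 4)) →
    K6 a0 a1 a2 a3 a4 a5

instance (a0 a1 a2 a3 a4 : Fin 8) : Decidable (K5 a0 a1 a2 a3 a4) := by unfold K5; infer_instance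

def K4 (a0 a1 a2 a3 : Fin 8) : Prop :=
  ∀ a4 : Fin 8, (a4 ≠ 4 ∧ a4 ≠ m 4 ∧ (a0 = 4 ↔ a4 = 0) ∧ (a1 = 4 ↔ a4 = 1) ∧ (a2 = 4 ↔ a4 = 2) ∧ (a3 = 4 ↔ a4 = 3)) →
    K5 a0 a1 a2 a3 a4

instance (a0 a1 a2 a3 : Fin 8) : Decidable (K4 a0 a1 a2 a3) := by unfold K4; infer_instance

def K3 (a0 a1 a2 : Fin 8) : Prop :=
  ∀ a3 : Fin 8, (a3 ≠ 3 ∧ a3 ≠ m 3 ∧ (a0 = 3 ↔ a3 = 0) ∧ (a1 = 3 ↔ a3 = 1) ∧ (a2 = 3 ↔ a3 = 2)) →
    K4 a0 a1 a2 a3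

instance (a0 a1 a2 : Fin 8) : Decidable (K3 a0 a1 a2) := by unfold K3; infer_instance

def K2 (a0 a1 : Fin 8) : Prop :=
  ∀ a2 : Fin 8, (a2 ≠ 2 ∧ a2 ≠ m 2 ∧ (a0 = 2 ↔ a2 = 0) ∧ (a1 = 2 ↔ a2 = 1)) →
    K3 a0 a1 a2

instance (a0 a1 : Fin 8) : Decidable (K2 a0 a1) := by unfold K2; infer_instance

def K1 (a0 : Fin 8) : Prop :=
  ∀ a1 : Fin 8, (a1 ≠ 1 ∧ a1 ≠ m 1 ∧ (a0 = 1 ↔ a1 = 0)) →
    K2 a0 a1

instance (a0 : Fin 8) : Decidable (K1 a0) := by unfold K1; infer_instance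

def K0 : Prop :=
  ∀ a0 : Fin 8, (a0 ≠ 0 ∧ a0 ≠ m 0) →
    K1 a0

instance : Decidable (K0 ) := by unfold K0; infer_instance

theorem key : K0 := by
  decide +kernel

theorem swap_e : ∀ y z : Fin 8, e (swap y (m y) z) = e z := by decide

theorem swap_mem (y : Fin 8) : swap y (m y) ∈ P0 := by
  intro x z
  rw [swap_e, swap_e]
  exact ⟨Iff.rfl, Iff.rfl⟩

theorem main (u : Perm (Fin 8)) : ∃ σ ∈ P0, σ ≠ 1 ∧ u⁻¹ * σ * u ∈ P0 := by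
  let w : Perm (Fin 8) := u * mP * u⁻¹
  have hwu : ∀ y, w (u y) = u (m y) := by
    intro y
    change u (m (u⁻¹ (u y))) = _
    rw [show u⁻¹ (u y) = y from u.symm_apply_apply y]
  have hww : ∀ x, w (w x) = x := by
    intro x
    obtain ⟨y, rfl⟩ := u.surjective x
    rw [hwu, hwu, mm]
  have hm1 : ∀ x, m x ≠ x := by decide
  by_cases hx : ∃ x, w x = m x
  · obtain ⟨x, hx⟩ := hx
    refine ⟨swap x (m x), swap_mem x, ?_, ?_⟩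
    · intro h
      have := congrArg (fun g : Perm (Fin 8) => g x) h
      simp only [swap_apply_left, Perm.one_apply] at this
      exact hm1 x this
    · obtain ⟨y, rfl⟩ := u.surjective x
      rw [hwu] at hx
      have h1 : u⁻¹ * swap (u y) (m (u y)) * u = swap y (m y) := by
        rw [← hx]
        ext z
        have : (u⁻¹ * swap (u y) (u (m y)) * u) z = u.symm (swap (u y) (u (m y)) (u z)) := rfl
        rw [this, swap_apply_def, swap_apply_def]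
        simp only [u.injective.eq_iff]
        split_ifs <;> simp
      rw [h1]; exact swap_mem y
  · have hnm : ∀ i, w i ≠ m i := fun i h => hx ⟨i, h⟩
    have hne : ∀ i, w i ≠ i := by
      intro i h
      obtain ⟨y, rfl⟩ := u.surjective i
      rw [hwu] at h
      exact hm1 y (u.injective h)
    have hiff : ∀ i j, w i = j ↔ w j = i := by
      intro i j
      constructor
      · rintro rfl; exact hww i
      · rintro rfl; exact hww j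
    have hk := key (w 0) ⟨hne 0, hnm 0⟩ (w 1) ⟨hne 1, hnm 1, hiff 0 1⟩ (w 2) ⟨hne 2, hnm 2, hiff 0 2, hiff 1 2⟩ (w 3) ⟨hne 3, hnm 3, hiff 0 3, hiff 1 3, hiff 2 3⟩ (w 4) ⟨hne 4, hnm 4, hiff 0 4, hiff 1 4, hiff 2 4, hiff 3 4⟩ (w 5) ⟨hne 5, hnm 5, hiff 0 5, hiff 1 5, hiff 2 5, hiff 3 5, hiff 4 5⟩ (w 6) ⟨hne 6, hnm 6, hiff 0 6, hiff 1 6, hiff 2 6, hiff 3 6, hiff 4 6, hiff 5 6⟩ (w 7) ⟨hne 7, hnm 7, hiff 0 7, hiff 1 7, hiff 2 7, hiff 3 7, hiff 4 7, hiff 5 7, hiff 6 7⟩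
    have hW : ![w 0, w 1, w 2, w 3, w 4, w 5, w 6, w 7] = (w : Fin 8 → Fin 8) := by
      ext i; fin_cases i <;> rfl
    rw [hW] at hk
    have hfin : ∀ σ : Perm (Fin 8), G1 σ w → ∃ σ ∈ P0, σ ≠ 1 ∧ u⁻¹ * σ * u ∈ P0 := by
      intro σ hσ
      refine ⟨σ, memP0 σ (fun x => (hσ x).1) (fun x => (hσ x).2.2.2.2.1) (fun x => (hσ x).2.1)
        (fun x => (hσ x).2.2.1), ?_, ?_⟩
      · rintro rfl; exact (hσ 0).2.1 rfl
      · have hτ : ∀ y, u ((u⁻¹ * σ * u) y) = σ (u y) := fun y => u.apply_symm_apply _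
        apply memP0
        · intro y; apply u.injective; rw [hτ, hτ, (hσ _).1]
        · intro y; apply u.injective; rw [hτ, ← hwu, (hσ _).2.2.2.2.2, ← hτ, hwu]
        · intro y h
          have := congrArg u h
          rw [hτ] at this
          exact (hσ _).2.1 this
        · intro y h
          have := congrArg u h
          rw [hτ, ← hwu] at this
          exact (hσ _).2.2.2.1 this
    rcases hk with hk | hk
    · exact hfin (mP * w) hk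
    · exact hfin (mP * w * (mP * w)) hk

/-- In the symmetric group on 8 letters any two Sylow 2-subgroups have non-trivial intersection: for a Sylow 2-subgroup H and every element x, H ∩ xHx⁻¹ ≠ 1. -/
theorem result (H : Sylow 2 (Equiv.Perm (Fin 8))) (x : Equiv.Perm (Fin 8)) :
    (H : Subgroup (Equiv.Perm (Fin 8))) ⊓ (H : Subgroup (Equiv.Perm (Fin 8))).map (MulAut.conj x).toMonoidHom ≠ ⊥ := by
  classical
  obtain ⟨Q, hQ⟩ := pgroup.exists_le_sylow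
  obtain ⟨g, hg⟩ := MulAction.exists_smul_eq (Perm (Fin 8)) Q H
  have hP : ∀ p ∈ P0, g * p * g⁻¹ ∈ (H : Subgroup (Perm (Fin 8))) := by
    intro p hp
    rw [← hg]
    exact Subgroup.smul_mem_pointwise_smul p (MulAut.conj g) _ (hQ hp)
  obtain ⟨σ, hσ, hσ1, hσu⟩ := main (g⁻¹ * x * g)
  intro hbot
  have h1 : g * σ * g⁻¹ ∈ (H : Subgroup (Equiv.Perm (Fin 8))) ⊓
      (H : Subgroup (Equiv.Perm (Fin 8))).map (MulAut.conj x).toMonoidHom := by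
    refine ⟨hP σ hσ, ?_⟩
    refine ⟨_, hP _ hσu, ?_⟩
    change x * (g * ((g⁻¹ * x * g)⁻¹ * σ * (g⁻¹ * x * g)) * g⁻¹) * x⁻¹ = _
    group
  rw [hbot, Subgroup.mem_bot] at h1
  apply hσ1
  have h2 : σ = g⁻¹ * (g * σ * g⁻¹) * g := by group
  rw [h2, h1]; group

end Cfsg.Agent.S5763
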