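import Cfsg.Statements.S5885

set_option autoImplicit false
open Cfsg

namespace Cfsg.Agent.S5885

open scoped Pointwise

/-- three-cycles are induced on the coset space -/
lemma three_cycles {G : Type*} [Group G] [Finite G] (n : ℕ)
    (hA : ∀ P : Subgroup (Equiv.Perm (Fin n)), MulAction.IsPreprimitive P (Fin n) → alternatingGroup (Fin n) ≤ P)
    (M : Subgroup G) (hM : IsCoatom M) (hn : M.index = n) (x y z : G ⧸ M) (hxy : x ≠ y) (hyz : y ≠ z) (hxz : x ≠ z) :
    ∃ g : G, g • x = y ∧ g • y = z ∧ ∀ w : G ⧸ M, w ≠ x → w ≠ y → w ≠ z → g • w = w := by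
  classical
  have hcard : Nat.card (G ⧸ M) = n := hn
  let e : G ⧸ M ≃ Fin n := Finite.equivFinOfCardEq hcard
  let φ : G →* Equiv.Perm (Fin n) := (e.permCongrHom.toMonoidHom).comp (MulAction.toPermHom G (G ⧸ M))
  have hφ : ∀ g x, φ g (e x) = e (g • x) := by
    intro g x
    simp [φ, Equiv.permCongrHom, Equiv.permCongr_apply]
  have hnt : Nontrivial (G ⧸ M) := by
    rw [QuotientGroup.nontrivial_iff]
    exact hM.1
  have hprim : MulAction.IsPreprimitive G (G ⧸ M) := by
    rw [← MulAction.isCoatom_stabilizer_iff_preprimitive G ((1 : G) : G ⧸ M), MulAction.stabilizer_quotient]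
    exact hM
  have hP : MulAction.IsPreprimitive φ.range (Fin n) := by
    let f : (G ⧸ M) →ₑ[φ.rangeRestrict] Fin n :=
      { toFun := e
        map_smul' := by
          intro g x
          exact (hφ g x).symm }
    exact MulAction.IsPreprimitive.of_surjective (f := f) e.surjective
  have hle := hA φ.range hP
  have h3 : Equiv.swap (e x) (e z) * Equiv.swap (e x) (e y) ∈ alternatingGroup (Fin n) :=
    (Equiv.Perm.isThreeCycle_swap_mul_swap_same (e.injective.ne hxz) (e.injective.ne hxy)
      (e.injective.ne hyz.symm)).mem_alternatingGroup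
  obtain ⟨g, hg⟩ := hle h3
  refine ⟨g, ?_, ?_, ?_⟩
  · apply e.injective
    rw [← hφ, hg, Equiv.Perm.mul_apply, Equiv.swap_apply_left, Equiv.swap_apply_of_ne_of_ne]
    · exact e.injective.ne hxy.symm
    · exact e.injective.ne hyz
  · apply e.injective
    rw [← hφ, hg, Equiv.Perm.mul_apply, Equiv.swap_apply_right, Equiv.swap_apply_left]
  · intro w h1 h2 h3
    apply e.injective
    rw [← hφ, hg, Equiv.Perm.mul_apply, Equiv.swap_apply_of_ne_of_ne (e.injective.ne h1) (e.injective.ne h2),
      Equiv.swap_apply_of_ne_of_ne (e.injective.ne h1) (e.injective.ne h3)]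

/-- Let n be an odd positive integer such that every primitive permutation group of degree n contains the alternating group (so the symmetric and alternating groups are the only primitive groups of degree n). Let G be a finite group, M a maximal subgroup of G of index n, and H a maximal subgroup of M. Then H is a second maximal subgroup of G: H is maximal in every maximal subgroup K of G containing H. -/
theorem result {G : Type*} [Group G]
    [Finite G] (n : ℕ) (hodd : Odd n)
    (hA : ∀ P : Subgroup (Equiv.Perm (Fin n)), MulAction.IsPreprimitive P (Fin n) → alternatingGroup (Fin n) ≤ P)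
    (M : Subgroup G) (hM : IsCoatom M) (hn : M.index = n) (H : Subgroup G) (hHM : H ≤ M)
    (hmax : IsCoatom (H.subgroupOf M)) (K : Subgroup G) (hK : IsCoatom K) (hHK : H ≤ K) :
    IsCoatom (H.subgroupOf K) := by
  have T := three_cycles n hA M hM hn
  by_cases hKM : K = M
  · subst hKM
    exact hmax
  -- intermediate subgroups
  have hcoat : ∀ X : Subgroup G, H ≤ X → X ≤ M → X = H ∨ X = M := by
    intro X hHX hXM
    by_cases h : X.subgroupOf M = ⊤
    · right
      exact le_antisymm hXM (Subgroup.subgroupOf_eq_top.1 h)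
    · left
      by_contra hne
      have hlt : H.subgroupOf M < X.subgroupOf M := by
        refine lt_of_le_of_ne (fun y hy => hHX hy) ?_
        intro he
        apply hne
        refine le_antisymm ?_ hHX
        intro y hy
        have : (⟨y, hXM hy⟩ : M) ∈ X.subgroupOf M := hy
        rw [← he] at this
        exact this
      exact h (hmax.2 _ hlt)
  have hnotle : ¬ M ≤ K := by
    intro h
    rcases hM.le_iff.1 h with h1 | h1
    · exact hK.1 h1
    · exact hKM h1
  have hHeq : K ⊓ M = H := by
    rcases hcoat (K ⊓ M) (le_inf hHK hHM) inf_le_right with h | h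
    · exact h
    · exact absurd (inf_eq_right.1 h) hnotle
  set a : G ⧸ M := ((1 : G) : G ⧸ M) with ha
  have hstab : ∀ g : G, g • a = a ↔ g ∈ M := by
    intro g
    have := MulAction.stabilizer_quotient M
    rw [← MulAction.mem_stabilizer_iff, ha, this]
  constructor
  · -- H ≠ K
    intro h
    rw [Subgroup.subgroupOf_eq_top] at h
    have h1 : K ≤ M := h.trans hHM
    rcases hK.le_iff.1 h1 with h2 | h2
    · exact hM.1 h2
    · exact hKM h2.symm
  · intro L' hL'
    by_contra hL'top
    -- transfer to a subgroup of G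
    set L : Subgroup G := L'.map K.subtype with hL
    have hLK : L ≤ K := by
      rintro _ ⟨y, _, rfl⟩
      exact y.2
    have hmemL : ∀ k (hk : k ∈ K), k ∈ L ↔ (⟨k, hk⟩ : K) ∈ L' := by
      intro k hk
      constructor
      · rintro ⟨y, hy, hyk⟩
        have : y = ⟨k, hk⟩ := Subtype.ext hyk
        rw [← this]; exact hy
      · intro h
        exact ⟨⟨k, hk⟩, h, rfl⟩
    have hHL : H ≤ L := by
      intro h hh
      exact (hmemL h (hHK hh)).2 (hL'.le hh)
    have hstabL : ∀ k ∈ K, k • a = a → k ∈ L := by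
      intro k hk h
      apply hHL
      rw [← hHeq]
      exact ⟨hk, (hstab k).1 h⟩
    obtain ⟨l0, hl0, hl0a⟩ : ∃ l ∈ L, l • a ≠ a := by
      by_contra hcon
      push Not at hcon
      apply hL'.not_ge
      intro y hy
      have h1 : (y : G) ∈ L := (hmemL y y.2).2 hy
      have h2 : (y : G) ∈ M := (hstab _).1 (hcon y h1)
      have h3 : (y : G) ∈ K ⊓ M := ⟨y.2, h2⟩
      rw [hHeq] at h3
      exact h3
    obtain ⟨k0, hk0, hk0L⟩ : ∃ k ∈ K, k ∉ L := by
      by_contra hcon
      push Not at hcon
      apply hL'top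
      rw [eq_top_iff]
      rintro ⟨y, hy⟩ -
      exact (hmemL y hy).1 (hcon y hy)
    -- the orbit of K
    have hinj : ∀ k ∈ K, ∀ l ∈ L, k • a = l • a → k ∈ L := by
      intro k hk l hl h
      have h1 : (l⁻¹ * k) • a = a := by rw [mul_smul, h, inv_smul_smul]
      have h2 := hstabL (l⁻¹ * k) (K.mul_mem (K.inv_mem (hLK hl)) hk) h1
      have h3 : k = l * (l⁻¹ * k) := by group
      rw [h3]
      exact L.mul_mem hl h2
    have hb : l0 • a ≠ k0 • a := by
      intro h
      exact hk0L (hinj k0 hk0 l0 hl0 h.symm)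
    have hc : a ≠ k0 • a := by
      intro h
      exact hk0L (hstabL k0 hk0 h.symm)
    -- the 3-cycle (a b c)
    obtain ⟨g, hg1, hg2, hg3⟩ := T a (l0 • a) (k0 • a) hl0a.symm hb hc
    have hgK : g ∉ K := by
      intro hgK
      have h1 : g ∈ L := hinj g hgK l0 hl0 hg1
      have h2 : k0 • a = (g * l0) • a := by rw [mul_smul, hg2]
      exact hk0L (hinj k0 hk0 (g * l0) (L.mul_mem h1 hl0) h2)
    -- the set stabiliser of the K-orbit of a
    have htrans : ∀ w : G ⧸ M, ∃ k ∈ K, k • a = w := by
      set S : Subgroup G := MulAction.stabilizer G (MulAction.orbit K a) with hS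
      have hKS : K ≤ S := by
        intro k hk
        rw [hS, MulAction.mem_stabilizer_iff]
        ext w
        constructor
        · rintro ⟨_, ⟨k', rfl⟩, rfl⟩
          exact ⟨⟨k, hk⟩ * k', mul_smul _ _ _⟩
        · rintro ⟨k', rfl⟩
          refine ⟨((⟨k, hk⟩ : K)⁻¹ * k') • a, ⟨_, rfl⟩, ?_⟩
          show k • ((⟨k, hk⟩ : K)⁻¹ * k') • a = k' • a
          have : k • ((⟨k, hk⟩ : K)⁻¹ * k') • a = (⟨k, hk⟩ : K) • ((⟨k, hk⟩ : K)⁻¹ * k') • a := rfl
          rw [this, ← mul_smul, mul_inv_cancel_left]
      rcases hK.le_iff.1 hKS with h | h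
      · intro w
        obtain ⟨x, rfl⟩ := QuotientGroup.mk_surjective w
        have hx : x ∈ S := by rw [h]; trivial
        rw [hS, MulAction.mem_stabilizer_iff] at hx
        have h2 : x • a ∈ MulAction.orbit K a := by
          rw [← hx]
          exact Set.smul_mem_smul_set (MulAction.mem_orbit_self a)
        obtain ⟨k, hk⟩ := h2
        refine ⟨k, k.2, ?_⟩
        have h3 : x • a = (x : G ⧸ M) := by
          rw [ha]
          show ((x * 1 : G) : G ⧸ M) = _
          rw [mul_one]
        rw [← h3]
        exact hk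
      · exfalso
        apply hgK
        rw [← h, hS]
        -- g stabilises the orbit
        have hsub : ∀ w ∈ MulAction.orbit K a, g • w ∈ MulAction.orbit K a := by
          intro w hw
          by_cases h1 : w = a
          · rw [h1, hg1]; exact ⟨⟨l0, hLK hl0⟩, rfl⟩
          by_cases h2 : w = l0 • a
          · rw [h2, hg2]; exact ⟨⟨k0, hk0⟩, rfl⟩
          by_cases h4 : w = k0 • a
          · have h5 : g • w = a := by
              by_contra hne
              -- g permutes
              by_cases h6 : g • w = l0 • a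
              · rw [← hg1] at h6
                exact h1 (smul_left_cancel g h6)
              by_cases h7 : g • w = k0 • a
              · rw [← hg2] at h7
                exact h2 (smul_left_cancel g h7)
              have h8 := hg3 (g • w) hne h6 h7
              have h9 := smul_left_cancel g h8
              rw [h9, h4] at h7
              exact h7 rfl
            rw [h5]; exact MulAction.mem_orbit_self a
          · rw [hg3 w h1 h2 h4]; exact hw
        rw [MulAction.mem_stabilizer_set' (Set.toFinite _)]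
        exact fun w hw => hsub w hw
    -- the block stabiliser
    set D : Set (G ⧸ M) := {w | ∃ l ∈ L, l • a = w} with hD
    set SD : Subgroup G := MulAction.stabilizer G D with hSD
    have hmemSD : ∀ g : G, g ∈ SD ↔ ∀ w ∈ D, g • w ∈ D := by
      intro g
      rw [hSD, MulAction.mem_stabilizer_set' (Set.toFinite _)]
    have hDfin : D.Finite := Set.toFinite _
    have hSDK : K ⊓ M ≤ SD ⊓ M := by
      rintro k ⟨hk, hkM⟩
      refine ⟨(hmemSD k).2 ?_, hkM⟩
      rintro _ ⟨l, hl, rfl⟩
      refine ⟨k * l, L.mul_mem (hHL (hHeq ▸ ⟨hk, hkM⟩)) hl, mul_smul _ _ _⟩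
    have haD : a ∈ D := ⟨1, L.one_mem, one_smul _ _⟩
    have hbD : l0 • a ∈ D := ⟨l0, hl0, rfl⟩
    have hkD : ∀ k ∈ K, (k • a ∈ D ↔ k ∈ L) := by
      intro k hk
      constructor
      · rintro ⟨l, hl, hlk⟩
        exact hinj k hk l hl hlk.symm
      · intro h
        exact ⟨k, h, rfl⟩
    have hcD : k0 • a ∉ D := fun h => hk0L ((hkD k0 hk0).1 h)
    have hc'D : (k0 * l0) • a ∉ D := by
      intro h
      have h1 := (hkD (k0 * l0) (K.mul_mem hk0 (hLK hl0))).1 h
      apply hk0L
      have h2 : k0 = k0 * l0 * l0⁻¹ := by group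
      rw [h2]
      exact L.mul_mem h1 (L.inv_mem hl0)
    have hcc' : k0 • a ≠ (k0 * l0) • a := by
      intro h
      rw [mul_smul] at h
      exact hl0a (smul_left_cancel k0 h).symm
    have hSDM : SD ⊓ M = H := by
      rcases hcoat (SD ⊓ M) (hHeq ▸ hSDK) inf_le_right with h | h
      · exact h
      · exfalso
        -- a 3-cycle fixing a, moving b out of D
        obtain ⟨f, hf1, hf2, hf3⟩ := T (l0 • a) (k0 • a) ((k0 * l0) • a) (fun h => hcD (h ▸ hbD)) hcc'
          (fun h => hc'D (h ▸ hbD))
        have hfM : f ∈ M := (hstab f).1 (hf3 a hl0a.symm (fun h => hcD (h ▸ haD)) (fun h => hc'D (h ▸ haD)))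
        rw [← h] at hfM
        have h1 := (hmemSD f).1 hfM.1 _ hbD
        rw [hf1] at h1
        exact hcD h1
    -- a third block
    have hidx : ∃ k1 ∈ K, k1 ∉ L ∧ k0⁻¹ * k1 ∉ L := by
      by_contra hcon
      push Not at hcon
      -- then L has index two in K, so n is even
      have hidx2 : L.relIndex K = 2 := by
        rw [Subgroup.relIndex, Subgroup.index_eq_two_iff']
        refine ⟨⟨k0⁻¹, K.inv_mem hk0⟩, ?_⟩
        rintro ⟨k, hk⟩
        by_cases hkL : k ∈ L
        · right
          refine ⟨hkL, fun h => hk0L ?_⟩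
          have h1 : k0⁻¹ * k ∈ L := h
          have h2 : k0 = k * (k0⁻¹ * k)⁻¹ := by group
          rw [h2]
          exact L.mul_mem hkL (L.inv_mem h1)
        · left
          exact ⟨hcon k hk hkL, hkL⟩
      have hi : (K ⊓ M).relIndex L * L.relIndex K = (K ⊓ M).relIndex K :=
        Subgroup.relIndex_mul_relIndex _ _ _ (hHeq ▸ hHL) hLK
      have hi2 : (K ⊓ M).relIndex K = n := by
        rw [Subgroup.inf_relIndex_left, Subgroup.relIndex]
        have h1 : M.subgroupOf K = MulAction.stabilizer K a := by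
          ext ⟨k, hk⟩
          rw [Subgroup.mem_subgroupOf, MulAction.mem_stabilizer_iff, ← hstab]
          rfl
        rw [h1, MulAction.index_stabilizer]
        have h2 : MulAction.orbit K a = Set.univ := by
          rw [Set.eq_univ_iff_forall]
          intro w
          obtain ⟨k, hk, hkw⟩ := htrans w
          exact ⟨⟨k, hk⟩, hkw⟩
        rw [h2, Set.ncard_univ]
        exact hn
      rw [hi2, hidx2] at hi
      rw [← hi] at hodd
      exact (Nat.not_odd_iff_even.2 (even_two.mul_left _)) hodd
    obtain ⟨k1, hk1, hk1L, hk01⟩ := hidx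
    have hz1 : k0 • a ≠ k1 • a := by
      intro h
      apply hk01
      refine hstabL _ (K.mul_mem (K.inv_mem hk0) hk1) ?_
      rw [mul_smul, ← h, inv_smul_smul]
    have hz2 : (k0 * l0) • a ≠ k1 • a := by
      intro h
      apply hk01
      refine hinj _ (K.mul_mem (K.inv_mem hk0) hk1) l0 hl0 ?_
      rw [mul_smul, ← h, mul_smul, inv_smul_smul]
    obtain ⟨f, hf1, hf2, hf3⟩ := T (k0 • a) ((k0 * l0) • a) (k1 • a) hcc' hz2 hz1
    have hk1D : k1 • a ∉ D := fun h => hk1L ((hkD k1 hk1).1 h)
    have hfix : ∀ w ∈ D, f • w = w := by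
      intro w hw
      exact hf3 w (fun h => hcD (h ▸ hw)) (fun h => hc'D (h ▸ hw)) (fun h => hk1D (h ▸ hw))
    have hfH : f ∈ H := by
      rw [← hSDM]
      exact ⟨(hmemSD f).2 (fun w hw => by rw [hfix w hw]; exact hw), (hstab f).1 (hfix a haD)⟩
    have hfK : f ∈ K := hHK hfH
    -- k0⁻¹ f k0 maps a to l0 a, so lies in L; and maps l0 a to k0⁻¹ k1 a
    have h1 : k0⁻¹ * f * k0 ∈ L := by
      refine hinj _ (K.mul_mem (K.mul_mem (K.inv_mem hk0) hfK) hk0) l0 hl0 ?_
      rw [mul_smul, mul_smul, hf1, mul_smul, inv_smul_smul]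
    apply hk01
    refine hinj _ (K.mul_mem (K.inv_mem hk0) hk1) (k0⁻¹ * f * k0 * l0) (L.mul_mem h1 hl0) ?_
    rw [mul_smul, ← hf2]
    simp only [mul_smul]

end Cfsg.Agent.S5885
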