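import Cfsg.Statements.S5896
import Cfsg.Agent.H9.WrLen
import Cfsg.Agent.S0061

set_option autoImplicit false
open Cfsg

namespace Cfsg.Agent.S5896

namespace Aux

open scoped commutatorElement
open CfsgH9.WrLen

theorem exists_len (d : ℕ) : ∃ (D : Type) (_ : Group D) (_ : Finite D), Group.IsSolvable D ∧
    derivedSeries D d ≠ ⊥ := by
  induction d with
  | zero =>
    refine ⟨Multiplicative (ZMod 2), inferInstance, inferInstance, inferInstance, ?_⟩
    rw [derivedSeries_zero]
    exact top_ne_bot
  | succ d ih =>
    obtain ⟨D, iD, fD, sD, hD⟩ := ih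
    classical
    let Q := Multiplicative (ZMod 2)
    let W := D ≀ᵣ Q
    have hker : ∀ k : (RegularWreathProduct.rightHom (D := D) (Q := Q)).ker, (k : W).right = 1 :=
      fun k => k.2
    have hsK : Group.IsSolvable (RegularWreathProduct.rightHom (D := D) (Q := Q)).ker :=
      solvable_base (Subgroup.subtype _) (Subgroup.subtype_injective _) hker
    have hsW : Group.IsSolvable W :=
      Group.isSolvable_of_ker_le_range
        (Subgroup.subtype (RegularWreathProduct.rightHom (D := D) (Q := Q)).ker)
        (RegularWreathProduct.rightHom (D := D) (Q := Q)) (by rw [Subgroup.range_subtype])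
    refine ⟨W, inferInstance, inferInstance, hsW, ?_⟩
    have hc : ∀ k : commutator W, ((commutator W).subtype k).right = 1 := by
      intro k
      have := Abelianization.commutator_subset_ker (RegularWreathProduct.rightHom (D := D) (Q := Q)) k.2
      exact this
    have hs : Function.Surjective (ev (commutator W).subtype hc 1) := by
      intro s
      let q : Q := Multiplicative.ofAdd (1 : ZMod 2)
      have hq : q ≠ 1 := by decide
      have := comm_left s (RegularWreathProduct.inl q : W) (by simpa using hq)
      refine ⟨⟨_, Subgroup.commutator_mem_commutator (Subgroup.mem_top _) (Subgroup.mem_top _)⟩, this.2⟩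
    have h1 := ne_bot_of_surj _ hs d hD
    intro h2
    have h3 := shift (W := W) d
    rw [h2, le_bot_iff, Subgroup.map_eq_bot_iff_of_injective _ (Subgroup.subtype_injective _)] at h3
    exact h1 h3

theorem solv_max (M : Subgroup (alternatingGroup (Fin 5))) (hM : IsCoatom M) :
    Group.IsSolvable M := by
  have hcard : Nat.card (alternatingGroup (Fin 5)) = 60 := by
    have := nat_card_alternatingGroup (α := Fin 5)
    rw [this]; simp [Nat.factorial]
  have hidx := M.card_mul_index
  rw [hcard] at hidx
  haveI := alternatingGroup.isSimpleGroup_five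
  have hi1 : M.index ≠ 1 := fun h => hM.1 (Subgroup.index_eq_one.1 h)
  have hi2 : M.index ≠ 2 := by
    intro h
    have hn := Subgroup.normal_of_index_eq_two h
    rcases hn.eq_bot_or_eq_top with h1 | h1
    · rw [h1, Subgroup.index_bot, hcard] at h; omega
    · exact hM.1 h1
  have hdvd : Nat.card M ∣ 60 := ⟨_, hidx.symm⟩
  have hmem : Nat.card M ∈ Nat.divisors 60 := Nat.mem_divisors.2 ⟨hdvd, by norm_num⟩
  have hdiv : Nat.divisors 60 = {1, 2, 3, 4, 5, 6, 10, 12, 15, 20, 30, 60} := by decide +kernel
  rw [hdiv] at hmem
  simp only [Finset.mem_insert, Finset.mem_singleton] at hmem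
  rcases hmem with h | h | h | h | h | h | h | h | h | h | h | h
  · have : Subsingleton M := (Nat.card_eq_one_iff_unique.1 h).1
    infer_instance
  · exact Cfsg.Agent.S0061.result 2 2 0 (by norm_num) (by norm_num) (by rw [h]; norm_num)
  · exact Cfsg.Agent.S0061.result 3 3 0 (by norm_num) (by norm_num) (by rw [h]; norm_num)
  · exact Cfsg.Agent.S0061.result 2 2 1 (by norm_num) (by norm_num) (by rw [h]; norm_num)
  · exact Cfsg.Agent.S0061.result 5 5 0 (by norm_num) (by norm_num) (by rw [h]; norm_num)
  · exact Cfsg.Agent.S0061.result 2 3 1 (by norm_num) (by norm_num) (by rw [h]; norm_num)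
  · exact Cfsg.Agent.S0061.result 2 5 1 (by norm_num) (by norm_num) (by rw [h]; norm_num)
  · exact Cfsg.Agent.S0061.result 2 3 2 (by norm_num) (by norm_num) (by rw [h]; norm_num)
  · exact Cfsg.Agent.S0061.result 3 5 1 (by norm_num) (by norm_num) (by rw [h]; norm_num)
  · exact Cfsg.Agent.S0061.result 2 5 2 (by norm_num) (by norm_num) (by rw [h]; norm_num)
  · rw [h] at hidx; omega
  · rw [h] at hidx; omega

theorem exists_perfect_term (W : Type) [Group W] [Finite W] :
    ∃ n, derivedSeries W n = ⁅derivedSeries W n, derivedSeries W n⁆ := by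
  obtain ⟨c, ⟨n, rfl⟩, hmin⟩ := (wellFounded_lt (α := ℕ)).has_min
    (Set.range fun n => Nat.card (derivedSeries W n)) ⟨_, 0, rfl⟩
  refine ⟨n, ?_⟩
  have h1 := hmin _ ⟨n + 1, rfl⟩
  have h2 : derivedSeries W (n + 1) ≤ derivedSeries W n := derivedSeries_antitone W (Nat.le_succ n)
  have h3 := Subgroup.eq_of_le_of_card_ge h2 (not_lt.1 h1)
  rw [← derivedSeries_succ]
  exact h3.symm

end Aux

open scoped commutatorElement
open CfsgH9.WrLen

/-- Finite perfect groups have solvable maximal subgroups of unbounded derived length: for every d there is a finite perfect group G (equal to its commutator subgroup) with a solvable maximal subgroup H whose derived length exceeds d, i.e. the d-th term of the derived series of H is non-trivial. (Take the derived subgroup of a wreath product S ≀ A₅ with S solvable of large derived length, and H the preimage of a maximal subgroup of A₅.) -/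
theorem result (d : ℕ) :
    ∃ (G : Type) (_ : Group G) (_ : Finite G) (H : Subgroup G), commutator G = ⊤ ∧ IsCoatom H ∧ Group.IsSolvable H ∧
      derivedSeries H d ≠ ⊥ := by
  classical
  obtain ⟨D, iD, fD, sD, hD⟩ := Aux.exists_len d
  let Q := alternatingGroup (Fin 5)
  let W := D ≀ᵣ Q
  obtain ⟨n, hn⟩ := Aux.exists_perfect_term W
  let R : Subgroup W := derivedSeries W n
  have hR : ⁅R, R⁆ = R := hn.symm
  have hRn : R.Normal := inferInstanceAs (derivedSeries W n).Normal
  have hQp : commutator Q = ⊤ := commutator_alternatingGroup_eq_top (by simp)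
  have hQn : ∀ m, derivedSeries Q m = ⊤ := by
    intro m
    induction m with
    | zero => rfl
    | succ m ih => rw [derivedSeries_succ, ih]; exact hQp
  have hrs : Function.Surjective (RegularWreathProduct.rightHom (D := D) (Q := Q)) :=
    fun q => ⟨RegularWreathProduct.inl q, RegularWreathProduct.fun_id q⟩
  let π : R →* Q := (RegularWreathProduct.rightHom (D := D) (Q := Q)).comp R.subtype
  have hπ : Function.Surjective π := by
    intro q
    have h1 : q ∈ (derivedSeries W n).map (RegularWreathProduct.rightHom (D := D) (Q := Q)) := by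
      rw [map_derivedSeries_eq hrs n, hQn n]; trivial
    obtain ⟨r, hr, hrq⟩ := h1
    exact ⟨⟨r, hr⟩, hrq⟩
  haveI := alternatingGroup.isSimpleGroup_five
  obtain ⟨M, hM⟩ : ∃ M : Subgroup Q, IsCoatom M := by
    rcases IsCoatomic.eq_top_or_exists_le_coatom (⊥ : Subgroup Q) with h | ⟨M, hM, -⟩
    · exact absurd h bot_ne_top
    · exact ⟨M, hM⟩
  haveI hMs := Aux.solv_max M hM
  let H : Subgroup R := M.comap π
  let g : H →* M := π.subgroupComap M
  have hgk : ∀ k : g.ker, ((R.subtype.comp (H.subtype.comp g.ker.subtype)) k).right = 1 := by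
    intro k
    have h1 : g (k : H) = 1 := k.2
    have h2 : π ((k : H) : R) = 1 := by
      have := congrArg Subtype.val h1
      exact this
    exact h2
  haveI hgs : Group.IsSolvable g.ker := solvable_base _
    ((Subgroup.subtype_injective _).comp ((Subgroup.subtype_injective _).comp
      (Subgroup.subtype_injective _))) hgk
  refine ⟨R, inferInstance, inferInstance, H, ?_, Subgroup.isCoatom_comap_of_surjective hπ hM,
    Group.isSolvable_of_ker_le_range (Subgroup.subtype g.ker) g (by rw [Subgroup.range_subtype]), ?_⟩
  · apply Subgroup.map_injective (Subgroup.subtype_injective R)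
    rw [Subgroup.map_subtype_commutator, hR, ← MonoidHom.range_eq_map, Subgroup.range_subtype]
  · apply ne_bot_of_inj g.ker.subtype (Subgroup.subtype_injective _)
    apply ne_bot_of_surj (ev _ hgk 1) _ d hD
    intro s
    obtain ⟨q, hq⟩ := exists_ne (1 : Q)
    obtain ⟨r, hr⟩ := hπ q
    have hrr : (r : W).right ≠ 1 := by
      intro h; apply hq; rw [← hr]; exact h
    have hc := comm_left s (r : W) hrr
    have hmR : ⁅(⟨Pi.mulSingle 1 s, 1⟩ : W), (r : W)⁆ ∈ R := by
      rw [commutatorElement_def]
      exact R.mul_mem (hRn.conj_mem _ r.2 _) (R.inv_mem r.2)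
    have hmH : (⟨_, hmR⟩ : R) ∈ H := by
      change π ⟨_, hmR⟩ ∈ M
      have : π ⟨_, hmR⟩ = 1 := hc.1
      rw [this]; exact M.one_mem
    refine ⟨⟨⟨⟨_, hmR⟩, hmH⟩, ?_⟩, hc.2⟩
    rw [MonoidHom.mem_ker]
    apply Subtype.ext
    exact hc.1

end Cfsg.Agent.S5896
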