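import Cfsg.Statements.S5902
import Mathlib
import Cfsg.Agent.S5901

set_option autoImplicit false
open Cfsg

namespace Cfsg.Agent.S5902

section
variable {G : Type*} [Group G]

theorem exists_conj_not_le {H M : Subgroup G} (h : ¬ H ≤ M.normalCore) :
    ∃ g : G, ¬ H.map (MulAut.conj g).toMonoidHom ≤ M := by
  by_contra hcon
  push Not at hcon
  apply h
  intro x hx b
  exact hcon b ⟨x, hx, rfl⟩

theorem conj_inv_map (H : Subgroup G) (g : G) :
    (H.map (MulAut.conj g).toMonoidHom).map (MulAut.conj g⁻¹).toMonoidHom = H := by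
  rw [Subgroup.map_map]
  convert Subgroup.map_id H using 2
  ext x; simp [mul_assoc]

/-- a complement of a conjugate gives a complement -/
theorem compl_of_conj {H : Subgroup G} (g : G)
    (h : ∃ C : Subgroup G, H.map (MulAut.conj g).toMonoidHom ⊔ C = ⊤ ∧ H.map (MulAut.conj g).toMonoidHom ⊓ C = ⊥) :
    ∃ C : Subgroup G, H ⊔ C = ⊤ ∧ H ⊓ C = ⊥ := by
  obtain ⟨C, h1, h2⟩ := h
  refine ⟨C.map (MulAut.conj g⁻¹).toMonoidHom, ?_, ?_⟩
  · rw [← conj_inv_map H g, ← Subgroup.map_sup, h1]
    exact Subgroup.map_top_of_surjective _ (MulAut.conj g⁻¹).surjective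
  · rw [← conj_inv_map H g, ← Subgroup.map_inf _ _ _ (MulAut.conj g⁻¹).injective, h2, Subgroup.map_bot]

theorem intervalBot {X : Subgroup G} (hK : ComplementedLattice (Subgroup X)) :
    ∀ Y : Subgroup G, ⊥ ≤ Y → Y ≤ X → ∃ C : Subgroup G, ⊥ ≤ C ∧ C ≤ X ∧ Y ⊔ C = X ∧ Y ⊓ C = ⊥ := by
  intro Y _ hY
  obtain ⟨C, hC⟩ := hK.exists_isCompl (Y.subgroupOf X)
  refine ⟨C.map X.subtype, bot_le, Subgroup.map_subtype_le C, ?_, ?_⟩
  · have h1 := congrArg (Subgroup.map X.subtype) hC.sup_eq_top
    rw [Subgroup.map_sup, Subgroup.subgroupOf_map_subtype, inf_eq_left.2 hY, ← MonoidHom.range_eq_map,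
      Subgroup.range_subtype] at h1
    exact h1
  · have h1 := congrArg (Subgroup.map X.subtype) hC.inf_eq_bot
    rw [Subgroup.map_inf _ _ _ (Subgroup.subtype_injective X), Subgroup.subgroupOf_map_subtype, inf_eq_left.2 hY,
      Subgroup.map_bot] at h1
    exact h1

end

/-- Let G be a finite group, X a subgroup whose own subgroup lattice is complemented, and suppose X lies in exactly one maximal subgroup M of G. Then every subgroup H of G not contained in the normal core of M has a complement in the subgroup lattice of G (some C with H ⊔ C = G and H ⊓ C = 1); in particular the subgroup lattice of G modulo the normal core of M is complemented. -/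
theorem result {G : Type*} [Group G] [Finite G] (X M : Subgroup G)
    (hK : ComplementedLattice (Subgroup X))
    (hM : IsCoatom M) (hXM : X ≤ M) (huniq : ∀ M' : Subgroup G, IsCoatom M' → X ≤ M' → M' = M) :
    (∀ H : Subgroup G, ¬ H ≤ M.normalCore → ∃ C : Subgroup G, H ⊔ C = ⊤ ∧ H ⊓ C = ⊥) ∧
    ComplementedLattice (Subgroup (G ⧸ M.normalCore)) := by
  have hX : X ≠ ⊤ := fun h => hM.1 (top_le_iff.1 (h ▸ hXM))
  have h1 : ∀ H : Subgroup G, ¬ H ≤ M.normalCore → ∃ C : Subgroup G, H ⊔ C = ⊤ ∧ H ⊓ C = ⊥ := by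
    intro H hH
    obtain ⟨g, hg⟩ := exists_conj_not_le hH
    apply compl_of_conj g
    exact Cfsg.Agent.S5901.result ⊥ X M bot_le hX (intervalBot hK) hM hXM huniq _ hg (inf_bot_eq _)
  refine ⟨h1, ⟨fun K => ?_⟩⟩
  by_cases hK0 : K = ⊥
  · exact ⟨⊤, by rw [hK0]; exact isCompl_bot_top⟩
  · set N := M.normalCore with hN
    let H := K.comap (QuotientGroup.mk' N)
    have hNH : N ≤ H := by
      intro x hx
      change (QuotientGroup.mk' N) x ∈ K
      rw [show (QuotientGroup.mk' N) x = 1 from (QuotientGroup.eq_one_iff x).2 hx]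
      exact K.one_mem
    have hKH : H.map (QuotientGroup.mk' N) = K := Subgroup.map_comap_eq_self_of_surjective (QuotientGroup.mk'_surjective N) K
    have hH : ¬ H ≤ N := by
      intro hle
      apply hK0
      rw [← hKH, eq_bot_iff]
      rintro _ ⟨x, hx, rfl⟩
      exact Subgroup.mem_bot.2 ((QuotientGroup.eq_one_iff x).2 (hle hx))
    obtain ⟨C, hC1, hC2⟩ := h1 H hH
    refine ⟨C.map (QuotientGroup.mk' N), isCompl_iff.2 ⟨disjoint_iff.2 ?_, codisjoint_iff.2 ?_⟩⟩
    · rw [eq_bot_iff]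
      rintro y ⟨hy1, hy2⟩
      obtain ⟨c, hc, rfl⟩ := hy2
      have h3 : c ∈ H := hy1
      have h4 : c ∈ H ⊓ C := ⟨h3, hc⟩
      rw [hC2, Subgroup.mem_bot] at h4
      rw [h4, map_one]; exact Subgroup.mem_bot.2 rfl
    · rw [← hKH, ← Subgroup.map_sup, hC1]
      exact Subgroup.map_top_of_surjective _ (QuotientGroup.mk'_surjective N)

end Cfsg.Agent.S5902
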