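import Cfsg.Statements.S5903
import Mathlib
import Cfsg.Agent.S5902

set_option autoImplicit false
open Cfsg

namespace Cfsg.Agent.S5903

section
variable {G : Type*} [Group G]

theorem intervalN {X N : Subgroup G} (hNX : N ≤ X) [(N.subgroupOf X).Normal]
    (hK : ComplementedLattice (Subgroup (X ⧸ N.subgroupOf X))) :
    ∀ Y : Subgroup G, N ≤ Y → Y ≤ X → ∃ C : Subgroup G, N ≤ C ∧ C ≤ X ∧ Y ⊔ C = X ∧ Y ⊓ C = N := by
  intro Y hNY hY
  set π := QuotientGroup.mk' (N.subgroupOf X) with hπ
  obtain ⟨C', hC⟩ := hK.exists_isCompl ((Y.subgroupOf X).map π)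
  have hmem : ∀ (D : Subgroup (X ⧸ N.subgroupOf X)), N ≤ (D.comap π).map X.subtype := by
    intro D x hx
    refine ⟨⟨x, hNX hx⟩, ?_, rfl⟩
    change π _ ∈ D
    rw [show π ⟨x, hNX hx⟩ = 1 from (QuotientGroup.eq_one_iff _).2 hx]
    exact D.one_mem
  have hYc : ((Y.subgroupOf X).map π).comap π = Y.subgroupOf X := by
    apply le_antisymm
    · rintro x ⟨y, hy, hxy⟩
      have h1 : (y : X)⁻¹ * x ∈ N.subgroupOf X := QuotientGroup.eq.1 hxy
      have h2 : ((y⁻¹ * x : X) : G) ∈ Y := hNY h1
      have h3 : ((y : X) : G) ∈ Y := hy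
      have h4 := Y.mul_mem h3 h2
      rw [← Subgroup.coe_mul, mul_inv_cancel_left] at h4
      exact h4
    · exact Subgroup.le_comap_map _ _
  refine ⟨(C'.comap π).map X.subtype, hmem C', Subgroup.map_subtype_le _, ?_, ?_⟩
  · apply le_antisymm (sup_le hY (Subgroup.map_subtype_le _))
    intro x hx
    have h1 : (⟨x, hx⟩ : X) ∈ (((Y.subgroupOf X).map π) ⊔ C').comap π := by rw [hC.sup_eq_top]; trivial
    have h2 : (((Y.subgroupOf X).map π) ⊔ C').comap π = (Y.subgroupOf X) ⊔ C'.comap π := by
      rw [← Subgroup.comap_sup_eq π _ _ (QuotientGroup.mk'_surjective _), hYc]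
    rw [h2] at h1
    have h3 : x ∈ ((Y.subgroupOf X) ⊔ C'.comap π).map X.subtype := ⟨⟨x, hx⟩, h1, rfl⟩
    rw [Subgroup.map_sup, Subgroup.subgroupOf_map_subtype, inf_eq_left.2 hY] at h3
    exact h3
  · apply le_antisymm
    · rintro x ⟨hx, ⟨y, hy, hxy⟩⟩
      have hy' : π y ∈ C' := hy
      have h1 : π y ∈ (Y.subgroupOf X).map π := ⟨y, by
        change (y : G) ∈ Y
        have : (y : G) = x := hxy
        rw [this]; exact hx, rfl⟩
      have h2 : π y ∈ (Y.subgroupOf X).map π ⊓ C' := ⟨h1, hy'⟩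
      rw [hC.inf_eq_bot, Subgroup.mem_bot] at h2
      have h3 : y ∈ N.subgroupOf X := (QuotientGroup.eq_one_iff _).1 h2
      have : (y : G) = x := hxy
      rw [← this]; exact h3
    · exact le_inf hNY (hmem C')

end

/-- Let G be a finite simple group, X a subgroup lying in exactly one maximal subgroup M of G, and N a subgroup of prime order with N ≤ X that is central in M. If the subgroup lattice of X/N is complemented, then the subgroup lattice of G is complemented. -/
theorem result {G : Type*} [Group G] [Finite G] [IsSimpleGroup G] (X M N : Subgroup G)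
    (hM : IsCoatom M) (hXM : X ≤ M) (huniq : ∀ M' : Subgroup G, IsCoatom M' → X ≤ M' → M' = M)
    (hNX : N ≤ X) (hN : (Nat.card N).Prime) (hcen : ∀ n ∈ N, ∀ m ∈ M, m * n = n * m)
    [(N.subgroupOf X).Normal] (hK : ComplementedLattice (Subgroup (X ⧸ N.subgroupOf X))) :
    ComplementedLattice (Subgroup G) := by
  have hX : X ≠ ⊤ := fun h => hM.1 (top_le_iff.1 (h ▸ hXM))
  have hMc : M.normalCore = ⊥ := by
    rcases M.normalCore_normal.eq_bot_or_eq_top with h | h
    · exact h
    · exact absurd (top_le_iff.1 (h ▸ M.normalCore_le)) hM.1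
  refine ⟨fun H => ?_⟩
  suffices h : ∃ C : Subgroup G, H ⊔ C = ⊤ ∧ H ⊓ C = ⊥ by
    obtain ⟨C, h1, h2⟩ := h
    exact ⟨C, isCompl_iff.2 ⟨disjoint_iff.2 h2, codisjoint_iff.2 h1⟩⟩
  by_cases hH0 : H = ⊥
  · exact ⟨⊤, by simp, by simp [hH0]⟩
  by_cases hH1 : H = ⊤
  · exact ⟨⊥, by simp [hH1], by simp⟩
  -- find a good conjugate
  by_cases hg : ∃ g : G, ¬ H.map (MulAut.conj g).toMonoidHom ≤ M ∧ ¬ N ≤ H.map (MulAut.conj g).toMonoidHom
  · obtain ⟨g, hg1, hg2⟩ := hg
    apply Cfsg.Agent.S5902.compl_of_conj g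
    refine Cfsg.Agent.S5901.result N X M hNX hX (intervalN hNX hK) hM hXM huniq _ hg1 ?_
    have hle : H.map (MulAut.conj g).toMonoidHom ⊓ N ≤ N := inf_le_right
    haveI := Fact.mk hN
    rcases (Subgroup.eq_bot_or_eq_top_of_prime_card ((H.map (MulAut.conj g).toMonoidHom ⊓ N).subgroupOf N)) with h | h
    · rw [Subgroup.subgroupOf_eq_bot, disjoint_iff, inf_assoc, inf_idem] at h
      exact h
    · rw [Subgroup.subgroupOf_eq_top] at h
      exact absurd (h.trans inf_le_left) hg2
  · exfalso
    push Not at hg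
    -- every conjugate of N normalises H
    have key : ∀ g : G, N.map (MulAut.conj g).toMonoidHom ≤ Subgroup.normalizer (H : Set G) := by
      intro g
      rintro _ ⟨n, hn, rfl⟩
      by_cases h : H.map (MulAut.conj g⁻¹).toMonoidHom ≤ M
      · -- centralises
        have hc : ∀ x ∈ H, (MulAut.conj g).toMonoidHom n * x = x * (MulAut.conj g).toMonoidHom n := by
          intro x hx
          have h1 : g⁻¹ * x * g⁻¹⁻¹ ∈ M := h ⟨x, hx, rfl⟩
          rw [inv_inv] at h1
          have h2 := hcen n hn _ h1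
          change g * n * g⁻¹ * x = x * (g * n * g⁻¹)
          calc g * n * g⁻¹ * x = g * (n * (g⁻¹ * x * g)) * g⁻¹ := by group
            _ = g * ((g⁻¹ * x * g) * n) * g⁻¹ := by rw [h2]
            _ = _ := by group
        rw [Subgroup.mem_normalizer_iff]
        intro x
        constructor
        · intro hx
          rw [hc x hx, mul_assoc, mul_inv_cancel, mul_one]; exact hx
        · intro hx
          have h3 := hc _ hx
          have h4 : x = (MulAut.conj g).toMonoidHom n * x * ((MulAut.conj g).toMonoidHom n)⁻¹ := by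
            have h5 : (MulAut.conj g).toMonoidHom n * x * ((MulAut.conj g).toMonoidHom n)⁻¹ * (MulAut.conj g).toMonoidHom n =
              (MulAut.conj g).toMonoidHom n * x := by group
            rw [h5] at h3
            exact (mul_left_cancel h3).symm
          rw [h4]; exact hx
      · have h1 := hg g⁻¹ h
        apply Subgroup.le_normalizer
        obtain ⟨y, hy, hyn⟩ := h1 hn
        have hyn' : g⁻¹ * y * g⁻¹⁻¹ = n := hyn
        change g * n * g⁻¹ ∈ H
        rw [← hyn']
        have : g * (g⁻¹ * y * g⁻¹⁻¹) * g⁻¹ = y := by group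
        rw [this]; exact hy
    have hnc : Subgroup.normalClosure (N : Set G) ≤ Subgroup.normalizer (H : Set G) := by
      rw [Subgroup.normalClosure, Subgroup.closure_le]
      intro x hx
      rw [Group.mem_conjugatesOfSet_iff] at hx
      obtain ⟨n, hn, hc⟩ := hx
      obtain ⟨g, hg⟩ := isConj_iff.1 hc
      exact key g ⟨n, hn, hg⟩
    have hN0 : N ≠ ⊥ := by
      rintro rfl
      rw [Subgroup.card_bot] at hN
      exact Nat.not_prime_one hN
    rcases (Subgroup.normalClosure_normal (s := (N : Set G))).eq_bot_or_eq_top with h | h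
    · apply hN0
      rw [eq_bot_iff, ← h]
      exact Subgroup.subset_normalClosure
    · rw [h, top_le_iff] at hnc
      have hHn : H.Normal := Subgroup.normalizer_eq_top_iff.1 hnc
      rcases hHn.eq_bot_or_eq_top with h' | h'
      · exact hH0 h'
      · exact hH1 h'

end Cfsg.Agent.S5903
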