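import Cfsg.Statements.S5905
import Mathlib

set_option autoImplicit false
open Cfsg

namespace Cfsg.Agent.S5905

open Equiv MulAction
open scoped Pointwise

section
variable {Ω : Type*} [Fintype Ω] [DecidableEq Ω] {a b : ℕ}

/-- the stabiliser of the partition -/
def W (f : Ω → Fin b) : Subgroup (Perm Ω) where
  carrier := {g | ∀ x y : Ω, f x = f y ↔ f (g x) = f (g y)}
  mul_mem' := by
    intro g h hg hh x y
    rw [hh x y, hg (h x) (h y)]; rfl
  one_mem' := fun x y => Iff.rfl
  inv_mem' := by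
    intro g hg x y
    have := hg (g⁻¹ x) (g⁻¹ y)
    rw [this]
    simp

theorem closure_eq (f : Ω → Fin b) :
    Subgroup.closure {g : Equiv.Perm Ω | ∀ x y : Ω, f x = f y ↔ f (g x) = f (g y)} = W f :=
  Subgroup.closure_eq (W f)

theorem swap_mem {f : Ω → Fin b} {x y : Ω} (h : f x = f y) : swap x y ∈ W f := by
  have h1 : ∀ z, f (swap x y z) = f z := by
    intro z
    rcases em (z = x) with hz | hz
    · subst hz; rw [swap_apply_left, h]
    · by_cases hz2 : z = y
      · subst hz2; rw [swap_apply_right, h]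
      · rw [swap_apply_of_ne_of_ne hz hz2]
  intro u v
  rw [h1, h1]

/-- a permutation interchanging the fibres over `i` and `j` -/
theorem exists_fib (f : Ω → Fin b) (hf : ∀ i : Fin b, Nat.card {x : Ω // f x = i} = a) (i j : Fin b) :
    ∃ g ∈ W f, (∀ z, f (g z) = swap i j (f z)) ∧ ∀ z, f z ≠ i → f z ≠ j → g z = z := by
  have e : ∀ i : Fin b, {x : Ω // f x = i} ≃ Fin a := fun i =>
    (Finite.equivFin _).trans (finCongr (hf i))
  let E : Ω ≃ Fin b × Fin a := (Equiv.sigmaFiberEquiv f).symm.trans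
    ((Equiv.sigmaCongrRight e).trans (Equiv.sigmaEquivProd _ _))
  have hE : ∀ z, (E z).1 = f z := fun z => rfl
  have hE' : ∀ p : Fin b × Fin a, f (E.symm p) = p.1 := by
    intro p
    rw [← hE, E.apply_symm_apply]
  let g : Perm Ω := E.trans ((Equiv.prodCongr (swap i j) (Equiv.refl _)).trans E.symm)
  have hg : ∀ z, f (g z) = swap i j (f z) := by
    intro z
    change f (E.symm (swap i j (E z).1, (E z).2)) = _
    rw [hE', hE]
  refine ⟨g, ?_, hg, ?_⟩
  · intro u v
    rw [hg, hg, (swap i j).injective.eq_iff]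
  · intro z h1 h2
    change E.symm (swap i j (E z).1, (E z).2) = z
    rw [hE, swap_apply_of_ne_of_ne h1 h2, ← hE]
    exact E.symm_apply_apply z

theorem full_of_two {f : Ω → Fin b} (hf : ∀ i : Fin b, Nat.card {x : Ω // f x = i} = a) {K : Subgroup (Perm Ω)}
    (hWK : W f ≤ K) {B : Set Ω} (hB : IsBlock K B) {x y : Ω} (hx : x ∈ B) (hy : y ∈ B) (hxy : f x ≠ f y) :
    B = Set.univ := by
  have hstep : ∀ g ∈ W f, ∀ u ∈ B, g u ∈ B → ∀ v ∈ B, g v ∈ B := by
    intro g hg u hu hgu v hv
    have h1 := hB.smul_eq_of_mem (g := ⟨g, hWK hg⟩) hu hgu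
    rw [← h1]
    exact ⟨v, hv, rfl⟩
  have hfib : ∀ u ∈ B, ∀ v ∈ B, f u ≠ f v → ∀ z, f z = f v → z ∈ B := by
    intro u hu v hv huv z hz
    have h1 : swap v z ∈ W f := swap_mem hz.symm
    have h2 : swap v z u = u := swap_apply_of_ne_of_ne (fun h => huv (by rw [h])) (fun h => huv (by rw [h, hz]))
    have h3 := hstep _ h1 u hu (by rw [h2]; exact hu) v hv
    rwa [swap_apply_left] at h3
  rw [Set.eq_univ_iff_forall]
  intro z
  by_cases h1 : f z = f x
  · exact hfib y hy x hx (Ne.symm hxy) z h1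
  by_cases h2 : f z = f y
  · exact hfib x hx y hy hxy z h2
  obtain ⟨g, hg, hgf, hgfix⟩ := exists_fib f hf (f y) (f z)
  have h3 : g x = x := hgfix x hxy (Ne.symm h1)
  have h4 := hstep g hg x hx (by rw [h3]; exact hx) y hy
  have h5 : f (g y) = f z := by rw [hgf, swap_apply_left]
  exact hfib x hx (g y) h4 (by rw [h5]; exact Ne.symm h1) z h5.symm

end

/-- Let Ω be a finite set and f : Ω → Fin b a map onto b ≥ 2 labels whose fibres all have the same size a ≥ 2 (a partition of Ω into b blocks of size a, so |Ω| = ab). Then the stabilizer of this partition in the symmetric group on Ω — the permutations g such that x and y lie in the same block exactly when g x and g y do, a group isomorphic to the imprimitive wreath product S_a ≀ S_b — is a maximal subgroup of the symmetric group. -/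
theorem result {Ω : Type*} [Fintype Ω] [DecidableEq Ω] (a b : ℕ) (ha : 2 ≤ a) (hb : 2 ≤ b)
    (f : Ω → Fin b) (hf : ∀ i : Fin b, Nat.card {x : Ω // f x = i} = a) :
    IsCoatom (Subgroup.closure {g : Equiv.Perm Ω | ∀ x y : Ω, f x = f y ↔ f (g x) = f (g y)}) := by
  classical
  rw [closure_eq]
  have hne : ∀ i : Fin b, ∃ x y : Ω, x ≠ y ∧ f x = i ∧ f y = i := by
    intro i
    have h1 : 1 < Nat.card {x : Ω // f x = i} := by rw [hf]; omega
    rw [Finite.one_lt_card_iff_nontrivial] at h1
    obtain ⟨⟨x, hx⟩, ⟨y, hy⟩, hxy⟩ := h1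
    exact ⟨x, y, fun h => hxy (Subtype.ext h), hx, hy⟩
  obtain ⟨x0, x1, hx01, hx0, hx1⟩ := hne ⟨0, by omega⟩
  obtain ⟨y0, y1, hy01, hy0, hy1⟩ := hne ⟨1, by omega⟩
  have hxy0 : f x0 ≠ f y0 := by rw [hx0, hy0]; intro h; exact absurd (congrArg Fin.val h) (by simp)
  constructor
  · intro htop
    have h1 : swap x0 y0 ∈ W f := by rw [htop]; trivial
    have h2 := (h1 x0 x1).1 (by rw [hx0, hx1])
    rw [swap_apply_left, swap_apply_of_ne_of_ne (Ne.symm hx01) (fun h => hxy0 (by rw [← h, hx1, hx0]))] at h2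
    exact hxy0 (by rw [h2, hx1, hx0])
  · intro K hK
    have hWK := hK.le
    have hsw : swap x0 x1 ∈ K := hWK (swap_mem (by rw [hx0, hx1]))
    refine Equiv.Perm.subgroup_eq_top_of_isPreprimitive_of_isSwap_mem ?_ (swap x0 x1) ⟨x0, x1, hx01, rfl⟩ hsw
    haveI htr : IsPretransitive K Ω := by
      constructor
      intro x y
      obtain ⟨g, hg, hgf, -⟩ := exists_fib f hf (f x) (f y)
      have h1 : f (g x) = f y := by rw [hgf, swap_apply_left]
      refine ⟨⟨swap (g x) y * g, K.mul_mem (hWK (swap_mem h1)) (hWK hg)⟩, ?_⟩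
      change swap (g x) y (g x) = y
      rw [swap_apply_left]
    refine { exists_smul_eq := htr.exists_smul_eq, isTrivialBlock_of_isBlock := ?_ }
    intro B hB
    by_contra hnt
    have hnt1 : ¬ B.Subsingleton := fun h => hnt (Or.inl h)
    have hnt2 : B ≠ Set.univ := fun h => hnt (Or.inr h)
    rw [Set.not_subsingleton_iff] at hnt1
    obtain ⟨x, hx, y, hy, hxy⟩ := hnt1
    have hsame : ∀ u ∈ B, ∀ v ∈ B, f u = f v := by
      intro u hu v hv
      by_contra h
      exact hnt2 (full_of_two hf hWK hB hu hv h)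
    have hBfib : ∀ z, f z = f x → z ∈ B := by
      intro z hz
      by_cases h1 : z = x
      · rw [h1]; exact hx
      · have hfxy := hsame x hx y hy
        have h2 : swap y z ∈ W f := swap_mem (by rw [← hfxy, hz])
        have h3 : swap y z x = x := swap_apply_of_ne_of_ne hxy (Ne.symm h1)
        have h4 := hB.smul_eq_of_mem (g := ⟨swap y z, hWK h2⟩) hx (by change swap y z x ∈ B; rw [h3]; exact hx)
        rw [← h4]
        exact ⟨y, hy, swap_apply_left _ _⟩
    -- K preserves the partition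
    have hpres : ∀ g ∈ K, ∀ u v : Ω, f u = f v → f (g u) = f (g v) := by
      intro g hg u v huv
      obtain ⟨h, hh, hhf, -⟩ := exists_fib f hf (f x) (f u)
      have hh' : h ∈ K := hWK hh
      have hu : u ∈ (⟨h, hh'⟩ : K) • B := by
        refine ⟨h.symm u, hBfib _ ?_, h.apply_symm_apply u⟩
        have h1 := hhf (h.symm u)
        rw [h.apply_symm_apply] at h1
        have h2 := congrArg (swap (f x) (f u)) h1
        rw [swap_apply_self, swap_apply_right] at h2
        exact h2.symm
      have hv : v ∈ (⟨h, hh'⟩ : K) • B := by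
        refine ⟨h.symm v, hBfib _ ?_, h.apply_symm_apply v⟩
        have h1 := hhf (h.symm v)
        rw [h.apply_symm_apply, ← huv] at h1
        have h2 := congrArg (swap (f x) (f u)) h1
        rw [swap_apply_self, swap_apply_right] at h2
        exact h2.symm
      by_contra hne'
      have hB' : IsBlock K ((⟨g, hg⟩ * ⟨h, hh'⟩ : K) • B) := IsBlock.translate _ hB
      have hgu : g u ∈ (⟨g, hg⟩ * ⟨h, hh'⟩ : K) • B := by
        rw [mul_smul]; exact ⟨u, hu, rfl⟩
      have hgv : g v ∈ (⟨g, hg⟩ * ⟨h, hh'⟩ : K) • B := by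
        rw [mul_smul]; exact ⟨v, hv, rfl⟩
      have h1 := full_of_two hf hWK hB' hgu hgv hne'
      apply hnt2
      rw [smul_eq_iff_eq_inv_smul, Set.smul_set_univ] at h1
      exact h1
    have hKW : K ≤ W f := by
      intro g hg u v
      refine ⟨hpres g hg u v, fun h => ?_⟩
      have := hpres g⁻¹ (K.inv_mem hg) _ _ h
      simpa using this
    exact absurd hKW (not_le_of_gt hK)

end Cfsg.Agent.S5905
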