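import Cfsg.Statements.S5908
import Cfsg.Agent.S0827

set_option autoImplicit false
open Cfsg

namespace Cfsg.Agent.S5908

theorem mul_zpow_self_aux {G : Type*} [Group G] {g : G} (h : g * g = 1) (k : ℤ) : 1 = g ^ k * g ^ k := by
  rw [← zpow_add, ← two_mul, zpow_mul, zpow_two, h, one_zpow]

/-- The subgroup lattice of PSU₃(2) (the solvable group of order 72, realised over the field with 4 elements) is not complemented: some subgroup H has no subgroup X with H ⊔ X = ⊤ and H ⊓ X = ⊥. -/
theorem result {F : Type*} [Field F] [Fintype F] (hF : Fintype.card F = 4) :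
    ¬ ComplementedLattice (Subgroup (Cfsg.PSU 3 F 2)) := by
  classical
  intro hcl
  obtain ⟨N, hN, hN9, hN3, ⟨e⟩⟩ := Cfsg.Agent.S0827.result hF
  haveI := hN
  let q := QuotientGroup.mk' N
  let φ : Cfsg.PSU 3 F 2 →* QuaternionGroup 2 := e.toMonoidHom.comp q
  have hφs : Function.Surjective φ := e.surjective.comp (QuotientGroup.mk'_surjective N)
  have hφk : ∀ x, φ x = 1 ↔ x ∈ N := by
    intro x
    change e (q x) = 1 ↔ _
    rw [map_eq_one_iff e e.injective]
    exact QuotientGroup.eq_one_iff x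
  -- the subgroup of order 2
  let Z : Subgroup (QuaternionGroup 2) := Subgroup.zpowers (QuaternionGroup.a 2)
  have hZ : ∀ y : QuaternionGroup 2, y ≠ 1 → y = QuaternionGroup.a 2 ∨ y * y = QuaternionGroup.a 2 := by
    have : ∀ y : QuaternionGroup 2, y ≠ 1 → y = QuaternionGroup.a 2 ∨ y * y = QuaternionGroup.a 2 := by decide
    exact this
  obtain ⟨X, hX⟩ := exists_isCompl (Z.comap φ)
  have hXbot : X = ⊥ := by
    rw [Subgroup.eq_bot_iff_forall]
    intro x hx
    by_contra hx1
    have key : ∀ y ∈ X, φ y ∈ Z → y = 1 := by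
      intro y hy hyZ
      have h1 : y ∈ Z.comap φ ⊓ X := ⟨hyZ, hy⟩
      rw [hX.inf_eq_bot] at h1
      exact h1
    by_cases h1 : φ x = 1
    · exact hx1 (key x hx (by rw [h1]; exact Z.one_mem))
    · rcases hZ _ h1 with h2 | h2
      · exact hx1 (key x hx (by rw [h2]; exact Subgroup.mem_zpowers _))
      · have h3 := key (x * x) (X.mul_mem hx hx) (by rw [map_mul, h2]; exact Subgroup.mem_zpowers _)
        have h4 : φ (x * x) = 1 := by rw [h3, map_one]
        rw [map_mul, h2] at h4
        exact absurd h4 (by decide)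
  have htop : Z.comap φ = ⊤ := by
    have := hX.sup_eq_top
    rwa [hXbot, sup_bot_eq] at this
  obtain ⟨x, hx⟩ := hφs (QuaternionGroup.a 1)
  have h1 : x ∈ Z.comap φ := by rw [htop]; trivial
  rw [Subgroup.mem_comap, hx] at h1
  obtain ⟨k, hk⟩ := h1
  have h2 : (QuaternionGroup.a 1 : QuaternionGroup 2) * QuaternionGroup.a 1 = 1 := by
    have h3 : (QuaternionGroup.a 2 : QuaternionGroup 2) * QuaternionGroup.a 2 = 1 := by decide
    have hk' : (QuaternionGroup.a 2 : QuaternionGroup 2) ^ k = QuaternionGroup.a 1 := hk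
    rw [← hk']; exact (mul_zpow_self_aux h3 k).symm
  exact absurd h2 (by decide)

end Cfsg.Agent.S5908
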