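import Cfsg.Statements.S5910
import Cfsg.Agent.H9.A8

set_option autoImplicit false
open Cfsg

namespace Cfsg.Agent.S5910

/-- the subgroup preserving the fibres -/
def PS {Ω : Type*} (f : Ω → Fin 4) : Subgroup (Equiv.Perm Ω) where
  carrier := {g | ∀ x y : Ω, f x = f y ↔ f (g x) = f (g y)}
  mul_mem' {g h} hg hh := by
    intro x y
    exact (hh x y).trans (hg _ _)
  one_mem' := fun x y => Iff.rfl
  inv_mem' {g} hg := by
    intro x y
    have e : ∀ x, g (g⁻¹ x) = x := fun x => by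
      show (g * g⁻¹) x = x
      rw [mul_inv_cancel]; rfl
    have := hg (g⁻¹ x) (g⁻¹ y)
    rw [e, e] at this
    exact this.symm

/-- Let Ω be a set with 8 elements and f : Ω → Fin 4 a labelling whose four fibres all have size 2 (a partition of the 8 points into 4 pairs). Then the group of even permutations preserving this partition, (S₂ ≀ S₄) ∩ A₈, is not a maximal subgroup of the alternating group A₈ (it lies in a subgroup isomorphic to the affine group AGL₃(2)). -/
theorem result {Ω : Type*} [Fintype Ω] [DecidableEq Ω] (h8 : Fintype.card Ω = 8)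
    (f : Ω → Fin 4) (hf : ∀ i : Fin 4, Nat.card {x : Ω // f x = i} = 2) :
    ¬ IsCoatom ((Subgroup.closure {g : Equiv.Perm Ω | ∀ x y : Ω, f x = f y ↔ f (g x) = f (g y)} ⊓ alternatingGroup Ω).subgroupOf (alternatingGroup Ω)) := by
  classical
  have hfib : ∀ i : Fin 4, Nonempty ({x : Ω // f x = i} ≃ Bool) := by
    intro i
    have h1 := hf i
    rw [Nat.card_eq_fintype_card] at h1
    exact ⟨Fintype.equivOfCardEq (by rw [h1, Fintype.card_bool])⟩
  let ei : ∀ i : Fin 4, {x : Ω // f x = i} ≃ Bool := fun i => (hfib i).some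
  obtain ⟨e, he⟩ : ∃ e : Ω ≃ Fin 4 × Bool, ∀ x, (e x).1 = f x := by
    refine ⟨(Equiv.sigmaFiberEquiv f).symm.trans ((Equiv.sigmaCongrRight ei).trans (Equiv.sigmaEquivProd (Fin 4) Bool)), ?_⟩
    intro x
    rfl
  let Φ : Equiv.Perm Ω →* Equiv.Perm (Fin 4 × Bool) := (e.permCongrHom).toMonoidHom
  have hΦ : ∀ g x, Φ g (e x) = e (g x) := by
    intro g x
    show e (g (e.symm (e x))) = e (g x)
    rw [Equiv.symm_apply_apply]
  have hsign : ∀ g, Equiv.Perm.sign (Φ g) = Equiv.Perm.sign g := fun g => Equiv.Perm.sign_permCongr e g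
  have hPS : ∀ g, g ∈ PS f ↔ ∀ x y : Fin 4 × Bool, x.1 = y.1 ↔ (Φ g x).1 = (Φ g y).1 := by
    intro g
    constructor
    · intro h x y
      obtain ⟨x, rfl⟩ := e.surjective x
      obtain ⟨y, rfl⟩ := e.surjective y
      rw [hΦ, hΦ, he, he, he, he]
      exact h x y
    · intro h x y
      have := h (e x) (e y)
      rwa [hΦ, hΦ, he, he, he, he] at this
  have hcl : Subgroup.closure {g : Equiv.Perm Ω | ∀ x y : Ω, f x = f y ↔ f (g x) = f (g y)} ≤ PS f := by
    rw [Subgroup.closure_le]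
    intro g hg
    exact hg
  have hsurj : Function.Surjective Φ := (e.permCongrHom).surjective
  intro hco
  have hlt : (Subgroup.closure {g : Equiv.Perm Ω | ∀ x y : Ω, f x = f y ↔ f (g x) = f (g y)} ⊓ alternatingGroup Ω).subgroupOf (alternatingGroup Ω) <
      (CfsgH9.A8.K.comap Φ).subgroupOf (alternatingGroup Ω) := by
    refine lt_of_le_of_ne ?_ ?_
    · rintro ⟨g, hgA⟩ hg
      have h1 : g ∈ Subgroup.closure {g : Equiv.Perm Ω | ∀ x y : Ω, f x = f y ↔ f (g x) = f (g y)} := hg.1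
      have h2 := (hPS g).1 (hcl h1)
      have h3 : Equiv.Perm.sign (Φ g) = 1 := by rw [hsign]; exact hgA
      exact CfsgH9.A8.mem_K h2 h3
    · intro heq
      obtain ⟨g, hg⟩ := hsurj CfsgH9.A8.g0
      have hgA : g ∈ alternatingGroup Ω := by
        rw [Equiv.Perm.mem_alternatingGroup, ← hsign, hg]; exact CfsgH9.A8.g0_sign
      have h1 : (⟨g, hgA⟩ : alternatingGroup Ω) ∈ (CfsgH9.A8.K.comap Φ).subgroupOf (alternatingGroup Ω) := by
        show Φ g ∈ CfsgH9.A8.K
        rw [hg]; exact CfsgH9.A8.g0_mem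
      rw [← heq] at h1
      have h2 : g ∈ Subgroup.closure {g : Equiv.Perm Ω | ∀ x y : Ω, f x = f y ↔ f (g x) = f (g y)} := h1.1
      have h3 := (hPS g).1 (hcl h2)
      rw [hg] at h3
      exact CfsgH9.A8.g0_not h3
  have htop := hco.2 _ hlt
  obtain ⟨g, hg⟩ := hsurj CfsgH9.A8.g1
  have hgA : g ∈ alternatingGroup Ω := by
    rw [Equiv.Perm.mem_alternatingGroup, ← hsign, hg]; exact CfsgH9.A8.g1_sign
  have h1 : (⟨g, hgA⟩ : alternatingGroup Ω) ∈ (CfsgH9.A8.K.comap Φ).subgroupOf (alternatingGroup Ω) := by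
    rw [htop]; trivial
  have h2 : Φ g ∈ CfsgH9.A8.K := h1
  rw [hg] at h2
  exact CfsgH9.A8.g1_not h2

end Cfsg.Agent.S5910
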