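import Cfsg.Statements.S5912
import Cfsg.Agent.H9.Sym6

set_option autoImplicit false
open Cfsg

namespace Cfsg.Agent.S5912

theorem map_conj_stab {Ω : Type*} [Fintype Ω] [DecidableEq Ω] (g : Equiv.Perm Ω) (ω : Ω) :
    Subgroup.map (MulAut.conj g).toMonoidHom (MulAction.stabilizer (Equiv.Perm Ω) ω) =
      MulAction.stabilizer (Equiv.Perm Ω) (g ω) := by
  ext x
  constructor
  · rintro ⟨y, hy, rfl⟩
    have hy' : y ω = ω := hy
    change (g * y * g⁻¹) (g ω) = g ω
    simp [hy']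
  · intro hx
    have hx' : x (g ω) = g ω := hx
    refine ⟨g⁻¹ * x * g, ?_, ?_⟩
    · change (g⁻¹ * x * g) ω = ω
      simp [hx']
    · change g * (g⁻¹ * x * g) * g⁻¹ = x
      group

theorem map_conj_comap {G : Type*} [Group G] (e : G ≃* G) (K : Subgroup G) (g : G) :
    Subgroup.map (MulAut.conj g).toMonoidHom (K.comap e.toMonoidHom) =
      (Subgroup.map (MulAut.conj (e g)).toMonoidHom K).comap e.toMonoidHom := by
  ext x
  constructor
  · rintro ⟨y, hy, rfl⟩
    exact ⟨e y, hy, by simp⟩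
  · rintro ⟨y, hy, hxy⟩
    have hxy' : e g * y * (e g)⁻¹ = e x := hxy
    refine ⟨g⁻¹ * x * g, ?_, ?_⟩
    · change e (g⁻¹ * x * g) ∈ K
      rw [map_mul, map_mul, ← hxy', map_inv]
      simpa [mul_assoc] using hy
    · change g * (g⁻¹ * x * g) * g⁻¹ = x
      group

/-- The symmetric group on a 6-element set Ω has exactly two conjugacy classes of subgroups of index 6: there are two non-conjugate subgroups of index 6 (a point stabilizer and a transitive subgroup isomorphic to S₅), and every subgroup of index 6 is conjugate to one of them. -/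
theorem result {Ω : Type*} [Fintype Ω] [DecidableEq Ω] (h6 : Fintype.card Ω = 6) :
    ∃ H₁ H₂ : Subgroup (Equiv.Perm Ω), H₁.index = 6 ∧ H₂.index = 6 ∧
      (¬ ∃ g : Equiv.Perm Ω, Subgroup.map (MulAut.conj g).toMonoidHom H₁ = H₂) ∧
      ∀ H : Subgroup (Equiv.Perm Ω), H.index = 6 →
        ∃ g : Equiv.Perm Ω, Subgroup.map (MulAut.conj g).toMonoidHom H₁ = H ∨ Subgroup.map (MulAut.conj g).toMonoidHom H₂ = H := by
  have h6' : Nat.card Ω = 6 := by rw [Nat.card_eq_fintype_card, h6]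
  haveI : Nonempty Ω := by rw [← Finite.card_pos_iff]; omega
  obtain ⟨ω⟩ := ‹Nonempty Ω›
  haveI : Nonempty Ω := ⟨ω⟩
  obtain ⟨e, he⟩ := CfsgH9.SymIdx.exists_exotic (Ω := Ω) h6'
  have hidx := CfsgH9.SymIdx.index_stab ω
  refine ⟨MulAction.stabilizer _ ω, (MulAction.stabilizer (Equiv.Perm Ω) ω).comap e.toMonoidHom, by rw [hidx, h6'], ?_, ?_, ?_⟩
  · rw [Subgroup.index_comap_of_surjective _ e.surjective, hidx, h6']
  · rintro ⟨g, hg⟩
    rw [map_conj_stab] at hg
    exact CfsgH9.SymIdx.exotic_not_stab h6' he ω (g ω) hg.symm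
  · intro H hi
    rcases CfsgH9.SymIdx.index_six h6' hi with ⟨z, hz⟩ | ⟨e', ω', he', hz⟩
    · refine ⟨Equiv.swap ω z, Or.inl ?_⟩
      rw [map_conj_stab, Equiv.swap_apply_left, hz]
    · obtain ⟨z, hz'⟩ := CfsgH9.SymIdx.comap_exotic (by omega) he he' ω'
      refine ⟨e.symm (Equiv.swap ω z), Or.inr ?_⟩
      rw [map_conj_comap, e.apply_symm_apply, map_conj_stab, Equiv.swap_apply_left, hz, hz']

end Cfsg.Agent.S5912
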