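import Cfsg.Statements.S5939
import Cfsg.Agent.H9.Dk21
import Cfsg.Agent.S0804

set_option autoImplicit false
open Cfsg

namespace Cfsg.Agent.S5939

/-- Let p be a prime and F a finite field of characteristic p such that either F has p elements and p ≡ ±1 (mod 10), or F has p² elements and p ≡ ±3 (mod 10). Then PSL_2(F) has a maximal subgroup isomorphic to the alternating group A_5. -/
theorem result {F : Type*} [Field F] [Fintype F] (p : ℕ) [Fact p.Prime] [CharP F p] (h : (Fintype.card F = p ∧ (p % 10 = 1 ∨ p % 10 = 9)) ∨ (Fintype.card F = p ^ 2 ∧ (p % 10 = 3 ∨ p % 10 = 7))) : ∃ H : Subgroup (Matrix.ProjectiveSpecialLinearGroup (Fin 2) F), IsCoatom H ∧ Nonempty (H ≃* alternatingGroup (Fin 5)) := by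
  classical
  have hcard : Nat.gcd 2 (Fintype.card F - 1) * Nat.card (Matrix.ProjectiveSpecialLinearGroup (Fin 2) F) = Fintype.card F * (Fintype.card F - 1) * (Fintype.card F + 1) := CfsgH9.Dk.card_psl
  have hpr : p.Prime := Fact.out
  have hq5 : Fintype.card F % 5 = 1 ∨ Fintype.card F % 5 = 4 := by
    rcases h with ⟨h1, h2⟩ | ⟨h1, h2⟩
    · rw [h1]; omega
    · rw [h1, Nat.pow_mod]
      have : p % 5 = 3 ∨ p % 5 = 2 := by omega
      rcases this with h | h <;> rw [h] <;> norm_num
  have hpo : p % 2 = 1 := by rcases h with ⟨h1, h2⟩ | ⟨h1, h2⟩ <;> omega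
  have hp3 : 3 ≤ p := by have := hpr.two_le; omega
  have ho : Odd (Fintype.card F) := by
    rcases h with ⟨h1, h2⟩ | ⟨h1, h2⟩
    · rw [h1]; exact Nat.odd_iff.2 hpo
    · rw [h1]; exact (Nat.odd_iff.2 hpo).pow
  have hq9 : 9 ≤ Fintype.card F := by
    rcases h with ⟨h1, h2⟩ | ⟨h1, h2⟩
    · rw [h1]
      by_contra hc
      have : p ≤ 8 := by omega
      have := hpr.one_lt
      omega
    · rw [h1, pow_two]
      exact Nat.mul_le_mul hp3 hp3
  obtain ⟨M, ⟨e⟩⟩ := (Cfsg.Agent.S0804.result (F := F) rfl).2 (by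
    rw [(show Nat.Prime 5 by norm_num).dvd_mul]
    right
    have h16 : Fintype.card F ^ 2 % 5 = 1 := by
      rw [Nat.pow_mod]
      rcases hq5 with h | h <;> rw [h] <;> norm_num
    have : 1 ≤ Fintype.card F ^ 2 := Nat.one_le_pow _ _ (by omega)
    omega)
  refine ⟨M, ?_, ⟨e⟩⟩
  have hM60 : Nat.card M = 60 := by rw [Nat.card_congr e.toEquiv, CfsgH9.Dk.cA5]
  rw [CfsgH9.Dk.d_odd ho] at hcard
  have hbig : 9 * 8 * 10 ≤ Fintype.card F * (Fintype.card F - 1) * (Fintype.card F + 1) :=
    Nat.mul_le_mul (Nat.mul_le_mul hq9 (by omega)) (by omega)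
  haveI : IsSimpleGroup (alternatingGroup (Fin 5)) := alternatingGroup.isSimpleGroup_five
  haveI : Nontrivial M := e.toEquiv.nontrivial
  haveI : IsSimpleGroup M := IsSimpleGroup.isSimpleGroup_of_surjective e.symm.toMonoidHom e.symm.surjective
  refine CfsgH9.Dk.coatom_of ?_ ?_
  · intro h
    have h1 : Nat.card M = Nat.card (Matrix.ProjectiveSpecialLinearGroup (Fin 2) F) := by rw [h, Subgroup.card_top]
    rw [← h1, hM60] at hcard
    omega
  · intro H hMH hH
    have hdv : Nat.card M ∣ Nat.card H := Subgroup.card_dvd_of_le hMH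
    rcases CfsgH9.Dk.overg p hMH (CfsgH9.Dk.nc_of e CfsgH9.Dk.ncA5) (by
      intro m hm _
      rw [CfsgH9.Dk.ord_of e hm]
      have h1 : 2 * orderOf (e ⟨m, hm⟩) < 60 := by
        have := CfsgH9.Dk.ordA5 (e ⟨m, hm⟩)
        omega
      exact lt_of_lt_of_eq h1 hM60.symm) (by
      intro S hS
      obtain ⟨a, ha, b, hb, hab⟩ := CfsgH9.Dk.nc_of e CfsgH9.Dk.ncA5
      exact CfsgH9.Dk.simple_not_borel p S hS ha hb hab Nat.prime_two (by omega) (by
        have : 2 ∣ 60 := by norm_num
        exact this.trans (dvd_of_eq hM60.symm))) with ⟨-, ⟨h'⟩⟩ | ⟨-, ⟨h'⟩⟩ | ⟨-, ⟨h'⟩⟩ | ⟨k, i1, i2, m, hm, h'⟩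
    · exfalso
      have h1 : Nat.card H = 12 := by rw [Nat.card_congr h'.toEquiv, CfsgH9.Dk.cA4]
      rw [h1, hM60] at hdv
      norm_num at hdv
    · exfalso
      have h1 : Nat.card H = 24 := by rw [Nat.card_congr h'.toEquiv, CfsgH9.Dk.cS4]
      rw [h1, hM60] at hdv
      norm_num at hdv
    · have h1 : Nat.card H = 60 := by rw [Nat.card_congr h'.toEquiv, CfsgH9.Dk.cA5]
      rw [h1, hM60]
    · exfalso
      by_cases hkF : Fintype.card k = Fintype.card F
      · exact hH (CfsgH9.Dk.sub_top hkF h')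
      rcases h with ⟨h1, h2⟩ | ⟨h1, h2⟩
      · apply hkF
        have hm1 : m = 1 := by
          rw [h1] at hm
          have h3 := hpr
          rw [← hm] at h3
          exact Nat.Prime.eq_one_of_pow h3
        rw [hm1, pow_one] at hm
        exact hm
      · -- κ = p
        have hk1 : Fintype.card k = p := by
          have h3 : Fintype.card k ∣ p ^ 2 := by
            rw [← h1, ← hm]
            apply dvd_pow_self
            rintro rfl
            rw [pow_zero] at hm
            omega
          rw [Nat.dvd_prime_pow hpr] at h3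
          obtain ⟨c, hc, hc'⟩ := h3
          have hk1 : 1 < Fintype.card k := Fintype.one_lt_card
          interval_cases c
          · rw [hc', pow_zero] at hk1; omega
          · rw [hc', pow_one]
          · exact absurd (hc'.trans h1.symm) hkF
        have h4 : Nat.card H = Fintype.card k * (Fintype.card k - 1) * (Fintype.card k + 1) ∨
          (Odd (Fintype.card k) ∧ 2 * Nat.card H = Fintype.card k * (Fintype.card k - 1) * (Fintype.card k + 1)) := CfsgH9.Dk.card_sub h'
        rw [hk1] at h4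
        have h5 : 5 ∣ p * (p - 1) * (p + 1) := by
          have h6 : 5 ∣ Nat.card H := by
            rw [hM60] at hdv
            exact (show 5 ∣ 60 by norm_num).trans hdv
          rcases h4 with h4 | ⟨-, h4⟩
          · rw [← h4]; exact h6
          · rw [← h4]; exact h6.trans (Dvd.intro_left _ rfl)
        rw [(show Nat.Prime 5 by norm_num).dvd_mul, (show Nat.Prime 5 by norm_num).dvd_mul] at h5
        omega

end Cfsg.Agent.S5939
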