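import Cfsg.Statements.S5947
import Cfsg.Agent.H9.Singer
import Cfsg.Agent.H9.AbGL

set_option autoImplicit false
open Cfsg

namespace Cfsg.Agent.S5947

/-- Let F ⊆ K be finite fields with |F| = q and [K : F] = n ≥ 2, regard K as an n-dimensional F-vector space, and let M ≤ GL_F(K) be the Singer group of multiplications by non-zero elements of K (cyclic of order q^n − 1). Assume (n, q) ≠ (6, 2), and that it is not the case that n = 2 with q a prime such that q + 1 is a power of 2. Then every abelian subgroup of GL_F(K) of order q^n − 1 is conjugate to M. -/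
theorem result {F K : Type*} [Field F] [Fintype F] [Field K] [Fintype K] [Algebra F K] (n : ℕ) (hn : 2 ≤ n) (hdim : Module.finrank F K = n)
    (hex1 : ¬ (n = 6 ∧ Fintype.card F = 2))
    (hex2 : ¬ (n = 2 ∧ (Fintype.card F).Prime ∧ ∃ a : ℕ, Fintype.card F + 1 = 2 ^ a))
    (U : Subgroup (Module.End F K)ˣ) (hU : IsMulCommutative U) (hcard : Nat.card U = Fintype.card K - 1) :
    ∃ g : (Module.End F K)ˣ, U.map (MulAut.conj g).toMonoidHom = (Units.map ((Algebra.lmul F K : K →ₐ[F] Module.End F K) : K →* Module.End F K)).range := by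
  classical
  obtain ⟨p, hpc⟩ := CharP.exists F
  haveI : Fact p.Prime := ⟨CharP.char_is_prime F p⟩
  have hcomm : ∀ a ∈ U, ∀ b ∈ U, a * b = b * a := fun a ha b hb =>
    congrArg Subtype.val (hU.is_comm.comm (⟨a, ha⟩ : U) ⟨b, hb⟩)
  have hpos : 0 < Module.finrank F K := by omega
  have hKc : Fintype.card K = Fintype.card F ^ Module.finrank F K := Module.card_eq_pow_finrank
  have hirr := CfsgH9.AbGL.irr_of_card p U hpos hcomm (by rw [hcard, hKc])
  have hadj : ∀ {v : K}, v ≠ 0 → _ := fun {v} hv => CfsgH9.AbGL.card_adjoin_of_irr U hcomm hirr hv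
  set A := Algebra.adjoin F (Units.val '' (U : Set (Module.End F K)ˣ)) with hA
  obtain ⟨h1, h2, h3⟩ := hadj (one_ne_zero (α := K))
  haveI hfinA : Finite A := by
    haveI : Finite (Module.End F K) := Finite.of_injective (fun g : Module.End F K => (g : K → K)) DFunLike.coe_injective
    infer_instance
  -- A as a field
  have h0 : ∀ a ∈ Units.val '' (U : Set (Module.End F K)ˣ), ∀ b ∈ Units.val '' (U : Set (Module.End F K)ˣ), a * b = b * a := by
    rintro _ ⟨a, ha, rfl⟩ _ ⟨b, hb, rfl⟩
    rw [← Units.val_mul, hcomm a ha b hb, Units.val_mul]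
  letI iCR : CommRing A := Algebra.adjoinCommRingOfComm F h0
  haveI hnt : Nontrivial A := ⟨⟨0, 1, fun h => by
    have := congrArg (fun a : A => (a : Module.End F K) 1) h
    exact zero_ne_one this⟩⟩
  haveI hnzd : NoZeroDivisors A := ⟨by
    intro a b hab
    by_cases hb : b = 0
    · exact Or.inr hb
    · left
      have hb1 : (b : Module.End F K) 1 ≠ 0 := fun h => hb (Subtype.ext (h1 b b.2 h))
      obtain ⟨h4, -, -⟩ := hadj hb1
      have h5 : (a : Module.End F K) ((b : Module.End F K) 1) = 0 := by
        have := congrArg (fun a : A => (a : Module.End F K) 1) hab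
        exact this
      exact Subtype.ext (h4 a a.2 h5)⟩
  haveI : IsDomain A := NoZeroDivisors.to_isDomain A
  have hF : IsField A := Finite.isField_of_domain A
  letI iF : Field A := hF.toField
  -- evaluation at 1
  let ev : A →ₗ[F] K := (LinearMap.applyₗ (1 : K)).comp A.val.toLinearMap
  have hev : Function.Bijective ev := by
    constructor
    · rw [injective_iff_map_eq_zero]
      intro a ha
      exact Subtype.ext (h1 a a.2 ha)
    · intro x
      obtain ⟨a, ha, hax⟩ := h2 x
      exact ⟨⟨a, ha⟩, hax⟩
  have hrk : Module.finrank F A = Module.finrank F K := (LinearEquiv.ofBijective ev hev).finrank_eq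
  obtain ⟨ψ⟩ := FiniteField.nonempty_algHom_of_finrank_dvd (F := F) (K := K) (L := A) (by rw [hrk])
  -- nonzero elements of A are in U
  have hAU : ∀ a : A, a ≠ 0 → ∃ u ∈ U, (u : Module.End F K) = a := by
    let f : U → {a : A // a ≠ 0} := fun u => ⟨⟨(u : (Module.End F K)ˣ), Algebra.subset_adjoin ⟨u, u.2, rfl⟩⟩, fun h => by
      have h4 := congrArg (fun a : A => (a : Module.End F K)) h
      exact (u : (Module.End F K)ˣ).ne_zero h4⟩
    have hf : Function.Injective f := fun a b hab => by
      have h4 := congrArg (fun a : {a : A // a ≠ 0} => ((a : A) : Module.End F K)) hab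
      exact Subtype.ext (Units.ext h4)
    haveI : Fintype U := Fintype.ofFinite U
    haveI : Fintype A := Fintype.ofFinite A
    have hcA : Fintype.card A = Fintype.card K := Fintype.card_congr (Equiv.ofBijective ev hev)
    have hbij : Function.Bijective f := by
      rw [Fintype.bijective_iff_injective_and_card]
      refine ⟨hf, ?_⟩
      rw [← Nat.card_eq_fintype_card, hcard]
      change _ = Fintype.card {a : A // ¬ a = 0}
      rw [Fintype.card_subtype_compl, Fintype.card_subtype_eq, hcA]
    intro a ha
    obtain ⟨u, hu⟩ := hbij.2 ⟨a, ha⟩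
    exact ⟨u, u.2, congrArg (fun a : {a : A // a ≠ 0} => ((a : A) : Module.End F K)) hu⟩
  -- the intertwiner
  let g0 : K →ₗ[F] K := ev.comp ψ.toLinearMap
  have hg0 : Function.Bijective g0 := by
    have hinj : Function.Injective g0 := hev.1.comp ψ.toRingHom.injective
    exact ⟨hinj, Finite.injective_iff_surjective.1 hinj⟩
  let ge : K ≃ₗ[F] K := LinearEquiv.ofBijective g0 hg0
  let g : (Module.End F K)ˣ := ⟨ge.toLinearMap, ge.symm.toLinearMap,
    LinearMap.ext fun x => ge.apply_symm_apply x, LinearMap.ext fun x => ge.symm_apply_apply x⟩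
  have hgap : ∀ x, (g : Module.End F K) x = ((ψ x : A) : Module.End F K) 1 := fun x => rfl
  set M := (Units.map ((Algebra.lmul F K : K →ₐ[F] Module.End F K) : K →* Module.End F K)).range with hM
  have hMc : Nat.card M = Fintype.card K - 1 := CfsgH9.Singer.card_sg
  have hle : M.map (MulAut.conj g).toMonoidHom ≤ U := by
    rintro _ ⟨_, ⟨k, rfl⟩, rfl⟩
    obtain ⟨u, hu, huk⟩ := hAU (ψ k) (by
      rw [Ne, map_eq_zero]; exact k.ne_zero)
    have h4 : g * CfsgH9.Singer.sg F K k * g⁻¹ = u := by
      rw [mul_inv_eq_iff_eq_mul]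
      apply Units.ext
      apply LinearMap.ext
      intro x
      rw [Units.val_mul, Units.val_mul, Module.End.mul_apply, Module.End.mul_apply, CfsgH9.Singer.sg_apply, hgap, hgap, huk,
        map_mul]
      rfl
    change g * CfsgH9.Singer.sg F K k * g⁻¹ ∈ U
    rw [h4]; exact hu
  have heq : M.map (MulAut.conj g).toMonoidHom = U := by
    apply Subgroup.eq_of_le_of_card_ge hle
    rw [hcard, ← hMc]
    exact (Nat.card_congr (Subgroup.equivMapOfInjective _ _ (MulAut.conj g).injective).toEquiv).le
  refine ⟨g⁻¹, ?_⟩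
  rw [← heq, Subgroup.map_map]
  convert Subgroup.map_id M using 2
  ext x; simp [mul_assoc]

end Cfsg.Agent.S5947
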